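import Cfsg.Agent.WA.IZd1
import Cfsg.Agent.WA.IZdL
import Cfsg.Agent.WA.IZdQ1
import Cfsg.Agent.WA.IZdQ2
import Cfsg.Agent.WA.IZdQ3
import Cfsg.Agent.WA.TeM
import Cfsg.Agent.WA.GMain

/-! The main theorem (PLAN_ZD.md). -/

set_option autoImplicit false
set_option linter.unusedSectionVars false
set_option linter.unusedVariables false

namespace Cfsg.Agent.WA.Zd

open Subgroup MulAction Cfsg.Agent.FT Cfsg.Agent.L0 Cfsg.Agent.H8 Cfsg.Agent.BS Cfsg.Agent.WA.Te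
open Cfsg.Agent.H7 (opp)
open scoped Pointwise commutatorElement

universe u

variable {G Ω : Type u} [Group G] [Finite G] [MulAction G Ω] {𝒮 D : Set G} {a b c : Ω} {d e g k s t u w x y z : G}
  {L P T : Subgroup G} {A R : Ω → Subgroup G} {q r m lam : ℕ}

theorem Pz.false [IsSimpleGroup G] (h : Pz Ω 𝒮 D) : False := by
  obtain ⟨t, ht, ht', d, hd, e, he, hne, hc, h1, h2⟩ := h.type1
  obtain ⟨A, R, q, r, hl⟩ := h.lt ht ht' hd he hne hc h1 h2
  obtain ⟨m, lam, hc⟩ := h.ct hl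
  rcases hl.cases with e | e | e
  exacts [hc.q1 e, hc.q2 e, hc.q3 e]

theorem ZD.sub (h : ZD Ω 𝒮 D) (L : Subgroup G) : ZD Ω {x : L | (x : G) ∈ 𝒮} {x : L | (x : G) ∈ D} where
  td := h.td.sub L
  memD d := (h.memD d).trans (and_congr_right fun _ =>
    ⟨fun i => ⟨Subtype.ext i.1, fun e => i.2 (congrArg Subtype.val e)⟩,
      fun i => ⟨congrArg Subtype.val i.1, fun e => i.2 (Subtype.ext e)⟩⟩)
  one := h.one
  two s hs := (h.two s hs).imp fun _ e => Subtype.ext e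
  conj s hs g := h.conj s hs g
  mul P hP s hs s' hs' h1 h2 := h.mul _ (hP.map L.subtype) s hs s' hs' ⟨s, h1, rfl⟩ ⟨s', h2, rfl⟩

theorem ZD.subAct (h : ZD Ω 𝒮 D) (S : SubMulAction G Ω) (hS : ∀ c ∈ Cov Ω D, c ∈ S) : ZD S 𝒮 D :=
  ⟨h.td.subAct S hS, h.memD, h.one, h.two, h.conj, h.mul⟩

theorem ZD.map {G' : Type u} [Group G'] [Finite G'] [MulAction G' Ω] (h : ZD Ω 𝒮 D) (f : G →* G')
    (hf : Function.Surjective f) (hs : ∀ (g : G) (c : Ω), f g • c = g • c) (h2 : ∃ a b : Ω, a ≠ b) :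
    ZD Ω (f '' 𝒮) (f '' D) := by
  obtain ⟨a, b, hab⟩ := h2
  have h1 : ∀ s ∈ 𝒮, f s = 1 → s = 1 := fun s hs' e =>
    h.eq_one hs' hab (by rw [← hs, e, one_smul]) (by rw [← hs, e, one_smul])
  have memD : ∀ d, d ∈ f '' D ↔ d ∈ f '' 𝒮 ∧ Invo d := fun d => ⟨by
    rintro ⟨d, hd, rfl⟩
    exact ⟨⟨d, h.mem hd, rfl⟩, by rw [← map_mul, (h.td.invo d hd).1, map_one],
      fun e => (h.td.invo d hd).2 (h1 d (h.mem hd) e)⟩, by
    rintro ⟨⟨s, hs', rfl⟩, i⟩
    exact ⟨s, (h.memD s).2 ⟨hs', h1 _ (sq s ▸ h.pow_mem hs' 2) (by rw [map_mul, i.1]), fun e => i.2 (by rw [e, map_one])⟩,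
      rfl⟩⟩
  have mul : ∀ P : Subgroup G', IsPGroup 2 P → ∀ s ∈ f '' 𝒮, ∀ s' ∈ f '' 𝒮, s ∈ P → s' ∈ P → s * s' ∈ f '' 𝒮 := by
    rintro P hP _ ⟨s, m, rfl⟩ _ ⟨s', m', rfl⟩ h3 h4
    obtain ⟨T, hT, hsT⟩ := exists_isSylowIn_ge (pgroup_zpowers_of_pow (h.two s m)) (zpowers_le.2 (show s ∈ P.comap f from h3))
    obtain ⟨T', hT', hsT'⟩ := exists_isSylowIn_ge (pgroup_zpowers_of_pow (h.two s' m'))
      (zpowers_le.2 (show s' ∈ P.comap f from h4))
    obtain ⟨g, hg, rfl⟩ := hT.exists_cj_eq hT'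
    obtain ⟨x, hx, rfl⟩ := hsT' (mem_zpowers s')
    have h5 := hT.map f
    rw [map_comap_eq_self_of_surjective hf] at h5
    obtain ⟨t, ht, e⟩ : f g ∈ T.map f := (h5.3 P le_rfl hP h5.le).le hg
    have h6 : x ∈ 𝒮 := by simpa [mul_assoc] using h.conj _ m' g⁻¹
    exact ⟨_, h.mul T hT.pgroup s m _ (h.conj x h6 t) (hsT (mem_zpowers s)) (T.mul_mem (T.mul_mem ht hx) (T.inv_mem ht)),
      by simp [e]⟩
  refine ⟨⟨fun d hd => ((memD d).1 hd).2, ?_, ?_, fun d hd e he hc hne => ?_⟩, memD, ⟨1, h.one, map_one f⟩, ?_, ?_, mul⟩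
  · rintro _ ⟨d, hd, rfl⟩ g
    obtain ⟨g, rfl⟩ := hf g
    exact ⟨_, h.td.conj d hd g, by simp⟩
  · rintro _ ⟨d, hd, rfl⟩
    simpa only [hs] using h.td.fix d hd
  · obtain ⟨h3, h4⟩ := (memD d).1 hd
    obtain ⟨h5, h6⟩ := (memD e).1 he
    exact (memD _).2 ⟨mul _ (T4.four_pgroup h4 h6 hc) d h3 e h5 (subset_closure (by simp)) (subset_closure (by simp)),
      h4.mul_of_comm h6 hc hne⟩
  · rintro _ ⟨s, hs', rfl⟩
    exact (h.two s hs').imp fun n e => by rw [← map_pow, e, map_one]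
  · rintro _ ⟨s, hs', rfl⟩ g
    obtain ⟨g, rfl⟩ := hf g
    exact ⟨_, h.conj s hs' g, by simp⟩

/-- the theorem holds for groups of order `< n` -/
def IHz (n : ℕ) : Prop :=
  ∀ (G Ω : Type u) [Group G] [Finite G] [MulAction G Ω] (𝒮 D : Set G), Nat.card G < n → ZD Ω 𝒮 D → Co Ω D

theorem IHz.sub {n : ℕ} (ih : IHz.{u} n) (h : ZD Ω 𝒮 D) (hL : #|L| < n) : Co Ω (D ∩ L) := by
  intro t ht i a ⟨d, hd, ha⟩ b ⟨e, he, hb⟩ h1 h2
  obtain ⟨t', ht', rfl⟩ := (closure_sub D L).ge ht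
  exact ih L Ω _ _ hL (h.sub L) t' ht' ⟨Subtype.ext i.1, fun e => i.2 (congrArg Subtype.val e)⟩ a ⟨⟨d, hd.2⟩, hd.1, ha⟩ b
    ⟨⟨e, he.2⟩, he.1, hb⟩ h1 h2

theorem TD.simple [IsSimpleGroup G] (h : TD Ω D) (hG : ¬ IsMulCommutative G) (hd : d ∈ D)
    (hc : ∀ d ∈ D, ∀ e ∈ D, (∃ n, (d * e) ^ 2 ^ n = 1) → d * e = e * d) (ht : Invo t) : t ∈ D := by
  obtain ⟨T, hT, hdT⟩ := exists_isSylowIn_ge (h.invo d hd).pgroup_zpowers le_top
  let A : Subgroup G :=
    { carrier := {x | x ∈ T ∧ (x = 1 ∨ x ∈ D)}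
      one_mem' := ⟨one_mem _, Or.inl rfl⟩
      mul_mem' := fun {x y} hx hy => ⟨mul_mem hx.1 hy.1, by
        rcases hx.2 with rfl | h1
        · simpa using hy.2
        rcases hy.2 with rfl | h2
        · simpa using hx.2
        by_cases e : x = y
        · exact Or.inl (e ▸ (h.invo x h1).1)
        · exact Or.inr (h.mul x h1 y h2 (hc x h1 y h2
            ((hT.pgroup ⟨_, mul_mem hx.1 hy.1⟩).imp fun _ e => congrArg Subtype.val e)) e)⟩
      inv_mem' := fun {x} hx => ⟨inv_mem hx.1, hx.2.imp inv_eq_one.2 fun h1 => (h.invo x h1).inv_eq.symm ▸ h1⟩ }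
  have cj' : ∀ x, x = 1 ∨ x ∈ D → ∀ g : G, g * x * g⁻¹ = 1 ∨ g * x * g⁻¹ ∈ D := fun x hx g =>
    hx.imp (fun e => by simp [e]) fun e => h.conj x e g
  have hTN : T ≤ 𝐍(A) := fun g hg => mem_normalizer_of_cj_le (by
    rintro _ ⟨x, hx, rfl⟩
    exact ⟨mul_mem (mul_mem hg hx.1) (inv_mem hg), cj' x hx.2 g⟩)
  have sc : GS.SC A ⊤ := ⟨le_top, fun x hx => hx.2.elim (fun e => by simp [e]) fun e => (h.invo x e).1,
    fun x hx g _ hn => by
      have h1 := cj' x hx.2 g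
      generalize g * x * g⁻¹ = y at hn h1
      rcases h1 with rfl | h1
      · exact one_mem _
      obtain ⟨T', hT', h2⟩ := exists_isSylowIn_ge (h.invo y h1).pgroup_zpowers (zpowers_le.2 hn)
      obtain ⟨k, hk, rfl⟩ := (hT.of_le hTN le_top).exists_cj_eq hT'
      obtain ⟨z, hz, rfl⟩ := h2 (mem_zpowers y)
      exact (mem_normalizer_iff.1 hk z).1 ⟨hz, Or.inr (by simpa [mul_assoc] using h.conj _ h1 k⁻¹)⟩⟩
  have syl : IsSylowIn 2 A ⊤ → t ∈ D := fun hA => by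
    obtain ⟨T', hT', h2⟩ := exists_isSylowIn_ge ht.pgroup_zpowers le_top
    obtain ⟨k, -, rfl⟩ := hA.exists_cj_eq hT'
    obtain ⟨z, hz, rfl⟩ := h2 (mem_zpowers t)
    exact (cj' z hz.2 k).resolve_left ht.2
  rcases GS.gs hG sc (fun e => (h.invo d hd).2 (mem_bot.1 (e ▸ (⟨hdT (mem_zpowers d), Or.inr hd⟩ : d ∈ A)))) with
    h1 | h1 | h1
  · obtain ⟨g, rfl⟩ := (se_of_stronglyEmbedded h1).isConj (h.invo d hd) ht
    exact h.conj d hd g
  exacts [syl h1.1, syl h1.1]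

theorem ZD.core (hz : ZD Ω 𝒮 D) (ih : IHz.{u} (Nat.card G)) (hg : closure D = ⊤) (hc : ∀ a : Ω, a ∈ Cov Ω D) : Co Ω D := by
  have h := hz.td
  intro t ht0 i a ha0 b hb0 ha hb
  by_contra hab
  have htD : t ∉ D := fun m => hab (h.eq_of_fix m ha hb)
  have hconj : ∀ d ∈ D, ∀ e ∈ D, ∃ g : G, g * d * g⁻¹ = e := fun d hd e he => by
    obtain ⟨g, -, e1⟩ := h.conj_in (L := ⊤) (by simpa using hc a) (by simpa using hc b) hab hd trivial he trivial
    exact ⟨g, e1⟩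
  have oO : Odd #|pPrimeCore 2 G| := Nat.not_even_iff_odd.mp fun h => not_dvd_card_pPrimeCore h.two_dvd
  have sup : ∀ (N : Subgroup G) [N.Normal], ∀ d ∈ D, ∀ x ∈ N ⊔ zpowers d, x ∈ N ∨ x * d ∈ N := fun N _ d hd x hx => by
    have : x ∈ (N : Set G) * (zpowers d : Set G) := by rw [← normal_mul]; exact hx
    obtain ⟨y, hy, z, hz, rfl⟩ := this
    rcases (h.invo d hd).mem_zpowers_iff.mp hz with rfl | rfl
    · exact Or.inl (by simpa using hy)
    · exact Or.inr (by rwa [(h.invo z hd).mul_mul'])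
  have hr : ∃ d ∈ D, ∃ e ∈ D, d ≠ e ∧ d * e = e * d := by
    by_contra hn
    push Not at hn
    obtain ⟨d, hd, -⟩ := hc a
    have id := h.invo d hd
    have z := H7.zstar_commute id.1 fun g hg => by
      by_contra h1
      exact hn d hd _ (h.conj d hd g) (Ne.symm h1) hg.eq
    have : closure D ≤ pPrimeCore 2 G ⊔ zpowers d := (closure_le _).2 fun e he => by
      obtain ⟨g, rfl⟩ := hconj d hd e he
      have := mul_mem (mem_sup_right (mem_zpowers d)) (mem_sup_left (T := zpowers d) (z g))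
      rwa [commutatorElement_def, id.inv_eq, ← mul_assoc, ← mul_assoc, ← mul_assoc, id.1, one_mul] at this
    rcases sup _ d hd t (this (hg ▸ mem_top t)) with m | m
    · exact not_invo_of_odd oO m i
    · obtain ⟨w, hw, e, -⟩ := exists_invo_conj i id (odd_orderOf_of_mem oO m)
      exact htD (by simpa [← e, hw.inv_eq, hw.mul_mul, hw.mul_mul', mul_assoc, hw.1] using h.conj d hd w)
  have quo : ∀ (N : Subgroup G) [N.Normal] (hk : N ≤ (toPermHom G Ω).ker), N ≠ ⊥ →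
      letI : MulAction (G ⧸ N) Ω := MulAction.compHom Ω (QuotientGroup.lift _ (toPermHom G Ω) hk)
      TD Ω (QuotientGroup.mk' N '' D) ∧ Co Ω (QuotientGroup.mk' N '' D) ∧ ∀ c : Ω, c ∈ Cov Ω (QuotientGroup.mk' N '' D) :=
    fun N _ hk h1 => by
      let _i : MulAction (G ⧸ N) Ω := MulAction.compHom Ω (QuotientGroup.lift _ (toPermHom G Ω) hk)
      have h' := hz.map (QuotientGroup.mk' N) (QuotientGroup.mk'_surjective _) (fun _ _ => rfl) ⟨a, b, hab⟩
      exact ⟨h'.td, ih _ Ω _ _ (card_quotient_lt' h1) h', fun c => (hc c).elim fun d hd => ⟨_, ⟨d, hd.1, rfl⟩, hd.2⟩⟩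
  have hO : pPrimeCore 2 G = ⊥ := by
    by_contra hO
    have hk : pPrimeCore 2 G ≤ (toPermHom G Ω).ker := fun x hx => Equiv.ext fun c => by
      obtain ⟨d, hd, e, he, hne, hde⟩ := hr
      obtain ⟨a, ha, -⟩ := h.fix d hd
      obtain ⟨g, -, rfl⟩ := h.trans hc a c
      have hea := h.fix_of_comm hd ha hde.symm
      have key : ∀ d ∈ D, d • a = a → pPrimeCore 2 G ⊓ 𝐂[d] ≤ stabilizer G a := fun d hd ha x hx =>
        h.fix_of_comm hd ha (mem_centralizer_singleton_iff.1 hx.2)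
      have := T4.le_of_four oO (h.invo d hd) (h.invo e he) hne hde (by rw [normalizer_eq_top]; trivial)
        (by rw [normalizer_eq_top]; trivial) (key d hd ha) (key e he hea)
        (key _ (h.mul d hd e he hde hne) (by rw [mul_smul, hea, ha]))
        ((inferInstance : (pPrimeCore 2 G).Normal).conj_mem' x hx g)
      rw [mem_stabilizer_iff, mul_smul, mul_smul] at this
      exact inv_smul_eq_iff.mp this
    obtain ⟨-, co, cov⟩ := quo _ hk hO
    exact hab (co (QuotientGroup.mk t) (by rw [← MonoidHom.map_closure, hg]; exact ⟨t, trivial, rfl⟩) (i.mk oO)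
      a (cov a) b (cov b) ha hb)
  have hN : ∀ N : Subgroup G, N.Normal → N ≠ ⊤ → N ≤ center G := fun N hN hne n hn => by
    have hD : ∀ d ∈ D, d ∉ N := fun d hd m => hne (eq_top_iff.mpr (hg ▸ (closure_le _).2 fun e he => by
      obtain ⟨g, rfl⟩ := hconj d hd e he
      exact hN.conj_mem d m g))
    have key : ∀ d ∈ D, d * n = n * d := fun d hd => by
      have id := h.invo d hd
      have m1 : ∀ g ∈ N, d * (g * d * g⁻¹) ∈ N := fun g hg => by
        have := N.mul_mem (hN.conj_mem g hg d) (N.inv_mem hg)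
        rwa [id.inv_eq, show d * g * d * g⁻¹ = d * (g * d * g⁻¹) by group] at this
      have z := H7.zstar_commute_in (H := N ⊔ zpowers d) id.1 (mem_sup_right (mem_zpowers d)) (fun g hg hcm => by
        by_contra h1
        refine hD _ (h.mul d hd _ (h.conj d hd g) hcm.eq (Ne.symm h1)) ?_
        rcases sup N d hd g hg with m | m
        · exact m1 g m
        · have := m1 _ m
          rwa [show g * d * d * (g * d)⁻¹ = g * d * g⁻¹ by group] at this) (mem_sup_left hn)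
      have m2 : ⁅d, n⁆ ∈ opp 2 N := H7.opp_inf_le le_sup_left ⟨z, by
        rw [commutatorElement_def]; exact N.mul_mem (hN.conj_mem n hn d) (N.inv_mem hn)⟩
      have m3 : opp 2 N ≤ pPrimeCore 2 G := le_pPrimeCore' (normalizer_eq_top_iff.mp (eq_top_iff.mpr
        ((normalizer_eq_top N).ge.trans (H7.normalizer_le_normalizer_opp N)))) (H7.not_dvd_card_opp N)
      exact commutatorElement_eq_one_iff_mul_comm.mp (mem_bot.mp (hO ▸ m3 m2))
    have : closure D ≤ 𝐂[n] := (closure_le _).2 fun d hd => mem_centralizer_singleton_iff.mpr (key d hd)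
    exact mem_center_iff.mpr fun g => mem_centralizer_singleton_iff.mp (this (hg ▸ mem_top g))
  have hZ : center G = ⊥ := eq_bot_iff.mpr (hO ▸ le_pPrimeCore' inferInstance (Odd.not_two_dvd_nat
    (odd_card_of_no_invo fun z hz' iz => by
      have zc := mem_center_iff.1 hz'
      have : (zpowers z).Normal :=
        ⟨fun x hx g => by rwa [mem_center_iff.1 (zpowers_le.2 hz' hx) g, mul_inv_cancel_right]⟩
      have hk : zpowers z ≤ (toPermHom G Ω).ker := zpowers_le.2 (Equiv.ext fun c => by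
        obtain ⟨d, hd, e⟩ := hc c
        exact h.fix_of_comm hd e (zc d).symm)
      obtain ⟨td, co, cov⟩ := quo _ hk (by simpa using iz.2)
      let _i : MulAction (G ⧸ zpowers z) Ω := MulAction.compHom Ω (QuotientGroup.lift _ (toPermHom G Ω) hk)
      have hs : ∀ (g : G) (c : Ω), QuotientGroup.mk' (zpowers z) g • c = g • c := fun _ _ => rfl
      refine hab ((h.te fun d hd e he c dc ec => ?_).co t ht0 i a ha0 b hb0 ha hb)
      have id := h.invo d hd
      have ie := h.invo e he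
      have h1 : ∀ c : Ω, (d * e) ^ 2 • c = c := fun c' => by
        have := td.comm_ker co cov ⟨a, b, hab⟩ (by
          obtain ⟨d, hd, e, he, h1, h3⟩ := hr
          refine ⟨_, ⟨d, hd, rfl⟩, _, ⟨e, he, rfl⟩, fun h4 => ?_, by rw [← map_mul, h3, map_mul]⟩
          refine hab (h.eq_of_fix (h.mul d hd e he h3 h1) ?_ ?_) <;>
            rw [← hs, map_mul, h4, (td.invo _ ⟨e, he, rfl⟩).1, one_smul]) ⟨d, hd, rfl⟩ ⟨e, he, rfl⟩ dc ec c'
        rwa [← map_commutatorElement, hs, commutatorElement_def, id.inv_eq, ie.inv_eq, mul_assoc (d * e), ← sq] at this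
      have h2 := mem_center_iff.1 (hN (toPermHom G Ω).ker inferInstance (fun e => hab (h.eq_of_fix hd
        (DFunLike.congr_fun (e.ge (mem_top d)) a) (DFunLike.congr_fun (e.ge (mem_top d)) b))) (Equiv.ext h1)) d
      have h3 := inv_de id.1 ie.1 2
      rw [h2, id.mul_mul'] at h3
      have h4 : (d * e) ^ 2 = 1 := by
        by_contra h4
        exact hab (h.eq_of_fix (h.mem_of_pow hd he ⟨eq_inv_iff_mul_eq_one.1 h3, h4⟩) (h1 a) (h1 b))
      rw [sq] at h4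
      rw [eq_inv_of_mul_eq_one_left h4, mul_inv_rev, id.inv_eq, ie.inv_eq])))
  have : Nontrivial G := ⟨t, 1, i.2⟩
  have : IsSimpleGroup G := ⟨fun N hN' => by
    by_cases h1 : N = ⊤
    · exact Or.inr h1
    · exact Or.inl (eq_bot_iff.mpr (hZ ▸ hN N hN' h1))⟩
  obtain ⟨d, hd, -⟩ := hc a
  refine Pz.false ⟨hz, fun L hL => ih.sub hz ?_, hc, ⟨a, b, hab⟩, ⟨t, i, htD⟩, ?_⟩
  · rw [← card_top (G := G)]; exact card_lt_of_lt (lt_top_iff_ne_top.2 hL)
  · by_contra hn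
    push Not at hn
    refine htD (h.simple (fun hc => i.2 (mem_bot.1 (hZ ▸ mem_center_iff.2 fun g => hc.is_comm.comm g t))) hd
      (fun d hd e he ⟨n, h1⟩ => ?_) i)
    by_contra h2
    exact hn d hd e he h2 n h1

theorem ihz (n : ℕ) : IHz.{u} n := by
  induction n using Nat.strong_induction_on with | _ n ih => ?_
  intro G Ω _ _ _ 𝒮 D hn h
  have ih' := ih _ hn
  by_cases hg : closure D = ⊤
  · let S : SubMulAction G Ω :=
      ⟨Cov Ω D, fun g c hc => by simpa using h.td.cov_smul (L := ⊤) (g := g) trivial (by simpa using hc)⟩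
    have := (h.subAct S fun c hc => hc).core ih' hg fun ⟨c, d, hd, e⟩ => ⟨d, hd, Subtype.ext e⟩
    intro t ht i a ha b hb h1 h2
    obtain ⟨d, hd, e1⟩ := id ha
    obtain ⟨e, he, e2⟩ := id hb
    exact congrArg Subtype.val (this t ht i ⟨a, ha⟩ ⟨d, hd, Subtype.ext e1⟩ ⟨b, hb⟩ ⟨e, he, Subtype.ext e2⟩
      (Subtype.ext h1) (Subtype.ext h2))
  · have := ih'.sub (L := closure D) h (by rw [← card_top (G := G)]; exact card_lt_of_lt (lt_top_iff_ne_top.2 hg))
    rwa [Set.inter_eq_left.mpr Subgroup.subset_closure] at this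

/-- **Theorem.** The involutions of `⟨D⟩` fix at most one of the points fixed by elements of `D`. -/
theorem ZD.co (h : ZD Ω 𝒮 D) : Co Ω D := ihz _ G Ω 𝒮 D (Nat.lt_succ_self _) h

end Cfsg.Agent.WA.Zd
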