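import Cfsg.Agent.WA.IZdB

/-! Proper subgroups (PLAN_ZD.md). -/

set_option autoImplicit false
set_option linter.unusedSectionVars false
set_option linter.unusedVariables false

namespace Cfsg.Agent.WA.Zd

open Subgroup MulAction Cfsg.Agent.FT Cfsg.Agent.L0 Cfsg.Agent.H8 Cfsg.Agent.BS Cfsg.Agent.WA.Te
open Cfsg.Agent.H7 (opp)
open scoped Pointwise commutatorElement

universe u

variable {G Ω : Type u} [Group G] [Finite G] [MulAction G Ω] {𝒮 D : Set G} {a b c : Ω} {d e g k s t u w x y z : G}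
  {L P T : Subgroup G} {A R : Ω → Subgroup G} {q r m lam : ℕ}

open T4 SF

/-- all involutions of `⟨D ∩ L⟩` lie in `D` -/
theorem TD.invX (h : TD Ω D) (co : Co Ω (D ∩ L)) (ha : a ∈ Cov Ω (D ∩ L)) (hb : b ∈ Cov Ω (D ∩ L)) (hab : a ≠ b)
    (hs : s ∈ closure (D ∩ L)) (i : Invo s) : s ∈ D := by
  by_contra hn
  have key : ∀ c ∈ Cov Ω (D ∩ L), s • c = c := fun c hc => by
    obtain ⟨x, hd, hx⟩ := id hc
    have ix := h.invo x hd.1
    by_cases ho : Odd (orderOf (x * s))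
    · obtain ⟨w, hw, e, -⟩ := exists_invo_conj ix i ho
      exact absurd (by simpa [hw.inv_eq, e] using h.conj x hd.1 w) hn
    · obtain ⟨n, hn⟩ := exists_invo_pow_of_even (Nat.not_odd_iff_even.1 ho)
      have f := h.fix_of_comm hd.1 hx (comm_of_invo ix.1 hn.1 (inv_de ix.1 i.1 n))
      have c1 := comm_of_invo i.1 hn.1 (inv_de' ix.1 i.1 n)
      exact co _ (pow_mem (mul_mem (subset_closure hd) hs) n) hn _
        (h.cov_smul ((closure_le L).2 Set.inter_subset_right hs) hc) c hc (smul_fix_of_comm c1.symm f) f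
  exact hab (co s hs i a ha b hb (key a ha) (key b hb))

/-- `L` is proper, contains two commuting elements of `D` and one fixing `a`, and does not fix `a` -/
structure BZ (D : Set G) (L : Subgroup G) (a : Ω) : Prop where
  ne : L ≠ ⊤
  four : ∃ d ∈ D ∩ L, ∃ e ∈ D ∩ L, d ≠ e ∧ d * e = e * d
  inv : a ∈ Cov Ω (D ∩ L)
  mv : ∃ g ∈ L, g • a ≠ a

/-- the kernel of `⟨D ∩ L⟩` on its orbit -/
abbrev WW (D : Set G) (L : Subgroup G) (a : Ω) : Subgroup G := kerO (closure (D ∩ L)) a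

theorem XX_le (D : Set G) (L : Subgroup G) : closure (D ∩ L) ≤ L := (closure_le L).2 Set.inter_subset_right

variable [IsSimpleGroup G]

namespace BZ
variable (h : Pz Ω 𝒮 D) (hL : BZ D L a)
include h hL

theorem pt (hb : b ∈ Cov Ω (D ∩ L)) : ∃ g ∈ closure (D ∩ L), g • a = b := by
  by_cases e : a = b
  · exact ⟨1, one_mem _, by rw [one_smul, e]⟩
  · obtain ⟨w, h1, h2, h3, -⟩ := h.td.exists_swap_in hL.inv hb e
    exact ⟨w, subset_closure ⟨h1, h2⟩, h3⟩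

theorem orb (hg : g ∈ L) : ∃ x ∈ closure (D ∩ L), x • a = g • a := hL.pt h (h.td.cov_smul hg hL.inv)

theorem mvX : ∃ g ∈ closure (D ∩ L), g • a ≠ a := by
  obtain ⟨g, hg, hga⟩ := hL.mv
  obtain ⟨x, hx, e⟩ := hL.orb h hg
  exact ⟨x, hx, e ▸ hga⟩

theorem invX (hs : s ∈ closure (D ∩ L)) (i : Invo s) : s ∈ D := by
  obtain ⟨g, hg, hga⟩ := hL.mv
  exact h.td.invX (h.loc L hL.ne) hL.inv (h.td.cov_smul hg hL.inv) hga.symm hs i

theorem W_fix (hx : x ∈ WW D L a) (hg : g ∈ L) : x • g • a = g • a := by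
  obtain ⟨y, hy, e⟩ := hL.orb h hg
  exact e ▸ hx.2 y hy

theorem W_le : WW D L a ≤ L := fun x hx => XX_le D L hx.1

theorem W_st2 (hg : g ∈ L) : WW D L a ≤ st2 G a (g • a) := fun x hx => ⟨kerO_fix hx, hL.W_fix h hx hg⟩

theorem W_norm : L ≤ 𝐍(WW D L a) := fun g hg => mem_normalizer_of_cj_le (by
  rintro _ ⟨x, hx, rfl⟩
  refine ⟨conj_mem_of_le_normalizer (h.td.norm_closure L) hg hx.1, fun g' hg' => ?_⟩
  have := hL.W_fix h hx (mul_mem (inv_mem hg) (XX_le D L hg'))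
  show (g * x * g⁻¹) • g' • a = g' • a
  rw [mul_smul] at this
  rw [mul_smul, mul_smul, this, smul_inv_smul])

theorem W_smul (hg : g ∈ L) : WW D L (g • a) = WW D L a := by
  obtain ⟨y, hy, e⟩ := hL.orb h hg
  rw [← e]; exact kerO_smul a hy

theorem odd_ker : Odd #|WW D L a| := odd_card_of_no_invo fun s hs i => by
  obtain ⟨g, hg, hga⟩ := hL.mv
  exact hga (h.td.eq_of_fix (hL.invX h hs.1 i) (hL.W_fix h hs hg) (kerO_fix hs))

theorem conj (hu : u ∈ D) (huL : u ∈ L) (hw : w ∈ D) (hwL : w ∈ L) : ∃ x ∈ closure (D ∩ L), x * u * x⁻¹ = w := by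
  obtain ⟨g, hg, hga⟩ := hL.mv
  exact h.td.conj_in hL.inv (h.td.cov_smul hg hL.inv) hga.symm hu huL hw hwL

theorem exists_comm (hu : u ∈ D) (huL : u ∈ L) : ∃ v ∈ L, v ∈ D ∧ u ≠ v ∧ u * v = v * u := by
  obtain ⟨s, hs, t, ht, hne, hc⟩ := hL.four
  obtain ⟨x, hx, rfl⟩ := hL.conj h hs.1 hs.2 hu huL
  have hx := XX_le D L hx
  refine ⟨x * t * x⁻¹, mul_mem (mul_mem hx ht.2) (inv_mem hx), h.td.conj t ht.1 x, fun e => hne (by simpa using e), ?_⟩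
  calc _ = x * (s * t) * x⁻¹ := by group
    _ = _ := by rw [hc]; group

theorem smul (hg : g ∈ L) : BZ D L (g • a) := by
  obtain ⟨x, hx, hxa⟩ := hL.mv
  exact ⟨hL.ne, hL.four, h.td.cov_smul hg hL.inv,
    ⟨_, mul_mem (mul_mem hg hx) (inv_mem hg), by rw [conj_smul_smul]; exact fun e => hxa (MulAction.injective g e)⟩⟩

omit h in
theorem mono {L' : Subgroup G} (h1 : L ≤ L') (h2 : L' ≠ ⊤) : BZ D L' a := by
  obtain ⟨s, hs, hsa⟩ := hL.inv
  obtain ⟨x, hx, hxa⟩ := hL.mv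
  obtain ⟨u, hu, v, hv, h3⟩ := hL.four
  exact ⟨h2, ⟨u, ⟨hu.1, h1 hu.2⟩, v, ⟨hv.1, h1 hv.2⟩, h3⟩, ⟨s, ⟨hs.1, h1 hs.2⟩, hsa⟩, ⟨x, h1 hx, hxa⟩⟩

theorem brs : ∃ S, BRS (closure (D ∩ L)) a S := by
  obtain ⟨g, hg, hga⟩ := hL.mvX h
  obtain ⟨s, hs, t, ht, hne, hc⟩ := hL.four
  have h4 : Four (closure (D ∩ L)) :=
    ⟨s, subset_closure hs, t, subset_closure ht, h.td.invo s hs.1, h.td.invo t ht.1, hne, hc⟩
  have se : SE (closure (D ∩ L)) (orbit (closure (D ∩ L)) a) :=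
    ⟨fun x y => MulAction.exists_smul_eq _ x y,
      ⟨⟨g • a, ⟨g, hg⟩, rfl⟩, ⟨a, mem_orbit_self a⟩, fun e => hga (congrArg Subtype.val e)⟩,
      ⟨⟨s, subset_closure hs⟩, Subtype.ext (h.td.invo s hs.1).1, fun e => (h.td.invo s hs.1).2 (congrArg Subtype.val e)⟩,
      fun u hu => by
        have hu' := hL.invX h u.2 ⟨congrArg Subtype.val hu.1, fun e => hu.2 (Subtype.ext e)⟩
        obtain ⟨c, hc, h1⟩ := h.td.fix _ hu'
        obtain ⟨w, hw, e⟩ := hL.pt h ⟨u, ⟨hu', XX_le D L u.2⟩, hc⟩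
        exact ⟨⟨c, ⟨w, hw⟩, e⟩, Subtype.ext hc, fun y hy => Subtype.ext (h1 y (congrArg Subtype.val hy))⟩⟩
  exact (BRc.of_restrict (se.brc h4.top_subtype _)).exists_BRS

variable {S : Subgroup G} (hS : BRS (closure (D ∩ L)) a S)
include hS

theorem sylow : IsSylowIn 2 S (closure (D ∩ L) ⊓ stabilizer G a) := by
  obtain ⟨g, hg, hga⟩ := hL.mvX h
  refine ⟨fun x hx => ⟨hS.le hx, hS.fix x hx⟩, hS.two, fun Q hQ hQ2 hSQ => le_antisymm (fun x hx => ?_) hSQ⟩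
  obtain ⟨y, hy, d, hd, rfl⟩ := hS.exists_mul hg hga (hQ hx).1 (hQ hx).2
  by_cases h1 : d = 1
  · rwa [h1, mul_one]
  obtain ⟨n, hn⟩ := exists_invo_pow_of_two_elt
    ((hQ2 ⟨d, (Q.mul_mem_cancel_left (hSQ hy)).1 hx⟩).imp fun _ e => congrArg Subtype.val e) h1
  exact absurd (h.td.eq_of_fix (hL.invX h (pow_mem hd.1 n) hn) (pow_smul_eq hd.2.2 n) (pow_smul_eq hd.2.1 n)) hga

theorem mem_sup (hx : x ∈ closure (D ∩ L)) (hxa : x • a = a) (h2 : IsPGroup 2 (zpowers x)) : x ∈ S ⊔ WW D L a := by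
  obtain ⟨P, hP, hxP⟩ := exists_isSylowIn_ge h2 (zpowers_le.2 (show x ∈ closure (D ∩ L) ⊓ stabilizer G a from ⟨hx, hxa⟩))
  obtain ⟨d, hd, rfl⟩ := (hL.sylow h hS).exists_cj_eq hP
  exact cj_le_of_mem_normalizer (hS.normalIn.2 hd) le_sup_left (hxP (mem_zpowers x))

theorem SW_norm : L ⊓ stabilizer G a ≤ 𝐍(S ⊔ WW D L a) := fun g hg => mem_normalizer_of_cj_le (by
  rw [cj_sup, cj_eq_self (hL.W_norm h hg.1)]
  refine sup_le ?_ le_sup_right
  rintro _ ⟨x, hx, rfl⟩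
  refine hL.mem_sup h hS (conj_mem_of_le_normalizer (h.td.norm_closure L) hg.1 (hS.le hx)) ?_
    ((hS.two.map (MulAut.conj g).toMonoidHom).to_le (zpowers_le.2 ⟨x, hx, rfl⟩))
  show (g * x * g⁻¹) • a = a
  rw [mul_smul, mul_smul, inv_smul_eq_of_smul_eq hg.2, hS.fix x hx, hg.2])

theorem invo_comm (hs : s ∈ D) (hsL : s ∈ L) (hsa : s • a = a) (hx : x ∈ S ⊔ WW D L a) : ⁅s, x⁆ ∈ WW D L a := by
  have hN := kerO_normalIn (closure (D ∩ L)) a
  have hS1 : S ≠ ⊥ := (hL.sylow h hS).ne_bot ((h.td.invo s hs).orderOf_eq ▸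
    (closure (D ∩ L) ⊓ stabilizer G a).orderOf_dvd_natCard ⟨subset_closure ⟨hs, hsL⟩, hsa⟩)
  obtain ⟨z0, hz0, h1⟩ := exists_ne_one_of_ne_bot (Zen_ne_bot hS.two.isNilpotent hS1)
  obtain ⟨n, hz⟩ := exists_invo_pow_of_two_elt ((hS.two ⟨z0, hz0.1⟩).imp fun _ e => congrArg Subtype.val e) h1
  have hzZ := pow_mem hz0 n
  generalize z0 ^ n = z at hz hzZ
  obtain ⟨k, hk, e⟩ := hL.conj h (hL.invX h (hS.le hzZ.1) hz) (XX_le D L (hS.le hzZ.1)) hs hsL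
  have hka : k • a = a := h.td.eq_of_fix hs (by rw [← e, conj_smul_smul, hS.fix z hzZ.1]) hsa
  have hx' : k⁻¹ * x * k ∈ S ⊔ WW D L a := conj_mem_of_le_normalizer' hS.normalIn.2 ⟨hk, hka⟩ hx
  obtain ⟨y, hy, m, hm, e1⟩ := (mem_sup_of_le_normalizer' (hS.le.trans hN.2)).1 hx'
  have h2 : ⁅z, y * m⁆ ∈ WW D L a := by
    have hc := hzZ.2 y hy
    rw [show ⁅z, y * m⁆ = (z * y) * m * (z * y)⁻¹ * ((z * y * z⁻¹) * m⁻¹ * y⁻¹) by simp only [commutatorElement_def]; group,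
      show z * y * z⁻¹ = y by rw [← hc]; group]
    exact mul_mem (hN.conj_mem (mul_mem (hS.le hzZ.1) (hS.le hy)) hm) (hN.conj_mem (hS.le hy) (inv_mem hm))
  have := hN.conj_mem hk h2
  rwa [e1, show k * ⁅z, k⁻¹ * x * k⁆ * k⁻¹ = ⁅k * z * k⁻¹, x⁆ by simp only [commutatorElement_def]; group, e] at this

theorem transL {g' : G} (hg : g ∈ L) (hg' : g' ∈ L) (h1 : g • a ≠ a) (h2 : g' • a ≠ a) : ∃ x ∈ S, x • g • a = g' • a := by
  obtain ⟨x, hx, e⟩ := hL.orb h hg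
  obtain ⟨x', hx', e'⟩ := hL.orb h hg'
  rw [← e] at h1 ⊢
  rw [← e'] at h2 ⊢
  exact hS.trans x hx x' hx' h1 h2

omit hS

theorem comm_mem (hd : d ∈ D) (hdL : d ∈ L) (hda : d • a = a) (he : e ∈ D) (heL : e ∈ L) (hea : e • a = a) :
    d * e * (d * e) ∈ WW D L a := by
  obtain ⟨S, hS⟩ := hL.brs h
  have := hL.invo_comm h hS hd hdL hda (hL.mem_sup h hS (subset_closure ⟨he, heL⟩) hea (h.td.invo e he).pgroup_zpowers)
  rwa [commutatorElement_def, (h.td.invo d hd).inv_eq, (h.td.invo e he).inv_eq, mul_assoc (d * e)] at this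

theorem mem_ker (hz : z ∈ D) (hzL : z ∈ L) (hza : z • a = a) (hy : y ∈ L) (hya : y • a = a) (ho : Odd (orderOf y))
    (hi : z * y * z = y⁻¹) : y ∈ WW D L a := by
  have := hL.comm_mem h hz hzL hza (h.td.mul_mem_of_inv hz ho hi) (mul_mem hzL hy) (by rw [mul_smul, hya, hza])
  rw [(h.td.invo z hz).mul_mul] at this
  exact mem_of_sq_mem ho this

theorem trans2 {g' : G} (hg : g ∈ L) (hg' : g' ∈ L) (h1 : g • a ≠ a) (h2 : g' • a ≠ a) :
    ∃ x ∈ L, x • a = a ∧ x • g • a = g' • a := by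
  obtain ⟨S, hS⟩ := hL.brs h
  obtain ⟨x, hx, e⟩ := hL.transL h hS hg hg' h1 h2
  exact ⟨x, XX_le D L (hS.le hx), hS.fix x hx, e⟩

end BZ

/-- an element of `D ∩ L` inverts an element of order `p` of the kernel -/
def Pq (p : ℕ) (D : Set G) (L : Subgroup G) (a : Ω) : Prop :=
  ∃ u ∈ L, u ∈ D ∧ ∃ y ∈ invSet u (WW D L a), orderOf y = p

variable {p : ℕ} [hp : Fact p.Prime]

theorem Pq.dvd (h : Pz Ω 𝒮 D) (hL : BZ D L a) (hP : Pq p D L a) (hu : u ∈ D) (huL : u ∈ L) :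
    p ∣ (invSet u (WW D L a)).ncard := by
  obtain ⟨v, hvL, hv, y, hy, ho⟩ := hP
  obtain ⟨x, hx, rfl⟩ := hL.conj h hv hvL hu huL
  refine dvd_ncard_invSet (y := x * y * x⁻¹) (h.td.invo _ hu) (hL.W_norm h huL) (hL.odd_ker h)
    ⟨(kerO_normalIn _ a).conj_mem hx hy.1, ?_⟩ (by rw [← ho]; exact (MulAut.conj x).orderOf_eq y)
  calc _ = x * (v * y * v) * x⁻¹ := by group
    _ = _ := by rw [hy.2]; group

theorem Pq.ne_two (h : Pz Ω 𝒮 D) (hL : BZ D L a) (hP : Pq p D L a) : p ≠ 2 := by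
  obtain ⟨v, hvL, hv, y, hy, ho⟩ := hP
  have := odd_orderOf_of_mem (hL.odd_ker h) hy.1
  rintro rfl
  rw [ho] at this
  exact absurd this (by decide)

theorem Pq.smul (h : Pz Ω 𝒮 D) (hL : BZ D L a) (hP : Pq p D L a) (hg : g ∈ L) : Pq p D L (g • a) := by
  rwa [Pq, hL.W_smul h hg]

theorem two_coprime (hp2 : p ≠ 2) (h2 : ∃ k, x ^ 2 ^ k = 1) : (orderOf x).Coprime p := by
  obtain ⟨k, hk⟩ := h2
  obtain ⟨j, -, hj⟩ := (Nat.dvd_prime_pow Nat.prime_two).1 (orderOf_dvd_of_pow_eq_one hk)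
  rw [hj]
  exact ((Nat.coprime_primes Nat.prime_two hp.out).2 hp2.symm).pow_left j

theorem stepA (h : Pz Ω 𝒮 D) (hL : BZ D L a) (hP : Pq p D L a) (hg : g ∈ L) (hga : g • a ≠ a)
    (hT : IsSylowIn p T (L ⊓ st2 G a (g • a))) :
    ∃ u ∈ L ⊓ 𝐍(H4.wsOf p T), ∃ v ∈ L ⊓ 𝐍(H4.wsOf p T), u ∈ D ∧ u • a = a ∧ v ∈ D ∧ u ≠ v ∧ u * v = v * u := by
  have hp2 := hP.ne_two h hL
  obtain ⟨S, hS⟩ := hL.brs h
  have hW := hL.odd_ker h
  have hWn := hL.W_norm h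
  have hSW := hL.SW_norm h hS
  have hSX := hS.normalIn.1
  have hSL : S ⊔ WW D L a ≤ L ⊓ stabilizer G a := hSX.trans (inf_le_inf_right _ (XX_le D L))
  set W := WW D L a with hWdef
  set N0 := (S ⊔ W) ⊓ cmod W (S ⊔ W) with hN0
  have hTa : T ≤ L ⊓ stabilizer G a := hT.le.trans (inf_le_inf_left _ inf_le_left)
  have hN0n : L ⊓ stabilizer G a ≤ 𝐍(N0) := H8.le_normalizer_inf hSW
    ((le_inf (inf_le_left.trans hWn) hSW).trans normalizer_le_normalizer_cmod)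
  have hN0a : N0 ≤ L ⊓ stabilizer G a := inf_le_left.trans hSL
  have hN3a : N0 ⊔ T ≤ L ⊓ stabilizer G a := sup_le hN0a hTa
  have hWN0 : W ≤ N0 := le_inf le_sup_right (le_cmod le_normalizer
    (le_normalizer_iff_commutator_le_left.1 ((hSL.trans inf_le_left).trans hWn)))
  have hI : ∀ u ∈ L, u ∈ D → u • a = a → u ∈ N0 := fun u huL hu hua =>
    ⟨hL.mem_sup h hS (subset_closure ⟨hu, huL⟩) hua (h.td.invo u hu).pgroup_zpowers, hWn huL,
      fun x hx => hL.invo_comm h hS hu huL hua hx⟩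
  have hsol : Group.IsSolvable ↥(N0 ⊔ T) := by
    refine solvable_sup (hTa.trans hN0n) (solvable_of_le inf_le_left ?_) (solvable_of_pgroup hT.pgroup)
    rw [sup_comm]
    exact solvable_sup ((hS.le.trans (XX_le D L)).trans hWn) (solv_odd hW) (solvable_of_pgroup hS.two)
  have hab : ∀ Q : Subgroup G, Q ≤ N0 ⊔ T → IsPGroup 2 Q → IsMulCommutative Q := fun Q hQ h2 => by
    have h1 : Q ≤ N0 := fun x hx => mem_of_mem_sup_pgroup (hTa.trans hN0n) hT.pgroup (hQ hx)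
      (two_coprime hp2 ((h2 ⟨x, hx⟩).imp fun _ e => congrArg Subtype.val e))
    rw [← der_eq_bot_iff, eq_bot_iff, ← inf_eq_bot_of h2 hW.not_two_dvd_nat]
    exact le_inf (der_le Q) ((commutator_mono le_rfl (h1.trans inf_le_left)).trans
      (commutator_le_of_le_cmod (h1.trans inf_le_right)))
  have hT1 : IsSylowIn p T (L ⊓ stabilizer G a) := by
    refine IsSylowIn.of_not_dvd_relIndex hTa hT.pgroup ?_
    rw [← relIndex_mul_relIndex T _ _ hT.le (inf_le_inf_left _ inf_le_left), hp.out.dvd_mul, not_or]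
    refine ⟨hT.not_dvd_relIndex, ?_⟩
    rw [← relIndex_eq_of_isProd (K := S) (le_sup_left.trans hSL) fun x hx => by
      obtain ⟨y, hy, e⟩ := hL.transL h hS hg (mul_mem hx.1 hg) hga fun e =>
        hga (MulAction.injective x (show x • g • a = x • a by rw [← mul_smul, e, hx.2]))
      refine ⟨y, hy, y⁻¹ * x, ⟨L.mul_mem (L.inv_mem (XX_le D L (hS.le hy))) hx.1, ?_, ?_⟩, by group⟩
      · show (y⁻¹ * x) • a = a
        rw [mul_smul, hx.2]; exact inv_smul_eq_of_smul_eq (hS.fix y hy)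
      · show (y⁻¹ * x) • g • a = g • a
        rw [mul_smul, ← mul_smul x, ← e, inv_smul_smul]]
    exact fun hd => not_dvd_card_of_pgroup hp2.symm hS.two (hd.trans (relIndex_dvd_card _ _))
  have hT3 : IsSylowIn p T (N0 ⊔ T) := hT1.of_le le_sup_right hN3a
  have hO : Odd #|Opp p (N0 ⊔ T)| := odd_card_of_no_invo fun u hu hi => by
    have huL : u ∈ L := (hN3a (Opp_le _ hu)).1
    have huD : u ∈ D := hL.invX h (hSX (mem_of_mem_sup_pgroup (hTa.trans hN0n) hT.pgroup (Opp_le _ hu)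
      (two_coprime hp2 ⟨1, by rw [pow_one, sq, hi.1]⟩)).1).1 hi
    obtain ⟨y, hy, ho⟩ := exists_invSet_prime hi (hWn huL) hW (hP.dvd h hL huD huL)
    have h1 : y ∈ Opp p (N0 ⊔ T) := mem_of_sq_mem (odd_orderOf_of_mem hW hy.1) (by
      have := mul_mem (conj_mem_of_le_normalizer (self_norm_Opp (q := p) _) (mem_sup_left (hWN0 hy.1)) hu) hu
      rwa [mul_assoc, mul_assoc, ← mul_assoc u, inverts_inv hi.1 hy.2] at this)
    exact Opp_not_dvd _ (ho ▸ orderOf_dvd_natCard _ h1)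
  obtain ⟨s, ⟨hs, hsL⟩, hsa⟩ := hL.inv
  obtain ⟨t, htL, ht, hne, hc⟩ := hL.exists_comm h hs hsL
  have hs3 : s ∈ N0 ⊔ T := mem_sup_left (hI s hsL hs hsa)
  have ht3 : t ∈ N0 ⊔ T := mem_sup_left (hI t htL ht (h.td.fix_of_comm hs hsa hc.symm))
  obtain ⟨k, hk, hle⟩ := (four_copAct hO (h.td.invo s hs) (h.td.invo t ht) hc (self_norm_Opp _ hs3)
    (self_norm_Opp _ ht3)).exists_le_cj_of_le_sup
    (inf_le_left.trans (self_norm_Opp _)) (le_trans (by rw [Subgroup.closure_le]; rintro x (rfl | rfl) <;> assumption)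
      (zj hp2 hsol hab hT3))
  have h1 := mem_cj.1 (hle (subset_closure (Set.mem_insert _ _)))
  have h2 := mem_cj.1 (hle (subset_closure (Set.mem_insert_of_mem _ rfl)))
  refine ⟨_, ⟨(hN3a h1.1).1, h1.2⟩, _, ⟨(hN3a h2.1).1, h2.2⟩, by simpa using h.td.conj s hs k⁻¹, (hN3a h1.1).2,
    by simpa using h.td.conj t ht k⁻¹, fun e => hne (by simpa using e), ?_⟩
  calc _ = k⁻¹ * (s * t) * k := by group
    _ = _ := by rw [hc]; group

theorem stepB (h : Pz Ω 𝒮 D) (hL : BZ D L a) (hP : Pq p D L a) (hg : g ∈ L)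
    (hga : g • a ≠ a) (hT : IsSylowIn p T (L ⊓ st2 G a (g • a))) :
    H4.wsOf p T ≠ ⊥ ∧ BZ D 𝐍(H4.wsOf p T) a ∧ Pq p D 𝐍(H4.wsOf p T) a ∧
      ∃ t ∈ 𝐍(H4.wsOf p T), t ∈ D ∧ t • a = g • a := by
  have hW := hL.odd_ker h
  have hWn := hL.W_norm h
  have hWle : WW D L a ≤ L ⊓ st2 G a (g • a) := le_inf (hL.W_le h) (hL.W_st2 h hg)
  have h1 : H4.wsOf p T ≠ ⊥ := H4.wsOf_ne_bot hT.pgroup (hT.ne_bot (by
    obtain ⟨v, -, -, y, hy, ho⟩ := hP
    exact ho ▸ orderOf_dvd_natCard _ (hWle hy.1)))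
  obtain ⟨u, hu, v, hv, huD, hua, hvD, hne, hc⟩ := stepA h hL hP hg hga hT
  obtain ⟨u', hu', -, -, huD', hub, -⟩ := stepA (T := T) h (hL.smul h hg) (hP.smul h hL hg) (inv_mem hg)
    (by rw [inv_smul_smul]; exact hga.symm) (by rwa [inv_smul_smul, st2_comm])
  obtain ⟨t, ht, htN, hta, -⟩ := h.td.exists_swap_in (L := 𝐍(H4.wsOf p T)) ⟨u, ⟨huD, hu.2⟩, hua⟩ ⟨u', ⟨huD', hu'.2⟩, hub⟩
    hga.symm
  have hB : BZ D 𝐍(H4.wsOf p T) a := ⟨h.norm_ne_top h1 fun x hx => (hT.le (H4.wsOf_le T hx)).2.1,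
    ⟨u, ⟨huD, hu.2⟩, v, ⟨hvD, hv.2⟩, hne, hc⟩, ⟨u, ⟨huD, hu.2⟩, hua⟩, ⟨t, htN, hta ▸ hga⟩⟩
  refine ⟨h1, hB, ?_, t, htN, ht, hta⟩
  have iu := h.td.invo u huD
  have hR0 : IsSylowIn p (T ⊓ WW D L a) (WW D L a) := by
    have := hT.inf_of_le_normalizer (N := WW D L a) (inf_le_left.trans hWn)
    rwa [inf_eq_right.2 hWle] at this
  obtain ⟨R, hR, huR⟩ := exists_invariant_sylow_invo iu (norm_inf (hWn hu.1) (le_normalizer hu.2))
    (odd_of_le inf_le_left hW) p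
  have hR' : IsSylowIn p R (WW D L a) := hR0.of_card_ge hR.pgroup (hR.le.trans inf_le_left)
    ((hR0.of_le (le_inf inf_le_right (inf_le_left.trans (le_normalizer.trans (H4.normalizer_le_normalizer_wsOf T))))
      inf_le_left).card_eq_card hR).le
  obtain ⟨y, hy, ho⟩ := exists_invSet_of_sylow iu (hWn hu.1) hW (hP.dvd h hL huD hu.1) hR' huR
  exact ⟨u, hu.2, huD, y, ⟨hB.mem_ker h huD hu.2 hua (hR.le hy.1).2 (kerO_fix (hR.le hy.1).1)
    (odd_orderOf_of_mem hW (hR.le hy.1).1) hy.2, hy.2⟩, ho⟩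

end Cfsg.Agent.WA.Zd
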