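import Cfsg.Agent.WA.O8Def
import Cfsg.Prelude.Def_Classical

/-! The standard model of `Ω₈⁺(2)` (module O8Iso, see PLAN_O8.md). -/

set_option autoImplicit false

namespace Cfsg.Agent.WA.O8

open Equiv Matrix

namespace Xi

/-- the dual of a hyperbolic basis -/
def hb : Fin 4 ⊕ Fin 4 → V :=
  Sum.elim ![dec 1, dec 31, dec 115, dec 184] ![dec 2, dec 47, dec 116, dec 199]

/-- hyperbolic coordinates -/
def co : V →+ (Fin 4 ⊕ Fin 4 → F2) := AddMonoidHom.mk' (fun x i => B x (hb i)) fun x y => funext fun _ => B_add x y _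

theorem co_bij : Function.Bijective co :=
  (Nat.bijective_iff_injective_and_card co).2 ⟨(injective_iff_map_eq_zero co).2
    (all_dec (P := fun x => (fun i => B x (hb i)) = 0 → x = 0) (by decide +kernel)), by simp⟩

theorem co_Q : ∀ x, (∑ i : Fin 4, B x (hb (.inl i)) * B x (hb (.inr i))) = Q x := all_dec (by decide +kernel)

end Xi

open Xi in
/-- module O8Iso -/
theorem exists_iso {F : Type*} [Field F] [Fintype F] (hF : Fintype.card F = 2) :
    Nonempty (Cfsg.Omega F (Cfsg.quadFormPlus 4 F) ≃* Om) := by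
  let φ := ZMod.ringEquivOfPrime F Nat.prime_two hF
  let θ : V ≃+ (Fin 4 ⊕ Fin 4 → F) :=
    (AddEquiv.ofBijective co co_bij).trans (AddEquiv.piCongrRight fun _ => φ.toAddEquiv)
  have hθ : ∀ x, quadFormPlus 4 F (θ x) = φ (Q x) := fun x => by
    rw [← co_Q, map_sum]
    exact Finset.sum_congr rfl fun i _ => (map_mul φ _ _).symm
  let lin : isometryGroup F (quadFormPlus 4 F) → V →ₗ[F2] V := fun g =>
    ((θ.symm.toAddMonoidHom.comp (Matrix.mulVecLin g.1.1).toAddMonoidHom).comp θ.toAddMonoidHom).toZModLinearMap 2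
  have hl : ∀ g x, θ (lin g x) = g.1.1 *ᵥ θ x := fun g x => θ.apply_symm_apply _
  let f : isometryGroup F (quadFormPlus 4 F) →* O := MonoidHom.mk'
    (fun g => mkO (lin g) fun x => φ.injective (by rw [← hθ, ← hθ, hl]; exact g.2 _ 0))
    fun g h => O.ext' fun x => θ.injective (by
      rw [O.mul_apply, mkO_apply, mkO_apply, mkO_apply, hl, hl, hl, mulVec_mulVec]; rfl)
  have hf : ∀ g x, θ (f g x) = g.1.1 *ᵥ θ x := hl
  have sc : ∀ c : F, c = 0 ∨ c = 1 := fun c => by
    obtain ⟨a, rfl⟩ := φ.surjective c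
    rcases F2c a with rfl | rfl <;> simp
  let L : O → (Fin 4 ⊕ Fin 4 → F) →ₗ[F] (Fin 4 ⊕ Fin 4 → F) := fun g =>
    { toFun := fun v => θ (g (θ.symm v))
      map_add' := fun u v => by rw [map_add, O.map_add, map_add]
      map_smul' := fun c v => by
        rcases sc c with rfl | rfl
        · rw [zero_smul, map_zero, RingHom.id_apply, zero_smul, show g 0 = 0 from map_zero g.1, map_zero]
        · rw [one_smul, RingHom.id_apply, one_smul] }
  have hL : ∀ g v, LinearMap.toMatrix' (L g) *ᵥ v = θ (g (θ.symm v)) := fun g v => by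
    rw [← toLin'_apply, toLin'_toMatrix']; rfl
  have inv : ∀ g h : O, g * h = 1 → LinearMap.toMatrix' (L g) * LinearMap.toMatrix' (L h) = 1 := fun g h e =>
    toLin'.injective (LinearMap.ext fun v => by
      rw [toLin'_apply, toLin'_apply, ← mulVec_mulVec, hL, hL, θ.symm_apply_apply, ← O.mul_apply, e, O.one_apply,
        θ.apply_symm_apply, one_mulVec])
  have bij : Function.Bijective f := ⟨fun g h e => Subtype.ext (Units.ext (toLin'.injective (LinearMap.ext fun v => by
      rw [toLin'_apply, toLin'_apply, ← θ.apply_symm_apply v, ← hf, ← hf, e]))), fun g =>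
    ⟨⟨⟨_, _, inv g g⁻¹ (mul_inv_cancel g), inv g⁻¹ g (inv_mul_cancel g)⟩, fun u _ => by
      change quadFormPlus 4 F (LinearMap.toMatrix' (L g) *ᵥ u) = quadFormPlus 4 F u
      rw [hL, hθ, O.Q_map, ← hθ, θ.apply_symm_apply]⟩,
      O.ext' fun x => θ.injective (by rw [hf, hL, θ.symm_apply_apply])⟩⟩
  obtain ⟨ε⟩ : Nonempty (isometryGroup F (quadFormPlus 4 F) ≃* O) := ⟨MulEquiv.ofBijective f bij⟩
  refine ⟨(ε.subgroupMap _).trans (MulEquiv.subgroupCongr ?_)⟩
  have : (ε : isometryGroup F (quadFormPlus 4 F) →* O).range = ⊤ := MonoidHom.range_eq_top.2 ε.surjective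
  rw [map_commutator_eq, this]
  rfl

end Cfsg.Agent.WA.O8
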