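import Cfsg.Agent.WA.O8R
import Cfsg.Agent.H7.ZStar

/-! The central involution of the cover is isolated. -/

set_option autoImplicit false

namespace Cfsg.Agent.WA.O8

open Equiv

variable {X : Type*} [Group X] {π : X →* O} {z x l x0 : X} {a b c u v w : V} {ε φ θ : V → X}
  {Y : Type*} [Group Y] {ι : X →* Y} {ρ : Y →* O} {y s t k : Y} {σ τ : P8} {η : V → Y}
  {G : Type*} [Group G] {κ : Y →* G} {g : G}

/-- the automorphisms induced by conjugation -/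
def Gam {W : Type*} [AddCommGroup W] [Module F2 W] (η : W → G) : Subgroup (W ≃ₗ[F2] W) where
  carrier := {ψ | ∃ g : G, ∀ u, g * η u * g⁻¹ = η (ψ u)}
  one_mem' := ⟨1, fun u => by simp⟩
  mul_mem' := fun ⟨g, hg⟩ ⟨k, hk⟩ => ⟨g * k, fun u => by rw [LinearEquiv.mul_apply, ← hg, ← hk]; group⟩
  inv_mem' := fun {ψ} ⟨g, hg⟩ => ⟨g⁻¹, fun u => by
    have := hg (ψ⁻¹ u)
    rw [show ψ (ψ⁻¹ u) = u from ψ.apply_symm_apply u] at this
    rw [← this]; group⟩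

theorem transfer {W : Type*} [AddCommGroup W] [Module F2 W] [Finite W] {η η' : W → G}
    (h : ∀ u v, η (u + v) = η u * η v) (h' : ∀ u v, η' (u + v) = η' u * η' v) (i : Function.Injective η)
    (i' : Function.Injective η') {t k x : G} (fix : ∀ g, (∀ u, ∃ v, g * η' u * g⁻¹ = η' v) → g * t = t * g)
    (H : ∀ u, ∃ v, k * η u * k⁻¹ = η' v) (hx : ∀ u, ∃ v, x * η u * x⁻¹ = η v) {w : W} (hw : k * η w * k⁻¹ = t) :
    x * η w * x⁻¹ = η w := by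
  obtain ⟨ψ, hψ⟩ := exists_psi h h' i i' (MulAut.conj k) H
  simp only [MulAut.conj_apply] at hψ
  have := fix (k * x * k⁻¹) fun u => by
    obtain ⟨u, rfl⟩ := ψ.surjective u
    obtain ⟨v, e⟩ := hx u
    exact ⟨ψ v, by rw [← hψ, ← hψ, ← e]; group⟩
  rw [← hw, conj_mul, conj_mul] at this
  exact mul_inv_eq_iff_eq_mul.2 ((MulAut.conj k).injective this)

theorem small {f : V → Y} (i : Function.Injective f) (h : ∀ u, ∃ v, sm v = 0 ∧ f u = ι (θ v)) : False := by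
  choose p h1 h2 using h
  have := Nat.card_le_card_of_injective (fun u => (⟨p u, h1 u⟩ : Ev)) fun u v e => i (by
    rw [h2, h2, show p u = p v from congrArg Subtype.val e])
  rw [card_V, card_Ev] at this
  omega

theorem conj_Om (e : ρ (y * s * y⁻¹) ∈ Om) : ρ s ∈ Om := sg_iff.1 (by
  have := sg_iff.2 e
  rwa [map_mul, map_mul, map_inv, map_mul, map_mul, map_inv, mul_inv_cancel_comm] at this)

structure Gl (π : X →* O) (z x0 : X) (ε φ : V → X) (ι : X →* Y) (ρ : Y →* O) (κ : Y →* G) : Prop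
    extends Am π z x0 ε φ ι ρ where
  kinj : Function.Injective κ
  rng : ∀ g, g * κ (ι z) = κ (ι z) * g → ∃ y, κ y = g

namespace Gl

theorem fixE (h : Gl π z x0 ε φ ι ρ κ) (hθ : θ = ε ∨ θ = φ)
    (hg : ∀ u : Ev, ∃ v : Ev, g * κ (ι (θ u)) * g⁻¹ = κ (ι (θ v))) : g * κ (ι z) = κ (ι z) * g := by
  obtain ⟨h1, h2, h3, h4, h5⟩ := h.evn hθ
  have hm : ∀ u v : Ev, κ (ι (θ ↑(u + v))) = κ (ι (θ u)) * κ (ι (θ v)) := fun u v => by
    rw [Submodule.coe_add, h1, map_mul, map_mul]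
  have hi : Function.Injective fun u : Ev => κ (ι (θ u)) := h.kinj.comp (h.inj.comp h3)
  have A : ∀ g : G, (∀ u : Ev, ∃ v : Ev, g * κ (ι (θ u)) * g⁻¹ = κ (ι (θ v))) →
      ∃ ψ : Ev ≃ₗ[F2] Ev, ∀ u : Ev, g * κ (ι (θ u)) * g⁻¹ = κ (ι (θ (ψ u))) := fun g hg =>
    exists_psi hm hm hi hi (MulAut.conj g) hg
  have o : ∀ {g : G} {ψ : Ev ≃ₗ[F2] Ev}, (∀ u : Ev, g * κ (ι (θ u)) * g⁻¹ = κ (ι (θ (ψ u)))) → ψ oneE = oneE →
      g * κ (ι z) = κ (ι z) * g := fun hψ e => by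
    have := hψ oneE
    rw [e] at this
    exact mul_inv_eq_iff_eq_mul.1 (h2 ▸ this)
  obtain ⟨ψ, hψ⟩ := A g hg
  refine o hψ (fix_even (Gam fun u : Ev => κ (ι (θ u))) (fun σ hσ => ?_) (fun γ ⟨k, hk⟩ e => ?_) ψ ⟨g, hψ⟩)
  · obtain ⟨l, hl⟩ := h4 σ hσ
    have B : ∀ u : Ev, κ (ι l) * κ (ι (θ u)) * (κ (ι l))⁻¹ = κ (ι (θ (⟨pv σ u, (sm_pv _ _).trans u.2⟩ : Ev))) := fun u => by
      rw [← hl u u.2]; simp only [map_mul, map_inv]
    obtain ⟨γ, hγ⟩ := A _ fun u => ⟨_, B u⟩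
    exact ⟨γ, ⟨_, hγ⟩, fun x => congrArg Subtype.val (hi ((hγ x).symm.trans (B x)))⟩
  · obtain ⟨y, rfl⟩ := h.rng k (o hk e)
    have B : ∀ u : Ev, y * ι (θ u) * y⁻¹ = ι (θ (γ u)) := fun u => h.kinj (by rw [map_mul, map_mul, map_inv]; exact hk u)
    obtain ⟨σ, hσ⟩ := h5 y fun u => ⟨γ u, B u⟩
    exact ⟨σ, fun x => congrArg Subtype.val (h3 (a₂ := ⟨pv σ x, (sm_pv _ _).trans x.2⟩)
      (h.inj ((B x).symm.trans (hσ x x.2))))⟩

theorem fixF (h : Gl π z x0 ε φ ι ρ κ) (H : Hat φ ι ρ η) (hg : ∀ u, ∃ v, g * κ (η u) * g⁻¹ = κ (η v)) :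
    g * κ (ι z) = κ (ι z) * g := by
  have hm : ∀ u v, κ (η (u + v)) = κ (η u) * κ (η v) := fun u v => by rw [H.hm, map_mul]
  have hi : Function.Injective fun u => κ (η u) := h.kinj.comp (h.hat_inj H)
  have A : ∀ g : G, (∀ u, ∃ v, g * κ (η u) * g⁻¹ = κ (η v)) →
      ∃ ψ : V ≃ₗ[F2] V, ∀ u, g * κ (η u) * g⁻¹ = κ (η (ψ u)) := fun g hg => exists_psi hm hm hi hi (MulAut.conj g) hg
  have o : ∀ {g : G} {ψ : V ≃ₗ[F2] V}, (∀ u, g * κ (η u) * g⁻¹ = κ (η (ψ u))) → ψ one = one →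
      g * κ (ι z) = κ (ι z) * g := fun hψ e => by
    have := hψ one
    rw [e, h.hat_one H] at this
    exact mul_inv_eq_iff_eq_mul.1 this
  obtain ⟨ψ, hψ⟩ := A g hg
  refine o hψ (fix_full (Gam fun u => κ (η u)) (fun σ hσ => ?_) (fun γ ⟨k, hk⟩ e => ?_) ψ ⟨g, hψ⟩)
  · obtain ⟨l, c, hl⟩ := h.hat_real H hσ
    have B : ∀ u, κ (ι l) * κ (η u) * (κ (ι l))⁻¹ = κ (η (pv σ u + (c * sm u) • one)) := fun u => by
      rw [← hl u]; simp only [map_mul, map_inv]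
    obtain ⟨γ, hγ⟩ := A _ fun u => ⟨_, B u⟩
    exact ⟨γ, ⟨_, hγ⟩, c, fun x => hi ((hγ x).symm.trans (B x))⟩
  · obtain ⟨y, rfl⟩ := h.rng k (o hk e)
    have B : ∀ u, y * η u * y⁻¹ = η (γ u) := fun u => h.kinj (by rw [map_mul, map_mul, map_inv]; exact hk u)
    obtain ⟨σ, h1, c, hσ⟩ := h.hat_up H fun u => ⟨γ u, B u⟩
    exact ⟨σ, h1, c, fun x => h.hat_inj H ((B x).symm.trans (hσ x))⟩

theorem back (h : Gl π z x0 ε φ ι ρ κ) (ht : κ t = g * κ (ι z) * g⁻¹) (hy : y * t = t * y) :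
    ∃ y', κ y' = g⁻¹ * κ y * g := h.rng _ (by
  have := congrArg κ hy
  rw [map_mul, map_mul, ht] at this
  calc g⁻¹ * κ y * g * κ (ι z) = g⁻¹ * (κ y * (g * κ (ι z) * g⁻¹)) * g := by group
    _ = _ := by rw [this]; group)

theorem pull (h : Gl π z x0 ε φ ι ρ κ) (ht : κ t = g * κ (ι z) * g⁻¹) {W : Type*} [AddCommGroup W] {η : W → Y}
    (m : ∀ u v, η (u + v) = η u * η v) (i : Function.Injective η) (sq : ∀ u, η u * η u = 1) (hc : ∀ u, η u * t = t * η u) :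
    ∃ (η' : W → Y) (A : Subgroup Y), Function.Injective η' ∧ (∀ u v, η' u * η' v = η' v * η' u) ∧ (∀ u, η' u ∈ A) ∧
      (∀ a ∈ A, a * a = 1) ∧ Nat.card A = Nat.card W ∧
      ∀ y u, κ (y * η' u * y⁻¹) = κ y * g⁻¹ * κ (η u) * (κ y * g⁻¹)⁻¹ := by
  choose η' e using fun u => h.back ht (hc u)
  have m' : ∀ u v, η' (u + v) = η' u * η' v := fun u v => h.kinj (by rw [map_mul, e, e, e, m, map_mul]; group)
  have i' : Function.Injective η' := fun u v f => i (h.kinj (by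
    have := congrArg κ f
    rwa [e, e, mul_left_inj, mul_right_inj] at this))
  refine ⟨η', rg η' m', i', fun u v => by rw [← m', add_comm, m'], fun u => ⟨.ofAdd u, rfl⟩, ?_, card_rg m' i',
    fun y u => by rw [map_mul, map_mul, map_inv, e]; group⟩
  rintro _ ⟨u, rfl⟩
  refine h.kinj ?_
  change κ (η' u.toAdd * η' u.toAdd) = κ 1
  rw [map_mul, e, mul_assoc, ← mul_assoc g, ← mul_assoc g, mul_inv_cancel, one_mul, mul_assoc, ← mul_assoc (κ _),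
    ← map_mul, sq]; simp

theorem tz (h : Gl π z x0 ε φ ι ρ κ) (ht : κ t = g * κ (ι z) * g⁻¹) (y : Y) :
    κ y * g⁻¹ * κ t * (κ y * g⁻¹)⁻¹ = κ (ι z) := by
  nth_rw 1 [← mul_inv_eq_iff_eq_mul.2 (h.zc' y), ht]
  rw [map_mul, map_mul, map_inv]; group

theorem ne (h : Gl π z x0 ε φ ι ρ κ) (ht : κ t = g * κ (ι z) * g⁻¹) : t ≠ 1 := fun e =>
  h.ιz ((map_eq_one_iff κ h.kinj).1 (by rw [e, map_one] at ht; simpa using ht.symm))

theorem tsq (h : Gl π z x0 ε φ ι ρ κ) (ht : κ t = g * κ (ι z) * g⁻¹) : t * t = 1 :=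
  h.kinj (by rw [map_mul, ht, conj_mul, ← map_mul, ← map_mul, h.z2]; simp)

variable [Finite Y]

theorem keyF (h : Gl π z x0 ε φ ι ρ κ) (H : Hat φ ι ρ η) (ht : κ (η w) = g * κ (ι z) * g⁻¹) : η w = ι z := by
  obtain ⟨η', A, i, cm, m, sq, cA, e⟩ := h.pull ht H.hm (h.hat_inj H) H.hm.sq fun u => H.hm.comm u w
  have ij : ∀ y : Y, Function.Injective fun u => y * η' u * y⁻¹ := fun y => (MulAut.conj y).injective.comp i
  have sq' : ∀ (y : Y) u, y * η' u * y⁻¹ * (y * η' u * y⁻¹) = 1 := fun y u => by rw [conj_mul, sq _ (m u)]; simp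
  obtain ⟨l, f | f⟩ := h.cls sq (.inl (cA.trans card_V).ge)
  · exact (small (ij _) fun u => f _ (m u)).elim
  by_cases od : ∃ u w, ρ (ι l * η' u * (ι l)⁻¹) = R w ∧ sm w = 1
  swap
  · refine (small (θ := φ) (ι := ι) (ij (ι l)) fun u => ?_).elim
    obtain ⟨w, f⟩ := f _ (m u)
    exact h.liftF (sq' _ u) (F2ne' fun e => od ⟨u, w, f, e⟩) f
  obtain ⟨u0, w0, f0, s0⟩ := od
  obtain ⟨η3, H3, e3⟩ := h.exists_hat (sq' _ u0) f0 s0
  have B : ∀ σ, σ = g1 ∨ σ = g2 → pv σ w = w ∨ pv σ w = w + one := fun σ hσ => by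
    obtain ⟨x, c, hx⟩ := h.hat_real H hσ
    have hx' : ∀ u, κ (ι x) * κ (η u) * (κ (ι x))⁻¹ = κ (η (pv σ u + (c * sm u) • one)) := fun u => by
      rw [← hx u]; simp only [map_mul, map_inv]
    have := transfer (η := fun u => κ (η u)) (η' := fun u => κ (η3 u)) (fun u v => by rw [H.hm, map_mul])
      (fun u v => by rw [H3.hm, map_mul]) (h.kinj.comp (h.hat_inj H)) (h.kinj.comp (h.hat_inj H3))
      (fun g hg => h.fixF H3 hg) (fun u => by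
        obtain ⟨w, f⟩ := f _ (m u)
        obtain ⟨v, hv⟩ := h.hat_mem H3 s0 (sq' _ u) (by rw [e3, conj_mul, cm, conj_mul]) f
        exact ⟨v, by rw [← e, hv]⟩) (fun u => ⟨_, hx' u⟩) (h.tz ht (ι l))
    have := h.hat_inj H (h.kinj ((hx' w).symm.trans this))
    rcases F2c (c * sm w) with p | p <;> rw [p] at this
    · exact .inl (by simpa using this)
    · exact .inr (by rw [← add_cancel' (pv σ w) one, ← one_smul F2 one, this, one_smul])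
  rcases fix_g w (B _ (.inl rfl)) (B _ (.inr rfl)) with rfl | rfl
  exacts [absurd H.hm.zero (h.ne ht), h.hat_one H]

theorem keyE (h : Gl π z x0 ε φ ι ρ κ) (ho : ∀ s, s * s = 1 → ρ s ∈ Om) (hw : sm w = 0)
    (ht : κ (ι (φ w)) = g * κ (ι z) * g⁻¹) : ι (φ w) = ι z := by
  have hm : ∀ {θ : V → X}, Hm θ → ∀ u v : Ev, ι (θ ↑(u + v)) = ι (θ u) * ι (θ v) := fun h1 u v => by
    rw [Submodule.coe_add, h1, map_mul]
  obtain ⟨η', A, i, cm, m, sq, cA, e⟩ := h.pull ht (η := fun u : Ev => ι (φ u)) (hm h.ph) (h.inj.comp h.pinj') (fun u => (h.ph.map ι).sq u)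
    fun u => (h.ph.map ι).comm u w
  obtain ⟨l, θ, hθ, f⟩ : ∃ l θ, (θ = ε ∨ θ = φ) ∧ ∀ a ∈ A, ∃ u, sm u = 0 ∧ ι l * a * (ι l)⁻¹ = ι (θ u) := by
    obtain ⟨l, f | f⟩ := h.cls sq (.inr ⟨(cA.trans card_Ev).ge, fun a ha => ho a (sq a ha)⟩)
    · exact ⟨l, ε, .inl rfl, f⟩
    refine ⟨l, φ, .inr rfl, fun a ha => ?_⟩
    obtain ⟨w, f⟩ := f a ha
    have q : ι l * a * (ι l)⁻¹ * (ι l * a * (ι l)⁻¹) = 1 := by rw [conj_mul, sq a ha]; simp
    exact h.liftF q (R_mem.1 (f ▸ ho _ q)) f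
  obtain ⟨h1, -, h3, -⟩ := h.evn hθ
  have B : ∀ σ, σ = g1 ∨ σ = g2 → pv σ w = w := fun σ hσ => by
    obtain ⟨x, hx⟩ := (h.evn (.inr rfl)).2.2.2.1 σ hσ
    have hx' : ∀ u : Ev, κ (ι x) * κ (ι (φ u)) * (κ (ι x))⁻¹ = κ (ι (φ (⟨pv σ u, (sm_pv _ _).trans u.2⟩ : Ev))) :=
      fun u => by rw [← hx u u.2]; simp only [map_mul, map_inv]
    have := transfer (η := fun u : Ev => κ (ι (φ u))) (η' := fun u : Ev => κ (ι (θ u)))
      (fun u v => by rw [hm h.ph, map_mul]) (fun u v => by rw [hm h1, map_mul])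
      (h.kinj.comp (h.inj.comp h.pinj')) (h.kinj.comp (h.inj.comp h3)) (fun g hg => h.fixE hθ hg) (fun u => by
        obtain ⟨v, hv, f⟩ := f _ (m u)
        exact ⟨⟨v, hv⟩, by rw [← e, f]⟩) (fun u => ⟨_, hx' u⟩) (w := ⟨w, hw⟩) (h.tz ht (ι l))
    exact h.pinj ((sm_pv _ _).trans hw) hw (h.inj (h.kinj ((hx' ⟨w, hw⟩).symm.trans this)))
  rcases fix_g w (.inl (B _ (.inl rfl))) (.inl (B _ (.inr rfl))) with rfl | rfl
  exacts [absurd (h.ph.map ι).zero (h.ne ht), congrArg ι h.p1]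

theorem keyR (h : Gl π z x0 ε φ ι ρ κ) (ht : κ t = g * κ (ι z) * g⁻¹) (e : ρ t = R w) : t = ι z := by
  rcases F2c (sm w) with hw | hw
  swap
  · obtain ⟨η, H, rfl⟩ := h.exists_hat (h.tsq ht) e hw
    exact h.keyF H ht
  obtain ⟨u, hu, rfl⟩ := h.liftF (h.tsq ht) hw e
  by_cases ho : ∀ s, s * s = 1 → ρ s ∈ Om
  · exact h.keyE ho hu ht
  push Not at ho
  obtain ⟨s, s1, s2⟩ := ho
  obtain ⟨l, ⟨w, f⟩ | ⟨v, hv, f, -⟩⟩ := h.norm s1
  · obtain ⟨η, H, -⟩ := h.exists_hat (by rw [conj_mul, s1]; simp) f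
      (F2ne fun p => s2 (conj_Om (f ▸ R_mem.2 p)))
    rw [← H.ev u hu] at ht ⊢
    exact h.keyF H ht
  · exact absurd (conj_Om (f ▸ mul_mem (T_mem hv) (pm_mem (by decide)))) s2

omit [Finite Y] in
theorem red (h : Gl π z x0 ε φ ι ρ κ) (ht : κ t = g * κ (ι z) * g⁻¹) (y : Y)
    (H : κ (y * t * y⁻¹) = κ y * g * κ (ι z) * (κ y * g)⁻¹ → y * t * y⁻¹ = ι z) : t = ι z :=
  (MulAut.conj y).injective ((H (by rw [map_mul, map_mul, map_inv, ht]; group)).trans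
    (mul_inv_eq_iff_eq_mul.2 (h.zc' y)).symm)

theorem key2 (h : Gl π z x0 ε φ ι ρ κ) (ht : κ t = g * κ (ι z) * g⁻¹) (hx : t ∈ ι.range) : t = ι z := by
  obtain ⟨l, ⟨w, f⟩ | ⟨v, hv, f, f'⟩⟩ := h.norm (h.tsq ht)
  · exact h.red ht _ fun H => h.keyR H f
  · obtain ⟨x, rfl⟩ := hx
    have := h.sq_C (x := l * x * l⁻¹) hv (by rw [← f, ← h.ρι, map_mul ι, map_mul ι, map_inv ι]) f'
    rw [conj_mul, h.inj ((map_mul ι x x).trans ((h.tsq ht).trans (map_one ι).symm))] at this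
    exact absurd (by simpa using this.symm) h.z1

theorem key3 (h : Gl π z x0 ε φ ι ρ κ) (ht : κ t = g * κ (ι z) * g⁻¹) (hv : sm v = 0) (e : ρ t = T v * pm s4)
    (e' : pv s4 v = v + one) : t = ι z := by
  have A : ∀ {p q : V} {c : P8}, c = c0 ∧ p = d 0 1 + d 2 3 ∧ q = d 2 3 + d 4 5 ∨
      c = c1 ∧ p = d 2 3 + d 4 5 ∧ q = d 4 5 + d 6 7 → ∃ a ∈ ι.range, ∃ b ∈ ι.range,
        κ a = g⁻¹ * κ (ι (ε p)) * g ∧ κ b = g⁻¹ * κ (ι (ε q)) * g := fun {p q c} hc => by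
    obtain ⟨σ, h1, h2, h3, h4, h5⟩ := blocks e' hc
    obtain ⟨x, p1, p2⟩ := h.lift3 h1 h2 (e ▸ h3)
    have q : sm p = 0 ∧ sm q = 0 ∧ pv s4 p = p ∧ pv s4 q = q := by
      rcases hc with ⟨-, rfl, rfl⟩ | ⟨-, rfl, rfl⟩ <;> decide
    have B : ∀ {p}, sm p = 0 → pv s4 p = p → ∃ a, κ a = g⁻¹ * κ (ι (ε p)) * g := fun h1 h2 =>
      h.back ht (mul_inv_eq_iff_eq_mul.1 ((h.toAmb.econj hv e h1).trans (by rw [h2]))).symm
    have C : ∀ {p}, sm p = 0 → κ (ι x) * κ (ι (ε p)) * (κ (ι x))⁻¹ = κ (ι (ε (pv σ p))) := fun hp => by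
      rw [← h.toEp.econj (u := 0) (by decide) (by rw [p1, T_zero, one_mul]) hp]; simp only [map_mul, map_inv]
    have m : ∀ {a b u v}, κ a = g⁻¹ * κ (ι (ε u)) * g → κ b = g⁻¹ * κ (ι (ε v)) * g →
        κ (a * b) = g⁻¹ * κ (ι (ε (u + v))) * g := fun e1 e2 => by rw [map_mul, e1, e2, h.eh, map_mul, map_mul]; group
    have sq : ∀ {a u}, κ a = g⁻¹ * κ (ι (ε u)) * g → a * a = 1 := fun e1 =>
      h.kinj (by rw [m e1 e1, add_self, h.eh.zero]; simp)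
    obtain ⟨a, ha⟩ := B q.1 q.2.2.1
    obtain ⟨b, hb⟩ := B q.2.1 q.2.2.2
    obtain ⟨y, hy⟩ := h.back ht p2.symm
    obtain ⟨r1, r2⟩ := h.a4 (y := y) (sq ha) (sq hb) (h.kinj (by rw [m ha hb, m hb ha, add_comm]))
      (h.kinj (by rw [hb, ← h4, ← C q.1, map_mul, map_mul, map_inv, hy, ha]; group))
      (h.kinj (by rw [m ha hb, ← h5, ← C q.2.1, map_mul, map_mul, map_inv, hy, hb]; group))
    exact ⟨a, r1, b, r2, ha, hb⟩
  obtain ⟨a, ha, -, -, e1, -⟩ := A (.inl ⟨rfl, rfl, rfl⟩)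
  obtain ⟨-, -, b, hb, -, e2⟩ := A (.inr ⟨rfl, rfl, rfl⟩)
  have e3 : κ (a * b) = g⁻¹ * κ (ι z) * g⁻¹⁻¹ := by
    rw [map_mul, e1, e2, ← h.e1, show one = d 0 1 + d 2 3 + (d 4 5 + d 6 7) by decide, h.eh (d 0 1 + d 2 3), map_mul,
      map_mul]; group
  rw [h.key2 e3 (mul_mem ha hb)] at e3
  exact h.kinj (by rw [ht]; nth_rw 1 [e3]; group)

theorem central (h : Gl π z x0 ε φ ι ρ κ) (hc : Commute (κ (ι z)) (g * κ (ι z) * g⁻¹)) : g * κ (ι z) * g⁻¹ = κ (ι z) := by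
  obtain ⟨t, ht⟩ := h.rng _ hc.eq.symm
  rw [← ht]
  obtain ⟨l, ⟨w, f⟩ | ⟨v, hv, f, f'⟩⟩ := h.norm (h.tsq ht)
  · exact congrArg κ (h.red ht _ fun H => h.keyR H f)
  · exact congrArg κ (h.red ht _ fun H => h.key3 H hv f f')

end Gl

theorem exists_cov [Finite X] (hZ : Nat.card (Subgroup.center X) = 2) (hp : commutator X = ⊤) {Z : Type*} [Group Z]
    (e : X ⧸ Subgroup.center X ≃* Z ⧸ Subgroup.center Z) (f : Z ≃* Om) : ∃ (π : X →* O) (z : X), Cov π z := by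
  have hc : Subgroup.center Z = ⊥ := (Subgroup.eq_bot_iff_forall _).2 fun c hc => f.injective (Subtype.ext (by
    rw [map_one]
    refine cent_Om fun g hg => ?_
    obtain ⟨x, hx⟩ := f.surjective ⟨g, hg⟩
    have := congrArg (fun y => (f y : O)) (Subgroup.mem_center_iff.1 hc x)
    simpa [hx] using this))
  let e' : X ⧸ Subgroup.center X ≃* Om := e.trans (((QuotientGroup.quotientMulEquivOfEq hc).trans
    QuotientGroup.quotientBot).trans f)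
  obtain ⟨z, z1, hz⟩ := (Nat.card_eq_two_iff' (1 : Subgroup.center X)).1 hZ
  refine ⟨Om.subtype.comp (e'.toMonoidHom.comp (QuotientGroup.mk' _)), z, fun x => ?_, fun h => z1 (Subtype.ext h),
    Subgroup.mem_center_iff.1 z.2, fun x => (e' x).2, fun g hg => ?_, hp⟩
  · refine (show _ ↔ x ∈ Subgroup.center X by simp).trans ⟨fun h => or_iff_not_imp_left.2 fun h1 =>
      congrArg Subtype.val (hz ⟨x, h⟩ fun h2 => h1 (congrArg Subtype.val h2)), ?_⟩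
    rintro (rfl | rfl); exacts [one_mem _, z.2]
  · obtain ⟨y, hy⟩ := e'.surjective ⟨g, hg⟩
    obtain ⟨x, rfl⟩ := QuotientGroup.mk_surjective y
    exact ⟨x, congrArg Subtype.val hy⟩

theorem Cov.normal [Finite G] {L : Subgroup G} {π : L →* O} {z : L} (h : Cov π z) (hO : Cfsg.pPrimeCore 2 G = ⊥)
    (hN : ∀ g : G, g * z = z * g → g ∈ Subgroup.normalizer (L : Set G))
    (hR : ∀ R : Sylow 2 (Subgroup.centralizer (L : Set G)), IsCyclic (R : Subgroup (Subgroup.centralizer (L : Set G)))) :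
    L.Normal := by
  obtain ⟨π, x0, ε, φ, h⟩ := h.exists_fr
  let N := Subgroup.centralizer {(z : G)}
  let ι : L →* N := L.subtype.codRestrict N fun x =>
    Subgroup.mem_centralizer_singleton_iff.2 (congrArg Subtype.val (h.zc x))
  obtain ⟨ρ, hρ⟩ := h.exists_am (ι := ι) (fun a b e => Subtype.ext (congrArg (fun y : N => (y : G)) e))
    (fun y x => ⟨⟨y * x * (y : G)⁻¹, (Subgroup.mem_normalizer_iff.1
      (hN y (Subgroup.mem_centralizer_singleton_iff.1 y.2)) x).1 x.2⟩, rfl⟩) fun P h1 h2 => by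
    let f : P →* Subgroup.centralizer (L : Set G) := (N.subtype.comp P.subtype).codRestrict _ fun k =>
      Subgroup.mem_centralizer_iff.2 fun x hx => (congrArg Subtype.val (h1 k k.2 ⟨x, hx⟩)).symm
    have hf : Function.Injective f := fun a b e => Subtype.ext (Subtype.ext
      (congrArg (fun y : Subgroup.centralizer (L : Set G) => (y : G)) e))
    obtain ⟨S, hS⟩ := (h2.of_equiv (MonoidHom.ofInjective hf)).exists_le_sylow
    haveI := hR S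
    haveI := Subgroup.isCyclic_of_le hS
    exact isCyclic_of_surjective _ (MonoidHom.ofInjective hf).symm.surjective
  have H : Gl π z x0 ε φ ι ρ N.subtype := ⟨hρ, N.subtype_injective, fun g hg =>
    ⟨⟨g, Subgroup.mem_centralizer_singleton_iff.2 hg⟩, rfl⟩⟩
  exact Subgroup.normalizer_eq_top_iff.1 ((Subgroup.eq_top_iff' _).2 fun g => hN g
    (commutatorElement_eq_one_iff_mul_comm.1 (Subgroup.mem_bot.1 (hO.le
      (H7.zstar_commute (t := (z : G)) (congrArg Subtype.val h.z2) (fun _ c => H.central c) g)))).symm)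

end Cfsg.Agent.WA.O8
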