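import Cfsg.Agent.WA.Rw4d
import Cfsg.Agent.WA.IRw3

/-! Rudvalis-type Sylow subgroups: `N(D)` fixes neither `z` nor `Z` (PLAN_RW.md, P5). -/

set_option autoImplicit false
set_option linter.unusedSectionVars false
set_option linter.unusedVariables false

namespace Cfsg.Agent.WA.Rw

open Subgroup Cfsg.Agent.FT Cfsg.Agent.L0 Cfsg.Agent.H8
open Cfsg.Agent.BS (Invo)
open scoped commutatorElement

universe u

variable {G : Type u} [Group G] [Finite G] {T W D Z T' W' D' Z' U X Y K B J : Subgroup G}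
  {z z' s t x y w v d d' c e p q j r b u : G}

theorem four_gen (hz : Invo z) (h1 : z ∈ B) (h4 : #|B| ≤ 4) (he : e ∈ B) (he' : e ∉ zpowers z) (h2 : z ∈ K)
    (h3 : e ∈ K) : B ≤ K := fun a ha => by
  by_cases a1 : a ∈ zpowers z
  · exact zpowers_le_of_mem h2 a1
  · obtain ⟨b, hb, rfl⟩ := idx2' (zpowers_le_of_mem h1) (by rw [hz.card_zpowers]; omega) he ha he' a1
    exact mul_mem h3 (zpowers_le_of_mem h2 hb)

theorem four_cent (hz : Invo z) (h1 : z ∈ B) (h4 : #|B| ≤ 4) (he : e ∈ B) (he' : e ∉ zpowers z) (h2 : z * y = y * z)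
    (h3 : e * y = y * e) : y ∈ 𝐂(B) :=
  mem_cH.mpr fun a ha => mem_c1.mp (four_gen hz h1 h4 he he' (mem_c1.mpr h2) (mem_c1.mpr h3) ha)

theorem four_norm (hz : Invo z) (h1 : z ∈ B) (h4 : #|B| ≤ 4) (he : e ∈ B) (he' : e ∉ zpowers z) (h2 : y * z * y⁻¹ ∈ B)
    (h3 : y * e * y⁻¹ ∈ B) : y ∈ 𝐍(B) := norm_of fun a ha => by
  have := four_gen (K := cj y⁻¹ B) hz h1 h4 he he' (mem_cj.mpr (by rwa [inv_inv])) (mem_cj.mpr (by rwa [inv_inv])) ha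
  rwa [mem_cj, inv_inv] at this

theorem Iv.alpha (h : Iv T W D Z z x c) (h' : Fr T' W' D' Z' z') (hx : x ∈ D') (hz : z ∈ D') (he : e ∈ D ⊓ 𝐂[x])
    (he' : e ∉ zpowers z) : e ∉ W' := fun a =>
  h.xW (h.memW' h.xT (h.lemK3 h' inf_le_left h.d4 ((h'.card_cent a).trans (cle fun w hw => mem_inf.mpr
    ⟨(mem_inf.mp hw).1, four_cent h.iz h.zD1 h.d4.le he he' (h'.wd (mem_inf.mp hw).1 hz).symm
      (mem_c1.mp (mem_inf.mp hw).2).symm⟩)) hx (h.nD h.xT)))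

theorem Iv.beta (H : H1 G) (h : Iv T W D Z z x c) (h' : Iv T' W' D' Z' z c z) (hx : x ∈ D') (hc : c ∉ zpowers z) :
    False := by
  obtain ⟨s, hs, s1, s2⟩ := h'.exe
  have n1 : s ∈ 𝐍(Z) := four_norm h.iz h.zZ h.cZ.le h.cm hc (by rw [h'.wdw (h'.DW hs) h'.zD]; exact h.zZ)
    (by rw [h'.conj_x, s2]; exact mul_mem (inv_mem h.zZ) h.cm)
  obtain ⟨k, k1, k2, k3⟩ := h.lemK2 (X := zpowers x) h.ZD h.cZ (h'.sqD hs) n1 (zpowers_le_of_mem (h.nD h.xT))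
    (zpowers_le_of_mem (h.nZ h.xT)) (zpowers_le_of_mem (mem_c1.mpr (h'.dcomm hx hs)))
  have kx := conj_of_cent (mem_zpowers x) k2
  obtain ⟨T₀, W₀, Z₀, z₀, h₀, hY⟩ := (h.cj k).exN (Y := zpowers x ⊔ zpowers s)
    (h'.pgD.to_le (sup_le (zpowers_le_of_mem hx) (zpowers_le_of_mem hs)))
    (sup_le (zpowers_le_of_mem ((h.cj k).nD (kx ▸ conj_mem_cj k h.xT))) (zpowers_le_of_mem k3))
  have xT := hY (mem_sup_left (mem_zpowers x))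
  have sT := hY (mem_sup_right (mem_zpowers s))
  have e0 := H.eq h₀ h.czz (le_cj_of_cent h.ZD k1 h.zZ)
  subst e0
  obtain ⟨d, hd, -, d2⟩ := h.exe
  have e1 : ⁅x, k * d * k⁻¹⁆ = c := by rw [← kx, ← conj_comm, d2, conj_of_cent h.cm k1]
  have c0 : c ∈ Z₀ := e1 ▸ h₀.commD xT (conj_mem_cj k hd)
  have s3 : s ∉ 𝐂(Z₀) := fun a => s1 (mem_cH.mp a c c0)
  exact h₀.ncomm' sT xT s3 (fun a => hc (e1 ▸ (h₀.memT1 xT).mp a _ (conj_mem_cj k hd)))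
    (Or.inl ((h₀.of_sq sT (h'.sqD hs ▸ one_mem _)).resolve_right s3)) (h'.dcomm hs hx)

theorem Iv.gamma {c' : G} (h : Iv T W D Z z x c) (h' : Iv T' W' D' Z' z c c') (hx : x ∈ D') (hc : c ∉ zpowers z)
    (hX : W ⊓ 𝐂[x] ≤ T') (h1 : c' ∉ zpowers z) (h2 : c ∈ 𝐂(Z')) : False := by
  have d1 := h'.D1_eq h2
  have xZ : x ∈ Z' := d1 ▸ mem_inf.mpr ⟨hx, mem_c1.mpr h.xc⟩
  have xz : x ∉ zpowers z := fun a => h.xW (zpowers_le_of_mem h.zW a)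
  have X2 : W ⊓ 𝐂[x] ≤ T' ⊓ 𝐂(Z') := fun p hp =>
    mem_inf.mpr ⟨hX hp, h'.memT2 (hX hp) xZ xz (mem_c1.mp (mem_inf.mp hp).2)⟩
  have el : ∀ p ∈ W ⊓ 𝐂[x], p * p = 1 := fun p hp =>
    ((mem_z h.ic).mp (h.sqX hp)).resolve_right fun a => h'.xW (a ▸ h'.sqT2 (X2 hp))
  have c1 := h.lemD el
  have c2 := h'.c4le hX h'.WT2 X2 h'.cT2.le
  have c3 := h.c32
  have Y1 : W' ⊓ 𝐂[c] ≤ 𝐂(Z) := fun p hp => four_cent h.iz h.zZ h.cZ.le h.cm hc (h'.wd (mem_inf.mp hp).1 h'.zD).symm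
    (mem_c1.mp (mem_inf.mp hp).2).symm
  obtain ⟨T₀, W₀, D₀, Z₀, z₀, h₀, b0, hY⟩ := h.exX h.ZD (h'.pgW.to_le inf_le_left) Y1
  have x0 : x ∉ W₀ := fun a => h.xW (h.memW' h.xT (h.lemK1 h₀ h.ZD b0 h.cZ (h.nD h.xT) (h₀.WC a)))
  have el' : ∀ p ∈ W' ⊓ 𝐂[c], p * p = 1 := fun p hp => ((mem_z h'.ic).mp (h'.sqX hp)).resolve_right fun a => x0 (by
    have a1 : c' ∈ W₀ := a ▸ h₀.sq4 b0 h.cZ.ge (hY hp) (Y1 hp)
    rcases h'.idxZ xZ xz h'.cm h1 with e | e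
    · exact e ▸ a1
    · exact (mul_mem_cancel_right (h₀.DW (b0 h.zZ))).mp (e ▸ a1))
  have J1 : W ⊓ 𝐂[x] ⊓ W' ≤ W' ⊓ 𝐂[c] := fun j hj =>
    mem_inf.mpr ⟨(mem_inf.mp hj).2, mem_c1.mpr (h.wd (mem_inf.mp (mem_inf.mp hj).1).1 h.cD')⟩
  obtain ⟨J₀, j1, j2, j3⟩ := h'.lemR el' J1
  obtain ⟨j, hj, hj'⟩ := ex_not_mem (A := zpowers z) (B := J₀) (by rw [h.iz.card_zpowers]; omega)
  obtain ⟨jX, jW⟩ := mem_inf.mp (j1 hj)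
  obtain ⟨w, hw, e⟩ := h.sig32 c1 jX (el j jX)
  have u1 : j * x ∉ D' := fun a => h.xW (by
    have : j ∈ Z' := d1 ▸ mem_inf.mpr ⟨(mul_mem_cancel_right hx).mp a, (mem_inf.mp (J1 (j1 hj))).2⟩
    rcases h'.idxZ this hj' xZ xz with e | e
    · exact e ▸ (mem_inf.mp jX).1
    · exact e ▸ mul_mem (mem_inf.mp jX).1 h.zW)
  have u2 := h'.lemC (h'.cj w) h'.zD (h.wdw hw h.zD ▸ conj_mem_cj w h'.zD) h.iz.ne_one (mul_mem jW (h'.DW hx))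
    (e ▸ conj_mem_cj w hx) u1
  have u3 := cnt_c (Y := W') (L := Z') (e := j * x) fun y hy => by
    rw [h'.comm_mul hy jW (h'.DW hx), comm1.mpr (h'.wd hy hx), mul_one, ← d1]
    exact j3 j hj y hy
  rw [h'.cW, h'.cZ] at u3
  omega

theorem H1.chi (H : H1 G) (h : Fr T W D Z z) (h' : Fr T' W' D' Z' z') (hx : x ∈ D') (hT : x ∈ T) :
    x ∈ cmod (zpowers z) D := by
  by_contra hn
  obtain ⟨c, hi⟩ := h.iv hT (fun a => hn (mem_inf.mp (h.WT1 a)).2) (h'.sqD hx)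
  have hc : c ∉ zpowers z := fun a => hn (hi.memT1 a)
  obtain ⟨T₁, W₁, D₁, Z₁, z₁, h₁, x1, hY⟩ := h'.exX1 hx (h.two.to_le inf_le_left) (inf_le_right : T ⊓ 𝐂[x] ≤ _)
  have z1 := HH.inT (Or.inl H) h₁ h.czz (hY (inf_le_inf_right _ h.DT hi.zD1))
  have e0 := H.eq h₁ h.czz z1
  subst e0
  have cT := hY (inf_le_inf_right _ h.DT hi.cD1)
  obtain ⟨c', hi'⟩ := h₁.iv cT (hi.alpha h₁ x1 z1 hi.cD1 hc) hi.c2
  by_cases a : c ∈ cmod (zpowers z) D₁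
  · exact hi.beta H (hi'.eq_z a ▸ hi') x1 hc
  · exact hi.gamma hi' x1 hc ((inf_le_inf_right _ h.WT).trans hY) (fun b => a (hi'.memT1 b))
      ((h₁.of_sq cT hi'.xxW).resolve_left a)

theorem H2.chi (H : H2 G) (H' : ¬ H1 G) (h : Fr T W D Z z) (h' : Fr T' W' D' Z' z') (hx : x ∈ D') (hT : x ∈ T) :
    x ∈ 𝐂(Z) := by
  have HH' : HH G := Or.inr ⟨H, H'⟩
  by_contra hn
  obtain ⟨c, hi⟩ := h.iv hT (fun a => hn (h.WZ a)) (h'.sqD hx)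
  obtain ⟨T₁, W₁, D₁, Z₁, z₁, h₁, x1, hY⟩ := h'.exX1 hx (h.two.to_le inf_le_left) (inf_le_right : T ⊓ 𝐂[x] ≤ _)
  have z1 := HH'.inT h₁ h.czz (hY (inf_le_inf_right _ h.DT hi.zD1))
  have z2 := HH'.mem h₁ h.czz z1
  have x2 : x ∉ Z₁ := fun a => hi.xW (h.DW (HH'.inT h (H.cz H' h₁ a hi.ix.ne_one) hT))
  obtain ⟨e, he, he'⟩ := ex_not_mem (A := zpowers z) (B := D ⊓ 𝐂[x]) (by rw [hi.d4, h.iz.card_zpowers]; norm_num)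
  have eW := hi.alpha h₁ x1 z1 he he'
  have eT := hY (inf_le_inf_right _ h.DT he)
  have e2 : e ∉ 𝐂(Z₁) := fun a => eW (h₁.memW' eT (h₁.cent_of h₁.ZD h₁.cZ.ge x1 x2 a (mem_c1.mp (mem_inf.mp he).2)))
  have e0 : z = z₁ := ((mem_z h₁.iz).mp (by_contra fun a =>
    e2 (h₁.memT2 eT z2 a (h.dcomm (mem_inf.mp he).1 h.zD)))).resolve_left h.iz.ne_one
  subst e0
  obtain ⟨s, hs, hs'⟩ := h₁.exc
  have s1 := h₁.notT2 eT e2 hs hs'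
  have ss := h₁.sqD (h₁.ZD hs)
  have n1 : s ∈ 𝐍((D ⊓ 𝐂[x] : Subgroup G)) := four_norm h.iz hi.zD1 hi.d4.le he he'
    (by rw [h₁.wdw (h₁.ZW hs) h₁.zD]; exact hi.zD1)
    (by rw [conj_eq_comm, ← commutatorElement_inv, s1]; exact mul_mem (inv_mem hi.zD1) he)
  obtain ⟨k, k1, -, k3⟩ := h.lemK2 (X := ⊥) inf_le_left hi.d4 ss n1 bot_le bot_le bot_le
  obtain ⟨T₀, W₀, Z₀, z₀, h₀, hY'⟩ := (h.cj k).exN (h₁.pgD.to_le (zpowers_le_of_mem (h₁.ZD hs))) (zpowers_le_of_mem k3)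
  have s2 := HH'.inT h₀ (H.cz H' h₁ hs fun a => hs' (a ▸ one_mem _)) (hY' (mem_zpowers s))
  exact h.iz.ne_one (s1 ▸ comm1.mpr (h₀.dcomm (le_cj_of_cent inf_le_left k1 he) s2))

theorem Fr.p5 (h : Fr T W D Z z) (h2 : ∀ H : Subgroup G, H.index ≠ 2) : ¬ 𝐍(D) ≤ 𝐂[z] ∧ ¬ 𝐍(D) ≤ 𝐍(Z) := by
  have a1 : ¬ 𝐍(D) ≤ 𝐂[z] := fun a => by
    have n : 𝐍(D) ≤ 𝐍(zpowers z) := fun g hg => by
      rw [← cj_eq_self_iff, cj_zpowers, mem_c1.mp (a hg), mul_inv_cancel_right]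
    obtain ⟨g, x, x1, x2, x3⟩ := h.p3 h2 ((le_inf n le_rfl).trans norm_cmod) (fun k hk => ⟨n (c_le_n hk), fun d hd => by
      rw [comm1.mpr (mem_cH.mp hk d hd)]; exact one_mem _⟩) h.cT1
    exact x3 ((h.h1_of a).chi h (h.cj g) x1 x2)
  refine ⟨a1, fun a => ?_⟩
  obtain ⟨g, x, x1, x2, x3⟩ := h.p3 h2 (fun g hg => by
    rw [← cj_eq_self_iff, cj_centralizer, cj_eq_self (a hg)]) (centralizer_le h.ZD) h.cT2
  exact x3 ((h.h2_of a).chi (fun b => a1 (b _ _ _ _ _ h)) h (h.cj g) x1 x2)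

end Cfsg.Agent.WA.Rw
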