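import Cfsg.Agent.WA.Rw1
import Cfsg.Agent.H8.SQ2
import Cfsg.Agent.H1.SLn
import Cfsg.Agent.H6.Count
import Cfsg.Agent.L0.ElemAb
import Cfsg.Agent.FT.Main
import Cfsg.Agent.WA.TeQ1b
import Cfsg.Agent.H7.GlaubAut
import Cfsg.Agent.H7.Misc

/-! Rudvalis-type Sylow subgroups: the quotient `GL₃(2)` (PLAN_RW.md, P6, P7). -/

set_option autoImplicit false
set_option linter.unusedSectionVars false
set_option linter.unusedVariables false

namespace Cfsg.Agent.WA.Rw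

open Subgroup Cfsg.Agent.FT Cfsg.Agent.L0 Cfsg.Agent.H8
open Cfsg.Agent.BS (Invo)
open Cfsg.Agent.H7 (opp)
open scoped commutatorElement

universe u

local instance : Fact (Nat.Prime 2) := Nat.fact_prime_two

theorem gl32_simple : IsSimpleGroup (GL (Fin 3) (ZMod 2)) := by
  have h : IsSimpleGroup (Matrix.ProjectiveSpecialLinearGroup (Fin 3) (ZMod 2)) :=
    H1.SLn.isSimpleGroup_PSL (Or.inl (by simp))
  have hc : center (Matrix.SpecialLinearGroup (Fin 3) (ZMod 2)) = ⊥ := by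
    rw [eq_bot_iff]
    intro A hA
    obtain ⟨r, hr, hA'⟩ := Matrix.SpecialLinearGroup.mem_center_iff.1 hA
    have : r = 1 := by clear hA'; revert r; decide
    subst this
    exact Subtype.ext (by rw [← hA']; simp)
  have e := (QuotientGroup.quotientMulEquivOfEq hc).trans QuotientGroup.quotientBot
  have u : ∀ a : (ZMod 2)ˣ, (a : ZMod 2) = 1 := by decide
  have e' : Matrix.SpecialLinearGroup (Fin 3) (ZMod 2) ≃* GL (Fin 3) (ZMod 2) :=
    MulEquiv.ofBijective Matrix.SpecialLinearGroup.toGL ⟨Matrix.SpecialLinearGroup.toGL_injective,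
      fun A => ⟨⟨A.1, u (Matrix.GeneralLinearGroup.det A)⟩, Units.ext rfl⟩⟩
  exact @MulEquiv.isSimpleGroup _ _ _ _ h (e.trans e').symm

theorem r7_num {p k : ℕ} (hp : p.Prime) (h2 : p ≠ 2) (hk : 2 ≤ k)
    (h : p ^ k * 7 ∣ ∏ i : Fin 8, (2 ^ 8 - 2 ^ (i : ℕ))) : ¬ 7 ∣ ∏ i : Fin k, (p ^ k - p ^ (i : ℕ)) := by
  rw [show ∏ i : Fin 8, (2 ^ 8 - 2 ^ (i : ℕ)) = 2 ^ 28 * (3 ^ 5 * 5 ^ 2 * 7 * 17 * 31 * 127) * 7 by decide +kernel] at h
  have h1 := ((Nat.coprime_primes hp Nat.prime_two).2 h2).pow k 28 |>.dvd_of_dvd_mul_left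
    (Nat.dvd_of_mul_dvd_mul_right (by norm_num) h)
  have h3 := (pow_dvd_pow p hk).trans h1
  have h4 := (dvd_pow_self p two_ne_zero).trans h3
  have e : ∀ q n : ℕ, q.Prime → p ∣ q ^ n → p = q := fun q n hq e =>
    (Nat.prime_dvd_prime_iff_eq hp hq).1 (hp.dvd_of_dvd_pow e)
  have e' : ∀ q : ℕ, q.Prime → p ∣ q → p = q := fun q hq e => (Nat.prime_dvd_prime_iff_eq hp hq).1 e
  simp only [hp.dvd_mul] at h4
  rcases h4 with ((((h4 | h4) | h4) | h4) | h4) | h4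
  · obtain rfl := e 3 _ (by norm_num) h4
    have : k < 6 := lt_of_not_ge fun a => absurd ((pow_dvd_pow 3 a).trans h1) (by norm_num)
    interval_cases k <;> decide +kernel
  · obtain rfl := e 5 _ (by norm_num) h4
    have : k < 3 := lt_of_not_ge fun a => absurd ((pow_dvd_pow 5 a).trans h1) (by norm_num)
    interval_cases k; decide +kernel
  all_goals
    obtain rfl := e' _ (by norm_num) h4
    norm_num at h3

theorem r7_abs {N S Γ : Type*} [Group N] [Group S] [Group Γ] [Finite N] [IsSimpleGroup S] (φ : N →* S) (ρ : N →* Γ)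
    (hφ : Function.Surjective φ) (hρ : Function.Surjective ρ) (h7 : 7 ∣ Nat.card S) (hS : ¬ IsMulCommutative S)
    (hΓ : Nat.card Γ ∣ ∏ i : Fin 8, (2 ^ 8 - 2 ^ (i : ℕ))) (ho : ¬ 2 ∣ #|φ.ker.map ρ|) {P : Subgroup Γ}
    (hP : IsPGroup 2 P) (h0 : P ≠ ⊥) (hy : ∀ y : Γ, Odd (orderOf y) → y ∈ 𝐂(P) → y = 1) : φ.ker ≤ ρ.ker := by
  have : Finite Γ := Finite.of_surjective ρ hρ
  have hC : (φ.ker.map ρ).Normal := Normal.map inferInstance ρ hρ
  have key : ∀ K : Subgroup Γ, K.Normal → P ≤ K ∨ (7 ∣ K.index ∧ ¬ commutator Γ ≤ K) := fun K hK => by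
    rcases ((hK.comap ρ).map φ hφ).eq_bot_or_eq_top with e | e
    · rw [Subgroup.map_eq_bot_iff] at e
      refine Or.inr ⟨?_, fun a => hS ⟨⟨fun x y => ?_⟩⟩⟩
      · rw [← index_comap_of_surjective K hρ]
        refine dvd_trans ?_ (index_dvd_of_le e)
        rwa [index_ker, MonoidHom.range_eq_top.2 hφ, card_top]
      · obtain ⟨x, rfl⟩ := hφ x
        obtain ⟨y, rfl⟩ := hφ y
        rw [← commutatorElement_eq_one_iff_mul_comm, ← map_commutatorElement]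
        refine e (a ?_)
        rw [map_commutatorElement]
        exact commutator_mem_commutator trivial trivial
    · have e1 : φ.ker.map ρ ⊔ K = ⊤ := by
        rw [← map_comap_eq_self_of_surjective hρ K, ← Subgroup.map_sup, sup_comm, ← comap_map_eq, e, comap_top,
          map_top_of_surjective _ hρ]
      obtain ⟨n, hn⟩ := hP.exists_card_eq
      refine Or.inl (le_of_card_coprime_index ?_)
      rw [hn, ← relIndex_top_right, ← e1, relIndex_sup_right]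
      exact ((Nat.prime_two.coprime_iff_not_dvd).2 fun a => ho (a.trans (relIndex_dvd_card _ _))).pow_left n
  have h1 : 7 ∣ (φ.ker.map ρ).index := ((key _ hC).resolve_left fun a => h0 (by
    obtain ⟨n, hn⟩ := hP.exists_card_eq
    have := card_dvd_of_le a
    rcases n with - | n
    · exact card_eq_one.1 hn
    · exact absurd ((hn ▸ dvd_pow_self 2 n.succ_ne_zero).trans this) ho)).1
  rw [← Subgroup.map_eq_bot_iff]
  by_contra hne
  obtain ⟨Y, y1, y2, y3, y4⟩ := exists_minimal_normal_le hC hne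
  have yo : ¬ 2 ∣ #|Y| := fun a => ho (a.trans (card_dvd_of_le y1))
  have : Group.IsSolvable Y := odd_solvable (Nat.odd_iff.2 (by omega))
  obtain ⟨p, hp, ⟨hc, he⟩⟩ := isElementaryAbelian_of_minimal_normal y2 y3 y4
  have : Fact p.Prime := ⟨hp⟩
  have he' : ∀ x : Y, x ^ p = 1 := fun x => Subtype.ext (he x x.2)
  obtain ⟨k, hk⟩ := IsPGroup.exists_card_eq (p := p) (G := Y) fun x => ⟨1, by rw [pow_one, he']⟩
  have hk0 : k ≠ 0 := fun a => y3 (card_eq_one.1 (by rw [hk, a, pow_zero]))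
  have hp2 : p ≠ 2 := fun a => yo (by rw [hk, a]; exact dvd_pow_self 2 hk0)
  have h2 : P ≤ 𝐂(Y) := (key _ inferInstance).resolve_right fun ⟨a, b⟩ => by
    by_cases hk1 : k = 1
    · exact b (Te.der_le_cent_cyc (L := ⊤) (isCyclic_of_prime_card (p := p) (by rw [hk, hk1, pow_one]))
        le_normalizer_of_normal)
    refine r7_num (k := k) hp hp2 (by omega) (dvd_trans ?_ hΓ) ?_
    · rw [← (φ.ker.map ρ).card_mul_index]
      exact mul_dvd_mul (hk ▸ card_dvd_of_le y1) h1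
    · rw [← card_mulAut_of_elementary he' hk]
      refine a.trans ?_
      rw [show 𝐂(Y) = (MulAut.conjNormal (H := Y)).ker from ?_, index_ker]
      · exact card_subgroup_dvd_card _
      · ext g
        simp only [MonoidHom.mem_ker, MulEquiv.ext_iff, mem_cH, Subtype.ext_iff, MulAut.conjNormal_apply,
          MulAut.one_apply, Subtype.forall, mul_inv_eq_iff_eq_mul]
        exact forall₂_congr fun _ _ => eq_comm
  refine y3 (eq_bot_iff.2 fun y hy' => hy y (Nat.odd_iff.2 ?_) fun t ht => (h2 ht y hy').symm)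
  have : ¬ 2 ∣ orderOf y := fun a => yo (dvd_trans a (Y.orderOf_dvd_natCard hy'))
  omega

variable {G : Type u} [Group G] [Finite G] {T W D Z : Subgroup G} {z y : G}

/-- an element acting with odd order on `V`, commuting with `T` on `V`, acts trivially -/
theorem r7_fix {V : Subgroup G} (hT : IsPGroup 2 T) (h1 : V ≤ T) (h2 : T ≤ 𝐍(V)) (h3 : ∀ v ∈ V, v * v = 1)
    (h4 : #|(V ⊓ 𝐂(T) : Subgroup G)| ≤ 2) (hy : y ∈ 𝐍(V)) {n : ℕ} (hn : Odd n) (h5 : y ^ n ∈ 𝐂(V))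
    (h6 : ∀ t ∈ T, ∀ v ∈ V, t * (y * v * y⁻¹) * t⁻¹ = y * (t * v * t⁻¹) * y⁻¹) : y ∈ 𝐂(V) := by
  have iv : ∀ v ∈ V, v⁻¹ = v := fun v hv => inv_eq_of_mul_eq_one_right (h3 v hv)
  have cm : ∀ a ∈ V, ∀ b ∈ V, a * b = b * a := fun a ha b hb => by
    rw [← iv _ (mul_mem ha hb), mul_inv_rev, iv a ha, iv b hb]
  let U : Subgroup G :=
    { carrier := {x | ∃ v ∈ V, ⁅y, v⁆ = x}
      one_mem' := ⟨1, one_mem _, by simp⟩
      mul_mem' := by
        rintro _ _ ⟨a, ha, rfl⟩ ⟨b, hb, rfl⟩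
        exact ⟨a * b, mul_mem ha hb, by rw [comm_mul_r, cm a ha _ (comm_mem_r hy hb), mul_inv_cancel_right]⟩
      inv_mem' := by
        rintro _ ⟨a, ha, rfl⟩
        exact ⟨a, ha, (iv _ (comm_mem_r hy ha)).symm⟩ }
  have hU : U ≤ V := by rintro _ ⟨a, ha, rfl⟩; exact comm_mem_r hy ha
  by_contra hc
  obtain ⟨_, ⟨u, hu, rfl⟩, a1, -, a2⟩ := H5.exists_mem_not_mem_central_mod (K := U) (H := ⊥) hT (hU.trans h1)
    (fun t ht => norm_of (by
      rintro _ ⟨a, ha, rfl⟩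
      refine ⟨_, conj_mem' (h2 ht) ha, ?_⟩
      rw [commutatorElement_def, commutatorElement_def, ← h6 t ht a ha]; group))
    fun e => hc fun v hv => (comm1.1 (e ⟨v, hv, rfl⟩)).symm
  have m := comm_mem_r hy hu
  generalize ha : ⁅y, u⁆ = a at *
  have c1 : ∀ t ∈ T, t * a * t⁻¹ = a := fun t ht => by rw [← comm1.1 (a2 t ht), mul_inv_cancel_right]
  have c2 : y * a * y⁻¹ = a := by
    have := idx2 (A := ⊥) (B := V ⊓ 𝐂(T)) (a := a) (b := y * a * y⁻¹) bot_le (by rwa [card_bot])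
      ⟨m, fun t ht => mul_inv_eq_iff_eq_mul.1 (c1 t ht)⟩
      ⟨conj_mem' hy m, fun t ht => mul_inv_eq_iff_eq_mul.1 (by rw [h6 t ht a m, c1 t ht])⟩ a1
      fun e => a1 (by simpa using e)
    rw [eq_inv_of_mul_eq_one_right this, iv a m]
  have c3 : ∀ k : ℕ, y ^ k * u * (y ^ k)⁻¹ = a ^ k * u := fun k => by
    induction k with
    | zero => simp
    | succ k ih =>
      calc _ = y * (y ^ k * u * (y ^ k)⁻¹) * y⁻¹ := by group
        _ = (y * a * y⁻¹) ^ k * (y * u * y⁻¹) := by rw [ih, conj_pow]; group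
        _ = _ := by rw [c2, conj_eq_comm, ha]; group
  have c4 := c3 n
  obtain ⟨k, rfl⟩ := hn
  rw [← h5 u hu, mul_inv_cancel_right, right_eq_mul, pow_succ, pow_mul, pow_two, h3 a m, one_pow, one_mul] at c4
  exact a1 c4

/-- the action of `N(W)` on `D` -/
def Fr.phi (h : Fr T W D Z z) : 𝐍(W) →* MulAut D := D.normalizerMonoidHom.comp (inclusion h.NW_le)

theorem Fr.phi_apply (h : Fr T W D Z z) (n : 𝐍(W)) (d : D) : (h.phi n d : G) = n * d * (n : G)⁻¹ := rfl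

theorem Fr.ker_phi (h : Fr T W D Z z) : h.phi.ker = 𝐂(D).subgroupOf 𝐍(W) := by
  rw [Fr.phi, ← MonoidHom.comap_ker, normalizerMonoidHom_ker]; rfl

theorem Fr.commD' (h : Fr T W D Z z) : IsMulCommutative D := ⟨⟨fun a b => Subtype.ext (h.dcomm a.2 b.2)⟩⟩

theorem Fr.autD (h : Fr T W D Z z) : Nonempty (MulAut D ≃* GL (Fin 3) (ZMod 2)) := by
  have := h.commD'
  letI : CommGroup D := { (inferInstance : Group D) with mul_comm := fun a b => Subtype.ext (h.dcomm a.2 b.2) }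
  exact nonempty_mulAut_equiv_GL (p := 2) (fun x => Subtype.ext (by simpa [pow_two] using h.sqD x.2)) h.cD

theorem Fr.cautD (h : Fr T W D Z z) : Nat.card (MulAut D) = 168 := by
  have := h.commD'
  rw [card_mulAut_of_elementary (p := 2) (n := 3) (fun x => Subtype.ext (by simpa [pow_two] using h.sqD x.2)) h.cD]
  decide

theorem Fr.simple_autD (h : Fr T W D Z z) : IsSimpleGroup (MulAut D) ∧ ¬ IsMulCommutative (MulAut D) := by
  obtain ⟨e⟩ := h.autD
  have := gl32_simple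
  have := e.isSimpleGroup
  refine ⟨this, fun a => ?_⟩
  letI : CommGroup (MulAut D) := { (inferInstance : Group (MulAut D)) with mul_comm := a.1.1 }
  have := IsSimpleGroup.prime_card (α := MulAut D)
  rw [h.cautD] at this
  norm_num at this

theorem Fr.p6 (h : Fr T W D Z z) (h1 : ¬ 𝐍(D) ≤ 𝐂[z]) (h2 : ¬ 𝐍(D) ≤ 𝐍(Z)) : Function.Surjective h.phi := by
  have zn : ∀ n : G, n * z * n⁻¹ ≠ 1 := fun n => (h.iz.conj n).2
  obtain ⟨n, hn, he⟩ : ∃ n ∈ 𝐍(D), n * z * n⁻¹ ∉ Z := by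
    by_contra! a
    obtain ⟨m, hm, m1⟩ := SetLike.not_le_iff_exists.1 h1
    have m2 : m * z * m⁻¹ ∉ zpowers z := fun e => ((mem_z h.iz).1 e).elim (zn m) fun e =>
      m1 (mem_c1.2 (mul_inv_eq_iff_eq_mul.1 e))
    refine h2 fun n hn => norm_of fun c hc => ?_
    have a1 : n * (m * z * m⁻¹) * n⁻¹ ∈ Z := by simpa [mul_assoc] using a _ (mul_mem hn hm)
    by_cases e : c ∈ zpowers z
    · rcases (mem_z h.iz).1 e with rfl | rfl
      exacts [by simp, a n hn]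
    rcases h.idxZ (a m hm) m2 hc e with rfl | rfl
    exacts [a1, by rw [← conj_mul]; exact mul_mem a1 (a n hn)]
  obtain ⟨n, hn, e⟩ := h.fus h.zD (conj_mem' hn h.zD)
  rw [← e] at he
  have he' : n * z * n⁻¹ ∈ D := conj_mem' (h.NW_le hn) h.zD
  obtain ⟨t, ht, t1⟩ := ex_not_mem (A := W) (B := T ⊓ cmod (zpowers z) D ⊓ 𝐂(Z)) (by rw [h.cW, h.cT12]; norm_num)
  obtain ⟨s, hs, s1⟩ := ex_not_mem (A := T ⊓ cmod (zpowers z) D) (B := T) (by rw [h.cT, h.cT1]; norm_num)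
  have e1 := h.T12 ht.1.1 ht.1.2 ht.2 t1 he' he
  have e2 : ⁅s, n * z * n⁻¹⁆ ∉ zpowers z := fun a => s1 ⟨hs, h.memT1' hs he' he a⟩
  have e3 := h.commD hs he'
  let R := h.phi.range
  let r : ∀ g ∈ 𝐍(W), R := fun g hg => h.phi.rangeRestrict ⟨g, hg⟩
  let z0 : D := ⟨z, h.zD⟩
  have o4 : 4 ≤ (MulAction.stabilizer R z0).index := by
    rw [MulAction.index_stabilizer, ← Set.ncard_image_of_injective _ D.subtype_injective]
    have om : ∀ g ∈ 𝐍(W), g * z * g⁻¹ ∈ D.subtype '' MulAction.orbit R z0 := fun g hg => ⟨_, ⟨r g hg, rfl⟩, rfl⟩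
    have o1 : ∀ g ∈ T, ⁅g, n * z * n⁻¹⁆ * (n * z * n⁻¹) ∈ D.subtype '' MulAction.orbit R z0 := fun g hg => by
      rw [← conj_eq_comm]; simpa [mul_assoc] using om _ (mul_mem (h.nW hg) hn)
    have o2 := om n hn
    have o3 := o1 t ht.1.1
    have o4 := o1 s hs
    rw [e1] at o3
    generalize n * z * n⁻¹ = x at *
    generalize ⁅s, x⁆ = c at *
    refine le_trans (Set.ncard_eq_four.2 ⟨z, x, z * x, c * x, ?_, ?_, ?_, ?_, ?_, ?_, rfl⟩).ge
      (Set.ncard_le_ncard (by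
        rintro _ (rfl | rfl | rfl | rfl)
        exacts [by simpa using om 1 (one_mem _), o2, o3, o4]))
    · exact fun a => he (a ▸ h.zZ)
    · exact fun a => he (by rw [left_eq_mul.1 a]; exact one_mem _)
    · exact fun a => he ((mul_mem_cancel_left e3).1 (a ▸ h.zZ))
    · exact fun a => h.iz.2 (right_eq_mul.1 a)
    · exact fun a => e2 (by rw [right_eq_mul.1 a]; exact one_mem _)
    · exact fun a => e2 (by rw [← mul_right_cancel a]; exact mem_zpowers z)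
  have c8 : 8 ∣ #|MulAction.stabilizer R z0| := by
    have a1 : (T.subgroupOf 𝐍(W)).map h.phi.rangeRestrict ≤ MulAction.stabilizer R z0 := by
      rintro _ ⟨t, ht, rfl⟩
      exact Subtype.ext (mul_inv_eq_iff_eq_mul.2 (h.cz ht))
    refine dvd_trans (dvd_of_eq ?_) (card_dvd_of_le a1)
    rw [← relIndex_ker, MonoidHom.ker_rangeRestrict, h.ker_phi, relIndex_subgroupOf h.nW, ← inf_relIndex_left, ← h.eW]
    have := relIndex_mul_card_of_le h.WT
    rw [h.cW, h.cT] at this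
    omega
  have c1 := (MulAction.stabilizer R z0).index_mul_card
  have c2 := R.index_mul_card
  obtain ⟨k, hk⟩ := c8
  rw [h.cautD, ← c1, hk] at c2
  have := h.simple_autD.1
  by_contra a
  have c3 := H6.two_mul_card_dvd_factorial_index h.simple_autD.2 (H := R) fun e => a (MonoidHom.range_eq_top.1 e)
  rw [h.cautD] at c3
  have c4 : R.index * 4 * 8 ≤ 168 := by
    rw [← c2, mul_assoc]
    exact Nat.mul_le_mul_left _ (Nat.mul_le_mul o4 (Nat.le_mul_of_pos_right _ (Nat.pos_of_ne_zero (by rintro rfl; omega))))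
  exact absurd (c3.trans (Nat.factorial_dvd_factorial (n := 5) (by omega))) (by decide)

/-- the action of `N(W)` on `W / D` -/
noncomputable def Fr.rho (h : Fr T W D Z z) : 𝐍(W) →* MulAut ↥(W ⁒ D) :=
  (W ⁒ D).normalizerMonoidHom.comp ((quoHom 𝐍(W) D h.NW_le).codRestrict 𝐍(W ⁒ D)
    fun x => quoHom_apply h.NW_le x ▸ quo_le_normalizer le_rfl D (coset_mem_quo x.2))

theorem Fr.rho_apply (h : Fr T W D Z z) (n : 𝐍(W)) (v : ↥(W ⁒ D)) :
    (h.rho n v : QG D) = coset D n * v * (coset D (n : G))⁻¹ := by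
  rw [← quoHom_apply h.NW_le]; rfl

theorem Fr.rho_one (h : Fr T W D Z z) {n : 𝐍(W)} : h.rho n = 1 ↔ coset D (n : G) ∈ 𝐂(W ⁒ D) := by
  simp only [MulEquiv.ext_iff, mem_cH, Subtype.ext_iff, h.rho_apply, MulAut.one_apply, Subtype.forall,
    mul_inv_eq_iff_eq_mul]
  exact forall₂_congr fun _ _ => eq_comm

theorem Fr.sqV (h : Fr T W D Z z) {v : QG D} (hv : v ∈ W ⁒ D) : v * v = 1 := by
  obtain ⟨w, hw, rfl⟩ := (mem_quo_of_le h.WnD).1 hv
  rw [← coset_mul (h.WnD hw) (h.WnD hw)]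
  exact coset_eq_one (h.sq w hw)

theorem Fr.fixV (h : Fr T W D Z z) : #|(W ⁒ D ⊓ 𝐂(T ⁒ D) : Subgroup (QG D))| ≤ 2 := by
  have a : copre D (W ⁒ D ⊓ 𝐂(T ⁒ D)) ≤ W ⊓ cmod D T := fun x hx => by
    obtain ⟨x1, x2, x3⟩ := mem_copre.1 hx
    refine ⟨(coset_mem_quo_iff h.DW x1).1 x2, x1, fun t ht => ?_⟩
    rw [← coset_eq_one_iff (comm_mem_l (le_normalizer x1) (h.nD ht)), coset_commutator (h.nD ht) x1]
    exact comm1.2 (x3 _ (coset_mem_quo ht))
  have := cle a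
  rw [card_copre, h.cv3, h.cD] at this
  omega

theorem Fr.p7a (h : Fr T W D Z z) (hs : Function.Surjective h.phi) (hy : y ∈ 𝐍(W)) (hc : y ∈ 𝐂(D)) {w : G}
    (hw : w ∈ W) : ⁅y, w⁆ ∈ D := by
  have cV := card_quo_mul_of_normalIn (⟨h.DW, h.WnD⟩ : D ⊴ W)
  rw [h.cD, h.cW] at cV
  have iv : ∀ v ∈ W ⁒ D, v⁻¹ = v := fun v hv => inv_eq_of_mul_eq_one_right (h.sqV hv)
  have cm : ∀ a ∈ W ⁒ D, ∀ b ∈ W ⁒ D, a * b = b * a := fun a ha b hb => by
    rw [← iv _ (mul_mem ha hb), mul_inv_rev, iv a ha, iv b hb]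
  have : IsMulCommutative ↥(W ⁒ D) := ⟨⟨fun a b => Subtype.ext (cm _ a.2 _ b.2)⟩⟩
  have := h.simple_autD.1
  have rk : ∀ n : 𝐍(W), h.rho.rangeRestrict n = 1 ↔ coset D (n : G) ∈ 𝐂(W ⁒ D) := fun n => by
    rw [← h.rho_one, Subtype.ext_iff]; rfl
  have key := r7_abs h.phi h.rho.rangeRestrict hs h.rho.rangeRestrict_surjective (by rw [h.cautD]; norm_num)
    h.simple_autD.2 (P := (T.subgroupOf 𝐍(W)).map h.rho.rangeRestrict) ?_ ?_ ((pgroup_subgroupOf h.two _).map _) ?_ ?_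
  · have := (rk ⟨y, hy⟩).1 (key (by rw [h.ker_phi]; exact hc)) _ (coset_mem_quo hw)
    rw [← coset_eq_one_iff (comm_mem_l (le_normalizer (h.WnD hw)) (h.NW_le hy)), coset_commutator (h.NW_le hy) (h.WnD hw)]
    exact comm1.2 this.symm
  · rw [← card_mulAut_of_elementary (V := ↥(W ⁒ D)) (p := 2) (n := 8)
      (fun x => Subtype.ext (by simpa [pow_two] using h.sqV x.2)) (by omega)]
    exact card_subgroup_dvd_card _
  · have a : IsSylowIn 2 (W.subgroupOf 𝐍(W)) h.phi.ker := by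
      refine IsSylowIn.of_not_dvd_relIndex (by rw [h.ker_phi]; exact fun x hx => h.WC hx) (pgroup_subgroupOf h.pgW _) ?_
      rw [h.ker_phi, ← inf_subgroupOf_right 𝐂(D), relIndex_subgroupOf inf_le_right]
      exact (h.sylC.of_le (le_inf h.WC le_normalizer) inf_le_left).not_dvd_relIndex
    rw [← (a.map _).dvd_card_iff, show (W.subgroupOf 𝐍(W)).map h.rho.rangeRestrict = ⊥ from
      (Subgroup.map_eq_bot_iff _).2 fun x hx => (rk x).2 fun v hv => cm v hv _ (coset_mem_quo hx), card_bot]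
    norm_num
  · intro e
    have a : W ⁒ D ≤ W ⁒ D ⊓ 𝐂(T ⁒ D) := le_inf le_rfl fun v hv t ht => by
      obtain ⟨t, ht', rfl⟩ := (mem_quo_of_le h.nD).1 ht
      exact ((rk ⟨t, h.nW ht'⟩).1 ((Subgroup.map_eq_bot_iff _).1 e ht') v hv).symm
    have := (cle a).trans h.fixV
    omega
  · intro y ho hc
    obtain ⟨y, rfl⟩ := h.rho.rangeRestrict_surjective y
    refine (rk y).2 (r7_fix (pgroup_quo h.two D) (quo_mono h.WT D) (quo_le_normalizer h.nW D) (fun v => h.sqV) h.fixV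
      (quo_le_normalizer le_rfl D (coset_mem_quo y.2)) ho ?_ fun t ht v hv => ?_)
    · rw [← coset_pow (h.NW_le y.2)]
      exact (rk (y ^ _)).1 (by rw [map_pow, pow_orderOf_eq_one])
    · obtain ⟨t, ht', rfl⟩ := (mem_quo_of_le h.nD).1 ht
      have := congrArg (fun f : h.rho.range => (f.1 ⟨v, hv⟩ : QG D)) (hc _ ⟨⟨t, h.nW ht'⟩, ht', rfl⟩)
      simpa only [coe_mul, MonoidHom.coe_rangeRestrict, MulAut.mul_apply, h.rho_apply] using this

theorem Fr.p7b (h : Fr T W D Z z) (hs : Function.Surjective h.phi) (hy : y ∈ 𝐂(D) ⊓ 𝐍(W)) (ho : Odd (orderOf y)) :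
    y ∈ 𝐂(W) := fun x hx => by
  have hd := h.p7a hs hy.2 hy.1 hx
  have e := conj_eq_comm y x
  generalize ⁅y, x⁆ = d at hd e
  have h2 : ∀ k : ℕ, y ^ k * x * (y ^ k)⁻¹ = d ^ k * x := fun k => by
    induction k with
    | zero => simp
    | succ k ih =>
      calc _ = y * (y ^ k * x * (y ^ k)⁻¹) * y⁻¹ := by group
        _ = y * d ^ k * y⁻¹ * (y * x * y⁻¹) := by rw [ih]; group
        _ = _ := by rw [e, ← hy.1 _ (pow_mem hd k)]; group
  have h3 := h2 (orderOf y)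
  rw [pow_orderOf_eq_one, one_mul, inv_one, mul_one, right_eq_mul] at h3
  obtain ⟨k, hk⟩ := ho
  rw [hk, pow_succ, pow_mul, pow_two, h.sqD hd, one_pow, one_mul] at h3
  rw [h3, one_mul] at e
  exact (mul_inv_eq_iff_eq_mul.1 e).symm

theorem Fr.p7 (h : Fr T W D Z z) (h1 : ¬ 𝐍(D) ≤ 𝐂[z]) (h2 : ¬ 𝐍(D) ≤ 𝐍(Z)) :
    ∃ (_ : (W.subgroupOf 𝐍(W) ⊔ Cfsg.oddCore ↥𝐍(W)).Normal),
      Nonempty (↥𝐍(W) ⧸ (W.subgroupOf 𝐍(W) ⊔ Cfsg.oddCore ↥𝐍(W)) ≃* GL (Fin 3) (ZMod 2)) := by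
  have hs := h.p6 h1 h2
  obtain ⟨e⟩ := h.autD
  have sn : H7.SN 𝐂(W) 𝐍(W) := H7.SN.of_normalizer c_le_n (le_normalizer_centralizer le_rfl)
  have sy : IsSylowIn 2 W (𝐂(D) ⊓ 𝐍(W)) := h.sylC.of_le (le_inf h.WC le_normalizer) inf_le_left
  have a1 : 𝐂(W) ≤ W ⊔ opp 2 𝐍(W) := by
    have b := sy.inf_of_le_normalizer (N := 𝐂(W)) (inf_le_right.trans (le_normalizer_centralizer le_rfl))
    rw [inf_eq_right.2 (le_inf (centralizer_anti h.DW) c_le_n)] at b
    exact (H7.le_sup_opp_of_central_sylow b (centralizer_anti inf_le_left)).trans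
      (sup_le_sup inf_le_left (H7.opp_mono_of_sn sn))
  have a2 : opp 2 𝐍(W) ≤ 𝐂(W) := fun o ho w hw => by
    have b1 := comm_mem_l (H7.opp_le _ ho) hw
    have b2 := comm_mem_r (H7.le_normalizer_opp (p := 2) _ (le_normalizer hw)) ho
    obtain ⟨k, hk⟩ := two_pow h.pgW (A := W ⊓ opp 2 𝐍(W)) inf_le_left
    rcases k with - | k
    · exact comm1.1 ((card_eq_one.1 hk).le ⟨b1, b2⟩)
    · exact absurd ((hk ▸ dvd_pow_self 2 k.succ_ne_zero).trans (card_dvd_of_le inf_le_right)) (H7.not_dvd_card_opp _)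
  have a3 : W.subgroupOf 𝐍(W) ⊔ Cfsg.oddCore ↥𝐍(W) = h.phi.ker := by
    rw [h.ker_phi]
    refine le_antisymm (sup_le (fun x hx => h.WC hx) fun x hx => centralizer_anti h.DW (a2 ⟨x, hx, rfl⟩)) fun x hx => ?_
    obtain ⟨c, hc, s, hs', e⟩ := SQ.cen_mul (Q := W) inf_le_right (fun g hg => h.p7b hs hg) sy (n := x) ⟨hx, x.2⟩
    obtain ⟨n, hn, _, ⟨o, ho, rfl⟩, e'⟩ := (mem_sup' (le_normalizer.trans (H7.le_normalizer_opp (p := 2) 𝐍(W)))).1
      (e ▸ mul_mem (a1 hc) (mem_sup_left hs'))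
    rw [show x = ⟨n, le_normalizer hn⟩ * o from Subtype.ext e'.symm]
    exact mul_mem (mem_sup_left hn) (mem_sup_right ho)
  rw [a3]
  exact ⟨inferInstance, ⟨(QuotientGroup.quotientKerEquivOfSurjective _ hs).trans e⟩⟩

end Cfsg.Agent.WA.Rw
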