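import Cfsg.Agent.WA.Qd8

/-! Quadratic pairs: reduction to the faithful irreducible case, and stability. -/

set_option autoImplicit false
set_option linter.unusedSectionVars false

namespace Cfsg.Agent.WA.Qd

open Subgroup Module Matrix Cfsg.Agent.H8 Cfsg.Agent.H5
open scoped MatrixGroups commutatorElement

universe u

variable {p : ℕ} [hp : Fact p.Prime] {Γ : Type*} [Group Γ] [Finite Γ] {G A : Subgroup Γ}

theorem irr {V : Type u} [AddCommGroup V] [Module (ZMod p) V] [Finite V] (p5 : 5 ≤ p) [G.Normal]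
    (hA : CopAct A G) (ρ : Γ →* End (ZMod p) V) (inj : Function.Injective ρ)
    (hi : ∀ W : Submodule (ZMod p) V, (∀ g, W ≤ W.comap (ρ g)) → W ≠ ⊥ → W = ⊤) {x : Γ} (hx : x ∈ G)
    (h1 : x ≠ 1) (q : (ρ x - 1) * (ρ x - 1) = 0) :
    SecIn (ProjectiveSpecialLinearGroup (Fin 2) (ZMod p)) (G ⊓ centralizer (A : Set Γ)) := by
  classical
  let P := (pCore p G).map G.subtype
  haveI : P.Normal := inferInstance
  have hP : IsPGroup p P := L0.pCore_isPGroup.map _
  have h2 : P = ⊥ := by
    letI : MulAction P V := MulAction.compHom V (ρ.comp P.subtype)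
    obtain ⟨v, hv⟩ : ∃ v : V, v ≠ 0 := by
      by_contra! h
      exact h1 (inj (LinearMap.ext fun v => (h _).trans (h _).symm))
    obtain ⟨w, hw, h0⟩ := hP.exists_fixed_point_of_prime_dvd_card_of_fixed_point V
      (addOrderOf_eq_prime (p_smul (p := p) v) hv ▸ addOrderOf_dvd_natCard v) (a := 0)
      fun g => map_zero (ρ g)
    let W : Submodule (ZMod p) V :=
      { carrier := {v | ∀ g ∈ P, ρ g v = v}
        zero_mem' := fun g _ => map_zero _
        add_mem' := fun ha hb g hg => by rw [map_add, ha g hg, hb g hg]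
        smul_mem' := fun c v ha g hg => by rw [map_smul, ha g hg] }
    have h3 := hi W (fun g v hv k hk => by
      have := hv _ (Normal.conj_mem' inferInstance k hk g)
      rw [← End.mul_apply, ← map_mul]
      nth_rewrite 2 [← this]
      rw [← End.mul_apply, ← map_mul]
      congr 2; group) (Submodule.ne_bot_iff W |>.2 ⟨w, fun g hg => hw ⟨g, hg⟩, h0.symm⟩)
    refine eq_bot_iff.2 fun g hg => inj (LinearMap.ext fun v => ?_)
    rw [map_one]
    exact (h3.ge (Submodule.mem_top (x := v)) :) g hg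
  have ex : ∃ n, ∃ x ∈ G, x ≠ 1 ∧ (ρ x - 1) * (ρ x - 1) = 0 ∧ rk (ρ x - 1) = n :=
    ⟨_, x, hx, h1, q, rfl⟩
  obtain ⟨y, y1, y2, y3, y4⟩ := Nat.find_spec ex
  let f : Fr p V Γ :=
    { ρ := ρ, G := G, d := Nat.find ex, p5 := p5, inj := inj
      bs := fun x hx h => H4.exists_not_isPGroup_closure_of_not_mem_pCore G x hx fun h' =>
        h (mem_bot.1 (h2.le h'))
      min := fun x hx h q => Nat.find_min' ex ⟨x, hx, h, q, rfl⟩ }
  exact Fr.main (f := f) hA ⟨y1, y2, y3, y4.le⟩

theorem unip (p5 : 5 ≤ p) [G.Normal] (hA : CopAct A G)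
    (hn : ¬ SecIn (ProjectiveSpecialLinearGroup (Fin 2) (ZMod p)) (G ⊓ centralizer (A : Set Γ)))
    {X : Subgroup Γ} (hX : X ≤ G) {h : Γ} (hh : h ∈ normalClosure (X : Set Γ)) (n : ℕ) :
    ∀ (V : Type u) [AddCommGroup V] [Module (ZMod p) V] [Finite V], finrank (ZMod p) V = n →
      ∀ ρ : Γ →* End (ZMod p) V, (∀ x ∈ X, (ρ x - 1) * (ρ x - 1) = 0) → ∃ j, ρ (h ^ p ^ j) = 1 := by
  induction n using Nat.strong_induction_on with
  | _ n ih =>
  intro V _ _ _ hV ρ q
  by_cases hi : ∀ W : Submodule (ZMod p) V, (∀ g, W ≤ W.comap (ρ g)) → W ≠ ⊥ → W = ⊤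
  · refine ⟨0, ?_⟩
    rw [pow_zero, pow_one]
    refine normalClosure_le_normal (N := ρ.ker) (fun x hx => ?_) hh
    by_contra h1
    let π := ρ.toHomUnits.rangeRestrict
    have hπ : Function.Surjective π := ρ.toHomUnits.rangeRestrict_surjective
    haveI := Finite.of_surjective π hπ
    haveI : (G.map π).Normal := Normal.map inferInstance π hπ
    have := irr p5 (hA.map π) ((Units.coeHom _).comp ρ.toHomUnits.range.subtype)
      (Units.val_injective.comp Subtype.val_injective)
      (fun W hW => hi W fun g => hW (π g)) (mem_map_of_mem π (hX hx))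
      (fun e => h1 (congrArg (fun z : ρ.toHomUnits.range => z.1.1) e)) (q x hx)
    rw [hA.map_inf_centralizer'] at this
    exact hn (this.of_map π)
  · push Not at hi
    obtain ⟨W, hW, h1, h2⟩ := hi
    have h3 := W.finrank_quotient_add_finrank
    have h4 := Submodule.finrank_lt h2
    have h5 : finrank (ZMod p) W ≠ 0 := fun e => h1 (Submodule.finrank_eq_zero.1 e)
    haveI : Finite (V ⧸ W) := Finite.of_surjective _ W.mkQ_surjective
    obtain ⟨j, hj⟩ := ih _ (by omega) W rfl (Representation.subrepresentation ρ W hW)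
      fun x hx => LinearMap.ext fun v => Subtype.ext (LinearMap.congr_fun (q x hx) v)
    obtain ⟨k, hk⟩ := ih _ (by omega) (V ⧸ W) rfl (Representation.quotient ρ W hW)
      fun x hx => LinearMap.ext fun v => by
        obtain ⟨v, rfl⟩ := W.mkQ_surjective v
        exact congrArg W.mkQ (LinearMap.congr_fun (q x hx) v)
    have e1 : Representation.subrepresentation ρ W hW (h ^ p ^ (j + k)) = 1 := by
      rw [pow_add, pow_mul, map_pow]
      exact (congrArg (· ^ p ^ k) hj).trans (one_pow _)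
    have e2 : Representation.quotient ρ W hW (h ^ p ^ (j + k)) = 1 := by
      rw [add_comm, pow_add, pow_mul, map_pow]
      exact (congrArg (· ^ p ^ j) hk).trans (one_pow _)
    refine ⟨j + k + 1, ?_⟩
    rw [pow_succ, pow_mul, map_pow]
    generalize h ^ p ^ (j + k) = g at e1 e2
    have e3 : (ρ g - 1) * (ρ g - 1) = 0 := LinearMap.ext fun v => sub_eq_zero.2
      (congrArg Subtype.val (LinearMap.congr_fun e1
        ⟨_, (Submodule.Quotient.eq W).1 (LinearMap.congr_fun e2 (W.mkQ v))⟩))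
    have e4 : ∀ m : ℕ, ρ g ^ m = 1 + (m : ZMod p) • (ρ g - 1) := fun m => by
      induction m with
      | zero => simp
      | succ m ih =>
        rw [pow_succ, ih]
        push_cast
        linear_combination (norm := skip) (m : ZMod p) • e3
        simp only [mul_add, add_mul, mul_sub, sub_mul, mul_one, one_mul, smul_mul_assoc, smul_sub]
        module
    simp [e4]

theorem unipZ (p5 : 5 ≤ p) [G.Normal] (hA : CopAct A G)
    (hn : ¬ SecIn (ProjectiveSpecialLinearGroup (Fin 2) (ZMod p)) (G ⊓ centralizer (A : Set Γ)))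
    {X : Subgroup Γ} (hX : X ≤ G) {h : Γ} (hh : h ∈ normalClosure (X : Set Γ)) {V : Type u}
    [AddCommGroup V] [Finite V] (hM : ∀ v : V, p • v = 0) (τ : Γ →* End ℤ V)
    (q : ∀ x ∈ X, ∀ v, τ x (τ x v - v) = τ x v - v) : ∃ j, ∀ v, τ (h ^ p ^ j) v = v := by
  obtain ⟨_⟩ : Nonempty (Module (ZMod p) V) := ⟨AddCommGroup.zmodModule hM⟩
  let ρ : Γ →* End (ZMod p) V :=
    { toFun := fun h => (τ h).toAddMonoidHom.toZModLinearMap p
      map_one' := by rw [map_one]; rfl
      map_mul' := fun g h => by rw [map_mul]; rfl }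
  obtain ⟨j, hj⟩ := unip p5 hA hn hX hh _ V rfl ρ fun x hx =>
    LinearMap.ext fun v => sub_eq_zero.2 (q x hx v)
  exact ⟨j, fun v => LinearMap.congr_fun hj v⟩

theorem unip' (p5 : 5 ≤ p) [G.Normal] (hA : CopAct A G)
    (hn : ¬ SecIn (ProjectiveSpecialLinearGroup (Fin 2) (ZMod p)) (G ⊓ centralizer (A : Set Γ)))
    {X : Subgroup Γ} (hX : X ≤ G) {h : Γ} (hh : h ∈ normalClosure (X : Set Γ)) {M : Type u}
    [CommGroup M] [Finite M] (hM : ∀ v : M, v ^ p = 1) (φ : Γ →* MulAut M)
    (q : ∀ x ∈ X, ∀ v, φ x (φ x v * v⁻¹) = φ x v * v⁻¹) : ∃ j, ∀ v, φ (h ^ p ^ j) v = v := by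
  let τ : Γ →* End ℤ (Additive M) :=
    { toFun := fun h => (MonoidHom.toAdditive (φ h).toMonoidHom).toIntLinearMap
      map_one' := by ext v; simp
      map_mul' := fun g h => by ext v; simp }
  obtain ⟨j, hj⟩ := unipZ p5 hA hn hX hh (V := Additive M) (fun v => hM v.toMul) τ fun x hx v => by
    have := q x hx v.toMul
    rw [← div_eq_mul_inv] at this
    exact this
  exact ⟨j, fun v => hj (Additive.ofMul v)⟩

theorem stab (p5 : 5 ≤ p) [G.Normal] (hA : CopAct A G)
    (hn : ¬ SecIn (ProjectiveSpecialLinearGroup (Fin 2) (ZMod p)) (G ⊓ centralizer (A : Set Γ)))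
    {B : Subgroup Γ} [B.Normal] (hB : IsPGroup p B) {X : Subgroup Γ} (hX : X ≤ G)
    (hq : ⁅⁅B, X⁆, X⁆ = ⊥) : InQCore p ⊤ (centralizer (B : Set Γ)) X := by
  set N := (frattini B).map B.subtype with hN
  haveI : N.Normal := inferInstance
  set f := QuotientGroup.mk' N with hf
  haveI : (B.map f).Normal := Normal.map inferInstance f (QuotientGroup.mk'_surjective _)
  have hV : IsElementaryAbelian p (B.map f) := by
    constructor
    · rw [← le_centralizer_iff_isMulCommutative, ← commutator_eq_bot_iff_le_centralizer,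
        ← map_commutator, Subgroup.map_eq_bot_iff, QuotientGroup.ker_mk',
        ← map_subtype_commutator]
      exact map_mono (commutator_le_frattini hB)
    · rintro _ ⟨b, hb, rfl⟩
      rw [← map_pow]
      exact (QuotientGroup.eq_one_iff _).mpr ⟨⟨b, hb⟩ ^ p, pow_mem_frattini hB _, rfl⟩
  set V := B.map f with hVd
  haveI := hV.1
  letI : CommGroup V := { (inferInstance : Group V) with mul_comm := fun a b => mul_comm' a b }
  have h : ⁅⁅V, X.map f⁆, X.map f⁆ = ⊥ := by
    rw [hVd, ← map_commutator, ← map_commutator, hq, Subgroup.map_bot]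
  refine ⟨normalClosure (X : Set Γ), le_normalClosure, le_top, le_normalizer_of_normal,
    fun d hd => ?_⟩
  obtain ⟨k, hk⟩ := unip' p5 hA hn hX hd (M := V) (fun v => Subtype.ext (hV.2 _ v.2))
    ((MulAut.conjNormal (H := V)).comp f) fun x hx v => Subtype.ext (by
      change f x * ⁅f x, (v : Γ ⧸ N)⁆ * (f x)⁻¹ = ⁅f x, (v : Γ ⧸ N)⁆
      refine mul_inv_eq_iff_eq_mul.2 (commute_of_commutator_eq_bot h ?_ (mem_map_of_mem f hx)).symm
      rw [commutator_comm]
      exact commutator_mem_commutator (mem_map_of_mem f hx) v.2)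
  have hk' : f (d ^ p ^ k) ∈ centralizer (V : Set (Γ ⧸ N)) := fun v hv =>
    (mul_inv_eq_iff_eq_mul.1 (congrArg Subtype.val (hk ⟨v, hv⟩))).symm
  obtain ⟨j, hj⟩ := exists_pow_coprime (p := p) (d ^ p ^ k)
  refine ⟨k + j, ?_⟩
  rw [pow_add, pow_mul]
  have h1 : H8.CopAct (zpowers ((d ^ p ^ k) ^ p ^ j)) B :=
    H8.CopAct.of_pgroup_right (by rwa [Nat.card_zpowers]) hB le_normalizer_of_normal
  refine le_centralizer_iff.mp (h1.le_centralizer_of_commutator_le_frattini ?_) (mem_zpowers _)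
  rw [← hN, ← QuotientGroup.ker_mk' N, ← Subgroup.map_eq_bot_iff, map_commutator,
    commutator_comm, commutator_eq_bot_iff_le_centralizer, MonoidHom.map_zpowers]
  rw [← hf, map_pow]
  exact zpowers_le_of_mem (pow_mem hk' _)

end Cfsg.Agent.WA.Qd
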