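import Cfsg.Agent.WA.AlPres
import Mathlib.GroupTheory.Perm.Centralizer

/-! S3218, module AlAut: automorphisms of alternating groups. -/

set_option autoImplicit false

namespace Cfsg.Agent.WA.Al

open Subgroup Equiv

namespace Aut

variable {α : Type} [Fintype α] [DecidableEq α]

/-- the 3-cycle `a ↦ b ↦ c ↦ a` -/
def T3 (σ : Perm α) (a b c : α) : Prop :=
  a ≠ b ∧ a ≠ c ∧ b ≠ c ∧ σ a = b ∧ σ b = c ∧ σ c = a ∧ ∀ x, x = a ∨ x = b ∨ x = c ∨ σ x = x

theorem t3_of {σ : Perm α} (h : σ.IsThreeCycle) {a : α} (ha : σ a ≠ a) : T3 σ a (σ a) (σ (σ a)) := by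
  have h1 := h.support_eq_iff_mem_support.2 (Perm.mem_support.2 ha)
  have h2 := h.nodup_iff_mem_support.2 (Perm.mem_support.2 ha)
  have h3 : (σ ^ 3) a = a := by simp [← h.orderOf]
  refine ⟨by grind, by grind, by grind, rfl, rfl, by simpa [pow_succ] using h3, fun x => ?_⟩
  rw [← Perm.notMem_support, h1]
  simp only [Finset.mem_insert, Finset.mem_singleton]
  tauto

omit [Fintype α] [DecidableEq α] in
theorem T3.eq {σ τ : Perm α} {a b c : α} (h : T3 σ a b c) (h' : T3 τ a b c) : σ = τ := by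
  ext x
  unfold T3 at *
  grind

omit [Fintype α] in
theorem t3_c3 {a b i : α} (hb : a ≠ b) (hi : a ≠ i) (h : b ≠ i) : T3 (swap a i * swap a b) a b i := by
  unfold T3
  simp only [Perm.coe_mul, Function.comp_apply, swap_apply_def]
  grind

omit [Fintype α] [DecidableEq α] in
theorem T3.conj {σ : Perm α} {a b c : α} (h : T3 σ a b c) (π : Perm α) : T3 (π * σ * π⁻¹) (π a) (π b) (π c) := by
  obtain ⟨h1, h2, h3, h4, h5, h6, h7⟩ := h
  refine ⟨π.injective.ne h1, π.injective.ne h2, π.injective.ne h3, by simp [h4], by simp [h5], by simp [h6], fun x => ?_⟩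
  obtain ⟨y, rfl⟩ := π.surjective x
  simpa using h7 y

theorem arrow0 {σ τ : Perm α} {a b c : α} (h : T3 σ a b c) (hτ : τ.IsThreeCycle) (h2 : ∀ x, σ (τ (σ (τ x))) = x)
    (h1 : σ * τ ≠ 1) (ha : τ a ≠ a) (hb : τ b ≠ b) : τ a = b := by
  have h3 := t3_of hτ ha
  have h4 := h2 a
  by_contra hc
  refine h1 (Equiv.ext fun x => ?_)
  rw [Perm.mul_apply, Perm.one_apply]
  unfold T3 at *
  grind

theorem arrow {σ τ : Perm α} (hσ : σ.IsThreeCycle) (hτ : τ.IsThreeCycle) (h2 : (σ * τ) ^ 2 = 1) (h1 : σ * τ ≠ 1) :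
    ∃ a, σ a ≠ a ∧ τ a = σ a := by
  have h3 : ∀ x, σ (τ (σ (τ x))) = x := fun x => by simpa [pow_two] using congrArg (fun f : Perm α => f x) h2
  obtain ⟨a, ha⟩ : ∃ a, σ a ≠ a := by
    by_contra hc
    exact hσ.ne_one (Equiv.ext fun x => not_not.1 fun e => hc ⟨x, e⟩)
  have h4 := t3_of hσ ha
  generalize σ a = b at h4
  generalize σ b = c at h4
  have h5 : T3 σ b c a := by unfold T3 at *; grind
  have h6 : T3 σ c a b := by unfold T3 at *; grind
  have e1 := arrow0 h4 hτ h3 h1
  have e2 := arrow0 h5 hτ h3 h1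
  have e3 := arrow0 h6 hτ h3 h1
  have f1 := h3 a
  have f2 := h3 b
  have f3 := h3 c
  obtain ⟨n1, n2, n3, s1, s2, s3, -⟩ := h4
  by_cases a1 : τ a = a <;> by_cases a2 : τ b = b <;> by_cases a3 : τ c = c
  all_goals first | exact ⟨a, by grind, by grind⟩ | exact ⟨b, by grind, by grind⟩ | exact ⟨c, by grind, by grind⟩

theorem third {σ τ ρ : Perm α} (hσ : σ.IsThreeCycle) (hτ : τ.IsThreeCycle) (hρ : ρ.IsThreeCycle) (ne : σ ≠ τ) {a u v : α}
    (h1 : σ a ≠ a) (h2 : τ a = σ a) (h3 : σ u ≠ u) (h4 : ρ u = σ u) (h5 : τ v ≠ v) (h6 : ρ v = τ v) : ρ a = σ a := by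
  have s := t3_of hσ h1
  have t := t3_of hτ (h2 ▸ h1 : τ a ≠ a)
  rw [h2] at t
  have n : σ (σ a) ≠ τ (σ a) := fun e => ne (s.eq (e ▸ t))
  have r := t3_of hρ (h4 ▸ h3 : ρ u ≠ u)
  have i := ρ.injective
  unfold T3 at *
  by_cases u1 : u = a
  · rw [← u1, h4]
  by_cases v1 : v = a
  · rw [← h2, ← v1, h6]
  have u2 : u = σ a ∨ u = σ (σ a) := by grind
  have v2 : v = σ a ∨ v = τ (σ a) := by grind
  exfalso
  rcases u2 with rfl | rfl <;> rcases v2 with rfl | rfl <;> grind

theorem of_three (ω : MulAut (Alt α)) (h4 : 4 ≤ Fintype.card α)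
    (h : ∀ p : Alt α, p.1.IsThreeCycle → (ω p).1.IsThreeCycle) : ∃ π : Perm α, ∀ p, (ω p).1 = π * p.1 * π⁻¹ := by
  obtain ⟨f⟩ : Nonempty (Fin 4 ↪ α) := Function.Embedding.nonempty_of_card_le (by simpa using h4)
  have hf : ∀ i j, i ≠ j → f i ≠ f j := fun i j e => f.injective.ne e
  obtain ⟨a, b, i₀, j₀, hab, a1, a2, b1, b2, hij⟩ : ∃ a b i j : α, a ≠ b ∧ a ≠ i ∧ a ≠ j ∧ b ≠ i ∧ b ≠ j ∧ i ≠ j :=
    ⟨f 0, f 1, f 2, f 3, hf _ _ (by decide), hf _ _ (by decide), hf _ _ (by decide), hf _ _ (by decide), hf _ _ (by decide),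
      hf _ _ (by decide)⟩
  have h3 : ∀ i (hi : a ≠ i), b ≠ i → (ω (c3 a b i hab hi)).1.IsThreeCycle := fun i hi hb =>
    h _ (Perm.isThreeCycle_swap_mul_swap_same hi hab hb.symm)
  have hne : ∀ i j (hi : a ≠ i) (hj : a ≠ j), b ≠ i → b ≠ j → i ≠ j → (ω (c3 a b i hab hi)).1 ≠ (ω (c3 a b j hab hj)).1 :=
    fun i j hi hj bi bj e e' => by
      have := congrArg (fun p : Alt α => p.1 b) (ω.injective (Subtype.ext e'))
      exact e ((t3_c3 hab hi bi).2.2.2.2.1.symm.trans (this.trans (t3_c3 hab hj bj).2.2.2.2.1))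
  have har : ∀ i j (hi : a ≠ i) (hj : a ≠ j), b ≠ i → b ≠ j → i ≠ j →
      ∃ u, (ω (c3 a b i hab hi)).1 u ≠ u ∧ (ω (c3 a b j hab hj)).1 u = (ω (c3 a b i hab hi)).1 u := fun i j hi hj bi bj e => by
    have t1 := t3_c3 hab hi bi
    have t2 := t3_c3 hab hj bj
    refine arrow (h3 i hi bi) (h3 j hj bj) ?_ fun e' => ?_
    · have : (c3 a b i hab hi * c3 a b j hab hj) ^ 2 = 1 := Subtype.ext (Equiv.ext fun x => by
        change ((swap a i * swap a b) * (swap a j * swap a b) * ((swap a i * swap a b) * (swap a j * swap a b))) x = x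
        generalize swap a i * swap a b = σ at *
        generalize swap a j * swap a b = τ at *
        simp only [Perm.mul_apply]
        unfold T3 at *
        have s1 := t1.2.2.2.2.2.2 j
        have s2 := t2.2.2.2.2.2.2 i
        have s3 := t1.2.2.2.2.2.2 x
        have s4 := t2.2.2.2.2.2.2 x
        rcases s3 with e | e | e | e <;> rcases s4 with e' | e' | e' | e' <;> grind)
      exact congrArg Subtype.val (show (ω _ * ω _) ^ 2 = 1 by rw [← map_mul, ← map_pow, this, map_one])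
    · have h5 : ω (c3 a b i hab hi * c3 a b j hab hj) = 1 := by rw [map_mul]; exact Subtype.ext e'
      have := congrArg (fun p : Alt α => p.1 a) ((MulEquiv.map_eq_one_iff ω).1 h5)
      change (swap a i * swap a b) ((swap a j * swap a b) a) = a at this
      rw [t2.2.2.2.1, t1.2.2.2.2.1] at this
      exact hi this.symm
  obtain ⟨al, m1, m2⟩ := har i₀ j₀ a1 a2 b1 b2 hij
  have key : ∀ i (hi : a ≠ i), b ≠ i → (ω (c3 a b i hab hi)).1 al = (ω (c3 a b i₀ hab a1)).1 al := fun i hi bi => by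
    by_cases e1 : i₀ = i
    · subst e1; rfl
    by_cases e2 : j₀ = i
    · subst e2; exact m2
    obtain ⟨u, u1, u2⟩ := har i₀ i a1 hi b1 bi e1
    obtain ⟨v, v1, v2⟩ := har j₀ i a2 hi b2 bi e2
    exact third (h3 _ a1 b1) (h3 _ a2 b2) (h3 _ hi bi) (hne _ _ a1 a2 b1 b2 hij) m1 m2 u1 u2 v1 v2
  generalize (ω (c3 a b i₀ hab a1)).1 al = be at m1 key
  have tk : ∀ i (hi : a ≠ i), b ≠ i → T3 (ω (c3 a b i hab hi)).1 al be ((ω (c3 a b i hab hi)).1 be) := fun i hi bi => by
    have := t3_of (h3 i hi bi) (a := al) (by rwa [key i hi bi])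
    rwa [key i hi bi] at this
  let g : α → α := fun i => if hi : a = i then al else if b = i then be else (ω (c3 a b i hab hi)).1 be
  have ga : g a = al := dif_pos rfl
  have gb : g b = be := (dif_neg hab).trans (if_pos rfl)
  have gi : ∀ i (hi : a ≠ i), b ≠ i → g i = (ω (c3 a b i hab hi)).1 be := fun i hi bi => (dif_neg hi).trans (if_neg bi)
  have inj : Function.Injective g := fun i j e => by
    by_contra hij
    by_cases i1 : a = i
    · subst i1
      by_cases j1 : b = j
      · subst j1; exact m1 (by rw [← ga, e, gb])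
      · exact (tk j hij j1).2.1 (by rw [← ga, e, gi j hij j1])
    by_cases i2 : b = i
    · subst i2
      by_cases j1 : a = j
      · subst j1; exact m1 (by rw [← ga, ← e, gb])
      · exact (tk j j1 hij).2.2.1 (by rw [← gi j j1 hij, ← e, gb])
    by_cases j1 : a = j
    · subst j1; exact (tk i i1 i2).2.1 (by rw [← ga, ← e, gi i i1 i2])
    by_cases j2 : b = j
    · subst j2; exact (tk i i1 i2).2.2.1 (by rw [← gi i i1 i2, e, gb])
    rw [gi i i1 i2, gi j j1 j2] at e
    exact hne i j i1 j1 i2 j2 hij ((tk i i1 i2).eq (e ▸ tk j j1 j2))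
  let π : Perm α := Equiv.ofBijective g (Finite.injective_iff_bijective.1 inj)
  refine ⟨π, fun p => ?_⟩
  have hp := closure_c3 hab Finset.univ (by simp) (by simp) (Finset.subset_univ p.1.support)
  induction hp using closure_induction with
  | mem q hq =>
    obtain ⟨i, hi, bi, -, rfl⟩ := hq
    have := (t3_c3 hab hi bi).conj π
    rw [show π a = al from ga, show π b = be from gb, show π i = _ from gi i hi bi] at this
    exact (tk i hi bi).eq this
  | one => simp
  | mul x y _ _ hx hy => rw [map_mul, Subgroup.coe_mul, hx, hy, Subgroup.coe_mul, conj_mul]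
  | inv x _ hx => rw [map_inv, Subgroup.coe_inv, hx, Subgroup.coe_inv, conj_inv]

open Nat in
theorem ineq (k m : ℕ) : 3 ^ (k + 1) * (k + 2)! * m ! ≤ (m + 3 * (k + 1))! ∧
    (1 ≤ k ∨ 1 ≤ m → 2 * (3 ^ (k + 1) * (k + 2)! * m !) < (m + 3 * (k + 1))!) := by
  have pos := factorial_pos m
  induction k with
  | zero =>
    simp only [zero_add, mul_one, factorial_succ, pow_one, factorial_zero]
    refine ⟨by nlinarith [Nat.zero_le (m * m * m !), Nat.zero_le (m * m !), Nat.zero_le (m * m * m * m !)], fun h => ?_⟩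
    obtain ⟨n, rfl⟩ : ∃ n, m = n + 1 := ⟨m - 1, by omega⟩
    generalize (n + 1)! = f at *
    nlinarith [Nat.zero_le (n * n * f), Nat.zero_le (n * f), Nat.zero_le (n * n * n * f)]
  | succ k ih =>
    have h1 := ih.1
    have h2 : 2 * (3 ^ (k + 1 + 1) * (k + 1 + 2)! * m !) < (m + 3 * (k + 1 + 1))! := by
      have p2 := factorial_pos (m + 3 * (k + 1))
      have e1 : (m + 3 * (k + 1 + 1))! = (m + 3 * (k + 1) + 1 + 1 + 1) * ((m + 3 * (k + 1) + 1 + 1) *
          ((m + 3 * (k + 1) + 1) * (m + 3 * (k + 1))!)) := rfl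
      have e2 : (k + 1 + 2)! = (k + 3) * (k + 2)! := rfl
      have h3 : 2 * (3 ^ (k + 1 + 1) * ((k + 3) * (k + 2)!) * m !) = (6 * (k + 3)) * (3 ^ (k + 1) * (k + 2)! * m !) := by ring
      have h4 : 6 * (k + 3) < (m + 3 * (k + 1) + 1 + 1 + 1) * (m + 3 * (k + 1) + 1 + 1) * (m + 3 * (k + 1) + 1) :=
        calc _ < 6 * 1 * (m + 3 * (k + 1) + 1) := by omega
          _ ≤ _ := Nat.mul_le_mul_right _ (Nat.mul_le_mul (by omega) (by omega))
      rw [e1, e2, h3]
      generalize (m + 3 * (k + 1))! = F at *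
      calc _ ≤ 6 * (k + 3) * F := Nat.mul_le_mul_left _ h1
        _ < _ := Nat.mul_lt_mul_of_pos_right h4 p2
        _ = _ := by ring
    exact ⟨by omega, fun _ => h2⟩

theorem card_cen (p : Alt α) : Nat.card (centralizer {p}) = Nat.card ↥(centralizer {p.1} ⊓ alternatingGroup α) := by
  rw [← card_map_of_injective (f := (alternatingGroup α).subtype) (subtype_injective _)]
  congr 2
  ext g
  simp only [mem_map, mem_centralizer_singleton_iff, mem_inf]
  exact ⟨fun ⟨x, hx, e⟩ => e ▸ ⟨congrArg Subtype.val hx, x.2⟩, fun ⟨h1, h2⟩ => ⟨⟨g, h2⟩, Subtype.ext h1, rfl⟩⟩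

theorem ord3 (ω : MulAut (Alt α)) {p : Alt α} (hp : p.1.IsThreeCycle) :
    ∃ k, (ω p).1.cycleType = Multiset.replicate (k + 1) 3 := by
  have : orderOf (ω p).1 = 3 := by rw [Subgroup.orderOf_coe, MulEquiv.orderOf_eq, ← Subgroup.orderOf_coe, hp.orderOf]
  exact this ▸ Perm.cycleType_prime_order (this ▸ Nat.prime_three)

theorem seven (ω : MulAut (Alt α)) (h7 : 7 ≤ Fintype.card α) (p : Alt α) (hp : p.1.IsThreeCycle) :
    (ω p).1.IsThreeCycle := by
  obtain ⟨k, hk⟩ := ord3 ω hp
  rcases k with _ | k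
  · exact hk
  exfalso
  have h1 : Nat.card (centralizer {ω p}) = Nat.card (centralizer {p}) := by
    rw [← card_map_of_injective (K := centralizer {p}) (f := ω.toMonoidHom) ω.injective]
    congr 2
    ext g
    obtain ⟨g, rfl⟩ := ω.surjective g
    rw [mem_centralizer_singleton_iff, ← map_mul, ← map_mul, ω.injective.eq_iff, ← mem_centralizer_singleton_iff]
    exact (mem_map_iff_mem (f := ω.toMonoidHom) ω.injective).symm
  rw [card_cen, card_cen] at h1
  have h2 := card_le_of_le (inf_le_left : centralizer {(ω p).1} ⊓ alternatingGroup α ≤ _)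
  have h3 : Nat.card (centralizer {p.1}) ≤ 2 * Nat.card ↥(centralizer {p.1} ⊓ alternatingGroup α) := by
    have := Fintype.one_lt_card_iff_nontrivial.1 (show 1 < Fintype.card α by omega)
    rw [← ((alternatingGroup α).subgroupOf (centralizer {p.1})).card_mul_index, mul_comm, ← inf_subgroupOf_left,
      Nat.card_congr (subgroupOfEquivOfLe inf_le_left).toEquiv, inf_subgroupOf_left]
    refine Nat.mul_le_mul_right _ (Nat.le_of_dvd two_pos ?_)
    rw [← alternatingGroup.index_eq_two (α := α)]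
    exact relIndex_dvd_index_of_normal _ _
  have h4 := (ω p).1.sum_cycleType_le
  rw [Perm.nat_card_centralizer, hp.cycleType] at h3
  rw [Perm.nat_card_centralizer, hk] at h2
  rw [hk] at h4
  simp only [Multiset.sum_replicate, Multiset.prod_replicate, smul_eq_mul, Multiset.toFinset_replicate, Nat.add_eq_zero_iff,
    one_ne_zero, and_false, if_false, Finset.prod_singleton, Multiset.count_replicate_self, Multiset.sum_singleton,
    Multiset.prod_singleton, Multiset.toFinset_singleton, Multiset.count_singleton_self, Nat.factorial_one, mul_one] at h2 h3 h4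
  obtain ⟨m, hm⟩ := Nat.exists_eq_add_of_le h4
  have h5 := (ineq k m).2 (by omega)
  rw [hm, show (k + 1 + 1) * 3 + m - 3 = m + 3 * (k + 1) by omega] at h3
  rw [hm, Nat.add_sub_cancel_left, pow_succ 3 (k + 1)] at h2
  change _ ≤ _ * _ * (k + 2).factorial at h2
  nlinarith

theorem six (ω : MulAut (Alt α)) (h6 : Fintype.card α = 6) {p q : Alt α} (p2 : p * p = 1) (q2 : q * q = 1) (ne : p ≠ q)
    (h4 : p.1.support.card = 4) (hs : q.1.support = p.1.support) (hω : (ω q).1.support = (ω p).1.support)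
    (r : Alt α) (hr : r.1.IsThreeCycle) : (ω r).1.IsThreeCycle := by
  obtain ⟨c, hc, e⟩ : ∃ c : Alt α, c.1.IsThreeCycle ∧ c * p * c⁻¹ = q := by
    obtain ⟨x, hx⟩ : ∃ x, p.1 x ≠ q.1 x := by
      by_contra hc
      exact ne (Subtype.ext (Equiv.ext fun x => not_not.1 fun e => hc ⟨x, e⟩))
    have pp : ∀ y, p.1 (p.1 y) = y := fun y => congrArg (fun f : Alt α => f.1 y) p2
    have qq : ∀ y, q.1 (q.1 y) = y := fun y => congrArg (fun f : Alt α => f.1 y) q2
    have sp : ∀ y, q.1 y = y ↔ p.1 y = y := fun y => by rw [← Perm.notMem_support, hs, Perm.notMem_support]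
    have s1 := sp x
    have s2 := sp (q.1 x)
    have s3 := sp (p.1 x)
    have hY : ({x, p.1 x, q.1 x, p.1 (q.1 x)} : Finset α) = p.1.support := Finset.eq_of_subset_of_card_le (fun y hy => by
      rw [Perm.mem_support]
      simp only [Finset.mem_insert, Finset.mem_singleton] at hy
      grind) (by
      rw [h4, Finset.card_insert_of_notMem, Finset.card_insert_of_notMem, Finset.card_insert_of_notMem, Finset.card_singleton] <;>
        simp only [Finset.mem_insert, Finset.mem_singleton] <;> grind)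
    have hY' : ∀ y, p.1 y = y ∨ y = x ∨ y = p.1 x ∨ y = q.1 x ∨ y = p.1 (q.1 x) := fun y => by
      rw [← Perm.notMem_support, ← hY]
      simp only [Finset.mem_insert, Finset.mem_singleton]
      tauto
    have n1 : p.1 x ≠ q.1 x := hx
    have n2 : p.1 x ≠ p.1 (q.1 x) := by grind
    have n3 : q.1 x ≠ p.1 (q.1 x) := by grind
    have s4 := hY' (q.1 (p.1 x))
    have s5 := sp (q.1 (p.1 x))
    have s6 : q.1 (p.1 x) = p.1 (q.1 x) := by grind
    have t := t3_c3 n1 n2 n3
    refine ⟨c3 _ _ _ n1 n2, Perm.isThreeCycle_swap_mul_swap_same n2 n1 n3.symm, ?_⟩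
    rw [mul_inv_eq_iff_eq_mul]
    refine Subtype.ext (Equiv.ext fun y => ?_)
    change (swap (p.1 x) (p.1 (q.1 x)) * swap (p.1 x) (q.1 x) : Perm α) (p.1 y) =
      q.1 ((swap (p.1 x) (p.1 (q.1 x)) * swap (p.1 x) (q.1 x) : Perm α) y)
    generalize swap (p.1 x) (p.1 (q.1 x)) * swap (p.1 x) (q.1 x) = σ at *
    have s7 := hY' y
    have s8 := sp y
    unfold T3 at t
    grind
  have hc' : (ω c).1.IsThreeCycle := by
    obtain ⟨k, hk⟩ := ord3 ω hc
    have h1 : (ω q).1 = (ω c).1 * (ω p).1 * (ω c).1⁻¹ := by rw [← e, map_mul, map_mul, map_inv]; rfl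
    have h2 : ∀ y, (ω c).1 y ∈ (ω p).1.support ↔ y ∈ (ω p).1.support := fun y => by
      nth_rewrite 1 [← hω]
      rw [h1, Perm.support_conj]
      exact Finset.mem_map' _
    have h3 : (ω p).1.support.card = 4 := by
      have := Fact.mk Nat.prime_two
      have h5 : (ω p).1 ^ 2 = 1 := congrArg Subtype.val (show ω p ^ 2 = 1 by rw [← map_pow, pow_two, p2, map_one])
      have h7 := Perm.cycleType_of_pow_prime_eq_one h5
      have h8 := Perm.sign_of_cycleType (ω p).1
      have h9 := (ω p).1.sum_cycleType_le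
      have h10 : (ω p).1.cycleType.card ≠ 0 := fun e => by
        rw [Perm.card_cycleType_eq_zero] at e
        rw [show p = 1 from (MulEquiv.map_eq_one_iff ω).1 (Subtype.ext e)] at h4
        simp at h4
      rw [Perm.mem_alternatingGroup.1 (ω p).2, eq_comm, neg_one_pow_eq_one_iff_even (by decide), Nat.even_iff] at h8
      rw [← Perm.sum_cycleType]
      rw [h7, Multiset.sum_replicate, smul_eq_mul] at h8 h9 ⊢
      rw [Multiset.card_replicate] at h8
      omega
    have h5 : (ω c).1.support ⊆ (ω p).1.support := fun y hy => by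
      by_contra hn
      have h7 : ((ω c).1 ^ 3) y = y := by
        rw [show (ω c).1 ^ 3 = 1 from congrArg Subtype.val (show ω c ^ 3 = 1 by
          rw [← map_pow, show c ^ 3 = 1 from Subtype.ext (hc.orderOf ▸ pow_orderOf_eq_one c.1), map_one])]; rfl
      simp only [pow_succ, pow_zero, one_mul, Perm.mul_apply] at h7
      rw [Perm.mem_support] at hy
      have h8 := Finset.card_le_card (s := {y, (ω c).1 y, (ω c).1 ((ω c).1 y)}) (t := (ω p).1.supportᶜ) fun u hu => by
        simp only [Finset.mem_insert, Finset.mem_singleton] at hu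
        rw [Finset.mem_compl]
        rcases hu with rfl | rfl | rfl <;> simpa [h2] using hn
      have i := (ω c).1.injective
      rw [Finset.card_compl, h3, h6, Finset.card_insert_of_notMem, Finset.card_insert_of_notMem, Finset.card_singleton] at h8
      · omega
      all_goals simp only [Finset.mem_insert, Finset.mem_singleton]; grind
    have h7 := Finset.card_le_card h5
    rw [h3, ← Perm.sum_cycleType, hk, Multiset.sum_replicate, smul_eq_mul] at h7
    rw [Perm.IsThreeCycle, hk, show k = 0 by omega]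
    rfl
  obtain ⟨g, rfl⟩ := isConj_iff.1 (alternatingGroup.isThreeCycle_isConj (by rw [Nat.card_eq_fintype_card]; omega) hc hr)
  rw [map_mul, map_mul, map_inv, Perm.IsThreeCycle]
  exact Perm.cycleType_conj.trans hc'

end Aut

theorem aut_alt {α : Type} [Fintype α] [DecidableEq α] (ω : MulAut (Alt α))
    (h : 7 ≤ Fintype.card α ∨ (Fintype.card α = 6 ∧ ∃ p q : Alt α, p * p = 1 ∧ q * q = 1 ∧ p ≠ q ∧ p.1.support.card = 4 ∧
      q.1.support = p.1.support ∧ (ω q).1.support = (ω p).1.support)) :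
    ∃ π : Perm α, ∀ p, (ω p).1 = π * p.1 * π⁻¹ := by
  rcases h with h | ⟨h, p, q, h1, h2, h3, h4, h5, h6⟩
  · exact Aut.of_three ω (by omega) (Aut.seven ω h)
  · exact Aut.of_three ω (by omega) (Aut.six ω h h1 h2 h3 h4 h5 h6)

end Cfsg.Agent.WA.Al
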