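import Cfsg.Agent.WA.AlCs1
import Cfsg.Agent.WA.AlSur

/-! S3218, module AlCh: the model frame and the charts. -/

set_option autoImplicit false
set_option linter.unusedSimpArgs false
set_option linter.unusedSectionVars false

namespace Cfsg.Agent.WA.Al

open Subgroup Equiv Cs

universe u

variable {G : Type u} [Group G] [Finite G] {B : Type} [Fintype B] [DecidableEq B] {s : ℕ}

namespace Ch

theorem yK_sq (P : Finset B) : yK s P * yK s P = 1 := Subtype.ext (Equiv.ext fun x => yK_yK P x)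

theorem yK_empty : yK s (∅ : Finset B) = 1 := by
  refine Subtype.ext (Equiv.ext ?_)
  rintro (⟨c, i⟩ | j) <;> simp [yK_l, yK_r]

theorem yK_insert {b : B} {P : Finset B} (h : b ∉ P) : yK s (insert b P) = y0 s b * yK s P := by
  refine Subtype.ext (Equiv.ext ?_)
  rintro (⟨c, i⟩ | j)
  · rw [mul_ap, yK_l, yK_l, y0_l]
    by_cases e : c = b
    · subst e; simp only [Finset.mem_insert_self, if_true, h, if_false]
    · simp only [Finset.mem_insert, e, false_or, if_false]
  · rw [mul_ap, yK_r, yK_r, y0_r]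

theorem yK_comm (P Q : Finset B) : yK s P * yK s Q = yK s Q * yK s P := by
  refine Subtype.ext (Equiv.ext ?_)
  rintro (⟨c, i⟩ | j)
  · simp only [mul_ap, yK_l]
    split_ifs <;> rfl
  · simp only [mul_ap, yK_r]

theorem yK_eq_one {P : Finset B} (h : yK s P = 1) : P = ∅ := by
  have := card_supp (s := s) P
  rw [h] at this
  simp only [OneMemClass.coe_one, Perm.support_one, Finset.card_empty] at this
  exact Finset.card_eq_zero.mp (by omega)

theorem yy (b c : B) : y0 s b * y0 s c = y0 s c * y0 s b := by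
  rw [← yK_single, ← yK_single, yK_comm]

theorem prod_y (P : Finset B) (h : (P : Set B).Pairwise (Function.onFun Commute (y0 s))) :
    P.noncommProd (y0 s) h = yK s P := by
  induction P using Finset.induction_on with
  | empty => exact yK_empty.symm
  | insert b P hb ih => rw [Finset.noncommProd_insert_of_notMem _ _ _ _ hb, ih, yK_insert hb]

theorem rel (b c : B) : a0 s b * a0 s c = a0 s c * a0 s b ∧ e0 s b * e0 s c = e0 s c * e0 s b ∧
    y0 s b * a0 s c = a0 s c * y0 s b ∧ y0 s b * e0 s c = e0 s c * y0 s b ∧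
    (b ≠ c → a0 s b * e0 s c = e0 s c * a0 s b) := by
  by_cases h : b = c
  · subst h
    refine ⟨rfl, rfl, ?_, ?_, fun h => (h rfl).elim⟩
    all_goals
      refine ext3 b b (f4 ?_ ?_ ?_ ?_) (f4 ?_ ?_ ?_ ?_) (fun d h1 h2 i => ?_) ?_ ?_ (fun j h1 h2 => ?_) <;>
        simp [mul_ap, y0_l, y0_r, a0_l, a0_r, e0_l, e0_r, swap_apply_def, *]
  · have h' : c ≠ b := Ne.symm h
    refine ⟨?_, ?_, ?_, ?_, fun _ => ?_⟩
    all_goals
      refine ext3 b c (f4 ?_ ?_ ?_ ?_) (f4 ?_ ?_ ?_ ?_) (fun d h1 h2 i => ?_) ?_ ?_ (fun j h1 h2 => ?_) <;>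
        simp [mul_ap, y0_l, y0_r, a0_l, a0_r, e0_l, e0_r, swap_apply_def, *]

theorem rel1 (b : B) : a0 s b * a0 s b = 1 ∧ e0 s b * e0 s b = 1 ∧ y0 s b * y0 s b = 1 ∧
    a0 s b * e0 s b * a0 s b * e0 s b = y0 s b := by
  refine ⟨?_, ?_, ?_, ?_⟩
  all_goals
    refine ext3 b b (f4 ?_ ?_ ?_ ?_) (f4 ?_ ?_ ?_ ?_) (fun d h1 h2 i => ?_) ?_ ?_ (fun j h1 h2 => ?_) <;>
      simp [mul_ap, y0_l, y0_r, a0_l, a0_r, e0_l, e0_r, swap_apply_def, *]

/-- the frame of the model -/
def F0 (B : Type) [Fintype B] [DecidableEq B] (s : ℕ) : JF (Alt (Pt B s)) B where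
  y := y0 s
  a := a0 s
  e := e0 s
  a2 b := (rel1 b).1
  e2 b := (rel1 b).2.1
  y2 b := (rel1 b).2.2.1
  ae b := (rel1 b).2.2.2
  aa b c := (rel b c).1
  ee b c := (rel b c).2.1
  ac b c := (rel b c).2.2.2.2
  ya b c := (rel b c).2.2.1
  ye b c := (rel b c).2.2.2.1
  yy b c := yy b c
  ind P h := yK_eq_one ((prod_y P _).symm.trans h)

theorem F0_yP (P : Finset B) : (F0 B s).yP P = yK s P := prod_y P _

/-- an element that commutes with `y0 b` preserves block `b` -/
theorem pres_blk {b : B} {x : Alt (Pt B s)} (hx : x * y0 s b = y0 s b * x) (i : Fin 4) :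
    ∃ k, x.1 (Sum.inl (b, i)) = Sum.inl (b, k) := by
  have h2 := cm_ap hx (Sum.inl (b, i))
  rw [y0_l, if_pos rfl] at h2
  have h3 : (y0 s b).1 (x.1 (Sum.inl (b, i))) ≠ x.1 (Sum.inl (b, i)) := by
    rw [← h2]; intro h
    have := x.1.injective h
    simp only [Sum.inl.injEq, Prod.mk.injEq, true_and] at this
    exact (by decide : ∀ i : Fin 4, (swap 0 1 * swap 2 3 : Perm (Fin 4)) i ≠ i) i this
  rcases hu : x.1 (Sum.inl (b, i)) with ⟨c, k⟩ | j
  · rw [hu, y0_l] at h3
    by_cases hc : c = b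
    · exact ⟨k, by rw [hc]⟩
    · exact (h3 (by rw [if_neg hc])).elim
  · rw [hu, y0_r] at h3; exact (h3 rfl).elim

theorem cube (hs : s ≤ 1) {r : Alt (Pt B s)} (h : ∀ x, r.1 (Sum.inl x) = Sum.inl x) : r ^ 3 = 1 := by
  obtain ⟨⟨σ, τ⟩, e⟩ := Perm.mem_sumCongrHom_range_of_perm_mapsTo_inl (σ := r.1) (by
    rintro _ ⟨x, rfl⟩; exact ⟨x, (h x).symm⟩)
  have hσ : σ = 1 := by
    ext1 x
    have := h x
    rw [← e] at this
    simpa using this
  subst hσ
  have hs1 : Perm.sign τ = 1 := by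
    have := r.2
    rw [Perm.mem_alternatingGroup, ← e] at this
    simpa [Perm.sign_sumCongr] using this
  have h3 : τ ^ 3 = 1 := by
    obtain rfl | rfl : s = 0 ∨ s = 1 := by omega
    · exact (by decide : ∀ τ : Perm (Fin (0 + 2)), Perm.sign τ = 1 → τ ^ 3 = 1) τ hs1
    · exact (by decide : ∀ τ : Perm (Fin (1 + 2)), Perm.sign τ = 1 → τ ^ 3 = 1) τ hs1
  refine Subtype.ext ?_
  rw [SubmonoidClass.coe_pow, ← e, ← map_pow, Prod.pow_mk, h3, one_pow]
  exact map_one _

theorem fix_all (hs : s ≤ 1) {r : Alt (Pt B s)} (h : ∀ x, r.1 (Sum.inl x) = Sum.inl x) {k : ℕ} (hk : r ^ 2 ^ k = 1) :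
    r = 1 := by
  have h1 := orderOf_dvd_of_pow_eq_one (cube hs h)
  have h2 := orderOf_dvd_of_pow_eq_one hk
  have : Nat.Coprime (2 ^ k) 3 := Nat.Coprime.pow_left k (by decide)
  exact orderOf_eq_one_iff.mp (Nat.eq_one_of_dvd_coprimes this h2 h1)

theorem jg0 (hs : s ≤ 1) : (F0 B s).JG := by
  intro P hP hle
  have hc : ∀ p : P, ∀ b, p.1 * y0 s b = y0 s b * p.1 := fun p b => (hle p.2 _ ⟨b, rfl⟩).symm
  choose σ hσ using fun (p : P) (b : B) => pres_blk (hc p b)
  let D := {τ : Fin 4 → Fin 4 // (∀ i j, τ i = τ j → i = j) ∧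
    ∀ i, τ ((swap 0 1 * swap 2 3 : Perm (Fin 4)) i) = (swap 0 1 * swap 2 3 : Perm (Fin 4)) (τ i)}
  have cD : Fintype.card D = 8 := by decide +kernel
  let φ : P → B → D := fun p b => ⟨σ p b, fun i j h => by
      have := p.1.1.injective ((hσ p b i).trans (h ▸ (hσ p b j).symm))
      simpa using this, fun i => by
      have h2 := cm_ap (hc p b) (Sum.inl (b, i))
      rw [y0_l, if_pos rfl, hσ, hσ, y0_l, if_pos rfl] at h2
      simpa using h2⟩
  have hφ : Function.Injective φ := by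
    intro p q h
    obtain ⟨k, hk⟩ := hP (p⁻¹ * q)
    have h1 : (p⁻¹ * q).1 = 1 := by
      refine fix_all hs ?_ (k := k) (congrArg Subtype.val hk)
      rintro ⟨b, i⟩
      have e : σ p b = σ q b := congrArg Subtype.val (congrFun h b)
      apply p.1.1.injective
      rw [← mul_ap]
      show (p * (p⁻¹ * q)).1.1 _ = _
      rw [mul_inv_cancel_left, hσ, hσ, e]
    exact inv_mul_eq_one.mp (Subtype.ext h1)
  have := Nat.card_le_card_of_injective φ hφ
  rwa [Nat.card_fun, Nat.card_eq_fintype_card (α := D), cD, Nat.card_eq_fintype_card (α := B)] at this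

/-- the centre of `C(yK K)` -/
theorem centre (hs : s ≤ 1) (K : Finset B) {u : Alt (Pt B s)} (h2 : u * u = 1) (h1 : u ≠ 1)
    (h : ∀ g, g * yK s K = yK s K * g → g * u = u * g) : u = yK s K := by
  have cm : ∀ p : Alt (Pt B s), (∀ b, y0 s b * p = p * y0 s b) → p * yK s K = yK s K * p := fun p hp => by
    rw [← F0_yP]
    exact (Finset.noncommProd_commute _ _ _ p fun b _ => (hp b).symm :)
  have hy : ∀ b, u * y0 s b = y0 s b * u := fun b => (h _ (cm _ fun c => yy c b)).symm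
  have ha : ∀ b, u * a0 s b = a0 s b * u := fun b => (h _ (cm _ fun c => (rel c b).2.2.1)).symm
  have he : ∀ b, u * e0 s b = e0 s b * u := fun b => (h _ (cm _ fun c => (rel c b).2.2.2.1)).symm
  choose σ hσ using fun b : B => pres_blk (hy b)
  have d4 : ∀ τ : Fin 4 → Fin 4,
      (∀ i, τ ((swap 0 1 * swap 2 3 : Perm (Fin 4)) i) = (swap 0 1 * swap 2 3 : Perm (Fin 4)) (τ i)) →
      (∀ i, τ ((swap 0 2 * swap 1 3 : Perm (Fin 4)) i) = (swap 0 2 * swap 1 3 : Perm (Fin 4)) (τ i)) →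
      (∀ i, τ ((swap 0 1 : Perm (Fin 4)) i) = (swap 0 1 : Perm (Fin 4)) (τ i)) →
      ∀ i, τ i = if τ 0 = 1 then (swap 0 1 * swap 2 3 : Perm (Fin 4)) i else i := by
    decide +kernel
  have hτ : ∀ b i, σ b i = if σ b 0 = 1 then (swap 0 1 * swap 2 3 : Perm (Fin 4)) i else i := by
    intro b
    refine d4 _ (fun i => ?_) (fun i => ?_) (fun i => ?_)
    · have h2 := cm_ap (hy b) (Sum.inl (b, i))
      rw [y0_l, if_pos rfl, hσ, hσ, y0_l, if_pos rfl] at h2
      simpa using h2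
    · have h2 := cm_ap (ha b) (Sum.inl (b, i))
      rw [a0_l, if_pos rfl, hσ, hσ, a0_l, if_pos rfl] at h2
      simpa using h2
    · have h2 := cm_ap (he b) (Sum.inl (b, i))
      rw [e0_l, if_pos rfl, hσ, hσ, e0_l, if_pos rfl] at h2
      simpa using h2
  obtain ⟨P, hP⟩ : ∃ P : Finset B, u = yK s P := by
    refine ⟨Finset.univ.filter fun b => σ b 0 = 1, ?_⟩
    generalize hQ : (Finset.univ.filter fun b => σ b 0 = 1) = Q
    have c := h _ (yK_comm Q K)
    have : yK s Q * u = 1 := by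
      refine fix_all hs ?_ (k := 1) ?_
      · rintro ⟨b, i⟩
        rw [mul_ap, hσ, hτ, ← yK_yK Q (Sum.inl (b, i)), yK_l Q b i, ← hQ]
        simp only [Finset.mem_filter, Finset.mem_univ, true_and]
      · rw [pow_one, pow_two, mul_assoc, ← mul_assoc u, ← c, mul_assoc, h2, mul_one, yK_sq]
    rw [← one_mul u, ← yK_sq Q, mul_assoc, this, mul_one]
  subst hP
  have hPK : ∀ b ∈ P, b ∈ K := by
    intro b hb
    by_contra hb'
    have := h (s2 (Sum.inl (b, 0)) (Sum.inl (b, 2)) (Sum.inr 0) (Sum.inr 1) (by simp) (by simp)) (by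
      refine ext3 b b (f4 ?_ ?_ ?_ ?_) (f4 ?_ ?_ ?_ ?_) (fun d h1 h2 i => ?_) ?_ ?_ (fun j h1 h2 => ?_) <;>
        simp [mul_ap, s2_ap, yK_l, yK_r, swap_apply_def, *])
    have := cm_ap this (Sum.inl (b, 0))
    simp [s2_ap, yK_l, swap_apply_def, hb] at this
  obtain ⟨b, hb⟩ : P.Nonempty := Finset.nonempty_iff_ne_empty.mpr fun e => h1 (by rw [e, yK_empty])
  have hKP : ∀ c ∈ K, c ∈ P := by
    intro c hc
    have hK : ∀ d, swap b c d ∈ K ↔ d ∈ K := by
      intro d
      rw [swap_apply_def]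
      split_ifs with h1 h2
      · rw [h1]; exact iff_of_true hc (hPK b hb)
      · rw [h2]; exact iff_of_true (hPK b hb) hc
      · rfl
    have := h (pb s (swap b c)) (by
      refine Subtype.ext (Equiv.ext ?_)
      rintro (⟨x, i⟩ | j) <;> simp only [mul_ap, pb_l, pb_r, yK_l, yK_r, hK])
    have := cm_ap this (Sum.inl (b, 0))
    by_contra hc'
    simp [pb_l, yK_l, swap_apply_def, hb, hc'] at this
  rw [Finset.Subset.antisymm hPK hKP]

end Ch

open Ch

theorem exists_jf0 (hs : s ≤ 1) : ∃ F : JF (Alt (Pt B s)) B, F.y = y0 s ∧ F.a = a0 s ∧ F.e = e0 s ∧ F.JG ∧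
    ∀ P, F.yP P = yK s P := ⟨F0 B s, rfl, rfl, rfl, jg0 hs, F0_yP⟩

theorem card_supp_yK (P : Finset B) : (yK s P).1.support.card = 4 * P.card := card_supp P

/-- involutions with supports of the same size are conjugate -/
theorem isConj_of_supp {α : Type} [Fintype α] [DecidableEq α] {p q : Alt α} (hp : p * p = 1) (hq : q * q = 1)
    (h : p.1.support.card = q.1.support.card) : IsConj p q := isConj_iff.mpr (Sur.conj_supp hp hq h)

theorem exists_yK (hs : s ≤ 1) {p : Alt (Pt B s)} (hp : p * p = 1) : ∃ P : Finset B, IsConj p (yK s P) := by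
  obtain ⟨k, hk⟩ := Sur.four_dvd hp
  have h1 : Sur.w p ≤ Fintype.card (Pt B s) := Finset.card_le_univ _
  simp only [Fintype.card_sum, Fintype.card_prod, Fintype.card_fin] at h1
  obtain ⟨P, -, hP⟩ := Finset.exists_subset_card_eq (s := (Finset.univ : Finset B)) (n := k)
    (by rw [Finset.card_univ]; omega)
  exact ⟨P, isConj_of_supp hp (yK_sq P) (by rw [card_supp, hP]; exact hk)⟩

theorem exists_chart {α : Type} [Fintype α] [DecidableEq α] {n : ℕ} (hs : s ≤ 1) (hc : Fintype.card α = 4 * n + (s + 2))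
    {zt : Alt α} {z : G} (h1 : orderOf zt = 2) (h2 : orderOf z = 2)
    (e : centralizer ({z} : Set G) ≃* centralizer ({zt} : Set (Alt α))) :
    (∃ C : Chart G (Fin n) s, C.z = z) ∧ Nonempty (Alt (Pt (Fin n) s) ≃* Alt α) := by
  classical
  let ω : Alt (Pt (Fin n) s) ≃* Alt α := (Fintype.equivOfCardEq (by
    simp only [Fintype.card_sum, Fintype.card_prod, Fintype.card_fin, hc]; omega)).altCongrHom
  refine ⟨?_, ⟨ω⟩⟩
  have t2 : zt * zt = 1 := by rw [← pow_two, ← h1, pow_orderOf_eq_one]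
  obtain ⟨P, hP⟩ := exists_yK hs (p := ω.symm zt) (by rw [← map_mul, t2, map_one])
  obtain ⟨c, hP⟩ := isConj_iff.mp hP
  obtain ⟨ω', hω⟩ : ∃ ω' : Alt (Pt (Fin n) s) ≃* Alt α, ω' (yK s P) = zt :=
    ⟨(MulAut.conj c).symm.trans ω, by
      rw [MulEquiv.trans_apply, ← hP, ← MulAut.conj_apply, MulEquiv.symm_apply_apply, MulEquiv.apply_symm_apply]⟩
  have hm : ∀ p, p * yK s P = yK s P * p ↔ ω' p ∈ centralizer ({zt} : Set (Alt α)) := by
    intro p
    rw [mem_centralizer_singleton_iff, ← hω, ← map_mul, ← map_mul, ω'.apply_eq_iff_eq]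
  let f : Alt (Pt (Fin n) s) → G := fun p => if h : p * yK s P = yK s P * p then (e.symm ⟨ω' p, (hm p).mp h⟩).1 else 1
  have hf : ∀ p (h : p * yK s P = yK s P * p), f p = (e.symm ⟨ω' p, (hm p).mp h⟩).1 := fun p h => dif_pos h
  have mul : ∀ p q, p * yK s P = yK s P * p → q * yK s P = yK s P * q → f (p * q) = f p * f q := by
    intro p q hp hq
    have hpq : p * q * yK s P = yK s P * (p * q) := (Commute.mul_left hp hq :)
    rw [hf p hp, hf q hq, hf _ hpq, ← Subgroup.coe_mul, ← map_mul]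
    congr 2
    exact Subtype.ext (map_mul ω' p q)
  have inj : ∀ p, p * yK s P = yK s P * p → f p = 1 → p = 1 := by
    intro p hp h
    rw [hf p hp, OneMemClass.coe_eq_one, EmbeddingLike.map_eq_one_iff] at h
    exact (EmbeddingLike.map_eq_one_iff (f := ω')).mp (congrArg Subtype.val h)
  have cen : ∀ g, g * z = z * g ↔ ∃ p, p * yK s P = yK s P * p ∧ f p = g := by
    intro g
    constructor
    · intro hg
      have hp := (hm (ω'.symm (e ⟨g, mem_centralizer_singleton_iff.mpr hg⟩).1)).mpr (by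
        rw [MulEquiv.apply_symm_apply]; exact Subtype.prop _)
      refine ⟨_, hp, ?_⟩
      rw [hf _ hp]
      simp only [MulEquiv.apply_symm_apply, Subtype.coe_eta, MulEquiv.symm_apply_apply]
    · rintro ⟨p, hp, rfl⟩
      rw [hf p hp]
      exact mem_centralizer_singleton_iff.mp (Subtype.prop _)
  have f1 : f 1 = 1 := by
    have := mul 1 1 ((one_mul _).trans (mul_one _).symm) ((one_mul _).trans (mul_one _).symm)
    rw [mul_one] at this
    exact left_eq_mul.mp this
  have fz : f (yK s P) = z := by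
    obtain ⟨u, hu, eu⟩ := (cen z).mp rfl
    have z2 : z * z = 1 := by rw [← pow_two, ← h2, pow_orderOf_eq_one]
    have u2 : u * u = 1 := inj _ (Commute.mul_left hu hu :) (by rw [mul u u hu hu, eu, z2])
    rw [← centre hs P u2 (fun h => by
      rw [h, f1] at eu; rw [← eu, orderOf_one] at h2; omega) (fun g hg => ?_), eu]
    have hg' : g⁻¹ * yK s P = yK s P * g⁻¹ := (Commute.inv_left hg :)
    have hgu : g * u * yK s P = yK s P * (g * u) := (Commute.mul_left hg hu :)
    have hgug : g * u * g⁻¹ * yK s P = yK s P * (g * u * g⁻¹) := (Commute.mul_left hgu hg' :)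
    have := inj _ (Commute.mul_left hgug hu :) (by
      rw [mul _ _ hgug hu, mul _ _ hgu hg', mul _ _ hg hu, eu, (cen _).mpr ⟨g, hg, rfl⟩, mul_assoc z, ← mul _ _ hg hg',
        mul_inv_cancel, f1, mul_one, z2])
    rw [← mul_inv_eq_iff_eq_mul, ← mul_left_inj u, this, u2]
  refine ⟨⟨P, z, f, hs, Finset.nonempty_iff_ne_empty.mpr fun h => ?_, mul, inj, cen, fz⟩, rfl⟩
  rw [h, yK_empty, map_one] at hω
  rw [← hω, orderOf_one] at h1
  omega

end Cfsg.Agent.WA.Al
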