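import Cfsg.Agent.WA.AlCh

/-! S3218, module AlCs: the frame of a chart. -/

set_option autoImplicit false
set_option linter.unusedSimpArgs false
set_option linter.unusedSectionVars false

namespace Cfsg.Agent.WA.Al

open Subgroup Equiv

universe u

variable {G : Type u} [Group G] [Finite G] {B : Type} [Fintype B] [DecidableEq B] {s : ℕ}

namespace Cs

/-- commutes with `yK K` -/
abbrev Cm (C : Chart G B s) (p : Alt (Pt B s)) : Prop := p * yK s C.K = yK s C.K * p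

variable (C : Chart G B s)

theorem Cm.mul {C : Chart G B s} {p q : Alt (Pt B s)} (hp : Cm C p) (hq : Cm C q) : Cm C (p * q) :=
  (Commute.mul_left hp hq :)
theorem Cm.inv {C : Chart G B s} {p : Alt (Pt B s)} (hp : Cm C p) : Cm C p⁻¹ := (Commute.inv_left hp :)
theorem cm_one : Cm C 1 := (one_mul _).trans (mul_one _).symm

theorem f_one : C.f 1 = 1 := by
  have := C.mul 1 1 (cm_one C) (cm_one C)
  rw [mul_one] at this
  exact left_eq_mul.mp this

theorem f_inv {p : Alt (Pt B s)} (hp : Cm C p) : C.f p⁻¹ = (C.f p)⁻¹ := by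
  rw [eq_inv_iff_mul_eq_one, ← C.mul _ _ hp.inv hp, inv_mul_cancel, f_one]

theorem f_inj {p q : Alt (Pt B s)} (hp : Cm C p) (hq : Cm C q) (h : C.f p = C.f q) : p = q := by
  have := C.inj _ (hp.mul hq.inv) (by rw [C.mul _ _ hp hq.inv, f_inv C hq, h, mul_inv_cancel])
  exact mul_inv_eq_one.mp this

theorem f_conj {g p q : Alt (Pt B s)} (hg : Cm C g) (hp : Cm C p) (h : g * p * g⁻¹ = q) :
    C.f g * C.f p * (C.f g)⁻¹ = C.f q := by
  rw [← h, C.mul _ _ (hg.mul hp) hg.inv, C.mul _ _ hg hp, f_inv C hg]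

theorem f_comm {g p : Alt (Pt B s)} (hg : Cm C g) (hp : Cm C p) (h : g * p = p * g) :
    C.f g * C.f p = C.f p * C.f g := by
  rw [← C.mul _ _ hg hp, h, C.mul _ _ hp hg]

theorem f_z {p : Alt (Pt B s)} (hp : Cm C p) : C.f p * C.z = C.z * C.f p := (C.cen _).mpr ⟨p, hp, rfl⟩

/-- the chart as a homomorphism -/
def ψ : centralizer ({yK s C.K} : Set (Alt (Pt B s))) →* G where
  toFun p := C.f p.1
  map_one' := f_one C
  map_mul' p q := C.mul _ _ (mem_centralizer_singleton_iff.mp p.2) (mem_centralizer_singleton_iff.mp q.2)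

theorem ψ_inj : Function.Injective (ψ C) := fun p q h =>
  Subtype.ext (f_inj C (mem_centralizer_singleton_iff.mp p.2) (mem_centralizer_singleton_iff.mp q.2) h)

theorem f_ord {p : Alt (Pt B s)} (hp : Cm C p) : orderOf (C.f p) = orderOf p := by
  have := orderOf_injective (ψ C) (ψ_inj C) ⟨p, mem_centralizer_singleton_iff.mpr hp⟩
  rw [Subgroup.orderOf_mk] at this
  exact this

theorem pull (H : Subgroup (Alt (Pt B s))) {T : Set G} (hT : ∀ g ∈ T, ∃ p ∈ H, Cm C p ∧ C.f p = g) {g : G}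
    (hg : g ∈ closure T) : ∃ p ∈ H, Cm C p ∧ C.f p = g := by
  induction hg using closure_induction with
  | mem x hx => exact hT x hx
  | one => exact ⟨1, H.one_mem, cm_one C, f_one C⟩
  | mul x y _ _ hx hy =>
    obtain ⟨p, hp, cp, rfl⟩ := hx
    obtain ⟨q, hq, cq, rfl⟩ := hy
    exact ⟨p * q, H.mul_mem hp hq, cp.mul cq, C.mul _ _ cp cq⟩
  | inv x _ hx =>
    obtain ⟨p, hp, cp, rfl⟩ := hx
    exact ⟨p⁻¹, H.inv_mem hp, cp.inv, f_inv C cp⟩

theorem lift_chi (χ : Alt (Pt B s) → ℤˣ) (m : ∀ p q, Cm C p → Cm C q → χ (p * q) = χ p * χ q) :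
    ∃ χ' : G → ℤˣ, (∀ g h, g * C.z = C.z * g → h * C.z = C.z * h → χ' (g * h) = χ' g * χ' h) ∧
      ∀ p, Cm C p → χ' (C.f p) = χ p := by
  classical
  have v : ∀ p, Cm C p → (if h : C.f p * C.z = C.z * C.f p then χ ((C.cen _).mp h).choose else 1) = χ p := by
    intro p hp
    rw [dif_pos (f_z C hp)]
    have := ((C.cen _).mp (f_z C hp)).choose_spec
    rw [f_inj C this.1 hp this.2]
  refine ⟨fun g => if h : g * C.z = C.z * g then χ ((C.cen _).mp h).choose else 1, fun g h hg hh => ?_, v⟩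
  obtain ⟨p, hp, rfl⟩ := (C.cen _).mp hg
  obtain ⟨q, hq, rfl⟩ := (C.cen _).mp hh
  beta_reduce
  rw [← C.mul _ _ hp hq, v p hp, v q hq, v _ (Cm.mul hp hq), m p q hp hq]

theorem f_prod (F : JF (Alt (Pt B s)) B) (hy : ∀ b, Cm C (F.y b)) (P : Finset B)
    (hc : (P : Set B).Pairwise (Function.onFun Commute fun b => C.f (F.y b))) :
    Cm C (F.yP P) ∧ C.f (F.yP P) = P.noncommProd (fun b => C.f (F.y b)) hc := by
  let y' : B → centralizer ({yK s C.K} : Set (Alt (Pt B s))) := fun b =>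
    ⟨F.y b, mem_centralizer_singleton_iff.mpr (hy b)⟩
  have hc' : (P : Set B).Pairwise (Function.onFun Commute y') := fun b _ c _ _ => Subtype.ext (F.yy b c)
  have e1 : (P.noncommProd y' hc').1 = F.yP P :=
    Finset.map_noncommProd P y' hc' (centralizer ({yK s C.K} : Set (Alt (Pt B s)))).subtype
  have e2 := Finset.map_noncommProd P y' hc' (ψ C)
  rw [← e1]
  exact ⟨mem_centralizer_singleton_iff.mp (P.noncommProd y' hc').2, e2⟩

/-- the image of a frame -/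
def frame (F : JF (Alt (Pt B s)) B) (hy : ∀ b, Cm C (F.y b)) (ha : ∀ b, Cm C (F.a b)) (he : ∀ b, Cm C (F.e b)) :
    JF G B where
  y b := C.f (F.y b)
  a b := C.f (F.a b)
  e b := C.f (F.e b)
  a2 b := by rw [← C.mul _ _ (ha b) (ha b), F.a2, f_one]
  e2 b := by rw [← C.mul _ _ (he b) (he b), F.e2, f_one]
  y2 b := by rw [← C.mul _ _ (hy b) (hy b), F.y2, f_one]
  ae b := by
    rw [← C.mul _ _ (ha b) (he b), ← C.mul _ _ ((ha b).mul (he b)) (ha b),
      ← C.mul _ _ (((ha b).mul (he b)).mul (ha b)) (he b), F.ae]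
  aa b c := f_comm C (ha b) (ha c) (F.aa b c)
  ee b c := f_comm C (he b) (he c) (F.ee b c)
  ac b c h := f_comm C (ha b) (he c) (F.ac b c h)
  ya b c := f_comm C (hy b) (ha c) (F.ya b c)
  ye b c := f_comm C (hy b) (he c) (F.ye b c)
  yy b c := f_comm C (hy b) (hy c) (F.yy b c)
  ind P h := by
    obtain ⟨h1, h2⟩ := f_prod C F hy P (fun b _ c _ _ => f_comm C (hy b) (hy c) (F.yy b c))
    exact F.ind P (C.inj _ h1 (h2.trans h))

theorem cm_yP (F : JF (Alt (Pt B s)) B) (hF : F.yP C.K = yK s C.K) {p : Alt (Pt B s)}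
    (h : ∀ b, F.y b * p = p * F.y b) : Cm C p := by
  unfold Cm
  rw [← hF]
  exact (Finset.noncommProd_commute _ _ _ p fun b _ => (h b).symm :)

theorem jg (F : JF (Alt (Pt B s)) B) (hF : F.yP C.K = yK s C.K) (hJ : F.JG) (hy : ∀ b, Cm C (F.y b))
    (ha : ∀ b, Cm C (F.a b)) (he : ∀ b, Cm C (F.e b)) : (frame C F hy ha he).JG := by
  intro P hP hle
  have hz : C.z = (frame C F hy ha he).yP C.K := by
    rw [← C.fz, ← hF]; exact (f_prod C F hy _ _).2
  have hr : P ≤ (ψ C).range := by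
    intro g hg
    have : g * C.z = C.z * g := by
      rw [hz]
      exact (Finset.noncommProd_commute _ _ _ g fun b _ => (hle hg _ ⟨b, rfl⟩).symm :)
    obtain ⟨p, hp, e⟩ := (C.cen g).mp this
    exact ⟨⟨p, mem_centralizer_singleton_iff.mpr hp⟩, e⟩
  have h1 := hJ ((P.comap (ψ C)).map (centralizer ({yK s C.K} : Set (Alt (Pt B s)))).subtype)
    ((hP.comap_of_injective _ (ψ_inj C)).map _) (by
      rintro _ ⟨p, hp, rfl⟩ _ ⟨b, rfl⟩
      have cp : Cm C p.1 := mem_centralizer_singleton_iff.mp p.2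
      show F.y b * p.1 = p.1 * F.y b
      refine f_inj C ((hy b).mul cp) (cp.mul (hy b)) ?_
      rw [C.mul _ _ (hy b) cp, C.mul _ _ cp (hy b)]
      exact hle hp _ ⟨b, rfl⟩)
  rw [card_map_of_injective (subtype_injective _), ← card_map_of_injective (ψ_inj C),
    map_comap_eq_self hr] at h1
  exact h1

theorem chi1' : ∃ χ : Alt (Pt B s) → ℤˣ, (∀ p q, Cm C p → Cm C q → χ (p * q) = χ p * χ q) ∧
    (∀ b, Cm C (y0 s b) ∧ Cm C (a0 s b) ∧ Cm C (e0 s b)) ∧
    (∀ b, χ (a0 s b) = if b ∈ C.K then -1 else 1) ∧ (∀ b, χ (e0 s b) = 1) ∧ (∀ b, χ (y0 s b) = 1) ∧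
    χ (yK s C.K) = 1 := by
  obtain ⟨F, ey, ea, ee, -, hP⟩ := exists_jf0 (B := B) C.hs
  have hy : ∀ b, Cm C (y0 s b) := fun b => ey ▸ cm_yP C F (hP _) fun c => F.yy c b
  have ha : ∀ b, Cm C (a0 s b) := fun b => ea ▸ cm_yP C F (hP _) fun c => F.ya c b
  have he : ∀ b, Cm C (e0 s b) := fun b => ee ▸ cm_yP C F (hP _) fun c => F.ye c b
  obtain ⟨χ, m, va, ve⟩ := chi1 C.K ha he
  have vy : ∀ b, χ (y0 s b) = 1 := by
    intro b
    have := F.ae b
    rw [ey, ea, ee] at this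
    rw [← this, m _ _ (((ha b).mul (he b)).mul (ha b)) (he b), m _ _ ((ha b).mul (he b)) (ha b), m _ _ (ha b) (he b),
      ve, mul_one, mul_one, Int.units_mul_self]
  refine ⟨χ, m, fun b => ⟨hy b, ha b, he b⟩, va, ve, vy, ?_⟩
  have h1 : χ 1 = 1 := by
    have := m 1 1 (cm_one C) (cm_one C)
    rw [mul_one] at this
    exact left_eq_mul.mp this
  have : Cm C (F.yP C.K) ∧ χ (F.yP C.K) = 1 :=
    Finset.noncommProd_induction _ _ _ (fun p => Cm C p ∧ χ p = 1)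
      (fun p q hp hq => ⟨hp.1.mul hq.1, by rw [m _ _ hp.1 hq.1, hp.2, hq.2, mul_one]⟩) ⟨cm_one C, h1⟩
      (fun b _ => by rw [ey]; exact ⟨hy b, vy b⟩)
  rw [← hP]; exact this.2

end Cs

open Cs

theorem Chart.exists_cs (C : Chart G B s) : ∃ S : CS G B s, Fits C S := by
  obtain ⟨F, ey, ea, ee, hJ, hP⟩ := exists_jf0 (B := B) C.hs
  obtain ⟨χ1, m1, hc, va1, ve1, -, -⟩ := chi1' C
  have hy : ∀ b, Cm C (y0 s b) := fun b => (hc b).1
  have ha : ∀ b, Cm C (a0 s b) := fun b => (hc b).2.1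
  have he : ∀ b, Cm C (e0 s b) := fun b => (hc b).2.2
  obtain ⟨χ2, m2, va2, ve2⟩ := chi2 C.K ha he
  obtain ⟨χ₁, m₁, v₁⟩ := lift_chi C χ1 m1
  obtain ⟨χ₂, m₂, v₂⟩ := lift_chi C χ2 m2
  have hy' : ∀ b, Cm C (F.y b) := ey ▸ hy
  have ha' : ∀ b, Cm C (F.a b) := ea ▸ ha
  have he' : ∀ b, Cm C (F.e b) := ee ▸ he
  obtain ⟨E, hE, Ey, Ea, Ee, Ez⟩ : ∃ E : JF G B, E.JG ∧ (∀ b, E.y b = C.f (y0 s b)) ∧ (∀ b, E.a b = C.f (a0 s b)) ∧
      (∀ b, E.e b = C.f (e0 s b)) ∧ C.z = E.yP C.K :=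
    ⟨frame C F hy' ha' he', jg C F (hP _) hJ hy' ha' he', fun b => by rw [← ey]; rfl, fun b => by rw [← ea]; rfl,
      fun b => by rw [← ee]; rfl, by rw [← C.fz, ← hP]; exact (f_prod C F hy' _ _).2⟩
  have hV : ∀ b, ∀ v ∈ E.V b, ∃ p ∈ closure ({y0 s b, a0 s b} : Set (Alt (Pt B s))), Cm C p ∧ C.f p = v := by
    intro b v hv
    refine pull C _ ?_ hv
    rintro _ (rfl | rfl)
    · exact ⟨_, subset_closure (Or.inl rfl), hy b, (Ey b).symm⟩
    · exact ⟨_, subset_closure (Or.inr rfl), ha b, (Ea b).symm⟩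
  refine ⟨{ toJF := E, K := C.K, z := C.z, hz := Ez, jg := hE, c1 := ?_, ua := ?_, ue := ?_, sw := ?_, sp := ?_,
            χ₁ := χ₁, χ₂ := χ₂, m₁ := m₁, m₂ := m₂, a₁ := fun b => by rw [Ea, v₁ _ (ha b), va1],
            e₁ := fun b => by rw [Ee, v₁ _ (he b), ve1], a₂ := fun b => by rw [Ea, v₂ _ (ha b), va2],
            e₂ := fun b => by rw [Ee, v₂ _ (he b), ve2], x3 := ?_, cz := ?_ }, ⟨rfl, rfl, Ey, Ea, Ee⟩⟩
  · intro I hI g hg hz b hb
    obtain ⟨p, hp, rfl⟩ := (C.cen g).mp hz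
    have h1 : C.f p * E.y b * (C.f p)⁻¹ ∈ E.A I :=
      (mem_normalizer_iff.mp hg _).mp (subset_closure (Or.inl ⟨b, rfl⟩))
    rw [Ey, f_conj C hp (hy b) rfl] at h1
    obtain ⟨q, hq, cq, e⟩ := pull C (BD s fun c => if I c then alternatingGroup (Fin 4) else ⊤) (by
      rintro _ (⟨c, rfl⟩ | ⟨c, rfl⟩)
      · refine ⟨_, mem_BD_blk (y0_l c) ?_, hy c, (Ey c).symm⟩
        split_ifs
        · rw [Perm.mem_alternatingGroup]; decide
        · trivial
      · unfold JF.h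
        by_cases hc : I c = true
        · refine ⟨_, mem_BD_blk (a0_l c) ?_, ha c, by rw [if_pos hc, Ea]⟩
          rw [if_pos hc, Perm.mem_alternatingGroup]; decide
        · refine ⟨_, mem_BD_blk (e0_l c) ?_, he c, by rw [if_neg hc, Ee]⟩
          rw [if_neg hc]; trivial) h1
    rw [f_inj C cq ((Cm.mul hp (hy b)).mul (Cm.inv hp)) e] at hq
    obtain ⟨c, hc, e'⟩ := c10 C.K I hI hp hb hq
    exact ⟨c, hc, by rw [Ey, Ey]; exact f_conj C hp (hy b) e'⟩
  · intro b hb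
    obtain ⟨g, hg, h1, h2, h3⟩ := ua0 (s := s) C.K b hb
    refine ⟨C.f g, f_z C hg, ?_, ?_, fun c hc => ?_⟩
    · rw [Ey, Ea, ← C.mul _ _ (hy b) (ha b)]; exact f_conj C hg (hy b) h1
    · rw [Ea]; exact f_comm C hg (ha b) h2
    · rw [Ey, Ea, Ee]
      exact ⟨f_comm C hg (hy c) (h3 c hc).1, f_comm C hg (ha c) (h3 c hc).2.1, f_comm C hg (he c) (h3 c hc).2.2⟩
  · intro b hb
    obtain ⟨g, hg, h1, h2, h3⟩ := ue0 (s := s) C.K b hb
    refine ⟨C.f g, f_z C hg, ?_, ?_, fun c hc => ?_⟩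
    · rw [Ey, Ee]; exact f_conj C hg (hy b) h1
    · rw [Ey, Ee]; exact f_conj C hg (he b) h2
    · rw [Ey, Ea, Ee, Ey, Ee, ← C.mul _ _ (hy b) (he b), ← C.mul _ _ (he c) ((hy b).mul (he b))]
      exact ⟨f_comm C hg (hy c) (h3 c hc).1, f_comm C hg (ha c) (h3 c hc).2.1, f_conj C hg (he c) (h3 c hc).2.2⟩
  · intro b c h
    obtain ⟨g, hg, h1⟩ := sw0 (s := s) C.K b c h
    refine ⟨C.f g, f_z C hg, fun d => ?_⟩
    rw [Ey, Ey, Ea, Ea, Ee, Ee]
    exact ⟨f_conj C hg (hy d) (h1 d).1, f_conj C hg (ha d) (h1 d).2.1, f_conj C hg (he d) (h1 d).2.2⟩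
  · intro b hb c hc hbc
    obtain ⟨g, hg, h1, h2, h3, h4⟩ := sp0 (s := s) C.K b hb c hc hbc
    refine ⟨C.f g, f_z C hg, ?_, ?_, ?_, ?_⟩
    · rw [Ey, Ee, Ee, ← C.mul _ _ (he b) (he c)]; exact f_conj C hg (hy b) h1
    · rw [Ee]; exact f_conj C hg (he b) h2
    · rw [Ee, Ee, Ey, ← C.mul _ _ (he b) (hy b)]; exact f_conj C hg (he c) h3
    · rw [Ey, Ey, Ee, Ee, ← C.mul _ _ (hy b) (hy c), ← C.mul _ _ ((hy b).mul (hy c)) (he b),
        ← C.mul _ _ (((hy b).mul (hy c)).mul (he b)) (he c)]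
      exact f_conj C hg (hy c) h4
  · intro hs
    obtain ⟨x, h1, h2, h3⟩ := x30 (B := B) hs
    refine ⟨C.f x, by rw [f_ord C (h2 _), h1], fun b => ?_⟩
    rw [Ey, Ea]
    exact ⟨f_comm C (h2 _) (hy b) (h3 b).1, f_comm C (h2 _) (ha b) (h3 b).2⟩
  · intro b _ v hv h1 x hx hz hxv
    obtain ⟨p, hp, rfl⟩ := (C.cen x).mp hz
    obtain ⟨q, hq, cq, rfl⟩ := hV b v hv
    rw [f_ord C hp] at hx
    have hf := cz0 hq (fun h => h1 (by rw [h, f_one])) hx (f_inj C (Cm.mul hp cq) (cq.mul hp) (by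
      rw [C.mul _ _ hp cq, C.mul _ _ cq hp, hxv]))
    intro w hw
    obtain ⟨q', hq', cq', rfl⟩ := hV b w hw
    obtain ⟨τ, -, e⟩ := mem_V0 hq'
    exact (f_comm C hp cq' (fix_blk hf e)).symm

theorem Chart.untwist (C : Chart G B s) {S : CS G B s} (h : Fits C S) {b₁ b₂ : B} (T : Two S b₁ b₂ S.z) :
    ∃ (C' : Chart G B s) (S' : CS G B s), Fits C' S' ∧ Two S' b₁ b₂ 1 := by
  obtain ⟨χ, m, hc, va, ve, vy, vz⟩ := chi1' C
  have cz : Cm C (yK s C.K) := rfl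
  have zz : yK s C.K * yK s C.K = 1 := Subtype.ext (Equiv.ext fun x => yK_yK C.K x)
  let θ : Alt (Pt B s) → Alt (Pt B s) := fun p => if χ p = 1 then p else p * yK s C.K
  have cθ : ∀ p, Cm C p → Cm C (θ p) := by
    intro p hp
    simp only [θ]
    split_ifs
    · exact hp
    · exact hp.mul cz
  have θθ : ∀ p, Cm C p → θ (θ p) = p := by
    intro p hp
    by_cases h1 : χ p = 1
    · simp only [θ, h1, if_true]
    · have : χ (p * yK s C.K) ≠ 1 := by rw [m _ _ hp cz, vz, mul_one]; exact h1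
      simp only [θ, h1, this, if_false, mul_assoc, zz, mul_one]
  have θm : ∀ p q, Cm C p → Cm C q → θ (p * q) = θ p * θ q := by
    intro p q hp hq
    simp only [θ, m p q hp hq]
    rcases Int.units_eq_one_or (χ p) with h1 | h1 <;> rcases Int.units_eq_one_or (χ q) with h2 | h2 <;>
      simp only [h1, h2, mul_one, one_mul, if_true, (by decide : ((-1 : ℤˣ) = 1) = False), if_false,
        Int.units_mul_self]
    · rw [mul_assoc]
    · rw [mul_assoc, mul_assoc, hq]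
    · rw [mul_assoc, hq, ← mul_assoc (yK s C.K), zz, one_mul]
  have θz : θ (yK s C.K) = yK s C.K := by simp only [θ, vz, if_true]
  have θ1 : θ 1 = 1 := by
    have := θm 1 1 (cm_one C) (cm_one C)
    rw [mul_one] at this
    exact left_eq_mul.mp this
  let C' : Chart G B s :=
    { K := C.K, z := C.z, f := fun p => C.f (θ p), hs := C.hs, ne := C.ne
      mul := fun p q hp hq => by rw [θm p q hp hq, C.mul _ _ (cθ p hp) (cθ q hq)]
      inj := fun p hp h1 => by rw [← θθ p hp, C.inj _ (cθ p hp) h1, θ1]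
      cen := fun g => by
        rw [C.cen]
        constructor
        · rintro ⟨p, hp, rfl⟩
          exact ⟨θ p, cθ p hp, by rw [θθ p hp]⟩
        · rintro ⟨p, hp, rfl⟩
          exact ⟨θ p, cθ p hp, rfl⟩
      fz := by rw [θz, C.fz] }
  obtain ⟨S', h'⟩ := C'.exists_cs
  have eK : S'.K = S.K := h'.K.trans h.K.symm
  have ey : S'.y = S.y := by
    funext b
    rw [h'.y, h.y]
    simp only [C', θ, vy, if_true]
  have ee : ∀ b, S'.e b = S.e b := by
    intro b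
    rw [h'.e, h.e]
    simp only [C', θ, ve, if_true]
  have ea : ∀ b, b ∉ S.K → S'.a b = S.a b := by
    intro b hb
    rw [h.K] at hb
    rw [h'.a, h.a]
    simp only [C', θ, va, hb, if_true, if_false]
  have ea' : ∀ b, b ∈ S.K → S'.a b * 1 = S.a b * S.z := by
    intro b hb
    rw [h.K] at hb
    rw [h'.a, h.a, h.z, mul_one, ← C.fz, ← C.mul _ _ (hc b).2.1 cz]
    simp only [C', θ, va, hb, if_true, (by decide : ((-1 : ℤˣ) = 1) = False), if_false]
  refine ⟨C', S', h', eK ▸ T.m1, eK ▸ T.m2, T.ne, ?_, ?_, ?_⟩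
  · rw [ey, ea' _ T.m1]; exact T.r1
  · rw [ey, ea' _ T.m1, ea' _ T.m2]; exact T.r2
  · have : {x | ∃ b, b ∉ S'.K ∧ x = S'.a b} = {x | ∃ b, b ∉ S.K ∧ x = S.a b} := by
      ext x
      rw [eK]
      exact exists_congr fun b => and_congr_right fun hb => by rw [ea b hb]
    rw [ey, ea' _ T.m1, ee, this]; exact T.r3

end Cfsg.Agent.WA.Al
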