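import Cfsg.Agent.WA.AlCs0

/-! S3218, module AlCs: `c1` and `cz` in the model. -/

set_option autoImplicit false
set_option linter.unusedSimpArgs false
set_option linter.unusedSectionVars false

namespace Cfsg.Agent.WA.Al.Cs

open Subgroup Equiv

variable {B : Type} [Fintype B] [DecidableEq B] {s : ℕ}

/-- elements that preserve every block and act on block `c` by an element of `W c` -/
def BD (s : ℕ) (W : B → Subgroup (Perm (Fin 4))) : Subgroup (Alt (Pt B s)) where
  carrier := {w | ∃ σ : B → Perm (Fin 4), (∀ c i, w.1 (Sum.inl (c, i)) = Sum.inl (c, σ c i)) ∧ ∀ c, σ c ∈ W c}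
  one_mem' := ⟨1, fun _ _ => rfl, fun c => (W c).one_mem⟩
  mul_mem' := by
    rintro p q ⟨σ, h, hW⟩ ⟨σ', h', hW'⟩
    exact ⟨σ * σ', fun c i => by rw [mul_ap, h', h]; rfl, fun c => (W c).mul_mem (hW c) (hW' c)⟩
  inv_mem' := by
    rintro p ⟨σ, h, hW⟩
    refine ⟨σ⁻¹, fun c i => ?_, fun c => (W c).inv_mem (hW c)⟩
    apply p.1.injective
    rw [h]
    simp

theorem mem_BD_blk {W : B → Subgroup (Perm (Fin 4))} {w : Alt (Pt B s)} {b : B} {p : Perm (Fin 4)}
    (h : ∀ c i, w.1 (Sum.inl (c, i)) = Sum.inl (c, if c = b then p i else i)) (hp : p ∈ W b) : w ∈ BD s W := by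
  refine ⟨fun c => if c = b then p else 1, fun c i => ?_, fun c => ?_⟩
  · rw [h]; beta_reduce; split_ifs <;> rfl
  · beta_reduce
    split_ifs with e
    · rw [e]; exact hp
    · exact (W c).one_mem

theorem yK_single (b : B) : yK s {b} = y0 s b := by
  refine Subtype.ext (Equiv.ext ?_)
  rintro (⟨c, i⟩ | j) <;> simp only [yK_l, yK_r, y0_l, y0_r, Finset.mem_singleton]

theorem supp_yK (P : Finset B) :
    (yK s P).1.support = (P ×ˢ (Finset.univ : Finset (Fin 4))).map ⟨Sum.inl, Sum.inl_injective⟩ := by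
  ext x
  rcases x with ⟨c, i⟩ | j
  · have : (swap 0 1 * swap 2 3 : Perm (Fin 4)) i ≠ i := by revert i; decide
    by_cases hc : c ∈ P <;> simp [Perm.mem_support, yK_l, hc]
    simpa using this
  · simp [Perm.mem_support, yK_r]

theorem card_supp (P : Finset B) : (yK s P).1.support.card = 4 * P.card := by
  rw [supp_yK, Finset.card_map, Finset.card_product, Finset.card_univ, Fintype.card_fin, mul_comm]

theorem sign_BD {w : Alt (Pt B s)} {σ : B → Perm (Fin 4)} (h : ∀ c i, w.1 (Sum.inl (c, i)) = Sum.inl (c, σ c i))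
    (h' : ∀ j, w.1 (Sum.inr j) = Sum.inr j) : ∏ c, Perm.sign (σ c) = 1 := by
  have e : w.1 = Perm.sumCongr (prodCongrRight σ) 1 := by
    ext1 x
    rcases x with ⟨c, i⟩ | j
    · rw [h]; simp
    · rw [h']; simp
  have := w.2
  rwa [Perm.mem_alternatingGroup, e, Perm.sign_sumCongr, Perm.sign_prodCongrRight, map_one, mul_one] at this

theorem c10 (K : Finset B) (I : B → Bool) (hI : ∀ b ∈ K, ∀ c ∈ K, I b = false → I c = false → b = c)
    {g : Alt (Pt B s)} (hg : g * yK s K = yK s K * g) {b : B} (hb : b ∈ K)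
    (hw : g * y0 s b * g⁻¹ ∈ BD s fun c => if I c then alternatingGroup (Fin 4) else ⊤) :
    ∃ c ∈ K, g * y0 s b * g⁻¹ = y0 s c := by
  have hcard : (g * y0 s b * g⁻¹).1.support.card = 4 := by
    have : (g * y0 s b * g⁻¹).1 = g.1 * (y0 s b).1 * g.1⁻¹ := rfl
    rw [this, Perm.card_support_conj, ← yK_single, card_supp, Finset.card_singleton]
  have hx : ∀ x, (g * y0 s b * g⁻¹).1 x = x ∨ (g * y0 s b * g⁻¹).1 x = (yK s K).1 x := by
    intro x
    obtain ⟨x, rfl⟩ := g.1.surjective x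
    have e : (g * y0 s b * g⁻¹).1 (g.1 x) = g.1 ((y0 s b).1 x) := by
      rw [← mul_ap, inv_mul_cancel_right, mul_ap]
    rw [e, ← cm_ap hg]
    rcases x with ⟨c, i⟩ | j
    · by_cases hc : c = b
      · subst hc; right; simp only [y0_l, yK_l, hb, if_true]
      · left; simp only [y0_l, hc, if_false]
    · left; rw [y0_r]
  generalize g * y0 s b * g⁻¹ = w at hw hcard hx
  obtain ⟨σ, h, hW⟩ := hw
  have hr : ∀ j, w.1 (Sum.inr j) = Sum.inr j := fun j => (hx _).elim id fun e => e.trans (yK_r K j)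
  have hn : ∀ c, c ∉ K → σ c = 1 := by
    intro c hc
    ext1 i
    have := hx (Sum.inl (c, i))
    rw [h, yK_l, if_neg hc, or_self] at this
    simpa using this
  have hs1 : ∀ c, (c ∉ K ∨ I c = true) → Perm.sign (σ c) = 1 := by
    rintro c (hc | hc)
    · rw [hn c hc, map_one]
    · have := hW c
      simp only [hc, if_true] at this
      exact this
  have hs : ∀ c, Perm.sign (σ c) = 1 := by
    intro c
    by_cases hc : c ∉ K ∨ I c = true
    · exact hs1 c hc
    · rw [not_or, not_not, Bool.not_eq_true] at hc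
      rw [← sign_BD h hr, Finset.prod_eq_single c _ (by simp)]
      intro d _ hd
      refine hs1 d ?_
      by_contra hd'
      rw [not_or, not_not, Bool.not_eq_true] at hd'
      exact hd (hI d hd'.1 c hc.1 hd'.2 hc.2)
  have d4 : ∀ τ : Perm (Fin 4), Perm.sign τ = 1 →
      (∀ i, τ i = i ∨ τ i = (swap 0 1 * swap 2 3 : Perm (Fin 4)) i) → τ = 1 ∨ τ = swap 0 1 * swap 2 3 := by
    decide +kernel
  have hy : ∀ c, σ c = 1 ∨ σ c = swap 0 1 * swap 2 3 := by
    intro c
    by_cases hc : c ∈ K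
    · refine d4 _ (hs c) fun i => ?_
      have := hx (Sum.inl (c, i))
      rw [h, yK_l, if_pos hc] at this
      simpa using this
    · exact Or.inl (hn c hc)
  have e : w = yK s (Finset.univ.filter fun c => σ c ≠ 1) := by
    refine Subtype.ext (Equiv.ext ?_)
    rintro (⟨c, i⟩ | j)
    · rw [h, yK_l]
      rcases hy c with e | e
      · simp [e]
      · have : σ c ≠ 1 := by rw [e]; decide
        rw [if_pos (by simpa using this), e]
    · rw [hr, yK_r]
  rw [e, card_supp] at hcard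
  obtain ⟨c, hc⟩ := Finset.card_eq_one.mp (by omega : (Finset.univ.filter fun c => σ c ≠ 1).card = 1)
  refine ⟨c, ?_, by rw [e, hc, yK_single]⟩
  by_contra hc'
  have : c ∈ Finset.univ.filter fun c => σ c ≠ 1 := by rw [hc]; exact Finset.mem_singleton_self c
  exact (Finset.mem_filter.mp this).2 (hn c hc')

theorem mem_V0 {b : B} {v : Alt (Pt B s)} (hv : v ∈ closure ({y0 s b, a0 s b} : Set (Alt (Pt B s)))) :
    ∃ τ : Perm (Fin 4), (τ = 1 ∨ ∀ i, τ i ≠ i ∧ τ (τ i) = i) ∧ v.1 = blk s b τ := by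
  have key : ∃ τ : Perm (Fin 4), (τ = 1 ∨ τ = swap 0 1 * swap 2 3 ∨ τ = swap 0 2 * swap 1 3 ∨
      τ = swap 0 3 * swap 1 2) ∧ v.1 = blk s b τ := by
    have hm : ∀ p q : Perm (Fin 4), (blk s b p : Perm (Pt B s)) * blk s b q = blk s b (p * q) := by
      intro p q
      ext1 x
      rcases x with ⟨c, i⟩ | j
      · rw [Perm.mul_apply, blk_l, blk_l, blk_l]; split_ifs <;> rfl
      · rw [Perm.mul_apply, blk_r, blk_r, blk_r]
    have h1 : (blk s b 1 : Perm (Pt B s)) = 1 := by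
      ext1 x
      rcases x with ⟨c, i⟩ | j
      · rw [blk_l]; split_ifs <;> rfl
      · rw [blk_r]; rfl
    induction hv using closure_induction with
    | mem x hx =>
      rcases hx with rfl | rfl
      · exact ⟨_, Or.inr (Or.inl rfl), rfl⟩
      · exact ⟨_, Or.inr (Or.inr (Or.inl rfl)), rfl⟩
    | one => exact ⟨1, Or.inl rfl, h1.symm⟩
    | mul x y _ _ hx hy =>
      obtain ⟨p, hp, ep⟩ := hx
      obtain ⟨q, hq, eq⟩ := hy
      refine ⟨p * q, ?_, by rw [← hm, ← ep, ← eq]; rfl⟩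
      rcases hp with rfl | rfl | rfl | rfl <;> rcases hq with rfl | rfl | rfl | rfl <;> decide
    | inv x _ hx =>
      obtain ⟨p, hp, ep⟩ := hx
      refine ⟨p, hp, ?_⟩
      have : (x⁻¹).1 = (x.1)⁻¹ := rfl
      rw [this, ep, inv_eq_iff_mul_eq_one, hm, ← h1]
      congr 1
      rcases hp with rfl | rfl | rfl | rfl <;> decide
  obtain ⟨τ, h, e⟩ := key
  refine ⟨τ, ?_, e⟩
  rcases h with rfl | rfl | rfl | rfl
  · exact Or.inl rfl
  all_goals right; decide

theorem fix_blk {b : B} {x : Alt (Pt B s)} (h : ∀ i, x.1 (Sum.inl (b, i)) = Sum.inl (b, i)) {v : Alt (Pt B s)}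
    {τ : Perm (Fin 4)} (e : v.1 = blk s b τ) : x * v = v * x := by
  refine Subtype.ext (Equiv.ext fun w => ?_)
  rw [mul_ap, mul_ap, e]
  have hf : ∀ u : Pt B s, (∀ i, u ≠ Sum.inl (b, i)) → blk s b τ u = u := by
    rintro (⟨c, i⟩ | j) hu
    · rw [blk_l, if_neg]; rintro rfl; exact hu i rfl
    · rw [blk_r]
  by_cases hw : ∃ i, w = Sum.inl (b, i)
  · obtain ⟨i, rfl⟩ := hw
    rw [h, blk_l, if_pos rfl, h]
  · rw [not_exists] at hw
    rw [hf w hw, hf]
    intro i hi
    exact hw i (x.1.injective (hi.trans (h i).symm))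

theorem cz0 {b : B} {v : Alt (Pt B s)} (hv : v ∈ closure ({y0 s b, a0 s b} : Set (Alt (Pt B s)))) (h1 : v ≠ 1)
    {x : Alt (Pt B s)} (hx : Odd (orderOf x)) (hxv : x * v = v * x) (i : Fin 4) :
    x.1 (Sum.inl (b, i)) = Sum.inl (b, i) := by
  obtain ⟨τ, hτ, e⟩ := mem_V0 hv
  rcases hτ with rfl | hτ
  · refine (h1 (Subtype.ext (e.trans ?_))).elim
    ext1 w
    rcases w with ⟨c, i⟩ | j
    · rw [blk_l]; split_ifs <;> rfl
    · rw [blk_r]; rfl
  have hb : ∀ i, ∃ k, x.1 (Sum.inl (b, i)) = Sum.inl (b, k) := by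
    intro i
    have h2 := cm_ap hxv (Sum.inl (b, i))
    rw [e, blk_l, if_pos rfl] at h2
    have h3 : blk s b τ (x.1 (Sum.inl (b, i))) ≠ x.1 (Sum.inl (b, i)) := by
      rw [← h2]; intro h
      have := x.1.injective h
      simp only [Sum.inl.injEq, Prod.mk.injEq, true_and] at this
      exact (hτ i).1 this
    rcases hu : x.1 (Sum.inl (b, i)) with ⟨c, k⟩ | j
    · rw [hu, blk_l] at h3
      by_cases hc : c = b
      · exact ⟨k, by rw [hc]⟩
      · exact (h3 (by rw [if_neg hc])).elim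
    · rw [hu, blk_r] at h3; exact (h3 rfl).elim
  choose σ hσ using hb
  have d4 : ∀ τ : Perm (Fin 4), (∀ i, τ i ≠ i ∧ τ (τ i) = i) → ∀ σ : Fin 4 → Fin 4, (∀ i j, σ i = σ j → i = j) →
      (∀ i, σ (τ i) = τ (σ i)) → ∀ i, σ (σ (σ (σ i))) = i := by
    decide +kernel
  have h4 : ∀ i, (x ^ 4).1 (Sum.inl (b, i)) = Sum.inl (b, i) := by
    intro i
    simp only [pow_succ, pow_zero, one_mul, mul_ap, hσ]
    rw [d4 τ hτ σ (fun i j h => ?_) (fun i => ?_)]
    · have := x.1.injective ((hσ i).trans (h ▸ (hσ j).symm))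
      simpa using this
    · have h2 := cm_ap hxv (Sum.inl (b, i))
      rw [e, blk_l, if_pos rfl, hσ, hσ, blk_l, if_pos rfl] at h2
      simpa using h2
  have hc : Nat.Coprime 4 (orderOf x) := by
    have : Nat.Coprime 2 (orderOf x) := Nat.coprime_two_left.mpr hx
    exact Nat.Coprime.pow_left 2 this
  obtain ⟨m, hm⟩ := exists_pow_eq_self_of_coprime hc
  rw [← hm]
  clear hm
  induction m with
  | zero => rfl
  | succ m ih => rw [pow_succ, mul_ap, h4, ih]

end Cfsg.Agent.WA.Al.Cs
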