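import Cfsg.Agent.WA.AlCh
import Mathlib.GroupTheory.Perm.ViaEmbedding

/-! S3218: extension by the identity on one block. -/

set_option autoImplicit false
set_option linter.unusedSimpArgs false
set_option linter.unusedSectionVars false

namespace Cfsg.Agent.WA.Al.Emb

open Subgroup Equiv Cs

variable {B : Type} [Fintype B] [DecidableEq B] {s : ℕ}

/-- the points outside block `b₁` -/
def emb (s : ℕ) (b₁ : B) : Pt {b // b ≠ b₁} s ↪ Pt B s :=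
  ⟨Sum.map (fun x => (x.1.1, x.2)) id, Sum.map_injective.mpr ⟨fun x y h => by
    rw [Prod.mk.injEq] at h; exact Prod.ext (Subtype.ext h.1) h.2, fun _ _ h => h⟩⟩

theorem emb_l (b₁ : B) (c : {b // b ≠ b₁}) (i : Fin 4) : emb s b₁ (Sum.inl (c, i)) = Sum.inl (c.1, i) := rfl
theorem emb_r (b₁ : B) (j : Fin (s + 2)) : emb s b₁ (Sum.inr j) = Sum.inr j := rfl

theorem cases_pt (b₁ : B) (x : Pt B s) : (∃ i, x = Sum.inl (b₁, i)) ∨ ∃ y, x = emb s b₁ y := by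
  rcases x with ⟨c, i⟩ | j
  · by_cases h : c = b₁
    · exact Or.inl ⟨i, by rw [h]⟩
    · exact Or.inr ⟨Sum.inl (⟨c, h⟩, i), rfl⟩
  · exact Or.inr ⟨Sum.inr j, rfl⟩

theorem emb_ne (b₁ : B) (y : Pt {b // b ≠ b₁} s) (i : Fin 4) : emb s b₁ y ≠ Sum.inl (b₁, i) := by
  rcases y with ⟨c, k⟩ | j
  · rw [emb_l]; intro h
    simp only [Sum.inl.injEq, Prod.mk.injEq] at h
    exact c.2 h.1
  · rw [emb_r]; simp

theorem sign_via (b₁ : B) (q : Perm (Pt {b // b ≠ b₁} s)) :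
    Perm.sign (Perm.viaEmbeddingHom (emb s b₁) q) = Perm.sign q := by
  classical
  rw [Perm.viaEmbeddingHom_apply, Perm.viaEmbedding]
  convert Perm.sign_extendDomain q _

/-- extension by the identity on block `b₁` -/
noncomputable def ext (s : ℕ) (b₁ : B) : Alt (Pt {b // b ≠ b₁} s) →* Alt (Pt B s) :=
  ((Perm.viaEmbeddingHom (emb s b₁)).comp (alternatingGroup _).subtype).codRestrict _ fun q => by
    rw [Perm.mem_alternatingGroup, MonoidHom.comp_apply, sign_via]; exact q.2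

theorem ext_emb (b₁ : B) (q : Alt (Pt {b // b ≠ b₁} s)) (y : Pt {b // b ≠ b₁} s) :
    (ext s b₁ q).1 (emb s b₁ y) = emb s b₁ (q.1 y) := Perm.viaEmbedding_apply _ _ _

theorem ext_blk (b₁ : B) (q : Alt (Pt {b // b ≠ b₁} s)) (i : Fin 4) :
    (ext s b₁ q).1 (Sum.inl (b₁, i)) = Sum.inl (b₁, i) :=
  Perm.viaEmbedding_apply_of_notMem _ _ _ fun ⟨y, h⟩ => emb_ne b₁ y i h

theorem ext_inj (b₁ : B) : Function.Injective (ext s b₁) := fun p q h =>
  Subtype.ext (Equiv.ext fun y => (emb s b₁).injective (by rw [← ext_emb, h, ext_emb]))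

theorem ext_eq {b₁ : B} {q : Alt (Pt {b // b ≠ b₁} s)} {r : Alt (Pt B s)}
    (h1 : ∀ i, r.1 (Sum.inl (b₁, i)) = Sum.inl (b₁, i)) (h2 : ∀ y, r.1 (emb s b₁ y) = emb s b₁ (q.1 y)) :
    ext s b₁ q = r := by
  refine Subtype.ext (Equiv.ext fun x => ?_)
  rcases cases_pt b₁ x with ⟨i, rfl⟩ | ⟨y, rfl⟩
  · rw [ext_blk, h1]
  · rw [ext_emb, h2]

theorem ext_surj {b₁ : B} {r : Alt (Pt B s)} (h : ∀ i, r.1 (Sum.inl (b₁, i)) = Sum.inl (b₁, i)) :
    ∃ q, ext s b₁ q = r := by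
  have h1 : ∀ y, ∃ y', r.1 (emb s b₁ y) = emb s b₁ y' := by
    intro y
    rcases cases_pt b₁ (r.1 (emb s b₁ y)) with ⟨i, e⟩ | h'
    · exact (emb_ne b₁ y i (r.1.injective (e.trans (h i).symm))).elim
    · exact h'
  choose σ hσ using h1
  have hi : Function.Injective σ := fun y y' e =>
    (emb s b₁).injective (r.1.injective (by rw [hσ, hσ, e]))
  let q : Perm (Pt {b // b ≠ b₁} s) := Equiv.ofBijective σ (Finite.injective_iff_bijective.mp hi)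
  have e : Perm.viaEmbeddingHom (emb s b₁) q = r.1 := by
    ext1 x
    rcases cases_pt b₁ x with ⟨i, rfl⟩ | ⟨y, rfl⟩
    · rw [h]; exact Perm.viaEmbedding_apply_of_notMem _ _ _ fun ⟨y, h⟩ => emb_ne b₁ y i h
    · rw [hσ]; exact Perm.viaEmbedding_apply _ _ _
  exact ⟨⟨q, by rw [Perm.mem_alternatingGroup, ← sign_via, e]; exact r.2⟩, Subtype.ext e⟩

theorem ext_y0 (b₁ : B) (b : {b // b ≠ b₁}) : ext s b₁ (y0 s b) = y0 s b.1 := by
  refine ext_eq (fun i => by rw [y0_l, if_neg b.2.symm]) ?_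
  rintro (⟨c, i⟩ | j)
  · simp only [emb_l, y0_l, Subtype.ext_iff]
  · simp only [emb_r, y0_r]

theorem ext_a0 (b₁ : B) (b : {b // b ≠ b₁}) : ext s b₁ (a0 s b) = a0 s b.1 := by
  refine ext_eq (fun i => by rw [a0_l, if_neg b.2.symm]) ?_
  rintro (⟨c, i⟩ | j)
  · simp only [emb_l, a0_l, Subtype.ext_iff]
  · simp only [emb_r, a0_r]

theorem ext_e0 (b₁ : B) (b : {b // b ≠ b₁}) : ext s b₁ (e0 s b) = e0 s b.1 := by
  refine ext_eq (fun i => by rw [e0_l, if_neg b.2.symm]) ?_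
  rintro (⟨c, i⟩ | j)
  · simp only [emb_l, e0_l, Subtype.ext_iff]
  · simp only [emb_r, e0_r]

theorem ext_yK (b₁ : B) (K : Finset B) : ext s b₁ (yK s (K.subtype (· ≠ b₁))) = yK s (K.erase b₁) := by
  refine ext_eq (fun i => by rw [yK_l, if_neg (Finset.notMem_erase _ _)]) ?_
  rintro (⟨c, i⟩ | j)
  · simp only [emb_l, yK_l, Finset.mem_subtype, Finset.mem_erase, c.2, ne_eq, not_false_eq_true, true_and]
  · simp only [emb_r, yK_r]

theorem ext_comm_y (b₁ : B) (q : Alt (Pt {b // b ≠ b₁} s)) : ext s b₁ q * y0 s b₁ = y0 s b₁ * ext s b₁ q :=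
  fix_blk (ext_blk b₁ q) rfl

theorem ext_comm_a (b₁ : B) (q : Alt (Pt {b // b ≠ b₁} s)) : ext s b₁ q * a0 s b₁ = a0 s b₁ * ext s b₁ q :=
  fix_blk (ext_blk b₁ q) rfl

/-- the extension meets `V0` trivially -/
theorem ext_V0 {b₁ : B} {q : Alt (Pt {b // b ≠ b₁} s)}
    (h : ext s b₁ q ∈ closure ({y0 s b₁, a0 s b₁} : Set (Alt (Pt B s)))) : q = 1 := by
  obtain ⟨τ, -, e⟩ := mem_V0 h
  refine Subtype.ext (Equiv.ext fun y => (emb s b₁).injective ?_)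
  rw [← ext_emb, e]
  rcases y with ⟨c, i⟩ | j
  · rw [emb_l, blk_l, if_neg c.2]; rfl
  · rw [emb_r, blk_r]; rfl

/-- `C(V0) = V0 × Alt'` -/
theorem cen_V0 {b₁ : B} {r : Alt (Pt B s)} (hy : r * y0 s b₁ = y0 s b₁ * r) (ha : r * a0 s b₁ = a0 s b₁ * r) :
    ∃ v ∈ closure ({y0 s b₁, a0 s b₁} : Set (Alt (Pt B s))), ∃ q, r = v * ext s b₁ q := by
  choose σ hσ using Ch.pres_blk hy
  have d4 : ∀ τ : Fin 4 → Fin 4,
      (∀ i, τ ((swap 0 1 * swap 2 3 : Perm (Fin 4)) i) = (swap 0 1 * swap 2 3 : Perm (Fin 4)) (τ i)) →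
      (∀ i, τ ((swap 0 2 * swap 1 3 : Perm (Fin 4)) i) = (swap 0 2 * swap 1 3 : Perm (Fin 4)) (τ i)) →
      (∀ i, τ i = i) ∨ (∀ i, (swap 0 1 * swap 2 3 : Perm (Fin 4)) (τ i) = i) ∨
        (∀ i, (swap 0 2 * swap 1 3 : Perm (Fin 4)) (τ i) = i) ∨
        ∀ i, (swap 0 1 * swap 2 3 : Perm (Fin 4)) ((swap 0 2 * swap 1 3 : Perm (Fin 4)) (τ i)) = i := by
    decide +kernel
  have key : ∃ v ∈ closure ({y0 s b₁, a0 s b₁} : Set (Alt (Pt B s))),
      ∀ i, (v * r).1 (Sum.inl (b₁, i)) = Sum.inl (b₁, i) := by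
    have my : y0 s b₁ ∈ closure ({y0 s b₁, a0 s b₁} : Set (Alt (Pt B s))) := subset_closure (Or.inl rfl)
    have ma : a0 s b₁ ∈ closure ({y0 s b₁, a0 s b₁} : Set (Alt (Pt B s))) := subset_closure (Or.inr rfl)
    rcases d4 σ (fun i => by
        have h2 := cm_ap hy (Sum.inl (b₁, i))
        rw [y0_l, if_pos rfl, hσ, hσ, y0_l, if_pos rfl] at h2
        simpa using h2) (fun i => by
        have h2 := cm_ap ha (Sum.inl (b₁, i))
        rw [a0_l, if_pos rfl, hσ, hσ, a0_l, if_pos rfl] at h2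
        simpa using h2) with h | h | h | h
    · exact ⟨1, one_mem _, fun i => by rw [one_mul, hσ, h]⟩
    · exact ⟨_, my, fun i => by rw [mul_ap, hσ, y0_l, if_pos rfl, h]⟩
    · exact ⟨_, ma, fun i => by rw [mul_ap, hσ, a0_l, if_pos rfl, h]⟩
    · exact ⟨_, mul_mem my ma, fun i => by rw [mul_ap, mul_ap, hσ, a0_l, if_pos rfl, y0_l, if_pos rfl, h]⟩
  obtain ⟨v, hv, h⟩ := key
  obtain ⟨q, hq⟩ := ext_surj h
  exact ⟨v⁻¹, inv_mem hv, q, by rw [hq, inv_mul_cancel_left]⟩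

end Cfsg.Agent.WA.Al.Emb
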