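import Cfsg.Agent.WA.AlExt1

/-! Module AlExt (S3218): gluing `μ` and `ν`. -/

set_option autoImplicit false

namespace Cfsg.Agent.WA.Al

open Subgroup Equiv

universe u

namespace Ext

variable {G : Type u} [Group G] {α : Type} [Fintype α] [DecidableEq α]

/-- the cross relation -/
def Good (H : HM G α) (ν : St H.X' →* G) (a b i j : α) : Prop :=
  ∀ (qi : St H.X') (qj : St H.X), qi.1.1 = swap a i * swap a b → qj.1.1 = swap a j * swap a b →
    (ν qi * H.μ qj) ^ 2 = 1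

theorem exists_k {X : Finset α} (hX : X.card = 4) {i i' : α} (hi : i ∈ X) (hi' : i' ∈ X) :
    ∃ k : Alt α, k.1.support ⊆ X ∧ k.1 i = i' := by
  by_cases h : i = i'
  · exact ⟨1, by simp, h⟩
  obtain ⟨x, y, -, hx, hy, -, n1, n2, -, n3, -, -⟩ := four_pts hX hi
  obtain ⟨w, hw, w1, w2⟩ : ∃ w ∈ X, i ≠ w ∧ i' ≠ w := by
    by_cases e : i' = x
    · exact ⟨y, hy, n2, e ▸ n3⟩
    · exact ⟨x, hx, n1, e⟩
  refine ⟨c3 i i' w h w1, (c3_supp h w1).trans ?_, ?_⟩
  · intro t ht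
    simp only [Finset.mem_insert, Finset.mem_singleton] at ht
    rcases ht with rfl | rfl | rfl <;> assumption
  · show swap i w (swap i i' i) = i'
    rw [swap_apply_left, swap_apply_of_ne_of_ne (Ne.symm h) w2]

theorem fix_of_supp {X : Finset α} {k : Perm α} (h : k.support ⊆ X) {x : α} (hx : x ∉ X) : k x = x := by
  by_contra e
  exact hx (h (Perm.mem_support.2 e))

section

variable (H : HM G α) (ν : St H.X' →* G)
  (h1 : ∀ p : Alt α, ∀ (h : p ∈ St H.X) (h' : p ∈ St H.X'), ν ⟨p, h'⟩ = H.μ ⟨p, h⟩)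
include h1

theorem good_move {a b i j : α} {k : Alt α} (hk : k ∈ St H.X) (hk' : k ∈ St H.X') (ka : k.1 a = a) (kb : k.1 b = b)
    (h : Good H ν a b i j) : Good H ν a b (k.1 i) (k.1 j) := by
  intro qi qj e1 e2
  have f : ∀ t : α, k.1⁻¹ * (swap a (k.1 t) * swap a b) * k.1 = swap a t * swap a b := by
    intro t
    have := c3_conj k.1 a b t
    rw [ka, kb] at this
    rw [← this]; group
  have := h ((⟨k, hk'⟩ : St H.X')⁻¹ * qi * ⟨k, hk'⟩) ((⟨k, hk⟩ : St H.X)⁻¹ * qj * ⟨k, hk⟩)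
    (by rw [← f i, ← e1]; rfl) (by rw [← f j, ← e2]; rfl)
  rw [map_mul, map_mul, map_mul, map_mul, map_inv, map_inv, h1 k hk hk'] at this
  calc _ = H.μ ⟨k, hk⟩ * ((H.μ ⟨k, hk⟩)⁻¹ * ν qi * H.μ ⟨k, hk⟩ * ((H.μ ⟨k, hk⟩)⁻¹ * H.μ qj * H.μ ⟨k, hk⟩)) ^ 2 *
        (H.μ ⟨k, hk⟩)⁻¹ := by rw [pow_two, pow_two]; group
    _ = 1 := by rw [this]; simp

theorem good_all {a b i j : α} (ha : a ∉ H.X) (ha' : a ∉ H.X') (hb : b ∉ H.X) (hb' : b ∉ H.X') (hi : i ∈ H.X)
    (hj : j ∈ H.X') (h : Good H ν a b i j) : ∀ i' ∈ H.X, ∀ j' ∈ H.X', Good H ν a b i' j' := by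
  intro i' hi' j' hj'
  obtain ⟨k, ks, ki⟩ := exists_k H.cX hi hi'
  obtain ⟨k', ks', kj⟩ := exists_k H.cX' hj hj'
  have g1 := good_move H ν h1 (mem_St_of_supp (Or.inl ks))
    (mem_St_of_supp (Or.inr (H.dis.mono_left ks))) (fix_of_supp ks ha) (fix_of_supp ks hb) h
  rw [ki, fix_of_supp ks (Finset.disjoint_right.1 H.dis hj)] at g1
  have g2 := good_move H ν h1 (mem_St_of_supp (Or.inr (H.dis.symm.mono_left ks')))
    (mem_St_of_supp (Or.inl ks')) (fix_of_supp ks' ha') (fix_of_supp ks' hb') g1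
  rwa [kj, fix_of_supp ks' (Finset.disjoint_left.1 H.dis hi')] at g2

theorem not_eq (hν : Function.Injective ν) {a b i j : α} (ha : a ∉ H.X) (hb : b ∉ H.X) (hi : i ∈ H.X)
    (hj : j ∈ H.X') (qi : St H.X') (qj : St H.X) (e1 : qi.1.1 = swap a i * swap a b)
    (e2 : qj.1.1 = swap a j * swap a b) : ν qi ≠ H.μ qj := by
  intro e
  obtain ⟨x, -, -, hx, -, -, n1, -⟩ := four_pts H.cX hi
  obtain ⟨k, ks, ki⟩ := exists_k H.cX hi hx
  have hk : k ∈ St H.X := mem_St_of_supp (Or.inl ks)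
  have hk' : k ∈ St H.X' := mem_St_of_supp (Or.inr (H.dis.mono_left ks))
  have c1 : (⟨k, hk⟩ : St H.X) * qj * (⟨k, hk⟩ : St H.X)⁻¹ = qj := ext3 (by
    show k.1 * qj.1.1 * k.1⁻¹ = _
    rw [e2, c3_conj, fix_of_supp ks ha, fix_of_supp ks hb, fix_of_supp ks (Finset.disjoint_right.1 H.dis hj)])
  have c2 : (⟨k, hk'⟩ : St H.X') * qi * (⟨k, hk'⟩ : St H.X')⁻¹ = qi := hν (by
    rw [map_mul, map_mul, map_inv, h1 k hk hk', e, ← map_inv, ← map_mul, ← map_mul, c1])
  have c3 : k.1 * qi.1.1 * k.1⁻¹ = qi.1.1 := congrArg (fun q : St H.X' => q.1.1) c2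
  rw [e1, c3_conj, fix_of_supp ks ha, fix_of_supp ks hb, ki, mul_left_inj] at c3
  have := congrArg (fun q : Perm α => q a) c3
  simp only [swap_apply_left] at this
  exact n1 this.symm

theorem core {a b : α} (hab : a ≠ b) (ha : a ∉ H.X) (ha' : a ∉ H.X') (hb : b ∉ H.X) (hb' : b ∉ H.X')
    (h : ∀ i ∈ H.X, ∀ j ∈ H.X', Good H ν a b i j) : ∃ Φ : Alt α →* G, ∀ p : St H.X, Φ p.1 = H.μ p := by
  classical
  have cm : ∀ {X : Finset α}, a ∉ X → b ∉ X → ∀ {i} (hi : a ≠ i), i ∉ X → c3 a b i hab hi ∈ St X := by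
    intro X h1 h2 i hi h3
    refine mem_St_of_supp (Or.inr (Finset.disjoint_of_subset_left (c3_supp hab hi) ?_))
    simp [h1, h2, h3]
  have dX : ∀ {x}, x ∈ H.X → x ∉ H.X' := fun hx => Finset.disjoint_left.1 H.dis hx
  let x : α → G := fun i => if hi : a ≠ i then
    (if hX : i ∈ H.X then ν ⟨c3 a b i hab hi, cm ha' hb' hi (dX hX)⟩ else H.μ ⟨c3 a b i hab hi, cm ha hb hi hX⟩) else 1
  have xμ : ∀ i (hi : a ≠ i) (hX : i ∉ H.X), x i = H.μ ⟨c3 a b i hab hi, cm ha hb hi hX⟩ := by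
    intro i hi hX
    simp only [x, dif_pos hi, dif_neg hX]
  have xν : ∀ i (hi : a ≠ i) (hX : i ∉ H.X'), x i = ν ⟨c3 a b i hab hi, cm ha' hb' hi hX⟩ := by
    intro i hi hX'
    by_cases hX : i ∈ H.X
    · simp only [x, dif_pos hi, dif_pos hX]
    · rw [xμ i hi hX, h1]
  obtain ⟨Φ, hΦ⟩ := pres hab x (fun i hi hbi => by
      by_cases hX : i ∈ H.X
      · rw [xν i hi (dX hX), ← map_pow, ← map_one ν]
        exact congrArg ν (ext3 (by rw [pow_three']; exact c3_cube hab hi hbi))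
      · rw [xμ i hi hX, ← map_pow, ← map_one H.μ]
        exact congrArg H.μ (ext3 (by rw [pow_three']; exact c3_cube hab hi hbi)))
    (fun i j hi hbi hj hbj hij => by
      by_cases hX : i ∈ H.X
      · by_cases hX' : j ∈ H.X'
        · rw [xν i hi (dX hX), xμ j hj (fun e => dX e hX')]
          exact h i hX j hX' _ _ rfl rfl
        · rw [xν i hi (dX hX), xν j hj hX', ← map_mul, ← map_pow, ← map_one ν]
          exact congrArg ν (ext3 (by rw [pow_two]; exact c3_sq hab hi hbi hj hbj hij))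
      · by_cases hY : j ∈ H.X
        · by_cases hX' : i ∈ H.X'
          · have := h j hY i hX' ⟨c3 a b j hab hj, cm ha' hb' hj (dX hY)⟩ ⟨c3 a b i hab hi, cm ha hb hi hX⟩ rfl rfl
            rw [← xν j hj (dX hY), ← xμ i hi hX] at this
            calc (x i * x j) ^ 2 = x i * (x j * x i) ^ 2 * (x i)⁻¹ := by rw [pow_two, pow_two]; group
              _ = 1 := by rw [this]; simp
          · rw [xν i hi hX', xν j hj (dX hY), ← map_mul, ← map_pow, ← map_one ν]
            exact congrArg ν (ext3 (by rw [pow_two]; exact c3_sq hab hi hbi hj hbj hij))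
        · rw [xμ i hi hX, xμ j hj hY, ← map_mul, ← map_pow, ← map_one H.μ]
          exact congrArg H.μ (ext3 (by rw [pow_two]; exact c3_sq hab hi hbi hj hbj hij)))
  have gen : ∀ (X : Finset α) (θ : St X →* G) (hXa : a ∉ X) (hXb : b ∉ X),
      (∀ i (hi : a ≠ i) (hX : i ∉ X), x i = θ ⟨c3 a b i hab hi, cm hXa hXb hi hX⟩) →
      ∀ p : St X, Disjoint p.1.1.support X → Φ p.1 = θ p := by
    intro X θ hXa hXb hθ p hp
    have h3 := closure_c3 hab Xᶜ (Finset.mem_compl.2 hXa) (Finset.mem_compl.2 hXb) (p := p.1)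
      (fun t ht => Finset.mem_compl.2 (Finset.disjoint_left.1 hp ht))
    have h4 : closure {q : Alt α | ∃ i, ∃ hi : a ≠ i, b ≠ i ∧ i ∈ Xᶜ ∧ q = c3 a b i hab hi} ≤
        (MonoidHom.eqLocus (Φ.comp (St X).subtype) θ).map (St X).subtype := by
      rw [closure_le]
      rintro _ ⟨i, hi, hbi, hX, rfl⟩
      refine ⟨⟨_, cm hXa hXb hi (Finset.mem_compl.1 hX)⟩, ?_, rfl⟩
      show Φ (c3 a b i hab hi) = _
      rw [hΦ i hi hbi, hθ i hi (Finset.mem_compl.1 hX)]
    obtain ⟨q, hq, e⟩ := h4 h3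
    have : q = p := Subtype.ext e
    rw [← this]
    exact hq
  have g1 := gen H.X H.μ ha hb xμ
  have g2 : ∀ p : St H.X, p.1 ∈ St H.X' → Disjoint p.1.1.support H.X' → Φ p.1 = H.μ p := by
    intro p hp hd
    rw [gen H.X' ν ha' hb' xν ⟨p.1, hp⟩ hd, h1 p.1 p.2 hp]
  have ev : ∀ p : St H.X, Perm.sign (out H.X p) = 1 → Φ p.1 = H.μ p := by
    intro p hs
    have od : Disjoint (out H.X p).support H.X := by rw [support_out]; exact Finset.sdiff_disjoint
    let o : St H.X := ⟨⟨out H.X p, Perm.mem_alternatingGroup.2 hs⟩, mem_St_of_supp (Or.inr od)⟩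
    have oo : out H.X o = out H.X p := out_eq_self fun t ht => out_mem p ht
    have ns : (p * o⁻¹).1.1.support ⊆ H.X := out_eq_one.1 (by rw [map_mul, map_inv, oo, mul_inv_cancel])
    have e1 := g1 o od
    have e2 := g2 (p * o⁻¹) (mem_St_of_supp (Or.inr (H.dis.mono_left ns))) (H.dis.mono_left ns)
    calc Φ p.1 = Φ (p * o⁻¹).1 * Φ o.1 := by rw [← map_mul]; congr 1; simp
      _ = _ := by rw [e1, e2, ← map_mul]; simp
  refine ⟨Φ, fun p => ?_⟩
  rcases Int.units_eq_one_or (Perm.sign (out H.X p)) with hs | hs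
  · exact ev p hs
  · obtain ⟨i, hi⟩ : H.X.Nonempty := Finset.card_pos.1 (by rw [H.cX]; norm_num)
    obtain ⟨i', -, -, hi', -, -, n, -⟩ := four_pts H.cX hi
    let w : St H.X := ⟨s2 n hab, s2_mem _ _ (iff_of_true hi hi') (iff_of_false ha hb)⟩
    have ow : out H.X w = swap a b := by
      ext t
      by_cases ht : t ∈ H.X
      · have n' : ∀ c, c ∉ H.X → t ≠ c := fun c hc e => hc (e ▸ ht)
        rw [out_mem w ht, swap_apply_of_ne_of_ne (n' a ha) (n' b hb)]
      · rw [out_not w ht]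
        have : swap a b t ∉ H.X := fun e => ht ((swap_pres (iff_of_false ha hb) t).1 e)
        exact swap_apply_of_ne_of_ne (fun e => this (e ▸ hi)) (fun e => this (e ▸ hi'))
    have e1 := ev (p * w) (by rw [map_mul, map_mul, hs, ow, Perm.sign_swap hab]; decide)
    have e2 : Φ w.1 = H.μ w := by
      refine g2 w (s2_mem n hab (iff_of_false (dX hi) (dX hi')) (iff_of_false ha' hb')) ?_
      rw [Finset.disjoint_left]
      intro t ht ht'
      have := Perm.support_mul_le _ _ ht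
      rw [Perm.support_swap n, Perm.support_swap hab] at this
      simp only [Finset.sup_eq_union, Finset.mem_union, Finset.mem_insert, Finset.mem_singleton] at this
      rcases this with (rfl | rfl) | (rfl | rfl)
      · exact dX hi ht'
      · exact dX hi' ht'
      · exact ha' ht'
      · exact hb' ht'
    rw [coe_mul, map_mul, map_mul, e2] at e1
    exact mul_right_cancel e1

end

/-- conjugation by a transposition outside `X`. -/
def cj (X : Finset α) {a b : α} (h : a ∈ X ↔ b ∈ X) : St X →* St X := MonoidHom.mk'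
  (fun q => ⟨⟨swap a b * q.1.1 * (swap a b)⁻¹, by
      rw [Perm.mem_alternatingGroup, map_mul, map_mul, map_inv, Perm.mem_alternatingGroup.1 q.1.2, mul_one,
        mul_inv_cancel]⟩,
    fun x => (swap_pres h _).trans ((q.2 _).trans (swap_pres h x))⟩)
  (fun p q => ext3 (by
    show swap a b * (p.1.1 * q.1.1) * (swap a b)⁻¹ =
      swap a b * p.1.1 * (swap a b)⁻¹ * (swap a b * q.1.1 * (swap a b)⁻¹)
    group))

theorem cj_val (X : Finset α) {a b : α} (h : a ∈ X ↔ b ∈ X) (q : St X) :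
    (cj X h q).1.1 = swap a b * q.1.1 * (swap a b)⁻¹ := rfl

end Ext

open Ext

variable {G : Type u} [Group G] [Finite G] {B : Type} [Fintype B] [DecidableEq B] {s : ℕ}

theorem HM.ext {α : Type} [Fintype α] [DecidableEq α] (H : HM G α) (ν : St H.X' →* G) (hν : Function.Injective ν)
    (h1 : ∀ p : Alt α, ∀ (h : p ∈ St H.X) (h' : p ∈ St H.X'), ν ⟨p, h'⟩ = H.μ ⟨p, h⟩)
    (h2 : ∀ (q : St H.X') (v : St H.X), q * q = 1 → v * v = 1 → v.1.1.support.card = 4 →
      (IsConj (H.μ v) (ν q) ↔ q.1.1.support.card = 4)) : ∃ Φ : Alt α →* G, ∀ p : St H.X, Φ p.1 = H.μ p := by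
  obtain ⟨a, ha, b, hb, hab⟩ : ∃ a ∈ (H.X ∪ H.X')ᶜ, ∃ b ∈ (H.X ∪ H.X')ᶜ, a ≠ b := by
    rw [← Finset.one_lt_card, Finset.card_compl, Finset.card_union_of_disjoint H.dis, H.cX, H.cX']
    have := H.big
    omega
  simp only [Finset.mem_compl, Finset.mem_union, not_or] at ha hb
  obtain ⟨i, hi⟩ : H.X.Nonempty := Finset.card_pos.1 (by rw [H.cX]; norm_num)
  obtain ⟨j, hj⟩ : H.X'.Nonempty := Finset.card_pos.1 (by rw [H.cX']; norm_num)
  by_cases hg : Good H ν a b i j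
  · exact core H ν h1 hab ha.1 ha.2 hb.1 hb.2 (good_all H ν h1 ha.1 ha.2 hb.1 hb.2 hi hj hg)
  have ia : i ≠ a := fun e => ha.1 (e ▸ hi)
  have ib : i ≠ b := fun e => hb.1 (e ▸ hi)
  have key : ∀ q : St H.X', q.1.1 = swap a i * swap a b →
      (cj H.X' (iff_of_false ha.2 hb.2) q).1.1 = swap b i * swap b a := by
    intro q hq
    rw [cj_val, hq, c3_conj, swap_apply_left, swap_apply_right, swap_apply_of_ne_of_ne ia ib]
  unfold Good at hg
  push Not at hg
  obtain ⟨qi, qj, e1, e2, hg⟩ := hg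
  rcases cross H ν hν h1 h2 hab ha.1 ha.2 hb.1 hb.2 hi hj qi _ qj e1 (key qi e1) e2 with (h | h) | ⟨hR, h⟩
  · exact absurd h (not_eq H ν h1 hν ha.1 hb.1 hi hj qi qj e1 e2)
  · exact absurd h hg
  have h1' : ∀ p : Alt α, ∀ (h : p ∈ St H.X) (h' : p ∈ St H.X'),
      ν.comp (cj H.X' (iff_of_false ha.2 hb.2)) ⟨p, h'⟩ = H.μ ⟨p, h⟩ := by
    intro p h h'
    rw [← h1 p h h']
    refine congrArg ν (ext3 ?_)
    rw [cj_val, mul_inv_eq_iff_eq_mul, mul_swap_eq_swap_mul]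
    have n : p.1 a ≠ p.1 b := fun e => hab (p.1.injective e)
    rcases hR (p.1 a) (fun e => ha.1 ((h a).1 e)) (fun e => ha.2 ((h' a).1 e)) with ea | ea <;>
      rcases hR (p.1 b) (fun e => hb.1 ((h b).1 e)) (fun e => hb.2 ((h' b).1 e)) with eb | eb
    · exact absurd (ea.trans eb.symm) n
    · rw [ea, eb]
    · rw [ea, eb, swap_comm]
    · exact absurd (ea.trans eb.symm) n
  have hν' : Function.Injective (ν.comp (cj H.X' (iff_of_false ha.2 hb.2))) := by
    refine hν.comp fun p q e => ext3 ?_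
    have := congrArg (fun q : St H.X' => q.1.1) e
    simpa [cj_val] using this
  refine core H _ h1' hab ha.1 ha.2 hb.1 hb.2 (good_all H _ h1' ha.1 ha.2 hb.1 hb.2 hi hj ?_)
  intro qi' qj' e1' e2'
  rw [ext3 (e1'.trans e1.symm), ext3 (e2'.trans e2.symm)]
  rcases h with h | h
  · exact absurd h (not_eq H _ h1' hν' ha.1 hb.1 hi hj qi qj e1 e2)
  · exact h

end Cfsg.Agent.WA.Al
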