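import Cfsg.Agent.WA.AlDef

/-! Permutation lemmas for module AlExt (S3218). -/

set_option autoImplicit false

namespace Cfsg.Agent.WA.Al.Ext

open Subgroup Equiv

variable {α : Type} [Fintype α] [DecidableEq α]

theorem four_aux : ∀ v : Perm (Fin 4), v * v = 1 → (∀ x, v x ≠ x) → ∀ p : Perm (Fin 4), p * v = v * p →
    (p * p * p = 1 → p = 1) ∧ (Perm.sign p = 1 → p = 1 ∨ (p * p = 1 ∧ ∀ x, p x ≠ x)) := by
  decide +kernel

theorem four {X : Finset α} (hX : X.card = 4) {p v : Perm α} (hp : ∀ x, p x ∈ X ↔ x ∈ X) (v2 : v * v = 1)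
    (vs : v.support = X) (hc : p * v = v * p) :
    (p * p * p = 1 → ∀ x ∈ X, p x = x) ∧
      (Perm.sign p = 1 → p.support ⊆ X → p = 1 ∨ (p * p = 1 ∧ p.support = X)) := by
  have hv : ∀ x, v x ∈ X ↔ x ∈ X := fun x => by rw [← vs]; exact Perm.apply_mem_support
  let e : {x // x ∈ X} ≃ Fin 4 := Finset.equivFinOfCardEq hX
  let φ : Perm {x // x ∈ X} ≃* Perm (Fin 4) := e.permCongrHom
  have h1 : φ (v.subtypePerm hv) * φ (v.subtypePerm hv) = 1 := by
    rw [← map_mul, ← map_one φ]
    congr 1
    ext x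
    exact congrArg (fun q : Perm α => q x) v2
  have h2 : ∀ x, φ (v.subtypePerm hv) x ≠ x := by
    intro x hx
    have : v (e.symm x) = e.symm x := by
      have := congrArg e.symm hx
      simpa [φ, Subtype.ext_iff] using this
    exact (Perm.mem_support.1 (vs ▸ (e.symm x).2)) this
  have h3 : φ (p.subtypePerm hp) * φ (v.subtypePerm hv) = φ (v.subtypePerm hv) * φ (p.subtypePerm hp) := by
    rw [← map_mul, ← map_mul]
    congr 1
    ext x
    exact congrArg (fun q : Perm α => q x) hc
  obtain ⟨k1, k2⟩ := four_aux _ h1 h2 _ h3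
  have one : φ (p.subtypePerm hp) = 1 → ∀ x ∈ X, p x = x := by
    intro h x hx
    rw [map_eq_one_iff φ φ.injective] at h
    exact congrArg Subtype.val (congrArg (fun q : Perm {x // x ∈ X} => q ⟨x, hx⟩) h)
  refine ⟨fun h => one (k1 ?_), fun hs hsup => ?_⟩
  · rw [← map_mul, ← map_mul, ← map_one φ]
    congr 1
    ext x
    exact congrArg (fun q : Perm α => q x) h
  · have hout : ∀ x, x ∉ X → p x = x := fun x hx => by
      by_contra h; exact hx (hsup (Perm.mem_support.2 h))
    have hs' : Perm.sign (φ (p.subtypePerm hp)) = 1 := by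
      show Perm.sign (e.permCongr _) = 1
      rw [Perm.sign_permCongr, ← hs]
      convert Perm.sign_subtypePerm p hp (fun x hx => hsup (Perm.mem_support.2 hx))
    rcases k2 hs' with h | ⟨h, h'⟩
    · left
      ext x
      by_cases hx : x ∈ X
      · exact one h x hx
      · exact hout x hx
    · right
      constructor
      · rw [← map_mul, map_eq_one_iff φ φ.injective] at h
        ext x
        by_cases hx : x ∈ X
        · exact congrArg Subtype.val (congrArg (fun q : Perm {x // x ∈ X} => q ⟨x, hx⟩) h)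
        · rw [Perm.mul_apply, hout x hx, hout x hx]; rfl
      · refine Finset.Subset.antisymm hsup fun x hx => Perm.mem_support.2 fun hpx => h' (e ⟨x, hx⟩) ?_
        simp [φ, hpx]

/-- the part outside `X`. -/
def out (X : Finset α) : St X →* Perm α := MonoidHom.mk'
  (fun p => Perm.ofSubtype (p.1.1.subtypePerm (p := fun x => x ∉ X) (fun x => not_congr (p.2 x))))
  (fun _ _ => by rw [← map_mul]; rfl)

theorem out_mem {X : Finset α} (p : St X) {x : α} (hx : x ∈ X) : out X p x = x :=
  Perm.ofSubtype_apply_of_not_mem _ (not_not.2 hx)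

theorem out_not {X : Finset α} (p : St X) {x : α} (hx : x ∉ X) : out X p x = p.1.1 x :=
  Perm.ofSubtype_apply_of_mem (p := fun x => x ∉ X) _ hx

theorem support_out {X : Finset α} (p : St X) : (out X p).support = p.1.1.support \ X := by
  ext x
  by_cases hx : x ∈ X
  · simp [out_mem p hx, hx]
  · simp [out_not p hx, hx]

theorem out_eq_one {X : Finset α} {p : St X} : out X p = 1 ↔ p.1.1.support ⊆ X := by
  rw [← Perm.support_eq_empty_iff, support_out, Finset.sdiff_eq_empty_iff_subset]

theorem out_eq_self {X : Finset α} {p : St X} (h : ∀ x ∈ X, p.1.1 x = x) : out X p = p.1.1 := by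
  ext x
  by_cases hx : x ∈ X
  · rw [out_mem p hx, h x hx]
  · rw [out_not p hx]

theorem out_swap {X : Finset α} (hX : X.card = 4) {p v : St X} (vs : v.1.1.support = X) (hc : p * v = v * p)
    (h1 : p.1.1.support.card = 4) (h2 : (p * v).1.1.support.card = 4) : out X p = 1 ∨ (out X p).IsSwap := by
  have hv : out X v = 1 := out_eq_one.2 vs.le
  have e1 : (p * v).1.1.support \ X = p.1.1.support \ X := by
    rw [← support_out, ← support_out, map_mul, hv, mul_one]
  have e2 : X ⊆ (p.1.1.support ∩ X) ∪ ((p * v).1.1.support ∩ X) := by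
    intro x hx
    rw [Finset.mem_union, Finset.mem_inter, Finset.mem_inter]
    by_cases h : p.1.1 x = x
    · right
      refine ⟨Perm.mem_support.2 ?_, hx⟩
      rw [hc]
      show v.1.1 (p.1.1 x) ≠ x
      rw [h]
      exact Perm.mem_support.1 (by rw [vs]; exact hx)
    · exact Or.inl ⟨Perm.mem_support.2 h, hx⟩
  have c1 := Finset.card_sdiff_add_card_inter p.1.1.support X
  have c2 := Finset.card_sdiff_add_card_inter (p * v).1.1.support X
  have c3 := (Finset.card_le_card e2).trans (Finset.card_union_le _ _)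
  have c4 := Perm.card_support_ne_one (out X p)
  rw [e1] at c2
  rw [← Perm.card_support_eq_two, ← Perm.card_support_eq_zero]
  rw [support_out] at c4 ⊢
  omega

theorem mem_St_of_supp {X : Finset α} {p : Alt α} (h : p.1.support ⊆ X ∨ Disjoint p.1.support X) : p ∈ St X := by
  intro x
  by_cases hx : p.1 x = x
  · rw [hx]
  · have h1 : x ∈ p.1.support := Perm.mem_support.2 hx
    have h2 : p.1 x ∈ p.1.support := Perm.apply_mem_support.2 h1
    rcases h with h | h
    · exact ⟨fun _ => h h1, fun _ => h h2⟩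
    · exact ⟨fun k => absurd k (Finset.disjoint_left.1 h h2), fun k => absurd k (Finset.disjoint_left.1 h h1)⟩

theorem swap_pres {X : Finset α} {a b : α} (h : a ∈ X ↔ b ∈ X) (x : α) : swap a b x ∈ X ↔ x ∈ X := by
  rw [swap_apply_def]
  split_ifs with h1 h2
  · rw [h1, h]
  · rw [h2, h]
  · rfl

theorem c3_supp {a b i : α} (hb : a ≠ b) (hi : a ≠ i) : (c3 a b i hb hi).1.support ⊆ {a, b, i} := by
  intro x hx
  have := Perm.support_mul_le _ _ hx
  rw [Perm.support_swap hi, Perm.support_swap hb] at this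
  simp only [Finset.sup_eq_union, Finset.mem_union, Finset.mem_insert, Finset.mem_singleton] at this ⊢
  tauto

theorem c3_cube {a b i : α} (hb : a ≠ b) (hi : a ≠ i) (hbi : b ≠ i) :
    (swap a i * swap a b) * (swap a i * swap a b) * (swap a i * swap a b) = 1 := by
  ext x
  simp only [Perm.mul_apply, swap_apply_def, Perm.one_apply]
  grind

theorem c3_sq {a b i j : α} (hb : a ≠ b) (hi : a ≠ i) (hbi : b ≠ i) (hj : a ≠ j) (hbj : b ≠ j) (hij : i ≠ j) :
    (swap a i * swap a b * (swap a j * swap a b)) * (swap a i * swap a b * (swap a j * swap a b)) = 1 := by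
  ext x
  simp only [Perm.mul_apply, swap_apply_def, Perm.one_apply]
  grind

theorem c3_conj (k : Perm α) (a b i : α) :
    k * (swap a i * swap a b) * k⁻¹ = swap (k a) (k i) * swap (k a) (k b) := by
  rw [swap_apply_apply, swap_apply_apply]; group

theorem swap_eq {a b c d : α} (hab : a ≠ b) (h : swap a b = swap c d) : (a = c ∧ b = d) ∨ (a = d ∧ b = c) := by
  have h1 := congrArg (fun q : Perm α => q a) h
  simp only [swap_apply_left, swap_apply_def] at h1
  grind

theorem card_supp2 {a b c d : α} (hab : a ≠ b) (hcd : c ≠ d) (hac : a ≠ c) (had : a ≠ d) (hbc : b ≠ c) (hbd : b ≠ d) :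
    (swap a b * swap c d).support.card = 4 := by
  have : Perm.Disjoint (swap a b) (swap c d) := by
    intro x
    simp only [swap_apply_def]
    grind
  rw [this.card_support_mul, Perm.card_support_swap hab, Perm.card_support_swap hcd]

theorem swap_comm2 {a b c d : α} (hac : a ≠ c) (had : a ≠ d) (hbc : b ≠ c) (hbd : b ≠ d) :
    swap a b * swap c d = swap c d * swap a b := by
  ext x
  simp only [Perm.mul_apply, swap_apply_def]
  grind

/-- the twisting factor. -/
def tw (τ : Perm α) (ε : ℤˣ) : Perm α := if ε = 1 then 1 else τ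

/-- `u ↦ u τ^{sgn u}`. -/
def Ex (Y : Finset α) {i j : α} (hij : i ≠ j) (hi : i ∉ Y) (hj : j ∉ Y) : Perm {x // x ∈ Y} →* Alt α :=
  MonoidHom.mk' (fun u => ⟨Perm.ofSubtype u * tw (swap i j) (Perm.sign u), by
    rw [Perm.mem_alternatingGroup, map_mul, Perm.sign_ofSubtype]
    rcases Int.units_eq_one_or (Perm.sign u) with h | h <;> simp [tw, h, Perm.sign_swap hij]⟩) (by
    intro u w
    have hc : ∀ u : Perm {x // x ∈ Y}, swap i j * Perm.ofSubtype u = Perm.ofSubtype u * swap i j := by
      intro u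
      refine (Perm.Disjoint.commute fun x => ?_).eq
      by_cases hx : x ∈ Y
      · left
        exact swap_apply_of_ne_of_ne (fun e => hi (e ▸ hx)) (fun e => hj (e ▸ hx))
      · right
        exact Perm.ofSubtype_apply_of_not_mem _ hx
    apply Subtype.ext
    show Perm.ofSubtype (u * w) * tw (swap i j) (Perm.sign (u * w)) =
      Perm.ofSubtype u * tw (swap i j) (Perm.sign u) * (Perm.ofSubtype w * tw (swap i j) (Perm.sign w))
    rw [map_mul, map_mul]
    rcases Int.units_eq_one_or (Perm.sign u) with h | h <;> rcases Int.units_eq_one_or (Perm.sign w) with h' | h' <;>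
      simp only [tw, h, h', mul_one, one_mul, neg_mul, neg_neg, if_true, if_neg (show ¬ (-1 : ℤˣ) = 1 by decide),
        mul_assoc]
    · rw [hc]
    · rw [← mul_assoc (swap i j), hc, mul_assoc, swap_mul_self, mul_one])

theorem Ex_val (Y : Finset α) {i j : α} (hij : i ≠ j) (hi : i ∉ Y) (hj : j ∉ Y) (u : Perm {x // x ∈ Y}) :
    (Ex Y hij hi hj u).1 = Perm.ofSubtype u * tw (swap i j) (Perm.sign u) := rfl

theorem Ex_even (Y : Finset α) {i j : α} (hij : i ≠ j) (hi : i ∉ Y) (hj : j ∉ Y) {u : Perm {x // x ∈ Y}}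
    (h : Perm.sign u = 1) : (Ex Y hij hi hj u).1 = Perm.ofSubtype u := by
  rw [Ex_val, h, tw, if_pos rfl, mul_one]

theorem Ex_swap (Y : Finset α) {i j : α} (hij : i ≠ j) (hi : i ∉ Y) (hj : j ∉ Y) {x y : {x // x ∈ Y}}
    (h : x ≠ y) : (Ex Y hij hi hj (swap x y)).1 = swap x.1 y.1 * swap i j := by
  rw [Ex_val, Perm.sign_swap h, tw, if_neg (by decide), Perm.ofSubtype_swap_eq]

theorem supp_ofSubtype (Y : Finset α) (u : Perm {x // x ∈ Y}) : (Perm.ofSubtype u).support ⊆ Y := by
  intro x hx
  obtain ⟨h, -⟩ := (Perm.mem_support_ofSubtype x u).1 hx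
  exact h

theorem Ex_supp (Y : Finset α) {i j : α} (hij : i ≠ j) (hi : i ∉ Y) (hj : j ∉ Y) (u : Perm {x // x ∈ Y}) :
    (Ex Y hij hi hj u).1.support ⊆ Y ∪ {i, j} := by
  rw [Ex_val]
  refine (Perm.support_mul_le _ _).trans (Finset.union_subset_union (supp_ofSubtype Y u) ?_)
  unfold tw
  split_ifs
  · simp
  · rw [Perm.support_swap hij]

theorem Ex_comm (Y : Finset α) {i j k l : α} (hij : i ≠ j) (hi : i ∉ Y) (hj : j ∉ Y) (hk : k ∉ Y) (hl : l ∉ Y)
    (hik : i ≠ k) (hil : i ≠ l) (hjk : j ≠ k) (hjl : j ≠ l) (u : Perm {x // x ∈ Y}) :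
    Commute (Ex Y hij hi hj u).1 (swap i j * swap k l) := by
  have hc : ∀ a b : α, a ∉ Y → b ∉ Y → Commute (Perm.ofSubtype u) (swap a b) := by
    intro a b ha hb
    refine Perm.Disjoint.commute fun x => ?_
    by_cases hx : x ∈ Y
    · right
      exact swap_apply_of_ne_of_ne (fun e => ha (e ▸ hx)) (fun e => hb (e ▸ hx))
    · left
      exact Perm.ofSubtype_apply_of_not_mem _ hx
  rw [Ex_val]
  refine Commute.mul_left ((hc i j hi hj).mul_right (hc k l hk hl)) ?_
  unfold tw
  split_ifs
  · exact Commute.one_left _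
  · exact (Commute.refl _).mul_right (swap_comm2 hik hil hjk hjl)

end Cfsg.Agent.WA.Al.Ext
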