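import Cfsg.Agent.WA.AlExt0
import Cfsg.Agent.WA.AlPres

/-! Labels on the centralizer of a double transposition (module AlExt, S3218). -/

set_option autoImplicit false

namespace Cfsg.Agent.WA.Al.Ext

open Subgroup Equiv

universe u

variable {G : Type u} [Group G] {α : Type} [Fintype α] [DecidableEq α]

theorem exists_lab (H : HM G α) {v : St H.X} (v2 : v * v = 1) (vs : v.1.1.support = H.X) {g y : G}
    (hy : Commute y (g * H.μ v * g⁻¹)) : ∃ p : St H.X, y = g * H.μ p * g⁻¹ ∧ p * v = v * p := by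
  have h1 : g⁻¹ * y * g * H.μ v = H.μ v * (g⁻¹ * y * g) := by
    calc _ = g⁻¹ * (y * (g * H.μ v * g⁻¹)) * g := by group
      _ = _ := by rw [hy.eq]; group
  obtain ⟨p, hp⟩ := H.h2 v v2 vs (mem_centralizer_singleton_iff.2 h1)
  refine ⟨p, by rw [hp]; group, H.inj ?_⟩
  rw [map_mul, map_mul, hp, h1]

theorem val_mul {D : Subgroup (Alt α)} (p q : D) : (p * q).1.1 = p.1.1 * q.1.1 := rfl

theorem ext3 {D : Subgroup (Alt α)} {p q : D} (h : p.1.1 = q.1.1) : p = q := Subtype.ext (Subtype.ext h)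

theorem rho_lab (H : HM G α) {D : Subgroup (Alt α)} (θ : D →* G) (hθ : Function.Injective θ)
    (hw : ∀ (q : D) (v : St H.X), q * q = 1 → v * v = 1 → v.1.1.support.card = 4 →
      (IsConj (H.μ v) (θ q) ↔ q.1.1.support.card = 4))
    {v : St H.X} (v2 : v * v = 1) (vs : v.1.1.support = H.X) {g : G} (Y : Finset α) (hY : 3 ≤ Y.card)
    {i j k l : α} (hij : i ≠ j) (hkl : k ≠ l) (hi : i ∉ Y) (hj : j ∉ Y) (hk : k ∉ Y) (hl : l ∉ Y)
    (hik : i ≠ k) (hil : i ≠ l) (hjk : j ≠ k) (hjl : j ≠ l)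
    (d : D) (hd : d.1.1 = swap i j * swap k l) (hg : θ d = g * H.μ v * g⁻¹)
    (hD : ∀ p : Alt α, p.1.support ⊆ Y ∪ {i, j} → p ∈ D) :
    ∃ ι : {x // x ∈ Y} ↪ α,
      (∀ x y : {x // x ∈ Y}, x ≠ y → ∀ (q : D) (p : St H.X), q.1.1 = swap x.1 y.1 * swap i j →
        θ q = g * H.μ p * g⁻¹ → out H.X p = swap (ι x) (ι y)) ∧
      ∀ x y w : {x // x ∈ Y}, x ≠ y → x ≠ w → y ≠ w → ∀ q : D, q.1.1 = swap x.1 w.1 * swap x.1 y.1 →
        ∃ p : St H.X, θ q = g * H.μ p * g⁻¹ ∧ p.1.1 = swap (ι x) (ι w) * swap (ι x) (ι y) := by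
  let E : Perm {x // x ∈ Y} →* D := (Ex Y hij hi hj).codRestrict D (fun u => hD _ (Ex_supp Y hij hi hj u))
  have Ev : ∀ u, (E u).1.1 = (Ex Y hij hi hj u).1 := fun _ => rfl
  have Ec : ∀ u, Commute (E u) d := fun u =>
    ext3 (by rw [val_mul, val_mul, Ev, hd]; exact (Ex_comm Y hij hi hj hk hl hik hil hjk hjl u).eq)
  have ex : ∀ u, ∃ p : St H.X, θ (E u) = g * H.μ p * g⁻¹ ∧ p * v = v * p := fun u =>
    exists_lab H v2 vs (by rw [← hg]; exact (Ec u).map θ)
  choose lab hlab hcv using ex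
  have uniq : ∀ p p' : St H.X, g * H.μ p * g⁻¹ = g * H.μ p' * g⁻¹ → p = p' := fun p p' h =>
    H.inj (by simpa using h)
  have rmul : ∀ {q q' : D} {p p' : St H.X}, θ q = g * H.μ p * g⁻¹ → θ q' = g * H.μ p' * g⁻¹ →
      θ (q * q') = g * H.μ (p * p') * g⁻¹ := by
    intro q q' p p' h h'
    rw [map_mul, map_mul, h, h']; group
  have one1 : ∀ {q : D} {p : St H.X}, θ q = g * H.μ p * g⁻¹ → (q = 1 ↔ p = 1) := by
    intro q p h
    constructor
    · rintro rfl
      exact uniq _ _ (by rw [← h]; simp)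
    · rintro rfl
      exact hθ (by rw [h]; simp)
  let L : Perm {x // x ∈ Y} →* St H.X := MonoidHom.mk' lab (fun u w =>
    uniq _ _ (by rw [← hlab, map_mul, rmul (hlab u) (hlab w)]))
  have vc : v.1.1.support.card = 4 := by rw [vs, H.cX]
  have w1 : ∀ {q : D} {p : St H.X}, θ q = g * H.μ p * g⁻¹ → p * p = 1 → p.1.1.support.card = 4 →
      q.1.1.support.card = 4 := by
    intro q p h p2 pc
    exact (hw q p ((one1 (rmul h h)).2 p2) p2 pc).1 (isConj_iff.2 ⟨g, h.symm⟩)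
  have w2 : ∀ {q : D} {p : St H.X}, θ q = g * H.μ p * g⁻¹ → q * q = 1 → q.1.1.support.card = 4 →
      p.1.1.support.card = 4 := by
    intro q p h q2 qc
    rw [← vc]
    exact (H.h3 v p v2 ((one1 (rmul h h)).1 q2)
      (((hw q v q2 v2 vc).2 qc).trans (isConj_iff.2 ⟨g, h.symm⟩).symm)).symm
  have sg : ∀ p : St H.X, Perm.sign p.1.1 = 1 := fun p => Perm.mem_alternatingGroup.1 p.1.2
  have v2' : v.1.1 * v.1.1 = 1 := congrArg (fun p : St H.X => p.1.1) v2
  have F4 : ∀ p : St H.X, p * v = v * p → out H.X p = 1 → p = 1 ∨ (p * p = 1 ∧ p.1.1.support.card = 4) := by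
    intro p hc ho
    rcases (four H.cX p.2 v2' vs (congrArg (fun p : St H.X => p.1.1) hc)).2 (sg p) (out_eq_one.1 ho) with h | h
    · exact Or.inl (ext3 h)
    · exact Or.inr ⟨ext3 h.1, by rw [h.2, H.cX]⟩
  have dc : d.1.1.support.card = 4 := by rw [hd]; exact card_supp2 hij hkl hik hil hjk hjl
  have ker0 : ∀ u, Perm.sign u = 1 → out H.X (L u) = 1 → u = 1 := by
    intro u hs ho
    rcases F4 _ (hcv u) ho with h | ⟨h, hc⟩
    · have := congrArg (fun q : D => q.1.1) ((one1 (hlab u)).2 h)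
      simp only [Ev, Ex_even Y hij hi hj hs] at this
      exact Perm.ofSubtype_injective (this.trans (map_one _).symm)
    · exfalso
      have c1 := w1 (hlab u) h hc
      have dis : Perm.Disjoint (E u).1.1 d.1.1 := by
        intro x
        by_cases hx : x ∈ Y
        · right
          have n : ∀ c, c ∉ Y → x ≠ c := fun c hc e => hc (e ▸ hx)
          rw [hd, Perm.mul_apply, swap_apply_of_ne_of_ne (n k hk) (n l hl),
            swap_apply_of_ne_of_ne (n i hi) (n j hj)]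
        · left
          rw [Ev, Ex_even Y hij hi hj hs]
          exact Perm.ofSubtype_apply_of_not_mem _ hx
      have c2 : (E u * d).1.1.support.card = 8 := by rw [val_mul, dis.card_support_mul, c1, dc]
      have r := rmul (hlab u) hg
      rcases F4 (lab u * v) (by rw [← mul_assoc v, ← hcv])
        (by rw [map_mul, out_eq_one.2 vs.le, mul_one]; exact ho) with h' | ⟨h', hc'⟩
      · rw [(one1 r).2 h'] at c2
        simp at c2
      · have := w1 r h' hc'
        omega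
  have inj : Function.Injective ((out H.X).comp L) := by
    rw [injective_iff_map_eq_one]
    intro u hu
    by_contra hne
    have cen : ∀ c, c * u * c⁻¹ * u⁻¹ = 1 := by
      intro c
      refine ker0 _ (by
        rw [map_mul, map_mul, map_mul, map_inv, map_inv, mul_right_comm (Perm.sign c)]; simp) ?_
      have : ((out H.X).comp L) (c * u * c⁻¹ * u⁻¹) = 1 := by
        rw [map_mul, map_mul, map_mul, map_inv, map_inv, hu]; simp
      exact this
    obtain ⟨x, hx⟩ : ∃ x, u x ≠ x := by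
      by_contra h
      push Not at h
      exact hne (Equiv.ext h)
    obtain ⟨w, hw1, hw2⟩ : ∃ w : {x // x ∈ Y}, w ≠ x ∧ w ≠ u x := by
      by_contra h
      push Not at h
      have h1 : (Finset.univ : Finset {x // x ∈ Y}) ⊆ {x, u x} := by
        intro w _
        by_cases e : w = x
        · simp [e]
        · simp [h w e]
      have h2 := (Finset.card_le_card h1).trans Finset.card_le_two
      rw [Finset.card_univ, Fintype.card_coe] at h2
      omega
    have h1 : swap (u x) w * u = u * swap (u x) w := by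
      have := cen (swap (u x) w)
      rwa [mul_inv_eq_one, mul_inv_eq_iff_eq_mul] at this
    have h2 := congrArg (fun q : Perm {x // x ∈ Y} => q x) h1
    simp only [Perm.mul_apply, swap_apply_left] at h2
    rw [swap_apply_of_ne_of_ne hx.symm hw1.symm] at h2
    exact hw2 h2
  have sw : ∀ x y : {x // x ∈ Y}, x ≠ y → (((out H.X).comp L) (swap x y)).IsSwap := by
    intro x y hxy
    have hxy' : x.1 ≠ y.1 := fun e => hxy (Subtype.ext e)
    have n : ∀ (x : {x // x ∈ Y}) (c : α), c ∉ Y → x.1 ≠ c := fun x c hc e => hc (e ▸ x.2)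
    have q2 : E (swap x y) * E (swap x y) = 1 := by rw [← map_mul, swap_mul_self, map_one]
    have d2 : d * d = 1 := (one1 (rmul hg hg)).2 v2
    have c1 := w2 (hlab (swap x y)) q2 (by
      rw [Ev, Ex_swap Y hij hi hj hxy]
      exact card_supp2 hxy' hij (n x i hi) (n x j hj) (n y i hi) (n y j hj))
    have c2 := w2 (rmul (hlab (swap x y)) hg) (by rw [(Ec _).symm.mul_mul_mul_comm, q2, d2, mul_one]) (by
      rw [val_mul, Ev, Ex_swap Y hij hi hj hxy, hd, mul_assoc, ← mul_assoc (swap i j), swap_mul_self, one_mul]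
      exact card_supp2 hxy' hkl (n x k hk) (n x l hl) (n y k hk) (n y l hl))
    rcases out_swap H.cX vs (hcv _) c1 c2 with h | h
    · exact absurd (inj (h.trans (map_one _).symm)) (fun e => hxy (swap_eq_one_iff.1 e))
    · exact h
  obtain ⟨ι, hι⟩ := labs (by rw [Fintype.card_coe]; omega) _ inj sw
  refine ⟨ι, fun x y hxy q p hq hp => ?_, fun x y w hxy hxw hyw q hq => ?_⟩
  · have e1 : q = E (swap x y) := ext3 (by rw [hq, Ev, Ex_swap Y hij hi hj hxy])
    have e2 : p = lab (swap x y) := uniq _ _ (by rw [← hp, e1, hlab])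
    rw [e2, ← hι x y hxy]
    rfl
  · have e1 : q = E (swap x w * swap x y) := ext3 (by
      rw [hq, Ev, Ex_even Y hij hi hj (by rw [map_mul, Perm.sign_swap hxw, Perm.sign_swap hxy]; decide), map_mul,
        Perm.ofSubtype_swap_eq, Perm.ofSubtype_swap_eq])
    refine ⟨lab (swap x w * swap x y), by rw [e1, hlab], ?_⟩
    have h3 : L (swap x w * swap x y) * L (swap x w * swap x y) * L (swap x w * swap x y) = 1 := by
      rw [← map_mul, ← map_mul, ← map_one L]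
      congr 1
      ext t
      simp only [Perm.mul_apply, swap_apply_def, Perm.one_apply]
      grind
    have h4 := (four H.cX (lab (swap x w * swap x y)).2 v2' vs
      (congrArg (fun p : St H.X => p.1.1) (hcv _))).1 (congrArg (fun p : St H.X => p.1.1) h3)
    rw [← out_eq_self h4, ← hι x w hxw, ← hι x y hxy, ← map_mul]
    rfl

theorem four_pts {X : Finset α} (hX : X.card = 4) {i : α} (hi : i ∈ X) :
    ∃ x y z, x ∈ X ∧ y ∈ X ∧ z ∈ X ∧ i ≠ x ∧ i ≠ y ∧ i ≠ z ∧ x ≠ y ∧ x ≠ z ∧ y ≠ z := by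
  obtain ⟨x, y, z, h1, h2, h3, h⟩ := Finset.card_eq_three.1 (show (X.erase i).card = 3 by
    rw [Finset.card_erase_of_mem hi, hX])
  have m : ∀ t ∈ ({x, y, z} : Finset α), t ≠ i ∧ t ∈ X := fun t ht => Finset.mem_erase.1 (h ▸ ht)
  exact ⟨x, y, z, (m x (by simp)).2, (m y (by simp)).2, (m z (by simp)).2, (m x (by simp)).1.symm,
    (m y (by simp)).1.symm, (m z (by simp)).1.symm, h1, h2, h3⟩

/-- a product of two transpositions. -/
def s2 {a b c d : α} (hab : a ≠ b) (hcd : c ≠ d) : Alt α :=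
  ⟨swap a b * swap c d, by rw [Perm.mem_alternatingGroup, map_mul, Perm.sign_swap hab, Perm.sign_swap hcd]; decide⟩

theorem s2_mem {X : Finset α} {a b c d : α} (hab : a ≠ b) (hcd : c ≠ d) (h1 : a ∈ X ↔ b ∈ X) (h2 : c ∈ X ↔ d ∈ X) :
    s2 hab hcd ∈ St X := fun x => (swap_pres h1 _).trans (swap_pres h2 x)

theorem fin (H : HM G α) {g y1 y2 : G} {p1 p2 : St H.X} {a b c d : α} (e1 : y1 = g * H.μ p1 * g⁻¹)
    (e2 : y2 = g * H.μ p2 * g⁻¹) (h1 : p1.1.1 = swap a c * swap a b) (h2 : p2.1.1 = swap a d * swap a b)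
    (hab : a ≠ b) (hac : a ≠ c) (hbc : b ≠ c) (had : a ≠ d) (hbd : b ≠ d) : y1 = y2 ∨ (y1 * y2) ^ 2 = 1 := by
  by_cases hcd : c = d
  · left
    rw [e1, e2, ext3 (show p1.1.1 = p2.1.1 by rw [h1, h2, hcd])]
  · right
    have : p1 * p2 * (p1 * p2) = 1 := ext3 (by
      rw [val_mul, val_mul, h1, h2]; exact c3_sq hab hac hbc had hbd hcd)
    calc (y1 * y2) ^ 2 = g * H.μ (p1 * p2 * (p1 * p2)) * g⁻¹ := by
          rw [e1, e2, map_mul, map_mul, pow_two]; group
      _ = 1 := by rw [this]; simp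

theorem cross (H : HM G α) (ν : St H.X' →* G) (hν : Function.Injective ν)
    (h1 : ∀ p : Alt α, ∀ (h : p ∈ St H.X) (h' : p ∈ St H.X'), ν ⟨p, h'⟩ = H.μ ⟨p, h⟩)
    (h2 : ∀ (q : St H.X') (v : St H.X), q * q = 1 → v * v = 1 → v.1.1.support.card = 4 →
      (IsConj (H.μ v) (ν q) ↔ q.1.1.support.card = 4))
    {a b i j : α} (hab : a ≠ b) (ha : a ∉ H.X) (ha' : a ∉ H.X') (hb : b ∉ H.X) (hb' : b ∉ H.X') (hi : i ∈ H.X)
    (hj : j ∈ H.X') (qi qi' : St H.X') (qj : St H.X) (hqi : qi.1.1 = swap a i * swap a b)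
    (hqi' : qi'.1.1 = swap b i * swap b a) (hqj : qj.1.1 = swap a j * swap a b) :
    (ν qi = H.μ qj ∨ (ν qi * H.μ qj) ^ 2 = 1) ∨
      ((∀ c, c ∉ H.X → c ∉ H.X' → c = a ∨ c = b) ∧ (ν qi' = H.μ qj ∨ (ν qi' * H.μ qj) ^ 2 = 1)) := by
  obtain ⟨i0, i1, i2, m0, m1, m2, n0, n1, n2, n01, n02, n12⟩ := four_pts H.cX hi
  obtain ⟨-, j1, j2, -, k1, k2, -, o1, o2, -, -, o12⟩ := four_pts H.cX' hj
  have dX : ∀ {x}, x ∈ H.X → x ∉ H.X' := fun hx => Finset.disjoint_left.1 H.dis hx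
  have dX' : ∀ {x}, x ∈ H.X' → x ∉ H.X := fun hx => Finset.disjoint_right.1 H.dis hx
  have ne : ∀ {x y}, x ∈ H.X → y ∈ H.X' → x ≠ y := fun hx hy e => dX hx (e ▸ hy)
  let v : St H.X := ⟨s2 n0 n12, s2_mem _ _ (iff_of_true hi m0) (iff_of_true m1 m2)⟩
  have v2 : v * v = 1 := ext3 (by
    show swap i i0 * swap i1 i2 * (swap i i0 * swap i1 i2) = 1
    rw [(show Commute _ _ from swap_comm2 n1 n2 n01 n02).symm.mul_mul_mul_comm, swap_mul_self, swap_mul_self,
      mul_one])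
  have vc : v.1.1.support.card = 4 := card_supp2 n0 n12 n1 n2 n01 n02
  have vs : v.1.1.support = H.X := by
    refine Finset.eq_of_subset_of_card_le (fun x hx => ?_) (by rw [vc, H.cX])
    have := Perm.support_mul_le _ _ hx
    rw [Perm.support_swap n0, Perm.support_swap n12] at this
    simp only [Finset.sup_eq_union, Finset.mem_union, Finset.mem_insert, Finset.mem_singleton] at this
    rcases this with (rfl | rfl) | (rfl | rfl) <;> assumption
  have dm : s2 n12 o12 ∈ St H.X := s2_mem _ _ (iff_of_true m1 m2) (iff_of_false (dX' k1) (dX' k2))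
  have dm' : s2 n12 o12 ∈ St H.X' := s2_mem _ _ (iff_of_false (dX m1) (dX m2)) (iff_of_true k1 k2)
  have dcm : swap i1 i2 * swap j1 j2 = swap j1 j2 * swap i1 i2 :=
    swap_comm2 (ne m1 k1) (ne m1 k2) (ne m2 k1) (ne m2 k2)
  have d2 : (⟨s2 n12 o12, dm⟩ : St H.X) * ⟨s2 n12 o12, dm⟩ = 1 := ext3 (by
    show swap i1 i2 * swap j1 j2 * (swap i1 i2 * swap j1 j2) = 1
    rw [(show Commute _ _ from dcm).symm.mul_mul_mul_comm, swap_mul_self, swap_mul_self, mul_one])
  obtain ⟨g, hg⟩ := isConj_iff.1 (H.h3' v ⟨_, dm⟩ v2 d2 vc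
    (card_supp2 n12 o12 (ne m1 k1) (ne m1 k2) (ne m2 k1) (ne m2 k2)))
  let R : Finset α := Finset.univ.filter fun x => x ∉ H.X ∧ x ∉ H.X'
  have mR : ∀ {x}, x ∈ R ↔ x ∉ H.X ∧ x ∉ H.X' := by simp [R]
  have card3 : ∀ t, t ≠ a → t ≠ b → 3 ≤ (insert t R).card := by
    intro t h1 h2
    have : ({t, a, b} : Finset α) ⊆ insert t R := by
      intro x hx
      simp only [Finset.mem_insert, Finset.mem_singleton] at hx
      rcases hx with rfl | rfl | rfl
      · exact Finset.mem_insert_self _ _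
      · exact Finset.mem_insert_of_mem (mR.2 ⟨ha, ha'⟩)
      · exact Finset.mem_insert_of_mem (mR.2 ⟨hb, hb'⟩)
    exact (Finset.card_eq_three.2 ⟨t, a, b, h1, h2, hab, rfl⟩).ge.trans (Finset.card_le_card this)
  have nm : ∀ {t x}, t ≠ x → (x ∈ H.X ∨ x ∈ H.X') → x ∉ insert t R := by
    intro t x h hx hm
    rcases Finset.mem_insert.1 hm with e | e
    · exact h e.symm
    · exact hx.elim (mR.1 e).1 (mR.1 e).2
  have ia : i ≠ a := fun e => ha (e ▸ hi)
  have ib : i ≠ b := fun e => hb (e ▸ hi)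
  have ja : j ≠ a := fun e => ha' (e ▸ hj)
  have jb : j ≠ b := fun e => hb' (e ▸ hj)
  obtain ⟨ι, s1, t1⟩ := rho_lab H ν hν h2 v2 vs (g := g) (insert i R) (card3 i ia ib) n12 o12 (nm n1 (Or.inl m1))
    (nm n2 (Or.inl m2)) (nm (ne hi k1) (Or.inr k1)) (nm (ne hi k2) (Or.inr k2)) (ne m1 k1) (ne m1 k2) (ne m2 k1)
    (ne m2 k2) ⟨_, dm'⟩ rfl (by rw [h1 _ dm dm', hg]) (fun p hp => mem_St_of_supp (Or.inr (by
      rw [Finset.disjoint_left]
      intro x hx hx'
      have := hp hx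
      simp only [Finset.mem_union, Finset.mem_insert, Finset.mem_singleton] at this
      rcases this with (rfl | h) | (rfl | rfl)
      · exact dX hi hx'
      · exact (mR.1 h).2 hx'
      · exact dX m1 hx'
      · exact dX m2 hx')))
  obtain ⟨κ, s2', t2⟩ := rho_lab H H.μ H.inj
    (fun q v q2 v2 vc => ⟨fun h => (H.h3 v q v2 q2 h).symm.trans vc, fun h => H.h3' v q v2 q2 vc h⟩)
    v2 vs (g := g) (insert j R) (card3 j ja jb) o12 n12 (nm o1 (Or.inr k1))
    (nm o2 (Or.inr k2)) (nm (ne m1 hj).symm (Or.inl m1)) (nm (ne m2 hj).symm (Or.inl m2)) (ne m1 k1).symm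
    (ne m2 k1).symm (ne m1 k2).symm (ne m2 k2).symm ⟨_, dm⟩ dcm hg.symm (fun p hp => mem_St_of_supp (Or.inr (by
      rw [Finset.disjoint_left]
      intro x hx hx'
      have := hp hx
      simp only [Finset.mem_union, Finset.mem_insert, Finset.mem_singleton] at this
      rcases this with (rfl | h) | (rfl | rfl)
      · exact dX' hj hx'
      · exact (mR.1 h).1 hx'
      · exact dX' k1 hx'
      · exact dX' k2 hx')))
  have agree : ∀ x (hx : x ∈ R) y (hy : y ∈ R), x ≠ y →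
      swap (ι ⟨x, Finset.mem_insert_of_mem hx⟩) (ι ⟨y, Finset.mem_insert_of_mem hy⟩) =
        swap (κ ⟨x, Finset.mem_insert_of_mem hx⟩) (κ ⟨y, Finset.mem_insert_of_mem hy⟩) := by
    intro x hx y hy hxy
    obtain ⟨x1, x2⟩ := mR.1 hx
    obtain ⟨y1, y2⟩ := mR.1 hy
    have qm : s2 hxy n12 ∈ St H.X := s2_mem _ _ (iff_of_false x1 y1) (iff_of_true m1 m2)
    have qm' : s2 hxy n12 ∈ St H.X' := s2_mem _ _ (iff_of_false x2 y2) (iff_of_false (dX m1) (dX m2))
    have f1 : ∀ {t c}, t ∉ H.X → c ∈ H.X → t ≠ c := fun h h' e => h (e ▸ h')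
    have f2 : ∀ {t c}, t ∉ H.X' → c ∈ H.X' → t ≠ c := fun h h' e => h (e ▸ h')
    have cm : Commute (⟨s2 hxy n12, qm⟩ : St H.X) ⟨s2 n12 o12, dm⟩ := ext3 (Commute.mul_left
      (Commute.mul_right (swap_comm2 (f1 x1 m1) (f1 x1 m2) (f1 y1 m1) (f1 y1 m2))
        (swap_comm2 (f2 x2 k1) (f2 x2 k2) (f2 y2 k1) (f2 y2 k2))) ((Commute.refl _).mul_right dcm)).eq
    obtain ⟨p, hp, -⟩ := exists_lab H v2 vs (g := g) (y := H.μ ⟨_, qm⟩) (by rw [hg]; exact cm.map H.μ)
    have e1 := s1 ⟨x, Finset.mem_insert_of_mem hx⟩ ⟨y, Finset.mem_insert_of_mem hy⟩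
      (fun e => hxy (congrArg Subtype.val e)) ⟨_, qm'⟩ p rfl (by rw [h1 _ qm qm', hp])
    have e2 := s2' ⟨x, Finset.mem_insert_of_mem hx⟩ ⟨y, Finset.mem_insert_of_mem hy⟩
      (fun e => hxy (congrArg Subtype.val e)) (⟨_, qm⟩ * ⟨_, dm⟩) (p * v) (by
        show swap x y * swap i1 i2 * (swap i1 i2 * swap j1 j2) = _
        rw [mul_assoc, ← mul_assoc (swap i1 i2), swap_mul_self, one_mul])
      (by rw [map_mul, map_mul, hp, ← hg]; group)
    rw [← e1, ← e2, map_mul, out_eq_one.2 vs.le, mul_one]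
  have aR : a ∈ R := mR.2 ⟨ha, ha'⟩
  have bR : b ∈ R := mR.2 ⟨hb, hb'⟩
  have sne : ∀ {Y : Finset α} (e : {x // x ∈ Y} ↪ α) {x y : α} (hx : x ∈ Y) (hy : y ∈ Y), x ≠ y →
      e ⟨x, hx⟩ ≠ e ⟨y, hy⟩ := fun e _ _ _ _ h h' => h (congrArg Subtype.val (e.injective h'))
  have vne : ∀ {Y : Finset α} {x y : α} (hx : x ∈ Y) (hy : y ∈ Y), x ≠ y →
      (⟨x, hx⟩ : {x // x ∈ Y}) ≠ ⟨y, hy⟩ := fun _ _ h h' => h (congrArg Subtype.val h')
  obtain ⟨p2, e2, f2⟩ := t2 ⟨a, Finset.mem_insert_of_mem aR⟩ ⟨b, Finset.mem_insert_of_mem bR⟩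
    ⟨j, Finset.mem_insert_self _ _⟩ (vne _ _ hab) (vne _ _ ja.symm) (vne _ _ jb.symm) qj hqj
  rcases swap_eq (sne ι _ _ hab) (agree a aR b bR hab) with ⟨ea, eb⟩ | ⟨ea, eb⟩
  · left
    obtain ⟨p1, e1, f1⟩ := t1 ⟨a, Finset.mem_insert_of_mem aR⟩ ⟨b, Finset.mem_insert_of_mem bR⟩
      ⟨i, Finset.mem_insert_self _ _⟩ (vne _ _ hab) (vne _ _ ia.symm) (vne _ _ ib.symm) qi hqi
    rw [← ea, ← eb] at f2
    exact fin H e1 e2 f1 f2 (sne ι _ _ hab) (sne ι _ _ ia.symm) (sne ι _ _ ib.symm)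
      (by rw [ea]; exact sne κ _ _ ja.symm) (by rw [eb]; exact sne κ _ _ jb.symm)
  · right
    constructor
    · intro c hc hc'
      by_contra hn
      push Not at hn
      have cR : c ∈ R := mR.2 ⟨hc, hc'⟩
      rcases swap_eq (sne ι _ _ hn.1.symm) (agree a aR c cR hn.1.symm) with ⟨e, -⟩ | ⟨e, -⟩
      · exact sne κ _ _ hab (e.symm.trans ea)
      · exact sne κ _ _ hn.2 (e.symm.trans ea)
    · obtain ⟨p1, e1, f1⟩ := t1 ⟨b, Finset.mem_insert_of_mem bR⟩ ⟨a, Finset.mem_insert_of_mem aR⟩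
        ⟨i, Finset.mem_insert_self _ _⟩ (vne _ _ hab.symm) (vne _ _ ib.symm) (vne _ _ ia.symm) qi' hqi'
      rw [← ea, ← eb] at f2
      exact fin H e1 e2 f1 f2 (sne ι _ _ hab.symm) (sne ι _ _ ib.symm) (sne ι _ _ ia.symm)
        (by rw [eb]; exact sne κ _ _ ja.symm) (by rw [ea]; exact sne κ _ _ jb.symm)

end Cfsg.Agent.WA.Al.Ext
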