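import Cfsg.Agent.WA.AlJA0

/-! S3218, module AlJA: the group `J`. -/

set_option autoImplicit false
set_option linter.unusedSectionVars false

namespace Cfsg.Agent.WA.Al

open Subgroup Equiv JA

universe u

variable {G : Type u} [Group G] [Finite G] {B : Type} [Fintype B] [DecidableEq B] {s : ℕ}

theorem JF.mem_Z (F : JF G B) {g : G} : g ∈ F.Z ↔ ∃ P, g = F.yP P := by
  rw [memZ]
  exact ⟨fun ⟨m, hm, e⟩ => ⟨_, e.symm.trans ((congrArg _ (eq_ym hm)).trans (ps_ym F _))⟩, fun ⟨P, e⟩ => ⟨_, ym_ce P, by rw [ps_ym, e]⟩⟩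

theorem JF.yP_mul (F : JF G B) (P Q : Finset B) : F.yP P * F.yP Q = F.yP (symmDiff P Q) := by
  rw [← ps_ym, ← ps_ym, ← ps_ym, ← map_mul]
  congr 1
  funext b
  simp only [Pi.mul_apply, ym, JA.ind, Finset.mem_symmDiff]
  by_cases h1 : b ∈ P <;> by_cases h2 : b ∈ Q <;> simp [h1, h2]
  decide

theorem JF.A_uniq (F : JF G B) (I : B → Bool) {P Q P' Q' : Finset B} (h : F.yP P * F.hP I Q = F.yP P' * F.hP I Q') :
    P = P' ∧ Q = Q' := by
  rw [← ps_ym, ← ps_ym, ← ps_hm, ← ps_hm, ← map_mul, ← map_mul, ps_eq] at h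
  have key : ∀ (t : Bool) (p q p' q' : Prop) [Decidable p] [Decidable q] [Decidable p'] [Decidable q'],
      (if p then D.y else 1) * (if q then D.h t else 1) = (if p' then D.y else 1) * (if q' then D.h t else 1) →
      (p ↔ p') ∧ (q ↔ q') := by
    intro t p q p' q' _ _ _ _
    by_cases p <;> by_cases q <;> by_cases p' <;> by_cases q' <;> simp only [*, if_true, if_false] <;> revert t <;>
      decide
  exact ⟨Finset.ext fun b => (key _ _ _ _ _ (congrFun h b)).1, Finset.ext fun b => (key _ _ _ _ _ (congrFun h b)).2⟩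

theorem JF.yP_inj (F : JF G B) : Function.Injective F.yP := fun P Q h =>
  (F.A_uniq (fun _ => true) (Q := ∅) (Q' := ∅) (by rw [h])).1

theorem JF.yP_empty (F : JF G B) : F.yP ∅ = 1 := Finset.noncommProd_empty _ _

theorem JF.yP_single (F : JF G B) (b : B) : F.yP {b} = F.y b := Finset.noncommProd_singleton _ _

theorem JF.yP_insert (F : JF G B) {b : B} {P : Finset B} (h : b ∉ P) : F.yP (insert b P) = F.y b * F.yP P :=
  Finset.noncommProd_insert_of_notMem _ _ _ _ h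

theorem JF.yP_comm (F : JF G B) (P : Finset B) {g : G} (hg : g ∈ F.J) : g * F.yP P = F.yP P * g := by
  obtain ⟨m, rfl⟩ := (mem_J F).mp hg
  rw [← ps_ym, ← map_mul, ← map_mul]
  congr 1
  funext b
  exact (by decide : ∀ d d' : D, d'.Ce → d * d' = d' * d) _ _ (ym_ce P b)

theorem JF.yP_conj (F : JF G B) {g : G} (π : Perm B) (h : ∀ b, g * F.y b * g⁻¹ = F.y (π b)) (P : Finset B) :
    g * F.yP P * g⁻¹ = F.yP (P.map π.toEmbedding) := by
  induction P using Finset.induction_on with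
  | empty => rw [Finset.map_empty, F.yP_empty]; group
  | insert b P hb ih =>
    rw [Finset.map_insert, F.yP_insert hb, F.yP_insert (by simpa using hb), ← ih]
    change _ = F.y (π b) * _
    rw [← h]; group

theorem JF.Z_le_A (F : JF G B) (I : B → Bool) : F.Z ≤ F.A I := closure_mono Set.subset_union_left

theorem JF.A_le_J (F : JF G B) (I : B → Bool) : F.A I ≤ F.J := by
  rw [← map_AM, ← range_ps]; exact map_le_range _ _

theorem JF.mem_A (F : JF G B) {I : B → Bool} {g : G} : g ∈ F.A I ↔ ∃ P Q, g = F.yP P * F.hP I Q := by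
  rw [memA]
  exact ⟨fun ⟨m, hm, e⟩ => ⟨_, _, e.symm.trans ((congrArg _ (eq_ym_hm hm)).trans (by rw [map_mul, ps_ym, ps_hm]))⟩,
    fun ⟨P, Q, e⟩ => ⟨_, ym_hm_in I P Q, by rw [map_mul, ps_ym, ps_hm, e]⟩⟩

theorem JF.A_sq (F : JF G B) {I : B → Bool} {g : G} (h : g ∈ F.A I) : g * g = 1 := by
  obtain ⟨m, hm, rfl⟩ := (memA F).mp h
  rw [← map_mul, ← map_one (ps F)]
  congr 1
  funext b
  exact (by decide : ∀ t, ∀ d : D, D.In t d → d * d = 1) _ _ (hm b)

theorem JF.o_act (F : JF G B) (I : B → Bool) (b : B) (P Q : Finset B) :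
    F.o I b * (F.yP P * F.hP I Q) * (F.o I b)⁻¹ = F.yP P * F.hP I Q * (if b ∈ Q then F.y b else 1) := by
  have e : (if b ∈ Q then F.y b else 1) = ps F (Pi.mulSingle b (if b ∈ Q then D.y else 1)) := by
    split_ifs
    · exact (ps_y F b).symm
    · rw [Pi.mulSingle_one, map_one]
  rw [e, ← ps_o, ← ps_ym, ← ps_hm, ← map_inv, ← map_mul, ← map_mul, ← map_mul, ← map_mul]
  congr 1
  funext c
  simp only [Pi.mul_apply, Pi.inv_apply]
  by_cases h : c = b
  · subst h
    simp only [Pi.mulSingle_eq_same, ym, hm, JA.ind]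
    exact (by
      intro t p q _ _
      by_cases p <;> by_cases q <;> simp only [*, if_true, if_false] <;> revert t <;> decide :
      ∀ (t : Bool) (p q : Prop) [Decidable p] [Decidable q],
        D.o t * ((if p then D.y else 1) * if q then D.h t else 1) * (D.o t)⁻¹ =
          ((if p then D.y else 1) * if q then D.h t else 1) * if q then D.y else 1) _ _ _
  · simp only [Pi.mulSingle_eq_of_ne h, one_mul, inv_one, mul_one]

theorem JF.o_notMem (F : JF G B) (I : B → Bool) (b : B) : F.o I b ∉ F.A I := by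
  rw [← ps_o, ps_memA]
  intro h
  have := h b
  rw [Pi.mulSingle_eq_same] at this
  exact (by decide : ∀ t, ¬ D.In t (D.o t)) _ this

theorem JF.card_A (F : JF G B) (I : B → Bool) : Nat.card (F.A I) = 4 ^ Fintype.card B := by
  have : Nat.card (Finset B × Finset B) = Nat.card (F.A I) :=
    Nat.card_eq_of_bijective (fun p => ⟨F.yP p.1 * F.hP I p.2, F.mem_A.mpr ⟨_, _, rfl⟩⟩)
      ⟨fun p q h => Prod.ext (F.A_uniq I (congrArg Subtype.val h)).1 (F.A_uniq I (congrArg Subtype.val h)).2,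
        fun x => by
          obtain ⟨P, Q, e⟩ := F.mem_A.mp x.2
          exact ⟨(P, Q), Subtype.ext e.symm⟩⟩
  rw [← this, Nat.card_prod, Nat.card_eq_fintype_card, Fintype.card_finset, ← mul_pow]
  rfl

theorem JF.card_J (F : JF G B) : Nat.card F.J = 8 ^ Fintype.card B := by
  rw [← range_ps, ← Nat.card_congr (MonoidHom.ofInjective (ps_inj F)).toEquiv, Nat.card_fun, D.card_D,
    Nat.card_eq_fintype_card]

theorem JF.J_le_norm (F : JF G B) (I : B → Bool) : F.J ≤ normalizer (F.A I : Set G) := by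
  have key : ∀ g ∈ F.J, ∀ x ∈ F.A I, g * x * g⁻¹ ∈ F.A I := by
    intro g hg x hx
    obtain ⟨m, rfl⟩ := (mem_J F).mp hg
    obtain ⟨n, hn, rfl⟩ := (memA F).mp hx
    rw [← map_inv, ← map_mul, ← map_mul, ps_memA]
    exact fun b => (by decide : ∀ t, ∀ d d' : D, D.In t d' → D.In t (d * d' * d⁻¹)) _ _ _ (hn b)
  intro g hg
  rw [mem_normalizer_iff]
  refine fun x => ⟨key g hg x, fun h => ?_⟩
  have := key _ (inv_mem hg) _ h
  rwa [show g⁻¹ * (g * x * g⁻¹) * g⁻¹⁻¹ = x by group] at this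

theorem JF.J_eq (F : JF G B) : F.J = ⨆ I, F.A I := by
  refine le_antisymm ?_ (iSup_le F.A_le_J)
  rw [JF.J, closure_le]
  rintro _ (⟨b, rfl⟩ | ⟨b, rfl⟩)
  · exact le_iSup F.A (fun _ => true) (subset_closure (.inr ⟨b, rfl⟩))
  · exact le_iSup F.A (fun _ => false) (subset_closure (.inr ⟨b, rfl⟩))

theorem JA.o_mem (F : JF G B) (I : B → Bool) (b : B) : F.o I b ∈ F.J := (mem_J F).mpr ⟨_, ps_o F I b⟩

theorem JA.h_mem (F : JF G B) (I : B → Bool) (b : B) : F.h I b ∈ F.A I := subset_closure (.inr ⟨b, rfl⟩)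

theorem JA.hP_single (F : JF G B) (I : B → Bool) (b : B) : F.hP I {b} = F.h I b := Finset.noncommProd_singleton _ _

theorem JF.tv_o (F : JF G B) (I : B → Bool) (b : B) : Tv (F.A I) (F.o I b) (F.y b) where
  norm := F.J_le_norm I (o_mem F I b)
  ne := y_ne F b
  mv := ⟨_, F.mem_A.mpr ⟨∅, {b}, rfl⟩, by
    rw [F.o_act, if_pos (Finset.mem_singleton_self b), Ne, mul_eq_left]; exact y_ne F b⟩
  act := fun x hx => by
    obtain ⟨P, Q, rfl⟩ := F.mem_A.mp hx
    rw [F.o_act]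
    split_ifs
    exacts [.inr rfl, .inl (mul_one _)]

theorem JA.le_A (F : JF G B) {E : Subgroup G} (hE : E ≤ F.J) (h2 : ∀ x ∈ E, x * x = 1) : ∃ I, E ≤ F.A I := by
  classical
  refine ⟨fun b => decide (∀ m, ps F m ∈ E → (m b).j = false), fun x hx => ?_⟩
  obtain ⟨m, rfl⟩ := (mem_J F).mp (hE hx)
  rw [ps_memA]
  intro b
  have sq : ∀ n, ps F n ∈ E → n b * n b = 1 := fun n hn => by
    have := h2 _ hn
    rw [← map_mul, ← map_one (ps F), ps_eq] at this
    exact congrFun this b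
  by_cases h : ∀ m, ps F m ∈ E → (m b).j = false
  · rw [decide_eq_true h]; exact h m hx
  · rw [decide_eq_false h]
    push Not at h
    obtain ⟨n, hn, hj⟩ := h
    exact (by decide : ∀ d d' : D, d * d = 1 → d' * d' = 1 → d * d' * (d * d') = 1 → d'.j ≠ false → D.In false d)
      _ _ (sq m hx) (sq n hn) (sq (m * n) (by rw [map_mul]; exact mul_mem hx hn)) hj

theorem JF.max_J (F : JF G B) {E : Subgroup G} (hE : E ≤ F.J) (h2 : ∀ x ∈ E, x * x = 1)
    (hc : 4 ^ Fintype.card B ≤ Nat.card E) : ∃ I, E = F.A I := by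
  obtain ⟨I, hI⟩ := le_A F hE h2
  exact ⟨I, eq_of_le_of_card_ge hI (by rwa [F.card_A])⟩

/-- a transvection on `A I` induced by an element of `J` has a centre `y b` -/
theorem JF.tv_J (F : JF G B) {I : B → Bool} {g c : G} (hg : g ∈ F.J) (h : Tv (F.A I) g c) : ∃ b, c = F.y b ∧
    ∀ x ∈ F.A I, g * x * g⁻¹ = F.o I b * x * (F.o I b)⁻¹ := by
  obtain ⟨m, rfl⟩ := (mem_J F).mp hg
  have h1 : ∀ b, ¬ D.In (I b) (m b) → c = F.y b := fun b hb => by
    have e : ps F m * F.h I b * (ps F m)⁻¹ = F.h I b * F.y b := by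
      rw [← ps_h, ← ps_y, ← map_inv, ← map_mul, ← map_mul, ← map_mul]
      congr 1
      funext c
      simp only [Pi.mul_apply, Pi.inv_apply]
      by_cases h : c = b
      · subst h
        simp only [Pi.mulSingle_eq_same]
        exact (by decide : ∀ t, ∀ d : D, ¬ D.In t d → d * D.h t * d⁻¹ = D.h t * D.y) _ _ hb
      · simp only [Pi.mulSingle_eq_of_ne h, mul_one, mul_inv_cancel]
    rcases h.act _ (h_mem F I b) with e' | e' <;> rw [e] at e'
    · exact absurd (mul_eq_left.mp e') (y_ne F b)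
    · exact (mul_left_cancel e').symm
  obtain ⟨b, hb⟩ : ∃ b, ¬ D.In (I b) (m b) := by
    by_contra H
    push Not at H
    obtain ⟨x, hx, hne⟩ := h.mv
    obtain ⟨n, hn, rfl⟩ := (memA F).mp hx
    refine hne ?_
    rw [← map_inv, ← map_mul, ← map_mul]
    congr 1
    funext c
    exact (by decide : ∀ t, ∀ d d' : D, D.In t d → D.In t d' → d * d' * d⁻¹ = d') _ _ _ (H c) (hn c)
  refine ⟨b, h1 b hb, fun x hx => ?_⟩
  obtain ⟨n, hn, rfl⟩ := (memA F).mp hx
  rw [← ps_o, ← map_inv, ← map_inv, ← map_mul, ← map_mul, ← map_mul, ← map_mul]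
  congr 1
  funext c
  simp only [Pi.mul_apply, Pi.inv_apply]
  by_cases e : c = b
  · subst e
    simp only [Pi.mulSingle_eq_same]
    exact (by decide : ∀ t, ∀ d d' : D, ¬ D.In t d → D.In t d' → d * d' * d⁻¹ = D.o t * d' * (D.o t)⁻¹) _ _ _ hb (hn c)
  · simp only [Pi.mulSingle_eq_of_ne e, one_mul, inv_one, mul_one]
    have hc : D.In (I c) (m c) := by_contra fun H => e (y_inj F ((h1 c H).symm.trans (h1 b hb)))
    exact (by decide : ∀ t, ∀ d d' : D, D.In t d → D.In t d' → d * d' * d⁻¹ = d') _ _ _ hc (hn c)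

theorem JA.one_block (F F' : JF G B) (h : F'.J = F.J) (I : B → Bool) (b : B) {m : B → D} (hm : ps F m = F'.h I b)
    {c : B} (hc : ¬ (m c).Ce) : F'.y b = F.y c := by
  obtain ⟨d, hd⟩ := (by decide : ∀ x : D, ¬ x.Ce → ∃ d : D, d * x * d⁻¹ = x * D.y) _ hc
  have e : ps F (Pi.mulSingle c d) * F'.h I b * (ps F (Pi.mulSingle c d))⁻¹ = F'.h I b * F.y c := by
    rw [← hm, ← ps_y, ← map_inv, ← map_mul, ← map_mul, ← map_mul]
    congr 1
    funext c'
    simp only [Pi.mul_apply, Pi.inv_apply]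
    by_cases h : c' = c
    · subst h
      simpa only [Pi.mulSingle_eq_same] using hd
    · simp only [Pi.mulSingle_eq_of_ne h, mul_one, one_mul, inv_one]
  obtain ⟨n, hn⟩ := (mem_J F').mp (h ▸ (mem_J F).mpr ⟨Pi.mulSingle c d, rfl⟩)
  rw [← hn] at e
  rcases (by decide : ∀ t, ∀ x : D, x * D.h t * x⁻¹ = D.h t ∨ x * D.h t * x⁻¹ = D.h t * D.y) (I b) (n b) with k | k
  · have : ps F' n * F'.h I b * (ps F' n)⁻¹ = F'.h I b := by
      rw [← ps_h, ← map_inv, ← map_mul, ← map_mul]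
      congr 1
      funext c'
      simp only [Pi.mul_apply, Pi.inv_apply]
      by_cases h : c' = b
      · subst h
        simpa only [Pi.mulSingle_eq_same] using k
      · simp only [Pi.mulSingle_eq_of_ne h, mul_one, mul_inv_cancel]
    rw [this] at e
    exact absurd (mul_eq_left.mp e.symm) (y_ne F c)
  · have : ps F' n * F'.h I b * (ps F' n)⁻¹ = F'.h I b * F'.y b := by
      rw [← ps_h, ← ps_y F', ← map_inv, ← map_mul, ← map_mul, ← map_mul]
      congr 1
      funext c'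
      simp only [Pi.mul_apply, Pi.inv_apply]
      by_cases h : c' = b
      · subst h
        simpa only [Pi.mulSingle_eq_same] using k
      · simp only [Pi.mulSingle_eq_of_ne h, mul_one, mul_inv_cancel]
    rw [this] at e
    exact mul_left_cancel e

theorem JF.two_frames (F F' : JF G B) (h : F'.J = F.J) : ∃ π : Perm B, ∀ b, F'.y b = F.y (π b) ∧
    ((F.a (π b) * F'.a b ∈ F.Z ∧ F.e (π b) * F'.e b ∈ F.Z) ∨ (F.e (π b) * F'.a b ∈ F.Z ∧ F.a (π b) * F'.e b ∈ F.Z)) := by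
  have key : ∀ b, ∃ c, F'.y b = F.y c ∧
      ((F.a c * F'.a b ∈ F.Z ∧ F.e c * F'.e b ∈ F.Z) ∨ (F.e c * F'.a b ∈ F.Z ∧ F.a c * F'.e b ∈ F.Z)) := fun b => by
    obtain ⟨m, hm⟩ := (mem_J F).mp (h ▸ (mem_J F').mpr ⟨_, ps_a F' b⟩)
    obtain ⟨n, hn⟩ := (mem_J F).mp (h ▸ (mem_J F').mpr ⟨_, ps_e F' b⟩)
    have h1 : ∀ c, ¬ (m c).Ce → F'.y b = F.y c := fun c => one_block F F' h (fun _ => true) b hm
    have h2 : ∀ c, ¬ (n c).Ce → F'.y b = F.y c := fun c => one_block F F' h (fun _ => false) b hn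
    have m2 : m * m = 1 := by rw [← ps_eq F, map_mul, hm, F'.a2, map_one]
    have n2 : n * n = 1 := by rw [← ps_eq F, map_mul, hn, F'.e2, map_one]
    obtain ⟨c, hc⟩ : ∃ c, m c * n c * (m c * n c) ≠ 1 := by
      by_contra H
      push Not at H
      refine y_ne F' b ?_
      rw [← F'.ae, ← hm, ← hn, ← map_mul, ← map_mul, ← map_mul, ← map_one (ps F)]
      congr 1
      funext c
      rw [mul_assoc (m * n)]
      exact H c
    have k1 := (by decide : ∀ x y : D, x * x = 1 → y * y = 1 → x * y * (x * y) ≠ 1 → ¬ x.Ce ∧ ¬ y.Ce ∧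
      (((D.a * x).Ce ∧ (D.e * y).Ce) ∨ ((D.e * x).Ce ∧ (D.a * y).Ce))) _ _ (congrFun m2 c) (congrFun n2 c) hc
    have k2 : ∀ (d : D) (p : B → D), (∀ c, ¬ (p c).Ce → F'.y b = F.y c) → (d * p c).Ce →
        ps F (Pi.mulSingle c d) * ps F p ∈ F.Z := fun d p hp hd => by
      rw [← map_mul, ps_memZ]
      intro c'
      rw [Pi.mul_apply]
      by_cases e : c' = c
      · subst e; rwa [Pi.mulSingle_eq_same]
      · rw [Pi.mulSingle_eq_of_ne e, one_mul]
        exact by_contra fun H => e (y_inj F ((hp c' H).symm.trans (h1 c k1.1)))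
    refine ⟨c, h1 c k1.1, ?_⟩
    rw [← hm, ← hn, ← ps_a F, ← ps_e F]
    rcases k1.2.2 with k | k
    · exact .inl ⟨k2 _ _ h1 k.1, k2 _ _ h2 k.2⟩
    · exact .inr ⟨k2 _ _ h1 k.1, k2 _ _ h2 k.2⟩
  choose π hπ using key
  have hi : Function.Injective π := fun b c e => y_inj F' (by rw [(hπ b).1, (hπ c).1, e])
  exact ⟨Equiv.ofBijective π hi.bijective_of_finite, hπ⟩

/-- the conjugated frame -/
def JA.cf (F : JF G B) (g : G) : JF G B where
  y b := MulAut.conj g (F.y b)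
  a b := MulAut.conj g (F.a b)
  e b := MulAut.conj g (F.e b)
  a2 b := by rw [← map_mul, F.a2, map_one]
  e2 b := by rw [← map_mul, F.e2, map_one]
  y2 b := by rw [← map_mul, F.y2, map_one]
  ae b := by rw [← map_mul, ← map_mul, ← map_mul, F.ae]
  aa b c := by rw [← map_mul, ← map_mul, F.aa]
  ee b c := by rw [← map_mul, ← map_mul, F.ee]
  ac b c h := by rw [← map_mul, ← map_mul, F.ac b c h]
  ya b c := by rw [← map_mul, ← map_mul, F.ya]
  ye b c := by rw [← map_mul, ← map_mul, F.ye]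
  yy b c := (F.yy b c).map _
  ind P h := F.ind P ((MulAut.conj g).injective (((Finset.map_noncommProd P F.y _ (MulAut.conj g)).trans h).trans
    (map_one _).symm))

theorem JA.cf_J (F : JF G B) (g : G) : (cf F g).J = H8.cj g F.J := by
  rw [JF.J, JF.J, H8.cj, MonoidHom.map_closure, Set.image_union, ← Set.range_comp, ← Set.range_comp]
  rfl

theorem JF.norm_J (F : JF G B) {g : G} (hg : g ∈ normalizer (F.J : Set G)) : ∃ π : Perm B, ∀ b,
    g * F.y b * g⁻¹ = F.y (π b) ∧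
    ((F.a (π b) * (g * F.a b * g⁻¹) ∈ F.Z ∧ F.e (π b) * (g * F.e b * g⁻¹) ∈ F.Z) ∨
      (F.e (π b) * (g * F.a b * g⁻¹) ∈ F.Z ∧ F.a (π b) * (g * F.e b * g⁻¹) ∈ F.Z)) :=
  F.two_frames (cf F g) (by rw [cf_J, H8.cj_eq_self hg])

end Cfsg.Agent.WA.Al
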