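import Cfsg.Agent.WA.AlGen0
import Cfsg.Agent.WA.AlCs0
import Cfsg.Agent.WA.AlJA

/-! S3218, module AlGen. -/

set_option autoImplicit false
set_option linter.unusedSectionVars false

namespace Cfsg.Agent.WA.Al

open Subgroup Equiv Cs

universe u

variable {G : Type u} [Group G] [Finite G] {B : Type} [Fintype B] [DecidableEq B] {s : ℕ}

namespace Gen

theorem od_conj {H : Subgroup G} {g x : G} (hg : g ∈ H) (hx : x ∈ Od H) : g * x * g⁻¹ ∈ Od H := by
  have : (Od H).map (MulAut.conj g).toMonoidHom ≤ Od H := by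
    rw [Od, MonoidHom.map_closure, closure_le]
    rintro _ ⟨y, ⟨h1, h2⟩, rfl⟩
    refine subset_closure ⟨mul_mem (mul_mem hg h1) (inv_mem hg), ?_⟩
    rwa [MulEquiv.coe_toMonoidHom, MulEquiv.orderOf_eq]
  exact this ⟨x, hx, rfl⟩

theorem rot_mem {H : Subgroup G} {t p q : G} (h : Rot t p q) (ht : t ∈ H) (hp : p ∈ H) : p ∈ Od H ∧ q ∈ Od H := by
  have h0 : t ∈ Od H := subset_closure ⟨ht, h.odd⟩
  have hq : q ∈ H := h.h1 ▸ mul_mem (mul_mem ht hp) (inv_mem ht)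
  have h1 : p ∈ Od H := by
    have := mul_mem h0 (od_conj hq (inv_mem h0))
    rwa [← mul_assoc, ← mul_assoc, h.h2, mul_inv_cancel_right] at this
  exact ⟨h1, h.h1 ▸ mul_mem (mul_mem h0 h1) (inv_mem h0)⟩

theorem mem_cV (F : JF G B) (b : B) {g : G} : g ∈ centralizer (F.V b : Set G) ↔
    g * F.y b = F.y b * g ∧ g * F.a b = F.a b * g := by
  rw [JF.V, centralizer_closure, mem_centralizer_iff]
  simp only [Set.mem_insert_iff, Set.mem_singleton_iff, forall_eq_or_imp, forall_eq]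
  exact and_congr eq_comm eq_comm

theorem X_conj (F : JF G B) (b : B) {g x : G} (hg : g ∈ centralizer (F.V b : Set G))
    (hx : x ∈ F.V b ⊔ Od (centralizer (F.V b : Set G))) : g * x * g⁻¹ ∈ F.V b ⊔ Od (centralizer (F.V b : Set G)) := by
  have : (F.V b ⊔ Od (centralizer (F.V b : Set G))).map (MulAut.conj g).toMonoidHom ≤
      F.V b ⊔ Od (centralizer (F.V b : Set G)) := by
    rw [Subgroup.map_sup]
    refine sup_le_sup ?_ ?_
    · rintro _ ⟨v, hv, rfl⟩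
      change g * v * g⁻¹ ∈ _
      rwa [← hg v hv, mul_inv_cancel_right]
    · rintro _ ⟨v, hv, rfl⟩
      exact od_conj hg hv
  exact this ⟨x, hx, rfl⟩

theorem y0_comm (K : Finset B) (b : B) : y0 s b * yK s K = yK s K * y0 s b := by
  refine Subtype.ext (Equiv.ext ?_)
  rintro (⟨c, i⟩ | j)
  · simp only [mul_ap, y0_l, yK_l]
    split_ifs <;> rfl
  · simp only [mul_ap, y0_r, yK_r]

theorem a0_comm (K : Finset B) (b : B) : a0 s b * yK s K = yK s K * a0 s b := by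
  refine Subtype.ext (Equiv.ext ?_)
  rintro (⟨c, i⟩ | j)
  · simp only [mul_ap, a0_l, yK_l]
    split_ifs <;> try rfl
    congr 2
    revert i; decide
  · simp only [mul_ap, a0_r, yK_r]

theorem e0_comm (K : Finset B) (b : B) : e0 s b * yK s K = yK s K * e0 s b := by
  refine Subtype.ext (Equiv.ext ?_)
  rintro (⟨c, i⟩ | j)
  · simp only [mul_ap, e0_l, yK_l]
    split_ifs <;> try rfl
    congr 2
    revert i; decide
  · simp only [mul_ap, e0_r, yK_r]

theorem f_one (C : Chart G B s) : C.f 1 = 1 := by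
  have := C.mul 1 1 (by simp) (by simp)
  rw [one_mul] at this
  exact left_eq_mul.mp this

theorem f_inv (C : Chart G B s) {p : Alt (Pt B s)} (h : p * yK s C.K = yK s C.K * p) : C.f p⁻¹ = (C.f p)⁻¹ := by
  refine eq_inv_of_mul_eq_one_left ?_
  rw [← C.mul _ _ (Commute.inv_left h).eq h, inv_mul_cancel, f_one]

theorem f_comm (C : Chart G B s) {p q : Alt (Pt B s)} (hp : p * yK s C.K = yK s C.K * p)
    (hq : q * yK s C.K = yK s C.K * q) : C.f p * C.f q = C.f q * C.f p ↔ p * q = q * p := by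
  refine ⟨fun h => ?_, fun h => by rw [← C.mul _ _ hp hq, ← C.mul _ _ hq hp, h]⟩
  have h1 : Commute (p * q) (yK s C.K) := Commute.mul_left hp hq
  have h2 : Commute (q * p) (yK s C.K) := Commute.mul_left hq hp
  refine mul_inv_eq_one.mp (C.inj _ (h1.mul_left h2.inv_left).eq ?_)
  rw [C.mul _ _ h1 h2.inv_left.eq, f_inv C h2, C.mul _ _ hp hq, C.mul _ _ hq hp, h, mul_inv_cancel]

/-- preimage of a subgroup under a chart -/
def pre (C : Chart G B s) (X : Subgroup G) : Subgroup (Alt (Pt B s)) where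
  carrier := {p | p * yK s C.K = yK s C.K * p ∧ C.f p ∈ X}
  one_mem' := ⟨by simp, by rw [f_one]; exact one_mem _⟩
  mul_mem' := fun {p q} hp hq => ⟨(Commute.mul_left hp.1 hq.1).eq, by rw [C.mul _ _ hp.1 hq.1]; exact mul_mem hp.2 hq.2⟩
  inv_mem' := fun {p} hp => ⟨(Commute.inv_left hp.1).eq, by rw [f_inv C hp.1]; exact inv_mem hp.2⟩

theorem yK_ne {K : Finset B} {x : Pt B s} : (yK s K).1 x ≠ x ↔ ∃ b ∈ K, ∃ i, x = Sum.inl (b, i) := by
  rcases x with ⟨c, i⟩ | j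
  · rw [yK_l]
    by_cases h : c ∈ K
    · refine iff_of_true (fun e => ?_) ⟨c, h, i, rfl⟩
      rw [if_pos h] at e
      exact (by decide : ∀ i : Fin 4, (swap 0 1 * swap 2 3 : Perm (Fin 4)) i ≠ i) i (by simpa using e)
    · refine iff_of_false (by simp [h]) ?_
      rintro ⟨b, hb, j, e⟩
      obtain ⟨rfl, -⟩ : c = b ∧ i = j := by simpa using e
      exact h hb
  · simp [yK_r]

end Gen

open Gen

theorem Chart.gen (C : Chart G B s) {S : CS G B s} (h : Fits C S) {b₁ b₂ : B} (T : Two S b₁ b₂ 1) :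
    centralizer ({S.z} : Set G) ⊓ centralizer (S.V b₁ : Set G) ≤ S.V b₁ ⊔ Od (centralizer (S.V b₁ : Set G)) := by
  set X := S.V b₁ ⊔ Od (centralizer (S.V b₁ : Set G)) with hX
  have m1 : b₁ ∈ C.K := h.K ▸ T.m1
  have m2 : b₂ ∈ C.K := h.K ▸ T.m2
  let Sg : Set (Pt B s) := {x | ∃ b ∈ C.K, b ≠ b₁ ∧ ∃ i, x = Sum.inl (b, i)}
  let N : Subgroup (Perm (Pt B s)) := (pre C X).map (alternatingGroup _).subtype
  have memN : ∀ p : Alt (Pt B s), p.1 ∈ N ↔ p ∈ pre C X := fun p => mem_map_iff_mem Subtype.val_injective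
  have cn : ∀ g ∈ Cn (yK s C.K).1 Sg, ∃ p : Alt (Pt B s), p.1 = g ∧ p * yK s C.K = yK s C.K * p ∧
      C.f p ∈ centralizer (S.V b₁ : Set G) := fun g hg => by
    have h1 : (⟨g, hg.1⟩ : Alt (Pt B s)) * yK s C.K = yK s C.K * ⟨g, hg.1⟩ := Subtype.ext hg.2.1
    have h2 : ∀ i, g (Sum.inl (b₁, i)) = Sum.inl (b₁, i) := fun i => hg.2.2 _ (yK_ne.mpr ⟨b₁, m1, i, rfl⟩) (by
      rintro ⟨b, -, hb, j, e⟩
      obtain ⟨rfl, -⟩ : b₁ = b ∧ i = j := by simpa using e
      exact hb rfl)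
    refine ⟨_, rfl, h1, (mem_cV _ _).mpr ⟨?_, ?_⟩⟩
    · rw [h.y, f_comm C h1 (y0_comm _ _)]
      refine Subtype.ext (comm_of_fix ?_)
      rintro (⟨c, i⟩ | j) hx
      · by_cases e : c = b₁
        · rw [e]; exact h2 i
        · exact absurd (by rw [y0_l, if_neg e]) hx
      · exact absurd (y0_r _ _) hx
    · rw [h.a, f_comm C h1 (a0_comm _ _)]
      refine Subtype.ext (comm_of_fix ?_)
      rintro (⟨c, i⟩ | j) hx
      · by_cases e : c = b₁
        · rw [e]; exact h2 i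
        · exact absurd (by rw [a0_l, if_neg e]) hx
      · exact absurd (a0_r _ _) hx
  have hN : ∀ g ∈ Cn (yK s C.K).1 Sg, ∀ n ∈ N, g * n * g⁻¹ ∈ N := fun g hg n hn => by
    obtain ⟨p, rfl, h1, h2⟩ := cn g hg
    obtain ⟨q, hq, rfl⟩ := hn
    have h3 : Commute (p * q) (yK s C.K) := Commute.mul_left h1 hq.1
    refine (memN (p * q * p⁻¹)).mpr ⟨(h3.mul_left (Commute.inv_left h1)).eq, ?_⟩
    rw [C.mul _ _ h3 (Commute.inv_left h1).eq, C.mul _ _ h1 hq.1, f_inv C h1]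
    exact X_conj _ _ h2 hq.2
  have h3 : ∀ g ∈ Cn (yK s C.K).1 Sg, orderOf g = 3 → g ∈ N := fun g hg e => by
    obtain ⟨p, rfl, h1, h2⟩ := cn g hg
    refine (memN p).mpr ⟨h1, mem_sup_right (subset_closure ⟨h2, ?_⟩)⟩
    have p3 : p * p * p = 1 := Subtype.ext (by
      have := pow_orderOf_eq_one p.1
      rwa [e, pow_succ, pow_two] at this)
    have f3 : C.f p ^ 3 = 1 := by
      rw [pow_succ, pow_two, ← C.mul _ _ h1 h1, ← C.mul _ _ (Commute.mul_left h1 h1).eq h1, p3, f_one]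
    exact Odd.of_dvd_nat (by decide : Odd 3) (orderOf_dvd_of_pow_eq_one f3)
  have y2 : S.y b₂ ∈ centralizer (S.V b₁ : Set G) := (mem_cV _ _).mpr ⟨S.yy _ _, S.ya _ _⟩
  obtain ⟨t, rt, t1, t2⟩ := T.r2
  obtain ⟨t', c, rt', t1', t2', hc⟩ := T.r3
  rw [mul_one] at rt t2 t2'
  obtain ⟨k1, k2⟩ := rot_mem rt ((mem_cV _ _).mpr ⟨t1, t2⟩) y2
  have k3 := (rot_mem rt' ((mem_cV _ _).mpr ⟨t1', t2'⟩) y2).2
  have out : ∀ b, b ∉ C.K → S.y b ∈ X ∧ S.a b ∈ X := fun b hb => by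
    rw [h.y, h.a]
    refine ⟨((memN _).mp (fix_mem h3 _ (y0 s b).2 fun x hx => ?_)).2,
      ((memN _).mp (fix_mem h3 _ (a0 s b).2 fun x hx => ?_)).2⟩
    · obtain ⟨c, hc, i, rfl⟩ := yK_ne.mp hx
      rw [y0_l, if_neg fun e : c = b => hb (e ▸ hc)]
    · obtain ⟨c, hc, i, rfl⟩ := yK_ne.mp hx
      rw [a0_l, if_neg fun e : c = b => hb (e ▸ hc)]
  have k4 : S.e b₂ ∈ X := by
    rw [← mul_mem_cancel_left (mem_sup_right k3 : c ∈ X)]
    refine (closure_le _).mpr ?_ hc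
    rintro _ (⟨b, rfl⟩ | ⟨b, hb, rfl⟩)
    · by_cases e : b = b₁
      · rw [e]; exact mem_sup_left (subset_closure (by simp))
      by_cases hb : b ∈ S.K
      · obtain ⟨g, -, hg⟩ := S.sw b₂ b (iff_of_true T.m2 hb)
        have e1 := swap_apply_of_ne_of_ne T.ne (Ne.symm e)
        have e2 := (hg b₂).1
        rw [swap_apply_left] at e2
        rw [← e2]
        refine mem_sup_right (od_conj ((mem_cV _ _).mpr ⟨?_, ?_⟩) k1)
        · rw [← mul_inv_eq_iff_eq_mul, (hg b₁).1, e1]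
        · rw [← mul_inv_eq_iff_eq_mul, (hg b₁).2.1, e1]
      · exact (out b (h.K ▸ hb)).1
    · exact (out b (h.K ▸ hb)).2
  have main : Cn (yK s C.K).1 Sg ≤ N := by
    refine gen_aux (r₀ := Sum.inr 0) (r₁ := Sum.inr 1) (x₀ := Sum.inl (b₂, 0)) (y₀ := Sum.inl (b₂, 2)) (yK_yK _) ?_
      (by simp) (yK_r _ _) (yK_r _ _) hN h3 ⟨b₂, m2, T.ne.symm, _, rfl⟩ ⟨b₂, m2, T.ne.symm, _, rfl⟩ (by simp)
      (by rw [yK_l, if_pos m2]; simp [swap_apply_def]) ?_ ?_
    · rintro _ ⟨b, hb, hb', i, rfl⟩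
      exact ⟨⟨b, hb, hb', _, yK_l _ _ _⟩, yK_ne.mpr ⟨b, hb, i, rfl⟩⟩
    · have := (memN (a0 s b₂)).mpr ⟨a0_comm _ _, h.a b₂ ▸ mem_sup_right k2⟩
      convert this using 1
      rw [yK_l, yK_l, if_pos m2, if_pos m2]
      refine Equiv.ext ?_
      rintro (⟨c, i⟩ | j)
      · rw [a0_l]
        by_cases e : c = b₂
        · subst e; revert i; refine f4 ?_ ?_ ?_ ?_ <;> simp [swap_apply_def]
        · simp [swap_apply_def, e]
      · rw [a0_r]; simp [swap_apply_def]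
    · have := (memN (e0 s b₂)).mpr ⟨e0_comm _ _, h.e b₂ ▸ k4⟩
      convert this using 1
      rw [yK_l, if_pos m2]
      refine Equiv.ext ?_
      rintro (⟨c, i⟩ | j)
      · rw [e0_l]
        by_cases e : c = b₂
        · subst e; revert i; refine f4 ?_ ?_ ?_ ?_ <;> simp [swap_apply_def]
        · simp [swap_apply_def, e]
      · rw [e0_r]
        simp only [Perm.mul_apply, swap_apply_def]
        grind
  rintro g ⟨hz, hV⟩
  obtain ⟨p, hp, rfl⟩ := (C.cen g).mp (h.z ▸ mem_centralizer_singleton_iff.mp hz)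
  obtain ⟨c1, c2⟩ := (mem_cV _ _).mp hV
  rw [h.y, f_comm C hp (y0_comm _ _)] at c1
  rw [h.a, f_comm C hp (a0_comm _ _)] at c2
  have vy : y0 s b₁ ∈ pre C X := ⟨y0_comm _ _, h.y b₁ ▸ mem_sup_left (subset_closure (by simp))⟩
  have va : a0 s b₁ ∈ pre C X := ⟨a0_comm _ _, h.a b₁ ▸ mem_sup_left (subset_closure (by simp))⟩
  have ya : y0 s b₁ * a0 s b₁ = a0 s b₁ * y0 s b₁ := by
    rw [← f_comm C (y0_comm _ _) (a0_comm _ _), ← h.y, ← h.a, S.ya]
  have key : ∀ v ∈ pre C X, v * y0 s b₁ = y0 s b₁ * v → v * a0 s b₁ = a0 s b₁ * v →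
      v.1 (p.1 (Sum.inl (b₁, 0))) = Sum.inl (b₁, 0) → C.f p ∈ X := fun v hv d1 d2 e => by
    have q1 : v * p * y0 s b₁ = y0 s b₁ * (v * p) := (Commute.mul_left d1 c1).eq
    have q2 : v * p * a0 s b₁ = a0 s b₁ * (v * p) := (Commute.mul_left d2 c2).eq
    have q3 : v * p * yK s C.K = yK s C.K * (v * p) := (Commute.mul_left hv.1 hp).eq
    have q0 : (v * p).1 (Sum.inl (b₁, 0)) = Sum.inl (b₁, 0) := e
    have q4 := cm_ap q1 (Sum.inl (b₁, 0))
    have q5 := cm_ap q2 (Sum.inl (b₁, 0))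
    rw [q0, y0_l, if_pos rfl] at q4
    rw [q0, a0_l, if_pos rfl] at q5
    have q6 := cm_ap q1 (Sum.inl (b₁, 2))
    rw [show (swap 0 2 * swap 1 3 : Perm (Fin 4)) 0 = 2 by decide] at q5
    rw [q5, y0_l, if_pos rfl] at q6
    have : v * p ∈ pre C X := (memN _).mp (main ⟨(v * p).2, congrArg Subtype.val q3, fun x hx hx' => by
      obtain ⟨b, hb, i, rfl⟩ := yK_ne.mp hx
      obtain rfl : b = b₁ := by_contra fun e => hx' ⟨b, hb, e, i, rfl⟩
      revert i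
      exact fun i _ _ => f4 (P := fun i => (v * p).1 (Sum.inl (b, i)) = Sum.inl (b, i)) q0 q4 q5 q6 i⟩)
    exact ((mul_mem_cancel_left hv).mp this).2
  obtain ⟨i, hi⟩ : ∃ i, p.1 (Sum.inl (b₁, 0)) = Sum.inl (b₁, i) := by
    have q := cm_ap c1 (Sum.inl (b₁, 0))
    rcases e : p.1 (Sum.inl (b₁, 0)) with ⟨c, i⟩ | j
    · by_cases e' : c = b₁
      · exact ⟨i, by rw [e']⟩
      · rw [e, y0_l _ c, if_neg e', ← e, y0_l, if_pos rfl] at q
        exact absurd (p.1.injective q) (by simp [swap_apply_def])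
    · rw [e, y0_r, ← e, y0_l, if_pos rfl] at q
      exact absurd (p.1.injective q) (by simp [swap_apply_def])
  revert i
  refine f4 (fun hi => ?_) (fun hi => ?_) (fun hi => ?_) fun hi => ?_
  · exact key 1 (one_mem _) (by simp) (by simp) hi
  · exact key _ vy rfl ya (by rw [hi, y0_l, if_pos rfl]; rfl)
  · exact key _ va ya.symm rfl (by rw [hi, a0_l, if_pos rfl]; rfl)
  · exact key _ (mul_mem vy va) (by rw [mul_assoc, ← ya]) (by rw [← mul_assoc, ← ya])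
      (by rw [hi, mul_ap, a0_l, if_pos rfl, y0_l, if_pos rfl]; rfl)

end Cfsg.Agent.WA.Al
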