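import Cfsg.Agent.WA.AlDef

/-! S3218, module AlGen, part 0: generators of the centralizer of an involution. -/

set_option autoImplicit false

namespace Cfsg.Agent.WA.Al.Gen

open Subgroup Equiv

variable {Ω : Type} [Fintype Ω] [DecidableEq Ω]

/-- even permutations commuting with `t` and fixing the points moved by `t` outside `S` -/
def Cn (t : Perm Ω) (S : Set Ω) : Subgroup (Perm Ω) where
  carrier := {g | Perm.sign g = 1 ∧ g * t = t * g ∧ ∀ x, t x ≠ x → x ∉ S → g x = x}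
  one_mem' := ⟨map_one _, by simp, fun _ _ _ => rfl⟩
  mul_mem' := fun {g h} hg hh => ⟨by rw [map_mul, hg.1, hh.1, one_mul], by rw [mul_assoc, hh.2.1, ← mul_assoc, hg.2.1, mul_assoc],
    fun x h1 h2 => by rw [Perm.mul_apply, hh.2.2 x h1 h2, hg.2.2 x h1 h2]⟩
  inv_mem' := fun {g} hg => ⟨by rw [Perm.sign_inv, hg.1], (Commute.inv_left hg.2.1).eq,
    fun x h1 h2 => by rw [Perm.inv_eq_iff_eq, hg.2.2 x h1 h2]⟩

omit [Fintype Ω] [DecidableEq Ω] in
theorem comm_of_fix {t p : Perm Ω} (h : ∀ x, t x ≠ x → p x = x) : p * t = t * p :=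
  Perm.Disjoint.commute fun x => by
    by_cases e : t x = x
    exacts [.inr e, .inl (h x e)]

theorem fix_mem {t : Perm Ω} {S : Set Ω} {N : Subgroup (Perm Ω)} (h3 : ∀ g ∈ Cn t S, orderOf g = 3 → g ∈ N)
    (p : Perm Ω) (hs : Perm.sign p = 1) (hp : ∀ x, t x ≠ x → p x = x) : p ∈ N := by
  induction hn : p.support.card using Nat.strong_induction_on generalizing p with
  | _ n ih =>
  by_cases h1 : p = 1
  · rw [h1]; exact one_mem _
  obtain ⟨x, hx⟩ : ∃ x, p x ≠ x := by
    by_contra H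
    push Not at H
    exact h1 (Equiv.ext H)
  obtain ⟨w, hw, wx, wy⟩ : ∃ w, p w ≠ w ∧ w ≠ x ∧ w ≠ p x := by
    by_contra H
    push Not at H
    have h2 : p.support = {x, p x} := by
      ext w
      simp only [Perm.mem_support, Finset.mem_insert, Finset.mem_singleton]
      refine ⟨fun h => or_iff_not_imp_left.mpr (H w h), ?_⟩
      rintro (rfl | rfl)
      exacts [hx, fun e => hx (p.injective e)]
    have h4 : p.IsSwap := Perm.card_support_eq_two.mp (by rw [h2, Finset.card_pair hx.symm])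
    rw [h4.sign_eq] at hs
    exact absurd hs (by decide)
  have hy : p (p x) ≠ p x := fun e => hx (p.injective e)
  have hfix : ∀ u, p u = u → (swap (p x) w * swap (p x) x) u = u := fun u hu => by
    have u1 : u ≠ p x := fun e => hy (e ▸ hu)
    have u2 : u ≠ x := fun e => hx (e ▸ hu)
    have u3 : u ≠ w := fun e => hw (e ▸ hu)
    rw [Perm.mul_apply, swap_apply_of_ne_of_ne u1 u2, swap_apply_of_ne_of_ne u1 u3]
  have hsc : Perm.sign (swap (p x) w * swap (p x) x) = 1 := by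
    rw [map_mul, Perm.sign_swap wy.symm, Perm.sign_swap hx]; decide
  have hc : swap (p x) w * swap (p x) x ∈ N := h3 _ ⟨hsc, comm_of_fix fun u hu => hfix u (hp u hu),
    fun u hu _ => hfix u (hp u hu)⟩ (Perm.isThreeCycle_swap_mul_swap_same wy.symm hx wx).orderOf
  rw [← mul_mem_cancel_left hc]
  refine ih _ ?_ _ (by rw [map_mul, hsc, hs, one_mul]) (fun u hu => by rw [Perm.mul_apply, hp u hu, hfix u (hp u hu)]) rfl
  rw [← hn]
  refine Finset.card_lt_card ⟨fun u hu => ?_, fun H => ?_⟩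
  · rw [Perm.mem_support] at hu ⊢
    exact fun e => hu (by rw [Perm.mul_apply, e, hfix u e])
  · refine Perm.mem_support.mp (H (Perm.mem_support.mpr hx)) ?_
    rw [Perm.mul_apply, Perm.mul_apply, swap_apply_left, swap_apply_of_ne_of_ne hx.symm wx.symm]

omit [Fintype Ω] in
theorem sw2_conj (g : Perm Ω) (x y u v : Ω) :
    g * (swap x y * swap u v) * g⁻¹ = swap (g x) (g y) * swap (g u) (g v) := by
  rw [swap_apply_apply, swap_apply_apply]; group

section

variable {t : Perm Ω} {S : Set Ω} (ht : ∀ x, t (t x) = x) (hS : ∀ x ∈ S, t x ∈ S ∧ t x ≠ x) {r₀ r₁ : Ω}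
  (hr : r₀ ≠ r₁) (h0 : t r₀ = r₀) (h1 : t r₁ = r₁)

include ht hS in
theorem al_mem {x y : Ω} (hx : x ∈ S) (hy : y ∈ S) (n1 : y ≠ x) (n2 : y ≠ t x) :
    swap x y * swap (t x) (t y) ∈ Cn t S := by
  have n3 : x ≠ t y := fun e => n2 (by rw [e, ht])
  have n4 := hS x hx
  have n5 := hS y hy
  refine ⟨by rw [map_mul, Perm.sign_swap n1.symm, Perm.sign_swap fun e => n1 (t.injective e).symm]; decide, ?_,
    fun u _ hu => ?_⟩
  · symm
    rw [← mul_inv_eq_iff_eq_mul, sw2_conj, ht, ht]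
    refine (Perm.Disjoint.commute fun u => ?_).eq
    simp only [swap_apply_def]
    grind
  · simp only [Perm.mul_apply, swap_apply_def]
    grind

include ht hS hr h0 h1 in
theorem ep_mem {x : Ω} (hx : x ∈ S) : swap x (t x) * swap r₀ r₁ ∈ Cn t S := by
  have n4 := hS x hx
  refine ⟨by rw [map_mul, Perm.sign_swap n4.2.symm, Perm.sign_swap hr]; decide, ?_, fun u _ hu => ?_⟩
  · symm
    rw [← mul_inv_eq_iff_eq_mul, sw2_conj, ht, h0, h1, swap_comm]
  · simp only [Perm.mul_apply, swap_apply_def]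
    grind

include ht hS hr h0 h1 in
theorem mv {u v : Ω} (hu : u ∈ S) (hv : v ∈ S) : ∃ g ∈ Cn t S, swap (g r₀) (g r₁) = swap r₀ r₁ ∧ g u = v ∧
    ∀ w ∈ S, w ≠ u → w ≠ t u → w ≠ v → w ≠ t v → g w = w := by
  have n4 := hS u hu
  have n5 := hS v hv
  by_cases e1 : v = u
  · exact ⟨1, one_mem _, rfl, e1.symm, fun _ _ _ _ _ _ => rfl⟩
  by_cases e2 : v = t u
  · refine ⟨_, ep_mem ht hS hr h0 h1 hu, ?_, ?_, fun w hw _ _ _ _ => ?_⟩
    · have := ht u
      rw [swap_comm]
      congr 1 <;> simp only [Perm.mul_apply, swap_apply_def] <;> grind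
    · simp only [Perm.mul_apply, swap_apply_def]; grind
    · have := hS w hw
      simp only [Perm.mul_apply, swap_apply_def]; grind
  · refine ⟨_, al_mem ht hS hu hv e1 e2, ?_, ?_, fun w hw _ _ _ _ => ?_⟩
    · have := ht u
      have := ht v
      congr 1 <;> simp only [Perm.mul_apply, swap_apply_def] <;> grind
    · have := ht u
      have := ht v
      simp only [Perm.mul_apply, swap_apply_def]; grind
    · simp only [Perm.mul_apply, swap_apply_def]; grind

theorem cn_t {g : Perm Ω} (hg : g ∈ Cn t S) (x : Ω) : g (t x) = t (g x) := congrArg (fun p : Perm Ω => p x) hg.2.1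

include hS in
theorem cn_S {g : Perm Ω} (hg : g ∈ Cn t S) {x : Ω} (hx : x ∈ S) : g x ∈ S := by
  by_contra H
  have h := hg.2.2 (g x) (fun e => (hS x hx).2 (g.injective (by rw [cn_t hg, e]))) H
  exact H (by rw [g.injective h]; exact hx)

include ht hS hr h0 h1 in
theorem gen_aux {N : Subgroup (Perm Ω)} (hN : ∀ g ∈ Cn t S, ∀ n ∈ N, g * n * g⁻¹ ∈ N)
    (h3 : ∀ g ∈ Cn t S, orderOf g = 3 → g ∈ N) {x₀ y₀ : Ω} (hx : x₀ ∈ S) (hy : y₀ ∈ S) (n1 : y₀ ≠ x₀) (n2 : y₀ ≠ t x₀)
    (ha : swap x₀ y₀ * swap (t x₀) (t y₀) ∈ N) (he : swap x₀ (t x₀) * swap r₀ r₁ ∈ N) : Cn t S ≤ N := by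
  classical
  have ep : ∀ x ∈ S, swap x (t x) * swap r₀ r₁ ∈ N := fun x hx' => by
    obtain ⟨g, hg, e1, e2, -⟩ := mv ht hS hr h0 h1 hx hx'
    have := hN g hg _ he
    rwa [sw2_conj, cn_t hg, e1, e2] at this
  have al : ∀ x ∈ S, ∀ y ∈ S, y ≠ x → y ≠ t x → swap x y * swap (t x) (t y) ∈ N := fun x hx' y hy' m1 m2 => by
    obtain ⟨g, hg, -, e2, -⟩ := mv ht hS hr h0 h1 hx hx'
    obtain ⟨y', rfl⟩ := g.surjective y
    have hy'' : y' ∈ S := by simpa using cn_S hS (inv_mem hg) hy'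
    subst e2
    have m3 : y' ≠ x₀ := fun e => m1 (by rw [e])
    have m4 : y' ≠ t x₀ := fun e => m2 (by rw [e, cn_t hg])
    obtain ⟨k, hk, -, e3, e4⟩ := mv ht hS hr h0 h1 hy hy''
    have e5 : k x₀ = x₀ := e4 _ hx n1.symm (fun e => n2 (by rw [e, ht])) m3.symm fun e => m4 (by rw [e, ht])
    have := hN g hg _ (hN k hk _ ha)
    rwa [sw2_conj, sw2_conj, cn_t hk, cn_t hk, e3, e5, cn_t hg, cn_t hg] at this
  intro p hp
  induction hn : (Finset.univ.filter fun x => x ∈ S ∧ p x ≠ x).card using Nat.strong_induction_on generalizing p with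
  | _ n ih =>
  by_cases hx : ∀ x ∈ S, p x = x
  · refine fix_mem h3 p hp.1 fun x h => ?_
    by_cases e : x ∈ S
    exacts [hx x e, hp.2.2 x h e]
  push Not at hx
  obtain ⟨x, xS, hx⟩ := hx
  have key : ∀ c ∈ Cn t S, c ∈ N → c (p x) = x → (∀ w ∈ S, p w = w → c w = w) → p ∈ N := fun c c1 c2 c3 c4 => by
    rw [← mul_mem_cancel_left c2]
    refine ih _ ?_ (mul_mem c1 hp) rfl
    rw [← hn]
    refine Finset.card_lt_card ⟨fun u hu => ?_, fun H => ?_⟩
    · simp only [Finset.mem_filter, Finset.mem_univ, true_and] at hu ⊢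
      exact ⟨hu.1, fun e => hu.2 (by rw [Perm.mul_apply, e, c4 u hu.1 e])⟩
    · have := H (Finset.mem_filter.mpr ⟨Finset.mem_univ x, xS, hx⟩)
      exact (Finset.mem_filter.mp this).2.2 c3
  have f1 : ∀ w, p w = w → p (t w) = t w := fun w e => by rw [cn_t hp, e]
  have f2 : p (p x) ≠ p x := fun e => hx (p.injective e)
  have f3 := hS x xS
  have f4 := hS _ (cn_S hS hp xS)
  by_cases e : p x = t x
  · refine key _ (ep_mem ht hS hr h0 h1 xS) (ep x xS) ?_ fun w hw e' => ?_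
    · have := ht x
      simp only [Perm.mul_apply, swap_apply_def]; grind
    · have := hS w hw
      simp only [Perm.mul_apply, swap_apply_def]; grind
  · refine key _ (al_mem ht hS xS (cn_S hS hp xS) hx e) (al x xS _ (cn_S hS hp xS) hx e) ?_ fun w hw e' => ?_
    · simp only [Perm.mul_apply, swap_apply_def]; grind
    · have := f1 w e'
      have := ht x
      have := ht (p x)
      simp only [Perm.mul_apply, swap_apply_def]; grind

end

end Cfsg.Agent.WA.Al.Gen
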