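import Cfsg.Agent.WA.AlTr

/-! S3218: tools shared by `AlTwo` and `AlOne`. -/

set_option autoImplicit false
set_option linter.unusedSectionVars false

namespace Cfsg.Agent.WA.Al

open Subgroup Equiv

universe u

variable {G : Type u} [Group G] [Finite G] {B : Type} [Fintype B] [DecidableEq B] {s : ℕ}

namespace Iso

theorem comm_of_fix {g x : G} (h : g * x * g⁻¹ = x) : g * x = x * g := mul_inv_eq_iff_eq_mul.1 h
theorem fix_of_comm {g x : G} (h : g * x = x * g) : g * x * g⁻¹ = x := mul_inv_eq_iff_eq_mul.2 h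

theorem comm_of_sq {A : Subgroup G} (hA : ∀ x ∈ A, x * x = 1) {x y : G} (hx : x ∈ A) (hy : y ∈ A) : x * y = y * x :=
  calc x * y = (x * y)⁻¹ := eq_inv_of_mul_eq_one_left (hA _ (mul_mem hx hy))
    _ = y * x := by rw [mul_inv_rev, inv_eq_of_mul_eq_one_left (hA x hx), inv_eq_of_mul_eq_one_left (hA y hy)]

theorem conj_fix_iff {g k x : G} : k⁻¹ * g * k⁻¹⁻¹ * x * (k⁻¹ * g * k⁻¹⁻¹)⁻¹ = x ↔
    g * (k * x * k⁻¹) * g⁻¹ = k * x * k⁻¹ := by
  constructor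
  · intro h
    calc _ = k * (k⁻¹ * g * k⁻¹⁻¹ * x * (k⁻¹ * g * k⁻¹⁻¹)⁻¹) * k⁻¹ := by group
      _ = _ := by rw [h]
  · intro h
    calc _ = k⁻¹ * (g * (k * x * k⁻¹) * g⁻¹) * k := by group
      _ = _ := by rw [h]; group

theorem conj_fix_iff' {g k x : G} : k * g * k⁻¹ * (k * x * k⁻¹) * (k * g * k⁻¹)⁻¹ = k * x * k⁻¹ ↔ g * x * g⁻¹ = x := by
  rw [show k * g * k⁻¹ * (k * x * k⁻¹) * (k * g * k⁻¹)⁻¹ = k * (g * x * g⁻¹) * k⁻¹ by group]
  simp

theorem closure_comm {g g' t x : G} (ht : t ∈ closure ({g, g'} : Set G)) (h : g * x = x * g) (h' : g' * x = x * g') :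
    t * x = x * t := by
  refine mem_centralizer_singleton_iff.1 ((closure_le (centralizer {x})).2 ?_ ht)
  rintro a (rfl | rfl)
  · exact mem_centralizer_singleton_iff.2 h
  · exact mem_centralizer_singleton_iff.2 h'

end Iso

open Iso

theorem Tv.conjN {A : Subgroup G} {g c k : G} (h : Tv A g c) (hk : k ∈ normalizer (A : Set G)) :
    Tv A (k * g * k⁻¹) (k * c * k⁻¹) := by
  have := h.conj k
  rwa [H8.cj_eq_self hk] at this

theorem Tv.of_ne {A : Subgroup G} {g c x : G} (h : Tv A g c) (hx : x ∈ A) (hm : g * x * g⁻¹ ≠ x) : g * x * g⁻¹ = x * c :=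
  (h.act x hx).resolve_left hm

namespace JF

variable (F : JF G B)

theorem y_mem (I : B → Bool) (b : B) : F.y b ∈ F.A I := subset_closure (Or.inl ⟨b, rfl⟩)
theorem h_mem (I : B → Bool) (b : B) : F.h I b ∈ F.A I := subset_closure (Or.inr ⟨b, rfl⟩)
theorem a_memJ (b : B) : F.a b ∈ F.J := subset_closure (Or.inl ⟨b, rfl⟩)
theorem e_memJ (b : B) : F.e b ∈ F.J := subset_closure (Or.inr ⟨b, rfl⟩)
theorem o_memJ (I : B → Bool) (b : B) : F.o I b ∈ F.J := by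
  unfold o; split_ifs
  · exact F.e_memJ b
  · exact F.a_memJ b
theorem yP_memZ (P : Finset B) : F.yP P ∈ F.Z := F.mem_Z.2 ⟨P, rfl⟩
theorem yP_mem (I : B → Bool) (P : Finset B) : F.yP P ∈ F.A I := F.Z_le_A I (F.yP_memZ P)
theorem sqA (I : B → Bool) : ∀ x ∈ F.A I, x * x = 1 := fun _ h => F.A_sq h
theorem y_inj : Function.Injective F.y := fun b c h =>
  Finset.singleton_injective (F.yP_inj (by rw [F.yP_single, F.yP_single, h]))
theorem y_ne (b : B) : F.y b ≠ 1 := fun h =>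
  Finset.singleton_ne_empty b (F.yP_inj (by rw [F.yP_single, F.yP_empty, h]))
theorem a_ne (b : B) : F.a b ≠ 1 := fun h => F.y_ne b (by rw [← F.ae, h, one_mul, mul_one, F.e2])
theorem hP_empty (I : B → Bool) : F.hP I ∅ = 1 := Finset.noncommProd_empty _ _
theorem hP_single (I : B → Bool) (b : B) : F.hP I {b} = F.h I b := Finset.noncommProd_singleton _ _
theorem hP_insert (I : B → Bool) {b : B} {Q : Finset B} (h : b ∉ Q) : F.hP I (insert b Q) = F.h I b * F.hP I Q :=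
  Finset.noncommProd_insert_of_notMem _ _ _ _ h
theorem o_y (I : B → Bool) (b c : B) : F.o I b * F.y c * (F.o I b)⁻¹ = F.y c := by
  rw [← F.yP_single]; exact fix_of_comm (F.yP_comm _ (F.o_memJ I b))
theorem o_fix_iff (I : B → Bool) (b : B) (P Q : Finset B) :
    F.o I b * (F.yP P * F.hP I Q) * (F.o I b)⁻¹ = F.yP P * F.hP I Q ↔ b ∉ Q := by
  rw [F.o_act]
  by_cases h : b ∈ Q <;> simp [h, F.y_ne b]
theorem o_h_iff (I : B → Bool) (b c : B) : F.o I b * F.h I c * (F.o I b)⁻¹ = F.h I c ↔ b ≠ c := by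
  have := F.o_fix_iff I b ∅ {c}
  rwa [F.yP_empty, F.hP_single, one_mul, Finset.notMem_singleton] at this
theorem comm_yP {g : G} {P : Finset B} (h : ∀ b ∈ P, g * F.y b = F.y b * g) : g * F.yP P = F.yP P * g :=
  Finset.noncommProd_commute _ _ _ g h
theorem memZ_of_fix {I : B → Bool} {c : G} (hc : c ∈ F.A I) (h : ∀ b, F.o I b * c * (F.o I b)⁻¹ = c) : c ∈ F.Z := by
  obtain ⟨P, Q, rfl⟩ := F.mem_A.1 hc
  obtain rfl : Q = ∅ := Finset.eq_empty_of_forall_notMem fun b => (F.o_fix_iff I b P Q).1 (h b)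
  rw [F.hP_empty, mul_one]; exact F.yP_memZ P

theorem tv_mk {I : B → Bool} {g c : G} (hc : c ∈ F.A I) (h1 : c ≠ 1) (hf : g * c * g⁻¹ = c)
    (hy : ∀ b, g * F.y b * g⁻¹ = F.y b ∨ g * F.y b * g⁻¹ = F.y b * c)
    (hh : ∀ b, g * F.h I b * g⁻¹ = F.h I b ∨ g * F.h I b * g⁻¹ = F.h I b * c)
    (hm : ∃ x ∈ F.A I, g * x * g⁻¹ ≠ x) : Tv (F.A I) g c := by
  have key : ∀ x ∈ F.A I, g * x * g⁻¹ = x ∨ g * x * g⁻¹ = x * c := fun x hx => by
    induction hx using closure_induction with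
    | mem x hx =>
      rcases hx with ⟨b, rfl⟩ | ⟨b, rfl⟩
      · exact hy b
      · exact hh b
    | one => simp
    | mul x y hx hy' h2 h3 =>
      have e : g * (x * y) * g⁻¹ = g * x * g⁻¹ * (g * y * g⁻¹) := by group
      have hcy : c * y = y * c := comm_of_sq (F.sqA I) hc hy'
      rcases h2 with h2 | h2 <;> rcases h3 with h3 | h3 <;> rw [e, h2, h3]
      · exact Or.inl rfl
      · exact Or.inr (mul_assoc _ _ _).symm
      · exact Or.inr (by rw [mul_assoc, hcy, mul_assoc])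
      · exact Or.inl (by rw [mul_assoc, ← mul_assoc c, hcy, mul_assoc, F.A_sq hc, mul_one])
    | inv x hx h2 => rwa [inv_eq_of_mul_eq_one_left (F.A_sq hx)]
  refine ⟨H8.mem_normalizer_of_cj_le ?_, h1, hm, key⟩
  rintro _ ⟨x, hx, rfl⟩
  show g * x * g⁻¹ ∈ F.A I
  rcases key x hx with h | h <;> rw [h]
  · exact hx
  · exact mul_mem hx hc

open Classical in
theorem parity {I : B → Bool} {g c : G} (h : Tv (F.A I) g c) (P : Finset B) :
    g * F.yP P * g⁻¹ = F.yP P ↔ Even (P.filter fun b => g * F.y b * g⁻¹ ≠ F.y b).card := by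
  induction P using Finset.induction_on with
  | empty => simp [F.yP_empty]
  | insert b P hb ih =>
    rw [F.yP_insert hb, h.mul_fix (F.sqA I) (F.y_mem I b) (F.yP_mem I P), ih, Finset.filter_insert]
    by_cases e : g * F.y b * g⁻¹ = F.y b
    · simp [e]
    · rw [if_pos e, Finset.card_insert_of_notMem (fun h => hb (Finset.mem_filter.1 h).1), Nat.even_add_one]
      simp [e]

theorem chi_A {z : G} (hz : z ∈ F.Z) (χ : G → ℤˣ) (hχ : ∀ g h, g * z = z * g → h * z = z * h → χ (g * h) = χ g * χ h)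
    (I : B → Bool) (P Q : Finset B) : χ (F.yP P * F.hP I Q) = ∏ b ∈ Q, χ (F.h I b) := by
  obtain ⟨K, rfl⟩ := F.mem_Z.1 hz
  have hJ : ∀ g ∈ F.J, ∀ h ∈ F.J, χ (g * h) = χ g * χ h := fun g hg h hh => hχ g h (F.yP_comm K hg) (F.yP_comm K hh)
  have hA : ∀ g ∈ F.A I, ∀ h ∈ F.A I, χ (g * h) = χ g * χ h := fun g hg h hh => hJ g (F.A_le_J I hg) h (F.A_le_J I hh)
  have h1 : χ 1 = 1 := by
    have := hA 1 (one_mem _) 1 (one_mem _)
    rw [mul_one] at this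
    exact mul_left_cancel (this.symm.trans (mul_one _).symm)
  have hy : ∀ b, χ (F.y b) = 1 := fun b => by
    have hm := mul_mem (F.a_memJ b) (F.e_memJ b)
    rw [← F.ae, mul_assoc (F.a b * F.e b), hJ _ hm _ hm, Int.units_mul_self]
  have h2 : χ (F.yP P) = 1 := by
    induction P using Finset.induction_on with
    | empty => rw [F.yP_empty, h1]
    | insert b P hb ih => rw [F.yP_insert hb, hA _ (F.y_mem I b) _ (F.yP_mem I P), hy, ih, mul_one]
  have hm : ∀ Q, F.hP I Q ∈ F.A I := fun Q => F.mem_A.2 ⟨∅, Q, by rw [F.yP_empty, one_mul]⟩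
  rw [hA _ (F.yP_mem I P) _ (hm Q), h2, one_mul]
  induction Q using Finset.induction_on with
  | empty => rw [F.hP_empty, h1, Finset.prod_empty]
  | insert b Q hb ih => rw [F.hP_insert I hb, hA _ (F.h_mem I b) _ (hm Q), ih, Finset.prod_insert hb]

/-- the frame transvections without neighbour cannot be those on which a character of `C(z)` is `-1` -/
theorem iso_con (hJ : F.JG) (hG : ∀ H : Subgroup G, H.index ≠ 2) {z : G} (hz : z ∈ F.Z)
    (hN : ∀ g ∈ normalizer (F.J : Set G), g * z = z * g) (χ : G → ℤˣ)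
    (hχ : ∀ g h, g * z = z * g → h * z = z * h → χ (g * h) = χ g * χ h) {I : B → Bool} {T : Finset B}
    (hT : ∀ b, χ (F.h I b) = if b ∈ T then -1 else 1) {b₀ : B} (h₀ : b₀ ∈ T)
    (hiso : ∀ b ∈ T, ∀ g c, Tv (F.A I) g c → g * F.y b * g⁻¹ = F.y b)
    (hnon : ∀ b, b ∉ T → ∃ g c, Tv (F.A I) g c ∧ g * F.y b * g⁻¹ ≠ F.y b) : False := by
  obtain ⟨x, hx, h1⟩ := F.transfer hJ hG hz hN χ hχ (F.h_mem I b₀) (by rw [hT, if_pos h₀])
  have key : ∀ n ∈ normalizer (F.A I : Set G), ∀ b ∈ T, ∃ b' ∈ T, n * F.y b * n⁻¹ = F.y b' ∧ ∀ v ∈ F.A I,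
      n * F.o I b * n⁻¹ * v * (n * F.o I b * n⁻¹)⁻¹ = F.o I b' * v * (F.o I b')⁻¹ := fun n hn b hb => by
    have h2 := (F.tv_o I b).conjN hn
    have h3 : ∀ g c, Tv (F.A I) g c → g * (n * F.y b * n⁻¹) * g⁻¹ = n * F.y b * n⁻¹ := fun g c h =>
      conj_fix_iff.1 (hiso b hb _ _ (h.conjN (inv_mem hn)))
    obtain ⟨b', hb'⟩ := F.tv_Z hJ h2 (F.memZ_of_fix h2.mem fun d => h3 _ _ (F.tv_o I d))
    refine ⟨b', ?_, hb', F.tv_same hJ (hb' ▸ h2) (F.tv_o I b')⟩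
    by_contra hn'
    obtain ⟨g, c, h, hm⟩ := hnon b' hn'
    exact hm (hb' ▸ h3 g c h)
  obtain ⟨P, Q, hPQ⟩ := F.mem_A.1 ((mem_normalizer_iff.1 hx _).1 (F.h_mem I b₀))
  obtain ⟨b₁, hb₁, e₁, -⟩ := key x hx b₀ h₀
  have h4 : ∀ d ∈ T, d ∈ Q ↔ d = b₁ := fun d hd => by
    obtain ⟨d', -, e₂, e₃⟩ := key x⁻¹ (inv_mem hx) d hd
    rw [← not_iff_not, ← F.o_fix_iff I d P Q, ← hPQ, ← conj_fix_iff, e₃ _ (F.h_mem I b₀), F.o_h_iff, not_iff_not]
    constructor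
    · rintro rfl
      refine F.y_inj ?_
      rw [← e₁, ← e₂]; group
    · rintro rfl
      refine F.y_inj ?_
      rw [← e₂, ← e₁]; group
  rw [hPQ, F.chi_A hz χ hχ, Finset.prod_eq_single b₁ (fun d hd hne => by
    rw [hT, if_neg fun h => hne ((h4 d h).1 hd)]) (fun h => (h ((h4 b₁ hb₁).2 rfl)).elim), hT, if_pos hb₁] at h1
  exact absurd h1 (by decide)

theorem mem_normJ {g : G} (π : Perm B) (h : ∀ d, g * F.a d * g⁻¹ = F.a (π d) ∧ g * F.e d * g⁻¹ = F.e (π d)) :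
    g ∈ normalizer (F.J : Set G) := by
  refine H8.mem_normalizer_of_cj_le (H8.cj_le_iff.2 ((closure_le _).2 ?_))
  rintro x (⟨d, rfl⟩ | ⟨d, rfl⟩) <;> refine H8.mem_cj.2 ?_ <;> rw [inv_inv]
  · rw [(h d).1]; exact F.a_memJ _
  · rw [(h d).2]; exact F.e_memJ _

theorem mem_normA {g : G} {I : B → Bool} (π : Perm B) (hI : ∀ d, I (π d) = I d)
    (h : ∀ d, g * F.y d * g⁻¹ = F.y (π d) ∧ g * F.a d * g⁻¹ = F.a (π d) ∧ g * F.e d * g⁻¹ = F.e (π d)) :
    g ∈ normalizer (F.A I : Set G) := by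
  refine H8.mem_normalizer_of_cj_le (H8.cj_le_iff.2 ((closure_le _).2 ?_))
  rintro x (⟨d, rfl⟩ | ⟨d, rfl⟩) <;> refine H8.mem_cj.2 ?_ <;> rw [inv_inv]
  · rw [(h d).1]; exact F.y_mem I _
  · have : g * F.h I d * g⁻¹ = F.h I (π d) := by
      unfold JF.h; rw [hI]; split_ifs
      · exact (h d).2.1
      · exact (h d).2.2
    rw [this]; exact F.h_mem I _

theorem cj_A {k : G} (hk : k ∈ normalizer (F.J : Set G)) (I : B → Bool) : ∃ I', H8.cj k (F.A I) = F.A I' := by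
  refine F.max_J (H8.cj_le_of_mem_normalizer hk (F.A_le_J I)) ?_ (by rw [H8.card_cj, F.card_A])
  rintro _ ⟨x, hx, rfl⟩
  rw [← map_mul, F.A_sq hx, map_one]

end JF

namespace CS

variable (S : CS G B s)

theorem z_memZ : S.z ∈ S.Z := S.hz ▸ S.yP_memZ _

/-- `ua` is a transvection with centre `a b` -/
theorem tv_ua {I : B → Bool} {b : B} (hI : I b = true) {g : G} (h1 : g * S.y b * g⁻¹ = S.y b * S.a b)
    (h2 : g * S.a b = S.a b * g)
    (h3 : ∀ c, c ≠ b → g * S.y c = S.y c * g ∧ g * S.a c = S.a c * g ∧ g * S.e c = S.e c * g) :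
    Tv (S.A I) g (S.a b) ∧ g * S.y b * g⁻¹ ≠ S.y b := by
  have ha : S.h I b = S.a b := by simp [JF.h, hI]
  have hm : g * S.y b * g⁻¹ ≠ S.y b := by rw [h1]; simpa using S.a_ne b
  refine ⟨S.tv_mk (ha ▸ S.h_mem I b) (S.a_ne b) (fix_of_comm h2) (fun c => ?_) (fun c => Or.inl ?_)
    ⟨_, S.y_mem I b, hm⟩, hm⟩
  · by_cases e : c = b
    · rw [e]; exact Or.inr h1
    · exact Or.inl (fix_of_comm (h3 c e).1)
  · by_cases e : c = b
    · rw [e, ha]; exact fix_of_comm h2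
    · unfold JF.h; split_ifs
      · exact fix_of_comm (h3 c e).2.1
      · exact fix_of_comm (h3 c e).2.2

/-- `ue` is a transvection with centre `y b * e b` -/
theorem tv_ue {I : B → Bool} {b : B} (hI : I b = false) {g : G} (h1 : g * S.y b * g⁻¹ = S.e b)
    (h2 : g * S.e b * g⁻¹ = S.y b)
    (h3 : ∀ c, c ≠ b → g * S.y c = S.y c * g ∧ g * S.a c = S.a c * g ∧ g * S.e c * g⁻¹ = S.e c * (S.y b * S.e b)) :
    Tv (S.A I) g (S.y b * S.e b) ∧ g * S.y b * g⁻¹ ≠ S.y b := by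
  have he : S.h I b = S.e b := by simp [JF.h, hI]
  have hne : S.e b ≠ S.y b := fun h => by
    have := (S.o_h_iff I b b).1 (by rw [he, h]; exact S.o_y I b b)
    exact this rfl
  have hm : g * S.y b * g⁻¹ ≠ S.y b := h1 ▸ hne
  refine ⟨S.tv_mk (mul_mem (S.y_mem I b) (he ▸ S.h_mem I b)) (fun h => hne ?_) ?_ (fun c => ?_) (fun c => ?_)
    ⟨_, S.y_mem I b, hm⟩, hm⟩
  · rw [eq_inv_of_mul_eq_one_right h, inv_eq_of_mul_eq_one_left (S.y2 b)]
  · rw [show g * (S.y b * S.e b) * g⁻¹ = g * S.y b * g⁻¹ * (g * S.e b * g⁻¹) by group, h1, h2, S.ye]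
  · by_cases e : c = b
    · rw [e, h1, ← mul_assoc, S.y2, one_mul]; exact Or.inr rfl
    · exact Or.inl (fix_of_comm (h3 c e).1)
  · by_cases e : c = b
    · rw [e, he, h2, S.ye, ← mul_assoc, S.e2, one_mul]; exact Or.inr rfl
    · unfold JF.h; split_ifs
      · exact Or.inl (fix_of_comm (h3 c e).2.1)
      · exact Or.inr (h3 c e).2.2

/-- a block outside `K` has a neighbour that fixes the other `y c`, `a c` -/
theorem tv_u (I : B → Bool) {b : B} (hb : b ∉ S.K) : ∃ g c, Tv (S.A I) g c ∧ g * S.y b * g⁻¹ ≠ S.y b ∧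
    ∀ d, d ≠ b → g * S.y d = S.y d * g ∧ g * S.a d = S.a d * g := by
  cases hI : I b
  · obtain ⟨g, -, h1, h2, h3⟩ := S.ue b hb
    exact ⟨g, _, (S.tv_ue hI h1 h2 h3).1, (S.tv_ue hI h1 h2 h3).2, fun d hd => ⟨(h3 d hd).1, (h3 d hd).2.1⟩⟩
  · obtain ⟨g, -, h1, h2, h3⟩ := S.ua b hb
    exact ⟨g, _, (S.tv_ua hI h1 h2 h3).1, (S.tv_ua hI h1 h2 h3).2, fun d hd => ⟨(h3 d hd).1, (h3 d hd).2.1⟩⟩

/-- if `N(J)` moves `z`, some element of `N(J)` takes a block outside `K` to a given block of `K` -/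
theorem exists_move (hN : ¬ ∀ g ∈ normalizer (S.J : Set G), g * S.z = S.z * g) {b : B} (hb : b ∈ S.K) :
    ∃ k ∈ normalizer (S.J : Set G), ∃ i, i ∉ S.K ∧ k * S.y i * k⁻¹ = S.y b := by
  push Not at hN
  obtain ⟨k, hk, hz⟩ := hN
  obtain ⟨π, hπ⟩ := S.norm_J hk
  obtain ⟨i, hi, hi'⟩ : ∃ i, i ∉ S.K ∧ π i ∈ S.K := by
    by_contra hn
    push Not at hn
    refine hz (comm_of_fix ?_)
    rw [S.hz, S.yP_conj π fun d => (hπ d).1]
    congr 1
    refine (Finset.eq_of_subset_of_card_le (fun d hd => ?_) (by rw [Finset.card_map])).symm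
    refine Finset.mem_map.2 ⟨π.symm d, ?_, π.apply_symm_apply d⟩
    by_contra h
    exact hn _ h (by rwa [π.apply_symm_apply])
  obtain ⟨σ, -, hσ⟩ := S.sw (π i) b (iff_of_true hi' hb)
  refine ⟨σ * k, mul_mem (S.mem_normJ _ fun d => (hσ d).2) hk, i, hi, ?_⟩
  rw [show σ * k * S.y i * (σ * k)⁻¹ = σ * (k * S.y i * k⁻¹) * σ⁻¹ by group, (hπ i).1, (hσ _).1, swap_apply_left]

theorem nb_of_move (hN : ¬ ∀ g ∈ normalizer (S.J : Set G), g * S.z = S.z * g) (I : B → Bool) {b : B} (hb : b ∈ S.K) :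
    ∃ g c, Tv (S.A I) g c ∧ g * S.y b * g⁻¹ ≠ S.y b := by
  obtain ⟨k, hk, i, hi, e⟩ := S.exists_move hN hb
  obtain ⟨I', hI'⟩ := S.cj_A (inv_mem hk) I
  obtain ⟨g, c, h1, h2, -⟩ := S.tv_u I' hi
  have h3 := h1.conj k
  rw [← hI', H8.cj_cj_inv] at h3
  exact ⟨_, _, h3, fun h => h2 (conj_fix_iff'.1 (e ▸ h))⟩

end CS

end Cfsg.Agent.WA.Al
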