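import Cfsg.Agent.WA.AlJA
import Cfsg.Agent.H7.TwoTools

/-! S3218, module AlJB: `J` is the Thompson subgroup of every 2-subgroup containing it. -/

set_option autoImplicit false
set_option linter.unusedSectionVars false

namespace Cfsg.Agent.WA.Al

open Subgroup Equiv JA

universe u

variable {G : Type u} [Group G] [Finite G] {B : Type} [Fintype B] [DecidableEq B] {s : ℕ}

namespace JB

/-- invariant subsets -/
abbrev Iv (H : Subgroup (Perm B)) : Type := {P : Finset B // ∀ x ∈ H, ∀ b, x b ∈ P ↔ b ∈ P}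

theorem count (H : Subgroup (Perm B)) (hc : ∀ x ∈ H, ∀ y ∈ H, x * y = y * x) :
    Nat.card H * Nat.card (Iv H) ≤ 2 ^ Fintype.card B := by
  classical
  let rep : B → B := fun c => (Quotient.mk (MulAction.orbitRel H B) c).out
  have r1 : ∀ c, ∃ h ∈ H, h c = rep c := fun c => by
    obtain ⟨h, e⟩ : rep c ∈ MulAction.orbit H c := Quotient.mk_out (s := MulAction.orbitRel H B) c
    exact ⟨h, h.2, e⟩
  have r2 : ∀ h ∈ H, ∀ c, rep (h c) = rep c := fun h hh c =>
    congrArg Quotient.out (Quotient.sound (s := MulAction.orbitRel H B) ⟨⟨h, hh⟩, rfl⟩)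
  have r3 : ∀ c, rep (rep c) = rep c := fun c => by
    obtain ⟨h, hh, e⟩ := r1 c
    rw [← e, r2 h hh, e]
  rw [← Nat.card_prod, ← Fintype.card_finset, ← Nat.card_eq_fintype_card]
  refine Nat.card_le_card_of_injective
    (fun p : H × Iv H => Finset.univ.filter fun c => Xor (c = p.1.1 (rep c)) (c = rep c ∧ c ∉ p.2.1)) ?_
  rintro ⟨x, P⟩ ⟨x', P'⟩ e
  have e1 : ∀ c, Xor (c = x.1 (rep c)) (c = rep c ∧ c ∉ P.1) ↔ Xor (c = x'.1 (rep c)) (c = rep c ∧ c ∉ P'.1) :=
    fun c => by simpa using Finset.ext_iff.mp e c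
  have key : ∀ b, rep b = b → x.1 b = x'.1 b ∧ (b ∈ P.1 ↔ b ∈ P'.1) := fun b hb => by
    have k1 := e1 (x.1 b)
    have k2 := e1 (x'.1 b)
    have k3 := e1 b
    rw [r2 _ x.2, hb] at k1
    rw [r2 _ x'.2, hb] at k2
    rw [hb] at k3
    have k4 : x.1 b = x'.1 b := by
      by_cases h1 : x.1 b = b
      · by_cases h2 : x'.1 b = b
        · rw [h1, h2]
        · simpa [Xor, h2, eq_comm] using k2
      · simpa [Xor, h1] using k1
    refine ⟨k4, ?_⟩
    rw [k4] at k3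
    by_cases h : b = x'.1 b
    · simpa [Xor, ← h] using k3
    · simpa [Xor, h, not_iff_not] using k3
  refine Prod.ext (Subtype.ext (Equiv.ext fun c => ?_)) (Subtype.ext (Finset.ext fun c => ?_))
  · obtain ⟨h, hh, e⟩ := r1 c
    refine h.injective ?_
    change (h * x.1) c = (h * x'.1) c
    rw [hc h hh _ x.2, hc h hh _ x'.2, Perm.mul_apply, Perm.mul_apply, e, (key _ (r3 c)).1]
  · obtain ⟨h, hh, e⟩ := r1 c
    change c ∈ P.1 ↔ c ∈ P'.1
    rw [← P.2 h hh, ← P'.2 h hh, e, (key _ (r3 c)).2]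

theorem ce_iff (F : JF G B) (m : B → D) (b : B) :
    (m b).Ce ↔ ps F m * F.a b = F.a b * ps F m ∧ ps F m * F.e b = F.e b * ps F m := by
  have key : ∀ d : D, ps F m * ps F (Pi.mulSingle b d) = ps F (Pi.mulSingle b d) * ps F m ↔ m b * d = d * m b :=
    fun d => by
      rw [← map_mul, ← map_mul, ps_eq]
      refine ⟨fun h => by simpa using congrFun h b, fun h => funext fun c => ?_⟩
      by_cases e : c = b
      · subst e; simpa using h
      · simp [Pi.mulSingle_eq_of_ne e]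
  rw [← ps_a, ← ps_e, key, key]
  exact (by decide : ∀ d : D, d.Ce ↔ d * D.a = D.a * d ∧ d * D.e = D.e * d) _

theorem comm_Z (F : JF G B) {x p q : G} (hx : x ∈ F.J) (h : p * q ∈ F.Z) : x * p = p * x ↔ x * q = q * x := by
  obtain ⟨P, e⟩ := F.mem_Z.mp h
  have k := F.yP_comm P hx
  rw [← e] at k
  constructor
  · intro h1
    rw [← mul_assoc, h1, mul_assoc, mul_assoc] at k
    exact mul_left_cancel k
  · intro h1
    rw [mul_assoc, ← h1, ← mul_assoc, ← mul_assoc] at k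
    exact mul_right_cancel k

theorem J_le_cen (F : JF G B) : F.J ≤ centralizer (Set.range F.y) := by
  rintro g hg _ ⟨b, rfl⟩
  rw [← F.yP_single]; exact (F.yP_comm _ hg).symm

theorem pJ (F : JF G B) : IsPGroup 2 F.J :=
  IsPGroup.of_card (n := 3 * Fintype.card B) (by rw [F.card_J, pow_mul]; rfl)

theorem mem_J_of (F : JF G B) (hJ : F.JG) {Q : Subgroup G} (hQ : IsPGroup 2 Q) (hJQ : F.J ≤ Q) {g : G} (hg : g ∈ Q)
    (h : ∀ b, g * F.y b * g⁻¹ = F.y b) : g ∈ F.J := by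
  have h1 : F.J = Q ⊓ centralizer (Set.range F.y) := eq_of_le_of_card_ge (le_inf hJQ (J_le_cen F))
    (by rw [F.card_J]; exact hJ _ (hQ.to_le inf_le_left) inf_le_right)
  rw [h1]
  refine ⟨hg, ?_⟩
  rintro _ ⟨b, rfl⟩
  rw [← mul_inv_eq_iff_eq_mul.mp (h b)]

theorem le_J (F : JF G B) (hJ : F.JG) {Q : Subgroup G} (hQ : IsPGroup 2 Q) (hJQ : F.J ≤ Q)
    (hN : Q ≤ normalizer (F.J : Set G)) {E : Subgroup G} (hE : E ≤ Q) (h2 : ∀ x ∈ E, x * x = 1)
    (hc : 4 ^ Fintype.card B ≤ Nat.card E) : E ≤ F.J := by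
  classical
  choose π hπ using fun x : E => F.norm_J (hN (hE x.2))
  let p : E →* Perm B := MonoidHom.mk' π fun x y => Equiv.ext fun b => y_inj F (by
    rw [← (hπ _ b).1, Perm.mul_apply, ← (hπ x _).1, ← (hπ y b).1, coe_mul]; group)
  have ab : ∀ x ∈ E, ∀ y ∈ E, x * y = y * x := fun x hx y hy => by
    have k := h2 _ (mul_mem hx hy)
    calc x * y = x * (x * y * (x * y)) * y := by rw [k, mul_one]
      _ = x * x * (y * x) * (y * y) := by group
      _ = _ := by rw [h2 x hx, h2 y hy, one_mul, mul_one]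
  have hker : ∀ x : E, p x = 1 → x.1 ∈ F.J := fun x hx => mem_J_of F hJ hQ hJQ (hE x.2) fun b => by
    rw [(hπ x b).1, show π x = 1 from hx, Perm.one_apply]
  have c1 := count p.range (by
    rintro _ ⟨x, rfl⟩ _ ⟨y, rfl⟩
    rw [← map_mul, ← map_mul, show x * y = y * x from Subtype.ext (ab _ x.2 _ y.2)])
  have c2 : Nat.card p.ker ≤ Nat.card ↥(E ⊓ F.J) :=
    Nat.card_le_card_of_injective (fun x => ⟨x.1.1, x.1.2, hker _ x.2⟩) fun x y e =>
      Subtype.ext (Subtype.ext (congrArg (fun w : ↥(E ⊓ F.J) => (w : G)) e))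
  obtain ⟨I, hI⟩ := le_A F (inf_le_right : E ⊓ F.J ≤ F.J) fun x hx => h2 x hx.1
  let sup : ↥(E ⊓ F.J) → Iv p.range := fun x =>
    ⟨Finset.univ.filter fun b => x.1 * F.a b = F.a b * x.1 ∧ x.1 * F.e b = F.e b * x.1, by
      rintro _ ⟨w, rfl⟩ b
      have k : ∀ g : G, x.1 * (w * g * (w : G)⁻¹) = w * g * (w : G)⁻¹ * x.1 ↔ x.1 * g = g * x.1 := fun g => by
        have k1 := ab _ x.2.1 _ w.2
        have k2 := ab _ x.2.1 _ (inv_mem w.2)
        rw [mul_assoc _ _ x.1, ← k2, ← mul_assoc, ← mul_assoc, ← mul_assoc, mul_left_inj, k1, mul_assoc, mul_assoc,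
          mul_right_inj]
      simp only [Finset.mem_filter, Finset.mem_univ, true_and]
      change _ * F.a (π w b) = F.a (π w b) * _ ∧ _ * F.e (π w b) = F.e (π w b) * _ ↔ _
      rcases (hπ w b).2 with ⟨h3, h4⟩ | ⟨h3, h4⟩
      · rw [comm_Z F x.2.2 h3, comm_Z F x.2.2 h4, k, k]
      · rw [comm_Z F x.2.2 h3, comm_Z F x.2.2 h4, k, k, and_comm]⟩
  have c3 : ∀ x : ↥(E ⊓ F.J), ∃ P : Iv p.range, x.1 * (Function.invFun sup (sup x)).1 = F.yP P.1 := fun x => by
    have e := Function.invFun_eq (f := sup) ⟨x, rfl⟩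
    generalize Function.invFun sup (sup x) = x' at e
    obtain ⟨P, hP⟩ : ∃ P, x.1 * x'.1 = F.yP P := by
      obtain ⟨m, hm, em⟩ := (memA F).mp (hI x.2)
      obtain ⟨n, hn, en⟩ := (memA F).mp (hI x'.2)
      rw [← F.mem_Z, ← em, ← en, ← map_mul, ps_memZ]
      intro b
      have k := Finset.ext_iff.mp (congrArg Subtype.val e) b
      simp only [sup, Finset.mem_filter, Finset.mem_univ, true_and] at k
      rw [← em, ← en, ← ce_iff, ← ce_iff] at k
      exact (by decide : ∀ t, ∀ d d' : D, D.In t d → D.In t d' → (d'.Ce ↔ d.Ce) → (d * d').Ce) _ _ _ (hm b) (hn b) k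
    refine ⟨⟨P, ?_⟩, hP⟩
    rintro _ ⟨w, rfl⟩ b
    have k := F.yP_conj (π w) (fun b => (hπ w b).1) P
    rw [← hP, ab _ w.2 _ (mul_mem x.2.1 x'.2.1), mul_assoc, mul_inv_cancel, mul_one, hP] at k
    change π w b ∈ P ↔ _
    conv_lhs => rw [F.yP_inj k]
    exact Finset.mem_map' _
  choose Pf hP using c3
  have c4 : Nat.card ↥(E ⊓ F.J) ≤ Nat.card (Iv p.range) * Nat.card (Iv p.range) := by
    rw [← Nat.card_prod]
    refine Nat.card_le_card_of_injective (fun x => (sup x, Pf x)) fun x y e => Subtype.ext ?_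
    have k1 := hP x
    rw [show Pf x = Pf y from congrArg Prod.snd e, show sup x = sup y from congrArg Prod.fst e, ← hP y] at k1
    exact mul_right_cancel k1
  have c5 := p.ker.card_mul_index
  rw [index_ker] at c5
  have c6 : 2 ^ Fintype.card B ≤ Nat.card (Iv p.range) := by
    have h4 : 4 ^ Fintype.card B = 2 ^ Fintype.card B * 2 ^ Fintype.card B := by rw [← mul_pow]; rfl
    refine Nat.le_of_mul_le_mul_right ?_ (Nat.two_pow_pos (Fintype.card B))
    calc _ ≤ Nat.card p.ker * Nat.card p.range := by rw [← h4, c5]; exact hc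
      _ ≤ Nat.card (Iv p.range) * Nat.card (Iv p.range) * Nat.card p.range := Nat.mul_le_mul_right _ (c2.trans c4)
      _ = Nat.card (Iv p.range) * (Nat.card p.range * Nat.card (Iv p.range)) := by ring
      _ ≤ _ := Nat.mul_le_mul_left _ c1
  have c7 := (Subtype.val_injective.bijective_of_nat_card_le (f := (Subtype.val : Iv p.range → Finset B))
    (by rwa [Nat.card_eq_fintype_card (α := Finset B), Fintype.card_finset])).2
  intro x hx
  refine hker ⟨x, hx⟩ (Equiv.ext fun b => ?_)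
  obtain ⟨P, e⟩ := c7 {b}
  have := (P.2 _ ⟨⟨x, hx⟩, rfl⟩ b).mpr (by rw [e]; exact Finset.mem_singleton_self b)
  rw [e] at this
  exact Finset.mem_singleton.mp this

theorem cj_sq {A : Subgroup G} (h : ∀ x ∈ A, x * x = 1) (g : G) : ∀ x ∈ H8.cj g A, x * x = 1 := by
  rintro _ ⟨x, hx, rfl⟩
  rw [← map_mul, h x hx, map_one]

theorem mem_norm_of (F : JF G B) {g : G} (h : ∀ I, H8.cj g (F.A I) ≤ F.J) : g ∈ normalizer (F.J : Set G) := by
  refine H8.mem_normalizer_of_cj_le ?_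
  conv_lhs => rw [F.J_eq, H8.cj, Subgroup.map_iSup]
  exact iSup_le h

end JB

open JB

theorem JF.max_two (F : JF G B) (hJ : F.JG) {Q : Subgroup G} (hQ : IsPGroup 2 Q) (hJQ : F.J ≤ Q) :
    Q ≤ normalizer (F.J : Set G) ∧ ∀ E : Subgroup G, E ≤ Q → (∀ x ∈ E, x * x = 1) →
      4 ^ Fintype.card B ≤ Nat.card E → ∃ I, E = F.A I := by
  have h1 : Q ≤ normalizer (F.J : Set G) := by
    by_contra hne
    have hlt : Q ⊓ normalizer (F.J : Set G) < Q := lt_of_le_of_ne inf_le_left fun e => hne (e ▸ inf_le_right)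
    have : Group.IsNilpotent Q := hQ.isNilpotent
    have k := Group.normalizerCondition_of_isNilpotent (G := Q) ((Q ⊓ normalizer (F.J : Set G)).subgroupOf Q)
      (lt_top_iff_ne_top.mpr fun e => hne ((subgroupOf_eq_top.mp e).trans inf_le_right))
    obtain ⟨g, gN, gn⟩ := SetLike.exists_of_lt k
    rw [← subgroupOf_normalizer_eq inf_le_left] at gN
    refine gn ⟨g.2, mem_norm_of F fun I => ?_⟩
    have hJN : F.J ≤ Q ⊓ normalizer (F.J : Set G) := le_inf hJQ le_normalizer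
    exact le_J F hJ (hQ.to_le inf_le_left) hJN inf_le_right
      (H8.cj_le_of_mem_normalizer gN ((F.A_le_J I).trans hJN)) (cj_sq (fun _ => F.A_sq) _)
      (by rw [H8.card_cj, F.card_A])
  exact ⟨h1, fun E hE h2 hc => F.max_J (le_J F hJ hQ hJQ h1 hE h2 hc) h2 hc⟩

theorem JF.conj_J (F : JF G B) (hJ : F.JG) {X : Subgroup G} {h : G} (h1 : F.J ≤ X) (h2 : H8.cj h F.J ≤ X) :
    ∃ c ∈ X, c * h ∈ normalizer (F.J : Set G) := by
  obtain ⟨S, hS, JS⟩ := H8.exists_isSylowIn_ge (pJ F) h1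
  obtain ⟨S', hS', JS'⟩ := H8.exists_isSylowIn_ge (H8.pgroup_cj (pJ F) h) h2
  obtain ⟨c, hc, e⟩ := hS'.exists_cj_eq hS
  refine ⟨c, hc, mem_norm_of F fun I => ?_⟩
  obtain ⟨I', e'⟩ := (F.max_two hJ hS.pgroup JS).2 (H8.cj (c * h) (F.A I))
    (by rw [H8.cj_mul, ← e]; exact H8.cj_mono _ ((H8.cj_mono _ (F.A_le_J I)).trans JS'))
    (cj_sq (fun _ => F.A_sq) _) (by rw [H8.card_cj, F.card_A])
  rw [e']; exact F.A_le_J I'

theorem JF.burn (F : JF G B) (hJ : F.JG) {P Q : Finset B} (h : IsConj (F.yP P) (F.yP Q)) :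
    ∃ g ∈ normalizer (F.J : Set G), g * F.yP P * g⁻¹ = F.yP Q := by
  obtain ⟨h, e⟩ := isConj_iff.mp h
  obtain ⟨c, hc, hn⟩ := F.conj_J hJ (X := centralizer {F.yP Q}) (h := h)
    (fun g hg => mem_centralizer_singleton_iff.mpr (F.yP_comm Q hg)) (by
      rintro _ ⟨g, hg, rfl⟩
      refine mem_centralizer_singleton_iff.mpr ?_
      change h * g * h⁻¹ * _ = _ * (h * g * h⁻¹)
      rw [← e]
      calc _ = h * (g * F.yP P) * h⁻¹ := by group
        _ = _ := by rw [F.yP_comm P hg]; group)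
  refine ⟨_, hn, ?_⟩
  calc _ = c * (h * F.yP P * h⁻¹) * c⁻¹ := by group
    _ = _ := by rw [e, mem_centralizer_singleton_iff.mp hc]; group

theorem JF.wt (F : JF G B) (hJ : F.JG) {P Q : Finset B} (h : IsConj (F.yP P) (F.yP Q)) : P.card = Q.card := by
  obtain ⟨g, hg, e⟩ := F.burn hJ h
  obtain ⟨π, hπ⟩ := F.norm_J hg
  rw [F.yP_conj π fun b => (hπ b).1] at e
  rw [← F.yP_inj e, Finset.card_map]

/-- Thompson transfer when `N(J)` centralizes `z ∈ Z` -/
theorem JF.transfer (F : JF G B) (hJ : F.JG) (hG : ∀ H : Subgroup G, H.index ≠ 2) {z : G} (hz : z ∈ F.Z)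
    (hN : ∀ g ∈ normalizer (F.J : Set G), g * z = z * g) (χ : G → ℤˣ)
    (hχ : ∀ g h, g * z = z * g → h * z = z * h → χ (g * h) = χ g * χ h) {I : B → Bool} {x : G} (hx : x ∈ F.A I)
    (h1 : χ x = -1) : ∃ g ∈ normalizer (F.A I : Set G), χ (g * x * g⁻¹) = 1 := by
  obtain ⟨S, hS, JS⟩ := H8.exists_isSylowIn_ge (pJ F) (le_top : F.J ≤ ⊤)
  obtain ⟨SN, hE⟩ := F.max_two hJ hS.pgroup JS
  let χ' : centralizer ({z} : Set G) →* ℤˣ := MonoidHom.mk' (fun g => χ g) fun g h =>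
    hχ _ _ (mem_centralizer_singleton_iff.mp g.2) (mem_centralizer_singleton_iff.mp h.2)
  have NC : normalizer (F.J : Set G) ≤ centralizer {z} := fun g hg => mem_centralizer_singleton_iff.mpr (hN g hg)
  have SC := SN.trans NC
  have xS : x ∈ S := JS (F.A_le_J I hx)
  have hM : (S ⊓ χ'.ker.map (centralizer ({z} : Set G)).subtype).relIndex S = 2 := by
    rw [inf_relIndex_left, relIndex, index_eq_two_iff]
    refine ⟨⟨x, xS⟩, fun b => ?_⟩
    have k : ∀ g : S, g ∈ (χ'.ker.map (centralizer ({z} : Set G)).subtype).subgroupOf S ↔ χ g = 1 := fun g =>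
      ⟨fun ⟨y, hy, e⟩ => by rw [← show (y : G) = g from e]; exact hy, fun h => ⟨⟨g, SC g.2⟩, h, rfl⟩⟩
    rw [k, k, coe_mul, hχ _ _ (hN _ (SN b.2)) (hN _ (SN xS)), h1]
    rcases Int.units_eq_one_or (χ b) with e | e <;> rw [e] <;> decide
  have hodd : Odd S.index := by
    obtain ⟨T, rfl⟩ := hS.exists_sylow_top
    exact Nat.not_even_iff_odd.mp fun e => T.not_dvd_index (even_iff_two_dvd.mp e)
  obtain ⟨g, ⟨gS, y, hy, ey⟩, hg⟩ := H7.thompson_extremal hG hodd inf_le_left hM (F.A_sq hx) (T := F.A I)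
    ((pJ F).to_le (F.A_le_J I)) fun w hw => by
      have k := F.A_sq (mul_mem hw hx)
      calc w * x = w * (w * x * (w * x)) * x := by rw [k, mul_one]
        _ = w * w * (x * w) * (x * x) := by group
        _ = _ := by rw [F.A_sq hw, F.A_sq hx, one_mul, mul_one]
  obtain ⟨I', e⟩ := hE (H8.cj g⁻¹ (F.A I)) (by
    rintro _ ⟨w, hw, rfl⟩
    have := hg w hw
    rwa [← inv_inv g, inv_inv g⁻¹] at this) (cj_sq (fun _ => F.A_sq) _) (by rw [H8.card_cj, F.card_A])
  obtain ⟨c, hc, hn⟩ := F.conj_J hJ (F.J_le_norm I) (h := g) (by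
    rw [← H8.cj_cj_inv g (F.A I), e, ← H8.cj_normalizer]
    exact H8.cj_mono _ (F.J_le_norm I'))
  refine ⟨c, hc, ?_⟩
  have k : χ' (⟨c * g, NC hn⟩ * y * ⟨c * g, NC hn⟩⁻¹) = 1 := by
    rw [map_mul, map_mul, show χ' y = 1 from hy, mul_one, map_inv, mul_inv_cancel]
  rw [← k]
  change _ = χ (c * g * (y : G) * (c * g)⁻¹)
  rw [show (y : G) = g⁻¹ * x * g from ey]
  congr 1
  group

end Cfsg.Agent.WA.Al
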