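import Cfsg.Agent.WA.AlCh
import Cfsg.Agent.WA.AlJB
import Cfsg.Agent.WA.AlPres
import Cfsg.Agent.WA.AlCs0
import Mathlib.GroupTheory.SpecificGroups.Alternating.Simple

/-! S3218, module AlStd. -/

set_option autoImplicit false
set_option linter.unusedSectionVars false
set_option linter.unusedSimpArgs false

namespace Cfsg.Agent.WA.Al

open Subgroup Equiv

variable {B : Type} [Fintype B] [DecidableEq B] {s : ℕ}

namespace StdH

open Cs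

theorem pb_y (π : Perm B) (d : B) : pb s π * y0 s d * (pb s π)⁻¹ = y0 s (π d) ∧
    pb s π * a0 s d * (pb s π)⁻¹ = a0 s (π d) ∧ pb s π * e0 s d * (pb s π)⁻¹ = e0 s (π d) := by
  refine ⟨?_, ?_, ?_⟩
  all_goals
    rw [mul_inv_eq_iff_eq_mul]
    refine Subtype.ext (Equiv.ext ?_)
    rintro (⟨x, i⟩ | j) <;>
      simp only [mul_ap, pb_l, pb_r, y0_l, y0_r, a0_l, a0_r, e0_l, e0_r, EmbeddingLike.apply_eq_iff_eq]

theorem ia (π : Perm B) (b : B) : π⁻¹ (π b) = b := by simp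

abbrev P6 : Type := Pt Unit 0

def p0 : P6 := Sum.inl ((), 0)
def p1 : P6 := Sum.inl ((), 1)

def g (i : P6) : Alt P6 := if h : p0 ≠ i then c3 p0 p1 i (by decide) h else 1

def g2 : Alt P6 := g (Sum.inl ((), 2))
def g3 : Alt P6 := g (Sum.inl ((), 3))
def g4 : Alt P6 := g (Sum.inr 0)
def g5 : Alt P6 := g (Sum.inr 1)

def x6 : P6 → Alt P6
  | Sum.inl (_, i) => if i = 2 then g4 * g5 * g2 * g3 else g2 * g3 * g5 * g4
  | Sum.inr j => if j = 0 then g2 * g3 * g4 * g2 * g3 * g5 else g2 * g3 * g3 * g5 * g4 * g2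

instance dq : DecidableEq (Alt P6) := inferInstance

set_option synthInstance.maxSize 4096

theorem r3 : ∀ i, p0 ≠ i → p1 ≠ i → x6 i ^ 3 = 1 := by decide +kernel
theorem r2 : ∀ i j, p0 ≠ i → p1 ≠ i → p0 ≠ j → p1 ≠ j → i ≠ j → (x6 i * x6 j) ^ 2 = 1 := by decide +kernel
theorem w1 : a0 0 () = g2 * g3 ∧ e0 0 () = g4 * g5 * g5 * g4 ∧ y0 0 () = g2 * g3 * g3 * g2 := by decide +kernel
theorem w2 : x6 (Sum.inl ((), 2)) * x6 (Sum.inl ((), 3)) = e0 0 () ∧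
    x6 (Sum.inr 0) * x6 (Sum.inr 1) * x6 (Sum.inr 1) * x6 (Sum.inr 0) = a0 0 () ∧
    x6 (Sum.inl ((), 2)) * x6 (Sum.inl ((), 3)) * x6 (Sum.inl ((), 3)) * x6 (Sum.inl ((), 2)) = y0 0 () ∧
    e0 0 () ≠ (1 : Alt P6) := by decide +kernel

theorem out0 : ∃ ω : MulAut (Alt P6), ω (y0 0 ()) = y0 0 () ∧ ω (a0 0 ()) = e0 0 () ∧ ω (e0 0 ()) = a0 0 () := by
  obtain ⟨Φ, hΦ⟩ := pres (a := p0) (b := p1) (by decide) x6 r3 r2
  have hg : ∀ i, p0 ≠ i → p1 ≠ i → Φ (g i) = x6 i := fun i h h' => by rw [g, dif_pos h, hΦ i h h']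
  have h2 : Φ g2 = _ := hg _ (by decide) (by decide)
  have h3 : Φ g3 = _ := hg _ (by decide) (by decide)
  have h4 : Φ g4 = _ := hg _ (by decide) (by decide)
  have h5 : Φ g5 = _ := hg _ (by decide) (by decide)
  have ha : Φ (a0 0 ()) = e0 0 () := by rw [w1.1, map_mul, h2, h3, w2.1]
  have he : Φ (e0 0 ()) = a0 0 () := by rw [w1.2.1, map_mul, map_mul, map_mul, h4, h5, w2.2.1]
  have hy : Φ (y0 0 ()) = y0 0 () := by
    conv_lhs => rw [w1.2.2, map_mul, map_mul, map_mul, h2, h3, w2.2.2.1]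
  have : IsSimpleGroup (Alt P6) := alternatingGroup.isSimpleGroup (by simp)
  have hi : Function.Injective Φ := by
    rcases IsSimpleGroup.eq_bot_or_eq_top_of_normal Φ.ker inferInstance with h | h
    · exact (MonoidHom.ker_eq_bot_iff Φ).1 h
    · have : a0 0 () ∈ Φ.ker := h ▸ mem_top _
      exact (w2.2.2.2 (ha.symm.trans this)).elim
  exact ⟨MulEquiv.ofBijective Φ (Finite.injective_iff_bijective.1 hi), hy, ha, he⟩

end StdH

open StdH Cs in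
theorem std (hs : s ≤ 1) (F : JF (Alt (Pt B s)) B) : ∃ ω : MulAut (Alt (Pt B s)), ∀ b, ω (F.y b) = y0 s b ∧
    (((∃ P, ω (F.a b) = a0 s b * yK s P) ∧ ∃ P, ω (F.e b) = e0 s b * yK s P) ∨
      ((∃ P, ω (F.a b) = e0 s b * yK s P) ∧ ∃ P, ω (F.e b) = a0 s b * yK s P)) := by
  have : Fact (Nat.Prime 2) := ⟨Nat.prime_two⟩
  obtain ⟨F0, hy, ha, he, hJ, hP⟩ := exists_jf0 (B := B) hs
  obtain ⟨S, hS, h0⟩ := H8.exists_isSylowIn_ge (JB.pJ F0) (le_top : F0.J ≤ ⊤)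
  obtain ⟨S', hS', h1⟩ := H8.exists_isSylowIn_ge (JB.pJ F) (le_top : F.J ≤ ⊤)
  obtain ⟨k, -, hk⟩ := hS'.exists_cj_eq hS
  have hle : (JA.cf F k).J ≤ S := by rw [JA.cf_J, ← hk]; exact H8.cj_mono k h1
  have hJ' : (JA.cf F k).J = F0.J := by
    refine eq_of_le_of_card_ge ?_ (by rw [JF.card_J, JF.card_J])
    rw [JF.J_eq]
    refine iSup_le fun I => ?_
    obtain ⟨I', e⟩ := (F0.max_two hJ hS.pgroup h0).2 _ (((JA.cf F k).A_le_J I).trans hle)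
      (fun x hx => JF.A_sq _ hx) (by rw [JF.card_A])
    rw [e]; exact F0.A_le_J I'
  obtain ⟨π, hπ⟩ := F0.two_frames (JA.cf F k) hJ'
  have cy : ∀ b, pb s π⁻¹ * F0.y b * (pb s π⁻¹)⁻¹ = F0.y (π⁻¹ b) := fun b => by rw [hy]; exact (pb_y π⁻¹ b).1
  have key : ∀ {u u' w : Alt (Pt B s)}, u * u = 1 → u * w ∈ F0.Z → pb s π⁻¹ * u * (pb s π⁻¹)⁻¹ = u' →
      ∃ P, pb s π⁻¹ * w * (pb s π⁻¹)⁻¹ = u' * yK s P := by
    intro u u' w h2 hZ hu
    obtain ⟨P, e⟩ := F0.mem_Z.1 hZ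
    refine ⟨P.map (π⁻¹).toEmbedding, ?_⟩
    rw [← hP, ← F0.yP_conj π⁻¹ cy P, ← hu, ← e]
    calc pb s π⁻¹ * w * (pb s π⁻¹)⁻¹ = pb s π⁻¹ * (u * u) * w * (pb s π⁻¹)⁻¹ := by rw [h2, mul_one]
      _ = _ := by group
  have ca : ∀ b, pb s π⁻¹ * F0.a (π b) * (pb s π⁻¹)⁻¹ = a0 s b := fun b => by
    rw [ha, (pb_y π⁻¹ _).2.1, ia π]
  have ce : ∀ b, pb s π⁻¹ * F0.e (π b) * (pb s π⁻¹)⁻¹ = e0 s b := fun b => by
    rw [he, (pb_y π⁻¹ _).2.2, ia π]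
  refine ⟨MulAut.conj (pb s π⁻¹) * MulAut.conj k, fun b => ⟨?_, ?_⟩⟩
  · show pb s π⁻¹ * (JA.cf F k).y b * (pb s π⁻¹)⁻¹ = _
    rw [(hπ b).1, cy, ia π, hy]
  · rcases (hπ b).2 with ⟨e1, e2⟩ | ⟨e1, e2⟩
    · exact Or.inl ⟨key (F0.a2 _) e1 (ca b), key (F0.e2 _) e2 (ce b)⟩
    · exact Or.inr ⟨key (F0.e2 _) e1 (ce b), key (F0.a2 _) e2 (ca b)⟩

open StdH Cs in
theorem out6 (hB : Fintype.card B = 1) (b : B) : ∃ ω : MulAut (Alt (Pt B 0)), ω (y0 0 b) = y0 0 b ∧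
    (∃ P, ω (a0 0 b) = e0 0 b * yK 0 P) ∧ ∃ P, ω (e0 0 b) = a0 0 b * yK 0 P := by
  have hb : ∀ c : B, c = b := fun c => Fintype.card_le_one_iff.1 hB.le c b
  let e : Pt B 0 ≃ P6 := Equiv.sumCongr (Equiv.prodCongr ⟨fun _ => (), fun _ => b, fun c => (hb c).symm, fun _ => rfl⟩
    (Equiv.refl _)) (Equiv.refl _)
  have el : ∀ c i, e (Sum.inl (c, i)) = Sum.inl ((), i) := fun _ _ => rfl
  have er : ∀ j, e (Sum.inr j) = Sum.inr j := fun _ => rfl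
  have el' : ∀ c i, e.symm (Sum.inl (c, i)) = Sum.inl (b, i) := fun _ _ => rfl
  have er' : ∀ j, e.symm (Sum.inr j) = Sum.inr j := fun _ => rfl
  have ap : ∀ (p : Alt (Pt B 0)) x, (e.altCongrHom p).1 x = e (p.1 (e.symm x)) := fun _ _ => rfl
  have h : e.altCongrHom (y0 0 b) = y0 0 () ∧ e.altCongrHom (a0 0 b) = a0 0 () ∧ e.altCongrHom (e0 0 b) = e0 0 () := by
    refine ⟨?_, ?_, ?_⟩
    all_goals
      refine Subtype.ext (Equiv.ext ?_)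
      rintro (⟨x, i⟩ | j) <;>
        simp only [ap, el, er, el', er', y0_l, y0_r, a0_l, a0_r, e0_l, e0_r, if_true]
  have h1 : yK 0 (∅ : Finset B) = 1 := by
    refine Subtype.ext (Equiv.ext ?_)
    rintro (⟨x, i⟩ | j)
    · rw [yK_l]; simp
    · rw [yK_r]; simp
  obtain ⟨ω, wy, wa, we⟩ := out0
  refine ⟨(e.altCongrHom.trans ω).trans e.altCongrHom.symm, ?_, ⟨∅, ?_⟩, ∅, ?_⟩
  · show e.altCongrHom.symm (ω (e.altCongrHom _)) = _
    rw [h.1, wy, ← h.1, MulEquiv.symm_apply_apply]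
  · show e.altCongrHom.symm (ω (e.altCongrHom _)) = _
    rw [h.2.1, wa, ← h.2.2, MulEquiv.symm_apply_apply, h1, mul_one]
  · show e.altCongrHom.symm (ω (e.altCongrHom _)) = _
    rw [h.2.2, we, ← h.2.1, MulEquiv.symm_apply_apply, h1, mul_one]

end Cfsg.Agent.WA.Al
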