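import Cfsg.Agent.WA.AlJB
import Cfsg.Agent.WA.AlIso
import Cfsg.Agent.WA.AlGen
import Cfsg.Agent.WA.AlPres
import Cfsg.Agent.WA.AlStd
import Cfsg.Agent.WA.AlCh
import Cfsg.Agent.WA.H3U5
import Cfsg.Agent.H7.Subnormal

/-! S3218: the central extension `C(V)` splits. -/

set_option autoImplicit false
set_option linter.unusedSectionVars false

namespace Cfsg.Agent.WA.Al

open Subgroup Equiv

universe u

variable {G : Type u} [Group G] [Finite G] {B : Type} [Fintype B] [DecidableEq B] {s : ℕ}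

namespace Is

theorem c3_cube {α : Type} [Fintype α] [DecidableEq α] {a b i : α} (hb : a ≠ b) (hi : a ≠ i) (h : b ≠ i) :
    c3 a b i hb hi ^ 3 = 1 := by
  apply Subtype.ext
  show (swap a i * swap a b : Perm α) ^ 3 = 1
  ext x
  simp only [pow_succ, pow_zero, one_mul, Perm.mul_apply, swap_apply_def, Perm.one_apply]
  grind

theorem c3_sq {α : Type} [Fintype α] [DecidableEq α] {a b i j : α} (hb : a ≠ b) (hi : a ≠ i) (h : b ≠ i) (hj : a ≠ j)
    (h' : b ≠ j) (hij : i ≠ j) : c3 a b i hb hi * c3 a b j hb hj * (c3 a b i hb hi * c3 a b j hb hj) = 1 := by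
  apply Subtype.ext
  show (swap a i * swap a b * (swap a j * swap a b) * (swap a i * swap a b * (swap a j * swap a b)) : Perm α) = 1
  ext x
  simp only [Perm.mul_apply, swap_apply_def, Perm.one_apply]
  grind

/-- a central extension of `A_n` by an elementary 2-group in which involutions lift to involutions splits -/
theorem split {α : Type} [Fintype α] [DecidableEq α] {X : Type*} [Group X] {a b : α} (hab : a ≠ b) (p : X →* Alt α)
    (hp : Function.Surjective p) (h2 : ∀ x, p x * p x = 1 → x * x = 1) :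
    ∃ Φ : Alt α →* X, (∀ q, p (Φ q) = q) ∧ ∀ H : Subgroup X, (∀ x, x ^ 3 = 1 → x ∈ H) → Φ.range ≤ H := by
  have ex : ∀ i, ∃ x : X, ∀ hi : a ≠ i, b ≠ i → x ^ 3 = 1 ∧ p x = c3 a b i hab hi := fun i => by
    by_cases hi : a = i
    · exact ⟨1, fun h => absurd hi h⟩
    obtain ⟨x, hx⟩ := hp (c3 a b i hab hi)
    refine ⟨x ^ 4, fun _ h => ⟨?_, ?_⟩⟩
    · have := h2 (x ^ 3) (by rw [map_pow, hx, c3_cube hab hi h, one_mul])
      rw [← pow_mul, show 4 * 3 = 3 + 3 + (3 + 3) by rfl, pow_add, pow_add, this, one_mul]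
    · rw [map_pow, hx, pow_succ, c3_cube hab hi h, one_mul]
  choose x hx using ex
  obtain ⟨Φ, hΦ⟩ := pres hab x (fun i hi h => (hx i hi h).1) (fun i j hi h hj h' hij => by
    rw [pow_two]
    exact h2 _ (by rw [map_mul, (hx i hi h).2, (hx j hj h').2, c3_sq hab hi h hj h' hij]))
  have gen : ∀ q : Alt α, q ∈ closure {q : Alt α | ∃ i, ∃ hi : a ≠ i, b ≠ i ∧ i ∈ Finset.univ ∧ q = c3 a b i hab hi} :=
    fun q => closure_c3 hab Finset.univ (Finset.mem_univ _) (Finset.mem_univ _) (Finset.subset_univ _)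
  refine ⟨Φ, fun q => ?_, fun H hH => ?_⟩
  · refine MonoidHom.eqOn_closure (f := p.comp Φ) (g := MonoidHom.id _) ?_ (gen q)
    rintro _ ⟨i, hi, h, -, rfl⟩
    show p (Φ _) = _
    rw [hΦ i hi h, (hx i hi h).2]; rfl
  · rintro _ ⟨q, rfl⟩
    refine (closure_le (H.comap Φ)).2 ?_ (gen q)
    rintro _ ⟨i, hi, h, -, rfl⟩
    show Φ _ ∈ H
    rw [hΦ i hi h]; exact hH _ (hx i hi h).1

theorem map_yP {H : Type*} [Group H] [Finite H] {H' : Type*} [Group H'] [Finite H'] {B' : Type} [Fintype B'] [DecidableEq B']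
    (F : JF H B) (F' : JF H' B') (f : H →* H') (ι : B ↪ B') (h : ∀ b, f (F.y b) = F'.y (ι b)) (P : Finset B) :
    f (F.yP P) = F'.yP (P.map ι) := by
  induction P using Finset.induction_on with
  | empty => rw [F.yP_empty, map_one, Finset.map_empty, JF.yP_empty]
  | insert b P hb ih =>
    rw [F.yP_insert hb, map_mul, ih, h, Finset.map_insert, JF.yP_insert]
    rw [Finset.mem_map']; exact hb

theorem memV {F : JF G B} {b : B} {v : G} (h : v ∈ F.V b) : v = 1 ∨ v = F.a b ∨ v = F.y b ∨ v = F.y b * F.a b :=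
  H3.U.mem_cl2 (F.y2 b) (F.a2 b) (F.ya b b) h

theorem V_sq {F : JF G B} {b : B} {v : G} (h : v ∈ F.V b) : v * v = 1 := by
  rcases memV h with rfl | rfl | rfl | rfl
  · exact one_mul _
  · exact F.a2 b
  · exact F.y2 b
  · rw [mul_assoc, ← mul_assoc (F.a b), ← F.ya, mul_assoc, F.a2, mul_one, F.y2]

theorem yP_V {F : JF G B} {b : B} {Q : Finset B} (hb : b ∉ Q) (h : F.yP Q ∈ F.V b) : Q = ∅ := by
  have na : F.e b * F.a b ≠ F.a b * F.e b := fun e => F.y_ne b (by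
    rw [← F.ae b, ← e, mul_assoc (F.e b), F.a2, mul_one, F.e2])
  have c := F.yP_comm Q (F.e_memJ b)
  rcases memV h with e | e | e | e
  · exact F.yP_inj (e.trans F.yP_empty.symm)
  · rw [e] at c; exact absurd c na
  · rw [← F.yP_single] at e
    exact absurd (by rw [F.yP_inj e]; simp) hb
  · rw [e, ← mul_assoc, ← F.ye, mul_assoc, mul_assoc, mul_right_inj] at c
    exact absurd c na

/-- the frame of the other blocks inside a subgroup -/
def sub (F : JF G B) (b₁ : B) (X : Subgroup G) (ha : ∀ b, b ≠ b₁ → F.a b ∈ X) (he : ∀ b, b ≠ b₁ → F.e b ∈ X)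
    (hy : ∀ b, b ≠ b₁ → F.y b ∈ X) : JF X {b // b ≠ b₁} where
  y b := ⟨F.y b, hy b b.2⟩
  a b := ⟨F.a b, ha b b.2⟩
  e b := ⟨F.e b, he b b.2⟩
  a2 b := Subtype.ext (F.a2 b)
  e2 b := Subtype.ext (F.e2 b)
  y2 b := Subtype.ext (F.y2 b)
  ae b := Subtype.ext (F.ae b)
  aa b c := Subtype.ext (F.aa b c)
  ee b c := Subtype.ext (F.ee b c)
  ac b c h := Subtype.ext (F.ac b c fun e => h (Subtype.ext e))
  ya b c := Subtype.ext (F.ya b c)
  ye b c := Subtype.ext (F.ye b c)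
  yy b c := Subtype.ext (F.yy b c)
  ind P h := by
    have := (Finset.map_noncommProd _ _ _ X.subtype).symm.trans ((congrArg X.subtype h).trans (map_one _))
    have h2 := F.ind (P.map (Function.Embedding.subtype _)) (by
      rw [← this]
      unfold Finset.noncommProd
      congr 1
      rw [Finset.map_val, Multiset.map_map]; rfl)
    exact Finset.map_eq_empty.1 h2

/-- the image of a frame -/
def img {H H' : Type*} [Group H] [Group H'] (F : JF H B) (f : H →* H') (h : ∀ P, f (F.yP P) = 1 → P = ∅) : JF H' B where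
  y b := f (F.y b)
  a b := f (F.a b)
  e b := f (F.e b)
  a2 b := by rw [← map_mul, F.a2, map_one]
  e2 b := by rw [← map_mul, F.e2, map_one]
  y2 b := by rw [← map_mul, F.y2, map_one]
  ae b := by rw [← map_mul, ← map_mul, ← map_mul, F.ae]
  aa b c := by rw [← map_mul, F.aa, map_mul]
  ee b c := by rw [← map_mul, F.ee, map_mul]
  ac b c h := by rw [← map_mul, F.ac b c h, map_mul]
  ya b c := by rw [← map_mul, F.ya, map_mul]
  ye b c := by rw [← map_mul, F.ye, map_mul]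
  yy b c := (F.yy b c).map f
  ind P e := h P ((Finset.map_noncommProd _ _ _ f).trans e)

theorem cj_V (F : JF G B) {g : G} {b c : B} (h1 : g * F.y b * g⁻¹ = F.y c) (h2 : g * F.a b * g⁻¹ = F.a c) :
    H8.cj g (F.V b) = F.V c := by
  unfold JF.V H8.cj
  rw [MonoidHom.map_closure, Set.image_pair, ← h1, ← h2]; rfl

end Is

theorem CS.mid_two (S : CS G B s) (hs : s ≤ 1) {b₁ b₂ : B} (T : Two S b₁ b₂ 1)
    (hg : centralizer ({S.z} : Set G) ⊓ centralizer (S.V b₁ : Set G) ≤ S.V b₁ ⊔ Od (centralizer (S.V b₁ : Set G)))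
    (p : ↥(S.V b₁ ⊔ Od (centralizer (S.V b₁ : Set G))) →* Alt (Pt {b // b ≠ b₁} s))
    (hp : Function.Surjective p) (hk : ∀ x, p x = 1 ↔ x.1 ∈ S.V b₁) : Nonempty (Mid G B s) := by
  revert hg p
  generalize hX : S.V b₁ ⊔ Od (centralizer (S.V b₁ : Set G)) = X
  intro hg p hp hk
  have mX : ∀ g ∈ S.J, g * S.y b₁ = S.y b₁ * g → g * S.a b₁ = S.a b₁ * g → g ∈ X := fun g hJ c1 c2 =>
    hg ⟨H3.U.mem_cen1.2 (by rw [S.hz]; exact S.yP_comm _ hJ), (Gen.mem_cV _ _).2 ⟨c1, c2⟩⟩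
  have yJ : ∀ b, S.y b ∈ S.J := fun b => S.A_le_J (fun _ => true) (S.y_mem _ b)
  have VC : S.V b₁ ≤ centralizer (S.V b₁ : Set G) := (closure_le _).2 (by
    rintro _ (rfl | rfl)
    · exact (Gen.mem_cV _ _).2 ⟨rfl, S.ya _ _⟩
    · exact (Gen.mem_cV _ _).2 ⟨(S.ya _ _).symm, rfl⟩)
  have XC : X ≤ centralizer (S.V b₁ : Set G) := hX ▸ sup_le VC ((closure_le _).2 fun _ h => h.1)
  let F₁ := Is.sub S.toJF b₁ X (fun b _ => mX _ (S.a_memJ b) (S.ya _ _).symm (S.aa _ _))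
    (fun b h => mX _ (S.e_memJ b) (S.ye _ _).symm (S.ac _ _ h.symm).symm) (fun b _ => mX _ (yJ b) (S.yy _ _) (S.ya _ _))
  let ι : {b // b ≠ b₁} ↪ B := Function.Embedding.subtype _
  have v₁ : ∀ P, (F₁.yP P).1 = S.yP (P.map ι) := fun P => Is.map_yP F₁ S.toJF X.subtype ι (fun _ => rfl) P
  have nι : ∀ P : Finset {b // b ≠ b₁}, b₁ ∉ P.map ι := fun P => by simp [ι]
  let F₂ := Is.img F₁ p fun P h => Finset.map_eq_empty.1 (Is.yP_V (nι P) (by rw [← v₁]; exact (hk _).1 h))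
  have v₂ : ∀ P, p (F₁.yP P) = F₂.yP P := fun P => by
    rw [Is.map_yP F₁ F₂ p (Function.Embedding.refl _) (fun _ => rfl) P, Finset.map_refl]
  obtain ⟨ω, hω⟩ := std hs F₂
  obtain ⟨F0, hy, -, -, -, hP⟩ := exists_jf0 (B := {b // b ≠ b₁}) hs
  have v₃ : ∀ P, ω (F₂.yP P) = yK s P := fun P => by
    rw [← hP]
    exact (Is.map_yP F₂ F0 ω.toMonoidHom (Function.Embedding.refl _) (fun b => by rw [hy]; exact (hω b).1) P).trans
      (by rw [Finset.map_refl])
  have cls : ∀ q : Alt (Pt {b // b ≠ b₁} s), q * q = 1 → ∃ P c, c * F₂.yP P * c⁻¹ = q := fun q q2 => by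
    obtain ⟨P, h⟩ := exists_yK hs (p := ω q) (by rw [← map_mul, q2, map_one])
    obtain ⟨c, hc⟩ := isConj_iff.1 h.symm
    exact ⟨P, ω.symm c, ω.injective (by rw [map_mul, map_mul, map_inv, v₃, MulEquiv.apply_symm_apply, hc])⟩
  have y2 : ∀ P, F₁.yP P * F₁.yP P = 1 := fun P => by rw [JF.yP_mul, symmDiff_self, Finset.bot_eq_empty, JF.yP_empty]
  have sqv : ∀ x u : X, p x = p u → x * x = u * u := fun x u e => by
    have hv : (x * u⁻¹).1 ∈ S.V b₁ := (hk _).1 (by rw [map_mul, map_inv, e, mul_inv_cancel])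
    have c : (x * u⁻¹) * u = u * (x * u⁻¹) := Subtype.ext (XC u.2 _ hv)
    have c2 : (x * u⁻¹) * (x * u⁻¹) = 1 := Subtype.ext (Is.V_sq hv)
    calc x * x = (x * u⁻¹) * (u * (x * u⁻¹)) * u := by group
      _ = (x * u⁻¹) * (x * u⁻¹) * (u * u) := by rw [← c]; group
      _ = u * u := by rw [c2, one_mul]
  obtain ⟨Φ, hΦ, hH⟩ := Is.split (a := (Sum.inr 0 : Pt {b // b ≠ b₁} s)) (b := Sum.inr 1)
    (fun h => Fin.zero_ne_one (Sum.inr_injective h)) p hp (fun x x2 => by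
      obtain ⟨P, c, hc⟩ := cls _ x2
      obtain ⟨c, rfl⟩ := hp c
      rw [sqv x (c * F₁.yP P * c⁻¹) (by rw [map_mul, map_mul, map_inv, v₂, hc]), conj_mul, y2]; simp)
  let κ := X.subtype.comp Φ
  have sqK : ∀ x : X, (x * x).1 ∈ κ.range := fun x => ⟨p x * p x, by
    rw [sqv x (Φ (p x)) (hΦ _).symm, map_mul]; rfl⟩
  have KO : κ.range = Od (centralizer (S.V b₁ : Set G)) := by
    apply le_antisymm
    · rintro _ ⟨q, rfl⟩
      exact hH ((Od _).subgroupOf X) (fun x hx => subset_closure ⟨XC x.2, by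
        rw [coe_subtype, orderOf_coe]
        exact (show Odd 3 by decide).of_dvd_nat (orderOf_dvd_of_pow_eq_one hx)⟩) ⟨q, rfl⟩
    · refine (closure_le _).2 fun x hx => ?_
      have mx : x ∈ X := hX ▸ mem_sup_right (subset_closure hx)
      obtain ⟨k, hk⟩ := hx.2
      have : x = (x * x) ^ (k + 1) := by
        rw [← pow_two, ← pow_mul, show 2 * (k + 1) = orderOf x + 1 by omega, pow_succ, pow_orderOf_eq_one, one_mul]
      rw [this]
      exact pow_mem (sqK ⟨x, mx⟩) _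
  have yK' : ∀ b, b ≠ b₁ → S.y b ∈ κ.range := fun b h => by
    have := sqK (F₁.a ⟨b, h⟩ * F₁.e ⟨b, h⟩)
    rwa [← mul_assoc, F₁.ae] at this
  have κp : ∀ x : X, x.1 ∈ κ.range → Φ (p x) = x := by
    rintro x ⟨q, hq⟩
    have : Φ q = x := Subtype.ext hq
    rw [← this, hΦ]
  have yPK : ∀ P, (F₁.yP P).1 ∈ κ.range := fun P => by
    have : F₁.yP P ∈ κ.range.subgroupOf X := JA.yP_mem F₁ (fun b => yK' b b.2) P
    exact this
  have κy : ∀ P, κ (F₂.yP P) = S.yP (P.map ι) := fun P => by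
    rw [← v₂, ← v₁]; exact congrArg Subtype.val (κp _ (yPK P))
  have κC : ∀ q, κ q ∈ centralizer (S.V b₁ : Set G) := fun q => XC (Φ q).2
  obtain ⟨σ, -, hσ⟩ := S.sw b₁ b₂ ⟨fun _ => T.m2, fun _ => T.m1⟩
  refine ⟨{ toJF := S.toJF, hs := hs, jg := S.jg, b₁ := b₁, b₂ := b₂, ne := T.ne.symm, r1 := ?_, κ := κ, inj := ?_, cV := ?_,
            disj := ?_, v2 := ?_, σ := σ, σJ := S.mem_normJ _ fun d => (hσ d).2, σy := fun b => (hσ b).1, σ1 := ?_, σ2 := ?_,
            alt := Or.inr ⟨?_, S.K, T.m1, ?_⟩, x3 := ?_ }⟩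
  · obtain ⟨t, r, -⟩ := T.r1
    exact ⟨t, by rwa [mul_one] at r⟩
  · exact X.subtype_injective.comp (Function.LeftInverse.injective hΦ)
  · rw [KO, hX]
    refine le_antisymm (fun x hx => ?_) XC
    have e0 : ((S.K.erase b₁).subtype _).map ι = S.K.erase b₁ :=
      Finset.subtype_map_of_mem fun _ h => Finset.ne_of_mem_erase h
    set P₀ := (S.K.erase b₁).subtype (fun b => b ≠ b₁)
    obtain ⟨q, hq⟩ : x * S.yP (P₀.map ι) * x⁻¹ ∈ κ.range := by
      rw [KO]; exact Gen.od_conj hx (by rw [← KO, ← κy]; exact ⟨_, rfl⟩)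
    have q2 : q * q = 1 := (X.subtype_injective.comp (Function.LeftInverse.injective hΦ)) (show κ _ = κ _ by
      rw [map_mul, hq, conj_mul, JF.yP_mul, symmDiff_self, Finset.bot_eq_empty, JF.yP_empty]; simp)
    obtain ⟨P, c, hc⟩ := cls q q2
    have wt := S.toJF.wt S.jg (P := P₀.map ι) (Q := P.map ι) ((isConj_iff.2 ⟨x, hq.symm⟩).trans (IsConj.symm (isConj_iff.2
      ⟨κ c, by rw [← hc, map_mul, map_mul, map_inv, κy]⟩)))
    rw [Finset.card_map, Finset.card_map] at wt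
    have yy : ∀ P : Finset {b // b ≠ b₁}, yK s P * yK s P = 1 := fun P => by
      rw [← hP, JF.yP_mul, symmDiff_self, Finset.bot_eq_empty, JF.yP_empty]
    obtain ⟨d, hd⟩ := isConj_iff.1 (isConj_of_supp (yy P) (yy P₀) (by rw [card_supp_yK, card_supp_yK, wt]))
    have hd' : ω.symm d * F₂.yP P * (ω.symm d)⁻¹ = F₂.yP P₀ :=
      ω.injective (by rw [map_mul, map_mul, map_inv, v₃, v₃, MulEquiv.apply_symm_apply, hd])
    have e1 : κ (ω.symm d * c⁻¹) * x * S.yP (P₀.map ι) * (κ (ω.symm d * c⁻¹) * x)⁻¹ = S.yP (P₀.map ι) := by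
      calc _ = κ (ω.symm d * c⁻¹) * (x * S.yP (P₀.map ι) * x⁻¹) * (κ (ω.symm d * c⁻¹))⁻¹ := by group
        _ = _ := by
          rw [← hq, ← map_inv, ← map_mul, ← map_mul, ← κy, ← hd', ← hc]
          congr 1; group
    have m1 : κ (ω.symm d * c⁻¹) * x ∈ centralizer (S.V b₁ : Set G) := mul_mem (κC _) hx
    have m2 : κ (ω.symm d * c⁻¹) * x ∈ X := hg ⟨H3.U.mem_cen1.2 (by
      rw [S.hz, ← Finset.insert_erase T.m1, JF.yP_insert _ (by simp), ← e0, ← mul_assoc, ((Gen.mem_cV _ _).1 m1).1,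
        mul_assoc, mul_inv_eq_iff_eq_mul.1 e1, ← mul_assoc]), m1⟩
    exact (mul_mem_cancel_left (Φ _).2).1 m2
  · rw [eq_bot_iff]
    rintro _ ⟨hv, q, rfl⟩
    have := (hk (Φ q)).2 hv
    rw [hΦ] at this
    rw [this, map_one]; exact one_mem _
  · obtain ⟨t, r, c1, c2⟩ := T.r2
    rw [mul_one] at r c2
    have := Gen.rot_mem r ((Gen.mem_cV _ _).2 ⟨c1, c2⟩) ((Gen.mem_cV S.toJF b₁).2 ⟨S.yy _ _, S.ya _ _⟩)
    rw [KO]
    refine (closure_le _).2 ?_
    rintro _ (rfl | rfl)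
    exacts [this.1, this.2]
  · exact Is.cj_V _ (by rw [(hσ _).1, swap_apply_left]) (by rw [(hσ _).2.1, swap_apply_left])
  · exact Is.cj_V _ (by rw [(hσ _).1, swap_apply_right]) (by rw [(hσ _).2.1, swap_apply_right])
  · obtain ⟨g, -, e, -⟩ := S.sp b₁ T.m1 b₂ T.m2 T.ne
    exact ⟨1, one_mem _, isConj_iff.2 ⟨g, by rw [e, mul_one]⟩⟩
  · rw [← S.hz]; exact S.cz b₁ T.m1
  · intro h _
    obtain ⟨x, ox, hx⟩ := S.x3 h
    exact ⟨x, ox, (Gen.mem_cV _ _).2 (hx _), (Gen.mem_cV _ _).2 (hx _)⟩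

end Cfsg.Agent.WA.Al
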