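import Cfsg.Agent.WA.AlDef
import Mathlib.GroupTheory.NoncommPiCoprod
import Mathlib.Tactic.DeriveFintype

/-! S3218, module AlJA, part 0: the coordinate model of `J`. -/

set_option autoImplicit false

namespace Cfsg.Agent.WA.Al.JA

open Subgroup

/-- `y^k a^i e^j` -/
@[ext] structure D where
  k : Bool
  i : Bool
  j : Bool
  deriving DecidableEq, Fintype

namespace D

instance : Mul D := ⟨fun m n => ⟨xor (xor m.k n.k) (m.j && n.i), xor m.i n.i, xor m.j n.j⟩⟩
instance : One D := ⟨⟨false, false, false⟩⟩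
instance : Inv D := ⟨fun m => ⟨xor m.k (m.i && m.j), m.i, m.j⟩⟩

instance : Group D where
  mul_assoc := by decide
  one_mul := by decide
  mul_one := by decide
  inv_mul_cancel := by decide

def y : D := ⟨true, false, false⟩
def a : D := ⟨false, true, false⟩
def e : D := ⟨false, false, true⟩
def h (t : Bool) : D := if t then a else e
def o (t : Bool) : D := if t then e else a
/-- central -/
def Ce (d : D) : Prop := d.i = false ∧ d.j = false
/-- in the four-group of type `t` -/
def In (t : Bool) (d : D) : Prop := if t then d.j = false else d.i = false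

instance (d : D) : Decidable d.Ce := by unfold Ce; infer_instance
instance (t : Bool) (d : D) : Decidable (In t d) := by unfold In; infer_instance

theorem card_D : Nat.card D = 8 := by rw [Nat.card_eq_fintype_card]; rfl

end D

variable {G : Type*} [Group G] {B : Type} (F : JF G B)

def bp (g : G) (t : Bool) : G := if t then g else 1

theorem bp_mul {g : G} (h : g * g = 1) (s t : Bool) : bp g (xor s t) = bp g s * bp g t := by
  cases s <;> cases t <;> simp [bp, h]

theorem bp_comm {g g' : G} (h : Commute g g') (s t : Bool) : Commute (bp g s) (bp g' t) := by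
  cases s <;> cases t <;> simp [bp, h]

theorem ea (b : B) : F.e b * F.a b = F.y b * F.a b * F.e b := by
  rw [← F.ae b]
  have h1 := F.a2 b
  have h2 := F.e2 b
  have h3 := F.y2 b
  rw [← F.ae b] at h3
  calc F.e b * F.a b = F.a b * F.e b * F.a b * F.e b * (F.a b * F.e b * F.a b * F.e b) * (F.e b * F.a b) := by
        rw [h3, one_mul]
    _ = F.a b * F.e b * F.a b * F.e b * F.a b * F.e b * F.a b * (F.e b * F.e b) * F.a b := by group
    _ = F.a b * F.e b * F.a b * F.e b * F.a b * F.e b * (F.a b * F.a b) := by rw [h2]; group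
    _ = _ := by rw [h1, mul_one]

theorem bp_ea (b : B) (s t : Bool) :
    bp (F.e b) s * bp (F.a b) t = bp (F.y b) (s && t) * bp (F.a b) t * bp (F.e b) s := by
  cases s <;> cases t <;> simp [bp, ea]

def ph (b : B) : D →* G := MonoidHom.mk' (fun d => bp (F.y b) d.k * bp (F.a b) d.i * bp (F.e b) d.j) (by
  intro m n
  change bp (F.y b) (xor (xor m.k n.k) (m.j && n.i)) * bp (F.a b) (xor m.i n.i) * bp (F.e b) (xor m.j n.j) = _
  have c1 : ∀ s t, bp (F.a b) s * bp (F.y b) t = bp (F.y b) t * bp (F.a b) s :=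
    fun s t => (bp_comm (F.ya b b) t s).symm.eq
  have c2 : ∀ s t, bp (F.e b) s * bp (F.y b) t = bp (F.y b) t * bp (F.e b) s :=
    fun s t => (bp_comm (F.ye b b) t s).symm.eq
  rw [bp_mul (F.y2 b), bp_mul (F.y2 b), bp_mul (F.a2 b), bp_mul (F.e2 b)]
  symm
  calc _ = bp (F.y b) m.k * (bp (F.a b) m.i * (bp (F.e b) m.j * bp (F.y b) n.k)) * bp (F.a b) n.i *
        bp (F.e b) n.j := by simp only [mul_assoc]
    _ = bp (F.y b) m.k * bp (F.y b) n.k * bp (F.a b) m.i * (bp (F.e b) m.j * bp (F.a b) n.i) *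
        bp (F.e b) n.j := by rw [c2, ← mul_assoc (bp (F.a b) m.i), c1]; simp only [mul_assoc]
    _ = bp (F.y b) m.k * bp (F.y b) n.k * (bp (F.a b) m.i * bp (F.y b) (m.j && n.i)) * bp (F.a b) n.i *
        bp (F.e b) m.j * bp (F.e b) n.j := by rw [bp_ea]; simp only [mul_assoc]
    _ = _ := by rw [c1]; simp only [mul_assoc])

theorem ph_apply (b : B) (d : D) : ph F b d = bp (F.y b) d.k * bp (F.a b) d.i * bp (F.e b) d.j := rfl
theorem ph_y (b : B) : ph F b D.y = F.y b := by simp [ph_apply, bp, D.y]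
theorem ph_a (b : B) : ph F b D.a = F.a b := by simp [ph_apply, bp, D.a]
theorem ph_e (b : B) : ph F b D.e = F.e b := by simp [ph_apply, bp, D.e]

theorem ph_comm : Pairwise fun b c => ∀ x y, Commute (ph F b x) (ph F c y) := by
  intro b c hbc x y
  rw [ph_apply, ph_apply]
  refine Commute.mul_left (Commute.mul_left ?_ ?_) ?_ <;> refine Commute.mul_right (Commute.mul_right ?_ ?_) ?_ <;>
    refine bp_comm ?_ _ _
  exacts [F.yy b c, F.ya b c, F.ye b c, (F.ya c b).symm, F.aa b c, F.ac b c hbc, (F.ye c b).symm,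
    (F.ac c b hbc.symm).symm, F.ee b c]

variable [Fintype B] [DecidableEq B]

/-- evaluation of the model -/
def ps : (B → D) →* G := MonoidHom.noncommPiCoprod (ph F) (ph_comm F)

theorem ps_single (b : B) (d : D) : ps F (Pi.mulSingle b d) = ph F b d :=
  MonoidHom.noncommPiCoprod_mulSingle _ _ _

theorem ps_y (b : B) : ps F (Pi.mulSingle b D.y) = F.y b := by rw [ps_single, ph_y]
theorem ps_a (b : B) : ps F (Pi.mulSingle b D.a) = F.a b := by rw [ps_single, ph_a]
theorem ps_e (b : B) : ps F (Pi.mulSingle b D.e) = F.e b := by rw [ps_single, ph_e]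
theorem ps_h (I : B → Bool) (b : B) : ps F (Pi.mulSingle b (D.h (I b))) = F.h I b := by
  unfold D.h JF.h
  split_ifs
  exacts [ps_a F b, ps_e F b]
theorem ps_o (I : B → Bool) (b : B) : ps F (Pi.mulSingle b (D.o (I b))) = F.o I b := by
  unfold D.o JF.o
  split_ifs
  exacts [ps_e F b, ps_a F b]

def ind (f : B → D) (P : Finset B) : B → D := fun b => if b ∈ P then f b else 1

omit [Fintype B] in
theorem ind_insert (f : B → D) {P : Finset B} {b : B} (h : b ∉ P) :
    ind f (insert b P) = Pi.mulSingle b (f b) * ind f P := by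
  funext c
  by_cases e : c = b
  · subst e; simp [ind, h]
  · simp [ind, e]

theorem ps_ind (f : B → D) (g : B → G) (hg : ∀ b, ps F (Pi.mulSingle b (f b)) = g b) (hc : ∀ b c, Commute (g b) (g c))
    (P : Finset B) : ps F (ind f P) = P.noncommProd g fun b _ c _ _ => hc b c := by
  induction P using Finset.induction_on with
  | empty => exact (map_one (ps F)).trans (Finset.noncommProd_empty _ _).symm
  | insert b P h ih =>
    rw [ind_insert f h, map_mul, ih, hg]
    exact (Finset.noncommProd_insert_of_notMem _ _ _ _ h).symm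

def ym (P : Finset B) : B → D := ind (fun _ => D.y) P
def hm (I : B → Bool) (Q : Finset B) : B → D := ind (fun b => D.h (I b)) Q

theorem ps_ym (P : Finset B) : ps F (ym P) = F.yP P := ps_ind F _ _ (ps_y F) F.yy P
theorem ps_hm (I : B → Bool) (Q : Finset B) : ps F (hm I Q) = F.hP I Q := ps_ind F _ _ (ps_h F I) (F.hh I) Q

theorem eq_ym {m : B → D} (h : ∀ b, (m b).Ce) : m = ym (Finset.univ.filter fun b => (m b).k) := by
  funext b
  have key : ∀ d : D, d.Ce → d = if d.k then D.y else 1 := by decide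
  simp only [ym, ind, Finset.mem_filter, Finset.mem_univ, true_and]
  exact key _ (h b)

theorem eq_ym_hm {I : B → Bool} {m : B → D} (h : ∀ b, D.In (I b) (m b)) :
    m = ym (Finset.univ.filter fun b => (m b).k) * hm I (Finset.univ.filter fun b => ¬ (m b).Ce) := by
  funext b
  have key : ∀ t, ∀ d : D, D.In t d → d = (if d.k then D.y else 1) * if ¬ d.Ce then D.h t else 1 := by decide
  simp only [Pi.mul_apply, ym, hm, ind, Finset.mem_filter, Finset.mem_univ, true_and]
  exact key _ _ (h b)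

omit [Fintype B] in
theorem ym_ce (P : Finset B) (b : B) : (ym P b).Ce := by
  simp only [ym, ind]; split_ifs <;> decide

omit [Fintype B] in
theorem ym_hm_in (I : B → Bool) (P Q : Finset B) (b : B) : D.In (I b) ((ym P * hm I Q) b) := by
  simp only [Pi.mul_apply, ym, hm, ind]
  cases I b <;> split_ifs <;> decide

theorem ps_inj : Function.Injective (ps F) := by
  rw [injective_iff_map_eq_one]
  have h1 : ∀ m, ps F m = 1 → (∀ b, (m b).Ce) → m = 1 := fun m hm hc => by
    rw [eq_ym hc, ps_ym] at hm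
    rw [eq_ym hc, F.ind _ hm]
    rfl
  intro m hm
  refine h1 m hm fun b => ?_
  have key : ∀ d : D, d * D.a * d⁻¹ * D.a⁻¹ = 1 → d * D.e * d⁻¹ * D.e⁻¹ = 1 → d.Ce := by decide
  have key2 : ∀ d d' : D, (d * d' * d⁻¹ * d'⁻¹).Ce := by decide
  have h2 : ∀ d : D, m b * d * (m b)⁻¹ * d⁻¹ = 1 := fun d => by
    have := h1 (m * Pi.mulSingle b d * m⁻¹ * (Pi.mulSingle b d)⁻¹) (by simp [hm]) fun c => key2 _ _
    simpa using congrFun this b
  exact key _ (h2 _) (h2 _)

theorem ps_eq {m n : B → D} : ps F m = ps F n ↔ m = n := (ps_inj F).eq_iff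

theorem range_ps : (ps F).range = F.J := by
  have ha : ∀ b, F.a b ∈ F.J := fun b => subset_closure (.inl ⟨b, rfl⟩)
  have he : ∀ b, F.e b ∈ F.J := fun b => subset_closure (.inr ⟨b, rfl⟩)
  refine le_antisymm ?_ ?_
  · rw [ps, MonoidHom.noncommPiCoprod_range]
    refine iSup_le fun b => ?_
    rintro _ ⟨d, rfl⟩
    have hb : ∀ g ∈ F.J, ∀ t, bp g t ∈ F.J := fun g hg t => by
      unfold bp; split_ifs; exacts [hg, one_mem _]
    refine mul_mem (mul_mem (hb _ ?_ _) (hb _ (ha b) _)) (hb _ (he b) _)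
    rw [← F.ae]
    exact mul_mem (mul_mem (mul_mem (ha b) (he b)) (ha b)) (he b)
  · rw [JF.J, closure_le]
    rintro _ (⟨b, rfl⟩ | ⟨b, rfl⟩)
    exacts [⟨_, ps_a F b⟩, ⟨_, ps_e F b⟩]

theorem mem_J {g : G} : g ∈ F.J ↔ ∃ m, ps F m = g := by rw [← range_ps]; rfl

def ZM (B : Type) : Subgroup (B → D) where
  carrier := {m | ∀ b, (m b).Ce}
  one_mem' := fun _ => by change D.Ce 1; decide
  mul_mem' := fun {m n} hm hn b => (by decide : ∀ d d' : D, d.Ce → d'.Ce → (d * d').Ce) _ _ (hm b) (hn b)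
  inv_mem' := fun {m} hm b => (by decide : ∀ d : D, d.Ce → (d⁻¹).Ce) _ (hm b)

def AM (I : B → Bool) : Subgroup (B → D) where
  carrier := {m | ∀ b, D.In (I b) (m b)}
  one_mem' := fun b => (by decide : ∀ t, D.In t 1) _
  mul_mem' := fun {m n} hm hn b =>
    (by decide : ∀ t, ∀ d d' : D, D.In t d → D.In t d' → D.In t (d * d')) _ _ _ (hm b) (hn b)
  inv_mem' := fun {m} hm b => (by decide : ∀ t, ∀ d : D, D.In t d → D.In t d⁻¹) _ _ (hm b)

omit [Fintype B] [DecidableEq B] in
theorem yP_mem {K : Subgroup G} (h : ∀ b, F.y b ∈ K) (P : Finset B) : F.yP P ∈ K :=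
  noncommProd_mem K _ fun b _ => h b

omit [Fintype B] in
theorem single_prop (p : B → D → Prop) (h1 : ∀ c, p c 1) {b : B} {d : D} (h : p b d) (c : B) :
    p c ((Pi.mulSingle b d : B → D) c) := by
  by_cases e : c = b
  · subst e; rwa [Pi.mulSingle_eq_same]
  · rw [Pi.mulSingle_eq_of_ne e]; exact h1 c

theorem map_ZM : (ZM B).map (ps F) = F.Z := by
  refine le_antisymm ?_ ?_
  · rintro _ ⟨m, hm, rfl⟩
    rw [eq_ym hm, ps_ym]
    exact yP_mem F (fun b => subset_closure (Set.mem_range_self b)) _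
  · rw [JF.Z, closure_le]
    rintro _ ⟨b, rfl⟩
    exact ⟨_, single_prop (fun _ d => d.Ce) (fun _ => by decide) (by decide), ps_y F b⟩

theorem map_AM (I : B → Bool) : (AM I).map (ps F) = F.A I := by
  refine le_antisymm ?_ ?_
  · rintro _ ⟨m, hm, rfl⟩
    rw [eq_ym_hm hm, map_mul, ps_ym, ps_hm]
    exact mul_mem (yP_mem F (fun b => subset_closure (.inl ⟨b, rfl⟩)) _)
      (noncommProd_mem _ _ fun b _ => subset_closure (.inr ⟨b, rfl⟩))
  · rw [JF.A, closure_le]
    rintro _ (⟨b, rfl⟩ | ⟨b, rfl⟩)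
    · exact ⟨_, single_prop (fun c d => D.In (I c) d) (fun _ => (by decide : ∀ t, D.In t 1) _)
        ((by decide : ∀ t, D.In t D.y) _), ps_y F b⟩
    · exact ⟨_, single_prop (fun c d => D.In (I c) d) (fun _ => (by decide : ∀ t, D.In t 1) _)
        ((by decide : ∀ t, D.In t (D.h t)) _), ps_h F I b⟩

theorem memZ {g : G} : g ∈ F.Z ↔ ∃ m, (∀ b, (m b).Ce) ∧ ps F m = g := by rw [← map_ZM]; rfl
theorem memA {I : B → Bool} {g : G} : g ∈ F.A I ↔ ∃ m, (∀ b, D.In (I b) (m b)) ∧ ps F m = g := by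
  rw [← map_AM]; rfl
theorem ps_memZ {m : B → D} : ps F m ∈ F.Z ↔ ∀ b, (m b).Ce := by
  rw [← map_ZM, mem_map_iff_mem (ps_inj F)]; rfl
theorem ps_memA {I : B → Bool} {m : B → D} : ps F m ∈ F.A I ↔ ∀ b, D.In (I b) (m b) := by
  rw [← map_AM, mem_map_iff_mem (ps_inj F)]; rfl

theorem y_inj : Function.Injective F.y := fun b c h => by
  rw [← ps_y F, ← ps_y F, ps_eq] at h
  by_contra e
  have := congrFun h b
  rw [Pi.mulSingle_eq_same, Pi.mulSingle_eq_of_ne e] at this
  exact absurd this (by decide)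

theorem y_ne (b : B) : F.y b ≠ 1 := fun h => by
  rw [← ps_y F, ← map_one (ps F), ps_eq] at h
  have := congrFun h b
  rw [Pi.mulSingle_eq_same] at this
  exact (by decide : D.y ≠ 1) this

end Cfsg.Agent.WA.Al.JA
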