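import Cfsg.Agent.WA.AlCs

/-! S3218, module AlK1, part 0: the stabilizer of a block in the model. -/

set_option autoImplicit false
set_option linter.unusedSectionVars false

namespace Cfsg.Agent.WA.Al.K1

open Subgroup Equiv Cs

variable {B : Type} [Fintype B] [DecidableEq B] {s : ℕ} (b₁ : B)

/-- the points outside the block `b₁` -/
def ι (s : ℕ) : Pt {b // b ≠ b₁} s ↪ Pt B s :=
  Function.Embedding.sumMap (Function.Embedding.prodMap (Function.Embedding.subtype _) (Function.Embedding.refl _)) (Function.Embedding.refl _)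

theorem ι_l (b : {b // b ≠ b₁}) (i : Fin 4) : ι b₁ s (Sum.inl (b, i)) = Sum.inl (b.1, i) := rfl
theorem ι_r (j : Fin (s + 2)) : ι b₁ s (Sum.inr j) = Sum.inr j := rfl

theorem cases (x : Pt B s) : (∃ i, x = Sum.inl (b₁, i)) ∨ ∃ y, x = ι b₁ s y := by
  rcases x with ⟨c, i⟩ | j
  · by_cases e : c = b₁
    exacts [Or.inl ⟨i, e ▸ rfl⟩, Or.inr ⟨Sum.inl (⟨c, e⟩, i), rfl⟩]
  · exact Or.inr ⟨Sum.inr j, rfl⟩

theorem ι_ne (y : Pt {b // b ≠ b₁} s) (i : Fin 4) : ι b₁ s y ≠ Sum.inl (b₁, i) := by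
  rcases y with ⟨c, k⟩ | j
  · exact fun e => c.2 (congrArg Prod.fst (Sum.inl_injective e))
  · exact Sum.inr_ne_inl

/-- extension by the identity on the block `b₁` -/
def ext (s : ℕ) : Alt (Pt {b // b ≠ b₁} s) →* Alt (Pt B s) :=
  ((Perm.extendDomainHom (ι b₁ s).toEquivRange).comp (alternatingGroup _).subtype).codRestrict _ fun q =>
    (Perm.viaFintypeEmbedding_sign q.1 (ι b₁ s)).trans q.2

theorem ext_ι (q : Alt (Pt {b // b ≠ b₁} s)) (y : Pt {b // b ≠ b₁} s) : (ext b₁ s q).1 (ι b₁ s y) = ι b₁ s (q.1 y) :=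
  Perm.viaFintypeEmbedding_apply_image q.1 _ y

theorem ext_b (q : Alt (Pt {b // b ≠ b₁} s)) (i : Fin 4) : (ext b₁ s q).1 (Sum.inl (b₁, i)) = Sum.inl (b₁, i) :=
  Perm.viaFintypeEmbedding_apply_notMem_range q.1 _ fun ⟨y, e⟩ => ι_ne b₁ y i e

theorem ext_inj : Function.Injective (ext b₁ s) := fun p q e => Subtype.ext (Equiv.ext fun y => (ι b₁ s).injective (by rw [← ext_ι, e, ext_ι]))

theorem ext_eq {p : Alt (Pt B s)} {q : Alt (Pt {b // b ≠ b₁} s)} (h : ∀ i, p.1 (Sum.inl (b₁, i)) = Sum.inl (b₁, i))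
    (h' : ∀ y, p.1 (ι b₁ s y) = ι b₁ s (q.1 y)) : ext b₁ s q = p := Subtype.ext (Equiv.ext fun x => by
  rcases cases b₁ x with ⟨i, rfl⟩ | ⟨y, rfl⟩
  exacts [(ext_b b₁ q i).trans (h i).symm, (ext_ι b₁ q y).trans (h' y).symm])

theorem exists_ext {p : Alt (Pt B s)} (h : ∀ i, p.1 (Sum.inl (b₁, i)) = Sum.inl (b₁, i)) : ∃ q, ext b₁ s q = p := by
  have k : ∀ y, ∃ y', p.1 (ι b₁ s y) = ι b₁ s y' := fun y => (cases b₁ _).resolve_left fun ⟨i, e⟩ => ι_ne b₁ y i (p.1.injective (e.trans (h i).symm))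
  choose r hr using k
  let q : Perm _ := Equiv.ofBijective r (Finite.injective_iff_bijective.1 fun y y' e => (ι b₁ s).injective (p.1.injective (by rw [hr, hr, e])))
  have e : q.viaFintypeEmbedding (ι b₁ s) = p.1 := Equiv.ext fun x => by
    rcases cases b₁ x with ⟨i, rfl⟩ | ⟨y, rfl⟩
    exacts [(Perm.viaFintypeEmbedding_apply_notMem_range q _ fun ⟨y, e⟩ => ι_ne b₁ y i e).trans (h i).symm,
      (Perm.viaFintypeEmbedding_apply_image q _ y).trans (hr y).symm]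
  exact ⟨⟨q, (Perm.viaFintypeEmbedding_sign q (ι b₁ s)).symm.trans (e ▸ p.2)⟩, Subtype.ext e⟩

theorem ext_y0 (b : {b // b ≠ b₁}) : ext b₁ s (y0 s b) = y0 s b.1 := ext_eq b₁ (fun i => by rw [y0_l, if_neg b.2.symm]) fun y => by
  rcases y with ⟨c, k⟩ | j
  · simp only [ι_l, y0_l, Subtype.ext_iff]
  · simp only [ι_r, y0_r]

theorem ext_a0 (b : {b // b ≠ b₁}) : ext b₁ s (a0 s b) = a0 s b.1 := ext_eq b₁ (fun i => by rw [a0_l, if_neg b.2.symm]) fun y => by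
  rcases y with ⟨c, k⟩ | j
  · simp only [ι_l, a0_l, Subtype.ext_iff]
  · simp only [ι_r, a0_r]

theorem ext_e0 (b : {b // b ≠ b₁}) : ext b₁ s (e0 s b) = e0 s b.1 := ext_eq b₁ (fun i => by rw [e0_l, if_neg b.2.symm]) fun y => by
  rcases y with ⟨c, k⟩ | j
  · simp only [ι_l, e0_l, Subtype.ext_iff]
  · simp only [ι_r, e0_r]

/-- an element commuting with `y0 b₁` acts on the block -/
theorem act {p : Alt (Pt B s)} (h : p * y0 s b₁ = y0 s b₁ * p) : ∃ σ : Perm (Fin 4), ∀ i, p.1 (Sum.inl (b₁, i)) = Sum.inl (b₁, σ i) := by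
  choose r hr using Ch.pres_blk h
  exact ⟨Equiv.ofBijective r (Finite.injective_iff_bijective.1 fun i j e =>
    congrArg Prod.snd (Sum.inl_injective (p.1.injective ((hr i).trans (e ▸ (hr j).symm))))), hr⟩

theorem blk_ι (τ : Perm (Fin 4)) (y : Pt {b // b ≠ b₁} s) : blk s b₁ τ (ι b₁ s y) = ι b₁ s y := by
  rcases y with ⟨c, k⟩ | j
  · rw [ι_l, blk_l, if_neg c.2]
  · rw [ι_r, blk_r]

theorem blkc {p : Perm (Pt B s)} {σ τ τ' : Perm (Fin 4)} (h : ∀ i, p (Sum.inl (b₁, i)) = Sum.inl (b₁, σ i)) :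
    p * blk s b₁ τ = blk s b₁ τ' * p ↔ σ * τ = τ' * σ := by
  refine ⟨fun e => Equiv.ext fun i => by simpa [blk_l, h] using DFunLike.congr_fun e (Sum.inl (b₁, i)), fun e => Equiv.ext fun x => ?_⟩
  rcases cases b₁ x with ⟨i, rfl⟩ | ⟨y, rfl⟩
  · simpa [blk_l, h] using DFunLike.congr_fun e i
  obtain ⟨y', e'⟩ := (cases b₁ (p (ι b₁ s y))).resolve_left fun ⟨i, e⟩ => ι_ne b₁ y (σ.symm i) (p.injective (by rw [e, h, apply_symm_apply]))
  rw [Perm.mul_apply, Perm.mul_apply, blk_ι, e', blk_ι]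

theorem ya0 : (y0 s b₁ * a0 s b₁).1 = blk s b₁ (swap 0 1 * swap 2 3 * (swap 0 2 * swap 1 3)) := Equiv.ext fun x => by
  rw [mul_ap]
  rcases x with ⟨c, i⟩ | j
  · rw [a0_l, y0_l, blk_l]; split_ifs <;> rfl
  · rw [a0_r, y0_r, blk_r]

theorem nrm {p : Alt (Pt B s)} (h : p * y0 s b₁ = y0 s b₁ * p) : p * a0 s b₁ = a0 s b₁ * p ∨ p * a0 s b₁ = y0 s b₁ * a0 s b₁ * p := by
  obtain ⟨σ, hσ⟩ := act b₁ h
  refine ((by decide : ∀ σ : Perm (Fin 4), σ * (swap 0 1 * swap 2 3) = swap 0 1 * swap 2 3 * σ → σ * (swap 0 2 * swap 1 3) = swap 0 2 * swap 1 3 * σ ∨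
    σ * (swap 0 2 * swap 1 3) = swap 0 1 * swap 2 3 * (swap 0 2 * swap 1 3) * σ) σ ((blkc b₁ hσ).1 (congrArg Subtype.val h))).imp
    (fun e => Subtype.ext ((blkc b₁ hσ).2 e)) fun e => Subtype.ext (((blkc b₁ hσ).2 e).trans ?_)
  rw [← ya0]; rfl

theorem dec {p : Alt (Pt B s)} (h : p * y0 s b₁ = y0 s b₁ * p) (h' : p * a0 s b₁ = a0 s b₁ * p) :
    ∃ v q, (v = 1 ∨ v = y0 s b₁ ∨ v = a0 s b₁ ∨ v = y0 s b₁ * a0 s b₁) ∧ p = v * ext b₁ s q := by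
  obtain ⟨σ, hσ⟩ := act b₁ h
  obtain ⟨v, hv, e⟩ : ∃ v, (v = 1 ∨ v = y0 s b₁ ∨ v = a0 s b₁ ∨ v = y0 s b₁ * a0 s b₁) ∧ ∀ i, v.1 (Sum.inl (b₁, i)) = Sum.inl (b₁, σ i) := by
    rcases (by decide : ∀ σ : Perm (Fin 4), σ * (swap 0 1 * swap 2 3) = swap 0 1 * swap 2 3 * σ → σ * (swap 0 2 * swap 1 3) = swap 0 2 * swap 1 3 * σ →
      σ = 1 ∨ σ = swap 0 1 * swap 2 3 ∨ σ = swap 0 2 * swap 1 3 ∨ σ = swap 0 1 * swap 2 3 * (swap 0 2 * swap 1 3)) σ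
      ((blkc b₁ hσ).1 (congrArg Subtype.val h)) ((blkc b₁ hσ).1 (congrArg Subtype.val h')) with rfl | rfl | rfl | rfl
    exacts [⟨1, by simp, fun i => rfl⟩, ⟨y0 s b₁, by simp, fun i => by rw [y0_l, if_pos rfl]⟩,
      ⟨a0 s b₁, by simp, fun i => by rw [a0_l, if_pos rfl]⟩,
      ⟨y0 s b₁ * a0 s b₁, by simp, fun i => by rw [ya0, blk_l, if_pos rfl]⟩]
  obtain ⟨q, hq⟩ := exists_ext b₁ (p := v⁻¹ * p) fun i => by rw [mul_ap, hσ, ← e]; exact v.1.symm_apply_apply _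
  exact ⟨v, q, hv, by rw [hq, mul_inv_cancel_left]⟩

theorem ext_cy (q : Alt (Pt {b // b ≠ b₁} s)) : ext b₁ s q * y0 s b₁ = y0 s b₁ * ext b₁ s q := fix_blk (ext_b b₁ q) rfl

theorem ext_ca (q : Alt (Pt {b // b ≠ b₁} s)) : ext b₁ s q * a0 s b₁ = a0 s b₁ * ext b₁ s q := fix_blk (ext_b b₁ q) rfl

end Cfsg.Agent.WA.Al.K1
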