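import Cfsg.Agent.WA.AlTr
import Cfsg.Agent.WA.H3V
import Mathlib.GroupTheory.Perm.ClosureSwap

/-! S3218, module AlOne: fusion analysis when `K` has one block. -/

set_option autoImplicit false
set_option linter.unusedSectionVars false

namespace Cfsg.Agent.WA.Al

open Subgroup Equiv JA JB

universe u

variable {G : Type u} [Group G] [Finite G] {B : Type} [Fintype B] [DecidableEq B] {s : ℕ}

namespace On

variable (F : JF G B) {I : B → Bool} {g c g' c' : G} {b : B}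

theorem fx {g x : G} : g * x * g⁻¹ = x ↔ g * x = x * g := mul_inv_eq_iff_eq_mul

theorem ci {k x y : G} : k * x * k⁻¹ = k * y * k⁻¹ ↔ x = y := by simp

theorem cm {m : B → D} (h : ∀ c, Commute g (ph F c (m c))) : Commute g (ps F m) := by
  rw [ps, MonoidHom.noncommPiCoprod_apply]; exact Finset.noncommProd_commute _ _ _ _ fun c _ => h c

theorem mv {m : B → D} (h : ∀ c, c ≠ b → Commute g (ph F c (m c))) (h' : Commute g (ps F m)) : Commute g (ph F b (m b)) := by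
  have k : Commute g (ps F (Function.update m b 1)) := cm F fun c => by
    by_cases e : c = b
    · subst e; simp
    · simpa [e] using h c e
  have := h'.mul_right k.inv_right
  rwa [← map_inv, ← map_mul, show m * (Function.update m b 1)⁻¹ = Pi.mulSingle b (m b) from funext fun c => by
    by_cases e : c = b
    · subst e; simp
    · simp [e], ps_single] at this

theorem bpc {x : G} (h : Commute g x) (t : Bool) : Commute g (bp x t) := by cases t <;> simp [bp, h]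

theorem cph {d : D} (h1 : g * F.y b = F.y b * g) (h2 : g * F.a b = F.a b * g) (h3 : d.j = false ∨ g * F.e b = F.e b * g) :
    Commute g (ph F b d) := by
  rw [ph_apply]
  refine ((bpc h1 _).mul_right (bpc h2 _)).mul_right (h3.elim (fun e => by simp [e, bp]) fun e => bpc e _)

theorem hZ (I : B → Bool) (b : B) : F.h I b ∉ F.Z := by
  rw [← ps_h, ps_memZ]
  intro k
  have := k b
  rw [Pi.mulSingle_eq_same] at this
  revert this; cases I b <;> decide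

theorem yZ (b : B) : F.y b ∈ F.Z := subset_closure ⟨b, rfl⟩

theorem aZ (b : B) : F.a b ∉ F.Z := hZ F (fun _ => true) b

theorem eZ (b : B) : F.e b ∉ F.Z := hZ F (fun _ => false) b

theorem abA {x y : G} (hx : x ∈ F.A I) (hy : y ∈ F.A I) : x * y = y * x := by
  rw [← inv_eq_of_mul_eq_one_right (F.A_sq (mul_mem hx hy)), mul_inv_rev, inv_eq_of_mul_eq_one_right (F.A_sq hx),
    inv_eq_of_mul_eq_one_right (F.A_sq hy)]

theorem tv_of (hc : c ∈ F.A I) (c1 : c ≠ 1) (m : g * F.y b * g⁻¹ ≠ F.y b) (h1 : ∀ d, g * F.y d * g⁻¹ = F.y d ∨ g * F.y d * g⁻¹ = F.y d * c)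
    (h2 : ∀ d, g * F.h I d * g⁻¹ = F.h I d ∨ g * F.h I d * g⁻¹ = F.h I d * c) : Tv (F.A I) g c := by
  have k : ∀ x ∈ F.A I, g * x * g⁻¹ = x ∨ g * x * g⁻¹ = x * c := fun x hx => by
    induction hx using closure_induction with
    | mem x hx => rcases hx with ⟨d, rfl⟩ | ⟨d, rfl⟩; exacts [h1 d, h2 d]
    | one => simp
    | mul x y hx hy k k' =>
      rw [← conj_mul]
      rcases k with k | k <;> rcases k' with k' | k' <;> rw [k, k']
      · simp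
      · simp [mul_assoc]
      · right; rw [mul_assoc, abA F hc hy, mul_assoc]
      · left; rw [mul_assoc, ← mul_assoc c, abA F hc hy, mul_assoc, F.A_sq hc, mul_one]
    | inv x hx k => rwa [inv_eq_of_mul_eq_one_right (F.A_sq hx)]
  exact ⟨H8.mem_normalizer_of_cj_le (by
    rintro _ ⟨x, hx, rfl⟩
    change g * x * g⁻¹ ∈ _
    rcases k x hx with e | e <;> rw [e]
    exacts [hx, mul_mem hx hc]),
    c1, ⟨_, F.Z_le_A I (yZ F b), m⟩, k⟩

theorem adj (hJ : F.JG) (h : Tv (F.A I) g c) (h' : Tv (F.A I) g' c') (m : g * c' * g⁻¹ ≠ c') :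
    ∃ t ∈ normalizer (F.A I : Set G), t * c * t⁻¹ = c' := by
  obtain ⟨t, ht, r⟩ := h.rot (fun x => F.A_sq) h' m fun e => m (F.tv_symm hJ h' h e)
  exact ⟨t, (closure_le _).2 (by rintro _ (rfl | rfl); exacts [h.norm, h'.norm]) ht, r.h1⟩

theorem ua' (S : CS G B s) (hb : b ∉ S.K) (hI : I b = true) : ∃ g, Tv (S.A I) g (S.a b) ∧ g * S.y b * g⁻¹ = S.y b * S.a b ∧
    ∀ c, c ≠ b → g * S.y c = S.y c * g ∧ g * S.a c = S.a c * g ∧ g * S.e c = S.e c * g := by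
  obtain ⟨g, -, h1, h2, h3⟩ := S.ua b hb
  have n : S.a b ≠ 1 := fun e => aZ S.toJF b (e ▸ one_mem _)
  refine ⟨g, tv_of (b := b) S.toJF (by simpa [JF.h, hI] using h_mem S.toJF I b) n (by rwa [h1, Ne, mul_eq_left]) (fun d => ?_) fun d => Or.inl (fx.2 ?_), h1, h3⟩
  · by_cases e : d = b
    exacts [Or.inr (e ▸ h1), Or.inl (fx.2 (h3 d e).1)]
  · by_cases e : d = b
    · simpa [JF.h, e, hI] using h2
    · unfold JF.h; split_ifs; exacts [(h3 d e).2.1, (h3 d e).2.2]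

theorem ue' (S : CS G B s) (hb : b ∉ S.K) (hI : I b = false) : ∃ g, Tv (S.A I) g (S.y b * S.e b) ∧ g * S.y b * g⁻¹ = S.e b ∧
    ∀ c, c ≠ b → g * S.y c = S.y c * g ∧ g * S.a c = S.a c * g ∧ g * S.e c * g⁻¹ = S.e c * (S.y b * S.e b) := by
  obtain ⟨g, -, h1, h2, h3⟩ := S.ue b hb
  refine ⟨g, tv_of (b := b) S.toJF (mul_mem (S.Z_le_A I (yZ _ b)) (by simpa [JF.h, hI] using h_mem S.toJF I b))
    (fun e => eZ S.toJF b (eq_inv_of_mul_eq_one_right e ▸ inv_mem (yZ _ b))) (fun e => eZ S.toJF b (by rw [← h1, e]; exact yZ _ b)) (fun d => ?_) fun d => ?_, h1, h3⟩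
  · by_cases e : d = b
    exacts [Or.inr (by rw [e, h1, ← mul_assoc, S.y2, one_mul]), Or.inl (fx.2 (h3 d e).1)]
  · by_cases e : d = b
    · right; simp only [JF.h, e, hI, Bool.false_eq_true, if_false]; rw [h2, S.ye, ← mul_assoc, S.e2, one_mul]
    · unfold JF.h; split_ifs; exacts [Or.inl (fx.2 (h3 d e).2.1), Or.inr (h3 d e).2.2]

theorem chart (S : CS G B s) (hb : b ∉ S.K) (I : B → Bool) : ∃ g c, Tv (S.A I) g c ∧ g * S.y b * g⁻¹ ≠ S.y b ∧ (c = S.h I b ∨ c = S.y b * S.h I b) ∧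
    ∀ c, c ≠ b → g * S.y c = S.y c * g ∧ g * S.a c = S.a c * g := by
  cases hI : I b
  · obtain ⟨g, h1, h2, h3⟩ := ue' S hb hI
    exact ⟨g, _, h1, fun e => eZ S.toJF b (by rw [← h2, e]; exact yZ _ b), Or.inr (by simp [JF.h, hI]), fun c hc => ⟨(h3 c hc).1, (h3 c hc).2.1⟩⟩
  · obtain ⟨g, h1, h2, h3⟩ := ua' S hb hI
    exact ⟨g, _, h1, by rw [h2, Ne, mul_eq_left]; exact h1.ne, Or.inl (by simp [JF.h, hI]), fun c hc => ⟨(h3 c hc).1, (h3 c hc).2.1⟩⟩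

theorem moves (S : CS G B s) (hG : ∀ H : Subgroup G, H.index ≠ 2) {b₁ b₂ : B} (hK : S.K = {b₁}) (ne : b₂ ≠ b₁) :
    ∃ k ∈ normalizer (S.J : Set G), k * S.y b₁ * k⁻¹ ≠ S.y b₁ := by
  by_contra! hN
  have hz : S.z = S.y b₁ := by rw [S.hz, hK, JF.yP_single]
  have n2 : b₂ ∉ S.K := by simpa [hK] using ne
  have bu : ∀ P, IsConj (S.y b₁) (S.yP P) → S.yP P = S.y b₁ := fun P h => by
    obtain ⟨g, hg, e⟩ := S.burn S.jg (S.yP_single b₁ ▸ h)
    rw [← e, S.yP_single, hN g hg]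
  have n12 : ¬ IsConj (S.y b₁) (S.y b₂) := fun h => ne (y_inj S.toJF (S.yP_single b₂ ▸ bu {b₂} (S.yP_single b₂ ▸ h)))
  let I : B → Bool := fun b => decide (b ≠ b₁)
  have I1 : I b₁ = false := by simp [I]
  have I2 : ∀ b, b ≠ b₁ → I b = true := by simp [I]
  have h1 : S.h I b₁ = S.e b₁ := by simp [JF.h, I1]
  have o1 : S.o I b₁ = S.a b₁ := by simp [JF.o, I1]
  have cz : ∀ x ∈ S.A I, x * S.z = S.z * x := fun x hx => S.hz ▸ S.yP_comm _ (S.A_le_J I hx)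
  have cJ : ∀ x ∈ S.J, x * S.z = S.z * x := fun x hx => S.hz ▸ S.yP_comm _ hx
  have aJ : ∀ b, S.a b ∈ S.J := fun b => subset_closure (Or.inl ⟨b, rfl⟩)
  have eJ : ∀ b, S.e b ∈ S.J := fun b => subset_closure (Or.inr ⟨b, rfl⟩)
  have χ : ∀ x ∈ S.A I, S.χ₂ x = 1 ↔ S.a b₁ * x * (S.a b₁)⁻¹ = x := fun x hx => by
    have t := o1 ▸ S.tv_o I b₁
    induction hx using closure_induction with
    | mem x hx =>
      rcases hx with ⟨d, rfl⟩ | ⟨d, rfl⟩
      · refine iff_of_true ?_ (fx.2 (S.ya d b₁).symm)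
        rw [← S.ae, mul_assoc, S.m₂ _ _ (cJ _ (mul_mem (aJ d) (eJ d))) (cJ _ (mul_mem (aJ d) (eJ d))), Int.units_mul_self]
      · by_cases e : d = b₁
        · rw [e, h1, S.e₂, if_pos (by simp [hK])]
          refine iff_of_false (by decide) fun k => y_ne S.toJF b₁ ?_
          rw [← S.ae, ← inv_eq_of_mul_eq_one_right (S.a2 b₁), inv_eq_of_mul_eq_one_right (S.a2 b₁), fx.1 k, mul_assoc (S.e b₁), S.a2, mul_one, S.e2]
        · rw [show S.h I d = S.a d by simp [JF.h, I2 d e]]; exact iff_of_true (S.a₂ d) (fx.2 (S.aa _ _))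
    | one => simpa using S.m₂ 1 1 (by simp) (by simp)
    | mul x y hx hy k k' =>
      refine Iff.trans ?_ ((iff_congr k k').trans (t.mul_fix (fun x => S.A_sq) hx hy).symm)
      rw [S.m₂ x y (cz x hx) (cz y hy)]
      generalize S.χ₂ x = p; generalize S.χ₂ y = q; revert p q; decide
    | inv x hx k => rwa [inv_eq_of_mul_eq_one_right (S.A_sq hx)]
  have eA : S.e b₁ ∈ S.A I := h1 ▸ h_mem S.toJF I b₁
  obtain ⟨g, c, hg, mg⟩ : ∃ g c, Tv (S.A I) g c ∧ g * S.y b₁ * g⁻¹ ≠ S.y b₁ := by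
    by_contra! iso
    obtain ⟨g, hg, e⟩ := S.transfer S.jg hG (hz ▸ yZ _ b₁) (fun g hg => hz ▸ fx.1 (hN g hg)) S.χ₂ S.m₂ eA (by rw [S.e₂, if_pos (by simp [hK])])
    have t' := (S.tv_o I b₁).conj g⁻¹
    rw [H8.cj_eq_self (inv_mem hg)] at t'
    obtain ⟨m, hm, em⟩ := (memA _).1 t'.mem
    have cZ : ps S.toJF m ∈ S.Z := (ps_memZ _).2 fun b => by
      have t := (S.tv_o I b).conj g
      rw [H8.cj_eq_self hg] at t
      have k1 : ps S.toJF m * S.o I b = S.o I b * ps S.toJF m := by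
        rw [em]
        calc _ = g⁻¹ * (S.y b₁ * (g * S.o I b * g⁻¹)) * g := by group
          _ = _ := by rw [← fx.1 (iso _ _ t)]; group
      have k2 := abA S.toJF (em ▸ t'.mem) (h_mem S.toJF I b)
      rw [ce_iff S.toJF]
      unfold JF.o at k1; unfold JF.h at k2
      split_ifs at k1 k2; exacts [⟨k2, k1⟩, ⟨k1, k2⟩]
    rw [em] at cZ
    obtain ⟨P, hP⟩ := S.mem_Z.1 cZ
    rw [hP, bu P (hP ▸ isConj_iff.2 ⟨g⁻¹, rfl⟩)] at t'
    have k := S.tv_same S.jg t' (S.tv_o I b₁) _ eA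
    have k' := (χ _ ((mem_normalizer_iff.1 hg (S.e b₁)).1 eA)).1 e
    rw [o1] at k
    have := (χ _ eA).2 (by rw [← k]; calc _ = g⁻¹ * (S.a b₁ * (g * S.e b₁ * g⁻¹) * (S.a b₁)⁻¹) * g := by group
      _ = _ := by rw [k']; group)
    rw [S.e₂, if_pos (by simp [hK])] at this
    exact absurd this (by decide)
  have cy : IsConj c (S.y b₁) := (adj _ S.jg hg (S.tv_o I b₁) mg).elim fun t k => isConj_iff.2 ⟨t, k.2⟩
  have nb : ∀ {I g g' c'}, Tv (S.A I) g c → Tv (S.A I) g' c' → IsConj c' (S.y b₂) → g' * c * g'⁻¹ = c := fun h h' k => by_contra fun e =>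
    n12 ((cy.symm.trans ((adj _ S.jg h' h e).elim fun t k => isConj_iff.2 ⟨t, k.2⟩).symm).trans k)
  obtain ⟨u, u1, u2, u3⟩ := ua' S n2 (I2 b₂ ne)
  have f1 := nb hg (S.tv_o I b₂) (IsConj.refl _)
  have f2 := nb hg u1 ((adj _ S.jg u1 (S.tv_o I b₂) (by rw [u2, Ne, mul_eq_left]; exact u1.ne)).elim fun t k => isConj_iff.2 ⟨t, k.2⟩)
  obtain ⟨m, hm, rfl⟩ := (memA _).1 hg.mem
  have m2 : m b₂ = 1 := by
    have k1 : (m b₂).Ce := (ce_iff _ m b₂).2 ⟨by simpa [JF.h, I2 b₂ ne] using abA _ hg.mem (h_mem S.toJF I b₂), by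
      simpa [JF.o, I2 b₂ ne] using (fx.1 f1).symm⟩
    refine ((by decide : ∀ d : D, d.Ce → d = 1 ∨ d = D.y) _ k1).resolve_right fun e => u1.ne ?_
    have := mv S.toJF (fun c hc => cph _ (u3 c hc).1 (u3 c hc).2.1 (Or.inr (u3 c hc).2.2)) (fx.1 f2)
    rw [e, ph_y] at this
    exact mul_eq_left.1 (u2.symm.trans (fx.2 this))
  let I' : B → Bool := Function.update I b₂ false
  have cA : ps S.toJF m ∈ S.A I' := (ps_memA _).2 fun b => by
    by_cases e : b = b₂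
    · rw [e, m2]; exact (by decide : ∀ t, D.In t 1) _
    · simpa [I', e] using hm b
  obtain ⟨g', hg', -⟩ := S.tv_tr S.jg ne.symm (fun b e => by simp [I', e]) hg cA mg (S.tv_symm S.jg (S.tv_o I b₂) hg f1)
  obtain ⟨v, v1, v2, v3⟩ := ue' S n2 (show I' b₂ = false by simp [I'])
  have f3 := nb hg' v1 ((adj _ S.jg v1 (S.tv_o I' b₂) fun e => eZ S.toJF b₂ (by rw [← v2, e]; exact yZ _ b₂)).elim
    fun t k => isConj_iff.2 ⟨t, k.2⟩)
  have f4 := mv (b := b₁) S.toJF (fun c hc => by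
    by_cases e : c = b₂
    · rw [e, m2, map_one]; exact Commute.one_right v
    · exact cph _ (v3 c e).1 (v3 c e).2.1 (Or.inl (by simpa [D.In, I2 c hc] using hm c))) (fx.1 f3)
  have f5 : (m b₁).j = true := by_contra fun e => mg (S.tv_symm S.jg (S.tv_o I b₁) hg (fx.2 (by
    rw [o1]; exact cm _ fun c => cph _ (S.ya c b₁).symm (S.aa _ _) (by
      by_cases e' : c = b₁
      exacts [Or.inl (by simpa [e'] using e), Or.inr (S.ac _ _ (Ne.symm e'))]))))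
  rw [ph_apply, f5] at f4
  have := ((bpc (v3 b₁ ne.symm).1 (m b₁).k).mul_right (bpc (v3 b₁ ne.symm).2.1 (m b₁).i)).inv_right.mul_right f4
  rw [inv_mul_cancel_left] at this
  exact v1.ne (mul_eq_left.1 ((v3 b₁ ne.symm).2.2.symm.trans (fx.2 this)))

theorem sw' (S : CS G B s) {b c : B} (hb : b ∉ S.K) (hc : c ∉ S.K) : ∃ g ∈ normalizer (S.J : Set G), ∀ d, g * S.y d * g⁻¹ = S.y (swap b c d) := by
  obtain ⟨g, -, h⟩ := S.sw b c (iff_of_false hb hc)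
  refine ⟨g, H8.mem_normalizer_of_cj_le ((MonoidHom.map_closure _ _).le.trans ((closure_le _).2 ?_)), fun d => (h d).1⟩
  rintro _ ⟨_, ⟨d, rfl⟩ | ⟨d, rfl⟩, rfl⟩
  exacts [subset_closure (Or.inl ⟨_, (h d).2.1.symm⟩), subset_closure (Or.inr ⟨_, (h d).2.2.symm⟩)]

theorem sig (S : CS G B s) {b₁ b₂ : B} (hK : S.K = {b₁}) {k : G} (hk : k ∈ normalizer (S.J : Set G)) (e : k * S.y b₁ * k⁻¹ = S.y b₂) :
    ∃ σ ∈ normalizer (S.J : Set G), ∀ b, σ * S.y b * σ⁻¹ = S.y (swap b₁ b₂ b) := by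
  let P : Subgroup (Perm B) :=
    { carrier := {π | ∃ n ∈ normalizer (S.J : Set G), ∀ b, n * S.y b * n⁻¹ = S.y (π b)}
      one_mem' := ⟨1, one_mem _, by simp⟩
      mul_mem' := fun ⟨n, hn, h⟩ ⟨n', hn', h'⟩ => ⟨n * n', mul_mem hn hn', fun b => by rw [Perm.mul_apply, ← h, ← h']; group⟩
      inv_mem' := fun {π} ⟨n, hn, h⟩ => ⟨n⁻¹, inv_mem hn, fun b => by nth_rw 1 [← π.apply_symm_apply b, ← h]; group; rfl⟩ }
  obtain ⟨π, hπ⟩ := S.norm_J hk
  have e1 : (swap b₁ b₂ * π) b₁ = b₁ := by rw [Perm.mul_apply, y_inj S.toJF ((hπ b₁).1.symm.trans e), swap_apply_right]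
  have m : swap b₁ b₂ * π ∈ P := (closure_le P).2 (show {g | ∃ b c, b ≠ b₁ ∧ c ≠ b₁ ∧ b ≠ c ∧ g = swap b c} ⊆ _ by
    rintro _ ⟨b, c, hb, hc, -, rfl⟩
    exact sw' S (by simpa [hK] using hb) (by simpa [hK] using hc)) ((mem_closure_isSwap (by
      rintro _ ⟨b, c, -, -, h, rfl⟩; exact ⟨b, c, h, rfl⟩)).2 ⟨Set.toFinite _, fun x => by
        generalize swap b₁ b₂ * π = ρ at e1
        by_cases e : ρ x = x
        · rw [e]; exact MulAction.mem_orbit_self x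
        · exact ⟨⟨_, subset_closure ⟨x, ρ x, fun k => e (by rw [k, e1]), fun k => e (by rw [k, ρ.injective (k.trans e1.symm)]), Ne.symm e, rfl⟩⟩,
            by simp⟩⟩)
  have := mul_mem m (inv_mem (show π ∈ P from ⟨k, hk, fun b => (hπ b).1⟩))
  rwa [mul_inv_cancel_right] at this

end On

open On

theorem CS.one (S : CS G B s) (hG : ∀ H : Subgroup G, H.index ≠ 2) {b₁ b₂ : B} (hK : S.K = {b₁}) (ne : b₂ ≠ b₁)
    (hN : centralizer ({S.y b₁} : Set G) ≤ normalizer (S.V b₁ : Set G)) :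
    (∃ t, Rot t (S.y b₁) (S.a b₁)) ∧ ∃ σ w, (w = S.a b₂ ∨ w = S.e b₂) ∧ σ ∈ normalizer (S.J : Set G) ∧
      (∀ b, σ * S.y b * σ⁻¹ = S.y (swap b₁ b₂ b)) ∧ H8.cj σ (S.V b₁) = closure {S.y b₂, w} ∧
      H8.cj σ (closure {S.y b₂, w}) = S.V b₁ := by
  have nK : ∀ {b}, b ≠ b₁ → b ∉ S.K := fun h => by simpa [hK] using h
  obtain ⟨k, hk, ek⟩ : ∃ k ∈ normalizer (S.J : Set G), k * S.y b₁ * k⁻¹ = S.y b₂ := by
    obtain ⟨k, hk, m⟩ := moves S hG hK ne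
    obtain ⟨π, hπ⟩ := S.norm_J hk
    obtain ⟨g, hg, h⟩ := sw' S (nK (b := π b₁) fun e => m (by rw [(hπ b₁).1, e])) (nK ne)
    exact ⟨g * k, mul_mem hg hk, by rw [← swap_apply_left (π b₁) b₂, ← h, ← (hπ b₁).1]; group⟩
  obtain ⟨π, hπ⟩ := S.norm_J hk
  have π1 : π b₁ = b₂ := y_inj S.toJF ((hπ b₁).1.symm.trans ek)
  obtain ⟨t, ht⟩ : ∃ t : Bool, S.h (fun _ => t) b₂ * (k * S.a b₁ * k⁻¹) ∈ S.Z :=
    (hπ b₁).2.elim (fun e => ⟨true, π1 ▸ e.1⟩) fun e => ⟨false, π1 ▸ e.1⟩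
  let I : B → Bool := fun b => if b = b₂ then t else decide (b ≠ b₁)
  rw [show S.h (fun _ => t) b₂ = S.h I b₂ by simp [JF.h, I]] at ht
  have hV : ∀ g, g * S.y b₁ = S.y b₁ * g → g * S.a b₁ * g⁻¹ = S.a b₁ ∨ g * S.a b₁ * g⁻¹ = S.y b₁ * S.a b₁ := fun g e => by
    rcases (H3.mem_closure_two (S.y2 b₁) (S.a2 b₁) (S.ya _ _)).1 ((mem_normalizer_iff.1 (hN (mem_centralizer_singleton_iff.2 e)) _).1
      (subset_closure (Or.inr rfl))) with e' | e' | e' | e'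
    exacts [(aZ S.toJF b₁ (conj_eq_one_iff.1 e' ▸ one_mem _)).elim, Or.inl e',
      (aZ S.toJF b₁ (by rw [ci.1 (e'.trans (fx.2 e).symm)]; exact yZ _ _)).elim, Or.inr e']
  have hV' : ∀ g, g * S.y b₁ * g⁻¹ = S.y b₂ → g * S.a b₁ * g⁻¹ = k * S.a b₁ * k⁻¹ ∨ g * S.a b₁ * g⁻¹ = S.y b₂ * (k * S.a b₁ * k⁻¹) := fun g e => by
    rw [← ek, conj_mul, show g * S.a b₁ * g⁻¹ = k * (k⁻¹ * g * S.a b₁ * (k⁻¹ * g)⁻¹) * k⁻¹ by group, ci, ci]
    exact hV _ (fx.1 (by rw [show k⁻¹ * g * S.y b₁ * (k⁻¹ * g)⁻¹ = k⁻¹ * (g * S.y b₁ * g⁻¹) * k by group, e, ← ek]; group))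
  have wA := h_mem S.toJF I b₂
  have yA : ∀ b, S.y b ∈ S.A I := fun b => S.Z_le_A I (yZ _ b)
  have w2 := S.A_sq wA
  obtain ⟨m, hm, em⟩ := (memZ _).1 ht
  have m1 : ∀ c, c ≠ b₁ → c ≠ b₂ → m c = 1 := fun c h1 h2 => by
    obtain ⟨u, u1, u2, u3⟩ := ua' S (nK h1) (show I c = true by simp [I, h1, h2])
    have cw : u * S.h I b₂ * u⁻¹ = S.h I b₂ := fx.2 (by unfold JF.h; split_ifs; exacts [(u3 _ h2.symm).2.1, (u3 _ h2.symm).2.2])
    have f := (u1.act _ (S.Z_le_A I ht)).resolve_right fun e => aZ S.toJF c ((mul_mem_cancel_left ht).1 (by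
      rw [← e, ← conj_mul, cw, show u * (k * S.a b₁ * k⁻¹) * u⁻¹ = u * k * S.a b₁ * (u * k)⁻¹ by group]
      rcases hV' (u * k) (by rw [← fx.2 (u3 _ h2.symm).1, ← ek]; group) with e | e <;> rw [e]
      · exact ht
      · rw [← mul_assoc, abA _ wA (yA _), mul_assoc]; exact mul_mem (yZ _ _) ht))
    refine ((by decide : ∀ d : D, d.Ce → d = 1 ∨ d = D.y) _ (hm c)).resolve_right fun e => u1.ne ?_
    have := mv S.toJF (fun c hc => cph _ (u3 c hc).1 (u3 c hc).2.1 (Or.inr (u3 c hc).2.2)) (fx.1 (em ▸ f))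
    rw [e, ph_y] at this
    exact mul_eq_left.1 (u2.symm.trans (fx.2 this))
  rw [show m = Pi.mulSingle b₁ (m b₁) * Pi.mulSingle b₂ (m b₂) from funext fun c => by
    by_cases h1 : c = b₁
    · simp [h1, ne.symm]
    by_cases h2 : c = b₂
    · simp [h2, ne]
    · simp [h1, h2, m1 c h1 h2], map_mul, ps_single, ps_single, ← inv_mul_eq_iff_eq_mul, inv_eq_of_mul_eq_one_right w2] at em
  have d2 : ph S.toJF b₂ (m b₂) = 1 ∨ ph S.toJF b₂ (m b₂) = S.y b₂ :=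
    ((by decide : ∀ d : D, d.Ce → d = 1 ∨ d = D.y) _ (hm b₂)).imp (fun e => by rw [e, map_one]) fun e => by rw [e, ph_y]
  have xA : k * S.a b₁ * k⁻¹ ∈ S.A I := (mul_mem_cancel_left wA).1 (S.Z_le_A I ht)
  rcases (by decide : ∀ d : D, d.Ce → d = 1 ∨ d = D.y) _ (hm b₁) with e | e <;> rw [e] at em
  swap
  · obtain ⟨I', e'⟩ := S.max_J (H8.cj_le_of_mem_normalizer (inv_mem hk) (S.A_le_J I)) (cj_sq (fun x => S.A_sq) _) (by rw [H8.card_cj, S.card_A])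
    obtain ⟨g, c, g1, g2, -, g3⟩ := chart S (nK (b := π.symm b₁) fun e => ne (by rw [← π1, ← e, apply_symm_apply, e])) I'
    replace g3 := g3 b₁ fun e => ne (by rw [← π1, e, apply_symm_apply, ← e])
    have t := g1.conj k
    rw [← e', H8.cj_cj_inv] at t
    have mv1 : k * g * k⁻¹ * S.y b₁ * (k * g * k⁻¹)⁻¹ ≠ S.y b₁ := fun e => g2 (by
      rw [← π.apply_symm_apply b₁, ← (hπ _).1] at e
      rw [← ci (k := k), ← e]; group)
    have f2 : Commute (k * g * k⁻¹) (S.y b₂) := ek ▸ (show Commute g _ from g3.1).map (MulAut.conj k)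
    have f3 : Commute (k * g * k⁻¹) _ := (show Commute g _ from g3.2).map (MulAut.conj k)
    obtain ⟨u, c', u1, u2, u3, -⟩ := chart S (nK ne) I
    obtain ⟨t1, n1, e1⟩ := adj _ S.jg t (S.tv_o I b₁) mv1
    obtain ⟨t2, n2, e2⟩ := adj _ S.jg t u1 fun e => mv1 (fx.2 (by
      have f4 : Commute (k * g * k⁻¹) (S.h I b₂) := by
        rcases u3 with rfl | rfl
        exacts [fx.1 e, by simpa using f2.inv_right.mul_right (fx.1 e)]
      have f5 : Commute (k * g * k⁻¹) (ph S.toJF b₂ (m b₂)) := by rcases d2 with e | e <;> rw [e]; exacts [Commute.one_right _, f2]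
      have := (f4.inv_right.mul_right f3).mul_right f5.inv_right
      rwa [MulAut.conj_apply, ← em, inv_mul_cancel_left, mul_inv_cancel_right, ph_y] at this))
    obtain ⟨t3, n3, e3⟩ := adj _ S.jg u1 (S.tv_o I b₂) u2
    refine (S.o_notMem I b₁ ((mem_normalizer_iff.1 (mul_mem (mul_mem n3 n2) (inv_mem n1)) _).2 ?_)).elim
    rw [show S.o I b₁ = S.a b₁ by simp [JF.o, I, ne.symm]]
    rcases hV' (t3 * t2 * t1⁻¹) (by rw [← e1, ← e3, ← e2]; group) with e | e <;> rw [e]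
    exacts [xA, mul_mem (yA _) xA]
  rw [map_one, one_mul] at em
  have c2 := abA _ (yA b₂) wA
  have eV : H8.cj k (S.V b₁) = closure {S.y b₂, S.h I b₂} := by
    rw [JF.V, H8.cj, MonoidHom.map_closure, Set.image_pair]
    change closure {k * _ * k⁻¹, k * _ * k⁻¹} = _
    have my : ∀ x, S.y b₂ ∈ closure {S.y b₂, x} := fun x => subset_closure (Or.inl rfl)
    have mx : ∀ x, x ∈ closure {S.y b₂, x} := fun x => subset_closure (Or.inr rfl)
    rw [ek, ← em]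
    rcases d2 with e | e <;> rw [e]
    · rw [mul_one]
    · refine le_antisymm ((closure_le _).2 ?_) ((closure_le _).2 ?_) <;> rintro _ (rfl | rfl)
      exacts [my _, mul_mem (mx _) (my _), my _, (mul_mem_cancel_right (my _)).1 (mx _)]
  obtain ⟨σ, hσ, eσ⟩ := sig S hK hk ek
  have nV : ∀ g, g * S.y b₁ * g⁻¹ = S.y b₁ → H8.cj g (S.V b₁) = S.V b₁ := fun g e => H8.cj_eq_self (hN (mem_centralizer_singleton_iff.2 (fx.1 e)))
  have e1 := (eσ b₁).trans (congrArg _ (swap_apply_left _ _))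
  have e2 : H8.cj σ (S.V b₁) = closure {S.y b₂, S.h I b₂} := by
    rw [← eV, ← nV (σ⁻¹ * k) (by rw [← ci (k := σ), e1, ← ek]; group), ← H8.cj_mul, mul_inv_cancel_left, nV (σ⁻¹ * k) (by
      rw [← ci (k := σ), e1, ← ek]; group)]
  refine ⟨?_, σ, S.h I b₂, by unfold JF.h; split_ifs <;> simp, hσ, eσ, e2, by
    rw [← e2, ← H8.cj_mul, nV _ (by
      have := eσ b₂
      rw [swap_apply_right, ← e1] at this
      nth_rw 2 [← this]; group)]⟩
  obtain ⟨g, g1, g2⟩ : ∃ g, g * S.y b₂ * g⁻¹ = S.h I b₂ ∧ g * S.h I b₂ * g⁻¹ = S.y b₂ * S.h I b₂ := by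
    have ae := S.ae b₂
    unfold JF.h
    split_ifs
    · obtain ⟨u, -, u1, u2, -⟩ := S.ua b₂ (nK ne)
      have k1 : S.e b₂ * S.a b₂ * (S.e b₂)⁻¹ = S.y b₂ * S.a b₂ := by rw [ea]; group
      refine ⟨S.e b₂ * u, ?_, ?_⟩ <;> rw [show ∀ x, S.e b₂ * u * x * (S.e b₂ * u)⁻¹ = S.e b₂ * (u * x * u⁻¹) * (S.e b₂)⁻¹ from fun x => by group]
      · rw [u1, ← conj_mul, k1, fx.2 (S.ye _ _).symm, ← mul_assoc, S.y2, one_mul]
      · rw [fx.2 u2, k1]
    · obtain ⟨u, -, u1, u2, -⟩ := S.ue b₂ (nK ne)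
      have k1 : S.a b₂ * S.e b₂ * (S.a b₂)⁻¹ = S.y b₂ * S.e b₂ := by rw [← ae, inv_eq_of_mul_eq_one_right (S.a2 _), mul_assoc _ (S.e b₂) (S.e b₂), S.e2, mul_one]
      refine ⟨u * S.a b₂, ?_, ?_⟩ <;> rw [show ∀ x, u * S.a b₂ * x * (u * S.a b₂)⁻¹ = u * (S.a b₂ * x * (S.a b₂)⁻¹) * u⁻¹ from fun x => by group]
      · rw [fx.2 (S.ya _ _).symm, u1]
      · rw [k1, ← conj_mul, u1, u2, S.ye]
  obtain ⟨g, g1, g2⟩ : ∃ g, g * S.y b₂ * g⁻¹ = k * S.a b₁ * k⁻¹ ∧ g * (k * S.a b₁ * k⁻¹) * g⁻¹ = S.y b₂ * (k * S.a b₁ * k⁻¹) := by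
    rw [← em]
    rcases d2 with e | e <;> rw [e]
    · exact ⟨g, by simpa using g1, by simpa using g2⟩
    · have k : ∀ x, g * g * x * (g * g)⁻¹ = g * (g * x * g⁻¹) * g⁻¹ := fun x => by group
      have g3 : g * (S.y b₂ * S.h I b₂) * g⁻¹ = S.y b₂ := by rw [← conj_mul, g1, g2, c2, ← mul_assoc, w2, one_mul]
      exact ⟨g * g, by rw [k, g1, g2, c2], by rw [k, ← c2, g3, g1, ← mul_assoc, S.y2, one_mul]⟩
  obtain ⟨t, -, r⟩ := rot_of (g := k⁻¹ * g * k) (S.y2 b₁) (S.a2 b₁) (S.ya _ _) (by rw [← ci (k := k), ← g1, ← ek]; group)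
    (by rw [← ci (k := k), ← conj_mul (a := S.y b₁), ek, ← g2]; group)
  exact ⟨t, r⟩

end Cfsg.Agent.WA.Al
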