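import Cfsg.Agent.WA.AlK0
import Cfsg.Agent.WA.AlOne

/-! S3218, module AlK1: the structure `Mid` when `K` has one block. -/

set_option autoImplicit false
set_option linter.unusedSectionVars false

namespace Cfsg.Agent.WA.Al

open Subgroup Equiv Cs

universe u

variable {G : Type u} [Group G] [Finite G] {B : Type} [Fintype B] [DecidableEq B] {s : ℕ}

namespace K1

/-- the frame with the halves chosen by `I` -/
def sf (F : JF G B) (I : B → Bool) : JF G B where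
  y := F.y
  a := F.h I
  e := F.o I
  a2 b := by unfold JF.h; split_ifs; exacts [F.a2 b, F.e2 b]
  e2 b := by unfold JF.o; split_ifs; exacts [F.e2 b, F.a2 b]
  y2 := F.y2
  ae b := by
    unfold JF.h JF.o
    split_ifs
    · exact F.ae b
    · rw [← inv_eq_of_mul_eq_one_right (F.y2 b), ← F.ae, mul_inv_rev, mul_inv_rev, mul_inv_rev, inv_eq_of_mul_eq_one_right (F.a2 b),
        inv_eq_of_mul_eq_one_right (F.e2 b), ← mul_assoc, ← mul_assoc]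
  aa := F.hh I
  ee b c := by
    by_cases h : b = c
    · subst h; rfl
    unfold JF.o
    split_ifs
    exacts [F.ee b c, (F.ac c b (Ne.symm h)).symm, F.ac b c h, F.aa b c]
  ac b c h := by
    unfold JF.h JF.o
    split_ifs
    exacts [F.ac b c h, F.aa b c, F.ee b c, (F.ac c b h.symm).symm]
  ya b c := by unfold JF.h; split_ifs; exacts [F.ya b c, F.ye b c]
  ye b c := by unfold JF.o; split_ifs; exacts [F.ye b c, F.ya b c]
  yy := F.yy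
  ind := F.ind

theorem sf_J (F : JF G B) (I : B → Bool) : (sf F I).J = F.J := by
  refine congrArg Subgroup.closure (Set.ext fun x => ⟨?_, ?_⟩) <;> rintro (⟨b, rfl⟩ | ⟨b, rfl⟩) <;> cases e : I b
  all_goals first
    | (refine Or.inl ⟨b, ?_⟩; simp [sf, JF.h, JF.o, e]; done)
    | (refine Or.inr ⟨b, ?_⟩; simp [sf, JF.h, JF.o, e]; done)

end K1

open K1

theorem Chart.mid_one (C : Chart G B s) (hG : ∀ H : Subgroup G, H.index ≠ 2) {b₁ b₂ : B} (hK : C.K = {b₁}) (ne : b₂ ≠ b₁) :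
    Nonempty (Mid G B s) := by
  obtain ⟨S, h⟩ := C.exists_cs
  have eK : yK s C.K = y0 s b₁ := by rw [hK, yK_single]
  have cm : ∀ {p}, Cm C p ↔ p * y0 s b₁ = y0 s b₁ * p := by intro p; rw [← eK]
  have cy : ∀ b, Cm C (y0 s b) := fun b => cm.2 (Ch.yy _ _)
  have ca : ∀ b, Cm C (a0 s b) := fun b => cm.2 (Ch.rel _ _).2.2.1.symm
  have ce : ∀ b, Cm C (e0 s b) := fun b => cm.2 (Ch.rel _ _).2.2.2.1.symm
  have cx : ∀ q, Cm C (ext b₁ s q) := fun q => cm.2 (ext_cy b₁ q)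
  have ez : C.z = S.y b₁ := by rw [← C.fz, eK, h.y]
  have cz : ∀ g, g * S.y b₁ = S.y b₁ * g → ∃ p, Cm C p ∧ C.f p = g := fun g e => (C.cen g).1 (ez ▸ e)
  have my : S.y b₁ ∈ S.V b₁ := subset_closure (Or.inl rfl)
  have ma : S.a b₁ ∈ S.V b₁ := subset_closure (Or.inr rfl)
  have hN : centralizer {S.y b₁} ≤ normalizer (S.V b₁ : Set G) := fun g hg =>
    H8.mem_normalizer_of_cj_le ((MonoidHom.map_closure _ _).le.trans ((closure_le _).2 (by
      replace hg := mem_centralizer_singleton_iff.1 hg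
      rintro _ ⟨_, rfl | rfl, rfl⟩
      · change g * S.y b₁ * g⁻¹ ∈ _
        rw [On.fx.2 hg]; exact my
      obtain ⟨p, hp, rfl⟩ := cz g hg
      change C.f p * S.a b₁ * (C.f p)⁻¹ ∈ _
      rw [h.a]
      rcases nrm b₁ (cm.1 hp) with e | e <;> rw [f_conj C hp (ca _) (mul_inv_eq_iff_eq_mul.2 e)]
      · exact h.a _ ▸ ma
      · rw [C.mul _ _ (cy _) (ca _), ← h.y, ← h.a]; exact mul_mem my ma)))
  obtain ⟨r1, σ, w, hw, σJ, σy, σ1, σ2⟩ := S.one hG (h.K.trans hK) ne hN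
  obtain ⟨t, rfl⟩ : ∃ t : Bool, w = S.h (fun _ => t) b₂ := hw.elim (fun e => ⟨true, e⟩) fun e => ⟨false, e⟩
  let I : B → Bool := fun b => if b = b₂ then t else true
  have a1 : (sf S.toJF I).a b₁ = S.a b₁ := by simp [sf, JF.h, I, ne.symm]
  have e1 : (sf S.toJF I).e b₁ = S.e b₁ := by simp [sf, JF.o, I, ne.symm]
  have V1 : (sf S.toJF I).V b₁ = S.V b₁ := by rw [JF.V, a1]; rfl
  have V2 : (sf S.toJF I).V b₂ = closure {S.y b₂, S.h (fun _ => t) b₂} := by simp [JF.V, sf, JF.h, I]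
  let κ : Alt (Pt {b // b ≠ b₁} s) →* G := MonoidHom.mk' (fun q => C.f (ext b₁ s q)) fun p q => by rw [map_mul, C.mul _ _ (cx p) (cx q)]
  have cV : ∀ {g}, g ∈ centralizer (S.V b₁ : Set G) ↔ g * S.y b₁ = S.y b₁ * g ∧ g * S.a b₁ = S.a b₁ * g := by
    intro g; rw [JF.V, centralizer_closure, H3.mem_cen_iff]; simp
  refine ⟨⟨sf S.toJF I, C.hs, S.jg, b₁, b₂, ne, a1 ▸ r1, κ, fun p q e => ext_inj b₁ (f_inj C (cx p) (cx q) e), ?_, ?_, ?_, σ, by rw [sf_J]; exact σJ, σy,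
    V1 ▸ V2 ▸ σ1, V1 ▸ V2 ▸ σ2, Or.inl ⟨V1 ▸ hN, fun ζ hζ e => ?_⟩, fun hs _ => ?_⟩⟩
  · rw [V1]
    refine le_antisymm (fun g hg => ?_) (sup_le ((closure_le _).2 ?_) ?_)
    · obtain ⟨p, hp, rfl⟩ := cz g (cV.1 hg).1
      obtain ⟨v, q, hv, rfl⟩ := dec b₁ (cm.1 hp) (f_inj C (hp.mul (ca _)) ((ca _).mul hp) (by
        rw [C.mul _ _ hp (ca _), C.mul _ _ (ca _) hp, ← h.a, (cV.1 hg).2]))
      have : Cm C v ∧ C.f v ∈ S.V b₁ := by
        rcases hv with rfl | rfl | rfl | rfl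
        exacts [⟨cm_one C, (f_one C).symm ▸ one_mem _⟩, ⟨cy _, h.y _ ▸ my⟩, ⟨ca _, h.a _ ▸ ma⟩,
          ⟨(cy _).mul (ca _), by rw [C.mul _ _ (cy _) (ca _), ← h.y, ← h.a]; exact mul_mem my ma⟩]
      rw [C.mul _ _ this.1 (cx q)]
      exact mul_mem (mem_sup_left this.2) (mem_sup_right ⟨q, rfl⟩)
    · rintro _ (rfl | rfl)
      exacts [cV.2 ⟨rfl, S.ya _ _⟩, cV.2 ⟨(S.ya _ _).symm, rfl⟩]
    · rintro _ ⟨q, rfl⟩
      exact cV.2 ⟨h.y _ ▸ f_comm C (cx q) (cy _) (ext_cy b₁ q), h.a _ ▸ f_comm C (cx q) (ca _) (ext_ca b₁ q)⟩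
  · rw [V1, eq_bot_iff]
    rintro _ ⟨hv, q, rfl⟩
    obtain ⟨p, hp, c, e⟩ := pull C (closure {y0 s b₁, a0 s b₁}) (by
      rintro _ (rfl | rfl)
      exacts [⟨_, subset_closure (Or.inl rfl), cy _, (h.y _).symm⟩, ⟨_, subset_closure (Or.inr rfl), ca _, (h.a _).symm⟩]) hv
    obtain rfl := f_inj C c (cx q) e
    obtain ⟨τ, -, e'⟩ := mem_V0 hp
    obtain rfl : q = 1 := Subtype.ext (Equiv.ext fun y => (ι b₁ s).injective (by rw [← ext_ι, e', blk_ι]; rfl))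
    exact map_one κ
  · rw [V2, closure_le]
    rintro _ (rfl | rfl)
    · exact ⟨y0 s ⟨b₂, ne⟩, by rw [h.y, ← ext_y0 b₁ ⟨b₂, ne⟩]; rfl⟩
    · cases t
      exacts [⟨e0 s ⟨b₂, ne⟩, (congrArg C.f (ext_e0 b₁ ⟨b₂, ne⟩)).trans (h.e _).symm⟩,
        ⟨a0 s ⟨b₂, ne⟩, (congrArg C.f (ext_a0 b₁ ⟨b₂, ne⟩)).trans (h.a _).symm⟩]
  · obtain ⟨p, hp, c, rfl⟩ := pull C (MulAction.stabilizer _ (Sum.inr 0 : Pt B s) ⊓ MulAction.stabilizer _ (Sum.inr 1 : Pt B s)) (by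
      rintro _ ⟨b, rfl⟩
      exact ⟨_, ⟨y0_r b 0, y0_r b 1⟩, cy b, (h.y b).symm⟩) hζ
    let q : Alt (Pt {b // b ≠ b₁} s) := c3 (Sum.inr 0) (Sum.inr 1) (Sum.inl (⟨b₂, ne⟩, 0)) (by simp) (by simp)
    have := e _ ⟨q, rfl⟩
    rw [e1, h.e, ← C.mul _ _ (ce _) c] at this
    have k := congrArg (fun r : Alt (Pt B s) => r.1 (Sum.inr 0)) (f_inj C ((cx q).mul ((ce _).mul c)) (((ce _).mul c).mul (cx q))
      ((C.mul _ _ (cx q) ((ce _).mul c)).trans (this.trans (C.mul _ _ ((ce _).mul c) (cx q)).symm)))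
    have p0 : p.1 (Sum.inr 0) = Sum.inr 0 := hp.1
    have p1 : p.1 (Sum.inr 1) = Sum.inr 1 := hp.2
    have q0 := ext_ι b₁ q (Sum.inr 0)
    have q1 := ext_ι b₁ q (Sum.inr 1)
    simp [q, c3, swap_apply_def, ι_l, ι_r] at q0 q1
    simp [p0, e0_r, q, c3, q0, q1, p1] at k
  · obtain ⟨x, ox, hx⟩ := S.x3 hs
    refine ⟨x, ox, V1 ▸ cV.2 (hx b₁), ?_⟩
    rw [V2, centralizer_closure, H3.mem_cen_iff]
    rintro _ (rfl | rfl)
    · exact (hx _).1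
    have e2 : σ * S.y b₁ * σ⁻¹ = S.y b₂ := by rw [σy, swap_apply_left]
    have n := H8.conj_mem_cj σ (hN (show σ⁻¹ * x * σ ∈ _ from mem_centralizer_singleton_iff.2 (by
      rw [← On.fx, ← On.ci (k := σ), e2, ← On.fx.2 (hx b₂).1, ← e2]; group)))
    rw [H8.cj_normalizer, σ1, show σ * (σ⁻¹ * x * σ) * σ⁻¹ = x by group] at n
    have wA := JA.h_mem S.toJF (fun _ => t) b₂
    have hZ := On.hZ S.toJF (fun _ => t) b₂
    have c2 := On.abA _ (S.Z_le_A _ (On.yZ _ b₂)) wA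
    have w2 := S.A_sq wA
    generalize S.h (fun _ => t) b₂ = w at *
    have f := On.fx.2 (hx b₂).1
    rcases (H3.mem_closure_two (S.y2 _) w2 c2).1 ((mem_normalizer_iff.1 n _).1 (subset_closure (Or.inr rfl))) with e | e | e | e
    · exact (hZ (conj_eq_one_iff.1 e ▸ one_mem _)).elim
    · exact On.fx.1 e
    · exact (hZ (On.ci.1 (e.trans f.symm) ▸ On.yZ _ _)).elim
    have : Commute (x ^ 2) w := On.fx.1 (by
      rw [show x ^ 2 * w * (x ^ 2)⁻¹ = x * (x * w * x⁻¹) * x⁻¹ by rw [pow_two]; group, e, ← conj_mul, f, e, ← mul_assoc, S.y2, one_mul])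
    have := this.pow_left 2
    rwa [← pow_mul, show 2 * 2 = 3 + 1 from rfl, pow_succ, ← ox, pow_orderOf_eq_one, one_mul] at this

end Cfsg.Agent.WA.Al
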