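import Cfsg.Agent.WA.AlW
import Cfsg.Agent.WA.AlCh
import Cfsg.Agent.WA.AlStd

/-! S3218, module AlLab: matching the labels of `K` with the frame. -/

set_option autoImplicit false
set_option linter.unusedSimpArgs false
set_option linter.unusedSectionVars false

namespace Cfsg.Agent.WA.Al

open Subgroup Equiv Cs

universe u

variable {G : Type u} [Group G] [Finite G] {B : Type} [Fintype B] [DecidableEq B] {s : ℕ}

namespace Lb

theorem Z_comm (F : JF G B) {u g : G} (hu : u ∈ F.Z) (hg : g ∈ F.J) : Commute u g := by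
  obtain ⟨P, rfl⟩ := F.mem_Z.1 hu
  exact (F.yP_comm P hg).symm

theorem Z_J (F : JF G B) {u : G} (hu : u ∈ F.Z) : u ∈ F.J := F.A_le_J (fun _ => true) (F.Z_le_A _ hu)

theorem Z_sq (F : JF G B) {u : G} (hu : u ∈ F.Z) : u * u = 1 := F.A_sq (F.Z_le_A (fun _ => true) hu)

theorem y_Z (F : JF G B) (b : B) : F.y b ∈ F.Z := subset_closure ⟨b, rfl⟩

theorem cm (F : JF G B) {u u' g g' : G} (hu : u ∈ F.Z) (hu' : u' ∈ F.Z) (hg : g ∈ F.J) (hg' : g' ∈ F.J)
    (h : g * g' = g' * g) : u * g * (u' * g') = u' * g' * (u * g) :=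
  Commute.mul_left (Z_comm F hu (mul_mem (Z_J F hu') hg')) (Commute.mul_right (Z_comm F hu' hg).symm h)

theorem sq' (F : JF G B) {u g : G} (hu : u ∈ F.Z) (hg : g ∈ F.J) : u * g * (u * g) = g * g := by
  calc u * g * (u * g) = u * (g * u) * g := by group
    _ = u * u * (g * g) := by rw [← (Z_comm F hu hg).eq]; group
    _ = _ := by rw [Z_sq F hu, one_mul]

theorem cl_eq {y g g' : G} (hy : y * y = 1) (h : g = g' ∨ g = g' * y) :
    closure ({y, g} : Set G) = closure ({y, g'} : Set G) := by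
  rcases h with rfl | rfl
  · rfl
  · apply le_antisymm <;> rw [closure_le] <;> rintro _ (rfl | rfl)
    · exact subset_closure (by simp)
    · exact mul_mem (subset_closure (by simp)) (subset_closure (by simp))
    · exact subset_closure (by simp)
    · rename_i y g'
      have h : g' * y * y ∈ closure ({y, g' * y} : Set G) :=
        mul_mem (subset_closure (by simp)) (subset_closure (by simp))
      rwa [mul_assoc, hy, mul_one] at h

/-- relabelling of `K` by an automorphism -/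
def re (M : Mid G B s) (ω : MulAut (Alt (Pt {b // b ≠ M.b₁} s))) : Mid G B s :=
  have hr : (M.κ.comp ω.symm.toMonoidHom).range = M.κ.range := by
    ext g
    constructor
    · rintro ⟨x, rfl⟩; exact ⟨_, rfl⟩
    · rintro ⟨x, rfl⟩; exact ⟨ω x, by simp⟩
  { M with
    κ := M.κ.comp ω.symm.toMonoidHom
    inj := M.inj.comp ω.symm.injective
    cV := by rw [hr]; exact M.cV
    disj := by rw [hr]; exact M.disj
    v2 := by rw [hr]; exact M.v2
    alt := by rw [hr]; exact M.alt }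

theorem re_κ (M : Mid G B s) (ω : MulAut (Alt (Pt {b // b ≠ M.b₁} s))) (x : Alt (Pt {b // b ≠ M.b₁} s)) :
    (re M ω).κ (ω x) = M.κ x := by
  show M.κ (ω.symm (ω x)) = _
  rw [MulEquiv.symm_apply_apply]

theorem re_of (M : Mid G B s) {ω : MulAut (Alt (Pt {b // b ≠ M.b₁} s))} {x w : Alt (Pt {b // b ≠ M.b₁} s)}
    (h : ω x = w) : (re M ω).κ w = M.κ x := h ▸ re_κ M ω x

variable (M : Mid G B s)

/-- `x` is a label of `g` -/
def L (x : Alt (Pt {b // b ≠ M.b₁} s)) (g : G) : Prop :=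
  ∃ P u, (u = 1 ∨ u = M.y M.b₁) ∧ M.κ (x * yK s P) = u * g

/-- the labels are standard -/
def Sd : Prop := ∀ b : {b // b ≠ M.b₁},
  (L M (a0 s b) (M.a b) ∧ L M (e0 s b) (M.e b)) ∨ (L M (e0 s b) (M.a b) ∧ L M (a0 s b) (M.e b))

theorem u_Z {u : G} (h : u = 1 ∨ u = M.y M.b₁) : u ∈ M.Z := by
  rcases h with rfl | rfl
  · exact one_mem _
  · exact y_Z _ _

theorem u_V {u : G} (h : u = 1 ∨ u = M.y M.b₁) : u ∈ M.V M.b₁ := by
  rcases h with rfl | rfl
  · exact one_mem _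
  · exact W.yV _ _

theorem ea (F : JF G B) (b : B) : F.e b * F.a b * (F.e b)⁻¹ = F.y b * F.a b := by
  rw [JA.ea F b]; group

theorem lift {g : G} (h1 : g * M.y M.b₁ = M.y M.b₁ * g) (h2 : g * M.a M.b₁ = M.a M.b₁ * g)
    (h3 : M.e M.b₁ * g = g * M.e M.b₁) : ∃ x u, (u = 1 ∨ u = M.y M.b₁) ∧ M.κ x = u * g := by
  have hg : g ∈ centralizer (M.V M.b₁ : Set G) := by
    rw [JF.V, centralizer_closure, mem_centralizer_iff]
    rintro _ (rfl | rfl)
    exacts [h1.symm, h2.symm]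
  obtain ⟨v, hv, x, rfl⟩ := W.dec M hg
  have ey : M.e M.b₁ * M.y M.b₁ * (M.e M.b₁)⁻¹ = M.y M.b₁ := by rw [← M.ye]; group
  have hn : M.e M.b₁ ∈ normalizer (M.V M.b₁ : Set G) :=
    W.normV _ (by rw [ey]; exact W.yV _ _) (by rw [ea]; exact mul_mem (W.yV _ _) (W.aV _ _))
  obtain ⟨x', hx'⟩ := W.conjK M hn x
  have hv' : M.e M.b₁ * v * (M.e M.b₁)⁻¹ ∈ M.V M.b₁ := (mem_normalizer_iff.1 hn v).1 hv
  have e1 : v⁻¹ * (M.e M.b₁ * v * (M.e M.b₁)⁻¹) = M.κ (x * x'⁻¹) := by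
    rw [map_mul, map_inv, ← hx']
    calc _ = v⁻¹ * (M.e M.b₁ * (v * M.κ x)) * (M.κ x)⁻¹ * (M.e M.b₁)⁻¹ := by group
      _ = _ := by rw [h3]; group
  have e2 := W.triv M (mul_mem (inv_mem hv) hv') ⟨_, e1.symm⟩
  rw [inv_mul_eq_one] at e2
  have hsq := W.V_sq _ hv
  refine ⟨x, v, ?_, by rw [← mul_assoc, hsq, one_mul]⟩
  rcases (W.memV _).1 hv with h | h | h | h
  · exact Or.inl h
  · exact Or.inr h
  · rw [h, ea] at e2
    exact absurd (right_eq_mul.1 e2) (M.toJF.y_ne _)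
  · have e3 : M.e M.b₁ * (M.y M.b₁ * M.a M.b₁) * (M.e M.b₁)⁻¹ = M.y M.b₁ * (M.y M.b₁ * M.a M.b₁) := by
      calc _ = (M.e M.b₁ * M.y M.b₁ * (M.e M.b₁)⁻¹) * (M.e M.b₁ * M.a M.b₁ * (M.e M.b₁)⁻¹) := by group
        _ = _ := by rw [ey, ea]
    rw [h, e3] at e2
    exact absurd (right_eq_mul.1 e2) (M.toJF.y_ne _)

theorem exists_sd : ∃ ω, (re M ω).LabY ∧ Sd (re M ω) := by
  have ha : ∀ b : {b // b ≠ M.b₁}, ∃ x u, (u = 1 ∨ u = M.y M.b₁) ∧ M.κ x = u * M.a b := fun b =>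
    lift M (M.ya _ _).symm (M.aa _ _) (M.ac _ _ b.2).symm
  have he : ∀ b : {b // b ≠ M.b₁}, ∃ x u, (u = 1 ∨ u = M.y M.b₁) ∧ M.κ x = u * M.e b := fun b =>
    lift M (M.ye _ _).symm (M.ac _ _ (Ne.symm b.2)).symm (M.ee _ _)
  choose xa ua hua hxa using ha
  choose xe ue hue hxe using he
  have aJ := M.toJF.a_memJ
  have eJ := M.toJF.e_memJ
  have hy : ∀ b : {b // b ≠ M.b₁}, M.κ (xa b * xe b * xa b * xe b) = M.y b := fun b => by
    have e : ua b * M.a b * (ue b * M.e b) = ua b * ue b * (M.a b * M.e b) := by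
      calc _ = ua b * (M.a b * ue b) * M.e b := by group
        _ = _ := by rw [← (Z_comm _ (u_Z M (hue b)) (aJ _)).eq]; group
    rw [mul_assoc (xa b * xe b), map_mul, map_mul, hxa, hxe, e,
      sq' _ (mul_mem (u_Z M (hua b)) (u_Z M (hue b))) (mul_mem (aJ _) (eJ _)), ← mul_assoc, M.ae]
  have yJ : ∀ b, M.y b ∈ M.J := fun b => Z_J _ (y_Z _ b)
  have hyy : ∀ b c : {b // b ≠ M.b₁}, Commute (xa b * xe b * xa b * xe b) (xa c * xe c * xa c * xe c) :=
    fun b c => M.inj (by rw [map_mul M.κ (_ * xe b), map_mul M.κ (_ * xe c), hy, hy]; exact M.yy _ _)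
  let F : JF (Alt (Pt {b // b ≠ M.b₁} s)) {b // b ≠ M.b₁} :=
    { y := fun b => xa b * xe b * xa b * xe b
      a := xa
      e := xe
      a2 := fun b => M.inj (by rw [map_mul, hxa, sq' _ (u_Z M (hua b)) (aJ _), M.a2, map_one])
      e2 := fun b => M.inj (by rw [map_mul, hxe, sq' _ (u_Z M (hue b)) (eJ _), M.e2, map_one])
      y2 := fun b => M.inj (by rw [map_mul, hy, M.y2, map_one])
      ae := fun b => rfl
      aa := fun b c => M.inj (by
        rw [map_mul, map_mul, hxa, hxa]; exact cm _ (u_Z M (hua b)) (u_Z M (hua c)) (aJ _) (aJ _) (M.aa _ _))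
      ee := fun b c => M.inj (by
        rw [map_mul, map_mul, hxe, hxe]; exact cm _ (u_Z M (hue b)) (u_Z M (hue c)) (eJ _) (eJ _) (M.ee _ _))
      ac := fun b c hbc => M.inj (by
        rw [map_mul, map_mul, hxa, hxe]
        exact cm _ (u_Z M (hua b)) (u_Z M (hue c)) (aJ _) (eJ _) (M.ac _ _ fun h => hbc (Subtype.ext h)))
      ya := fun b c => M.inj (by
        rw [map_mul M.κ _ (xa c), map_mul M.κ (xa c), hy, hxa]
        exact (Z_comm _ (y_Z _ _) (mul_mem (Z_J _ (u_Z M (hua c))) (aJ _))).eq)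
      ye := fun b c => M.inj (by
        rw [map_mul M.κ _ (xe c), map_mul M.κ (xe c), hy, hxe]
        exact (Z_comm _ (y_Z _ _) (mul_mem (Z_J _ (u_Z M (hue c))) (eJ _))).eq)
      yy := hyy
      ind := fun P hP => by
        have key : ∀ (P : Finset {b // b ≠ M.b₁}) (hc : (P : Set {b // b ≠ M.b₁}).Pairwise
            (Function.onFun Commute fun b => xa b * xe b * xa b * xe b)),
            M.κ (P.noncommProd (fun b => xa b * xe b * xa b * xe b) hc) = M.yP (W.up M P) := by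
          intro P
          induction P using Finset.induction_on with
          | empty => intro hc; rw [Finset.noncommProd_empty, map_one]; exact M.toJF.yP_empty.symm
          | insert b P hb ih =>
            intro hc
            rw [Finset.noncommProd_insert_of_notMem _ _ _ _ hb, map_mul, hy, ih, W.up, W.up, Finset.map_insert]
            exact (M.toJF.yP_insert (fun h => hb ((W.mem_up M).1 h))).symm
        have h1 := (congrArg M.κ hP).symm.trans (key P _)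
        rw [map_one, ← M.toJF.yP_empty] at h1
        have h2 := congrArg Finset.card (M.toJF.yP_inj h1)
        rw [W.card_up] at h2
        exact Finset.card_eq_zero.1 h2.symm }
  obtain ⟨ω, hω⟩ := std M.hs F
  refine ⟨ω, fun b => ?_, fun b => ?_⟩
  · exact (re_of M (hω b).1).trans (hy b)
  · rcases (hω b).2 with ⟨⟨P, h1⟩, Q, h2⟩ | ⟨⟨P, h1⟩, Q, h2⟩
    · exact Or.inl ⟨⟨P, _, hua b, (re_of M h1).trans (hxa b)⟩, Q, _, hue b, (re_of M h2).trans (hxe b)⟩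
    · exact Or.inr ⟨⟨P, _, hua b, (re_of M h1).trans (hxa b)⟩, Q, _, hue b, (re_of M h2).trans (hxe b)⟩

theorem y12 : IsConj (M.y M.b₁) (M.y M.b₂) :=
  isConj_iff.2 ⟨M.σ, by rw [M.σy, swap_apply_left]⟩

theorem wt1 (h : M.LabY) {x : Alt (Pt {b // b ≠ M.b₁} s)} (hx : x * x = 1) (hc : IsConj (M.y M.b₁) (M.κ x)) :
    x.1.support.card = 4 := by
  obtain ⟨P, hP, hs⟩ := W.size M hx
  obtain ⟨k, hk⟩ := W.w1a h hx hP hs
  have h1 := M.toJF.wt M.jg (P := {M.b₁}) (Q := P) (by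
    rw [M.toJF.yP_single]; exact hc.trans (isConj_iff.2 ⟨_, hk⟩))
  rw [hs, ← h1, Finset.card_singleton]

theorem five {x : Alt (Pt B s)} (h : x.1.support.card = 4) {c : B}
    (h1 : ∀ i, x.1 (Sum.inl (c, i)) ≠ Sum.inl (c, i)) {w : Pt B s} (hw : ∀ i, w ≠ Sum.inl (c, i)) (h2 : x.1 w ≠ w) :
    False := by
  have h3 : insert w (pts s c) ⊆ x.1.support := by
    intro p hp
    rw [Perm.mem_support]
    rcases Finset.mem_insert.1 hp with rfl | hp
    · exact h2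
    · obtain ⟨i, -, rfl⟩ := Finset.mem_image.1 hp
      exact h1 i
  have h4 := Finset.card_le_card h3
  rw [Finset.card_insert_of_notMem (by
    intro hp
    obtain ⟨i, -, e⟩ := Finset.mem_image.1 hp
    exact hw i e.symm), pts, Finset.card_image_of_injective _ (fun i j e => by simpa using e)] at h4
  simp at h4
  omega

theorem yK_sub {b : B} {P : Finset B} (h : ∀ c ∈ P, c = b) : yK s P = 1 ∨ yK s P = y0 s b := by
  rcases Finset.subset_singleton_iff.1 (show P ⊆ {b} from fun c hc => Finset.mem_singleton.2 (h c hc)) with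
    rfl | rfl
  · exact Or.inl Ch.yK_empty
  · exact Or.inr (yK_single b)

/-- the label of `a b₂` -/
theorem a2_lab (h : M.LabY) {x : Alt (Pt {b // b ≠ M.b₁} s)}
    (hx : x = a0 s ⟨M.b₂, M.ne⟩ ∨ x = e0 s ⟨M.b₂, M.ne⟩) (hl : L M x (M.a M.b₂)) :
    M.V M.b₂ = closure {M.y M.b₂, M.κ x} := by
  obtain ⟨P, u, hu, e⟩ := hl
  have ha : M.a M.b₂ ∈ M.κ.range := M.v2 (W.aV _ _)
  have h1 : u = 1 := W.triv M (u_V M hu) (by
    have := mul_mem (⟨_, e⟩ : u * M.a M.b₂ ∈ M.κ.range) (inv_mem ha)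
    simpa using this)
  rw [h1, one_mul] at e
  have hc : IsConj (M.y M.b₁) (M.a M.b₂) := by
    have h2 : M.σ⁻¹ * M.a M.b₂ * M.σ ∈ M.V M.b₁ := by
      rw [← H8.mem_cj, M.σ1]; exact W.aV _ _
    obtain ⟨t, -, ht⟩ := W.rotV _ M.r1 h2 (fun h3 => M.toJF.a_ne M.b₂ (by
      calc M.a M.b₂ = M.σ * (M.σ⁻¹ * M.a M.b₂ * M.σ) * M.σ⁻¹ := by group
        _ = 1 := by rw [h3]; group))
    exact (isConj_iff.2 ⟨t * M.σ⁻¹, by rw [← ht]; group⟩).symm
  have h4 := wt1 M h (x := x * yK s P) (M.inj (by rw [map_mul, e, M.a2, map_one])) (e ▸ hc)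
  have hP : ∀ c ∈ P, c = ⟨M.b₂, M.ne⟩ := by
    intro c hcP
    by_contra hne
    rcases hx with rfl | rfl
    · refine five h4 (c := c) (fun i => ?_) (w := Sum.inl (⟨M.b₂, M.ne⟩, 0)) (fun i e => hne ?_) ?_
      · rw [mul_ap, yK_l, a0_l, if_neg hne, if_pos hcP]
        revert i; simp only [ne_eq, Sum.inl.injEq, Prod.mk.injEq, true_and]; decide
      · simp only [Sum.inl.injEq, Prod.mk.injEq] at e; exact e.1.symm
      · rw [mul_ap, yK_l, a0_l, if_pos rfl]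
        simp only [ne_eq, Sum.inl.injEq, Prod.mk.injEq, true_and]
        split_ifs <;> decide
    · refine five h4 (c := c) (fun i => ?_) (w := Sum.inr 0) (fun i e => by simp at e) ?_
      · rw [mul_ap, yK_l, e0_l, if_neg hne, if_pos hcP]
        revert i; simp only [ne_eq, Sum.inl.injEq, Prod.mk.injEq, true_and]; decide
      · rw [mul_ap, yK_r, e0_r]
        simp
  refine cl_eq (M.y2 _) ?_
  rcases yK_sub (s := s) hP with h5 | h5
  · left; rw [← e, h5, mul_one]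
  · right; rw [← e, h5, map_mul, h ⟨M.b₂, M.ne⟩]

theorem L_eq (h : M.LabY) {x : Alt (Pt {b // b ≠ M.b₁} s)} {g : G} (hg : g ∈ M.J) (hl : L M x g) :
    ∃ ζ ∈ M.Z, M.κ x = ζ * g := by
  obtain ⟨P, u, hu, e⟩ := hl
  have hZ := M.toJF.yP_memZ (W.up M P)
  refine ⟨_, mul_mem (u_Z M hu) hZ, ?_⟩
  rw [map_mul, W.κ_yK h] at e
  calc M.κ x = M.κ x * M.yP (W.up M P) * M.yP (W.up M P) := by rw [mul_assoc, Z_sq _ hZ, mul_one]
    _ = _ := by rw [e, mul_assoc, mul_assoc, (Z_comm _ hZ hg).eq]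

theorem main (h : M.LabY) (hs : Sd M) (ha : L M (a0 s ⟨M.b₂, M.ne⟩) (M.a M.b₂))
    (he : L M (e0 s ⟨M.b₂, M.ne⟩) (M.e M.b₂)) : ∃ M' : Mid G B s, M'.Lab := by
  have aJ := M.toJF.a_memJ
  have eJ := M.toJF.e_memJ
  let a' : B → G := fun b => if hb : b = M.b₁ then M.a M.b₁ else M.κ (a0 s ⟨b, hb⟩)
  let e' : B → G := fun b => if hb : b = M.b₁ then M.e M.b₁ else M.κ (e0 s ⟨b, hb⟩)
  have a1 : a' M.b₁ = M.a M.b₁ := dif_pos rfl
  have e1 : e' M.b₁ = M.e M.b₁ := dif_pos rfl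
  have a2 : ∀ b : {b // b ≠ M.b₁}, a' b = M.κ (a0 s b) := fun b => dif_neg b.2
  have e2 : ∀ b : {b // b ≠ M.b₁}, e' b = M.κ (e0 s b) := fun b => dif_neg b.2
  have hz : ∀ b : {b // b ≠ M.b₁}, (∃ ζ ∈ M.Z, ∃ g, (g = M.a b ∨ g = M.e b) ∧ M.κ (a0 s b) = ζ * g) ∧
      ∃ ζ ∈ M.Z, ∃ g, (g = M.a b ∨ g = M.e b) ∧ M.κ (e0 s b) = ζ * g := fun b => by
    rcases hs b with ⟨h1, h2⟩ | ⟨h1, h2⟩
    · obtain ⟨ζ, hζ, k⟩ := L_eq M h (aJ _) h1
      obtain ⟨ζ', hζ', k'⟩ := L_eq M h (eJ _) h2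
      exact ⟨⟨ζ, hζ, _, Or.inl rfl, k⟩, ζ', hζ', _, Or.inr rfl, k'⟩
    · obtain ⟨ζ, hζ, k⟩ := L_eq M h (aJ _) h1
      obtain ⟨ζ', hζ', k'⟩ := L_eq M h (eJ _) h2
      exact ⟨⟨ζ', hζ', _, Or.inr rfl, k'⟩, ζ, hζ, _, Or.inl rfl, k⟩
  have hJ : ∀ (b : {b // b ≠ M.b₁}) (k : G), (∃ ζ ∈ M.Z, ∃ g, (g = M.a b ∨ g = M.e b) ∧ k = ζ * g) →
      k ∈ M.J ∧ M.e M.b₁ * k = k * M.e M.b₁ := by
    rintro b _ ⟨ζ, hζ, g, hg, rfl⟩
    have h1 : g ∈ M.J ∧ Commute (M.e M.b₁) g := by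
      rcases hg with rfl | rfl
      · exact ⟨aJ _, (M.ac _ _ b.2).symm⟩
      · exact ⟨eJ _, M.ee _ _⟩
    exact ⟨mul_mem (Z_J _ hζ) h1.1, (Commute.mul_right (Z_comm _ hζ (eJ _)).symm h1.2).eq⟩
  have cs : ∀ b : B, b = M.b₁ ∨ ∃ c : {b // b ≠ M.b₁}, b = c := fun b => by
    by_cases hb : b = M.b₁
    · exact Or.inl hb
    · exact Or.inr ⟨⟨b, hb⟩, rfl⟩
  have a'J : ∀ b, a' b ∈ M.J := fun b => by
    rcases cs b with rfl | ⟨c, rfl⟩
    · rw [a1]; exact aJ _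
    · rw [a2]; exact (hJ c _ (hz c).1).1
  have e'J : ∀ b, e' b ∈ M.J := fun b => by
    rcases cs b with rfl | ⟨c, rfl⟩
    · rw [e1]; exact eJ _
    · rw [e2]; exact (hJ c _ (hz c).2).1
  let F : JF G B :=
    { y := M.y
      a := a'
      e := e'
      a2 := fun b => by
        rcases cs b with rfl | ⟨c, rfl⟩
        · rw [a1, M.a2]
        · rw [a2, ← map_mul, (Ch.rel1 c).1, map_one]
      e2 := fun b => by
        rcases cs b with rfl | ⟨c, rfl⟩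
        · rw [e1, M.e2]
        · rw [e2, ← map_mul, (Ch.rel1 c).2.1, map_one]
      y2 := M.y2
      ae := fun b => by
        rcases cs b with rfl | ⟨c, rfl⟩
        · rw [a1, e1, M.ae]
        · rw [a2, e2, ← map_mul, ← map_mul, ← map_mul, (Ch.rel1 c).2.2.2, h c]
      aa := fun b c => by
        rcases cs b with rfl | ⟨b, rfl⟩ <;> rcases cs c with rfl | ⟨c, rfl⟩
        · rfl
        · rw [a1, a2, W.VK M (W.aV _ _)]
        · rw [a1, a2, W.VK M (W.aV _ _)]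
        · rw [a2, a2, ← map_mul, ← map_mul, (Ch.rel b c).1]
      ee := fun b c => by
        rcases cs b with rfl | ⟨b, rfl⟩ <;> rcases cs c with rfl | ⟨c, rfl⟩
        · rfl
        · rw [e1, e2, (hJ c _ (hz c).2).2]
        · rw [e1, e2, (hJ b _ (hz b).2).2]
        · rw [e2, e2, ← map_mul, ← map_mul, (Ch.rel b c).2.1]
      ac := fun b c hbc => by
        rcases cs b with rfl | ⟨b, rfl⟩ <;> rcases cs c with rfl | ⟨c, rfl⟩
        · exact absurd rfl hbc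
        · rw [a1, e2, W.VK M (W.aV _ _)]
        · rw [e1, a2, (hJ b _ (hz b).1).2]
        · rw [a2, e2, ← map_mul, ← map_mul, (Ch.rel b c).2.2.2.2 fun e => hbc (by rw [e])]
      ya := fun b c => (Z_comm _ (y_Z _ b) (a'J c)).eq
      ye := fun b c => (Z_comm _ (y_Z _ b) (e'J c)).eq
      yy := M.yy
      ind := M.ind }
  have hFJ : F.J = M.J := by
    refine eq_of_le_of_card_ge ?_ (by rw [F.card_J, M.toJF.card_J])
    rw [JF.J, closure_le]
    rintro _ (⟨b, rfl⟩ | ⟨b, rfl⟩)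
    exacts [a'J b, e'J b]
  have hV1 : F.V M.b₁ = M.V M.b₁ := by
    show closure {M.y M.b₁, a' M.b₁} = _
    rw [a1]; rfl
  have hV2 : F.V M.b₂ = M.V M.b₂ := by
    show closure {M.y M.b₂, a' M.b₂} = _
    rw [a2 ⟨M.b₂, M.ne⟩, a2_lab M h (Or.inl rfl) ha]
  refine ⟨{ toJF := F, hs := M.hs, jg := M.jg, b₁ := M.b₁, b₂ := M.b₂, ne := M.ne, r1 := ?_, κ := M.κ, inj := M.inj,
            cV := ?_, disj := ?_, v2 := ?_, σ := M.σ, σJ := ?_, σy := M.σy, σ1 := ?_, σ2 := ?_, alt := ?_,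
            x3 := ?_ }, fun b => ⟨h b, (a2 b).symm, (e2 b).symm⟩⟩
  · show ∃ t, Rot t (M.y M.b₁) (a' M.b₁)
    rw [a1]; exact M.r1
  · rw [hV1]; exact M.cV
  · rw [hV1]; exact M.disj
  · rw [hV2]; exact M.v2
  · rw [hFJ]; exact M.σJ
  · rw [hV1, hV2]; exact M.σ1
  · rw [hV1, hV2]; exact M.σ2
  · rw [hV1]
    rcases M.alt with ⟨h1, h2⟩ | ⟨⟨ζ, hζ, h1⟩, h2⟩
    · exact Or.inl ⟨h1, fun ζ hζ => by rw [show F.e M.b₁ = M.e M.b₁ from e1]; exact h2 ζ hζ⟩
    · obtain ⟨ζ', hζ', k⟩ := L_eq M h (eJ _) he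
      refine Or.inr ⟨⟨ζ' * ζ, mul_mem hζ' hζ, ?_⟩, h2⟩
      rw [show F.e M.b₁ = M.e M.b₁ from e1, show F.e M.b₂ = _ from e2 ⟨M.b₂, M.ne⟩, k, (Z_comm _ hζ' (eJ _)).eq]
      have e : M.e M.b₁ * (M.e M.b₂ * ζ') * (ζ' * ζ) = M.e M.b₁ * M.e M.b₂ * (ζ' * ζ') * ζ := by group
      rw [e, Z_sq _ hζ', mul_one]
      exact h1
  · rw [hV1, hV2]; exact M.x3

theorem no_three (h : M.LabY) (hV : M.V M.b₂ = closure {M.y M.b₂, M.κ (e0 s ⟨M.b₂, M.ne⟩)}) {b₃ : B}
    (n1 : b₃ ≠ M.b₁) (n2 : b₃ ≠ M.b₂) : False := by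
  set b : {b // b ≠ M.b₁} := ⟨M.b₂, M.ne⟩ with hb
  set c : {b // b ≠ M.b₁} := ⟨b₃, n1⟩ with hc
  have hbc : b ≠ c := fun e => n2 (congrArg Subtype.val e).symm
  have hy : M.κ (y0 s b) = M.y M.b₂ := h b
  obtain ⟨g, -, hg, -⟩ := sp0 (s := s) Finset.univ b (Finset.mem_univ _) c (Finset.mem_univ _) hbc
  have k1 : IsConj (M.y M.b₁) (M.κ (e0 s b * e0 s c)) :=
    (y12 M).trans (isConj_iff.2 ⟨M.κ g, by rw [← hy, ← hg, map_mul, map_mul, map_inv]⟩)
  have e : a0 s b * (e0 s b * e0 s c) * (a0 s b)⁻¹ = e0 s b * e0 s c * y0 s b := by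
    have h1 := ea (Ch.F0 {b // b ≠ M.b₁} s) b
    have h2 := (Ch.rel (s := s) b c).2.2.2.2 hbc
    have h3 := (Ch.rel (s := s) b c).2.2.2.1
    have h4 := (Ch.rel1 (s := s) b).2.2.2
    have h5 := (Ch.rel1 (s := s) b).1
    have h6 := (Ch.rel1 (s := s) b).2.1
    have h7 := (Ch.rel (s := s) b b).2.2.2.1
    rw [inv_eq_of_mul_eq_one_right h5]
    calc _ = a0 s b * e0 s b * (e0 s c * a0 s b) := by group
      _ = a0 s b * e0 s b * a0 s b * (e0 s b * e0 s b) * e0 s c := by rw [← h2, h6]; group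
      _ = (a0 s b * e0 s b * a0 s b * e0 s b) * e0 s b * e0 s c := by group
      _ = _ := by rw [h4, h7, mul_assoc, h3, mul_assoc]
  have k2 : IsConj (M.y M.b₁) (M.κ (e0 s b * e0 s c) * M.y M.b₂) :=
    k1.trans (isConj_iff.2 ⟨M.κ (a0 s b), by rw [← hy, ← map_inv, ← map_mul, ← map_mul, ← map_mul, e]⟩)
  refine M.toJF.y_ne M.b₂ (M.wq h (g := M.σ) ?_ ?_ (by rw [M.σ1]; exact W.yV _ _) k1 k2)
  · rw [M.σ1, hV, centralizer_closure, mem_centralizer_iff]
    rintro _ (rfl | rfl)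
    · rw [← hy, ← map_mul, ← map_mul, ← mul_assoc, (Ch.rel (s := s) b b).2.2.2.1, mul_assoc,
        (Ch.rel (s := s) b c).2.2.2.1, mul_assoc]
    · rw [← map_mul, ← map_mul, mul_assoc, (Ch.rel (s := s) c b).2.1]
  · rw [M.σ1, hV, ← hy, ← Set.image_pair, ← MonoidHom.map_closure, mem_map_iff_mem M.inj]
    intro hm
    have key : ∀ x ∈ closure ({y0 s b, e0 s b} : Set (Alt (Pt {b // b ≠ M.b₁} s))),
        x.1 (Sum.inl (c, 0)) = Sum.inl (c, 0) := by
      intro x hx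
      induction hx using closure_induction with
      | mem x hx =>
        rcases hx with rfl | rfl
        · rw [y0_l, if_neg hbc.symm]
        · rw [e0_l, if_neg hbc.symm]
      | one => rfl
      | mul x y _ _ h1 h2 => rw [mul_ap, h2, h1]
      | inv x _ h1 => exact Perm.inv_eq_iff_eq.2 h1.symm
    have := key _ hm
    rw [mul_ap, e0_l, if_pos rfl, e0_l, if_neg hbc.symm] at this
    simp at this

theorem fix3 {B : Type} [Fintype B] [DecidableEq B] {b : B} (hB : ∀ c, c = b) {x : Alt (Pt B 1)} (h3 : x ^ 3 = 1)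
    (hy : x * y0 1 b = y0 1 b * x) (he : x * e0 1 b = e0 1 b * x) : x = 1 := by
  have hodd : Odd (orderOf x) := Odd.of_dvd_nat (by decide : Odd 3) (orderOf_dvd_of_pow_eq_one h3)
  have h1 : ∀ p : B × Fin 4, x.1 (Sum.inl p) = Sum.inl p := by
    rintro ⟨c, i⟩
    obtain rfl := hB c
    exact cz0 (v := y0 1 c) (subset_closure (by simp)) ((Ch.F0 B 1).y_ne c) hodd hy i
  have h2 : ∀ j, ∃ k, x.1 (Sum.inr j) = Sum.inr k := by
    intro j
    rcases hx : x.1 (Sum.inr j) with p | k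
    · rw [← h1 p] at hx
      exact absurd (x.1.injective hx) (by simp)
    · exact ⟨k, rfl⟩
  choose f hf using h2
  have h4 : ∀ j, f (swap 0 1 j) = swap 0 1 (f j) := fun j => by
    have := cm_ap he (Sum.inr j)
    rw [e0_r, hf, hf, e0_r] at this
    exact Sum.inr_injective this
  have h5 : ∀ j, f (f (f j)) = j := fun j => by
    have : (x ^ 3).1 (Sum.inr j) = Sum.inr j := by rw [h3]; rfl
    rw [pow_three, mul_ap, mul_ap, hf, hf, hf] at this
    exact Sum.inr_injective this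
  have key : ∀ f : Fin 3 → Fin 3, (∀ j, f (swap 0 1 j) = swap 0 1 (f j)) → (∀ j, f (f (f j)) = j) → ∀ j, f j = j := by
    decide
  refine Subtype.ext (Equiv.ext ?_)
  rintro (p | j)
  · exact h1 p
  · rw [hf, key f h4 h5]; rfl

end Lb

open Lb in
theorem Mid.lab (M : Mid G B s) : ∃ M' : Mid G B s, M'.Lab := by
  obtain ⟨ω, h, hs⟩ := exists_sd M
  generalize re M ω = N at h hs
  clear ω M
  rcases hs ⟨N.b₂, N.ne⟩ with ⟨h1, h2⟩ | ⟨h1, h2⟩
  · exact main N h hs h1 h2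
  have hV := a2_lab N h (Or.inr rfl) h1
  have hB : ∀ c : {b // b ≠ N.b₁}, c = ⟨N.b₂, N.ne⟩ := fun c => by
    by_contra hc
    exact no_three N h hV c.2 fun e => hc (Subtype.ext e)
  have hB1 : Fintype.card {b // b ≠ N.b₁} = 1 := Fintype.card_eq_one_iff.2 ⟨_, hB⟩
  have hs1 := N.hs
  obtain rfl | rfl : s = 0 ∨ s = 1 := by omega
  · obtain ⟨ω, k1, ⟨P, k2⟩, Q, k3⟩ := out6 hB1 ⟨N.b₂, N.ne⟩
    have hyK : ∀ R : Finset {b // b ≠ N.b₁}, ω (yK 0 R) = yK 0 R := fun R => by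
      rcases yK_sub (s := 0) (fun c (_ : c ∈ R) => hB c) with e | e <;> rw [e]
      exacts [map_one _, k1]
    have hmul : ∀ R R' : Finset {b // b ≠ N.b₁}, ∃ R'', yK 0 R * yK 0 R' = yK 0 R'' := fun R R' =>
      ⟨symmDiff R R', by rw [← Ch.F0_yP, ← Ch.F0_yP, JF.yP_mul, Ch.F0_yP]⟩
    have hY : (re N ω).LabY := fun b => by
      obtain rfl := hB b
      exact (re_of N k1).trans (h _)
    have l1 : L (re N ω) (a0 0 ⟨N.b₂, N.ne⟩) (N.a N.b₂) := by
      obtain ⟨R, u, hu, e⟩ := h1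
      obtain ⟨R', e'⟩ := hmul Q R
      exact ⟨R', u, hu, (re_of N (by rw [map_mul, k3, hyK, mul_assoc, e']; rfl)).trans e⟩
    have l2 : L (re N ω) (e0 0 ⟨N.b₂, N.ne⟩) (N.e N.b₂) := by
      obtain ⟨R, u, hu, e⟩ := h2
      obtain ⟨R', e'⟩ := hmul P R
      exact ⟨R', u, hu, (re_of N (by rw [map_mul, k2, hyK, mul_assoc, e']; rfl)).trans e⟩
    exact main (re N ω) hY (fun b => by obtain rfl := hB b; exact Or.inl ⟨l1, l2⟩) l1 l2
  · exfalso
    have hB2 : Fintype.card B = 2 := by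
      have h5 : (Finset.univ : Finset B) = {N.b₂, N.b₁} := by
        ext c
        simp only [Finset.mem_univ, Finset.mem_insert, Finset.mem_singleton, true_iff]
        by_cases hc : c = N.b₁
        · exact Or.inr hc
        · exact Or.inl (congrArg Subtype.val (hB ⟨c, hc⟩))
      rw [← Finset.card_univ, h5, Finset.card_pair N.ne]
    obtain ⟨x, hx, c1, c2⟩ := N.x3 rfl hB2
    obtain ⟨v, hv, p, rfl⟩ := W.dec N c1
    have h3 := pow_orderOf_eq_one (v * N.κ p)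
    rw [hx, (show Commute v (N.κ p) from W.VK N hv p).mul_pow, pow_three, W.V_sq _ hv, mul_one, ← map_pow] at h3
    have hv1 : v = 1 := W.triv N hv ⟨(p ^ 3)⁻¹, by rw [map_inv]; exact (eq_inv_of_mul_eq_one_left h3).symm⟩
    rw [hv1, one_mul] at h3 hx c2
    rw [hV, centralizer_closure, mem_centralizer_iff] at c2
    have hp : p = 1 := fix3 hB (N.inj (by rw [h3, map_one]))
      (N.inj (by rw [map_mul, map_mul, h _]; exact (c2 _ (by simp)).symm))
      (N.inj (by rw [map_mul, map_mul]; exact (c2 _ (by simp)).symm))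
    rw [hp, map_one, orderOf_one] at hx
    omega

end Cfsg.Agent.WA.Al
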