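import Cfsg.Agent.WA.AlMu1

/-! S3218, module AlMu: the normalizer of `V b₁`. -/

set_option autoImplicit false
set_option linter.unusedSectionVars false

namespace Cfsg.Agent.WA.Al

open Subgroup Equiv H8 TvH

universe u

variable {G : Type u} [Group G] [Finite G] {B : Type} [Fintype B] [DecidableEq B] {s : ℕ}

namespace Mu

/-- `τ0` to the power of the parity -/
def ρ (s : ℕ) (B : Type) [Fintype B] [DecidableEq B] : Perm (Fin 4) →* Perm (Pt B s) :=
  MonoidHom.mk' (fun p => if Perm.sign p = 1 then 1 else τ0 s) fun p q => by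
    rw [map_mul]
    rcases Int.units_eq_one_or (Perm.sign p) with e | e <;> rcases Int.units_eq_one_or (Perm.sign q) with e' | e' <;>
      simp [e, e', τ2]

theorem ρ_even {p : Perm (Fin 4)} (h : Perm.sign p = 1) : ρ s B p = 1 := if_pos h
theorem ρ_odd {p : Perm (Fin 4)} (h : Perm.sign p = -1) : ρ s B p = τ0 s := if_neg (by rw [h]; decide)
theorem sign_ρ (p : Perm (Fin 4)) : Perm.sign (ρ s B p) = Perm.sign p := by
  rcases Int.units_eq_one_or (Perm.sign p) with e | e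
  · rw [ρ_even e, e, map_one]
  · rw [ρ_odd e, e, sign_τ]

variable (M : Mid G B s)

theorem κ_yK (h : M.LabY) (P : Finset {b // b ≠ M.b₁}) :
    M.κ (yK s P) = M.yP (P.map (Function.Embedding.subtype _)) := by
  obtain ⟨F, fy, -, -, -, hP⟩ := exists_jf0 (B := {b // b ≠ M.b₁}) M.hs
  rw [← hP]
  induction P using Finset.induction_on with
  | empty => rw [F.yP_empty, map_one, Finset.map_empty, M.toJF.yP_empty]
  | insert b P hb ih =>
    rw [F.yP_insert hb, map_mul, ih, fy, h b, Finset.map_insert, M.toJF.yP_insert (by simpa using fun _ => hb)]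
    rfl

theorem exists_mu (h : M.Lab) (h' : M.Out) : ∃ (lam : Perm (Fin 4) →* G) (μ : St (pts s M.b₁) →* G),
    lam y4 = M.y M.b₁ ∧ lam a4 = M.a M.b₁ ∧ lam e4 = M.e M.b₁ ∧
    ∀ (g : St (pts s M.b₁)) p q (x : Alt (Pt {b // b ≠ M.b₁} s)), g.1.1 = Ph s M.b₁ (p, q) → q = ρ s _ p * x.1 →
      μ g = lam p * M.κ x := by
  obtain ⟨t, R, ht⟩ := exists_t M h h'
  obtain ⟨lam, ly, la, lt, le⟩ := exists_lam R
  have act : ∀ p x, lam p * M.κ x * (lam p)⁻¹ = M.κ (MulAut.conjNormal (ρ s _ p) x) := by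
    let S : Submonoid (Perm (Fin 4)) :=
      { carrier := {p | ∀ x, lam p * M.κ x * (lam p)⁻¹ = M.κ (MulAut.conjNormal (ρ s _ p) x)}
        one_mem' := fun x => by simp
        mul_mem' := fun {p q} hp hq x => by rw [map_mul, cj_cj', hq, hp, map_mul, map_mul, MulAut.mul_apply] }
    have m1 : y4 ∈ S := fun x => by rw [ly, VK M (y_V _ _), ρ_even (by decide)]; simp
    have m2 : a4 ∈ S := fun x => by rw [la, VK M (a_V _ _), ρ_even (by decide)]; simp
    have m3 : r4 ∈ S := fun x => by rw [lt, ht, ρ_even (by decide)]; simp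
    have m4 : e4 ∈ S := fun x => by rw [le, e_act M h', ρ_odd (by decide)]
    intro p
    obtain ⟨i, -, j, -, k, -, l, -, rfl⟩ := nf4 p
    exact mul_mem (pow_mem m1 i) (mul_mem (pow_mem m2 j) (mul_mem (pow_mem m3 k) (pow_mem m4 l)))
  choose σ hσ using fun g : St (pts s M.b₁) => Ph_surj s M.b₁ g.2
  have sg : ∀ g, (ρ s _ (σ g).1)⁻¹ * (σ g).2 ∈ alternatingGroup _ := fun g => by
    have := sign_Ph s M.b₁ (σ g).1 (σ g).2
    rw [hσ g, g.1.2] at this
    rw [Perm.mem_alternatingGroup, map_mul, map_inv, sign_ρ, Int.units_inv_eq_self, ← this]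
  have σm : ∀ g g', σ (g * g') = σ g * σ g' := fun g g' => Ph_inj s M.b₁ (by rw [map_mul, hσ, hσ, hσ]; rfl)
  refine ⟨lam, MonoidHom.mk' (fun g => lam (σ g).1 * M.κ ⟨_, sg g⟩) fun g g' => ?_, ly, la, le, fun g p q x e1 e2 => ?_⟩
  · have := act (σ g').1⁻¹ ⟨_, sg g⟩
    rw [map_inv, inv_inv] at this
    calc _ = lam (σ g).1 * lam (σ g').1 * (M.κ (MulAut.conjNormal (ρ s _ (σ g').1⁻¹) ⟨_, sg g⟩) * M.κ ⟨_, sg g'⟩) := by
          rw [← map_mul, ← map_mul]
          congr 1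
          · rw [σm]; rfl
          · exact congrArg M.κ (Subtype.ext (by simp [σm, mul_assoc]))
      _ = _ := by rw [← this]; group
  · have e : σ g = (p, q) := Ph_inj s M.b₁ ((hσ g).trans e1)
    show lam (σ g).1 * M.κ ⟨_, sg g⟩ = _
    congr 1
    · rw [e]
    · exact congrArg M.κ (Subtype.ext (by simp [e, e2]))

/-- the element of the stabilizer with given components -/
def mkS (b₁ : B) (p : Perm (Fin 4)) (x : Alt (Pt {b // b ≠ b₁} s)) : St (pts s b₁) :=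
  ⟨⟨Ph s b₁ (p, ρ s _ p * x.1), by
    rw [Perm.mem_alternatingGroup, sign_Ph, map_mul, sign_ρ, x.2, mul_one, Int.units_mul_self]⟩, Ph_St s b₁ _⟩

theorem dec (b₁ : B) (g : St (pts s b₁)) : ∃ p x, g = mkS b₁ p x := by
  obtain ⟨⟨p, q⟩, e⟩ := Ph_surj s b₁ g.2
  have := sign_Ph s b₁ p q
  rw [e, g.1.2] at this
  refine ⟨p, ⟨(ρ s _ p)⁻¹ * q, ?_⟩, Subtype.ext (Subtype.ext ?_)⟩
  · rw [Perm.mem_alternatingGroup, map_mul, map_inv, sign_ρ, Int.units_inv_eq_self, ← this]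
  · rw [← e]; simp [mkS]

theorem mk_sq {b₁ : B} {p : Perm (Fin 4)} {x : Alt (Pt {b // b ≠ b₁} s)} (h : mkS b₁ p x * mkS b₁ p x = 1) :
    p * p = 1 ∧ ρ s _ p * x.1 * (ρ s _ p * x.1) = 1 := by
  have : Ph s b₁ _ * Ph s b₁ _ = 1 := congrArg (fun g : St (pts s b₁) => g.1.1) h
  rw [← map_mul, ← map_one (Ph s b₁)] at this
  exact Prod.ext_iff.1 (Ph_inj s b₁ this)

end Mu

open Mu

theorem Mid.hm (M : Mid G B s) (h : M.Lab) (h' : M.Out)
    (hc : centralizer ({M.y M.b₁} : Set G) ≤ normalizer (M.V M.b₁ : Set G)) : Nonempty (HM G (Pt B s)) := by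
  have hY : M.LabY := fun b => (h b).1
  obtain ⟨lam, μ, ly, la, le, hμ⟩ := exists_mu M h h'
  replace hμ : ∀ p x, μ (mkS M.b₁ p x) = lam p * M.κ x := fun p x => hμ _ p _ x rfl rfl
  have lya : lam (y4 * a4) = M.y M.b₁ * M.a M.b₁ := by rw [map_mul, ly, la]
  have yne := y_ne M.toJF M.b₁
  have ane := a_ne M.toJF M.b₁
  have ay := a_ne_y M.toJF M.b₁
  have yane : M.y M.b₁ * M.a M.b₁ ≠ 1 := fun e => ay (by rw [← inv_eq (M.y2 _), inv_eq_of_mul_eq_one_right e])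
  have lV : ∀ p, p = y4 ∨ p = a4 ∨ p = y4 * a4 → lam p ∈ M.V M.b₁ ∧ lam p ≠ 1 := by
    rintro _ (rfl | rfl | rfl)
    exacts [ly ▸ ⟨y_V _ _, yne⟩, la ▸ ⟨a_V _ _, ane⟩, lya ▸ ⟨mul_mem (y_V _ _) (a_V _ _), yane⟩]
  have lcj : ∀ p q, lam p * lam q * (lam p)⁻¹ = lam (p * q * p⁻¹) := fun p q => by rw [map_mul, map_mul, map_inv]
  have Vl : ∀ v ∈ M.V M.b₁, v ≠ 1 → ∃ u ∈ [y4, a4, y4 * a4], lam u = v := fun v hv h1 => by
    rcases (mem_V _ _).1 hv with e | e | e | e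
    exacts [absurd e h1, ⟨_, by simp, ly.trans e.symm⟩, ⟨_, by simp, la.trans e.symm⟩, ⟨_, by simp, lya.trans e.symm⟩]
  have lr : ∀ p, lam p ∈ μ.range := fun p => ⟨mkS M.b₁ p 1, by rw [hμ, map_one, mul_one]⟩
  have nr : normalizer (M.V M.b₁ : Set G) ≤ μ.range := fun g hg => by
    obtain ⟨u, hu, e1⟩ := Vl _ (cm hg (y_V _ _)) (by simpa using yne)
    obtain ⟨v, hv, e2⟩ := Vl _ (cm hg (a_V _ _)) (by simpa using ane)
    obtain ⟨p, e3, e4⟩ := s3 u hu v hv fun e => ay (by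
      rw [e, e2] at e1; simpa using e1)
    obtain ⟨w, hw, x, e5⟩ := dec_cV M (c := (lam p)⁻¹ * g) ((mem_cV _ _).2
      ⟨by rw [cj_cj', ← e1, ← e3, ← lcj, ly]; group, by rw [cj_cj', ← e2, ← e4, ← lcj, la]; group⟩)
    rw [inv_mul_eq_iff_eq_mul] at e5
    rw [e5]
    refine mul_mem (lr p) (mul_mem ?_ ⟨mkS M.b₁ 1 x, by rw [hμ, map_one, one_mul]⟩)
    by_cases h1 : w = 1
    · rw [h1]; exact one_mem _
    · obtain ⟨u, -, rfl⟩ := Vl w hw h1
      exact lr u
  have vX : ∀ v : St (pts s M.b₁), v * v = 1 → v.1.1.support = pts s M.b₁ →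
      ∃ p, (p = y4 ∨ p = a4 ∨ p = y4 * a4) ∧ μ v = lam p := fun v v2 hv => by
    obtain ⟨p, x, rfl⟩ := dec M.b₁ v
    have hq : ρ s _ p * x.1 = 1 := by
      ext y : 1
      by_contra hy
      have : EE s M.b₁ (Sum.inr y) ∈ (Ph s M.b₁ (p, ρ s _ p * x.1)).support := by
        rw [Perm.mem_support, Ph_ap]; simpa using hy
      rw [show (Ph s M.b₁ (p, ρ s _ p * x.1)).support = _ from hv, EE_pts] at this
      simp at this
    have hc := congrArg Finset.card hv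
    rw [show (mkS M.b₁ p x).1.1 = Ph s M.b₁ (p, ρ s _ p * x.1) from rfl, card_Ph, hq, card_pts] at hc
    simp only [Perm.support_one, Finset.card_empty, add_zero] at hc
    rcases inv4 p (mk_sq v2).1 with ⟨a, rfl | ⟨-, b⟩⟩ | ⟨-, a, -⟩
    · simp at hc
    · rw [ρ_even a, one_mul] at hq
      exact ⟨p, b, by rw [hμ, show x = 1 from Subtype.ext hq, map_one, mul_one]⟩
    · omega
  have wt : ∀ g : St (pts s M.b₁), g * g = 1 → ∃ P : Finset B, IsConj (μ g) (M.yP P) ∧ g.1.1.support.card = 4 * P.card := by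
    intro g g2
    obtain ⟨p, x, rfl⟩ := dec M.b₁ g
    obtain ⟨p2, q2⟩ := mk_sq g2
    have nb : ∀ P : Finset {b // b ≠ M.b₁}, M.b₁ ∉ P.map (Function.Embedding.subtype _) := fun P => by simp
    rw [show (mkS M.b₁ p x).1.1 = Ph s M.b₁ (p, ρ s _ p * x.1) from rfl, card_Ph]
    rcases inv4 p p2 with ⟨a, b⟩ | ⟨a, b, c⟩
    · rw [ρ_even a, one_mul] at q2 ⊢
      have x2 : x * x = 1 := Subtype.ext q2
      obtain ⟨P, hP⟩ := exists_yK M.hs x2
      have hc : x.1.support.card = 4 * (P.map (Function.Embedding.subtype _)).card := by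
        obtain ⟨k, e⟩ := isConj_iff.1 hP
        rw [Finset.card_map, ← card_supp_yK (s := s), ← e]
        exact Perm.card_support_conj.symm
      obtain ⟨⟨k, e⟩, w⟩ := M.w1 hY x2 (nb P) hc
      rw [hμ]
      rcases b with rfl | ⟨b, b'⟩
      · exact ⟨_, isConj_iff.2 ⟨M.κ k, by rw [map_one, one_mul, e]⟩, by simpa using hc⟩
      · refine ⟨insert M.b₁ _, M.toJF.yP_insert (nb P) ▸ w _ (lV p b').1 (lV p b').2, ?_⟩
        rw [Finset.card_insert_of_notMem (nb P), b, hc]; ring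
    · obtain ⟨j, -, j1, j2⟩ := cyc2 q2
      rw [map_mul, sign_ρ, a, x.2, mul_one] at j2
      obtain ⟨m, rfl⟩ : Odd j := by
        by_contra hn
        rw [(Nat.not_odd_iff_even.1 hn).neg_one_pow] at j2
        exact absurd j2 (by decide)
      have c1 := Finset.card_le_univ (ρ s _ p * x.1).support
      rw [card_α, j1] at c1
      have hs := M.hs
      obtain ⟨P, -, hP⟩ := Finset.exists_subset_card_eq (s := (Finset.univ : Finset {b // b ≠ M.b₁})) (n := m)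
        (by rw [Finset.card_univ]; omega)
      have dj := τ_disj s P
      have y2 : (yK s P).1 * (yK s P).1 = 1 := Equiv.ext (Cs.yK_yK P)
      obtain ⟨r', e⟩ := isConj_iff.1 (conj2 (q := τ0 s * (yK s P).1) q2 (by
        rw [mul_assoc, ← mul_assoc _ (τ0 s), ← dj.commute.eq, mul_assoc, y2, mul_one, τ2]) (by
        rw [dj.card_support_mul, card_supp_yK, τ_swap, Perm.card_support_swap (by simp), j1, hP]; ring))
      obtain ⟨r, r1, r2⟩ := c (Perm.sign r')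
      obtain ⟨x', hx'⟩ : ∃ x' : Alt (Pt {b // b ≠ M.b₁} s), ρ s _ r * x'.1 = r' := ⟨⟨(ρ s _ r)⁻¹ * r', by
        rw [Perm.mem_alternatingGroup, map_mul, map_inv, sign_ρ, r1, inv_mul_cancel]⟩, mul_inv_cancel_left _ _⟩
      have k : mkS M.b₁ r x' * mkS M.b₁ p x = mkS M.b₁ e4 (yK s P) * mkS M.b₁ r x' := by
        refine Subtype.ext (Subtype.ext ?_)
        show Ph s M.b₁ _ * Ph s M.b₁ _ = Ph s M.b₁ _ * Ph s M.b₁ _
        rw [← map_mul, ← map_mul, Prod.mk_mul_mk, Prod.mk_mul_mk, hx', ρ_odd (p := e4) (by decide), ← e, ← r2]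
        simp
      refine ⟨insert M.b₁ (P.map (Function.Embedding.subtype _)), ?_, ?_⟩
      · rw [M.toJF.yP_insert (nb P)]
        refine IsConj.trans ?_ (h'.2 _ (nb P))
        rw [← κ_yK M hY, ← le, ← hμ]
        exact isConj_iff.2 ⟨μ (mkS M.b₁ r x'), by rw [← map_mul, k, map_mul, mul_inv_cancel_right]⟩
      · rw [Finset.card_insert_of_notMem (nb P), b, j1, Finset.card_map, hP]; ring
  refine ⟨⟨pts s M.b₁, pts s M.b₂, card_pts s _, card_pts s _, ?_, ?_, μ, ?_, fun v v2 hv => ?_,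
    fun p q p2 q2 c => ?_, fun p q p2 q2 c1 c2 => ?_, M.σ, fun v v2 hv => ?_⟩⟩
  · refine Finset.disjoint_left.2 fun x h1 h2 => ?_
    obtain ⟨i, rfl⟩ := (mem_pts s).1 h1
    obtain ⟨j, e⟩ := (mem_pts s).1 h2
    exact M.ne (Prod.ext_iff.1 (Sum.inl_injective e)).1.symm
  · have : 1 < Fintype.card B := Fintype.one_lt_card_iff.2 ⟨_, _, M.ne⟩
    simp only [Fintype.card_sum, Fintype.card_prod, Fintype.card_fin]
    omega
  · refine (injective_iff_map_eq_one μ).2 fun g hg => ?_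
    obtain ⟨p, x, rfl⟩ := dec M.b₁ g
    rw [hμ, mul_eq_one_iff_eq_inv, ← map_inv] at hg
    obtain ⟨c1, c2⟩ := (mem_cV _ _).1 (hg ▸ K_cV M x⁻¹)
    obtain ⟨d1, d2, d3⟩ := c_ya p
    rw [← ly, lcj] at c1
    rw [← la, lcj] at c2
    have : p = 1 := by
      refine (d3 ?_ ?_).resolve_right fun e => (lV p e).2 ?_
      · rcases d1 with e | e | e
        · exact e
        · rw [e, la, ly] at c1; exact absurd c1 ay
        · rw [e, lya, ly, mul_eq_left] at c1; exact absurd c1 ane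
      · rcases d2 with e | e | e
        · rw [e, la, ly] at c2; exact absurd c2.symm ay
        · exact e
        · rw [e, lya, la, mul_eq_right] at c2; exact absurd c2 yne
      · exact mem_bot.1 (M.disj ▸ (⟨(lV p e).1, _, hg.symm⟩ : _ ∈ M.V M.b₁ ⊓ M.κ.range))
    subst this
    rw [map_one, eq_comm, ← map_one M.κ] at hg
    rw [inv_eq_one.1 (M.inj hg)]
    exact Subtype.ext (Subtype.ext (by simp [mkS, ← Prod.one_eq_mk]))
  · obtain ⟨p, hp, e⟩ := vX v v2 hv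
    obtain ⟨r, hr⟩ : ∃ r : Perm (Fin 4), r * y4 * r⁻¹ = p := by
      rcases hp with rfl | rfl | rfl
      exacts [⟨1, by simp⟩, ⟨r4, by decide⟩, ⟨r4⁻¹, by decide⟩]
    rw [e, ← hr, ← lcj, ly, ← cj_centralizer_singleton]
    exact cj_le_of_mem (lr r) (hc.trans nr)
  · obtain ⟨P, a, b⟩ := wt p p2
    obtain ⟨Q, a', b'⟩ := wt q q2
    rw [b, b', M.toJF.wt M.jg (a.symm.trans (c.trans a'))]
  · obtain ⟨P, a, b⟩ := wt p p2
    obtain ⟨Q, a', b'⟩ := wt q q2
    exact a.trans ((M.w0 hY (by omega)).trans a'.symm)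
  · obtain ⟨p, hp, e⟩ := vX v v2 hv
    set b : {b // b ≠ M.b₁} := ⟨M.b₂, M.ne⟩
    have k : ∀ (x : Alt (Pt {b // b ≠ M.b₁} s)) (r : Perm (Fin 4)), x.1 = blk s b r → (∀ i, r i ≠ i) → r * r = 1 →
        M.σ * μ v * M.σ⁻¹ = M.κ x → ∃ v' : St (pts s M.b₁), v' * v' = 1 ∧ v'.1.1.support = pts s M.b₂ ∧
          M.σ * μ v * M.σ⁻¹ = μ v' := fun x r e1 e2 e3 e4 => by
      have e5 : (mkS M.b₁ 1 x).1.1 = blk s M.b₂ r := by
        show Ph s M.b₁ (1, ρ s _ 1 * x.1) = _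
        rw [map_one, one_mul, e1, Ph_blk]
      refine ⟨mkS M.b₁ 1 x, Subtype.ext (Subtype.ext ?_), e5 ▸ supp_blk s _ e2, by rw [hμ, map_one, one_mul, e4]⟩
      show (mkS M.b₁ 1 x).1.1 * (mkS M.b₁ 1 x).1.1 = 1
      rw [e5, blk_mul, e3]
      ext y : 1
      rcases y with ⟨c, i⟩ | j <;> simp [Cs.blk_l, Cs.blk_r]
    have := conj_mem_cj M.σ (e ▸ (lV p hp).1 : μ v ∈ M.V M.b₁)
    rw [M.σ1] at this
    rcases (mem_V _ _).1 this with e' | e' | e' | e'
    · exact absurd (by simpa [e] using e') (lV p hp).2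
    · exact k (y0 s b) _ rfl (by decide) (by decide) (e'.trans (h b).1.symm)
    · exact k (a0 s b) _ rfl (by decide) (by decide) (e'.trans (h b).2.1.symm)
    · exact k (y0 s b * a0 s b) _ (blk_mul s b _ _) (by decide) (by decide)
        (e'.trans (by rw [map_mul, (h b).1, (h b).2.1]))

end Cfsg.Agent.WA.Al
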