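import Cfsg.Agent.WA.AlCs0
import Mathlib.GroupTheory.Perm.Cycle.Type
import Mathlib.GroupTheory.Perm.Finite

/-! S3218, module AlMu: the group `S₄` and the stabilizer of a block. -/

set_option autoImplicit false
set_option linter.unusedSectionVars false
set_option linter.unusedSimpArgs false
set_option maxRecDepth 100000
set_option synthInstance.maxSize 8192
set_option synthInstance.maxHeartbeats 200000

namespace Cfsg.Agent.WA.Al.Mu

open Subgroup Equiv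

def y4 : Perm (Fin 4) := swap 0 1 * swap 2 3
def a4 : Perm (Fin 4) := swap 0 2 * swap 1 3
def e4 : Perm (Fin 4) := swap 0 1
def r4 : Perm (Fin 4) := swap 0 1 * swap 0 2

structure R4 {G : Type*} [Group G] (y a t e : G) : Prop where
  y2 : y * y = 1
  a2 : a * a = 1
  ya : a * y = y * a
  ty : t * y = a * t
  ta : t * a = y * a * t
  t3 : t * (t * t) = 1
  e2 : e * e = 1
  ey : e * y = y * e
  ea : e * a = y * a * e
  et : e * t = t * t * e

theorem r44 : R4 y4 a4 r4 e4 := by constructor <;> decide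

theorem R4.prod {G H : Type*} [Group G] [Group H] {y a t e : G} {y' a' t' e' : H} (h : R4 y a t e) (h' : R4 y' a' t' e') :
    R4 (y, y') (a, a') (t, t') (e, e') :=
  ⟨Prod.ext h.y2 h'.y2, Prod.ext h.a2 h'.a2, Prod.ext h.ya h'.ya, Prod.ext h.ty h'.ty, Prod.ext h.ta h'.ta,
    Prod.ext h.t3 h'.t3, Prod.ext h.e2 h'.e2, Prod.ext h.ey h'.ey, Prod.ext h.ea h'.ea, Prod.ext h.et h'.et⟩

theorem R4.nf {G : Type*} [Group G] {y a t e : G} (h : R4 y a t e) {x : G} (hx : x ∈ closure ({y, a, t, e} : Set G)) :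
    ∃ i j k l : ℕ, x = y ^ i * (a ^ j * (t ^ k * e ^ l)) := by
  have c : Commute a y := h.ya
  have my : ∀ x : G, (∃ i j k l : ℕ, x = y ^ i * (a ^ j * (t ^ k * e ^ l))) →
      ∃ i j k l : ℕ, y * x = y ^ i * (a ^ j * (t ^ k * e ^ l)) := by
    rintro _ ⟨i, j, k, l, rfl⟩
    exact ⟨i + 1, j, k, l, by rw [pow_succ', mul_assoc]⟩
  have ma : ∀ x : G, (∃ i j k l : ℕ, x = y ^ i * (a ^ j * (t ^ k * e ^ l))) →
      ∃ i j k l : ℕ, a * x = y ^ i * (a ^ j * (t ^ k * e ^ l)) := by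
    rintro _ ⟨i, j, k, l, rfl⟩
    exact ⟨i, j + 1, k, l, by rw [← mul_assoc, (c.pow_right i).eq, pow_succ', mul_assoc, mul_assoc]⟩
  have mt : ∀ x : G, (∃ i j k l : ℕ, x = y ^ i * (a ^ j * (t ^ k * e ^ l))) →
      ∃ i j k l : ℕ, t * x = y ^ i * (a ^ j * (t ^ k * e ^ l)) := by
    rintro _ ⟨i, j, k, l, rfl⟩
    refine ⟨j, i + j, k + 1, l, ?_⟩
    rw [← mul_assoc, (SemiconjBy.pow_right h.ty i).eq, mul_assoc, ← mul_assoc t, (SemiconjBy.pow_right h.ta j).eq,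
      c.symm.mul_pow, pow_add, pow_succ']
    simp only [mul_assoc]
    rw [← mul_assoc (a ^ i), (c.pow_pow i j).eq, mul_assoc]
  have me : ∀ x : G, (∃ i j k l : ℕ, x = y ^ i * (a ^ j * (t ^ k * e ^ l))) →
      ∃ i j k l : ℕ, e * x = y ^ i * (a ^ j * (t ^ k * e ^ l)) := by
    rintro _ ⟨i, j, k, l, rfl⟩
    refine ⟨i + j, j, 2 * k, l + 1, ?_⟩
    rw [← mul_assoc, (SemiconjBy.pow_right h.ey i).eq, mul_assoc, ← mul_assoc e, (SemiconjBy.pow_right h.ea j).eq,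
      mul_assoc, ← mul_assoc e, (SemiconjBy.pow_right h.et k).eq, c.symm.mul_pow, pow_add, pow_succ', pow_mul, pow_two]
    simp only [mul_assoc]
  induction hx using closure_induction_left with
  | one => exact ⟨0, 0, 0, 0, by simp⟩
  | mul_left g hg x _ ih =>
    rcases hg with rfl | rfl | rfl | rfl
    exacts [my _ ih, ma _ ih, mt _ ih, me _ ih]
  | inv_mul_cancel g hg x _ ih =>
    rcases hg with rfl | rfl | rfl | rfl
    · rw [inv_eq_of_mul_eq_one_right h.y2]; exact my _ ih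
    · rw [inv_eq_of_mul_eq_one_right h.a2]; exact ma _ ih
    · rw [inv_eq_of_mul_eq_one_right h.t3, mul_assoc]; exact mt _ (mt _ ih)
    · rw [inv_eq_of_mul_eq_one_right h.e2]; exact me _ ih

theorem nf4 : ∀ p : Perm (Fin 4), ∃ i < 2, ∃ j < 2, ∃ k < 3, ∃ l < 2, p = y4 ^ i * (a4 ^ j * (r4 ^ k * e4 ^ l)) := by
  decide +kernel

theorem ind4 : ∀ i < 2, ∀ j < 2, ∀ k < 3, ∀ l < 2, y4 ^ i * (a4 ^ j * (r4 ^ k * e4 ^ l)) = 1 →
    i = 0 ∧ j = 0 ∧ k = 0 ∧ l = 0 := by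
  decide +kernel

theorem exists_lam {G : Type*} [Group G] {y a t e : G} (h : R4 y a t e) :
    ∃ lam : Perm (Fin 4) →* G, lam y4 = y ∧ lam a4 = a ∧ lam r4 = t ∧ lam e4 = e := by
  have h' := h.prod r44
  set H := closure ({(y, y4), (a, a4), (t, r4), (e, e4)} : Set (G × Perm (Fin 4)))
  have m1 : (y, y4) ∈ H := subset_closure (by simp)
  have m2 : (a, a4) ∈ H := subset_closure (by simp)
  have m3 : (t, r4) ∈ H := subset_closure (by simp)
  have m4 : (e, e4) ∈ H := subset_closure (by simp)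
  let f : H →* Perm (Fin 4) := (MonoidHom.snd _ _).comp H.subtype
  have hf : Function.Bijective f := by
    refine ⟨(injective_iff_map_eq_one f).2 fun x hx => ?_, fun p => ?_⟩
    · obtain ⟨i, j, k, l, e⟩ := h'.nf x.2
      rw [pow_eq_pow_mod i ((pow_two _).trans h'.y2), pow_eq_pow_mod j ((pow_two _).trans h'.a2),
        pow_eq_pow_mod k ((pow_three _).trans h'.t3), pow_eq_pow_mod l ((pow_two _).trans h'.e2)] at e
      obtain ⟨a1, a2, a3, a4⟩ := ind4 _ (Nat.mod_lt i two_pos) _ (Nat.mod_lt j two_pos) _ (Nat.mod_lt k three_pos) _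
        (Nat.mod_lt l two_pos) ((congrArg Prod.snd e).symm.trans hx)
      rw [a1, a2, a3, a4] at e
      exact Subtype.ext (by simpa using e)
    · obtain ⟨i, -, j, -, k, -, l, -, rfl⟩ := nf4 p
      exact ⟨⟨_, mul_mem (pow_mem m1 i) (mul_mem (pow_mem m2 j) (mul_mem (pow_mem m3 k) (pow_mem m4 l)))⟩, rfl⟩
  let g := MulEquiv.ofBijective f hf
  have k : ∀ x : H, ((MonoidHom.fst _ _).comp H.subtype).comp g.symm.toMonoidHom x.1.2 = x.1.1 := fun x =>
    congrArg (fun z : H => z.1.1) (g.symm_apply_apply x)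
  exact ⟨_, k ⟨_, m1⟩, k ⟨_, m2⟩, k ⟨_, m3⟩, k ⟨_, m4⟩⟩

theorem c_ya : ∀ p : Perm (Fin 4), (p * y4 * p⁻¹ = y4 ∨ p * y4 * p⁻¹ = a4 ∨ p * y4 * p⁻¹ = y4 * a4) ∧
    (p * a4 * p⁻¹ = y4 ∨ p * a4 * p⁻¹ = a4 ∨ p * a4 * p⁻¹ = y4 * a4) ∧
    (p * y4 * p⁻¹ = y4 → p * a4 * p⁻¹ = a4 → p = 1 ∨ p = y4 ∨ p = a4 ∨ p = y4 * a4) := by decide +kernel

theorem s3 : ∀ u ∈ [y4, a4, y4 * a4], ∀ v ∈ [y4, a4, y4 * a4], u ≠ v →
    ∃ p : Perm (Fin 4), p * y4 * p⁻¹ = u ∧ p * a4 * p⁻¹ = v := by decide +kernel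

theorem inv4 : ∀ p : Perm (Fin 4), p * p = 1 →
    (Perm.sign p = 1 ∧ (p = 1 ∨ (p.support.card = 4 ∧ (p = y4 ∨ p = a4 ∨ p = y4 * a4)))) ∨
    (Perm.sign p = -1 ∧ p.support.card = 2 ∧ ∀ u : ℤˣ, ∃ r : Perm (Fin 4), Perm.sign r = u ∧ r * p * r⁻¹ = e4) := by
  decide +kernel

section perm

variable {β : Type} [Fintype β] [DecidableEq β]

theorem cyc2 {p : Perm β} (hp : p * p = 1) : ∃ j, p.cycleType = Multiset.replicate j 2 ∧ p.support.card = 2 * j ∧
    Perm.sign p = (-1) ^ j := by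
  have := Fact.mk Nat.prime_two
  have h := Perm.cycleType_of_pow_prime_eq_one (σ := p) (p := 2) (by rw [pow_two, hp])
  generalize p.cycleType.card = j at h
  refine ⟨j, h, by rw [← Perm.sum_cycleType, h]; simp [mul_comm], ?_⟩
  rw [Perm.sign_of_cycleType, h]
  simp [pow_add, mul_comm j 2, pow_mul]

theorem conj2 {p q : Perm β} (hp : p * p = 1) (hq : q * q = 1) (h : p.support.card = q.support.card) : IsConj p q := by
  obtain ⟨i, a, b, -⟩ := cyc2 hp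
  obtain ⟨j, c, d, -⟩ := cyc2 hq
  obtain rfl : i = j := by omega
  exact Perm.isConj_iff_cycleType_eq.2 (a.trans c.symm)

theorem cen_alt (h4 : 4 ≤ Fintype.card β) {g : Perm β} (hg : ∀ k : Alt β, g * k.1 * g⁻¹ = k.1) : g = 1 := by
  ext a
  by_contra hab
  change g a ≠ a at hab
  have : 2 ≤ (({a, g a} : Finset β)ᶜ).card := by
    rw [Finset.card_compl, Finset.card_pair hab.symm]; omega
  obtain ⟨c, d, hc, hd, hcd⟩ := Finset.one_lt_card_iff.1 this
  simp only [Finset.mem_compl, Finset.mem_insert, Finset.mem_singleton, not_or] at hc hd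
  have := hg ⟨swap (g a) d * swap (g a) c, by simp [Ne.symm hc.2, Ne.symm hd.2]⟩
  have := congrArg (fun p : Perm β => p (g a)) this
  simp only [Perm.mul_apply, Perm.coe_inv, symm_apply_apply, swap_apply_left] at this
  rw [swap_apply_of_ne_of_ne hab.symm (Ne.symm hc.1), swap_apply_of_ne_of_ne hab.symm (Ne.symm hd.1),
    swap_apply_of_ne_of_ne hc.2 hcd] at this
  exact hc.2 this.symm

end perm

variable {B : Type} [Fintype B] [DecidableEq B] (s : ℕ) (b₁ : B)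

def EE : Fin 4 ⊕ Pt {b // b ≠ b₁} s ≃ Pt B s where
  toFun
    | .inl i => .inl (b₁, i)
    | .inr (.inl x) => .inl (x.1.1, x.2)
    | .inr (.inr j) => .inr j
  invFun
    | .inl x => if h : x.1 = b₁ then .inl x.2 else .inr (.inl (⟨x.1, h⟩, x.2))
    | .inr j => .inr (.inr j)
  left_inv := by
    rintro (i | ⟨⟨b, hb⟩, i⟩ | j) <;> simp [*]
  right_inv := by
    rintro (⟨b, i⟩ | j)
    · by_cases h : b = b₁ <;> simp [h]
    · rfl

def Ph : Perm (Fin 4) × Perm (Pt {b // b ≠ b₁} s) →* Perm (Pt B s) :=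
  (EE s b₁).permCongrHom.toMonoidHom.comp (Perm.sumCongrHom _ _)

theorem Ph_ap (p : Perm (Fin 4)) (q : Perm (Pt {b // b ≠ b₁} s)) (x : Fin 4 ⊕ Pt {b // b ≠ b₁} s) :
    Ph s b₁ (p, q) (EE s b₁ x) = EE s b₁ (Sum.map p q x) := by
  simp [Ph, Equiv.permCongrHom]

theorem Ph_inj : Function.Injective (Ph s b₁) := (EE s b₁).permCongrHom.injective.comp Perm.sumCongrHom_injective

theorem sign_Ph (p : Perm (Fin 4)) (q : Perm (Pt {b // b ≠ b₁} s)) :
    Perm.sign (Ph s b₁ (p, q)) = Perm.sign p * Perm.sign q := by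
  simp [Ph, Equiv.permCongrHom, Perm.sign_sumCongr]

theorem mem_pts {b : B} {x : Pt B s} : x ∈ pts s b ↔ ∃ i, x = Sum.inl (b, i) := by
  simp [pts, eq_comm]

theorem card_pts (b : B) : (pts s b).card = 4 := by
  rw [pts, Finset.card_image_of_injective _ fun i j h => by simpa using h]; simp

theorem EE_pts (x : Fin 4 ⊕ Pt {b // b ≠ b₁} s) : EE s b₁ x ∈ pts s b₁ ↔ x.isLeft := by
  rcases x with i | ⟨⟨b, hb⟩, i⟩ | j <;> simp [mem_pts, EE, *]

theorem Ph_St (x : Perm (Fin 4) × Perm (Pt {b // b ≠ b₁} s)) (y : Pt B s) : Ph s b₁ x y ∈ pts s b₁ ↔ y ∈ pts s b₁ := by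
  obtain ⟨y, rfl⟩ := (EE s b₁).surjective y
  rw [Ph_ap, EE_pts, EE_pts, Sum.isLeft_map]

theorem Ph_surj {g : Perm (Pt B s)} (h : ∀ y, g y ∈ pts s b₁ ↔ y ∈ pts s b₁) : ∃ x, Ph s b₁ x = g := by
  obtain ⟨x, hx⟩ := Perm.mem_sumCongrHom_range_of_perm_mapsTo_inl (σ := (EE s b₁).symm.permCongr g) (by
    rintro _ ⟨i, rfl⟩
    have := (h _).2 ((EE_pts s b₁ (Sum.inl i)).2 rfl)
    rw [← (EE s b₁).apply_symm_apply (g _), EE_pts, Sum.isLeft_iff] at this
    obtain ⟨j, e⟩ := this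
    exact ⟨j, e.symm⟩)
  refine ⟨x, ?_⟩
  show (EE s b₁).permCongr (Perm.sumCongrHom _ _ x) = g
  rw [hx]; ext; simp

theorem supp_Ph (p : Perm (Fin 4)) (q : Perm (Pt {b // b ≠ b₁} s)) :
    (Ph s b₁ (p, q)).support = (p.support.disjSum q.support).map (EE s b₁).toEmbedding := by
  ext y
  obtain ⟨y, rfl⟩ := (EE s b₁).surjective y
  rw [Perm.mem_support, Ph_ap]
  rcases y with i | j <;> simp

theorem card_Ph (p : Perm (Fin 4)) (q : Perm (Pt {b // b ≠ b₁} s)) :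
    (Ph s b₁ (p, q)).support.card = p.support.card + q.support.card := by
  rw [supp_Ph, Finset.card_map, Finset.card_disjSum]

theorem supp_blk (b : B) {p : Perm (Fin 4)} (hp : ∀ i, p i ≠ i) : (blk s b p).support = pts s b := by
  ext y
  rw [Perm.mem_support, mem_pts]
  rcases y with ⟨c, i⟩ | j
  · by_cases h : c = b <;> simp [Cs.blk_l, h, hp]
  · simp [Cs.blk_r]

theorem Ph_blk (b : {b // b ≠ b₁}) (p : Perm (Fin 4)) : Ph s b₁ (1, blk s b p) = blk s b.1 p := by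
  ext y : 1
  obtain ⟨y, rfl⟩ := (EE s b₁).surjective y
  rw [Ph_ap]
  rcases y with i | ⟨c, i⟩ | j
  · simp [EE, Cs.blk_l, b.2.symm]
  · simp [EE, Cs.blk_l, Subtype.ext_iff]
  · simp [EE, Cs.blk_r]

theorem blk_mul (b : B) (p q : Perm (Fin 4)) : blk s b p * blk s b q = blk s b (p * q) := by
  ext y : 1
  rcases y with ⟨c, i⟩ | j
  · by_cases h : c = b <;> simp [Cs.blk_l, h]
  · simp [Cs.blk_r]

theorem τ2 : (τ0 s * τ0 s : Perm (Pt B s)) = 1 := by
  ext y : 1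
  rcases y with x | j <;> simp [τ0, Cs.rr_l, Cs.rr_r]

theorem sign_τ : Perm.sign (τ0 s : Perm (Pt B s)) = -1 := by rw [τ0, sign_rr, Perm.sign_swap Fin.zero_ne_one]

theorem τ_swap : (τ0 s : Perm (Pt B s)) = swap (Sum.inr 0) (Sum.inr 1) := by
  rw [τ0, rr, Perm.sumCongr_one_swap]

theorem τ_disj (P : Finset B) : Perm.Disjoint (τ0 s) (yK s P).1 := by
  rintro (x | j)
  · exact Or.inl (Cs.rr_l _ _)
  · exact Or.inr (Cs.yK_r _ _)

theorem exists_k0 (b : B) : ∃ k : Alt (Pt B s), k.1 * τ0 s * k.1⁻¹ * τ0 s = (e0 s b).1 := by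
  refine ⟨Cs.s2 (Sum.inl (b, 0)) (Sum.inr 0) (Sum.inl (b, 1)) (Sum.inr 1) (by simp) (by simp), ?_⟩
  rw [show (e0 s b).1 = blk s b (swap 0 1) * τ0 s from rfl, mul_left_inj, τ_swap, ← swap_apply_apply]
  have : blk s b (swap 0 1) = swap (Sum.inl (b, 0)) (Sum.inl (b, 1)) := by
    ext y : 1
    rcases y with ⟨c, i⟩ | j
    · by_cases h : c = b
      · subst h; revert i
        refine Cs.f4 ?_ ?_ ?_ ?_ <;> simp [Cs.blk_l, swap_apply_def]
      · simp [Cs.blk_l, h, swap_apply_def]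
    · simp [Cs.blk_r, swap_apply_def]
  rw [this]
  congr 1 <;> simp [Cs.s2_ap, swap_apply_def]

end Cfsg.Agent.WA.Al.Mu
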