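import Cfsg.Agent.WA.AlJB

/-! Module AlTv of S3218: transvections on `A I`. -/

set_option autoImplicit false
set_option linter.unusedSectionVars false

namespace Cfsg.Agent.WA.Al

open Subgroup Equiv H8

universe u

variable {G : Type u} [Group G] [Finite G] {B : Type} [Fintype B] [DecidableEq B] {s : ℕ}

namespace TvH

instance factTwoTv : Fact (Nat.Prime 2) := ⟨Nat.prime_two⟩

theorem cm {A : Subgroup G} {g x : G} (hg : g ∈ normalizer (A : Set G)) (hx : x ∈ A) : g * x * g⁻¹ ∈ A :=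
  (mem_normalizer_iff.1 hg x).1 hx

theorem inv_eq {x : G} (h : x * x = 1) : x⁻¹ = x := inv_eq_of_mul_eq_one_right h

theorem comm {A : Subgroup G} (hA : ∀ x ∈ A, x * x = 1) {x y : G} (hx : x ∈ A) (hy : y ∈ A) : x * y = y * x := by
  rw [← inv_eq (hA _ (mul_mem hx hy)), mul_inv_rev, inv_eq (hA x hx), inv_eq (hA y hy)]

theorem cj_mul' (g x y : G) : g * (x * y) * g⁻¹ = g * x * g⁻¹ * (g * y * g⁻¹) := by group
theorem cj_cj' (g h x : G) : g * h * x * (g * h)⁻¹ = g * (h * x * h⁻¹) * g⁻¹ := by group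

/-- the stabilizer of the chain `A ≥ W₁ ≥ W₂ ≥ 1` -/
def Ch (A W₁ W₂ : Subgroup G) (h₁ : W₁ ≤ A) : Subgroup G where
  carrier := {r | r ∈ normalizer (A : Set G) ∧ (∀ x ∈ A, x⁻¹ * (r * x * r⁻¹) ∈ W₁) ∧
    (∀ x ∈ W₁, x⁻¹ * (r * x * r⁻¹) ∈ W₂ ⊓ W₁) ∧ ∀ x ∈ W₂, r * x * r⁻¹ = x}
  one_mem' := ⟨one_mem _, fun x _ => by simpa using one_mem W₁, fun x _ => by simpa using one_mem _, fun x _ => by simp⟩
  mul_mem' {a b} ha hb := by
    have e : ∀ x, x⁻¹ * (a * b * x * (a * b)⁻¹) =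
        x⁻¹ * (b * x * b⁻¹) * ((b * x * b⁻¹)⁻¹ * (a * (b * x * b⁻¹) * a⁻¹)) := fun x => by group
    refine ⟨mul_mem ha.1 hb.1, fun x hx => ?_, fun x hx => ?_, fun x hx => ?_⟩
    · rw [e]; exact mul_mem (hb.2.1 x hx) (ha.2.1 _ (cm hb.1 hx))
    · rw [e]; exact mul_mem (hb.2.2.1 x hx) (ha.2.2.1 _ (by simpa using mul_mem hx (hb.2.2.1 x hx).2))
    · rw [cj_cj', hb.2.2.2 x hx, ha.2.2.2 x hx]
  inv_mem' {a} ha := by
    have e : ∀ x, x⁻¹ * (a⁻¹ * x * a⁻¹⁻¹) = ((a⁻¹ * x * a⁻¹⁻¹)⁻¹ * (a * (a⁻¹ * x * a⁻¹⁻¹) * a⁻¹))⁻¹ := fun x => by group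
    have k : ∀ x ∈ A, x⁻¹ * (a⁻¹ * x * a⁻¹⁻¹) ∈ W₁ := fun x hx => by
      rw [e]; exact inv_mem (ha.2.1 _ (cm (inv_mem ha.1) hx))
    refine ⟨inv_mem ha.1, k, fun x hx => ?_, fun x hx => ?_⟩
    · rw [e]; exact inv_mem (ha.2.2.1 _ (by simpa using mul_mem hx (k x (h₁ hx))))
    · nth_rewrite 1 [← ha.2.2.2 x hx]; group

theorem Ch_four {A W₁ W₂ : Subgroup G} {h₁ : W₁ ≤ A} (hA : ∀ x ∈ A, x * x = 1) {r : G} (hr : r ∈ Ch A W₁ W₂ h₁)
    {x : G} (hx : x ∈ A) : r ^ 4 * x * (r ^ 4)⁻¹ = x := by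
  obtain ⟨-, a1, a2, a3⟩ := hr
  have w1 := a1 x hx
  have w2 := a2 _ w1
  have e1 : r * x * r⁻¹ = x * (x⁻¹ * (r * x * r⁻¹)) := by group
  generalize x⁻¹ * (r * x * r⁻¹) = w at *
  have e2 : r * w * r⁻¹ = w * (w⁻¹ * (r * w * r⁻¹)) := by group
  generalize w⁻¹ * (r * w * r⁻¹) = v at *
  have e3 : r * r * x * (r * r)⁻¹ = x * v := by
    rw [cj_cj', e1, cj_mul', e1, e2, mul_assoc, ← mul_assoc w, hA w (h₁ w1), one_mul]
  have e4 : r * r * v * (r * r)⁻¹ = v := by rw [cj_cj', a3 v w2.1, a3 v w2.1]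
  rw [show r ^ 4 = r * r * (r * r) by simp only [pow_succ, pow_zero, one_mul, mul_assoc], cj_cj', e3, cj_mul', e3, e4,
    mul_assoc, hA v (h₁ w2.2), mul_one]

theorem Tv_Ch {A W₁ W₂ : Subgroup G} {h₁ : W₁ ≤ A} {g c : G} (h : Tv A g c) (hc : c ∈ W₁)
    (h2 : (∀ x ∈ W₁, g * x * g⁻¹ = x) ∨ c ∈ W₂) (h3 : ∀ x ∈ W₂, g * x * g⁻¹ = x) : g ∈ Ch A W₁ W₂ h₁ := by
  refine ⟨h.norm, fun x hx => ?_, fun x hx => ?_, h3⟩
  · rcases h.act x hx with e | e <;> rw [e]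
    · simpa using one_mem W₁
    · simpa using hc
  · rcases h2 with h2 | h2
    · rw [h2 x hx]; simpa using one_mem _
    · rcases h.act x (h₁ hx) with e | e <;> rw [e]
      · simpa using one_mem _
      · simpa using And.intro h2 hc

theorem fix_closure {g : G} {S : Set G} (h : ∀ x ∈ S, g * x * g⁻¹ = x) {x : G} (hx : x ∈ closure S) :
    g * x * g⁻¹ = x := by
  have : closure S ≤ centralizer {g} := (closure_le _).2 fun y hy =>
    mem_centralizer_singleton_iff.2 (mul_inv_eq_iff_eq_mul.1 (h y hy)).symm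
  exact mul_inv_eq_iff_eq_mul.2 (mem_centralizer_singleton_iff.1 (this hx)).symm

variable (F : JF G B)

theorem pg_J : IsPGroup 2 F.J := IsPGroup.of_card (n := 3 * Fintype.card B) (by rw [F.card_J, pow_mul]; norm_num)

theorem y_Z (b : B) : F.y b ∈ F.Z := subset_closure ⟨b, rfl⟩
theorem y_A (I : B → Bool) (b : B) : F.y b ∈ F.A I := F.Z_le_A I (y_Z F b)
theorem h_A (I : B → Bool) (b : B) : F.h I b ∈ F.A I := subset_closure (Or.inr ⟨b, rfl⟩)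
theorem a_J (b : B) : F.a b ∈ F.J := subset_closure (Or.inl ⟨b, rfl⟩)
theorem e_J (b : B) : F.e b ∈ F.J := subset_closure (Or.inr ⟨b, rfl⟩)
theorem o_J (I : B → Bool) (b : B) : F.o I b ∈ F.J := by
  unfold JF.o; split_ifs; exacts [e_J F b, a_J F b]
theorem o2 (I : B → Bool) (b : B) : F.o I b * F.o I b = 1 := by
  unfold JF.o; split_ifs; exacts [F.e2 b, F.a2 b]
theorem Z_fix {g z : G} (hg : g ∈ F.J) (hz : z ∈ F.Z) : g * z * g⁻¹ = z := by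
  obtain ⟨P, rfl⟩ := F.mem_Z.1 hz
  rw [F.yP_comm P hg, mul_inv_cancel_right]
theorem y_inj {b c : B} (h : F.y b = F.y c) : b = c := by
  rw [← F.yP_single, ← F.yP_single] at h
  exact Finset.singleton_injective (F.yP_inj h)
theorem y_ne (b : B) : F.y b ≠ 1 := fun h => by
  rw [← F.yP_single, ← F.yP_empty] at h
  exact Finset.singleton_ne_empty _ (F.yP_inj h)
theorem o_h (I : B → Bool) (b c : B) :
    F.o I b * F.h I c * (F.o I b)⁻¹ = F.h I c * if b = c then F.y b else 1 := by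
  have := F.o_act I b ∅ {c}
  simpa [F.yP_empty, JF.hP] using this
theorem o_a (I : B → Bool) {b c : B} (h : c ≠ b) : F.o I b * F.a c * (F.o I b)⁻¹ = F.a c := by
  rw [mul_inv_eq_iff_eq_mul]; unfold JF.o; split_ifs; exacts [(F.ac c b h).symm, F.aa b c]
theorem o_e (I : B → Bool) {b c : B} (h : c ≠ b) : F.o I b * F.e c * (F.o I b)⁻¹ = F.e c := by
  rw [mul_inv_eq_iff_eq_mul]; unfold JF.o; split_ifs; exacts [F.ee b c, F.ac b c h.symm]

theorem mem_J (hJ : F.JG) {Q : Subgroup G} (hQ : IsPGroup 2 Q) (hJQ : F.J ≤ Q) {q : G} (hq : q ∈ Q)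
    (h : ∀ b, q * F.y b * q⁻¹ = F.y b) : q ∈ F.J := by
  have h1 : F.J ≤ Q ⊓ centralizer (Set.range F.y) := le_inf hJQ fun g hg => mem_centralizer_iff.2 (by
    rintro _ ⟨b, rfl⟩; exact (mul_inv_eq_iff_eq_mul.1 (Z_fix F hg (y_Z F b))).symm)
  have h2 := hJ _ (hQ.to_le (inf_le_left (b := centralizer (Set.range F.y)))) inf_le_right
  rw [eq_of_le_of_card_ge h1 (F.card_J ▸ h2)]
  exact ⟨hq, mem_centralizer_iff.2 (by rintro _ ⟨b, rfl⟩; exact (mul_inv_eq_iff_eq_mul.1 (h b)).symm)⟩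

theorem tv_mem_J (hJ : F.JG) {Q : Subgroup G} (hQ : IsPGroup 2 Q) (hJQ : F.J ≤ Q) {I : B → Bool} {q c : G} (hq : q ∈ Q)
    (h : Tv (F.A I) q c) : q ∈ F.J := by
  refine mem_J F hJ hQ hJQ hq fun b => ?_
  obtain ⟨π, hπ⟩ := F.norm_J ((F.max_two hJ hQ hJQ).1 hq)
  by_cases hb : π b = b
  · rw [(hπ b).1, hb]
  exfalso
  have hc : c ∈ F.Z := by
    rcases h.act _ (y_A F I b) with e | e
    · exact absurd (y_inj F ((hπ b).1.symm.trans e)) hb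
    · have := mul_mem (inv_mem (y_Z F b)) (y_Z F (π b))
      rwa [← (hπ b).1, e, inv_mul_cancel_left] at this
  obtain ⟨w, hw, h1⟩ : ∃ w, F.o I b * w * (F.o I b)⁻¹ = w ∧ w * (q * F.h I b * q⁻¹) ∈ F.Z := by
    unfold JF.h
    rcases (hπ b).2 with ⟨e1, e2⟩ | ⟨e1, e2⟩ <;> split_ifs
    exacts [⟨_, o_a F I hb, e1⟩, ⟨_, o_e F I hb, e2⟩, ⟨_, o_e F I hb, e1⟩, ⟨_, o_a F I hb, e2⟩]
  have h2 : w * F.h I b ∈ F.Z := by
    rcases h.act _ (h_A F I b) with e | e <;> rw [e] at h1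
    · exact h1
    · simpa [mul_assoc] using mul_mem h1 (inv_mem hc)
  have := Z_fix F (o_J F I b) h2
  rw [cj_mul', hw, o_h, if_pos rfl, ← mul_assoc, mul_eq_left] at this
  exact y_ne F b this

/-- a group of transvections that acts as a `2`-group is conjugate into the frame. -/
theorem key (hJ : F.JG) {I : B → Bool} {W₁ W₂ : Subgroup G} (h₁ : W₁ ≤ F.A I) : ∃ n : G, ∀ g ∈ Ch (F.A I) W₁ W₂ h₁,
    ∀ c, Tv (F.A I) g c → ∃ b, n * c * n⁻¹ = F.y b ∧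
      ∀ x ∈ F.A I, n * (g * x * g⁻¹) * n⁻¹ = F.o I b * (n * x * n⁻¹) * (F.o I b)⁻¹ := by
  obtain ⟨Q, hQ, hJQ⟩ := exists_isSylowIn_ge (pg_J F) (F.J_le_norm I)
  set N := normalizer (F.A I : Set G)
  let φ : N →* MulAut (F.A I) := (F.A I).normalizerMonoidHom
  have hφ : ∀ (n : N) (x : F.A I), ((φ n x : F.A I) : G) = n * x * (n : G)⁻¹ := fun n x => rfl
  have h1 := (isSylowIn_top hQ.toSylow).map φ
  have h2 : IsPGroup 2 (((Ch (F.A I) W₁ W₂ h₁).subgroupOf N).map φ) := by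
    rintro ⟨_, r, hr, rfl⟩
    refine ⟨2, Subtype.ext (MulEquiv.ext fun x => Subtype.ext ?_)⟩
    show (((φ r) ^ 4) x : G) = x
    rw [← map_pow, hφ]
    exact Ch_four (h₁ := h₁) (fun x hx => F.A_sq hx) hr x.2
  obtain ⟨P, hP, h3⟩ := exists_isSylowIn_ge h2 (map_mono le_top)
  obtain ⟨_, ⟨n, -, rfl⟩, e⟩ := hP.exists_cj_eq h1
  refine ⟨n, fun g hg c hc => ?_⟩
  have h4 := conj_mem_cj (φ n) (h3 ⟨⟨g, hc.norm⟩, hg, rfl⟩)
  rw [e] at h4
  obtain ⟨q, hq, e2⟩ := h4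
  rw [← map_inv, ← map_mul, ← map_mul] at e2
  have e3 : ∀ x ∈ F.A I, (q : G) * (n * x * (n : G)⁻¹) * (q : G)⁻¹ = n * (g * x * g⁻¹) * (n : G)⁻¹ := fun x hx => by
    have := hφ q ⟨_, cm n.2 hx⟩
    rw [e2, hφ] at this
    rw [← this]
    simp [mul_assoc]
  have bk : ∀ x ∈ F.A I, ∃ x' ∈ F.A I, x = n * x' * (n : G)⁻¹ := fun x hx =>
    ⟨_, cm (inv_mem n.2) hx, by group⟩
  have tq : Tv (F.A I) q (n * c * (n : G)⁻¹) := by
    refine ⟨q.2, by simpa using hc.ne, ?_, fun x hx => ?_⟩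
    · obtain ⟨x, hx, h5⟩ := hc.mv
      exact ⟨_, cm n.2 hx, by rw [e3 x hx]; simpa using h5⟩
    · obtain ⟨x', hx', rfl⟩ := bk x hx
      rw [e3 x' hx']
      rcases hc.act x' hx' with e | e <;> rw [e]
      exacts [Or.inl rfl, Or.inr (cj_mul' _ _ _)]
  obtain ⟨b, h5, h6⟩ := F.tv_J (tv_mem_J F hJ hQ.pgroup hJQ hq tq) tq
  exact ⟨b, h5, fun x hx => (e3 x hx).symm.trans (h6 _ (cm n.2 hx))⟩

end TvH

open TvH

theorem Tv.mem {A : Subgroup G} {g c : G} (h : Tv A g c) : c ∈ A := by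
  obtain ⟨x, hx, h1⟩ := h.mv
  have := mul_mem (inv_mem hx) (cm h.norm hx)
  rwa [(h.act x hx).resolve_left h1, inv_mul_cancel_left] at this

theorem Tv.conj {A : Subgroup G} {g c : G} (h : Tv A g c) (k : G) : Tv (H8.cj k A) (k * g * k⁻¹) (k * c * k⁻¹) := by
  have e : ∀ x : G, k * g * k⁻¹ * (k * x * k⁻¹) * (k * g * k⁻¹)⁻¹ = k * (g * x * g⁻¹) * k⁻¹ := fun x => by group
  refine ⟨cj_normalizer k A ▸ conj_mem_cj k h.norm, by simpa using h.ne, ?_, fun x hx => ?_⟩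
  · obtain ⟨x, hx, h1⟩ := h.mv
    exact ⟨_, conj_mem_cj k hx, by rw [e]; simpa using h1⟩
  · obtain ⟨x, rfl⟩ : ∃ x', x = k * x' * k⁻¹ := ⟨k⁻¹ * x * k, by group⟩
    rw [e]
    rcases h.act x (by simpa [mul_assoc] using mem_cj.1 hx) with e | e <;> rw [e]
    exacts [Or.inl rfl, Or.inr (cj_mul' _ _ _)]

theorem Tv.conj' {A : Subgroup G} {g c k : G} (h : Tv A g c) (hk : k ∈ normalizer (A : Set G)) :
    Tv A (k * g * k⁻¹) (k * c * k⁻¹) := by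
  have := h.conj k
  rwa [cj_eq_self hk] at this

theorem Tv.fix {A : Subgroup G} {g c : G} (hA : ∀ x ∈ A, x * x = 1) (h : Tv A g c) : g * c * g⁻¹ = c := by
  rcases h.act c h.mem with e | e
  · exact e
  · rw [hA c h.mem] at e
    exact absurd (by simpa using e) h.ne

theorem Tv.mul_fix {A : Subgroup G} {g c : G} (hA : ∀ x ∈ A, x * x = 1) (h : Tv A g c) {x x' : G} (hx : x ∈ A)
    (hx' : x' ∈ A) : g * (x * x') * g⁻¹ = x * x' ↔ (g * x * g⁻¹ = x ↔ g * x' * g⁻¹ = x') := by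
  have n := h.ne
  rw [cj_mul']
  rcases h.act x hx with e | e <;> rcases h.act x' hx' with e' | e' <;> rw [e, e']
  · simp
  · simp [n]
  · simp [n, mul_assoc]
  · rw [mul_assoc, ← mul_assoc c, comm hA h.mem hx', mul_assoc, hA c h.mem]; simp [n]

theorem rot_of {g p q : G} (hp : p * p = 1) (hq : q * q = 1) (hpq : p * q = q * p) (h1 : g * p * g⁻¹ = q)
    (h2 : g * q * g⁻¹ = p * q) : ∃ t ∈ zpowers g, Rot t p q := by
  have h3 : g * (p * q) * g⁻¹ = p := by rw [cj_mul', h1, h2, ← mul_assoc, ← hpq, mul_assoc, hq, mul_one]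
  have k : ∀ j : ℕ, g ^ 2 ^ (2 * j) * p * (g ^ 2 ^ (2 * j))⁻¹ = q ∧ g ^ 2 ^ (2 * j) * q * (g ^ 2 ^ (2 * j))⁻¹ = p * q := by
    intro j
    induction j with
    | zero => simpa using And.intro h1 h2
    | succ j ih =>
      rw [show 2 ^ (2 * (j + 1)) = 2 ^ (2 * j) * 4 by ring, pow_mul]
      obtain ⟨a, b⟩ := ih
      generalize g ^ 2 ^ (2 * j) = r at *
      have c : r * (p * q) * r⁻¹ = p := by rw [cj_mul', a, b, ← mul_assoc, ← hpq, mul_assoc, hq, mul_one]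
      rw [show r ^ 4 = r * (r * (r * r)) by simp only [pow_succ, pow_zero, one_mul, mul_assoc]]
      simp only [cj_cj', a, b, c, and_self]
  obtain ⟨a, m, hm, e⟩ := Nat.exists_eq_two_pow_mul_odd (orderOf_pos g).ne'
  refine ⟨_, pow_mem (mem_zpowers g) _, ?_, (k a).1, (k a).2⟩
  refine Odd.of_dvd_nat hm (orderOf_dvd_of_pow_eq_one ?_)
  rw [← pow_mul, show 2 ^ (2 * a) * m = 2 ^ a * m * 2 ^ a by ring, ← e, pow_mul, pow_orderOf_eq_one, one_pow]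

theorem Tv.rot {A : Subgroup G} {g c g' c' : G} (hA : ∀ x ∈ A, x * x = 1) (h : Tv A g c) (h' : Tv A g' c')
    (m : g * c' * g⁻¹ ≠ c') (m' : g' * c * g'⁻¹ ≠ c) : ∃ t ∈ closure ({g, g'} : Set G), Rot t c c' := by
  have e := (h.act c' h'.mem).resolve_left m
  have e' := (h'.act c h.mem).resolve_left m'
  have cc := comm hA h.mem h'.mem
  obtain ⟨t, ht, h1⟩ := rot_of (g := g * g') (hA c h.mem) (hA c' h'.mem) cc
    (by rw [cj_cj', e', cj_mul', h.fix hA, e, ← cc, ← mul_assoc, hA c h.mem, one_mul])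
    (by rw [cj_cj', h'.fix hA, e, cc])
  exact ⟨t, zpowers_le.2 (mul_mem (subset_closure (by simp)) (subset_closure (by simp))) ht, h1⟩

theorem JF.tv_symm (F : JF G B) (hJ : F.JG) {I : B → Bool} {g c g' c' : G} (h : Tv (F.A I) g c) (h' : Tv (F.A I) g' c')
    (hf : g * c' * g⁻¹ = c') : g' * c * g'⁻¹ = c := by
  have hA : ∀ x ∈ F.A I, x * x = 1 := fun x hx => F.A_sq hx
  have h₁ : closure {c, c'} ≤ F.A I := (closure_le _).2 (by rintro _ (rfl | rfl); exacts [h.mem, h'.mem])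
  obtain ⟨n, hn⟩ := key F hJ (W₂ := closure {c'}) h₁
  obtain ⟨b, e, -⟩ := hn g (Tv_Ch h (subset_closure (by simp))
    (Or.inl fun x => fix_closure (by rintro _ (rfl | rfl); exacts [h.fix hA, hf]))
    fun x => fix_closure (by rintro _ rfl; exact hf)) c h
  obtain ⟨b', -, e'⟩ := hn g' (Tv_Ch h' (subset_closure (by simp)) (Or.inr (subset_closure rfl))
    fun x => fix_closure (by rintro _ rfl; exact h'.fix hA)) c' h'
  have := e' c h.mem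
  rw [e, Z_fix F (o_J F I b') (y_Z F b), ← e] at this
  simpa using this

theorem JF.tv_same (F : JF G B) (hJ : F.JG) {I : B → Bool} {g g' c : G} (h : Tv (F.A I) g c) (h' : Tv (F.A I) g' c) :
    ∀ x ∈ F.A I, g * x * g⁻¹ = g' * x * g'⁻¹ := by
  have hA : ∀ x ∈ F.A I, x * x = 1 := fun x hx => F.A_sq hx
  have h₁ : closure {c} ≤ F.A I := (closure_le _).2 (by rintro _ rfl; exact h.mem)
  obtain ⟨n, hn⟩ := key F hJ (W₂ := closure {c}) h₁
  obtain ⟨b, e, e1⟩ := hn g (Tv_Ch h (subset_closure rfl) (Or.inr (subset_closure rfl))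
    fun x => fix_closure (by rintro _ rfl; exact h.fix hA)) c h
  obtain ⟨b', e', e2⟩ := hn g' (Tv_Ch h' (subset_closure rfl) (Or.inr (subset_closure rfl))
    fun x => fix_closure (by rintro _ rfl; exact h'.fix hA)) c h'
  obtain rfl := y_inj F (e.symm.trans e')
  intro x hx
  simpa using (e1 x hx).trans (e2 x hx).symm

theorem JF.tv_Z (F : JF G B) (hJ : F.JG) {I : B → Bool} {g c : G} (h : Tv (F.A I) g c) (hc : c ∈ F.Z) :
    ∃ b, c = F.y b := by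
  obtain ⟨n, hn⟩ := key F hJ (W₂ := F.Z) (F.Z_le_A I)
  obtain ⟨b, e, -⟩ := hn g (Tv_Ch h hc (Or.inr hc) fun x => fix_closure (by
    rintro _ ⟨b, rfl⟩
    exact F.tv_symm hJ (F.tv_o I b) h (Z_fix F (o_J F I b) hc))) c h
  choose β hβ _ using fun b => hn _ (Tv_Ch (F.tv_o I b) (y_Z F b) (Or.inr (y_Z F b))
    fun x => Z_fix F (o_J F I b)) _ (F.tv_o I b)
  have : Function.Injective β := fun b b' e => y_inj F (by
    have := (hβ b).trans (e ▸ (hβ b').symm)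
    simpa using this)
  obtain ⟨b', rfl⟩ := Finite.injective_iff_surjective.1 this b
  exact ⟨b', by simpa using e.trans (hβ b').symm⟩

theorem JF.tv_three (F : JF G B) (hJ : F.JG) {I : B → Bool} {g c g₁ c₁ g₂ c₂ g₃ c₃ : G} (h : Tv (F.A I) g c)
    (h₁ : Tv (F.A I) g₁ c₁) (h₂ : Tv (F.A I) g₂ c₂) (h₃ : Tv (F.A I) g₃ c₃) (n12 : c₁ ≠ c₂) (n13 : c₁ ≠ c₃) (n23 : c₂ ≠ c₃)
    (f12 : g₁ * c₂ * g₁⁻¹ = c₂) (f13 : g₁ * c₃ * g₁⁻¹ = c₃) (f23 : g₂ * c₃ * g₂⁻¹ = c₃)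
    (m₁ : g * c₁ * g⁻¹ ≠ c₁) (m₂ : g * c₂ * g⁻¹ ≠ c₂) (m₃ : g * c₃ * g⁻¹ ≠ c₃) : False := by
  have hA : ∀ x ∈ F.A I, x * x = 1 := fun x hx => F.A_sq hx
  have f21 := F.tv_symm hJ h₁ h₂ f12
  have f31 := F.tv_symm hJ h₁ h₃ f13
  have f32 := F.tv_symm hJ h₂ h₃ f23
  have a1 := (h₁.act c h.mem).resolve_left fun e => m₁ (F.tv_symm hJ h₁ h e)
  have a2 := (h₂.act c h.mem).resolve_left fun e => m₂ (F.tv_symm hJ h₂ h e)
  have a3 := (h₃.act c h.mem).resolve_left fun e => m₃ (F.tv_symm hJ h₃ h e)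
  have t1 := h.conj' (mul_mem h₁.norm h₂.norm)
  rw [cj_cj' g₁ g₂ c, a2, cj_mul', a1, f12] at t1
  have t2 := h.conj' h₃.norm
  rw [a3] at t2
  have c3 : ∀ x ∈ F.A I, c₃ * x = x * c₃ := fun x hx => comm hA h₃.mem hx
  have m12 := mul_mem h₁.mem h₂.mem
  have e1 : g₃ * (c * (c₁ * c₂ * c₃)) * g₃⁻¹ = c * c₁ * c₂ := by
    rw [cj_mul', cj_mul', cj_mul', a3, f31, f32, h₃.fix hA, mul_assoc, c3 _ (mul_mem m12 h₃.mem), mul_assoc,
      hA _ h₃.mem, mul_one, mul_assoc]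
  have e2 := (t2.act _ t1.mem).resolve_left fun e => by
    rw [← e1] at e
    have e' : g * (c * (c₁ * c₂ * c₃)) * g⁻¹ = c * (c₁ * c₂ * c₃) := by
      generalize c * (c₁ * c₂ * c₃) = v at e ⊢
      simpa [mul_assoc] using congrArg (fun w => g₃⁻¹ * w * g₃) e
    rw [h.mul_fix hA h.mem (mul_mem m12 h₃.mem), h.mul_fix hA m12 h₃.mem, h.mul_fix hA h₁.mem h₂.mem] at e'
    exact m₃ ((e'.1 (h.fix hA)).1 (iff_of_false m₁ m₂))
  have t4 := t1.conj' t2.norm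
  rw [e2, mul_assoc c, comm hA h.mem m12, mul_assoc (c₁ * c₂), ← mul_assoc c, hA c h.mem, one_mul] at t4
  have hW : closure {c₁, c₂, c₃} ≤ F.A I :=
    (closure_le _).2 (by rintro _ (rfl | rfl | rfl); exacts [h₁.mem, h₂.mem, h₃.mem])
  have w1 : c₁ ∈ closure ({c₁, c₂, c₃} : Set G) := subset_closure (by simp)
  have w2 : c₂ ∈ closure ({c₁, c₂, c₃} : Set G) := subset_closure (by simp)
  have w3 : c₃ ∈ closure ({c₁, c₂, c₃} : Set G) := subset_closure (by simp)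
  have w4 := mul_mem (mul_mem w1 w2) w3
  have k1 : ∀ x ∈ closure ({c₁, c₂, c₃} : Set G), g₁ * x * g₁⁻¹ = x := fun x =>
    fix_closure (by rintro _ (rfl | rfl | rfl); exacts [h₁.fix hA, f12, f13])
  have k2 : ∀ x ∈ closure ({c₁, c₂, c₃} : Set G), g₂ * x * g₂⁻¹ = x := fun x =>
    fix_closure (by rintro _ (rfl | rfl | rfl); exacts [f21, h₂.fix hA, f23])
  have k3 : ∀ x ∈ closure ({c₁, c₂, c₃} : Set G), g₃ * x * g₃⁻¹ = x := fun x =>
    fix_closure (by rintro _ (rfl | rfl | rfl); exacts [f31, f32, h₃.fix hA])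
  obtain ⟨n, hn⟩ := key F hJ (W₂ := closure {c₁, c₂, c₃}) hW
  obtain ⟨b1, e1, -⟩ := hn _ (Tv_Ch h₁ w1 (Or.inr w1) k1) _ h₁
  obtain ⟨b2, e2, -⟩ := hn _ (Tv_Ch h₂ w2 (Or.inr w2) k2) _ h₂
  obtain ⟨b3, e3, -⟩ := hn _ (Tv_Ch h₃ w3 (Or.inr w3) k3) _ h₃
  obtain ⟨b4, e4, -⟩ := hn _ (Tv_Ch t4 w4 (Or.inr w4) fun x => fix_closure (by
    rintro _ (rfl | rfl | rfl)
    exacts [F.tv_symm hJ h₁ t4 (k1 _ w4), F.tv_symm hJ h₂ t4 (k2 _ w4), F.tv_symm hJ h₃ t4 (k3 _ w4)])) _ t4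
  have b12 : b1 ≠ b2 := fun e => n12 (mul_left_cancel (mul_right_cancel (e1.trans ((congrArg F.y e).trans e2.symm))))
  have b13 : b1 ≠ b3 := fun e => n13 (mul_left_cancel (mul_right_cancel (e1.trans ((congrArg F.y e).trans e3.symm))))
  have b23 : b2 ≠ b3 := fun e => n23 (mul_left_cancel (mul_right_cancel (e2.trans ((congrArg F.y e).trans e3.symm))))
  rw [mul_assoc c₁, cj_mul', cj_mul', e1, e2, e3, ← F.yP_single b3, ← F.yP_insert (by simpa using b23),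
    ← F.yP_insert (by simp [b12, b13]), ← F.yP_single] at e4
  have := congrArg Finset.card (F.yP_inj e4)
  rw [Finset.card_insert_of_notMem (by simp [b12, b13]), Finset.card_insert_of_notMem (by simpa using b23)] at this
  simp at this

end Cfsg.Agent.WA.Al
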