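import Cfsg.Agent.WA.AlW
import Cfsg.Agent.WA.AlCh
import Cfsg.Agent.WA.AlAut
import Cfsg.Agent.WA.AlTv
import Cfsg.Agent.WA.AlMu0

/-! S3218, module AlMu: an element of order three that centralizes `K`. -/

set_option autoImplicit false
set_option linter.unusedSectionVars false

namespace Cfsg.Agent.WA.Al.Mu

open Subgroup Equiv H8 TvH

universe u

variable {G : Type u} [Group G] [Finite G] {B : Type} [Fintype B] [DecidableEq B] {s : ℕ}

theorem mem_V (F : JF G B) (b : B) {v : G} : v ∈ F.V b ↔ v = 1 ∨ v = F.y b ∨ v = F.a b ∨ v = F.y b * F.a b := by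
  have y2 := F.y2 b
  have a2 := F.a2 b
  have c := F.ya b b
  refine ⟨fun h => ?_, ?_⟩
  · have k : ∀ g ∈ ({F.y b, F.a b} : Set G), ∀ x, (x = 1 ∨ x = F.y b ∨ x = F.a b ∨ x = F.y b * F.a b) →
        g * x = 1 ∨ g * x = F.y b ∨ g * x = F.a b ∨ g * x = F.y b * F.a b := by
      rintro _ (rfl | rfl) _ (rfl | rfl | rfl | rfl)
      · simp
      · simp [y2]
      · simp
      · rw [← mul_assoc, y2]; simp
      · simp
      · simp [c]
      · simp [a2]
      · rw [c, ← mul_assoc, a2]; simp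
    induction h using closure_induction_left with
    | one => simp
    | mul_left g hg x _ ih => exact k g hg x ih
    | inv_mul_cancel g hg x _ ih =>
      rw [show g⁻¹ = g by rcases hg with rfl | rfl; exacts [inv_eq y2, inv_eq a2]]
      exact k g hg x ih
  · have m1 : F.y b ∈ F.V b := subset_closure (by simp)
    have m2 : F.a b ∈ F.V b := subset_closure (by simp)
    rintro (rfl | rfl | rfl | rfl)
    exacts [one_mem _, m1, m2, mul_mem m1 m2]

theorem y_V (F : JF G B) (b : B) : F.y b ∈ F.V b := (mem_V F b).2 (by simp)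
theorem a_V (F : JF G B) (b : B) : F.a b ∈ F.V b := (mem_V F b).2 (by simp)
theorem ea (F : JF G B) (b : B) : F.e b * F.a b = F.y b * F.a b * F.e b := by
  rw [F.ya, ← F.ae b]
  simp only [← mul_assoc, F.a2 b, one_mul]
  rw [mul_assoc, F.e2, mul_one]
theorem eae (F : JF G B) (b : B) : F.e b * F.a b * (F.e b)⁻¹ = F.y b * F.a b := by rw [ea, mul_inv_cancel_right]
theorem eye (F : JF G B) (b : B) : F.e b * F.y b * (F.e b)⁻¹ = F.y b := by rw [← F.ye, mul_inv_cancel_right]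
theorem a_ne (F : JF G B) (b : B) : F.a b ≠ 1 := fun h => by
  have := eae F b
  rw [h] at this
  exact y_ne F b (by simpa using this.symm)
theorem a_ne_y (F : JF G B) (b : B) : F.a b ≠ F.y b := fun h => by
  have := eae F b
  rw [h, eye, F.y2] at this
  exact y_ne F b this
theorem mem_cV (F : JF G B) (b : B) {g : G} :
    g ∈ centralizer (F.V b : Set G) ↔ g * F.y b * g⁻¹ = F.y b ∧ g * F.a b * g⁻¹ = F.a b := by
  refine ⟨fun h => ⟨?_, ?_⟩, fun h => mem_centralizer_iff.2 fun v hv => ?_⟩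
  · rw [← mem_centralizer_iff.1 h _ (y_V F b), mul_inv_cancel_right]
  · rw [← mem_centralizer_iff.1 h _ (a_V F b), mul_inv_cancel_right]
  · exact (mul_inv_eq_iff_eq_mul.1 (fix_closure (by rintro _ (rfl | rfl); exacts [h.1, h.2]) hv)).symm
theorem mem_nV (F : JF G B) (b : B) {g : G} (h1 : g * F.y b * g⁻¹ ∈ F.V b) (h2 : g * F.a b * g⁻¹ ∈ F.V b) :
    g ∈ normalizer (F.V b : Set G) := by
  refine mem_normalizer_fintype (S := (F.V b : Set G)) fun v hv => ?_
  rcases (mem_V F b).1 hv with rfl | rfl | rfl | rfl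
  · simpa using one_mem (F.V b)
  · exact h1
  · exact h2
  · rw [cj_mul']; exact mul_mem h1 h2

variable (M : Mid G B s)

theorem K_cV (p : Alt (Pt {b // b ≠ M.b₁} s)) : M.κ p ∈ centralizer (M.V M.b₁ : Set G) :=
  M.cV ▸ mem_sup_right ⟨p, rfl⟩

theorem VK {v : G} (hv : v ∈ M.V M.b₁) (p : Alt (Pt {b // b ≠ M.b₁} s)) : v * M.κ p = M.κ p * v :=
  mem_centralizer_iff.1 (K_cV M p) v hv

theorem dec_cV {c : G} (hc : c ∈ centralizer (M.V M.b₁ : Set G)) : ∃ v ∈ M.V M.b₁, ∃ p, c = v * M.κ p := by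
  rw [M.cV] at hc
  have : ((M.V M.b₁ ⊔ M.κ.range : Subgroup G) : Set G) = _ := coe_mul_of_right_le_normalizer_left _ _ (by
    rintro _ ⟨p, rfl⟩; exact centralizer_le_normalizer _ (K_cV M p))
  rw [← SetLike.mem_coe, this] at hc
  obtain ⟨v, hv, _, ⟨p, rfl⟩, e⟩ := hc
  exact ⟨v, hv, p, e.symm⟩

theorem card_α : Fintype.card (Pt {b // b ≠ M.b₁} s) = 4 * Fintype.card {b // b ≠ M.b₁} + (s + 2) := by
  simp [mul_comm]

theorem card_pos : 1 ≤ Fintype.card {b // b ≠ M.b₁} := Fintype.card_pos_iff.2 ⟨⟨M.b₂, M.ne⟩⟩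

theorem cen_both {c : G} (hc : c ∈ centralizer (M.V M.b₁ : Set G)) (h : ∀ p, c * M.κ p = M.κ p * c) : c ∈ M.V M.b₁ := by
  obtain ⟨v, hv, p, rfl⟩ := dec_cV M hc
  have : p ∈ center _ := mem_center_iff.2 fun q => M.inj (by
    have := h q
    rw [mul_assoc, ← mul_assoc (M.κ q), ← VK M hv q, mul_assoc, mul_right_inj] at this
    rw [map_mul, map_mul, this])
  rw [alternatingGroup.center_eq_bot (by
    rw [Nat.card_eq_fintype_card, card_α]; have := card_pos M; omega), mem_bot] at this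
  rw [this, map_one, mul_one]; exact hv

theorem e_act (h' : M.Out) (p : Alt (Pt {b // b ≠ M.b₁} s)) :
    M.e M.b₁ * M.κ p * (M.e M.b₁)⁻¹ = M.κ (MulAut.conjNormal (τ0 s) p) := h'.1 _ _ rfl

theorem e_conj (h' : M.Out) : IsConj (M.y M.b₁) (M.e M.b₁) := by
  have := h'.2 ∅ (by simp)
  rw [M.toJF.yP_empty, mul_one, mul_one] at this
  exact this.symm

theorem exists_ω {t : G} (ht : t ∈ normalizer (M.V M.b₁ : Set G)) :
    ∃ ω : MulAut (Alt (Pt {b // b ≠ M.b₁} s)), ∀ p, M.κ (ω p) = t * M.κ p * t⁻¹ := by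
  let e := MonoidHom.ofInjective M.inj
  refine ⟨(e.trans (M.κ.range.normalizerMonoidHom ⟨t, M.norm_K ht⟩)).trans e.symm, fun p => ?_⟩
  exact congrArg Subtype.val (e.apply_symm_apply (M.κ.range.normalizerMonoidHom ⟨t, M.norm_K ht⟩ (e p)))

theorem six (h : M.Lab) (h' : M.Out) (h1 : Fintype.card {b // b ≠ M.b₁} = 1) {t : G}
    (ω : MulAut (Alt (Pt {b // b ≠ M.b₁} s))) (hω : ∀ p, M.κ (ω p) = t * M.κ p * t⁻¹) :
    (ω (a0 s ⟨M.b₂, M.ne⟩)).1.support = (ω (y0 s ⟨M.b₂, M.ne⟩)).1.support := by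
  set b : {b // b ≠ M.b₁} := ⟨M.b₂, M.ne⟩
  obtain ⟨F, fy, fa, fe, hJ, -⟩ := exists_jf0 (B := {b // b ≠ M.b₁}) M.hs
  have all : ∀ c : {b // b ≠ M.b₁}, c = b := fun c => (Fintype.card_le_one_iff.1 h1.le) c b
  have eA : ∀ I, F.A I = closure {F.y b, F.h I b} := fun I => by
    unfold JF.A
    congr 1
    ext x
    simp only [Set.mem_union, Set.mem_range, Set.mem_insert_iff, Set.mem_singleton_iff]
    exact ⟨by rintro (⟨c, rfl⟩ | ⟨c, rfl⟩) <;> simp [all c], by rintro (rfl | rfl); exacts [Or.inl ⟨_, rfl⟩, Or.inr ⟨_, rfl⟩]⟩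
  have eV : F.A (fun _ => true) = F.V b := eA _
  obtain ⟨Q, hQ, hJQ⟩ := exists_isSylowIn_ge (pg_J F) le_top
  have p2 : IsPGroup 2 ((F.V b).map ω.toMonoidHom) := ((pg_J F).to_le (eV ▸ F.A_le_J _)).map _
  obtain ⟨P, hP, hEP⟩ := exists_isSylowIn_ge p2 le_top
  obtain ⟨k, -, e⟩ := hP.exists_cj_eq hQ
  obtain ⟨I, e⟩ := (F.max_two hJ hQ.pgroup hJQ).2 (cj k ((F.V b).map ω.toMonoidHom)) (e ▸ cj_mono k hEP) (by
    intro x hx
    obtain ⟨x', h1, h2⟩ := mem_cj.1 hx
    have := congrArg ω (F.A_sq (eV ▸ h1))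
    rw [map_mul, map_one, show ω x' = _ from h2] at this
    simpa [mul_assoc] using congrArg (fun w => k * w * k⁻¹) this) (by
    rw [card_cj, card_map_of_injective ω.injective, ← eV, F.card_A])
  have mem : ∀ x ∈ F.V b, k * ω x * k⁻¹ ∈ F.A I := fun x hx => e ▸ conj_mem_cj k ⟨x, hx, rfl⟩
  rw [eA] at e mem
  unfold JF.h at e mem
  cases hI : I b
  · exfalso
    rw [hI, if_neg (by simp), fy, fe] at e
    have e2 : cj (M.κ k * t * M.σ) (M.V M.b₁) = (closure {y0 s b, e0 s b}).map M.κ := by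
      rw [cj_mul, M.σ1, ← e, map_cj, cj_mul]
      congr 1
      have : M.V M.b₂ = (F.V b).map M.κ := by
        unfold JF.V
        rw [MonoidHom.map_closure, Set.image_pair, fy, fa, (h b).1, (h b).2.1]
      rw [this]
      ext x
      refine ⟨fun hx => ?_, ?_⟩
      · obtain ⟨p, hp, e⟩ := mem_cj.1 hx
        exact ⟨_, ⟨p, hp, rfl⟩, (hω p).trans (by rw [e]; group)⟩
      · rintro ⟨_, ⟨p, hp, rfl⟩, rfl⟩
        exact (hω p).symm ▸ conj_mem_cj t ⟨p, hp, rfl⟩
    obtain ⟨k0, hk0⟩ := exists_k0 s b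
    have c1 : IsConj (M.e M.b₁) (M.e M.b₂ * M.e M.b₁) := by
      refine isConj_iff.2 ⟨M.κ k0, ?_⟩
      have : e0 s b = k0 * MulAut.conjNormal (τ0 s) k0⁻¹ := Subtype.ext (by
        rw [← hk0]; simp [mul_assoc, inv_eq (τ2 s)])
      rw [← (h b).2.2, this, map_mul, ← e_act M h', map_inv]
      group
    refine M.toJF.o_notMem (fun _ => true) M.b₂ ?_
    have := M.wq (fun b => (h b).1) (g := M.κ k * t * M.σ) (k := M.e M.b₂ * M.e M.b₁) (v := M.e M.b₂) (by
      rw [e2, MonoidHom.map_closure, Set.image_pair, (h b).1, (h b).2.2, mem_centralizer_iff]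
      intro x hx
      refine (mul_inv_eq_iff_eq_mul.1 (fix_closure ?_ hx)).symm
      rintro _ (rfl | rfl) <;> rw [mul_inv_eq_iff_eq_mul]
      · exact (Commute.mul_right (M.ye _ _) (M.ye _ _)).symm
      · exact (Commute.mul_right (M.ee _ _) (M.ee _ _)).symm) (by
      rw [e2]
      rintro ⟨p, -, e⟩
      have := ((mem_cV M.toJF M.b₁).1 (K_cV M ((e0 s b)⁻¹ * p))).2
      rw [map_mul, map_inv, e, (h b).2.2, inv_mul_cancel_left, eae, mul_eq_right] at this
      exact y_ne M.toJF _ this) (by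
      rw [e2]; exact ⟨_, subset_closure (by simp), (h b).2.2⟩) ((e_conj M h').trans c1) (by
      rw [M.ee, mul_assoc, M.e2, mul_one]; exact e_conj M h')
    show M.e M.b₂ ∈ _
    rw [this]; exact one_mem _
  · rw [hI, if_pos rfl] at mem
    have sp : ∀ x ∈ F.V b, x ≠ 1 → (k * ω x * k⁻¹).1.support = pts s b := fun x hx hne => by
      rcases (mem_V F b).1 (mem x hx) with e | e | e | e
      · exact absurd (by simpa using e) hne
      · rw [e, fy]; exact supp_blk s b (by decide)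
      · rw [e, fa]; exact supp_blk s b (by decide)
      · rw [e, fy, fa]; exact (congrArg Perm.support (blk_mul s b _ _)).trans (supp_blk s b (by decide))
    have := (sp _ (a_V F b) (a_ne F b)).trans (sp _ (y_V F b) (y_ne F b)).symm
    rw [fy, fa] at this
    simp only [coe_mul, coe_inv, Perm.support_conj] at this
    exact Finset.map_injective _ this

theorem exists_t0 (h : M.Lab) (h' : M.Out) : ∃ t, t * M.y M.b₁ * t⁻¹ = M.a M.b₁ ∧
    t * M.a M.b₁ * t⁻¹ = M.y M.b₁ * M.a M.b₁ ∧ ∀ p, t * M.κ p = M.κ p * t := by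
  obtain ⟨t, ht⟩ := M.r1
  obtain ⟨ω, hω⟩ := exists_ω M (mem_nV M.toJF M.b₁ (ht.h1 ▸ a_V _ _) (ht.h2 ▸ mul_mem (y_V _ _) (a_V _ _)))
  have c1 := card_pos M
  have c2 := card_α M
  obtain ⟨π, hπ⟩ := aut_alt ω (by
    by_cases h7 : 7 ≤ Fintype.card (Pt {b // b ≠ M.b₁} s)
    · exact Or.inl h7
    · set b : {b // b ≠ M.b₁} := ⟨M.b₂, M.ne⟩
      have s1 : (y0 s b).1.support = pts s b := supp_blk s b (by decide)
      have s2 : (a0 s b).1.support = pts s b := supp_blk s b (by decide)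
      refine Or.inr ⟨by omega, y0 s b, a0 s b, M.inj ?_, M.inj ?_, fun e => ?_, by rw [s1, card_pts], by rw [s1, s2],
        six M h h' (by omega) ω hω⟩
      · rw [map_mul, (h b).1, M.y2, map_one]
      · rw [map_mul, (h b).2.1, M.a2, map_one]
      · exact a_ne_y M.toJF b (by rw [← (h b).1, ← (h b).2.1, e]))
  have k : ∀ n : ℕ, ∀ p, t ^ n * M.κ p * (t ^ n)⁻¹ = M.κ (MulAut.conjNormal (π ^ n) p) := fun n => by
    induction n with
    | zero => simp
    | succ n ih =>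
      intro p
      rw [pow_succ', cj_cj', ih, ← hω, pow_succ', map_mul]
      exact congrArg M.κ (Subtype.ext (hπ _))
  have h1 : π ^ orderOf t = 1 := cen_alt (by omega) fun p => by
    have := k (orderOf t) p
    rw [pow_orderOf_eq_one, one_mul, inv_one, mul_one] at this
    exact (congrArg Subtype.val (M.inj this)).symm
  have h2 : π ∈ alternatingGroup _ := by
    have := congrArg Perm.sign h1
    rw [map_pow, map_one] at this
    rcases Int.units_eq_one_or (Perm.sign π) with e | e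
    · exact e
    · rw [e, ht.odd.neg_one_pow] at this; exact absurd this (by decide)
  have cv := (mem_cV M.toJF M.b₁).1 (K_cV M (⟨π, h2⟩⁻¹))
  refine ⟨t * M.κ ⟨π, h2⟩⁻¹, by rw [cj_cj', cv.1, ht.h1], by rw [cj_cj', cv.2, ht.h2], fun p => ?_⟩
  rw [← mul_inv_eq_iff_eq_mul, cj_cj', ← map_inv, ← map_mul, ← map_mul, ← hω]
  exact congrArg M.κ (Subtype.ext (by rw [hπ]; simp [mul_assoc]))

theorem exists_t (h : M.Lab) (h' : M.Out) : ∃ t, R4 (M.y M.b₁) (M.a M.b₁) t (M.e M.b₁) ∧ ∀ p, t * M.κ p = M.κ p * t := by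
  have y2 := M.y2 M.b₁
  have a2 := M.a2 M.b₁
  have e2 := M.e2 M.b₁
  have ya := M.ya M.b₁ M.b₁
  have ey := eye M.toJF M.b₁
  have ea' := eae M.toJF M.b₁
  have yne := y_ne M.toJF M.b₁
  have ane := a_ne M.toJF M.b₁
  have ay := a_ne_y M.toJF M.b₁
  have hV := fun {v} => (mem_V M.toJF M.b₁ (v := v)).1
  have hC := fun {g} => (mem_cV M.toJF M.b₁ (g := g)).2
  have hK := VK M (y_V M.toJF M.b₁)
  have cb := fun {c} => cen_both M (c := c)
  have eK := e_act M h'
  have ea := ea M.toJF M.b₁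
  have ye := M.ye M.b₁ M.b₁
  have H := exists_t0 M h h'
  generalize M.y M.b₁ = y at *
  generalize M.a M.b₁ = a at *
  generalize M.e M.b₁ = e at *
  have yay : y * a * y = a := by rw [ya, mul_assoc, y2, mul_one]
  have yya : y * (y * a) = a := by rw [← mul_assoc, y2, one_mul]
  have aya : a * (y * a) = y := by rw [ya, ← mul_assoc, a2, one_mul]
  have yaa : y * a * a = y := by rw [mul_assoc, a2, mul_one]
  have st : ∀ t : G, t * y * t⁻¹ = a → t * a * t⁻¹ = y * a → (∀ p, t * M.κ p = M.κ p * t) →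
      t * (t * t) = 1 ∧ (e * t * (e * t) = 1 ∨ e * t * (e * t) = a) := fun t h1 h2 h3 => by
    have h4 : t * (y * a) * t⁻¹ = y := by rw [cj_mul', h1, h2, aya]
    constructor
    · have := hV (cb (c := t * (t * t)) (hC ⟨by rw [cj_cj', cj_cj', h1, h2, h4], by rw [cj_cj', cj_cj', h2, h4, h1]⟩)
        fun p => (Commute.mul_left (h3 p) (Commute.mul_left (h3 p) (h3 p))))
      have f : t * (t * (t * t)) * t⁻¹ = t * (t * t) := by group
      rcases this with e | e | e | e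
      · exact e
      · rw [e, h1] at f; exact absurd f ay
      · rw [e, h2, mul_eq_right] at f; exact absurd f yne
      · rw [e, h4, left_eq_mul] at f; exact absurd f ane
    · have k1 : e * t * y * (e * t)⁻¹ = y * a := by rw [cj_cj', h1, ea']
      have k2 : e * t * a * (e * t)⁻¹ = a := by rw [cj_cj', h2, cj_mul', ey, ea', yya]
      have k3 : e * t * (y * a) * (e * t)⁻¹ = y := by rw [cj_mul', k1, k2, yaa]
      have := hV (cb (c := e * t * (e * t)) (hC ⟨by rw [cj_cj', k1, k3], by rw [cj_cj', k2, k2]⟩) fun p => by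
        have k : ∀ p, e * t * M.κ p * (e * t)⁻¹ = M.κ (MulAut.conjNormal (τ0 s) p) := fun p => by
          rw [cj_cj', h3, mul_inv_cancel_right, eK]
        rw [← mul_inv_eq_iff_eq_mul, cj_cj', k, k, ← MulAut.mul_apply, ← map_mul, τ2, map_one, MulAut.one_apply])
      have f : e * t * (e * t * (e * t)) * (e * t)⁻¹ = e * t * (e * t) := by group
      rcases this with e | e | e | e
      · exact Or.inl e
      · rw [e, k1, mul_eq_left] at f; exact absurd f ane
      · exact Or.inr e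
      · rw [e, k3, left_eq_mul] at f; exact absurd f ane
  obtain ⟨t, h1, h2, h3, h4⟩ : ∃ t : G, t * y * t⁻¹ = a ∧ t * a * t⁻¹ = y * a ∧ (∀ p, t * M.κ p = M.κ p * t) ∧
      e * t * (e * t) = 1 := by
    obtain ⟨t, h1, h2, h3⟩ := H
    rcases (st t h1 h2 h3).2 with h4 | h4
    · exact ⟨t, h1, h2, h3, h4⟩
    · refine ⟨t * y, by rw [cj_cj', mul_inv_cancel_right, h1], by rw [cj_cj', inv_eq y2, yay, h2],
        fun p => Commute.mul_left (h3 p) (hK p), ?_⟩
      calc _ = e * (t * y * t⁻¹) * e⁻¹ * (e * t * (e * t)) * y := by group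
        _ = 1 := by rw [h1, ea', h4, yaa, y2]
  have t3 := (st t h1 h2 h3).1
  refine ⟨t, ⟨y2, a2, ya.symm, mul_inv_eq_iff_eq_mul.1 h1, mul_inv_eq_iff_eq_mul.1 h2, t3, e2, ye.symm, ea, ?_⟩, h3⟩
  rw [← inv_eq h4, mul_inv_rev, inv_eq e2, inv_eq_of_mul_eq_one_right t3]

end Cfsg.Agent.WA.Al.Mu
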