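import Cfsg.Agent.WA.AlNu2
import Cfsg.Agent.WA.AlPres

/-! S3218, module AlNu. -/

set_option autoImplicit false
set_option linter.unusedSectionVars false

namespace Cfsg.Agent.WA.Al

open Subgroup Equiv Equiv.Perm

universe u

namespace Nu

variable {α : Type} [Fintype α] [DecidableEq α]

namespace Th

variable {X X' : Finset α} (T : Th X X')
include T

theorem exists_ext : ∃ Θ : Perm α → Perm α, (∀ p ∈ Df X X', ∀ q ∈ Df X X', Θ (p * q) = Θ p * Θ q) ∧
    (∀ p ∈ De X X', Θ p = T.θ p) ∧ (∀ p ∈ Df X X', Θ p = 1 → p = 1) ∧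
    (∀ x y, x ≠ y → (x ∈ X ↔ y ∈ X) → (x ∈ X' ↔ y ∈ X') → (Θ (swap x y)).IsSwap) ∧
    ∀ x ∈ X', ∀ y ∈ X', x ≠ y → ∀ z, z ∉ X → Θ (swap x y) z = z := by
  obtain ⟨a0, ha0, b0, hb0, hab0⟩ := Finset.one_lt_card.1 (show 1 < X.card by rw [T.cX]; norm_num)
  obtain ⟨a1, ha1, b1, hb1, hab1⟩ := Finset.one_lt_card.1 (show 1 < X'.card by rw [T.cX']; norm_num)
  obtain ⟨a, ha, b, hb, c, d, hc, hd, hab, hcd, e0⟩ :=
    T.lemM ha1 hb1 hab1 (T.nx ha0) (T.nx hb0) hab0 (iff_of_true ha0 hb0)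
  have wD : swap a0 b0 ∈ Df X X' := T.sX ha0 hb0
  have wD' : swap a1 b1 ∈ Df X X' := T.sX' ha1 hb1
  have mD : swap a1 b1 * swap a0 b0 ∈ De X X' := ssD hab1 hab0 wD' wD
  have cw : ∀ {p : Perm α}, (∀ z, z ∉ X → p z = z) → swap a1 b1 * p = p * swap a1 b1 := fun hp =>
    comm_of_fix (T := X) (fun z hz => swap_on (T.nx' ha1) (T.nx' hb1) hz) hp
  have sw : sign (swap a1 b1) = -1 := sign_swap hab1
  have odd : ∀ p ∈ Df X X', sign p ≠ 1 → swap a1 b1 * p ∈ De X X' := by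
    intro p hp hs
    refine mem_De.2 ⟨mul_mem wD' hp, ?_⟩
    rw [map_mul, sw, (Int.units_eq_one_or (sign p)).resolve_left hs]; rfl
  have cjD : ∀ p ∈ De X X', swap a1 b1 * p * swap a1 b1 ∈ De X X' := by
    intro p hp
    refine mem_De.2 ⟨mul_mem (mul_mem wD' hp.1) wD', ?_⟩
    rw [map_mul, map_mul, sw, (mem_De.1 hp).2]; rfl
  have cj : ∀ p ∈ De X X', T.θ (swap a1 b1 * p * swap a1 b1) = swap a b * T.θ p * swap a b := by
    intro p hp
    have hpr := T.pr p hp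
    have ip : p⁻¹ ∈ Df X X' := inv_mem (mem_De.1 hp).1
    ext x
    by_cases hx : x ∈ X
    · have rD : swap a0 b0 * swap (p⁻¹ a0) (p⁻¹ b0) ∈ De X X' :=
        ssD hab0 (fun h => hab0 (p⁻¹.injective h)) wD (T.sX ((ip.1 _).2 ha0) ((ip.1 _).2 hb0))
      have rX : ∀ z, z ∉ X → (swap a0 b0 * swap (p⁻¹ a0) (p⁻¹ b0)) z = z := by
        intro z hz
        rw [mul_apply, swap_off ((ip.1 _).2 ha0) ((ip.1 _).2 hb0) hz, swap_off ha0 hb0 hz]
      have r1 := T.clA rD fun z hz => rX z (T.nx' hz)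
      have c0 := cw (p := swap a0 b0) fun z hz => swap_off ha0 hb0 hz
      have e : swap a1 b1 * p * swap a1 b1 = (swap a1 b1 * swap a0 b0) * p * (swap a1 b1 * swap a0 b0) *
          (swap a0 b0 * swap (p⁻¹ a0) (p⁻¹ b0)) := by
        have c1 := cw (p := swap (p⁻¹ a0) (p⁻¹ b0)) fun z hz => swap_off ((ip.1 _).2 ha0) ((ip.1 _).2 hb0) hz
        calc swap a1 b1 * p * swap a1 b1
            = swap a1 b1 * (swap a0 b0 * swap a0 b0) * p * swap a1 b1 := by rw [swap_mul_self, mul_one]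
          _ = swap a1 b1 * swap a0 b0 * p * (swap (p⁻¹ a0) (p⁻¹ b0) * swap a1 b1) := by
              rw [swap_apply_apply]; group
          _ = swap a1 b1 * swap a0 b0 * p * (swap a1 b1 * (swap a0 b0 * swap a0 b0) * swap (p⁻¹ a0) (p⁻¹ b0)) := by
              rw [← c1, swap_mul_self, mul_one]
          _ = _ := by group
      rw [e, T.mul _ (mul_mem (mul_mem mD hp) mD) _ rD, T.mul _ (mul_mem mD hp) _ mD, T.mul _ mD _ hp, e0,
        mul_apply, r1 x hx, mul_apply, ss_on hc hd hx, mul_apply,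
        ss_on hc hd ((hpr _).2 ((swap_pres (iff_of_true ha hb) x).2 hx)), mul_apply, mul_apply]
    · have n1 : p⁻¹ a1 ≠ p⁻¹ b1 := fun h => hab1 (p⁻¹.injective h)
      have rD : swap (p⁻¹ a1) (p⁻¹ b1) * swap a1 b1 ∈ De X X' :=
        ssD n1 hab1 (T.sX' ((ip.2 _).2 ha1) ((ip.2 _).2 hb1)) wD'
      have r1 := T.clB ((ip.2 _).2 ha1) ((ip.2 _).2 hb1) n1 ha1 hb1 hab1 x hx
      have e : swap a1 b1 * p * swap a1 b1 = p * (swap (p⁻¹ a1) (p⁻¹ b1) * swap a1 b1) := by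
        rw [swap_apply_apply]; group
      rw [e, T.mul _ hp _ rD, mul_apply, r1, mul_apply, mul_apply, swap_off ha hb hx,
        swap_off ha hb fun h => hx ((hpr _).1 h)]
  have ww : ∀ p : Perm α, swap a1 b1 * (swap a1 b1 * p) = p := fun p => by rw [← mul_assoc, swap_mul_self, one_mul]
  have bb : ∀ p : Perm α, swap a b * (swap a b * p) = p := fun p => by rw [← mul_assoc, swap_mul_self, one_mul]
  have inX : ∀ x ∈ X', ∀ y ∈ X', x ≠ y → ∃ a' ∈ X, ∃ b' ∈ X, a' ≠ b' ∧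
      swap a b * T.θ (swap a1 b1 * swap x y) = swap a' b' := by
    intro x hx y hy hxy
    obtain ⟨a', ha', b', hb', c', d', hc', hd', hab', -, e1⟩ :=
      T.lemM hx hy hxy (T.nx ha0) (T.nx hb0) hab0 (iff_of_true ha0 hb0)
    refine ⟨a', ha', b', hb', hab', ?_⟩
    ext z
    by_cases hz : z ∈ X
    · have c1 : swap a0 b0 * swap x y = swap x y * swap a0 b0 :=
        comm_of_fix (T := X') (fun z hz => swap_on (T.nx ha0) (T.nx hb0) hz) fun z hz => swap_off hx hy hz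
      have e : swap a1 b1 * swap x y = (swap a1 b1 * swap a0 b0) * (swap x y * swap a0 b0) := by
        rw [← c1, mul_assoc, ← mul_assoc (swap a0 b0), swap_mul_self, one_mul]
      rw [e, T.mul _ mD _ (ssD hxy hab0 (T.sX' hx hy) wD), e0, e1, mul_apply, mul_apply, ss_on hc' hd' hz,
        ss_on hc hd ((swap_pres (iff_of_true ha' hb') z).2 hz), swap_apply_self]
    · rw [mul_apply, T.clB ha1 hb1 hab1 hx hy hxy z hz, swap_off ha hb hz, swap_off ha' hb' hz]
  have sne : ∀ {x y : α}, x ≠ y → sign (swap x y) ≠ 1 := fun h => by rw [sign_swap h]; decide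
  refine ⟨fun p => if sign p = 1 then T.θ p else swap a b * T.θ (swap a1 b1 * p), ?_, ?_, ?_, ?_, ?_⟩
  · intro p hp q hq
    by_cases sp : sign p = 1 <;> by_cases sq : sign q = 1
    · simp only [map_mul, sp, sq, mul_one, if_true]
      exact T.mul p ⟨hp, sp⟩ q ⟨hq, sq⟩
    · simp only [map_mul, sp, sq, one_mul, if_true, if_false]
      have e : swap a1 b1 * (p * q) = (swap a1 b1 * p * swap a1 b1) * (swap a1 b1 * q) := by
        rw [mul_assoc _ (swap a1 b1), ww, mul_assoc]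
      rw [e, T.mul _ (cjD p ⟨hp, sp⟩) _ (odd q hq sq), cj p ⟨hp, sp⟩, mul_assoc, mul_assoc, bb]
    · simp only [map_mul, sp, sq, mul_one, if_true, if_false]
      rw [← mul_assoc, T.mul _ (odd p hp sp) q ⟨hq, sq⟩, mul_assoc]
    · have s2 : sign p * sign q = 1 := by
        rw [(Int.units_eq_one_or (sign p)).resolve_left sp, (Int.units_eq_one_or (sign q)).resolve_left sq]; rfl
      simp only [map_mul, sp, sq, s2, if_true, if_false]
      have e : p * q = (swap a1 b1 * (swap a1 b1 * p) * swap a1 b1) * (swap a1 b1 * q) := by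
        rw [ww, mul_assoc, ww]
      rw [e, T.mul _ (cjD _ (odd p hp sp)) _ (odd q hq sq), cj _ (odd p hp sp)]
      simp only [mul_assoc]
  · intro p hp
    simp only [(mem_De.1 hp).2, if_true]
  · intro p hp h
    by_cases sp : sign p = 1
    · simp only [sp, if_true] at h
      exact T.inj p ⟨hp, sp⟩ 1 (one_mem _) (h.trans T.one.symm)
    · simp only [sp, if_false] at h
      have := congrArg sign h
      rw [map_mul, T.sg _ (odd p hp sp), mul_one, map_one] at this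
      exact (sne hab this).elim
  · intro x y hxy h h'
    simp only [sne hxy, if_false]
    by_cases hx : x ∈ X'
    · obtain ⟨a', -, b', -, h1, e⟩ := inX x hx y (h'.1 hx) hxy
      exact ⟨a', b', h1, e⟩
    · have hy : y ∉ X' := fun h => hx (h'.2 h)
      obtain ⟨a', ha', b', hb', c', d', hc', hd', -, hcd', e1⟩ := T.lemM ha1 hb1 hab1 hx hy hxy h
      have rD : swap a0 b0 * swap x y ∈ De X X' := ssD hab0 hxy wD (swap_Df h h')
      have r1 := T.clA rD fun z hz => by rw [mul_apply, swap_on hx hy hz, swap_on (T.nx ha0) (T.nx hb0) hz]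
      refine ⟨c', d', hcd', ?_⟩
      ext z
      by_cases hz : z ∈ X
      · have e : swap a1 b1 * swap x y = (swap a1 b1 * swap a0 b0) * (swap a0 b0 * swap x y) := by
          rw [mul_assoc, ← mul_assoc (swap a0 b0), swap_mul_self, one_mul]
        rw [e, T.mul _ mD _ rD, e0, mul_apply, mul_apply, r1 z hz, ss_on hc hd hz, swap_apply_self,
          swap_on hc' hd' hz]
      · rw [e1, mul_apply, ss_off ha' hb' hc' hd' hz,
          swap_off ha hb fun h => hz ((swap_pres (iff_of_false hc' hd') z).1 h)]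
  · intro x hx y hy hxy z hz
    obtain ⟨a', ha', b', hb', -, e⟩ := inX x hx y hy hxy
    simp only [sne hxy, if_false]
    rw [e, swap_off ha' hb' hz]

theorem exists_pi (big : 10 ≤ Fintype.card α) :
    ∃ π : Perm α, (∀ x, π x ∈ X ↔ x ∈ X') ∧ ∀ p ∈ De X X', T.θ p = π * p * π⁻¹ := by
  obtain ⟨Θ, hm, he, hi, hs, hX⟩ := T.exists_ext
  let bl : α → Bool × Bool := fun x => (decide (x ∈ X), decide (x ∈ X'))
  have hbl : ∀ x y, bl x = bl y ↔ (x ∈ X ↔ y ∈ X) ∧ (x ∈ X' ↔ y ∈ X') := by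
    intro x y
    simp [bl, Prod.ext_iff]
  have hDf : ∀ p : Perm α, (∀ z, bl (p z) = bl z) ↔ p ∈ Df X X' := by
    intro p
    simp only [hbl]
    exact ⟨fun h => ⟨fun z => (h z).1, fun z => (h z).2⟩, fun h z => ⟨h.1 z, h.2 z⟩⟩
  have sD : ∀ {x y}, bl x = bl y → swap x y ∈ Df X X' := fun h => swap_Df ((hbl _ _).1 h).1 ((hbl _ _).1 h).2
  have h1 : Θ 1 = 1 := by rw [he 1 (one_mem _), T.one]
  have mate : ∀ x, ∃ y, x ≠ y ∧ bl x = bl y := by
    intro x
    by_cases hx : x ∈ X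
    · obtain ⟨y, hy, h⟩ := Finset.exists_mem_ne (show 1 < X.card by rw [T.cX]; norm_num) x
      exact ⟨y, h.symm, (hbl _ _).2 ⟨iff_of_true hx hy, iff_of_false (T.nx hx) (T.nx hy)⟩⟩
    by_cases hx' : x ∈ X'
    · obtain ⟨y, hy, h⟩ := Finset.exists_mem_ne (show 1 < X'.card by rw [T.cX']; norm_num) x
      exact ⟨y, h.symm, (hbl _ _).2 ⟨iff_of_false hx (T.nx' hy), iff_of_true hx' hy⟩⟩
    · have : 1 < (X ∪ X')ᶜ.card := by
        rw [Finset.card_compl, Finset.card_union_of_disjoint T.dis, T.cX, T.cX']; omega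
      obtain ⟨y, hy, h⟩ := Finset.exists_mem_ne this x
      rw [Finset.mem_compl, Finset.mem_union, not_or] at hy
      exact ⟨y, h.symm, (hbl _ _).2 ⟨iff_of_false hx hy.1, iff_of_false hx' hy.2⟩⟩
  have lab : ∀ c : Bool × Bool, ∃ ι : α → α, ∀ x y, bl x = c → bl y = c → x ≠ y →
      ι x ≠ ι y ∧ Θ (swap x y) = swap (ι x) (ι y) := by
    intro c
    by_cases hc : ∃ x, bl x = c
    swap
    · exact ⟨id, fun x y h => (hc ⟨x, h⟩).elim⟩
    obtain ⟨x0, hx0⟩ := hc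
    obtain ⟨y0, hy0, hy0'⟩ := mate x0
    have oD : ∀ p : Perm {x // bl x = c}, ofSubtype p ∈ Df X X' := by
      intro p
      rw [← hDf]
      intro z
      by_cases hz : bl z = c
      · rw [ofSubtype_apply_of_mem p hz, (p ⟨z, hz⟩).2, hz]
      · rw [ofSubtype_apply_of_not_mem p hz]
    let f : Perm {x // bl x = c} →* Perm α := MonoidHom.mk' (fun p => Θ (ofSubtype p)) fun p q => by
      rw [map_mul, hm _ (oD p) _ (oD q)]
    have h2 : 2 ≤ Fintype.card {x // bl x = c} :=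
      Fintype.one_lt_card_iff.2 ⟨⟨x0, hx0⟩, ⟨y0, hy0'.symm.trans hx0⟩, fun h => hy0 (congrArg Subtype.val h)⟩
    obtain ⟨ι, hι⟩ := labs h2 f
      ((injective_iff_map_eq_one f).2 fun p hp => ofSubtype_injective ((hi _ (oD p) hp).trans (map_one _).symm))
      (fun x y hxy => by
        show (Θ (ofSubtype (swap x y))).IsSwap
        rw [ofSubtype_swap_eq]
        have := (hbl _ _).1 (x.2.trans y.2.symm)
        exact hs _ _ (fun h => hxy (Subtype.ext h)) this.1 this.2)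
    refine ⟨fun x => if h : bl x = c then ι ⟨x, h⟩ else x, fun x y hx hy hxy => ?_⟩
    have n : (⟨x, hx⟩ : {x // bl x = c}) ≠ ⟨y, hy⟩ := fun h => hxy (congrArg Subtype.val h)
    simp only [hx, hy, dif_pos]
    refine ⟨fun h => n (ι.injective h), ?_⟩
    rw [← hι _ _ n]
    show _ = Θ (ofSubtype (swap _ _))
    rw [ofSubtype_swap_eq]
  choose ι hι using lab
  have key : ∀ x y, bl x = bl y → x ≠ y → ι (bl x) x ≠ ι (bl y) y ∧ Θ (swap x y) = swap (ι (bl x) x) (ι (bl y) y) := by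
    intro x y h hxy
    have := hι (bl x) x y rfl h.symm hxy
    rwa [← h]
  have hinj : Function.Injective fun x => ι (bl x) x := by
    intro x x' h
    by_contra hne
    by_cases hb : bl x = bl x'
    · exact (key x x' hb hne).1 h
    obtain ⟨y, hy, hy'⟩ := mate x
    obtain ⟨y', hz, hz'⟩ := mate x'
    have n1 : x ≠ y' := fun e => hb (by rw [hz', e])
    have n2 : y ≠ x' := fun e => hb (by rw [hy', e])
    have n3 : y ≠ y' := fun e => hb (by rw [hy', hz', e])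
    have pD : swap x y * swap x' y' ∈ De X X' := ssD hy hz (sD hy') (sD hz')
    have c1 : swap x' y' * swap x y = swap x y * swap x' y' := by
      rw [mul_swap_eq_swap_mul, swap_apply_of_ne_of_ne hne n1, swap_apply_of_ne_of_ne n2 n3]
    have p2 : swap x y * swap x' y' * (swap x y * swap x' y') = 1 := by
      rw [mul_assoc, ← mul_assoc (swap x' y'), c1, mul_assoc, swap_mul_self, mul_one, swap_mul_self]
    have h4 := T.sp _ pD p2
    rw [card_swap4 hy hz hne n1 n2 n3, ← he _ pD, hm _ (sD hy') _ (sD hz'), (key _ _ hy' hy).2,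
      (key _ _ hz' hz).2] at h4
    exact (swap4 h4).1 h
  let π : Perm α := Equiv.ofBijective _ (Finite.injective_iff_bijective.1 hinj)
  have hπ : ∀ x, π x = ι (bl x) x := fun _ => rfl
  have hin : ∀ x ∈ X', π x ∈ X := by
    intro x hx
    obtain ⟨y, hy, hy'⟩ := mate x
    by_contra h
    have := hX x hx y (((hbl _ _).1 hy').2.1 hx) hy _ h
    rw [(key _ _ hy' hy).2, hπ, swap_apply_left] at this
    exact (key _ _ hy' hy).1 this.symm
  have himg : X'.map π.toEmbedding = X := by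
    apply Finset.eq_of_subset_of_card_le
    · intro z hz
      obtain ⟨x, hx, rfl⟩ := Finset.mem_map.1 hz
      exact hin x hx
    · rw [Finset.card_map, T.cX, T.cX']
  refine ⟨π, fun x => ?_, fun p hp => ?_⟩
  · rw [← himg]
    exact Finset.mem_map' π.toEmbedding
  · rw [← he p hp]
    refine blk_ind bl (fun p => Θ p = π * p * π⁻¹) (by simp [h1]) ?_ p ((hDf p).2 hp.1)
    intro q x y hxy hb hq ih
    rw [hm _ (sD hb) _ ((hDf q).1 hq), ih, (key _ _ hb hxy).2, ← hπ, ← hπ, swap_apply_apply]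
    group

end Th

end Nu

open Nu in
theorem HM.nu {G : Type u} [Group G] [Finite G] {α : Type} [Fintype α] [DecidableEq α] (H : HM G α) :
    ∃ ν : St H.X' →* G, Function.Injective ν ∧
    (∀ p : Alt α, ∀ (h : p ∈ St H.X) (h' : p ∈ St H.X'), ν ⟨p, h'⟩ = H.μ ⟨p, h⟩) ∧
    ∀ (q : St H.X') (v : St H.X), q * q = 1 → v * v = 1 → v.1.1.support.card = 4 →
      (IsConj (H.μ v) (ν q) ↔ q.1.1.support.card = 4) := by
  classical
  obtain ⟨g, hg⟩ := H.h4
  have nx : ∀ {x}, x ∈ H.X → x ∉ H.X' := fun h => Finset.disjoint_left.1 H.dis h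
  let up : ∀ p : Perm α, sign p = 1 → (∀ x, p x ∈ H.X ↔ x ∈ H.X) → St H.X := fun p h1 h2 => ⟨⟨p, h1⟩, h2⟩
  let uV : {v // VT H.X v} → St H.X := fun v => up v.1 (v.2.sign H.cX) (pres_of_off fun _ hx => v.2.off hx)
  have ext2 : ∀ {p q : St H.X}, p.1.1 = q.1.1 → p = q := fun h => Subtype.ext (Subtype.ext h)
  have hφ : ∀ v : {v // VT H.X v}, ∃ v' : St H.X, VT H.X' v'.1.1 ∧ g * H.μ (uV v) * g⁻¹ = H.μ v' := by
    intro v
    obtain ⟨v', h1, h2, h3⟩ := hg (uV v) (ext2 v.2.1) v.2.2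
    exact ⟨v', ⟨congrArg (fun p : St H.X => p.1.1) h1, h2⟩, h3⟩
  choose φ hφ1 hφ2 using hφ
  have hsurj : ∀ v' : St H.X, VT H.X' v'.1.1 → ∃ v, φ v = v' := by
    intro v' hv'
    obtain ⟨v, hv⟩ := vt_surj H.cX H.cX' (fun v => ⟨(φ v).1.1, hφ1 v⟩) (by
      intro v w h
      have h1 : φ v = φ w := ext2 (congrArg (fun p : {v // VT H.X' v} => p.1) h)
      have h2 : g * H.μ (uV v) * g⁻¹ = g * H.μ (uV w) * g⁻¹ := by rw [hφ2, hφ2, h1]
      have h3 := H.inj (mul_left_cancel (mul_right_cancel h2))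
      exact Subtype.ext (congrArg (fun p : St H.X => p.1.1) h3)) ⟨_, hv'⟩
    exact ⟨v, ext2 (congrArg (fun p : {v // VT H.X' v} => p.1) hv)⟩
  obtain ⟨a0, ha0, b0, hb0, hab0⟩ := Finset.one_lt_card.1 (show 1 < H.X.card by rw [H.cX]; norm_num)
  obtain ⟨v0, hv0, -⟩ := vt_trans H.cX ha0 hb0 hab0
  have hθ : ∀ p : St H.X, (∀ x, p.1.1 x ∈ H.X' ↔ x ∈ H.X') → ∃ q : St H.X, H.μ q = g⁻¹ * H.μ p * g := by
    intro p hp
    have h1 := hφ1 ⟨v0, hv0⟩
    obtain ⟨v2, hv2⟩ := hsurj (p * φ ⟨v0, hv0⟩ * p⁻¹) (by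
      constructor
      · show p.1.1 * (φ ⟨v0, hv0⟩).1.1 * p.1.1⁻¹ * (p.1.1 * (φ ⟨v0, hv0⟩).1.1 * p.1.1⁻¹) = 1
        calc p.1.1 * (φ ⟨v0, hv0⟩).1.1 * p.1.1⁻¹ * (p.1.1 * (φ ⟨v0, hv0⟩).1.1 * p.1.1⁻¹)
            = p.1.1 * ((φ ⟨v0, hv0⟩).1.1 * (φ ⟨v0, hv0⟩).1.1) * p.1.1⁻¹ := by group
          _ = 1 := by rw [h1.1]; group
      · show (p.1.1 * (φ ⟨v0, hv0⟩).1.1 * p.1.1⁻¹).support = H.X'
        rw [support_conj, h1.2]
        ext x
        rw [Finset.mem_map_equiv, ← hp]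
        simp)
    obtain ⟨x, hx1, hx2, hx3⟩ := hv0.conj H.cX v2.2
    let k : St H.X := up x hx1 (pres_of_off hx2)
    have hk : k * uV ⟨v0, hv0⟩ * k⁻¹ = uV v2 := ext2 hx3
    have e1 : H.μ (uV ⟨v0, hv0⟩) = g⁻¹ * H.μ (φ ⟨v0, hv0⟩) * g := by rw [← hφ2]; group
    have e2 : H.μ k * H.μ (uV ⟨v0, hv0⟩) * (H.μ k)⁻¹ = g⁻¹ * (H.μ p * H.μ (φ ⟨v0, hv0⟩) * (H.μ p)⁻¹) * g := by
      rw [← map_inv, ← map_mul, ← map_mul, hk, ← map_inv, ← map_mul, ← map_mul, ← hv2, ← hφ2]; group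
    have hc : (H.μ k)⁻¹ * (g⁻¹ * H.μ p * g) ∈ centralizer ({H.μ (uV ⟨v0, hv0⟩)} : Set G) := by
      rw [mem_centralizer_singleton_iff]
      calc (H.μ k)⁻¹ * (g⁻¹ * H.μ p * g) * H.μ (uV ⟨v0, hv0⟩)
          = (H.μ k)⁻¹ * (g⁻¹ * (H.μ p * H.μ (φ ⟨v0, hv0⟩) * (H.μ p)⁻¹) * g) * (g⁻¹ * H.μ p * g) := by
            rw [e1]; group
        _ = _ := by rw [← e2]; group
    obtain ⟨q, hq⟩ := H.h2 (uV ⟨v0, hv0⟩) (ext2 hv0.1) hv0.2 hc
    exact ⟨k * q, by rw [map_mul, hq]; group⟩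
  choose! θ0 hθ0 using hθ
  let uD : ∀ p ∈ De H.X H.X', St H.X := fun p hp => up p (mem_De.1 hp).2 hp.1.1
  have hD : ∀ p hp, H.μ (θ0 (uD p hp)) = g⁻¹ * H.μ (uD p hp) * g := fun p hp => hθ0 _ hp.1.2
  let θ : Perm α → Perm α := fun p => if hp : p ∈ De H.X H.X' then (θ0 (uD p hp)).1.1 else 1
  have hθ : ∀ p hp, θ p = (θ0 (uD p hp)).1.1 := fun p hp => dif_pos hp
  have vD : ∀ v', VT H.X' v' → v' ∈ De H.X H.X' := by
    intro v' hv'
    refine mem_De.2 ⟨⟨fun x => ?_, pres_of_off fun _ hx => hv'.off hx⟩, hv'.sign H.cX'⟩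
    by_cases hx : x ∈ H.X'
    · exact iff_of_false (fun h => nx h ((pres_of_off (fun _ hx => hv'.off hx) x).2 hx)) fun h => nx h hx
    · rw [hv'.off hx]
  have vφ : ∀ v, θ (φ v).1.1 = v.1 := by
    intro v
    rw [hθ _ (vD _ (hφ1 v))]
    have : θ0 (uD _ (vD _ (hφ1 v))) = uV v := by
      apply H.inj
      rw [hD _ (vD _ (hφ1 v))]
      show g⁻¹ * H.μ (φ v) * g = _
      rw [← hφ2]; group
    rw [this]
  let T : Th H.X H.X' :=
    { cX := H.cX, cX' := H.cX', dis := H.dis, θ := θ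
      mul := by
        intro p hp q hq
        rw [hθ _ (mul_mem hp hq), hθ p hp, hθ q hq]
        have : θ0 (uD _ (mul_mem hp hq)) = θ0 (uD p hp) * θ0 (uD q hq) := by
          apply H.inj
          rw [map_mul, hD _ (mul_mem hp hq), hD p hp, hD q hq]
          have : uD _ (mul_mem hp hq) = uD p hp * uD q hq := rfl
          rw [this, map_mul]; group
        rw [this]; rfl
      inj := by
        intro p hp q hq h
        rw [hθ p hp, hθ q hq] at h
        have h1 := congrArg H.μ (ext2 h)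
        rw [hD p hp, hD q hq] at h1
        exact congrArg (fun p : St H.X => p.1.1) (H.inj (mul_left_cancel (mul_right_cancel h1)))
      sg := fun p hp => by rw [hθ p hp]; exact (θ0 (uD p hp)).1.2
      pr := fun p hp => by rw [hθ p hp]; exact (θ0 (uD p hp)).2
      sp := by
        intro p hp h2
        rw [hθ p hp]
        have h3 : uD p hp * uD p hp = 1 := ext2 h2
        refine H.h3 _ (uD p hp) (H.inj ?_) h3 ?_
        · rw [map_mul, hD p hp, map_one]
          calc g⁻¹ * H.μ (uD p hp) * g * (g⁻¹ * H.μ (uD p hp) * g) = g⁻¹ * H.μ (uD p hp * uD p hp) * g := by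
                rw [map_mul]; group
            _ = 1 := by rw [h3, map_one]; group
        · rw [hD p hp]
          exact isConj_iff.2 ⟨g, by group⟩
      v1 := fun v hv => ⟨_, hφ1 ⟨v, hv⟩, vφ ⟨v, hv⟩⟩
      v2 := by
        intro v' hv'
        obtain ⟨v, hv⟩ := hsurj (uD v' (vD v' hv')) hv'
        have : v' = (φ v).1.1 := by rw [hv]
        rw [this, vφ]
        exact v.2 }
  obtain ⟨π, hπ1, hπ2⟩ := T.exists_pi H.big
  let cπ : St H.X' →* St H.X := MonoidHom.mk'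
    (fun q => up (π * q.1.1 * π⁻¹) (by
      have : sign q.1.1 = 1 := q.1.2
      rw [map_mul, map_mul, this, mul_one, ← map_mul, mul_inv_cancel, map_one]) (fun x => by
      rw [mul_apply, mul_apply, hπ1, q.2, ← hπ1]; simp))
    (fun p q => ext2 (by
      show π * (p.1.1 * q.1.1) * π⁻¹ = π * p.1.1 * π⁻¹ * (π * q.1.1 * π⁻¹)
      group))
  have hc : ∀ q, (cπ q).1.1 = π * q.1.1 * π⁻¹ := fun _ => rfl
  refine ⟨(MulAut.conj g).toMonoidHom.comp (H.μ.comp cπ), ?_, ?_, ?_⟩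
  · refine (MulAut.conj g).injective.comp (H.inj.comp fun p q h => ?_)
    have := congrArg (fun p : St H.X => p.1.1) h
    simp only [hc] at this
    exact Subtype.ext (Subtype.ext (mul_left_cancel (mul_right_cancel this)))
  · intro p h h'
    have hp : p.1 ∈ De H.X H.X' := mem_De.2 ⟨⟨h, h'⟩, p.2⟩
    have e : cπ ⟨p, h'⟩ = θ0 (uD _ hp) := ext2 (by rw [hc, ← hθ _ hp]; exact (hπ2 _ hp).symm)
    show g * H.μ (cπ ⟨p, h'⟩) * g⁻¹ = H.μ (uD _ hp)
    rw [e, hD _ hp]; group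
  · intro q v q2 v2 v4
    have c2 : cπ q * cπ q = 1 := by rw [← map_mul, q2, map_one]
    have cs : (cπ q).1.1.support.card = q.1.1.support.card := by rw [hc, card_support_conj]
    have cj : IsConj (H.μ (cπ q)) (g * H.μ (cπ q) * g⁻¹) := isConj_iff.2 ⟨g, rfl⟩
    show IsConj (H.μ v) (g * H.μ (cπ q) * g⁻¹) ↔ _
    constructor
    · intro h
      rw [← cs, ← H.h3 v _ v2 c2 (h.trans cj.symm), v4]
    · intro h
      exact (H.h3' v _ v2 c2 v4 (cs.trans h)).trans cj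

end Cfsg.Agent.WA.Al
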