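import Cfsg.Agent.WA.AlDef

/-! S3218, module AlNu, part 1: the four-group on a set of four points. -/

set_option autoImplicit false
set_option linter.unusedSectionVars false

namespace Cfsg.Agent.WA.Al.Nu

open Equiv Equiv.Perm

/-- fixed-point-free involutions of four points -/
def Vq (q : Perm (Fin 4)) : Prop := q * q = 1 ∧ ∀ i, q i ≠ i

instance : DecidablePred Vq := fun q => inferInstanceAs (Decidable (q * q = 1 ∧ ∀ i, q i ≠ i))

theorem d1 : ∀ q q' : Perm (Fin 4), Vq q → Vq q' → q * q' = q' * q := by decide +kernel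
theorem d2 : ∀ i j : Fin 4, i ≠ j → ∃ q, Vq q ∧ q i = j := by decide +kernel
theorem d3 : ∀ q : Perm (Fin 4), Vq q → ∃ x, sign x = 1 ∧ x * q ≠ q * x := by decide +kernel
theorem d4 : ∀ i j : Fin 4, i ≠ j → ∃ q, Vq q ∧ swap i j * q ≠ q * swap i j := by decide +kernel
theorem d5 : ∀ q : Perm (Fin 4), Vq q → sign q = 1 := by decide +kernel
theorem d6 : ∀ i j k l : Fin 4, i ≠ j → k ≠ l → (swap i j * swap k l) ^ 3 = 1 ∨ Vq (swap i j * swap k l) := by
  decide +kernel
theorem d7 : ∀ i j : Fin 4, i ≠ j → ∃ k l, k ≠ l ∧ Vq (swap i j * swap k l) := by decide +kernel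
theorem d8 : ∀ q q' : Perm (Fin 4), Vq q → Vq q' → ∃ x, sign x = 1 ∧ x * q * x⁻¹ = q' := by decide +kernel

variable {α : Type} [Fintype α] [DecidableEq α]

/-- involutions with support `T` -/
def VT (T : Finset α) (v : Perm α) : Prop := v * v = 1 ∧ v.support = T

theorem VT.off {T : Finset α} {v : Perm α} (h : VT T v) {x : α} (hx : x ∉ T) : v x = x := by
  rw [← h.2] at hx; exact notMem_support.1 hx

section

variable {T : Finset α} (e : Fin 4 ≃ {x // x ∈ T})

def L : Perm (Fin 4) →* Perm α := extendDomainHom e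

theorem L_img (q : Perm (Fin 4)) (i : Fin 4) : L e q (e i) = e (q i) := extendDomain_apply_image q e i

theorem L_off (q : Perm (Fin 4)) {x : α} (hx : x ∉ T) : L e q x = x := extendDomain_apply_not_subtype q e hx

theorem L_inj : Function.Injective (L e) := extendDomainHom_injective e

theorem L_sign (q : Perm (Fin 4)) : sign (L e q) = sign q := sign_extendDomain q e

theorem exists_i {x : α} (hx : x ∈ T) : ∃ i, x = e i := ⟨e.symm ⟨x, hx⟩, by simp⟩

theorem e_inj {i j : Fin 4} (h : (e i : α) = e j) : i = j := e.injective (Subtype.ext h)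

theorem L_swap (i j : Fin 4) : L e (swap i j) = swap (e i : α) (e j) := by
  ext x
  by_cases hx : x ∈ T
  · obtain ⟨k, rfl⟩ := exists_i e hx
    rw [L_img]
    exact ((Subtype.val_injective.comp e.injective).swap_apply i j k).symm
  · rw [L_off e _ hx, swap_apply_of_ne_of_ne]
    · rintro rfl; exact hx (e i).2
    · rintro rfl; exact hx (e j).2

theorem exists_L {p : Perm α} (hp : ∀ x, x ∉ T → p x = x) : ∃ q, p = L e q := by
  have h : ∀ x, p x ∈ T ↔ x ∈ T := by
    intro x
    by_cases hx : x ∈ T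
    · refine iff_of_true ?_ hx
      by_contra h
      exact h (by rw [p.injective (hp _ h)]; exact hx)
    · rw [hp x hx]
  refine ⟨e.symm.permCongr (p.subtypePerm h), ?_⟩
  ext x
  by_cases hx : x ∈ T
  · obtain ⟨k, rfl⟩ := exists_i e hx
    rw [L_img]; simp
  · rw [L_off e _ hx, hp x hx]

theorem VT_L {q : Perm (Fin 4)} : VT T (L e q) ↔ Vq q := by
  constructor
  · rintro ⟨h1, h2⟩
    refine ⟨L_inj e (by rw [map_mul, h1, map_one]), fun i hi => ?_⟩
    have : (e i : α) ∈ (L e q).support := by rw [h2]; exact (e i).2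
    rw [mem_support, L_img, hi] at this
    exact this rfl
  · rintro ⟨h1, h2⟩
    refine ⟨by rw [← map_mul, h1, map_one], ?_⟩
    ext x
    rw [mem_support]
    by_cases hx : x ∈ T
    · obtain ⟨k, rfl⟩ := exists_i e hx
      rw [L_img]
      exact iff_of_true (fun h => h2 k (e_inj e h)) hx
    · rw [L_off e _ hx]; simp [hx]

theorem VT.exists_L {v : Perm α} (h : VT T v) : ∃ q, Vq q ∧ v = L e q := by
  obtain ⟨q, rfl⟩ := Nu.exists_L e fun x hx => h.off hx
  exact ⟨q, (VT_L e).1 h, rfl⟩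

end

section

variable {T : Finset α} (hT : T.card = 4)
include hT

theorem ne4 : Nonempty (Fin 4 ≃ {x // x ∈ T}) := ⟨(T.equivFinOfCardEq hT).symm⟩

theorem VT.comm {v v' : Perm α} (h : VT T v) (h' : VT T v') : v * v' = v' * v := by
  obtain ⟨e⟩ := ne4 hT
  obtain ⟨q, hq, rfl⟩ := h.exists_L e
  obtain ⟨q', hq', rfl⟩ := h'.exists_L e
  rw [← map_mul, d1 q q' hq hq', map_mul]

theorem vt_trans {a b : α} (ha : a ∈ T) (hb : b ∈ T) (hab : a ≠ b) : ∃ v, VT T v ∧ v a = b := by
  obtain ⟨e⟩ := ne4 hT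
  obtain ⟨i, rfl⟩ := exists_i e ha
  obtain ⟨j, rfl⟩ := exists_i e hb
  obtain ⟨q, hq, h⟩ := d2 i j fun h => hab (by rw [h])
  exact ⟨L e q, (VT_L e).2 hq, by rw [L_img, h]⟩

theorem VT.nc {v : Perm α} (h : VT T v) : ∃ x : Perm α, sign x = 1 ∧ (∀ y, y ∉ T → x y = y) ∧ x * v ≠ v * x := by
  obtain ⟨e⟩ := ne4 hT
  obtain ⟨q, hq, rfl⟩ := h.exists_L e
  obtain ⟨x, h1, h2⟩ := d3 q hq
  exact ⟨L e x, by rw [L_sign, h1], fun y hy => L_off e x hy, fun h => h2 (L_inj e (by rw [map_mul, h, map_mul]))⟩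

theorem swap_nc {a b : α} (ha : a ∈ T) (hb : b ∈ T) (hab : a ≠ b) : ∃ v, VT T v ∧ swap a b * v ≠ v * swap a b := by
  obtain ⟨e⟩ := ne4 hT
  obtain ⟨i, rfl⟩ := exists_i e ha
  obtain ⟨j, rfl⟩ := exists_i e hb
  obtain ⟨q, hq, h⟩ := d4 i j fun h => hab (by rw [h])
  exact ⟨L e q, (VT_L e).2 hq, fun h' => h (L_inj e (by rw [map_mul, map_mul, L_swap, h']))⟩

theorem VT.sign {v : Perm α} (h : VT T v) : sign v = 1 := by
  obtain ⟨e⟩ := ne4 hT
  obtain ⟨q, hq, rfl⟩ := h.exists_L e
  rw [L_sign, d5 q hq]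

theorem swap_swap {a b c d : α} (ha : a ∈ T) (hb : b ∈ T) (hab : a ≠ b) (hc : c ∈ T) (hd : d ∈ T) (hcd : c ≠ d) :
    (swap a b * swap c d) ^ 3 = 1 ∨ VT T (swap a b * swap c d) := by
  obtain ⟨e⟩ := ne4 hT
  obtain ⟨i, rfl⟩ := exists_i e ha
  obtain ⟨j, rfl⟩ := exists_i e hb
  obtain ⟨k, rfl⟩ := exists_i e hc
  obtain ⟨l, rfl⟩ := exists_i e hd
  rw [← L_swap, ← L_swap, ← map_mul, ← map_pow, VT_L]
  rcases d6 i j k l (fun h => hab (by rw [h])) (fun h => hcd (by rw [h])) with h | h
  · left; rw [h, map_one]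
  · exact Or.inr h

theorem swap_compl {a b : α} (ha : a ∈ T) (hb : b ∈ T) (hab : a ≠ b) :
    ∃ c ∈ T, ∃ d ∈ T, c ≠ d ∧ VT T (swap a b * swap c d) := by
  obtain ⟨e⟩ := ne4 hT
  obtain ⟨i, rfl⟩ := exists_i e ha
  obtain ⟨j, rfl⟩ := exists_i e hb
  obtain ⟨k, l, h1, h2⟩ := d7 i j fun h => hab (by rw [h])
  refine ⟨e k, (e k).2, e l, (e l).2, fun h => h1 (e_inj e h), ?_⟩
  rw [← L_swap, ← L_swap, ← map_mul, VT_L]
  exact h2

theorem VT.conj {v v' : Perm α} (h : VT T v) (h' : VT T v') :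
    ∃ x : Perm α, Perm.sign x = 1 ∧ (∀ y, y ∉ T → x y = y) ∧ x * v * x⁻¹ = v' := by
  obtain ⟨e⟩ := ne4 hT
  obtain ⟨q, hq, rfl⟩ := h.exists_L e
  obtain ⟨q', hq', rfl⟩ := h'.exists_L e
  obtain ⟨x, h1, h2⟩ := d8 q q' hq hq'
  exact ⟨L e x, by rw [L_sign, h1], fun y hy => L_off e x hy, by rw [← h2, map_mul, map_mul, map_inv]⟩

theorem vt_surj {T' : Finset α} (hT' : T'.card = 4) (φ : {v // VT T v} → {v // VT T' v}) (hφ : Function.Injective φ) :
    Function.Surjective φ := by
  have key : ∀ {T : Finset α}, T.card = 4 → Nonempty ({q // Vq q} ≃ {v // VT T v}) := by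
    intro T hT
    obtain ⟨e⟩ := ne4 hT
    refine ⟨Equiv.ofBijective (fun q => ⟨L e q.1, (VT_L e).2 q.2⟩) ⟨fun q q' h => ?_, fun v => ?_⟩⟩
    · exact Subtype.ext (L_inj e (congrArg Subtype.val h))
    · obtain ⟨q, hq, h⟩ := v.2.exists_L e
      exact ⟨⟨q, hq⟩, Subtype.ext h.symm⟩
  obtain ⟨e⟩ := key hT
  obtain ⟨e'⟩ := key hT'
  exact (Finite.injective_iff_surjective_of_equiv (e.symm.trans e')).1 hφ

end

theorem swap4 {a b c d : α} (h : (swap a b * swap c d).support.card = 4) : a ≠ c ∧ a ≠ d := by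
  have key : (swap a b * swap c d).support ⊆ {a, b, c, d} := by
    intro x hx
    by_contra hx'
    simp only [Finset.mem_insert, Finset.mem_singleton, not_or] at hx'
    rw [mem_support, mul_apply, swap_apply_of_ne_of_ne hx'.2.2.1 hx'.2.2.2,
      swap_apply_of_ne_of_ne hx'.1 hx'.2.1] at hx
    exact hx rfl
  have h4 := Finset.card_le_card key
  constructor
  · rintro rfl
    have : ({a, b, a, d} : Finset α) = {a, b, d} := by ext; simp; tauto
    rw [this, h] at h4
    exact absurd (h4.trans Finset.card_le_three) (by norm_num)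
  · rintro rfl
    have : ({a, b, c, a} : Finset α) = {a, b, c} := by ext; simp; tauto
    rw [this, h] at h4
    exact absurd (h4.trans Finset.card_le_three) (by norm_num)

theorem card_swap4 {a b c d : α} (hab : a ≠ b) (hcd : c ≠ d) (h1 : a ≠ c) (h2 : a ≠ d) (h3 : b ≠ c) (h4 : b ≠ d) :
    (swap a b * swap c d).support.card = 4 := by
  have : Perm.Disjoint (swap a b) (swap c d) := by
    intro x
    by_cases hx : x = c ∨ x = d
    · left
      rcases hx with rfl | rfl
      · exact swap_apply_of_ne_of_ne h1.symm h3.symm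
      · exact swap_apply_of_ne_of_ne h2.symm h4.symm
    · right
      push Not at hx
      exact swap_apply_of_ne_of_ne hx.1 hx.2
  rw [this.card_support_mul, card_support_swap hab, card_support_swap hcd]

theorem eq_two_swaps {m : Perm α} (h2 : m * m = 1) (h4 : m.support.card = 4) {a c : α} (ha : m a ≠ a) (hc : m c ≠ c)
    (h1 : c ≠ a) (h1' : c ≠ m a) : m = swap a (m a) * swap c (m c) := by
  have mm : ∀ x, m (m x) = x := fun x => by rw [← mul_apply, h2, one_apply]
  have n1 : m c ≠ a := fun h => h1' (by rw [← h, mm])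
  have n2 : m c ≠ m a := fun h => h1 (m.injective h)
  have hs : ({a, m a, c, m c} : Finset α) = m.support := by
    apply Finset.eq_of_subset_of_card_le
    · intro x hx
      simp only [Finset.mem_insert, Finset.mem_singleton] at hx
      rw [mem_support]
      rcases hx with rfl | rfl | rfl | rfl
      · exact ha
      · rw [mm]; exact ha.symm
      · exact hc
      · rw [mm]; exact hc.symm
    · rw [h4, Finset.card_insert_of_notMem, Finset.card_insert_of_notMem, Finset.card_pair hc.symm]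
      · simp [h1'.symm, n2.symm]
      · simp [ha.symm, h1.symm, n1.symm]
  ext x
  rw [mul_apply]
  by_cases hx : x ∈ m.support
  · rw [← hs] at hx
    simp only [Finset.mem_insert, Finset.mem_singleton] at hx
    rcases hx with rfl | rfl | rfl | rfl
    · rw [swap_apply_of_ne_of_ne h1.symm n1.symm, swap_apply_left]
    · rw [swap_apply_of_ne_of_ne h1'.symm n2.symm, swap_apply_right, mm]
    · rw [swap_apply_left, swap_apply_of_ne_of_ne n1 n2]
    · rw [swap_apply_right, swap_apply_of_ne_of_ne h1 h1', mm]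
  · have hx' := hx
    rw [← hs] at hx'
    simp only [Finset.mem_insert, Finset.mem_singleton, not_or] at hx'
    rw [swap_apply_of_ne_of_ne hx'.2.2.1 hx'.2.2.2, swap_apply_of_ne_of_ne hx'.1 hx'.2.1, notMem_support.1 hx]

/-- induction over the permutations preserving the fibres of `bl`. -/
theorem blk_ind {β : Type} (bl : α → β) (Q : Perm α → Prop) (h1 : Q 1)
    (hs : ∀ p x y, x ≠ y → bl x = bl y → (∀ z, bl (p z) = bl z) → Q p → Q (swap x y * p)) (p : Perm α)
    (hp : ∀ z, bl (p z) = bl z) : Q p := by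
  induction h : p.support.card using Nat.strong_induction_on generalizing p with
  | _ n ih =>
    by_cases h0 : p = 1
    · exact h0 ▸ h1
    · obtain ⟨x, hx⟩ : ∃ x, p x ≠ x := by
        by_contra h2
        push Not at h2
        exact h0 (Equiv.ext h2)
      have hq : ∀ z, bl ((swap x (p x) * p) z) = bl z := by
        intro z
        rw [mul_apply, ← hp z, swap_apply_def]
        split_ifs with e1 e2
        · rw [hp, e1]
        · rw [e2, hp]
        · rfl
      have := hs _ x (p x) hx.symm (hp x).symm hq (ih _ (h ▸ card_support_swap_mul hx) _ hq rfl)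
      rwa [← mul_assoc, swap_mul_self, one_mul] at this

end Cfsg.Agent.WA.Al.Nu
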