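import Cfsg.Agent.WA.AlNu1

/-! S3218, module AlNu, part 2: a support-preserving embedding of `St X ⊓ St X'` extends to odd permutations. -/

set_option autoImplicit false
set_option linter.unusedSectionVars false

namespace Cfsg.Agent.WA.Al.Nu

open Equiv Equiv.Perm

variable {α : Type} [Fintype α] [DecidableEq α]

/-- permutations preserving `X` and `X'` -/
def Df (X X' : Finset α) : Subgroup (Perm α) where
  carrier := {p | (∀ x, p x ∈ X ↔ x ∈ X) ∧ ∀ x, p x ∈ X' ↔ x ∈ X'}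
  one_mem' := ⟨fun _ => Iff.rfl, fun _ => Iff.rfl⟩
  mul_mem' {p q} hp hq := ⟨fun x => (hp.1 _).trans (hq.1 x), fun x => (hp.2 _).trans (hq.2 x)⟩
  inv_mem' {p} hp := ⟨fun x => by simpa using (hp.1 (p⁻¹ x)).symm, fun x => by simpa using (hp.2 (p⁻¹ x)).symm⟩

/-- the even ones -/
def De (X X' : Finset α) : Subgroup (Perm α) := Df X X' ⊓ alternatingGroup α

theorem mem_De {X X' : Finset α} {p : Perm α} : p ∈ De X X' ↔ p ∈ Df X X' ∧ sign p = 1 := Iff.rfl

theorem swap_Df {X X' : Finset α} {x y : α} (h : x ∈ X ↔ y ∈ X) (h' : x ∈ X' ↔ y ∈ X') : swap x y ∈ Df X X' := by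
  constructor <;> intro z <;> rw [swap_apply_def] <;> split_ifs with e1 e2
  · rw [e1, h]
  · rw [e2, h]
  · rfl
  · rw [e1, h']
  · rw [e2, h']
  · rfl

theorem pres_of_off {T : Finset α} {p : Perm α} (hp : ∀ x, x ∉ T → p x = x) (x : α) : p x ∈ T ↔ x ∈ T := by
  by_cases hx : x ∈ T
  · refine iff_of_true ?_ hx
    by_contra h
    exact h (by rw [p.injective (hp _ h)]; exact hx)
  · rw [hp x hx]

theorem comm_of_fix {T : Finset α} {p q : Perm α} (hp : ∀ x ∈ T, p x = x) (hq : ∀ x, x ∉ T → q x = x) :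
    p * q = q * p := by
  have : Perm.Disjoint p q := fun x => by
    by_cases hx : x ∈ T
    · exact Or.inl (hp x hx)
    · exact Or.inr (hq x hx)
  exact this.commute.eq

theorem swap_off {T : Finset α} {a b x : α} (ha : a ∈ T) (hb : b ∈ T) (hx : x ∉ T) : swap a b x = x :=
  swap_apply_of_ne_of_ne (fun h => hx (h ▸ ha)) (fun h => hx (h ▸ hb))

theorem swap_on {T : Finset α} {a b x : α} (ha : a ∉ T) (hb : b ∉ T) (hx : x ∈ T) : swap a b x = x :=
  swap_apply_of_ne_of_ne (fun h => ha (h ▸ hx)) (fun h => hb (h ▸ hx))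

theorem swap_pres {T : Finset α} {a b : α} (h : a ∈ T ↔ b ∈ T) (x : α) : swap a b x ∈ T ↔ x ∈ T :=
  (swap_Df (X' := T) h h).1 x

/-- the data -/
structure Th (X X' : Finset α) where
  cX : X.card = 4
  cX' : X'.card = 4
  dis : Disjoint X X'
  θ : Perm α → Perm α
  mul : ∀ p ∈ De X X', ∀ q ∈ De X X', θ (p * q) = θ p * θ q
  inj : ∀ p ∈ De X X', ∀ q ∈ De X X', θ p = θ q → p = q
  sg : ∀ p ∈ De X X', sign (θ p) = 1
  pr : ∀ p ∈ De X X', ∀ x, θ p x ∈ X ↔ x ∈ X
  sp : ∀ p ∈ De X X', p * p = 1 → (θ p).support.card = p.support.card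
  v1 : ∀ v, VT X v → ∃ v', VT X' v' ∧ θ v' = v
  v2 : ∀ v', VT X' v' → VT X (θ v')

namespace Th

variable {X X' : Finset α} (T : Th X X')
include T

theorem nx {x : α} (h : x ∈ X) : x ∉ X' := Finset.disjoint_left.1 T.dis h
theorem nx' {x : α} (h : x ∈ X') : x ∉ X := Finset.disjoint_right.1 T.dis h

theorem one : T.θ 1 = 1 := by
  have := T.mul 1 (one_mem _) 1 (one_mem _)
  rw [mul_one] at this
  exact left_eq_mul.1 this

theorem inD {p : Perm α} (hs : sign p = 1) (hp : ∀ x, x ∉ X → p x = x) : p ∈ De X X' := by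
  refine ⟨⟨pres_of_off hp, fun x => ?_⟩, hs⟩
  by_cases hx : x ∈ X
  · exact iff_of_false (T.nx ((pres_of_off hp x).2 hx)) (T.nx hx)
  · rw [hp x hx]

theorem inD' {p : Perm α} (hs : sign p = 1) (hp : ∀ x, x ∉ X' → p x = x) : p ∈ De X X' := by
  refine ⟨⟨fun x => ?_, pres_of_off hp⟩, hs⟩
  by_cases hx : x ∈ X'
  · exact iff_of_false (T.nx' ((pres_of_off hp x).2 hx)) (T.nx' hx)
  · rw [hp x hx]

theorem vD' {v : Perm α} (h : VT X' v) : v ∈ De X X' := T.inD' (h.sign T.cX') fun _ hx => h.off hx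

omit T in
theorem ssD {a b c d : α} (hab : a ≠ b) (hcd : c ≠ d) (h1 : swap a b ∈ Df X X') (h2 : swap c d ∈ Df X X') :
    swap a b * swap c d ∈ De X X' :=
  mem_De.2 ⟨mul_mem h1 h2, by rw [map_mul, sign_swap hab, sign_swap hcd]; rfl⟩

theorem sX {a b : α} (ha : a ∈ X) (hb : b ∈ X) : swap a b ∈ Df X X' :=
  swap_Df (iff_of_true ha hb) (iff_of_false (T.nx ha) (T.nx hb))

theorem sX' {a b : α} (ha : a ∈ X') (hb : b ∈ X') : swap a b ∈ Df X X' :=
  swap_Df (iff_of_false (T.nx' ha) (T.nx' hb)) (iff_of_true ha hb)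

theorem comm {p q : Perm α} (hp : p ∈ De X X') (hq : q ∈ De X X') : T.θ p * T.θ q = T.θ q * T.θ p ↔ p * q = q * p := by
  rw [← T.mul p hp q hq, ← T.mul q hq p hp]
  exact ⟨T.inj _ (mul_mem hp hq) _ (mul_mem hq hp), fun h => by rw [h]⟩

/-- claim A -/
theorem clA {r : Perm α} (hr : r ∈ De X X') (hf : ∀ x ∈ X', r x = x) : ∀ x ∈ X, T.θ r x = x := by
  have hc : ∀ v, VT X v → T.θ r * v = v * T.θ r := by
    intro v hv
    obtain ⟨v', hv', rfl⟩ := T.v1 v hv
    exact (T.comm hr (T.vD' hv')).2 (comm_of_fix hf fun x hx => hv'.off hx)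
  intro a ha
  by_contra hne
  obtain ⟨v, hv, hva⟩ := vt_trans T.cX ha ((T.pr r hr a).2 ha) (Ne.symm hne)
  have hm : ∀ c ∈ X, T.θ r c = v c := by
    intro c hc'
    by_cases hca : a = c
    · rw [← hca, hva]
    · obtain ⟨u, hu, rfl⟩ := vt_trans T.cX ha hc' hca
      rw [← mul_apply, hc u hu, mul_apply, ← hva, ← mul_apply, hu.comm T.cX hv, mul_apply]
  obtain ⟨v', hv', e⟩ := T.v1 v hv
  obtain ⟨x, hx1, hx2, hx3⟩ := hv'.nc T.cX'
  have xD := T.inD' hx1 hx2
  apply hx3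
  rw [← T.comm xD (T.vD' hv'), e]
  have h1 := (T.comm hr xD).2 (comm_of_fix hf hx2)
  ext c
  by_cases hc' : c ∈ X
  · rw [mul_apply, mul_apply, ← hm c hc', ← hm _ ((T.pr x xD c).2 hc'), ← mul_apply, ← h1, mul_apply]
  · rw [mul_apply, mul_apply, hv.off hc', hv.off fun h => hc' ((T.pr x xD c).1 h)]

/-- the image of a product of a transposition in `X'` and one outside -/
theorem lemM {a b x y : α} (ha : a ∈ X') (hb : b ∈ X') (hab : a ≠ b) (hx : x ∉ X') (hy : y ∉ X') (hxy : x ≠ y)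
    (h : x ∈ X ↔ y ∈ X) : ∃ a' ∈ X, ∃ b' ∈ X, ∃ c d, c ∉ X ∧ d ∉ X ∧ a' ≠ b' ∧ c ≠ d ∧
      T.θ (swap a b * swap x y) = swap a' b' * swap c d := by
  have pD : swap a b * swap x y ∈ De X X' := ssD hab hxy (T.sX' ha hb) (swap_Df h (iff_of_false hx hy))
  have c1 : swap x y * swap a b = swap a b * swap x y :=
    comm_of_fix (T := X') (fun z hz => swap_on hx hy hz) fun z hz => swap_off ha hb hz
  have p2 : swap a b * swap x y * (swap a b * swap x y) = 1 := by
    rw [mul_assoc, ← mul_assoc (swap x y), c1, mul_assoc, swap_mul_self, mul_one, swap_mul_self]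
  have m2 : T.θ (swap a b * swap x y) * T.θ (swap a b * swap x y) = 1 := by rw [← T.mul _ pD _ pD, p2, T.one]
  have m4 : (T.θ (swap a b * swap x y)).support.card = 4 := by
    rw [T.sp _ pD p2]
    exact card_swap4 hab hxy (fun e => hx (e ▸ ha)) (fun e => hy (e ▸ ha)) (fun e => hx (e ▸ hb)) fun e => hy (e ▸ hb)
  have hpr := T.pr _ pD
  set m := T.θ (swap a b * swap x y) with hm
  obtain ⟨a', ha', h1⟩ : ∃ a' ∈ X, m a' ≠ a' := by
    by_contra h0
    push Not at h0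
    obtain ⟨v, hv, hn⟩ := swap_nc T.cX' ha hb hab
    apply hn
    have h2 := (T.comm pD (T.vD' hv)).1 (comm_of_fix h0 fun z hz => (T.v2 v hv).off hz)
    have c2 : swap x y * v = v * swap x y :=
      comm_of_fix (T := X') (fun z hz => swap_on hx hy hz) fun z hz => hv.off hz
    rw [mul_assoc, c2, ← mul_assoc, ← mul_assoc] at h2
    exact mul_right_cancel h2
  obtain ⟨c, hc, h2⟩ : ∃ c, c ∉ X ∧ m c ≠ c := by
    by_contra h0
    push Not at h0
    have hs : m.support = X := by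
      apply Finset.eq_of_subset_of_card_le
      · intro z hz
        by_contra hz'
        exact mem_support.1 hz (h0 z hz')
      · rw [m4, T.cX]
    obtain ⟨v', hv', e⟩ := T.v1 m ⟨m2, hs⟩
    have e' := T.inj _ (T.vD' hv') _ pD e
    have := hv'.off hx
    rw [e', mul_apply, swap_apply_left, swap_off ha hb hy] at this
    exact hxy this.symm
  exact ⟨a', ha', m a', (hpr _).2 ha', c, m c, hc, fun h => hc ((hpr _).1 h), h1.symm, h2.symm,
    eq_two_swaps m2 m4 h1 h2 (fun e => hc (e ▸ ha')) fun e => hc (e ▸ (hpr _).2 ha')⟩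

omit T in
theorem ss_off {a b c d x : α} (ha : a ∈ X) (hb : b ∈ X) (hc : c ∉ X) (hd : d ∉ X) (hx : x ∉ X) :
    (swap a b * swap c d) x = swap c d x := by
  rw [mul_apply, swap_off ha hb fun h => hx ((swap_pres (iff_of_false hc hd) x).1 h)]

omit T in
theorem ss_on {a b c d x : α} (hc : c ∉ X) (hd : d ∉ X) (hx : x ∈ X) :
    (swap a b * swap c d) x = swap a b x := by
  rw [mul_apply, swap_on hc hd hx]

/-- claim B -/
theorem clB {a b c d : α} (ha : a ∈ X') (hb : b ∈ X') (hab : a ≠ b) (hc : c ∈ X') (hd : d ∈ X') (hcd : c ≠ d) :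
    ∀ x, x ∉ X → T.θ (swap a b * swap c d) x = x := by
  rcases swap_swap T.cX' ha hb hab hc hd hcd with h3 | h3
  swap
  · exact fun x hx => (T.v2 _ h3).off hx
  obtain ⟨a0, ha0, b0, hb0, hab0⟩ := Finset.one_lt_card.1 (show 1 < X.card by rw [T.cX]; norm_num)
  obtain ⟨c0, hc0, d0, hd0, hcd0, hv0⟩ := swap_compl T.cX ha0 hb0 hab0
  have vD : swap a0 b0 * swap c0 d0 ∈ De X X' := ssD hab0 hcd0 (T.sX ha0 hb0) (T.sX hc0 hd0)
  have tX := T.clA vD fun x hx => hv0.off (T.nx' hx)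
  have t2 : T.θ (swap a0 b0 * swap c0 d0) * T.θ (swap a0 b0 * swap c0 d0) = 1 := by
    rw [← T.mul _ vD _ vD, hv0.1, T.one]
  have t4 : (T.θ (swap a0 b0 * swap c0 d0)).support.card = 4 := by rw [T.sp _ vD hv0.1, hv0.2, T.cX]
  set t := T.θ (swap a0 b0 * swap c0 d0) with ht
  have key : ∀ a ∈ X', ∀ b ∈ X', a ≠ b → ∃ c, c ∉ X ∧ t c ∉ X ∧ ∀ x, x ∉ X →
      T.θ (swap a b * swap a0 b0) x = swap c (t c) x := by
    intro a ha b hb hab
    obtain ⟨a1, ha1, b1, hb1, c1, d1, hc1, hd1, -, -, e1⟩ :=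
      T.lemM ha hb hab (T.nx ha0) (T.nx hb0) hab0 (iff_of_true ha0 hb0)
    obtain ⟨a2, ha2, b2, hb2, c2, d2, hc2, hd2, -, -, e2⟩ :=
      T.lemM ha hb hab (T.nx hc0) (T.nx hd0) hcd0 (iff_of_true hc0 hd0)
    have c1' : swap a0 b0 * swap a b = swap a b * swap a0 b0 :=
      comm_of_fix (T := X') (fun z hz => swap_on (T.nx ha0) (T.nx hb0) hz) fun z hz => swap_off ha hb hz
    have e3 : t = (swap a1 b1 * swap c1 d1) * (swap a2 b2 * swap c2 d2) := by
      rw [← e1, ← e2, ← T.mul _ (ssD hab hab0 (T.sX' ha hb) (T.sX ha0 hb0)) _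
        (ssD hab hcd0 (T.sX' ha hb) (T.sX hc0 hd0)), ← c1', mul_assoc, ← mul_assoc (swap a b), swap_mul_self, one_mul]
    have e4 : t = swap c1 d1 * swap c2 d2 := by
      ext x
      by_cases hx : x ∈ X
      · rw [tX x hx, mul_apply, swap_on hc2 hd2 hx, swap_on hc1 hd1 hx]
      · rw [e3, mul_apply, ss_off ha2 hb2 hc2 hd2 hx,
          ss_off ha1 hb1 hc1 hd1 fun h => hx ((swap_pres (iff_of_false hc2 hd2) x).1 h), mul_apply]
    obtain ⟨n1, n2⟩ := swap4 (e4 ▸ t4)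
    have e5 : t c1 = d1 := by rw [e4, mul_apply, swap_apply_of_ne_of_ne n1 n2, swap_apply_left]
    exact ⟨c1, hc1, e5 ▸ hd1, fun x hx => by rw [e1, e5, ss_off ha1 hb1 hc1 hd1 hx]⟩
  obtain ⟨c1, hc1, hd1, e1⟩ := key a ha b hb hab
  obtain ⟨c2, hc2, hd2, e2⟩ := key c hc d hd hcd
  have tt : ∀ x, t (t x) = x := fun x => by rw [← mul_apply, t2, one_apply]
  have cm : swap c1 (t c1) * swap c2 (t c2) = swap c2 (t c2) * swap c1 (t c1) := by
    by_cases h1 : c2 = c1
    · rw [h1]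
    by_cases h2 : c2 = t c1
    · rw [h2, tt, swap_comm (t c1)]
    rw [mul_swap_eq_swap_mul, swap_apply_of_ne_of_ne h1 h2, swap_apply_of_ne_of_ne]
    · exact fun h => h2 (by rw [← h, tt])
    · exact fun h => h1 (t.injective h)
  have pD : swap a b * swap c d ∈ De X X' := ssD hab hcd (T.sX' ha hb) (T.sX' hc hd)
  have e3 : ∀ x, x ∉ X → T.θ (swap a b * swap c d) x = (swap c1 (t c1) * swap c2 (t c2)) x := by
    intro x hx
    have c1' : swap a0 b0 * swap c d = swap c d * swap a0 b0 :=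
      comm_of_fix (T := X') (fun z hz => swap_on (T.nx ha0) (T.nx hb0) hz) fun z hz => swap_off hc hd hz
    have : swap a b * swap c d = (swap a b * swap a0 b0) * (swap c d * swap a0 b0) := by
      rw [← c1', mul_assoc, ← mul_assoc (swap a0 b0), swap_mul_self, one_mul]
    rw [this, T.mul _ (ssD hab hab0 (T.sX' ha hb) (T.sX ha0 hb0)) _ (ssD hcd hab0 (T.sX' hc hd) (T.sX ha0 hb0)),
      mul_apply, e2 x hx, e1 _ fun h => hx ((swap_pres (iff_of_false hc2 hd2) x).1 h), mul_apply]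
  have n2 : swap c1 (t c1) * swap c2 (t c2) * (swap c1 (t c1) * swap c2 (t c2)) = 1 := by
    conv_lhs => rw [mul_assoc, ← mul_assoc (swap c2 (t c2)), ← cm, mul_assoc, swap_mul_self, mul_one, swap_mul_self]
  have c3 : T.θ (swap a b * swap c d) * (T.θ (swap a b * swap c d) * T.θ (swap a b * swap c d)) = 1 := by
    rw [← T.mul _ pD _ pD, ← T.mul _ pD _ (mul_mem pD pD), ← pow_three, h3, T.one]
  intro x hx
  have hpr := T.pr _ pD
  set m := T.θ (swap a b * swap c d) with hm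
  have h1 : m x ∉ X := fun h => hx ((hpr _).1 h)
  have h2 : m (m x) = x := by rw [e3 _ h1, e3 _ hx, ← mul_apply, n2, one_apply]
  have h4 : m (m (m x)) = x := by rw [← mul_apply, ← mul_apply, mul_assoc, c3, one_apply]
  rwa [h2] at h4

end Th

end Cfsg.Agent.WA.Al.Nu
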