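import Cfsg.Agent.WA.AlW
import Cfsg.Agent.WA.AlCh
import Cfsg.Agent.WA.AlAut

/-! S3218: the action of `e b₁` on `K`. -/

set_option autoImplicit false
set_option linter.unusedSectionVars false
set_option linter.unusedSimpArgs false

namespace Cfsg.Agent.WA.Al

open Subgroup Equiv

universe u

variable {G : Type u} [Group G] [Finite G] {B : Type} [Fintype B] [DecidableEq B] {s : ℕ}

namespace Out

open Cs W

theorem τ_l (x : B × Fin 4) : (τ0 s : Perm (Pt B s)) (Sum.inl x) = Sum.inl x := rr_l _ x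
theorem τ_r (j : Fin (s + 2)) : (τ0 s : Perm (Pt B s)) (Sum.inr j) = Sum.inr (swap 0 1 j) := rr_r _ j

theorem mv1 {b : B} {w : Pt B s} (h1 : (y0 s b).1 w ≠ w) (h2 : (e0 s b).1 w ≠ w) :
    w = Sum.inl (b, 0) ∨ w = Sum.inl (b, 1) := by
  rcases w with ⟨c, i⟩ | j
  · by_cases e : c = b
    · subst e
      revert h2
      refine f4 (P := fun i => (e0 s c).1 (Sum.inl (c, i)) ≠ Sum.inl (c, i) →
        (Sum.inl (c, i) : Pt B s) = Sum.inl (c, 0) ∨ (Sum.inl (c, i) : Pt B s) = Sum.inl (c, 1)) ?_ ?_ ?_ ?_ i <;>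
        simp [e0_l, swap_apply_def]
    · simp [y0_l, e] at h1
  · simp [y0_r] at h1

theorem mv2 {w : Pt B s} (h1 : ∀ b, (y0 s b).1 w = w) : ∃ j, w = Sum.inr j := by
  rcases w with ⟨c, i⟩ | j
  · exfalso
    have := h1 c
    revert this
    refine f4 (P := fun i => (y0 s c).1 (Sum.inl (c, i)) = Sum.inl (c, i) → False) ?_ ?_ ?_ ?_ i <;>
      simp [y0_l, swap_apply_def]
  · exact ⟨j, rfl⟩

theorem cent (hs : s ≤ 1) (b₀ : B) {π : Perm (Pt B s)} (hy : ∀ b w, (y0 s b).1 (π w) = π ((y0 s b).1 w))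
    (ha : ∀ b w, (a0 s b).1 (π w) = π ((a0 s b).1 w)) (he : ∀ b w, (e0 s b).1 (π w) = π ((e0 s b).1 w)) :
    ∃ P : Finset B, (yK s P).1 * π = 1 ∨ (yK s P).1 * π = τ0 s := by
  have h0 : ∀ b, π (Sum.inl (b, 0)) = Sum.inl (b, 0) ∨ π (Sum.inl (b, 0)) = Sum.inl (b, 1) := fun b =>
    mv1 (by rw [hy]; simp [y0_l, swap_apply_def]) (by rw [he]; simp [e0_l, swap_apply_def])
  refine ⟨Finset.univ.filter fun b => π (Sum.inl (b, 0)) = Sum.inl (b, 1), ?_⟩
  have hl : ∀ b i, (yK s (Finset.univ.filter fun b => π (Sum.inl (b, 0)) = Sum.inl (b, 1))).1 (π (Sum.inl (b, i))) =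
      Sum.inl (b, i) := by
    intro b
    have e1 : π (Sum.inl (b, 1)) = (y0 s b).1 (π (Sum.inl (b, 0))) := by rw [hy]; simp [y0_l, swap_apply_def]
    have e2 : π (Sum.inl (b, 2)) = (a0 s b).1 (π (Sum.inl (b, 0))) := by rw [ha]; simp [a0_l, swap_apply_def]
    have e3 : π (Sum.inl (b, 3)) = (a0 s b).1 (π (Sum.inl (b, 1))) := by rw [ha]; simp [a0_l, swap_apply_def]
    rcases h0 b with h | h
    · refine f4 ?_ ?_ ?_ ?_ <;> simp [e3, e2, e1, h, yK_l, y0_l, a0_l, swap_apply_def]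
    · refine f4 ?_ ?_ ?_ ?_ <;> simp [e3, e2, e1, h, yK_l, y0_l, a0_l, swap_apply_def]
  have hr : ∀ j, ∃ k, π (Sum.inr j) = Sum.inr k ∧ (swap 0 1 k = k ↔ swap 0 1 j = j) := by
    intro j
    obtain ⟨k, hk⟩ := mv2 (w := π (Sum.inr j)) fun b => by rw [hy, y0_r]
    refine ⟨k, hk, ?_⟩
    have := he b₀ (Sum.inr j)
    rw [hk, e0_r, e0_r] at this
    constructor
    · intro e
      rw [e, ← hk] at this
      exact (Sum.inr_injective (π.injective this)).symm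
    · intro e
      rw [e, hk] at this
      exact Sum.inr_injective this
  have h2 : ∀ j : Fin (s + 2), j ≠ 0 → j ≠ 1 → π (Sum.inr j) = Sum.inr j := by
    intro j j0 j1
    obtain ⟨k, hk, e⟩ := hr j
    have e' := e.2 (swap_apply_of_ne_of_ne j0 j1)
    have k0 : k ≠ 0 := by rintro rfl; simp at e'
    have k1 : k ≠ 1 := by rintro rfl; simp at e'
    rw [hk]
    congr 1
    have a1 : j.1 ≠ 0 := fun h => j0 (Fin.ext h)
    have a2 : j.1 ≠ 1 := fun h => j1 (Fin.ext h)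
    have a3 : k.1 ≠ 0 := fun h => k0 (Fin.ext h)
    have a4 : k.1 ≠ 1 := fun h => k1 (Fin.ext h)
    have := j.2
    have := k.2
    exact Fin.ext (by omega)
  have e1 : π (Sum.inr 1) = (e0 s b₀).1 (π (Sum.inr 0)) := by rw [he]; simp [e0_r]
  obtain ⟨k, hk, e⟩ := hr 0
  have k01 : k = 0 ∨ k = 1 := by
    by_contra hn
    rw [not_or] at hn
    simpa using e.1 (swap_apply_of_ne_of_ne hn.1 hn.2)
  rcases k01 with rfl | rfl
  · refine Or.inl (Equiv.ext ?_)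
    rintro (⟨b, i⟩ | j)
    · exact hl b i
    · by_cases j0 : j = 0
      · subst j0; simp [hk, yK_r]
      · by_cases j1 : j = 1
        · subst j1; simp [e1, hk, yK_r, e0_r]
        · simp [h2 j j0 j1, yK_r]
  · refine Or.inr (Equiv.ext ?_)
    rintro (⟨b, i⟩ | j)
    · exact (hl b i).trans (τ_l _).symm
    · by_cases j0 : j = 0
      · subst j0; simp [hk, yK_r, τ_r]
      · by_cases j1 : j = 1
        · subst j1; simp [e1, hk, yK_r, e0_r, τ_r]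
        · simp [h2 j j0 j1, yK_r, τ_r, swap_apply_of_ne_of_ne j0 j1]

theorem e0_conj (b : B) (R : Finset B) : ∃ k : Alt (Pt B s), k * (e0 s b * yK s R) * k⁻¹ = yK s (insert b R) := by
  have h1 : ∀ R : Finset B, b ∉ R → ∃ k : Alt (Pt B s), k * (e0 s b * yK s R) * k⁻¹ = yK s (insert b R) := by
    intro R hb
    obtain ⟨g, g1, -, g2, -⟩ := ue0 (s := s) R b hb
    refine ⟨g, ?_⟩
    calc _ = (g * e0 s b * g⁻¹) * (g * yK s R * g⁻¹) := by group
      _ = _ := by rw [g2, g1, yK_insert hb]; group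
  by_cases hb : b ∈ R
  · obtain ⟨k, hk⟩ := h1 (R.erase b) (Finset.notMem_erase _ _)
    refine ⟨k * a0 s b, ?_⟩
    have e1 : a0 s b * (e0 s b * yK s R) * (a0 s b)⁻¹ = e0 s b * yK s (R.erase b) := by
      rw [mul_inv_eq_iff_eq_mul]
      refine ext3 b b (f4 ?_ ?_ ?_ ?_) (f4 ?_ ?_ ?_ ?_) (fun d h1 h2 i => ?_) ?_ ?_ (fun j h1 h2 => ?_) <;>
        simp [mul_ap, yK_l, yK_r, a0_l, a0_r, e0_l, e0_r, swap_apply_def, *]
    calc _ = k * (a0 s b * (e0 s b * yK s R) * (a0 s b)⁻¹) * k⁻¹ := by group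
      _ = _ := by rw [e1, hk, Finset.insert_erase hb, Finset.insert_eq_of_mem hb]
  · exact h1 R hb

theorem swap_blk (c d : B) : ∃ k : Alt (Pt B s), k.1 = τ0 s * k.1 * (τ0 s)⁻¹ ∧ k * y0 s c * k⁻¹ = y0 s d := by
  refine ⟨pb s (swap c d), ?_, ?_⟩
  · rw [eq_mul_inv_iff_mul_eq]
    refine Equiv.ext ?_
    rintro (⟨b, i⟩ | j) <;> simp [τ_l, τ_r, pb_l, pb_r]
  · rw [mul_inv_eq_iff_eq_mul]
    refine Subtype.ext (Equiv.ext ?_)
    rintro (⟨b, i⟩ | j)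
    · have : swap c d b = d ↔ b = c := by rw [swap_apply_eq_iff, swap_apply_right]
      simp [mul_ap, pb_l, y0_l, this]
    · simp [mul_ap, pb_r, y0_r]

theorem three (b : B) : ∃ k : Alt (Pt B s), k.1 = τ0 s * k.1 * (τ0 s)⁻¹ ∧ k * y0 s b * k⁻¹ = a0 s b := by
  refine ⟨s2 (Sum.inl (b, 1)) (Sum.inl (b, 3)) (Sum.inl (b, 1)) (Sum.inl (b, 2)) (by simp) (by simp), ?_, ?_⟩
  · rw [eq_mul_inv_iff_mul_eq]
    refine Equiv.ext ?_
    rintro (⟨c, i⟩ | j)
    · simp only [Perm.mul_apply, s2_ap, τ_l, swap_apply_def]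
      split_ifs <;> simp [τ_l]
    · simp [s2_ap, τ_r, swap_apply_def]
  · rw [mul_inv_eq_iff_eq_mul]
    refine ext3 b b (f4 ?_ ?_ ?_ ?_) (f4 ?_ ?_ ?_ ?_) (fun d h1 h2 i => ?_) ?_ ?_ (fun j h1 h2 => ?_) <;>
      simp [mul_ap, s2_ap, y0_l, y0_r, a0_l, a0_r, swap_apply_def, *]

theorem supp_ya (b : B) : (a0 s b).1.support = (y0 s b).1.support := by
  ext w
  rcases w with ⟨c, i⟩ | j
  · by_cases e : c = b
    · subst e
      revert i
      refine f4 ?_ ?_ ?_ ?_ <;> simp [a0_l, y0_l, swap_apply_def]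
    · simp [a0_l, y0_l, e]
  · simp [a0_r, y0_r]

/-- the frame with `e b` replaced by `e b * ζ b` -/
def reE (F : JF G B) (ζ : B → G) (hζ : ∀ b, ζ b ∈ F.Z) : JF G B :=
  have c : ∀ b, ∀ g ∈ F.J, g * ζ b = ζ b * g := fun b g hg => by
    obtain ⟨P, hP⟩ := F.mem_Z.1 (hζ b)
    rw [hP]; exact F.yP_comm P hg
  have m : ∀ b, ζ b ∈ F.J := fun b => F.A_le_J (fun _ => true) (F.Z_le_A _ (hζ b))
  have q : ∀ b, ζ b * ζ b = 1 := fun b => F.A_sq (F.Z_le_A (fun _ => true) (hζ b))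
  { F with
    e := fun b => F.e b * ζ b
    e2 := fun b => by
      calc F.e b * ζ b * (F.e b * ζ b) = F.e b * (ζ b * F.e b) * ζ b := by group
        _ = (F.e b * F.e b) * (ζ b * ζ b) := by rw [← c b _ (F.e_memJ b)]; group
        _ = 1 := by rw [F.e2, q, one_mul]
    ae := fun b => by
      calc F.a b * (F.e b * ζ b) * F.a b * (F.e b * ζ b)
          = F.a b * F.e b * (ζ b * (F.a b * F.e b)) * ζ b := by group
        _ = (F.a b * F.e b * F.a b * F.e b) * (ζ b * ζ b) := by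
          rw [← c b _ (mul_mem (F.a_memJ b) (F.e_memJ b))]; group
        _ = F.y b := by rw [F.ae, q, mul_one]
    ee := fun b d => by
      calc F.e b * ζ b * (F.e d * ζ d) = F.e b * (ζ b * F.e d) * ζ d := by group
        _ = (F.e b * F.e d) * (ζ b * ζ d) := by rw [← c b _ (F.e_memJ d)]; group
        _ = F.e d * (F.e b * ζ d) * ζ b := by rw [F.ee, c d _ (m b)]; group
        _ = _ := by rw [c d _ (F.e_memJ b)]; group
    ac := fun b d h => by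
      rw [← mul_assoc, F.ac b d h, mul_assoc, c d _ (F.a_memJ b), mul_assoc]
    ye := fun b d => by
      rw [← mul_assoc, F.ye b d, mul_assoc, c d _ (F.A_le_J (fun _ => true) (F.y_mem _ b)), mul_assoc] }

theorem reE_J (F : JF G B) (ζ : B → G) (hζ : ∀ b, ζ b ∈ F.Z) : (reE F ζ hζ).J = F.J := by
  apply le_antisymm
  · rw [JF.J, closure_le]
    rintro _ (⟨b, rfl⟩ | ⟨b, rfl⟩)
    · exact F.a_memJ b
    · exact mul_mem (F.e_memJ b) (F.A_le_J (fun _ => true) (F.Z_le_A _ (hζ b)))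
  · rw [JF.J, closure_le]
    rintro _ (⟨b, rfl⟩ | ⟨b, rfl⟩)
    · exact (reE F ζ hζ).a_memJ b
    · have h1 : ζ b ∈ (reE F ζ hζ).J := (reE F ζ hζ).A_le_J (fun _ => true) ((reE F ζ hζ).Z_le_A _ (hζ b))
      exact (mul_mem_cancel_right h1).1 ((reE F ζ hζ).e_memJ b)

variable {M : Mid G B s}

theorem e_norm (M : Mid G B s) : M.e M.b₁ ∈ normalizer (M.V M.b₁ : Set G) := by
  refine normV _ ?_ ?_
  · rw [← M.ye, mul_inv_cancel_right]; exact yV _ _
  · have : M.e M.b₁ * M.a M.b₁ * (M.e M.b₁)⁻¹ = M.a M.b₁ * M.y M.b₁ := by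
      rw [← M.ae, inv_eq_of_mul_eq_one_left (M.e2 _)]
      calc _ = (M.a M.b₁ * M.a M.b₁) * (M.e M.b₁ * M.a M.b₁ * M.e M.b₁) := by rw [M.a2, one_mul]
        _ = _ := by group
    rw [this]; exact mul_mem (aV _ _) (yV _ _)

theorem act (h : M.Lab) : ∃ P : Finset B,
    (∀ p, M.e M.b₁ * M.yP P * M.κ p * (M.e M.b₁ * M.yP P)⁻¹ = M.κ p) ∨
    ∀ p q : Alt (Pt {b // b ≠ M.b₁} s), q.1 = τ0 s * p.1 * (τ0 s)⁻¹ →
      M.e M.b₁ * M.yP P * M.κ p * (M.e M.b₁ * M.yP P)⁻¹ = M.κ q := by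
  choose f hf using conjK M (e_norm M)
  let f' : Alt (Pt {b // b ≠ M.b₁} s) →* Alt (Pt {b // b ≠ M.b₁} s) := MonoidHom.mk' f fun p q => M.inj (by
    rw [map_mul, ← hf, ← hf, ← hf, map_mul]; group)
  have fi : Function.Injective f' := fun p q e => M.inj (by
    have e' : M.κ (f p) = M.κ (f q) := congrArg M.κ e
    rw [← hf, ← hf] at e'
    exact mul_left_cancel (mul_right_cancel e'))
  let ω : MulAut (Alt (Pt {b // b ≠ M.b₁} s)) := MulEquiv.ofBijective f' ⟨fi, Finite.surjective_of_injective fi⟩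
  have hω : ∀ p, M.e M.b₁ * M.κ p * (M.e M.b₁)⁻¹ = M.κ (ω p) := hf
  have fy : ∀ b, ω (y0 s b) = y0 s b := fun b => M.inj (by rw [← hω, (h b).1, ← M.ye, mul_inv_cancel_right])
  have fa : ∀ b, ω (a0 s b) = a0 s b := fun b => M.inj (by rw [← hω, (h b).2.1, ← M.ac _ _ b.2, mul_inv_cancel_right])
  have fe : ∀ b, ω (e0 s b) = e0 s b := fun b => M.inj (by rw [← hω, (h b).2.2, M.ee, mul_inv_cancel_right])
  let b₂ : {b // b ≠ M.b₁} := ⟨M.b₂, M.ne⟩
  obtain ⟨π, hπ⟩ := aut_alt ω (by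
    have c1 : 0 < Fintype.card {b // b ≠ M.b₁} := Fintype.card_pos_iff.2 ⟨b₂⟩
    have c2 : Fintype.card (Pt {b // b ≠ M.b₁} s) = Fintype.card {b // b ≠ M.b₁} * 4 + (s + 2) := by
      rw [Fintype.card_sum, Fintype.card_prod, Fintype.card_fin, Fintype.card_fin]
    by_cases h7 : 7 ≤ Fintype.card (Pt {b // b ≠ M.b₁} s)
    · exact Or.inl h7
    · refine Or.inr ⟨by omega, y0 s b₂, a0 s b₂, (Ch.rel1 _).2.2.1, (Ch.rel1 _).1, fun e => ?_, ?_, supp_ya _, ?_⟩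
      · have := congrArg (fun p : Alt (Pt {b // b ≠ M.b₁} s) => p.1 (Sum.inl (b₂, 0))) e
        simp [y0_l, a0_l, swap_apply_def] at this
      · rw [← yK_single, card_supp, Finset.card_singleton]
      · rw [fy, fa, supp_ya])
  have cm : ∀ p, ω p = p → ∀ w, p.1 (π w) = π (p.1 w) := by
    intro p e w
    have := hπ p
    rw [e, eq_mul_inv_iff_mul_eq] at this
    exact congrArg (fun σ : Perm _ => σ w) this
  obtain ⟨P, hP⟩ := cent M.hs b₂ (fun b => cm _ (fy b)) (fun b => cm _ (fa b)) (fun b => cm _ (fe b))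
  have key : ∀ p q : Alt (Pt {b // b ≠ M.b₁} s), q.1 = (yK s P).1 * π * p.1 * ((yK s P).1 * π)⁻¹ →
      M.e M.b₁ * M.yP (up M P) * M.κ p * (M.e M.b₁ * M.yP (up M P))⁻¹ = M.κ q := by
    intro p q e
    have e' : q = yK s P * ω p * (yK s P)⁻¹ := Subtype.ext (by
      rw [e]
      change _ = (yK s P).1 * (ω p).1 * (yK s P).1⁻¹
      rw [hπ]; group)
    rw [M.toJF.yP_comm _ (M.toJF.e_memJ _), e', map_mul, map_mul, map_inv, ← hω, κ_yK fun b => (h b).1]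
    group
  refine ⟨up M P, ?_⟩
  rcases hP with hP | hP
  · exact Or.inl fun p => key p p (by rw [hP]; group)
  · exact Or.inr fun p q e => key p q (by rw [hP, e])

theorem eK (h : M.Lab) {b : B} (hb : b ≠ M.b₁) (R : Finset B) :
    ∃ k, M.κ k * (M.e b * M.yP R) * (M.κ k)⁻¹ = M.yP (insert b R) := by
  have h1 : ∀ R : Finset B, M.b₁ ∉ R → ∃ k, M.κ k * (M.e b * M.yP R) * (M.κ k)⁻¹ = M.yP (insert b R) := by
    intro R hR
    obtain ⟨R, rfl⟩ := exists_up M hR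
    obtain ⟨k, hk⟩ := e0_conj (s := s) (⟨b, hb⟩ : {b // b ≠ M.b₁}) R
    refine ⟨k, ?_⟩
    have := congrArg M.κ hk
    rw [map_mul, map_mul, map_mul, map_inv, (h _).2.2, κ_yK fun b => (h b).1, κ_yK fun b => (h b).1] at this
    rw [this, up, Finset.map_insert]
    rfl
  by_cases hR : M.b₁ ∈ R
  · obtain ⟨k, hk⟩ := h1 (R.erase M.b₁) (Finset.notMem_erase _ _)
    refine ⟨k, ?_⟩
    have e1 : M.yP R = M.y M.b₁ * M.yP (R.erase M.b₁) := by
      rw [← M.toJF.yP_insert (Finset.notMem_erase _ _), Finset.insert_erase hR]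
    have e2 : M.yP (insert b R) = M.y M.b₁ * M.yP (insert b (R.erase M.b₁)) := by
      rw [← M.toJF.yP_insert (by simp [hb.symm]), Finset.insert_comm, Finset.insert_erase hR]
    rw [e1, e2, ← hk]
    calc _ = M.κ k * (M.e b * M.y M.b₁) * M.yP (R.erase M.b₁) * (M.κ k)⁻¹ := by group
      _ = (M.κ k * M.y M.b₁) * M.e b * M.yP (R.erase M.b₁) * (M.κ k)⁻¹ := by rw [← M.ye]; group
      _ = _ := by rw [← VK M (yV _ _)]; group
  · exact h1 R hR

theorem σ_yP (M : Mid G B s) (Q : Finset B) :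
    M.σ * M.yP (Q.map (swap M.b₁ M.b₂).toEmbedding) * M.σ⁻¹ = M.yP Q := by
  rw [M.toJF.yP_conj _ M.σy, Finset.map_map]
  congr 1
  ext x
  simp

theorem f1 (h : M.Lab) (Q : Finset B) : IsConj (M.σ * M.e M.b₂ * M.σ⁻¹ * M.yP Q) (M.yP (insert M.b₁ Q)) := by
  obtain ⟨k, hk⟩ := eK h M.ne (Q.map (swap M.b₁ M.b₂).toEmbedding)
  refine isConj_iff.2 ⟨M.σ * M.κ k * M.σ⁻¹, ?_⟩
  rw [← σ_yP M (insert M.b₁ Q), Finset.map_insert, ← σ_yP M Q]
  simp only [Equiv.coe_toEmbedding, swap_apply_left]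
  rw [← hk]
  group

theorem σe (M : Mid G B s) : ∃ P, M.e M.b₁ = M.σ * M.e M.b₂ * M.σ⁻¹ * M.yP P := by
  obtain ⟨π, hπ⟩ := M.toJF.norm_J M.σJ
  obtain ⟨h1, h2⟩ := hπ M.b₂
  have e : π M.b₂ = M.b₁ := by
    rw [M.σy, swap_apply_right] at h1
    exact (M.toJF.y_inj h1).symm
  rw [e] at h2
  rcases h2 with ⟨-, h2⟩ | ⟨h2, -⟩
  · obtain ⟨P, hP⟩ := M.toJF.mem_Z.1 h2
    refine ⟨P, ?_⟩
    have m : M.σ * M.e M.b₂ * M.σ⁻¹ ∈ M.J := (mem_normalizer_iff.1 M.σJ _).1 (M.toJF.e_memJ _)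
    rw [M.toJF.yP_comm P m, ← hP]
    calc _ = M.e M.b₁ * (M.σ * (M.e M.b₂ * M.e M.b₂) * M.σ⁻¹) := by rw [M.e2]; group
      _ = _ := by group
  · exfalso
    have m : M.σ * M.a M.b₂ * M.σ⁻¹ ∈ M.V M.b₁ := M.σ2 ▸ H8.conj_mem_cj M.σ (aV _ _)
    exact M.toJF.o_notMem (fun _ => true) M.b₁
      ((mul_mem_cancel_right (V_le_A _ _ m)).1 (M.toJF.Z_le_A _ h2))

theorem f2 (h : M.Lab) {e : G} {P : Finset B} (he : e = M.σ * M.e M.b₂ * M.σ⁻¹ * M.yP P)
    (hc : ∀ k : Alt (Pt {b // b ≠ M.b₁} s), k.1 = τ0 s * k.1 * (τ0 s)⁻¹ → e * M.κ k * e⁻¹ = M.κ k) (Q : Finset B) :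
    IsConj (e * M.yP Q) (M.yP (insert M.b₁ Q)) := by
  have hY : M.LabY := fun b => (h b).1
  have cj : ∀ (k : Alt (Pt {b // b ≠ M.b₁} s)) (x : G), k.1 = τ0 s * k.1 * (τ0 s)⁻¹ →
      IsConj (e * x) (e * (M.κ k * x * (M.κ k)⁻¹)) := fun k x hk => isConj_iff.2 ⟨M.κ k, by
    calc _ = (e * M.κ k * e⁻¹) * (e * x) * (M.κ k)⁻¹ := by rw [hc k hk]
      _ = _ := by group⟩
  have er : ∀ c ∈ P, IsConj (e * M.y c) (M.yP (insert M.b₁ (P.erase c))) := by
    intro c hc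
    have e1 : M.yP P * M.y c = M.yP (P.erase c) := by
      rw [← M.toJF.yP_single, M.toJF.yP_mul]
      congr 1
      ext x
      by_cases e : x = c <;> simp [Finset.mem_symmDiff, e, hc]
    rw [he, mul_assoc, e1]
    exact f1 h _
  have card_er : ∀ c ∈ P, c ≠ M.b₁ → (insert M.b₁ (P.erase c)).card + 1 = (insert M.b₁ P).card := by
    intro c hc hne
    rw [← Finset.erase_insert_of_ne hne.symm, Finset.card_erase_add_one (Finset.mem_insert_of_mem hc)]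
  have n2 : M.b₂ ∉ P := by
    intro h2
    obtain ⟨k, k1, k2⟩ := three (s := s) (⟨M.b₂, M.ne⟩ : {b // b ≠ M.b₁})
    have c1 := cj k (M.y M.b₂) k1
    rw [← hY ⟨_, M.ne⟩, ← map_inv, ← map_mul, ← map_mul, k2, (h _).2.1, hY] at c1
    have mu : M.σ⁻¹ * M.a M.b₂ * M.σ ∈ M.V M.b₁ := H8.mem_cj.1 (M.σ1 ▸ aV _ _)
    obtain ⟨k', hk'⟩ := eK h M.ne (P.map (swap M.b₁ M.b₂).toEmbedding)
    have m1 : M.b₁ ∈ insert M.b₂ (P.map (swap M.b₁ M.b₂).toEmbedding) :=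
      Finset.mem_insert_of_mem (Finset.mem_map.2 ⟨_, h2, by simp⟩)
    obtain ⟨R, hR⟩ := exists_up M (Finset.notMem_erase M.b₁ (insert M.b₂ (P.map (swap M.b₁ M.b₂).toEmbedding)))
    have e1 : M.yP (insert M.b₂ (P.map (swap M.b₁ M.b₂).toEmbedding)) = M.y M.b₁ * M.yP (up M R) := by
      rw [← hR, ← M.toJF.yP_insert (Finset.notMem_erase _ _), Finset.insert_erase m1]
    have v1 : M.y M.b₁ * (M.σ⁻¹ * M.a M.b₂ * M.σ) ≠ 1 := by
      intro e0
      have : M.a M.b₂ = M.y M.b₂ := by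
        have e2 := M.σy M.b₁
        rw [swap_apply_left] at e2
        rw [← e2, eq_inv_of_mul_eq_one_left e0]
        calc M.a M.b₂ = (M.a M.b₂)⁻¹ := eq_inv_of_mul_eq_one_left (M.a2 _)
          _ = _ := by group
      have h3 := M.ae M.b₂
      rw [this, M.ye, mul_assoc (M.e _), M.y2, mul_one, M.e2] at h3
      exact M.toJF.y_ne _ h3.symm
    have c2 := (M.w1 hY (yK_sq R) (notMem_up M R) (by rw [card_supp, card_up])).2 _ (mul_mem (yV _ _) mu) v1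
    have c3 : IsConj (e * M.a M.b₂) (M.y M.b₁ * (M.σ⁻¹ * M.a M.b₂ * M.σ) * M.κ (yK s R)) := by
      refine isConj_iff.2 ⟨M.κ k' * M.σ⁻¹, ?_⟩
      rw [mul_assoc (M.y _), VK M mu, ← mul_assoc (M.y _), κ_yK hY, ← e1, ← hk', he]
      calc _ = M.κ k' * (M.e M.b₂ * M.yP (P.map (swap M.b₁ M.b₂).toEmbedding)) *
            ((M.σ⁻¹ * M.a M.b₂ * M.σ) * (M.κ k')⁻¹) := by
            conv_lhs => rw [← σ_yP M P]
            group
        _ = _ := by rw [← map_inv, VK M mu, map_inv]; group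
    rw [← e1] at c2
    have := M.toJF.wt M.jg ((er _ h2).symm.trans (c1.trans (c3.trans c2)))
    have e3 : insert M.b₂ (P.map (swap M.b₁ M.b₂).toEmbedding) = (insert M.b₁ P).map (swap M.b₁ M.b₂).toEmbedding := by
      rw [Finset.map_insert]; simp
    rw [e3, Finset.card_map] at this
    have := card_er _ h2 M.ne
    omega
  have nc : ∀ c ∈ P, c = M.b₁ := by
    intro c hc'
    by_contra hne
    obtain ⟨k, k1, k2⟩ := swap_blk (s := s) (⟨c, hne⟩ : {b // b ≠ M.b₁}) ⟨M.b₂, M.ne⟩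
    have c1 := cj k (M.y c) k1
    rw [← hY ⟨_, hne⟩, ← map_inv, ← map_mul, ← map_mul, k2, hY, hY] at c1
    have c2 : IsConj (e * M.y M.b₂) (M.yP (insert M.b₁ (insert M.b₂ P))) := by
      rw [he, mul_assoc, ← M.toJF.yP_comm P (M.toJF.A_le_J (fun _ => true) (M.toJF.y_mem _ _)), ← M.toJF.yP_insert n2]
      exact f1 h _
    have := M.toJF.wt M.jg ((er _ hc').symm.trans (c1.trans c2))
    rw [Finset.insert_comm, Finset.card_insert_of_notMem (a := M.b₂) (by simp [n2, M.ne])] at this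
    have := card_er _ hc' hne
    omega
  have e4 : insert M.b₁ (symmDiff P Q) = insert M.b₁ Q := by
    ext x
    by_cases e : x = M.b₁
    · simp [e]
    · have : x ∉ P := fun hx => e (nc x hx)
      simp [Finset.mem_symmDiff, e, this]
  rw [he, mul_assoc, M.toJF.yP_mul, ← e4]
  exact f1 h _

end Out

open Out W

theorem Mid.out (M : Mid G B s) (h : M.Lab) : ∃ M' : Mid G B s, M'.Lab ∧ M'.Out := by
  obtain ⟨P, hP⟩ := act h
  obtain ⟨P1, hP1⟩ := σe M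
  have he : M.e M.b₁ * M.yP P = M.σ * M.e M.b₂ * M.σ⁻¹ * M.yP (symmDiff P1 P) := by
    rw [← M.toJF.yP_mul, ← mul_assoc, ← hP1]
  have F2 := f2 h he fun k hk => hP.elim (fun h => h k) fun h => h k k hk
  have y2 : M.yP P * M.yP P = 1 := M.toJF.A_sq (M.toJF.yP_mem (fun _ => true) P)
  rcases hP with hP | hP
  · exfalso
    rcases M.alt with ⟨-, h1⟩ | ⟨⟨ζ, hζ, h1⟩, -⟩
    · refine h1 _ (M.toJF.yP_memZ P) ?_
      rintro _ ⟨p, rfl⟩
      exact (Iso.comm_of_fix (hP p)).symm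
    · obtain ⟨R, rfl⟩ := M.toJF.mem_Z.1 hζ
      obtain ⟨k, hk⟩ := eK h M.ne (symmDiff P R)
      have c1 : IsConj (M.e M.b₁ * M.e M.b₂ * M.yP R) (M.e M.b₁ * M.yP P * M.yP (insert M.b₂ (symmDiff P R))) := by
        refine isConj_iff.2 ⟨M.κ k, ?_⟩
        rw [← hk, ← M.toJF.yP_mul, ← mul_assoc (M.e M.b₂), M.toJF.yP_comm P (M.toJF.e_memJ M.b₂)]
        calc _ = M.κ k * (M.e M.b₁ * (M.yP P * M.yP P) * M.e M.b₂ * M.yP R) * (M.κ k)⁻¹ := by rw [y2, mul_one]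
          _ = (M.κ k * (M.e M.b₁ * M.yP P)) * (M.yP P * M.e M.b₂ * M.yP R) * (M.κ k)⁻¹ := by group
          _ = _ := by rw [← Iso.comm_of_fix (hP k)]; group
      have c2 := (h1.trans c1).trans (F2 _)
      rw [← M.toJF.yP_single] at c2
      have := M.toJF.wt M.jg c2
      have h3 : ({M.b₁, M.b₂} : Finset B).card ≤ (insert M.b₁ (insert M.b₂ (symmDiff P R))).card :=
        Finset.card_le_card (by intro x; simp only [Finset.mem_insert, Finset.mem_singleton]; tauto)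
      rw [Finset.card_pair M.ne.symm, ← this, Finset.card_singleton] at h3
      omega
  · let ζ : B → G := fun b => if b = M.b₁ then M.yP P else 1
    have hζ : ∀ b, ζ b ∈ M.Z := fun b => by
      by_cases e : b = M.b₁
      · simp only [ζ, if_pos e]; exact M.toJF.yP_memZ P
      · simp only [ζ, if_neg e]; exact one_mem _
    have z1 : ζ M.b₁ = M.yP P := if_pos rfl
    have z2 : ∀ b, b ≠ M.b₁ → ζ b = 1 := fun b e => if_neg e
    refine ⟨{ M with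
      toJF := reE M.toJF ζ hζ
      σJ := by rw [reE_J]; exact M.σJ
      alt := ?_ }, fun b => ⟨(h b).1, (h b).2.1, ?_⟩, ?_, fun Q hQ => ?_⟩
    · rcases M.alt with ⟨h0, h1⟩ | ⟨⟨ξ, hξ, h1⟩, h2⟩
      · refine Or.inl ⟨h0, fun ξ hξ => ?_⟩
        change M.e M.b₁ * ζ M.b₁ * ξ ∉ _
        rw [mul_assoc]
        exact h1 _ (mul_mem (hζ _) hξ)
      · refine Or.inr ⟨⟨M.yP P * ξ, mul_mem (M.toJF.yP_memZ P) hξ, ?_⟩, h2⟩
        change IsConj (M.y M.b₁) (M.e M.b₁ * ζ M.b₁ * (M.e M.b₂ * ζ M.b₂) * (M.yP P * ξ))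
        rw [z1, z2 _ M.ne, mul_one, mul_assoc (M.e M.b₁), ← M.toJF.yP_comm P (M.toJF.e_memJ M.b₂)]
        have : M.e M.b₁ * (M.e M.b₂ * M.yP P) * (M.yP P * ξ) = M.e M.b₁ * M.e M.b₂ * ξ := by
          calc _ = M.e M.b₁ * M.e M.b₂ * (M.yP P * M.yP P) * ξ := by group
            _ = _ := by rw [y2, mul_one]
        rw [this]; exact h1
    · change M.κ (e0 s b) = M.e b * ζ b
      rw [z2 _ b.2, mul_one]; exact (h b).2.2
    · intro p q e
      change M.e M.b₁ * ζ M.b₁ * M.κ p * (M.e M.b₁ * ζ M.b₁)⁻¹ = M.κ q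
      rw [z1]; exact hP p q e
    · change IsConj (M.e M.b₁ * ζ M.b₁ * M.yP Q) (M.y M.b₁ * M.yP Q)
      rw [z1, ← M.toJF.yP_insert hQ]; exact F2 Q

end Cfsg.Agent.WA.Al
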