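import Cfsg.Agent.WA.AlEmb
import Cfsg.Agent.WA.AlCs
import Cfsg.Agent.WA.AlGen
import Cfsg.Agent.WA.AlJB

/-! S3218, module AlQuo: the centralizer of the image of `z` in `C(V)'/V`. -/

set_option autoImplicit false
set_option linter.unusedSimpArgs false
set_option linter.unusedSectionVars false

namespace Cfsg.Agent.WA.Al

open Subgroup Equiv Cs Emb

universe u

variable {G : Type u} [Group G] [Finite G] {B : Type} [Fintype B] [DecidableEq B] {s : ℕ}

namespace Quo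

theorem memV (F : JF G B) (b : B) {v : G} (hv : v ∈ F.V b) :
    v = 1 ∨ v = F.y b ∨ v = F.a b ∨ v = F.y b * F.a b := by
  have yy := F.y2 b
  have aa := F.a2 b
  have ya := F.ya b b
  have yy' : ∀ g, F.y b * (F.y b * g) = g := fun g => by rw [← mul_assoc, yy, one_mul]
  have ya' : ∀ g, F.a b * (F.y b * g) = F.y b * (F.a b * g) := fun g => by rw [← mul_assoc, ← ya, mul_assoc]
  induction hv using closure_induction with
  | mem x hx => rcases hx with rfl | rfl <;> simp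
  | one => simp
  | mul x y _ _ hx hy =>
    rcases hx with rfl | rfl | rfl | rfl <;> rcases hy with rfl | rfl | rfl | rfl <;>
      simp [mul_assoc, yy, aa, yy', ya', ← ya]
  | inv x _ hx =>
    have iy : (F.y b)⁻¹ = F.y b := inv_eq_of_mul_eq_one_right yy
    have ia : (F.a b)⁻¹ = F.a b := inv_eq_of_mul_eq_one_right aa
    rcases hx with rfl | rfl | rfl | rfl <;> simp [iy, ia, ← ya]

theorem V_le (F : JF G B) (b : B) : F.V b ≤ centralizer (F.V b : Set G) := by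
  intro v hv
  rw [Gen.mem_cV]
  rcases memV F b hv with rfl | rfl | rfl | rfl
  · simp
  · exact ⟨rfl, F.ya b b⟩
  · exact ⟨(F.ya b b).symm, rfl⟩
  · exact ⟨by rw [mul_assoc, F.ya b b], by rw [← mul_assoc, ← F.ya b b]⟩

theorem Y_le (F : JF G B) (b : B) : F.V b ⊔ Od (centralizer (F.V b : Set G)) ≤ centralizer (F.V b : Set G) :=
  sup_le (V_le F b) ((closure_le _).mpr fun _ hx => hx.1)

/-- no fusion of `z` with `z v` in `C(V)` -/
theorem fus (S : CS G B s) {b₁ b₂ : B} (T : Two S b₁ b₂ 1) {g v : G} (hg : g ∈ centralizer (S.V b₁ : Set G))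
    (hv : v ∈ S.V b₁) (h : g * S.z * g⁻¹ = S.z * v) : v = 1 := by
  obtain ⟨gy, -⟩ := (Gen.mem_cV S.toJF b₁).mp hg
  obtain ⟨t, ht, tc⟩ := T.r1
  rw [mul_one] at ht
  have ez : S.z = S.y b₁ * S.yP (S.K.erase b₁) := by
    rw [S.hz, ← JF.yP_insert _ (Finset.notMem_erase b₁ S.K), Finset.insert_erase T.m1]
  have nc : ¬ IsConj S.z (S.yP (S.K.erase b₁)) := fun hc => by
    rw [S.hz] at hc
    have h1 := JF.wt _ S.jg hc
    have h2 := Finset.card_erase_add_one T.m1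
    omega
  generalize hz' : S.yP (S.K.erase b₁) = z' at ez nc
  have tz : t * z' = z' * t := by
    rw [← hz']
    exact (Finset.noncommProd_commute _ _ _ t fun b hb => tc b (Finset.ne_of_mem_erase hb) :)
  have yz : S.y b₁ * z' = z' * S.y b₁ := by
    rw [← hz']
    exact (Finset.noncommProd_commute _ _ _ _ fun b _ => S.yy b₁ b :)
  have az : S.a b₁ * z' = z' * S.a b₁ := by
    rw [← hz']
    exact (Finset.noncommProd_commute _ _ _ _ fun b _ => (S.ya b b₁).symm :)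
  have c1 : t * S.z * t⁻¹ = z' * S.a b₁ := by
    rw [ez, ← ht.h1, yz, ← mul_assoc t, tz]; simp only [mul_assoc]
  have c2 : t * (z' * S.a b₁) * t⁻¹ = z' * (S.y b₁ * S.a b₁) := by
    rw [← ht.h2, ← mul_assoc t, tz]; simp only [mul_assoc]
  have h' : g * z' * g⁻¹ = z' * v := by
    rw [ez, ← mul_assoc g, gy, mul_assoc (S.y b₁), mul_assoc (S.y b₁), mul_assoc (S.y b₁)] at h
    exact mul_left_cancel h
  rcases memV S.toJF b₁ hv with rfl | rfl | rfl | rfl
  · rfl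
  · refine (nc (isConj_iff.mpr ⟨g, ?_⟩)).elim
    rw [h, ez, yz, mul_assoc, S.y2, mul_one]
  · exact (nc ((isConj_iff.mpr ⟨t, c1⟩).trans (isConj_iff.mpr ⟨g, h'⟩).symm)).elim
  · exact (nc (((isConj_iff.mpr ⟨t, c1⟩).trans (isConj_iff.mpr ⟨t, c2⟩)).trans (isConj_iff.mpr ⟨g, h'⟩).symm)).elim

variable (C : Chart G B s)

theorem cm_ext {b₁ : B} (hb : b₁ ∈ C.K) {q : Alt (Pt {b // b ≠ b₁} s)} :
    Cm C (ext s b₁ q) ↔ q * yK s (C.K.subtype (· ≠ b₁)) = yK s (C.K.subtype (· ≠ b₁)) * q := by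
  have e : yK s C.K = y0 s b₁ * ext s b₁ (yK s (C.K.subtype (· ≠ b₁))) := by
    rw [ext_yK, ← Ch.yK_insert (Finset.notMem_erase _ _), Finset.insert_erase hb]
  unfold Cm
  rw [e, ← mul_assoc, ext_comm_y, mul_assoc, mul_assoc, mul_right_inj, ← map_mul, ← map_mul, (ext_inj b₁).eq_iff]

theorem pullV {S : CS G B s} (h : Fits C S) {b : B} {v : G} (hv : v ∈ S.V b) :
    ∃ p ∈ closure ({y0 s b, a0 s b} : Set (Alt (Pt B s))), Cm C p ∧ C.f p = v := by
  refine pull C _ ?_ hv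
  rintro _ (rfl | rfl)
  · exact ⟨_, subset_closure (Or.inl rfl), Gen.y0_comm _ b, (h.y b).symm⟩
  · exact ⟨_, subset_closure (Or.inr rfl), Gen.a0_comm _ b, (h.a b).symm⟩

theorem pushV {S : CS G B s} (h : Fits C S) {b : B} {p : Alt (Pt B s)}
    (hp : p ∈ closure ({y0 s b, a0 s b} : Set (Alt (Pt B s)))) : Cm C p ∧ C.f p ∈ S.V b := by
  induction hp using closure_induction with
  | mem x hx =>
    rcases hx with rfl | rfl
    · exact ⟨Gen.y0_comm _ b, h.y b ▸ subset_closure (Or.inl rfl)⟩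
    · exact ⟨Gen.a0_comm _ b, h.a b ▸ subset_closure (Or.inr rfl)⟩
  | one => exact ⟨cm_one C, by rw [f_one]; exact one_mem _⟩
  | mul x y _ _ hx hy => exact ⟨hx.1.mul hy.1, by rw [C.mul _ _ hx.1 hy.1]; exact mul_mem hx.2 hy.2⟩
  | inv x _ hx => exact ⟨hx.1.inv, by rw [f_inv C hx.1]; exact inv_mem hx.2⟩

theorem ext_cV {S : CS G B s} (h : Fits C S) {b₁ : B} {q : Alt (Pt {b // b ≠ b₁} s)} (hq : Cm C (ext s b₁ q)) :
    C.f (ext s b₁ q) ∈ centralizer (S.V b₁ : Set G) := by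
  rw [Gen.mem_cV, h.y, h.a]
  exact ⟨f_comm C hq (Gen.y0_comm _ _) (ext_comm_y b₁ q), f_comm C hq (Gen.a0_comm _ _) (ext_comm_a b₁ q)⟩

theorem ext_V {S : CS G B s} (h : Fits C S) {b₁ : B} {q : Alt (Pt {b // b ≠ b₁} s)} (hq : Cm C (ext s b₁ q))
    (hv : C.f (ext s b₁ q) ∈ S.V b₁) : q = 1 := by
  obtain ⟨r, hr, cr, e⟩ := pullV C h hv
  rw [f_inj C cr hq e] at hr
  exact ext_V0 hr

/-- `C(z) ∩ C(V) = V f(ext _)` -/
theorem split {S : CS G B s} (h : Fits C S) {b₁ : B} {g : G} (hz : g * C.z = C.z * g)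
    (hg : g ∈ centralizer (S.V b₁ : Set G)) :
    ∃ v ∈ S.V b₁, ∃ q, Cm C (ext s b₁ q) ∧ g = v * C.f (ext s b₁ q) := by
  obtain ⟨r, cr, rfl⟩ := (C.cen g).mp hz
  obtain ⟨gy, ga⟩ := (Gen.mem_cV S.toJF b₁).mp hg
  rw [h.y] at gy
  rw [h.a] at ga
  obtain ⟨v, hv, q, e⟩ := cen_V0 ((Gen.f_comm C cr (Gen.y0_comm _ _)).mp gy) ((Gen.f_comm C cr (Gen.a0_comm _ _)).mp ga)
  obtain ⟨cv, mv⟩ := pushV C h hv
  have cq : Cm C (ext s b₁ q) := by
    have : ext s b₁ q = v⁻¹ * r := by rw [e, inv_mul_cancel_left]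
    rw [this]; exact cv.inv.mul cr
  exact ⟨_, mv, q, cq, by rw [e, C.mul _ _ cv cq]⟩

end Quo

open Quo

theorem Chart.quo (C : Chart G B s) {S : CS G B s} (h : Fits C S) {b₁ b₂ : B} (T : Two S b₁ b₂ 1)
    (hg : centralizer ({S.z} : Set G) ⊓ centralizer (S.V b₁ : Set G) ≤ S.V b₁ ⊔ Od (centralizer (S.V b₁ : Set G)))
    {X : Type u} [Group X] [Finite X] (p : ↥(S.V b₁ ⊔ Od (centralizer (S.V b₁ : Set G))) →* X)
    (hp : Function.Surjective p) (hk : ∀ x, p x = 1 ↔ x.1 ∈ S.V b₁) :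
    (∀ H : Subgroup X, H.index ≠ 2) ∧ ∃ hz : S.z ∈ S.V b₁ ⊔ Od (centralizer (S.V b₁ : Set G)),
      orderOf (p ⟨S.z, hz⟩) = 2 ∧ ∃ zt : Alt (Pt {b // b ≠ b₁} s), orderOf zt = 2 ∧
        Nonempty (centralizer ({p ⟨S.z, hz⟩} : Set X) ≃* centralizer ({zt} : Set (Alt (Pt {b // b ≠ b₁} s)))) := by
  haveI : Fact (Nat.Prime 2) := ⟨Nat.prime_two⟩
  have m1 : b₁ ∈ C.K := h.K ▸ T.m1
  have m2 : b₂ ∈ C.K := h.K ▸ T.m2
  constructor
  · intro H hH
    have : S.V b₁ ⊔ Od (centralizer (S.V b₁ : Set G)) ≤ (H.comap p).map (Subgroup.subtype _) := by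
      refine sup_le (fun v hv => ⟨⟨v, mem_sup_left hv⟩, ?_, rfl⟩) ((closure_le _).mpr fun x hx =>
        ⟨⟨x, mem_sup_right (subset_closure hx)⟩, ?_, rfl⟩)
      · show p _ ∈ H
        rw [(hk _).mpr hv]; exact H.one_mem
      · show p _ ∈ H
        obtain ⟨m, hm⟩ := exists_pow_eq_self_of_coprime (Nat.coprime_two_left.mpr hx.2)
        have e : (⟨x, mem_sup_right (subset_closure hx)⟩ : ↥(S.V b₁ ⊔ Od (centralizer (S.V b₁ : Set G)))) =
            (⟨x, mem_sup_right (subset_closure hx)⟩ ^ 2) ^ m := Subtype.ext hm.symm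
        rw [e, map_pow, map_pow]
        exact H.pow_mem (sq_mem_of_index_two hH _) m
    have h2 : H = ⊤ := by
      rw [eq_top_iff]
      intro x _
      obtain ⟨y, rfl⟩ := hp x
      obtain ⟨y', hy', e⟩ := this y.2
      rw [← Subtype.ext e]; exact hy'
    rw [h2, index_top] at hH
    omega
  set zt : Alt (Pt {b // b ≠ b₁} s) := yK s (C.K.subtype (· ≠ b₁)) with hzt
  have zt1 : zt ≠ 1 := fun e => by
    have h1 := Ch.yK_eq_one e
    have : (⟨b₂, T.ne.symm⟩ : {b // b ≠ b₁}) ∈ C.K.subtype (· ≠ b₁) := Finset.mem_subtype.mpr m2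
    rw [h1] at this
    exact Finset.notMem_empty _ this
  have mem : ∀ q : centralizer ({zt} : Set (Alt (Pt {b // b ≠ b₁} s))), Cm C (ext s b₁ q.1) := fun q =>
    (cm_ext C m1).mpr (mem_centralizer_singleton_iff.mp q.2)
  have memY : ∀ q, Cm C (ext s b₁ q) → C.f (ext s b₁ q) ∈ S.V b₁ ⊔ Od (centralizer (S.V b₁ : Set G)) := fun q hq =>
    hg ⟨mem_centralizer_singleton_iff.mpr (h.z ▸ f_z C hq), ext_cV C h hq⟩
  have czt : Cm C (ext s b₁ zt) := (cm_ext C m1).mpr rfl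
  have ez : S.z = S.y b₁ * C.f (ext s b₁ zt) := by
    rw [h.z, h.y, ← C.mul _ _ (Gen.y0_comm _ _) czt, hzt, ext_yK, ← Ch.yK_insert (Finset.notMem_erase _ _),
      Finset.insert_erase m1, C.fz]
  have yV : S.y b₁ ∈ S.V b₁ := subset_closure (Or.inl rfl)
  have hz : S.z ∈ S.V b₁ ⊔ Od (centralizer (S.V b₁ : Set G)) := ez ▸ mul_mem (mem_sup_left yV) (memY _ czt)
  have z2 : S.z * S.z = 1 := by rw [h.z, ← C.fz, ← C.mul _ _ rfl rfl, Ch.yK_sq, f_one]
  refine ⟨hz, orderOf_eq_prime ?_ fun e => zt1 (ext_V C h czt ?_), zt,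
    orderOf_eq_prime (by rw [pow_two, hzt, Ch.yK_sq]) zt1, ?_⟩
  · rw [← map_pow, pow_two]
    exact (congrArg p (Subtype.ext z2)).trans p.map_one
  · have := (hk _).mp e
    simp only [ez] at this
    exact (mul_mem_cancel_left yV).mp this
  let θ : centralizer ({zt} : Set (Alt (Pt {b // b ≠ b₁} s))) →* centralizer ({p ⟨S.z, hz⟩} : Set X) :=
    { toFun := fun q => ⟨p ⟨C.f (ext s b₁ q.1), memY _ (mem q)⟩, mem_centralizer_singleton_iff.mpr (by
        rw [← map_mul, ← map_mul]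
        exact congrArg p (Subtype.ext (by
          show C.f _ * S.z = S.z * C.f _
          rw [h.z]; exact f_z C (mem q))))⟩
      map_one' := Subtype.ext ((congrArg p (Subtype.ext (by
        show C.f (ext s b₁ 1) = 1
        rw [map_one, f_one]))).trans p.map_one)
      map_mul' := fun q r => Subtype.ext (by
        show p _ = p _ * p _
        rw [← map_mul]
        exact congrArg p (Subtype.ext (by
          show C.f (ext s b₁ (q.1 * r.1)) = C.f _ * C.f _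
          rw [map_mul, C.mul _ _ (mem q) (mem r)]))) }
  refine ⟨(MulEquiv.ofBijective θ ⟨(injective_iff_map_eq_one θ).mpr fun q hq => ?_, fun x => ?_⟩).symm⟩
  · exact Subtype.ext (ext_V C h (mem q) ((hk _).mp (congrArg Subtype.val hq)))
  · obtain ⟨g, eg⟩ := hp x.1
    have gV := Y_le S.toJF b₁ g.2
    have hx := mem_centralizer_singleton_iff.mp x.2
    have hv : S.z⁻¹ * (g.1 * S.z * g.1⁻¹) ∈ S.V b₁ := by
      refine (hk ((⟨S.z, hz⟩ : ↥(S.V b₁ ⊔ Od (centralizer (S.V b₁ : Set G))))⁻¹ * (g * ⟨S.z, hz⟩ * g⁻¹))).mp ?_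
      rw [map_mul, map_mul, map_mul, map_inv, map_inv, eg, hx, mul_inv_cancel_right, inv_mul_cancel]
    have h1 := fus S T gV hv (mul_inv_cancel_left _ _).symm
    have gz : g.1 * C.z = C.z * g.1 := by
      rw [← h.z, ← mul_inv_eq_iff_eq_mul]; exact (inv_mul_eq_one.mp h1).symm
    obtain ⟨v, mv, q, cq, e⟩ := split C h gz gV
    refine ⟨⟨q, mem_centralizer_singleton_iff.mpr ((cm_ext C m1).mp cq)⟩, Subtype.ext ?_⟩
    show p _ = x.1
    have : g = ⟨v, mem_sup_left mv⟩ * ⟨C.f (ext s b₁ q), memY _ cq⟩ := Subtype.ext e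
    rw [← eg, this, map_mul, (hk ⟨v, mem_sup_left mv⟩).mpr mv, one_mul]

theorem Chart.not_seven (C : Chart G B 0) (hB : Fintype.card B = 2) (hK : C.K = Finset.univ) :
    ¬ 7 ∣ Nat.card (centralizer ({C.z} : Set G)) := by
  intro h7
  haveI : Fact (Nat.Prime 7) := ⟨by decide⟩
  obtain ⟨x, hx⟩ := exists_prime_orderOf_dvd_card' 7 h7
  obtain ⟨r, cr, e⟩ := (C.cen x.1).mp (mem_centralizer_singleton_iff.mp x.2)
  have o7 : orderOf r.1 = 7 := by rw [Subgroup.orderOf_coe, ← f_ord C cr, e, Subgroup.orderOf_coe, hx]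
  have cP : Fintype.card (Pt B 0) = 10 := by
    simp only [Fintype.card_sum, Fintype.card_prod, Fintype.card_fin, hB]
  have cyc : r.1.IsCycle := Perm.isCycle_of_prime_order' (by rw [o7]; decide) (by rw [o7, cP]; decide)
  have s7 : r.1.support.card = 7 := by rw [← cyc.orderOf, o7]
  have s8 : (yK 0 C.K).1.support.card = 8 := by rw [card_supp, hK, Finset.card_univ, hB]
  have dis : Disjoint r.1.support (yK 0 C.K).1.support := by
    rw [Finset.disjoint_left]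
    intro a ha ha'
    rw [Perm.mem_support] at ha ha'
    have h1 : r.1 ((yK 0 C.K).1 a) ≠ (yK 0 C.K).1 a := by
      rw [cm_ap cr]; exact fun h => ha ((yK 0 C.K).1.injective h)
    obtain ⟨k, hk⟩ := cyc.exists_pow_eq ha h1
    have ck : Cm C (r ^ k) := (Commute.pow_left cr k :)
    have h2 : (r.1 ^ (2 * k)) a = a := by
      rw [two_mul, pow_add, Perm.mul_apply, hk]
      have := cm_ap ck a
      rw [SubmonoidClass.coe_pow] at this
      rw [this, hk, yK_yK]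
    have h3 := orderOf_dvd_of_pow_eq_one ((cyc.pow_eq_one_iff' ha).mpr h2)
    rw [o7] at h3
    have h4 : orderOf r.1 ∣ k := by rw [o7]; omega
    rw [orderOf_dvd_iff_pow_eq_one.mp h4] at hk
    exact ha' hk.symm
  have := Finset.card_le_univ (r.1.support ∪ (yK 0 C.K).1.support)
  rw [Finset.card_union_of_disjoint dis] at this
  omega

end Cfsg.Agent.WA.Al
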