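import Cfsg.Agent.WA.AlSur

/-! A variant of `sur`: the centralizers of the involutions with large support are known. -/

set_option autoImplicit false

namespace Cfsg.Agent.WA.Al

open Subgroup Equiv

universe u

namespace Sur

variable {α : Type} [Fintype α] [DecidableEq α]

theorem exists_out (h12 : 12 ≤ Fintype.card α) {s : Alt α} (hs : w s = 4) : ∃ u h : Alt α, u * u = 1 ∧ h * h = 1 ∧
    w u = 4 ∧ w h = 8 ∧ Perm.Disjoint u.1 s.1 ∧ Perm.Disjoint h.1 s.1 := by
  obtain ⟨f0⟩ : Nonempty (Fin 8 ↪ {x // x ∈ s.1.supportᶜ}) := Function.Embedding.nonempty_of_card_le (by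
    rw [Fintype.card_coe, Finset.card_compl, Fintype.card_fin]; unfold w at hs; omega)
  let f : Fin 8 ↪ α := f0.trans (Function.Embedding.subtype _)
  have hf : ∀ i, s.1 (f i) = f i := fun i => by
    have := (f0 i).2
    rwa [Finset.mem_compl, Perm.notMem_support] at this
  have i := f.injective
  have n1 : [f 0, f 1, f 2, f 3].Nodup := by simp [i.eq_iff]
  have n2 : [f 4, f 5, f 6, f 7].Nodup := by simp [i.eq_iff]
  have hd : Perm.Disjoint (dt _ _ _ _ n1).1 (dt _ _ _ _ n2).1 := by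
    refine Perm.Disjoint.mul_left (Perm.Disjoint.mul_right ?_ ?_) (Perm.Disjoint.mul_right ?_ ?_) <;>
      refine Perm.disjoint_swap_swap ?_ <;> simp [i.eq_iff]
  have sw : ∀ a b, Perm.Disjoint (swap (f a) (f b)) s.1 := fun a b x => by
    by_cases h1 : x = f a
    · exact Or.inr (h1 ▸ hf a)
    by_cases h2 : x = f b
    · exact Or.inr (h2 ▸ hf b)
    exact Or.inl (swap_apply_of_ne_of_ne h1 h2)
  have d1 : Perm.Disjoint (dt _ _ _ _ n1).1 s.1 := (sw _ _).mul_left (sw _ _)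
  have d2 : Perm.Disjoint (dt _ _ _ _ n2).1 s.1 := (sw _ _).mul_left (sw _ _)
  refine ⟨dt _ _ _ _ n1, dt _ _ _ _ n1 * dt _ _ _ _ n2, dt_sq _ _ _ _ _, ?_, w_dt _ _ _ _ _, by rw [w_disj hd, w_dt, w_dt],
    d1, d1.mul_left d2⟩
  exact sq_mul (dt_sq _ _ _ _ _) (dt_sq _ _ _ _ _) (Subtype.ext hd.commute.eq)

variable {G : Type u} [Group G] [Finite G] {Φ : Alt α →* G}

theorem step4 (h12 : 12 ≤ Fintype.card α) (hΦ : Function.Injective Φ)
    (h8 : ∀ v : Alt α, v * v = 1 → 8 ≤ w v → Good Φ v)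
    (h3 : ∀ p q : Alt α, p * p = 1 → q * q = 1 → IsConj (Φ p) (Φ q) → w p = w q) {s : Alt α} (hs : s * s = 1)
    (w4 : w s = 4) : Good Φ s := by
  intro g mg
  by_contra ng
  obtain ⟨u, h, u2, h2, wu, wh, du, dh⟩ := exists_out h12 w4
  have cu : u * s = s * u := Subtype.ext du.commute.eq
  have ch : h * s = s * h := Subtype.ext dh.commute.eq
  have d2 : u * s * (u * s) = 1 := sq_mul u2 hs cu
  have cd : u * s * s = s * (u * s) := by rw [← mul_assoc, ← cu]
  have wd : w (u * s) = 8 := by rw [w_disj du]; omega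
  have wds : w (u * s * s) = 4 := by rw [mul_assoc, hs, mul_one, wu]
  have whs : w (h * s) = 12 := by rw [w_disj dh]; omega
  have cs : ∀ {p q : Alt α} {k : G}, k ∈ centralizer ({Φ s} : Set G) → p * p = 1 → p * s = s * p → k * Φ p * k⁻¹ = Φ q →
      w p = w q ∧ w (p * s) = w (q * s) := by
    intro p q k mk p2 cp e
    rw [mem_centralizer_singleton_iff] at mk
    have q2 : q * q = 1 := hΦ (by rw [map_mul, ← e, conj_mul, ← map_mul, p2]; simp)
    have es : k * Φ s * k⁻¹ = Φ s := by rw [mk]; group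
    have cq : q * s = s * q := hΦ (by
      rw [map_mul, map_mul, ← e, ← es, conj_mul, conj_mul, ← map_mul, ← map_mul, cp])
    exact ⟨h3 p q p2 q2 (isConj_iff.2 ⟨k, e⟩), h3 _ _ (sq_mul p2 hs cp) (sq_mul q2 hs cq)
      (isConj_iff.2 ⟨k, by rw [map_mul, map_mul, ← conj_mul, e, es]⟩)⟩
  have ms : ∀ {p : Alt α}, p * s = s * p → Φ p ∈ centralizer ({Φ s} : Set G) := fun c =>
    mem_centralizer_singleton_iff.2 (by rw [← map_mul, c, map_mul])
  obtain ⟨z, z', z1, z2, z2', mz, e, cz, cz', -, k2⟩ := main hΦ (centralizer {Φ s}) mg d2 h2 (h8 _ d2 wd.ge) (h8 h h2 wh.ge)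
    (ms cd) (ms ch) (fun k mk e => by have := (cs mk d2 cd e).2; omega)
  have gs : g * Φ s * g⁻¹ = Φ s := by rw [mem_centralizer_singleton_iff.1 mg]; group
  have e' : g * Φ (z' * s) * g⁻¹ = Φ (z * s) := by rw [map_mul, map_mul, ← conj_mul, e, gs]
  have zs : z' * s = s * z' := hΦ (by
    have := mem_centralizer_singleton_iff.1 mz
    rw [← e, ← gs, conj_mul, conj_mul, mul_left_inj, mul_right_inj] at this
    rw [map_mul, map_mul, this])
  have zs2 := sq_mul z2' hs zs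
  have b1 : w z' < 8 := not_le.1 fun h => ng (pt hΦ h3 z2' (h8 _ z2' h) e)
  have b2 : w (z' * s) < 8 := not_le.1 fun h => ng (pt hΦ h3 zs2 (h8 _ zs2 h) e')
  have b3 : w z' ≠ 0 := fun h => z1 (hΦ (by rw [← e, w_zero h]; simp))
  have b4 := four_dvd z2'
  rcases k2 with ⟨k, mk, e⟩ | ⟨k, mk, e⟩
  · obtain ⟨a1, a2⟩ := cs mk d2 cd e
    have D1 : Perm.Disjoint (h * z' * s).1 s.1 := disj_of (by rw [mul_assoc, hs, mul_one]; omega)
    have D2 : Perm.Disjoint (h * (h * z' * s)).1 s.1 := dh.mul_left D1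
    rw [← mul_assoc, ← mul_assoc, h2, one_mul] at D2
    have := w_disj D2
    rw [mul_assoc, hs, mul_one] at this
    rw [mul_assoc h, w_zero (p := z' * s) (by omega), mul_one] at a2
    omega
  · obtain ⟨a1, a2⟩ := cs mk h2 ch e
    have D1 : Perm.Disjoint (h * z').1 s.1 := disj_of (by omega)
    have D2 : Perm.Disjoint (h * (h * z')).1 s.1 := dh.mul_left D1
    rw [← mul_assoc, h2, one_mul] at D2
    have := w_disj D2
    omega

end Sur

variable {G : Type u} [Group G] [Finite G]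

theorem sur2 {α : Type} [Fintype α] [DecidableEq α] (h12 : 12 ≤ Fintype.card α) (Φ : Alt α →* G) (hΦ : Function.Injective Φ)
    (h8 : ∀ v : Alt α, v * v = 1 → 8 ≤ v.1.support.card → centralizer ({Φ v} : Set G) ≤ Φ.range)
    (h3 : ∀ p q : Alt α, p * p = 1 → q * q = 1 → IsConj (Φ p) (Φ q) → p.1.support.card = q.1.support.card) :
    Function.Surjective Φ :=
  sur (by omega) Φ hΦ (fun _ v2 h4 => Sur.step4 h12 hΦ h8 h3 v2 h4) h3

end Cfsg.Agent.WA.Al
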