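import Cfsg.Agent.WA.AlTv

/-! Module AlTr of S3218: transport of a transvection to a neighbouring `A`. -/

set_option autoImplicit false
set_option linter.unusedSectionVars false

namespace Cfsg.Agent.WA.Al

open Subgroup Equiv H8 TvH

universe u

variable {G : Type u} [Group G] [Finite G] {B : Type} [Fintype B] [DecidableEq B] {s : ℕ}

namespace TrH

variable (F : JF G B) {I I' : B → Bool} {j : B}

theorem o_eq (hj : I j ≠ I' j) : F.o I j = F.h I' j := by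
  unfold JF.o JF.h
  cases h : I j <;> cases h' : I' j <;> simp_all

theorem h_eq {b : B} (h : I b = I' b) : F.h I b = F.h I' b := by unfold JF.h; rw [h]
theorem o_eq' {b : B} (h : I b = I' b) : F.o I b = F.o I' b := by unfold JF.o; rw [h]

theorem mem_iff (hI : ∀ b, b ≠ j → I b = I' b) (hj : I j ≠ I' j) {x : G} (hx : x ∈ F.A I) :
    x ∈ F.A I' ↔ F.o I j * x * (F.o I j)⁻¹ = x := by
  refine ⟨fun h => ?_, fun h => ?_⟩
  · rw [o_eq F hj, comm (fun x hx => F.A_sq hx) (h_A F I' j) h, mul_inv_cancel_right]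
  · obtain ⟨P, Q, rfl⟩ := F.mem_A.1 hx
    rw [F.o_act, mul_eq_left] at h
    have hQ : j ∉ Q := fun e => y_ne F j (by simpa [e] using h)
    refine mul_mem (F.Z_le_A I' (F.mem_Z.2 ⟨P, rfl⟩)) (Subgroup.noncommProd_mem _ _ fun b hb => ?_)
    rw [h_eq F (hI b (fun e => hQ (e ▸ hb)))]
    exact h_A F I' b

theorem split (hI : ∀ b, b ≠ j → I b = I' b) (hj : I j ≠ I' j) {x w : G} (hx : x ∈ F.A I) (hw : w ∈ F.A I)
    (hx' : x ∉ F.A I') (hw' : w ∉ F.A I') : x * w ∈ F.A I' := by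
  rw [mem_iff F hI hj (mul_mem hx hw), (F.tv_o I j).mul_fix (fun x hx => F.A_sq hx) hx hw, ← mem_iff F hI hj hx,
    ← mem_iff F hI hj hw]
  exact iff_of_false hx' hw'

theorem h_not (hj : I j ≠ I' j) : F.h I j ∉ F.A I' := o_eq F hj.symm ▸ F.o_notMem I' j

theorem mem_Z {x : G} (hx : x ∈ F.A I) (h : ∀ b, F.o I b * x * (F.o I b)⁻¹ = x) : x ∈ F.Z := by
  obtain ⟨P, Q, rfl⟩ := F.mem_A.1 hx
  have : Q = ∅ := Finset.eq_empty_of_forall_notMem fun b e => by
    have := h b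
    rw [F.o_act, mul_eq_left] at this
    exact y_ne F b (by simpa [e] using this)
  subst this
  rw [show F.hP I ∅ = 1 from Finset.noncommProd_empty _ _, mul_one]
  exact F.mem_Z.2 ⟨P, rfl⟩

/-- if `g` fixes a point outside the hyperplane, its action is read off from the hyperplane -/
theorem act_of (hI : ∀ b, b ≠ j → I b = I' b) (hj : I j ≠ I' j) {g w c c' : G} (hw : w ∈ F.A I) (hw' : w ∉ F.A I')
    (e : g * w * g⁻¹ = w * c') {x : G} (hx : x ∈ F.A I) (hx' : x ∉ F.A I') (h : g * (x * w) * g⁻¹ = x * w * c) :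
    g * x * g⁻¹ = x * w * c * (w * c') := by
  rw [← h, ← e, ← cj_mul', mul_assoc x, F.A_sq hw, mul_one]

theorem axis (hJ : F.JG) (hI : ∀ b, b ≠ j → I b = I' b) (hj : I j ≠ I' j) {d : G} (hd : d ∈ normalizer (F.A I : Set G))
    (h : ∀ x ∈ F.A I, x ∈ F.A I' → d * x * d⁻¹ = x) :
    (∀ x ∈ F.A I, d * x * d⁻¹ = x) ∨ ∀ x ∈ F.A I, d * x * d⁻¹ = F.o I j * x * (F.o I j)⁻¹ := by
  have hA : ∀ x ∈ F.A I, x * x = 1 := fun x hx => F.A_sq hx
  have hw := h_A F I j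
  have hw' := h_not F hj
  generalize F.h I j = w at hw hw'
  obtain ⟨c, e⟩ : ∃ c, d * w * d⁻¹ = w * c := ⟨w⁻¹ * (d * w * d⁻¹), by group⟩
  have k : ∀ x ∈ F.A I, x ∉ F.A I' → d * x * d⁻¹ = x * c := fun x hx hx' => by
    rw [act_of F hI hj (c := 1) hw hw' e hx hx' (by rw [mul_one]; exact h _ (mul_mem hx hw) (split F hI hj hx hw hx' hw')),
      mul_one, mul_assoc, ← mul_assoc w, hA w hw, one_mul]
  by_cases hc : c = 1
  · refine Or.inl fun x hx => ?_
    by_cases hx' : x ∈ F.A I'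
    · exact h x hx hx'
    · rw [k x hx hx', hc, mul_one]
  have T : Tv (F.A I) d c := ⟨hd, hc, ⟨w, hw, by rw [e]; simpa using hc⟩, fun x hx => by
    by_cases hx' : x ∈ F.A I'
    exacts [Or.inl (h x hx hx'), Or.inr (k x hx hx')]⟩
  obtain ⟨b, rfl⟩ := F.tv_Z hJ T (mem_Z F T.mem fun b => F.tv_symm hJ T (F.tv_o I b) (h _ (y_A F I b) (y_A F I' b)))
  have h1 := F.tv_same hJ T (F.tv_o I b)
  by_cases hb : b = j
  · exact Or.inr (hb ▸ h1)
  · have := h1 _ (h_A F I b)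
    rw [h _ (h_A F I b) (h_eq F (hI b hb) ▸ h_A F I' b), o_h, if_pos rfl, left_eq_mul] at this
    exact absurd this (y_ne F b)

/-- Frattini step -/
theorem both (hJ : F.JG) (hI : ∀ b, b ≠ j → I b = I' b) (hj : I j ≠ I' j) {g : G} (hg : g ∈ normalizer (F.A I : Set G))
    (h : ∀ x ∈ F.A I, x ∈ F.A I' → g * x * g⁻¹ ∈ F.A I') :
    ∃ g' ∈ normalizer (F.A I' : Set G), g' ∈ normalizer (F.A I : Set G) ∧ ∀ x ∈ F.A I, g' * x * g'⁻¹ = g * x * g⁻¹ := by
  set A := F.A I with hA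
  set A' := F.A I' with hA'
  have nB : ∀ k ∈ normalizer (A : Set G), (∀ x ∈ A, x ∈ A' → k * x * k⁻¹ ∈ A') →
      k ∈ normalizer ((A ⊓ A' : Subgroup G) : Set G) := fun k hk h =>
    mem_normalizer_fintype (S := ((A ⊓ A' : Subgroup G) : Set G)) fun x hx => ⟨cm hk hx.1, h x hx.1 hx.2⟩
  set Y := normalizer (A : Set G) ⊓ normalizer ((A ⊓ A' : Subgroup G) : Set G)
  set D := normalizer (A : Set G) ⊓ centralizer ((A ⊓ A' : Subgroup G) : Set G)
  have hJY : F.J ≤ Y := fun k hk => ⟨F.J_le_norm I hk, nB k (F.J_le_norm I hk) fun x _ hx => cm (F.J_le_norm I' hk) hx⟩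
  have hYD : Y ≤ normalizer (D : Set G) := fun k hk => by
    rw [← cj_eq_self_iff, cj_inf, cj_normalizer, cj_centralizer, cj_eq_self hk.1, cj_eq_self hk.2]
  have hDY : D ≤ Y := inf_le_inf_left _ (centralizer_le_normalizer _)
  have dD : ∀ d ∈ D, ∀ x ∈ A, x ∈ A' → d * x * d⁻¹ = x := fun d hd x h1 h2 =>
    mul_inv_eq_iff_eq_mul.2 (mem_centralizer_iff.1 hd.2 x ⟨h1, h2⟩).symm
  obtain ⟨Q, hQ, hJQ⟩ := exists_isSylowIn_ge (pg_J F) hJY
  have h1 := hQ.inf_of_le_normalizer hYD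
  rw [inf_eq_right.2 hDY] at h1
  have hQJ : Q ⊓ D ≤ F.J := fun q hq => mem_J F hJ hQ.pgroup hJQ hq.1 fun b => dD q hq.2 _ (y_A F I b) (y_A F I' b)
  have hA'Q : A' ≤ Q ⊓ D := fun x hx => ⟨hJQ (F.A_le_J I' hx), F.J_le_norm I (F.A_le_J I' hx),
    mem_centralizer_iff.2 fun y hy => comm (fun x hx => F.A_sq hx) hy.2 hx⟩
  have gY : g ∈ Y := ⟨hg, nB g hg h⟩
  obtain ⟨d, hd, h2⟩ := h1.frattini (hYD gY)
  obtain ⟨k, kQ, kY, hk⟩ : ∃ k ∈ normalizer ((Q ⊓ D : Subgroup G) : Set G), k ∈ Y ∧ ∀ x ∈ A, k * x * k⁻¹ = g * x * g⁻¹ := by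
    rcases axis F hJ hI hj hd.1 (dD d hd) with e | e
    · exact ⟨_, h2, mul_mem (hDY hd) gY, fun x hx => by rw [cj_cj', e _ (cm hg hx)]⟩
    · have ho : F.o I j ∈ Q ⊓ D := hA'Q (o_eq F hj ▸ h_A F I' j)
      refine ⟨F.o I j * (d * g), mul_mem (le_normalizer ho) h2, mul_mem (hDY ho.2) (mul_mem (hDY hd) gY), fun x hx => ?_⟩
      rw [cj_cj', cj_cj', e _ (cm hg hx), ← cj_cj', o2, one_mul, inv_one, mul_one]
  refine ⟨k, ?_, kY.1, hk⟩
  obtain ⟨I₂, e⟩ := F.max_J (E := cj k A') ((cj_le_of_mem_normalizer kQ hA'Q).trans hQJ) (fun x hx => by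
    have := F.A_sq (mem_cj.1 hx)
    simpa [mul_assoc] using congrArg (fun w => k * w * k⁻¹) this) (by rw [card_cj, F.card_A])
  have h3 : A ⊓ A' ≤ F.A I₂ := by
    rw [← e, ← cj_eq_self kY.2]; exact cj_mono k inf_le_right
  have h4 : ∀ b, b ≠ j → I₂ b = I b := fun b hb => by
    by_contra hn
    exact h_not F (Ne.symm hn) (h3 ⟨h_A F I b, h_eq F (hI b hb) ▸ h_A F I' b⟩)
  rw [← cj_eq_self_iff, e]
  by_cases h5 : I₂ j = I j
  · exfalso
    have : I₂ = I := funext fun b => by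
      by_cases hb : b = j
      exacts [hb ▸ h5, h4 b hb]
    rw [this, ← hA, ← cj_eq_self kY.1] at e
    exact h_not F hj (by rw [← hA', cj_injective k e]; exact h_A F I j)
  · congr 1
    funext b
    by_cases hb : b = j
    · subst hb
      revert h5 hj
      cases I₂ b <;> cases I b <;> cases I' b <;> simp
    · rw [h4 b hb, hI b hb]

end TrH

open TrH

theorem JF.tv_tr (F : JF G B) (hJ : F.JG) {I I' : B → Bool} {i j : B} (hij : i ≠ j) (hI : ∀ b, b ≠ j → I b = I' b)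
    {g c : G} (h : Tv (F.A I) g c) (hc : c ∈ F.A I') (mi : g * F.y i * g⁻¹ ≠ F.y i) (fj : g * F.y j * g⁻¹ = F.y j) :
    ∃ g', Tv (F.A I') g' c ∧ ∀ x ∈ F.A I, x ∈ F.A I' → g' * x * g'⁻¹ = g * x * g⁻¹ := by
  by_cases hj : I j = I' j
  · obtain rfl : I = I' := funext fun b => by
      by_cases hb : b = j
      exacts [hb ▸ hj, hI b hb]
    exact ⟨g, h, fun _ _ _ => rfl⟩
  have hA : ∀ x ∈ F.A I, x * x = 1 := fun x hx => F.A_sq hx
  have hA' : ∀ x ∈ F.A I', x * x = 1 := fun x hx => F.A_sq hx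
  have hI' : ∀ b, b ≠ j → I' b = I b := fun b hb => (hI b hb).symm
  have hj' : I' j ≠ I j := Ne.symm hj
  obtain ⟨k, kA', kA, hk⟩ := both F hJ hI hj h.norm fun x hx hx' => by
    rcases h.act x hx with e | e <;> rw [e]
    exacts [hx', mul_mem hx' hc]
  have T := F.tv_o I i
  have T' := F.tv_o I' i
  rw [← o_eq' F (hI i hij)] at T'
  have u2 := o2 F I i
  have uZ : ∀ z ∈ F.Z, F.o I i * z * (F.o I i)⁻¹ = z := fun z => Z_fix F (o_J F I i)
  generalize F.o I i = u at *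
  have gy := (h.act _ T.mem).resolve_left mi
  have uc := (T.act _ h.mem).resolve_left fun e => mi (F.tv_symm hJ T h e)
  have uu : ∀ x : G, u * (u * x * u⁻¹) * u⁻¹ = x := fun x => by rw [← cj_cj', u2, one_mul, inv_one, mul_one]
  have gg : ∀ x ∈ F.A I, g * (g * x * g⁻¹) * g⁻¹ = x := fun x hx => by
    rcases h.act x hx with e | e
    · rw [e, e]
    · rw [e, cj_mul', e, h.fix hA, mul_assoc, hA c h.mem, mul_one]
  -- the braid relation on `A I`
  have br : ∀ x ∈ F.A I, g * (u * (g * x * g⁻¹) * u⁻¹) * g⁻¹ = u * (g * (u * x * u⁻¹) * g⁻¹) * u⁻¹ := fun x hx => by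
    have t1 := T.conj' h.norm
    have t2 := h.conj' T.norm
    rw [gy, comm hA T.mem h.mem] at t1
    rw [uc] at t2
    have := F.tv_same hJ t1 t2 x hx
    rw [cj_cj', cj_cj', cj_cj', cj_cj'] at this
    have e : g⁻¹ * x * g⁻¹⁻¹ = g * x * g⁻¹ := by
      nth_rewrite 1 [← gg x hx]; group
    have e' : u⁻¹ * x * u⁻¹⁻¹ = u * x * u⁻¹ := by rw [inv_inv, inv_eq u2]
    rwa [e, e'] at this
  have tA := mul_mem kA T.norm
  have tA' := mul_mem kA' T'.norm
  have ht : ∀ x ∈ F.A I, k * u * x * (k * u)⁻¹ = g * (u * x * u⁻¹) * g⁻¹ := fun x hx => by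
    rw [cj_cj', hk _ (cm T.norm hx)]
  generalize k * u = t at tA tA' ht
  have t3 : ∀ x ∈ F.A I, t * t * t * x * (t * t * t)⁻¹ = x := fun x hx => by
    rw [cj_cj', cj_cj', ht x hx, ht _ (cm h.norm (cm T.norm hx)), ← br x hx, gg _ (cm T.norm (cm h.norm hx)),
      ht _ (cm T.norm (cm h.norm hx)), uu, gg x hx]
  have t6 : ∀ x ∈ F.A I', t * t * t * (t * t * t * x * (t * t * t)⁻¹) * (t * t * t)⁻¹ = x := fun x hx => by
    have n3 := mul_mem (mul_mem tA' tA') tA'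
    rcases axis F hJ hI' hj' n3 (fun x _ hx => t3 x hx) with e | e
    · rw [e x hx, e x hx]
    · rw [e _ (cm n3 hx), e x hx, ← cj_cj', o2, one_mul, inv_one, mul_one]
  obtain ⟨r, rA, rA', hr, r3⟩ : ∃ r ∈ normalizer (F.A I : Set G), r ∈ normalizer (F.A I' : Set G) ∧
      (∀ x ∈ F.A I, r * x * r⁻¹ = g * (u * x * u⁻¹) * g⁻¹) ∧ ∀ x ∈ F.A I', r * (r * (r * x * r⁻¹) * r⁻¹) * r⁻¹ = x := by
    refine ⟨t * t * t * t, mul_mem (mul_mem (mul_mem tA tA) tA) tA, mul_mem (mul_mem (mul_mem tA' tA') tA') tA',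
      fun x hx => by rw [cj_cj', t3 _ (cm tA hx), ht x hx], fun x hx => ?_⟩
    have h1 := t6 x hx
    have := t6 _ (h1.symm ▸ hx)
    refine Eq.trans ?_ (this.trans h1)
    group
  clear t6 t3 ht tA tA' hk kA kA'
  have rB : ∀ x ∈ F.A I', x ∉ F.A I → r * x * r⁻¹ ∉ F.A I := fun x _ hx e =>
    hx ((mem_normalizer_iff.1 rA x).2 e)
  obtain ⟨w, hw, hw', rw'⟩ : ∃ w ∈ F.A I', w ∉ F.A I ∧ r * w * r⁻¹ = w := by
    have h0 := h_A F I' j
    have h0' := h_not F hj'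
    generalize F.h I' j = v at h0 h0'
    have h1 := cm rA' h0
    have h2 := cm rA' h1
    refine ⟨v * (r * v * r⁻¹) * (r * (r * v * r⁻¹) * r⁻¹), mul_mem (mul_mem h0 h1) h2, fun e => ?_, ?_⟩
    · exact rB _ h1 (rB _ h0 h0') ((mul_mem_cancel_left (split F hI' hj' h0 h1 h0' (rB _ h0 h0'))).1 e)
    · rw [cj_mul', cj_mul', r3 v h0, comm hA' (mul_mem h1 h2) h0, mul_assoc v]
  have uw : u * w * u⁻¹ = w := by
    refine (T'.act w hw).resolve_right fun e => ?_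
    have n4 := mul_mem (mul_mem (mul_mem T'.norm rA') T'.norm) rA'
    have e4 : u * r * u * r * w * (u * r * u * r)⁻¹ = w * (c * F.y i) := by
      rw [cj_cj', cj_cj', cj_cj', rw', e, cj_mul' r, rw', hr _ T.mem, uZ _ (y_Z F i), gy, cj_mul', cj_mul', e,
        uZ _ (y_Z F i), uc, mul_assoc, ← mul_assoc (F.y i), hA _ T.mem, one_mul]
    have hz : c * F.y i ∈ F.Z := by
      rcases axis F hJ hI' hj' n4 (fun x _ hx => by
        rw [cj_cj', cj_cj', cj_cj', hr x hx, hr _ (cm T.norm (cm h.norm (cm T.norm hx))), uu, gg _ (cm T.norm hx),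
          uu]) with e5 | e5
      · rw [e5 w hw, left_eq_mul] at e4
        rw [e4]; exact one_mem _
      · rw [e5 w hw] at e4
        rcases (F.tv_o I' j).act w hw with e6 | e6 <;> rw [e6] at e4
        · rw [left_eq_mul.1 e4]; exact one_mem _
        · rw [← mul_left_cancel e4]; exact y_Z F j
    have := uZ _ ((mul_mem_cancel_right (y_Z F i)).1 hz)
    rw [uc, mul_eq_left] at this
    exact y_ne F i this
  have ag : ∀ x ∈ F.A I, r * u * x * (r * u)⁻¹ = g * x * g⁻¹ := fun x hx => by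
    rw [cj_cj', hr _ (cm T.norm hx), uu]
  have fw : r * u * w * (r * u)⁻¹ = w * 1 := by rw [cj_cj', uw, rw', mul_one]
  refine ⟨r * u, ⟨mul_mem rA' T'.norm, h.ne, ⟨_, T'.mem, by rw [ag _ T.mem]; exact mi⟩, fun x hx => ?_⟩,
    fun x hx _ => ag x hx⟩
  by_cases hx' : x ∈ F.A I
  · rw [ag x hx']; exact h.act x hx'
  · have h1 := split F hI' hj' hx hw hx' hw'
    rcases h.act _ h1 with e | e <;> rw [← ag _ h1] at e
    · left
      rw [act_of F hI' hj' (c := 1) hw hw' fw hx hx' (by rw [e, mul_one]), mul_one, mul_one, mul_assoc, hA' w hw, mul_one]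
    · right
      rw [act_of F hI' hj' hw hw' fw hx hx' e, mul_one, mul_assoc, comm hA' hc hw, mul_assoc, ← mul_assoc w, hA' w hw,
        one_mul]

end Cfsg.Agent.WA.Al
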