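import Cfsg.Agent.WA.AlIso

/-! S3218: fusion when `K` has two blocks. -/

set_option autoImplicit false
set_option linter.unusedSectionVars false

namespace Cfsg.Agent.WA.Al

open Subgroup Equiv Iso

universe u

variable {G : Type u} [Group G] [Finite G] {B : Type} [Fintype B] [DecidableEq B] {s : ℕ}

namespace Tw

variable (S : CS G B s)

/-- at most one block of `K` has its `e`-half in `A I` -/
def One (I : B → Bool) : Prop := ∀ b ∈ S.K, ∀ c ∈ S.K, I b = false → I c = false → b = c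

variable {S}

theorem c1fix {I : B → Bool} (hI : One S I) {g c : G} (h : Tv (S.A I) g c) (hz : g * S.z * g⁻¹ = S.z) {b : B}
    (hb : b ∈ S.K) : g * S.y b * g⁻¹ = S.y b := by
  obtain ⟨b', -, e⟩ := S.c1 I hI g h.norm (comm_of_fix hz) b hb
  by_contra hm
  have h1 := h.of_ne (S.y_mem I b) hm
  have hne : b ≠ b' := fun h => hm (by rw [e, h])
  have h2 : c = S.yP (symmDiff {b} {b'}) := by
    rw [← S.yP_mul, S.yP_single, S.yP_single, ← e, h1, ← mul_assoc, S.y2, one_mul]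
  obtain ⟨d, hd⟩ := S.tv_Z S.jg h (h2 ▸ S.yP_memZ _)
  rw [h2, ← S.yP_single] at hd
  have h3 := S.yP_inj hd
  have h4 : b ∈ ({d} : Finset B) := h3 ▸ Finset.mem_symmDiff.2 (Or.inl ⟨by simp, by simpa using hne⟩)
  have h5 : b' ∈ ({d} : Finset B) := h3 ▸ Finset.mem_symmDiff.2 (Or.inr ⟨by simp, by simpa using hne.symm⟩)
  exact hne ((Finset.mem_singleton.1 h4).trans (Finset.mem_singleton.1 h5).symm)

theorem only {I : B → Bool} (hI : One S I) {g c : G} (h : Tv (S.A I) g c) {b : B} (hb : b ∈ S.K)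
    (hm : g * S.y b * g⁻¹ ≠ S.y b) {d : B} (hd : d ∈ S.K) (hne : d ≠ b) : g * S.y d * g⁻¹ = S.y d := by
  classical
  by_contra hm'
  have h1 : ¬ Even (S.K.filter fun b => g * S.y b * g⁻¹ ≠ S.y b).card := fun h1 =>
    hm (c1fix hI h (by rw [S.hz]; exact (S.parity h S.K).2 (by convert h1)) hb)
  have h2 : 1 < (S.K.filter fun b => g * S.y b * g⁻¹ ≠ S.y b).card :=
    Finset.one_lt_card.2 ⟨b, Finset.mem_filter.2 ⟨hb, hm⟩, d, Finset.mem_filter.2 ⟨hd, hm'⟩, hne.symm⟩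
  obtain ⟨b₁, h₁, b₂, h₂, b₃, h₃, n12, n13, n23⟩ := Finset.two_lt_card.1
    (show 2 < (S.K.filter fun b => g * S.y b * g⁻¹ ≠ S.y b).card by
      rw [Nat.not_even_iff_odd, Nat.odd_iff] at h1; omega)
  exact S.tv_three S.jg h (S.tv_o I b₁) (S.tv_o I b₂) (S.tv_o I b₃) (S.y_inj.ne n12) (S.y_inj.ne n13) (S.y_inj.ne n23)
    (S.o_y I _ _) (S.o_y I _ _) (S.o_y I _ _) (Finset.mem_filter.1 h₁).2 (Finset.mem_filter.1 h₂).2
    (Finset.mem_filter.1 h₃).2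

theorem nadj {I : B → Bool} (hI : One S I) {g c g' c' : G} (h : Tv (S.A I) g c) (h' : Tv (S.A I) g' c') {b d : B}
    (hb : b ∈ S.K) (hd : d ∈ S.K) (hne : b ≠ d) (hm : g * S.y b * g⁻¹ ≠ S.y b) (hm' : g' * S.y d * g'⁻¹ ≠ S.y d) :
    g * c' * g⁻¹ = c' := by
  by_contra hc
  have hc' : g' * c * g'⁻¹ ≠ c := fun e => hc (S.tv_symm S.jg h' h e)
  have hzA : S.z ∈ S.A I := S.Z_le_A I S.z_memZ
  have z1 : g * S.z * g⁻¹ ≠ S.z := fun e => hm (c1fix hI h e hb)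
  have z2 : g' * S.z * g'⁻¹ ≠ S.z := fun e => hm' (c1fix hI h' e hd)
  have h1 := c1fix hI (h'.conjN (inv_mem h.norm)) (conj_fix_iff.2 (by
    rw [h.of_ne hzA z1, h'.mul_fix (S.sqA I) hzA h.mem]
    exact iff_of_false z2 hc')) hb
  rw [conj_fix_iff, h.of_ne (S.y_mem I b) hm, h'.mul_fix (S.sqA I) (S.y_mem I b) h.mem] at h1
  exact hc' (h1.1 (only hI h' hd hm' hb hne))

/-- all halves `a` -/
abbrev I1 : B → Bool := fun _ => true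

theorem one1 : One S I1 := fun _ _ _ _ h => by simp at h

theorem sw1 {b c : B} (hbc : b ∈ S.K ↔ c ∈ S.K) : ∃ σ ∈ normalizer (S.A I1 : Set G), σ * S.z * σ⁻¹ = S.z ∧
    ∀ d, σ * S.y d * σ⁻¹ = S.y (swap b c d) ∧ σ * S.a d * σ⁻¹ = S.a (swap b c d) ∧
      σ * S.e d * σ⁻¹ = S.e (swap b c d) := by
  obtain ⟨σ, h1, h2⟩ := S.sw b c hbc
  exact ⟨σ, S.mem_normA _ (fun _ => rfl) h2, fix_of_comm h1, h2⟩

theorem fixV {b₁ b₂ : B} (m1 : b₁ ∈ S.K) (m2 : b₂ ∈ S.K) (ne : b₁ ≠ b₂) {g c : G} (h : Tv (S.A I1) g c)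
    (hm : g * S.y b₁ * g⁻¹ ≠ S.y b₁) {b : B} (hb : b ∉ S.K) :
    g * S.y b * g⁻¹ = S.y b ∧ g * S.a b * g⁻¹ = S.a b := by
  obtain ⟨σ, hσ, -, hs⟩ := sw1 (iff_of_true m1 m2)
  have n1 : b ≠ b₁ := fun e => hb (e ▸ m1)
  have n2 : b ≠ b₂ := fun e => hb (e ▸ m2)
  have h'' := h.conjN hσ
  have hm'' : σ * g * σ⁻¹ * S.y b₂ * (σ * g * σ⁻¹)⁻¹ ≠ S.y b₂ := fun e => hm (conj_fix_iff'.1 (by
    rwa [(hs b₁).1, swap_apply_left]))
  have sub : ∀ u₀ v₀ u₁ v₁, Tv (S.A I1) u₀ v₀ → Tv (S.A I1) u₁ v₁ → u₀ * S.y b₁ * u₀⁻¹ = S.y b₁ →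
      u₀ * S.y b₂ * u₀⁻¹ = S.y b₂ → u₁ * v₀ * u₁⁻¹ ≠ v₀ → σ * v₀ * σ⁻¹ = v₀ → σ * v₁ * σ⁻¹ = v₁ →
      g * v₀ * g⁻¹ = v₀ → g * v₁ * g⁻¹ ≠ v₁ → False := fun u₀ v₀ u₁ v₁ t₀ t₁ f1 f2 mv s0 s1 g0 g1 => by
    refine S.tv_three S.jg t₁ h h'' t₀ (fun e => ?_) (fun e => ?_) (fun e => ?_)
      (nadj one1 h h'' m1 m2 ne hm hm'') g0 (by rw [← s0, conj_fix_iff']; exact g0)
      (fun e => g1 (S.tv_symm S.jg t₁ h e)) (fun e => g1 ?_) mv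
    · exact hm ((S.tv_same S.jg h (e ▸ h'') _ (S.y_mem _ _)).trans (only one1 h'' m2 hm'' m1 ne))
    · exact hm ((S.tv_same S.jg h (e ▸ t₀) _ (S.y_mem _ _)).trans f1)
    · exact hm'' ((S.tv_same S.jg h'' (e ▸ t₀) _ (S.y_mem _ _)).trans f2)
    · have := S.tv_symm S.jg t₁ h'' e
      rwa [← s1, conj_fix_iff'] at this
  obtain ⟨u, -, u1, u2, u3⟩ := S.ua b hb
  obtain ⟨tu, mu⟩ := S.tv_ua (I := I1) rfl u1 u2 u3
  have te := S.tv_o I1 b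
  have sy : σ * S.y b * σ⁻¹ = S.y b := by rw [(hs b).1, swap_apply_of_ne_of_ne n1 n2]
  have sa : σ * S.a b * σ⁻¹ = S.a b := by rw [(hs b).2.1, swap_apply_of_ne_of_ne n1 n2]
  have ea : S.o I1 b * S.a b * (S.o I1 b)⁻¹ ≠ S.a b := fun e => (S.o_h_iff I1 b b).1 e rfl
  have ha : S.a b ∈ S.A I1 := S.h_mem I1 b
  by_cases gy : g * S.y b * g⁻¹ = S.y b <;> by_cases ga : g * S.a b * g⁻¹ = S.a b
  · exact ⟨gy, ga⟩
  · exact (sub _ _ _ _ te tu (S.o_y _ _ _) (S.o_y _ _ _) mu sy sa gy ga).elim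
  · exact (sub _ _ _ _ tu te (fix_of_comm (u3 _ n1.symm).1) (fix_of_comm (u3 _ n2.symm).1) ea sa sy ga gy).elim
  · have t3 := tu.conjN te.norm
    rw [te.of_ne ha ea] at t3
    refine (sub _ _ _ _ t3 te ?_ ?_ ?_ ?_ sy ?_ gy).elim
    · rw [← S.o_y I1 b b₁, conj_fix_iff']; exact fix_of_comm (u3 _ n1.symm).1
    · rw [← S.o_y I1 b b₂, conj_fix_iff']; exact fix_of_comm (u3 _ n2.symm).1
    · rw [Ne, te.mul_fix (S.sqA _) ha (S.y_mem _ _)]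
      exact fun e => ea (e.2 (S.o_y _ _ _))
    · rw [show σ * (S.a b * S.y b) * σ⁻¹ = σ * S.a b * σ⁻¹ * (σ * S.y b * σ⁻¹) by group, sa, sy]
    · rw [h.mul_fix (S.sqA _) ha (S.y_mem _ _)]; exact iff_of_false ga gy

theorem fixY {b₁ b₂ : B} (m1 : b₁ ∈ S.K) (m2 : b₂ ∈ S.K) (ne : b₁ ≠ b₂) {g c : G} (h : Tv (S.A I1) g c)
    (hm : g * S.y b₁ * g⁻¹ ≠ S.y b₁) {d : B} (hd : d ≠ b₁) : g * S.y d * g⁻¹ = S.y d := by
  by_cases e : d ∈ S.K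
  · exact only one1 h m1 hm e hd
  · exact (fixV m1 m2 ne h hm e).1

theorem cen_form {b₁ b₂ : B} (m1 : b₁ ∈ S.K) (m2 : b₂ ∈ S.K) (ne : b₁ ≠ b₂) {g c : G} (h : Tv (S.A I1) g c)
    (hm : g * S.y b₁ * g⁻¹ ≠ S.y b₁) : ∃ P, c = S.yP P * S.a b₁ := by
  obtain ⟨P, Q, e⟩ := S.mem_A.1 h.mem
  obtain rfl : Q = {b₁} := Finset.eq_singleton_iff_unique_mem.2 ⟨by
    by_contra hn
    exact hm (S.tv_symm S.jg (S.tv_o I1 b₁) h (e ▸ (S.o_fix_iff I1 b₁ P Q).2 hn)), fun d hd => by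
    by_contra hn
    exact (S.o_fix_iff I1 d P Q).1 (e ▸ S.tv_symm S.jg h (S.tv_o I1 d) (fixY m1 m2 ne h hm hn)) hd⟩
  exact ⟨P, by rw [e, S.hP_single]; rfl⟩

/-- the conjugate of a neighbour of `τ b₁` by `e b₁` -/
theorem flip {b₁ : B} {g c : G} (h : Tv (S.A I1) g c) (hm : g * S.y b₁ * g⁻¹ ≠ S.y b₁) :
    S.o I1 b₁ * c * (S.o I1 b₁)⁻¹ = c * S.y b₁ ∧ Tv (S.A I1) (S.o I1 b₁ * g * (S.o I1 b₁)⁻¹) (c * S.y b₁) ∧
      S.o I1 b₁ * g * (S.o I1 b₁)⁻¹ * S.y b₁ * (S.o I1 b₁ * g * (S.o I1 b₁)⁻¹)⁻¹ ≠ S.y b₁ := by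
  have te := S.tv_o I1 b₁
  have e := te.of_ne h.mem fun e => hm (S.tv_symm S.jg te h e)
  refine ⟨e, e ▸ h.conjN te.norm, fun e' => hm (conj_fix_iff'.1 (by rwa [S.o_y]))⟩

theorem uniq_adj {b₁ b₂ : B} (m1 : b₁ ∈ S.K) (m2 : b₂ ∈ S.K) (ne : b₁ ≠ b₂) {g c g' c' : G} (h : Tv (S.A I1) g c)
    (hm : g * S.y b₁ * g⁻¹ ≠ S.y b₁) (h' : Tv (S.A I1) g' c') (hm' : g' * S.y b₁ * g'⁻¹ ≠ S.y b₁)
    (ha : g * c' * g⁻¹ ≠ c') : c' = c * S.y b₁ := by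
  have h1 := h'.conjN h.norm
  rw [h.of_ne h'.mem ha] at h1
  obtain ⟨P, hP⟩ := cen_form m1 m2 ne h hm
  obtain ⟨P', hP'⟩ := cen_form m1 m2 ne h' hm'
  obtain ⟨d, hd⟩ := S.tv_Z S.jg h1 (by
    rw [hP, hP', mul_assoc, ← mul_assoc (S.a b₁), S.yP_comm P (S.a_memJ b₁), mul_assoc, S.a2, mul_one]
    exact mul_mem (S.yP_memZ _) (S.yP_memZ _))
  obtain rfl : d = b₁ := by
    by_contra hn
    have := fixY m1 m2 ne h hm hn
    rw [← hd, h.mul_fix (S.sqA _) h'.mem h.mem] at this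
    exact ha (this.2 (h.fix (S.sqA _)))
  rw [← hd, comm_of_sq (S.sqA I1) h'.mem h.mem, ← mul_assoc, S.A_sq h.mem, one_mul]

theorem uniq {b₁ b₂ : B} (m1 : b₁ ∈ S.K) (m2 : b₂ ∈ S.K) (ne : b₁ ≠ b₂) {g c g' c' : G} (h : Tv (S.A I1) g c)
    (hm : g * S.y b₁ * g⁻¹ ≠ S.y b₁) (h' : Tv (S.A I1) g' c') (hm' : g' * S.y b₁ * g'⁻¹ ≠ S.y b₁) :
    c' = c ∨ c' = c * S.y b₁ := by
  by_cases ha : g * c' * g⁻¹ = c'
  swap
  · exact Or.inr (uniq_adj m1 m2 ne h hm h' hm' ha)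
  obtain ⟨-, t1, t2⟩ := flip h hm
  obtain ⟨e', -, -⟩ := flip h' hm'
  left
  rw [uniq_adj m1 m2 ne t1 t2 h' hm' fun e => ?_, mul_assoc, S.y2, mul_one]
  have e2 : S.o I1 b₁ * (c' * S.y b₁) * (S.o I1 b₁)⁻¹ = c' := by
    rw [show S.o I1 b₁ * (c' * S.y b₁) * (S.o I1 b₁)⁻¹ = S.o I1 b₁ * c' * (S.o I1 b₁)⁻¹ *
      (S.o I1 b₁ * S.y b₁ * (S.o I1 b₁)⁻¹) by group, e', S.o_y, mul_assoc, S.y2, mul_one]
  rw [← e2, conj_fix_iff', h.mul_fix (S.sqA _) h'.mem (S.y_mem _ _)] at e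
  exact hm (e.1 ha)

theorem cent {b₁ b₂ : B} (m1 : b₁ ∈ S.K) (m2 : b₂ ∈ S.K) (ne : b₁ ≠ b₂) {g c : G} (h : Tv (S.A I1) g c)
    (hm : g * S.y b₁ * g⁻¹ ≠ S.y b₁) : ∃ w, (w = 1 ∨ w = S.z) ∧ ∃ g', Tv (S.A I1) g' (S.a b₁ * w) ∧
      g' * S.y b₁ * g'⁻¹ ≠ S.y b₁ := by
  obtain ⟨P, hP⟩ := cen_form m1 m2 ne h hm
  wlog h1 : b₁ ∉ P generalizing g c P
  · obtain ⟨-, t1, t2⟩ := flip h hm
    push Not at h1
    refine this t1 t2 (P.erase b₁) ?_ (Finset.notMem_erase _ _)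
    rw [hP, ← Finset.insert_erase h1, S.yP_insert (Finset.notMem_erase _ _), Finset.erase_insert (Finset.notMem_erase _ _),
      mul_assoc, ← S.ya, ← mul_assoc, mul_assoc (S.y b₁), ← S.yP_comm _ (S.A_le_J I1 (S.y_mem I1 b₁)), ← mul_assoc,
      S.y2, one_mul]
  have hK : ∀ d ∈ P, d ∈ S.K := fun d hd => by
    by_contra hn
    obtain ⟨u, -, u1, u2, u3⟩ := S.ua d hn
    have h2 := S.tv_symm S.jg h (S.tv_ua (I := I1) rfl u1 u2 u3).1 (fixV m1 m2 ne h hm hn).2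
    have h3 : u * S.yP (P.erase d) = S.yP (P.erase d) * u := S.comm_yP fun b hb => (u3 b (Finset.ne_of_mem_erase hb)).1
    have h4 := (u3 b₁ fun e => hn (e ▸ m1)).2.1
    rw [hP, ← Finset.insert_erase hd, S.yP_insert (Finset.notMem_erase _ _),
      show u * (S.y d * S.yP (P.erase d) * S.a b₁) * u⁻¹ = u * S.y d * u⁻¹ * (u * S.yP (P.erase d) * u⁻¹) *
        (u * S.a b₁ * u⁻¹) by group, u1, fix_of_comm h3, fix_of_comm h4] at h2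
    exact S.a_ne d (by simpa using h2)
  have hsym : ∀ d ∈ P, ∀ d' ∈ S.K, d' ≠ b₁ → d' ∈ P := fun d hd d' hd' hn => by
    obtain ⟨σ, hσ, -, hs⟩ := sw1 (iff_of_true (hK d hd) hd')
    have n1 : b₁ ≠ d := fun e => h1 (e ▸ hd)
    have e1 : swap d d' b₁ = b₁ := swap_apply_of_ne_of_ne n1 hn.symm
    have h2 := uniq m1 m2 ne h hm (h.conjN hσ) fun e => hm (conj_fix_iff'.1 (by rwa [(hs b₁).1, e1]))
    rw [hP, show σ * (S.yP P * S.a b₁) * σ⁻¹ = σ * S.yP P * σ⁻¹ * (σ * S.a b₁ * σ⁻¹) by group,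
      S.yP_conj _ fun b => (hs b).1, (hs b₁).2.1, e1] at h2
    rcases h2 with h2 | h2
    · rw [← S.yP_inj (mul_right_cancel h2)]
      exact Finset.mem_map.2 ⟨d, hd, swap_apply_left _ _⟩
    · rw [mul_assoc, ← S.ya, ← mul_assoc, ← S.yP_comm _ (S.A_le_J I1 (S.y_mem I1 b₁)), ← S.yP_insert h1] at h2
      have := congrArg Finset.card (S.yP_inj (mul_right_cancel h2))
      rw [Finset.card_map, Finset.card_insert_of_notMem h1] at this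
      omega
  rcases P.eq_empty_or_nonempty with rfl | ⟨d, hd⟩
  · exact ⟨1, Or.inl rfl, g, by rwa [mul_one, ← one_mul (S.a b₁), ← S.yP_empty, ← hP], hm⟩
  · obtain ⟨-, t1, t2⟩ := flip h hm
    refine ⟨S.z, Or.inr rfl, _, ?_, t2⟩
    have : S.K = insert b₁ P := Finset.Subset.antisymm (fun b hb => by
      by_cases e : b = b₁
      · simp [e]
      · exact Finset.mem_insert_of_mem (hsym d hd b hb e)) (Finset.insert_subset m1 hK)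
    rwa [S.hz, this, S.yP_insert h1, S.yP_comm _ (S.A_le_J I1 (S.y_mem I1 b₁)), ← mul_assoc,
      S.yP_comm _ (S.a_memJ b₁), ← hP]

/-- `e` at `b`, `a` elsewhere -/
def I2 (b : B) : B → Bool := fun d => decide (d ≠ b)

theorem one2 (b : B) : One S (I2 b) := fun c _ d _ h h' => by
  simp only [I2, decide_eq_false_iff_not, not_not] at h h'
  rw [h, h']

theorem h2_of_ne {b d : B} (h : d ≠ b) : S.h (I2 b) d = S.a d := by simp [JF.h, I2, h]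
theorem h2_self (b : B) : S.h (I2 b) b = S.e b := by simp [JF.h, I2]
theorem o2_self (b : B) : S.o (I2 b) b = S.a b := by simp [JF.o, I2]

theorem E1 (hG : ∀ H : Subgroup G, H.index ≠ 2) {b : B} (hb : b ∈ S.K) :
    ∃ g c, Tv (S.A I1) g c ∧ g * S.y b * g⁻¹ ≠ S.y b := by
  by_cases hN : ∀ g ∈ normalizer (S.J : Set G), g * S.z = S.z * g
  swap
  · exact S.nb_of_move hN _ hb
  by_contra hn
  refine S.iso_con S.jg hG S.z_memZ hN S.χ₁ S.m₁ (I := I1) (T := S.K) S.a₁ hb (fun d hd g c h => ?_) fun d hd => ?_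
  · by_contra hm
    obtain ⟨σ, hσ, -, hs⟩ := sw1 (iff_of_true hd hb)
    exact hn ⟨_, _, h.conjN hσ, fun e => hm (conj_fix_iff'.1 (by rwa [(hs d).1, swap_apply_left]))⟩
  · obtain ⟨g, c, h1, h2, -⟩ := S.tv_u I1 hd
    exact ⟨g, c, h1, h2⟩

theorem tr {b₁ b₂ : B} (m1 : b₁ ∈ S.K) (m2 : b₂ ∈ S.K) (ne : b₁ ≠ b₂) {g c : G} (h : Tv (S.A I1) g c)
    (hm : g * S.y b₁ * g⁻¹ ≠ S.y b₁) : ∃ g', Tv (S.A (I2 b₂)) g' c ∧ g' * S.y b₁ * g'⁻¹ ≠ S.y b₁ := by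
  obtain ⟨P, hP⟩ := cen_form m1 m2 ne h hm
  obtain ⟨g', h1, h2⟩ := S.tv_tr S.jg (I := I1) (I' := I2 b₂) ne (fun b hb => by simp [I2, hb]) h
    (hP ▸ mul_mem (S.yP_mem _ _) (h2_of_ne (S := S) ne ▸ S.h_mem _ b₁)) hm (only one1 h m1 hm m2 ne.symm)
  exact ⟨g', h1, by rwa [h2 _ (S.y_mem _ _) (S.y_mem _ _)]⟩

theorem E2 (hG : ∀ H : Subgroup G, H.index ≠ 2) {b : B} (hb : b ∈ S.K) :
    ∃ g c, Tv (S.A (I2 b)) g c ∧ g * S.y b * g⁻¹ ≠ S.y b := by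
  by_cases hN : ∀ g ∈ normalizer (S.J : Set G), g * S.z = S.z * g
  swap
  · exact S.nb_of_move hN _ hb
  by_contra hn
  refine S.iso_con S.jg hG S.z_memZ hN S.χ₂ S.m₂ (I := I2 b) (T := {b}) (fun d => ?_) (Finset.mem_singleton_self b)
    (fun d hd g c h => ?_) fun d hd => ?_
  · by_cases e : d = b
    · rw [e, h2_self, S.e₂, if_pos hb, if_pos (Finset.mem_singleton_self b)]
    · rw [h2_of_ne e, S.a₂, if_neg (by simpa using e)]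
  · rw [Finset.mem_singleton.1 hd]
    by_contra hm
    exact hn ⟨g, c, h, hm⟩
  · by_cases e : d ∈ S.K
    · obtain ⟨g, c, h1, h2⟩ := E1 hG e
      obtain ⟨g', h3, h4⟩ := tr e hb (by simpa using hd) h1 h2
      exact ⟨g', c, h3, h4⟩
    · obtain ⟨g, c, h1, h2, -⟩ := S.tv_u (I2 b) e
      exact ⟨g, c, h1, h2⟩

end Tw

open Tw in
theorem CS.two (S : CS G B s) (hG : ∀ H : Subgroup G, H.index ≠ 2) {b₁ b₂ : B} (m1 : b₁ ∈ S.K) (m2 : b₂ ∈ S.K)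
    (ne : b₁ ≠ b₂) : Two S b₁ b₂ 1 ∨ Two S b₁ b₂ S.z := by
  obtain ⟨g₀, c₀, h₀, hm₀⟩ := E1 hG m1
  obtain ⟨w, hw, g, h, hm⟩ := cent m1 m2 ne h₀ hm₀
  suffices T : Two S b₁ b₂ w by
    rcases hw with rfl | rfl
    · exact Or.inl T
    · exact Or.inr T
  have hwJ : ∀ x ∈ S.J, x * w = w * x := fun x hx => by
    rcases hw with rfl | rfl
    · simp
    · rw [S.hz]; exact S.yP_comm _ hx
  have cw : ∀ x ∈ S.J, x * S.a b₁ = S.a b₁ * x → x * (S.a b₁ * w) = S.a b₁ * w * x := fun x hx e => by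
    rw [← mul_assoc, e, mul_assoc, hwJ x hx, mul_assoc]
  refine ⟨m1, m2, ne, ?_, ?_, ?_⟩
  · obtain ⟨t, ht, hr⟩ := (S.tv_o I1 b₁).rot (S.sqA _) h (fun e => hm (S.tv_symm S.jg (S.tv_o I1 b₁) h e)) hm
    exact ⟨t, hr, fun b hb => closure_comm ht (comm_of_fix (S.o_y _ _ _)) (comm_of_fix (fixY m1 m2 ne h hm hb))⟩
  · obtain ⟨σ, hσ, hz, hs⟩ := sw1 (iff_of_true m1 m2)
    have h'' := h.conjN hσ
    have hm'' : σ * g * σ⁻¹ * S.y b₂ * (σ * g * σ⁻¹)⁻¹ ≠ S.y b₂ := fun e => hm (conj_fix_iff'.1 (by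
      rwa [(hs b₁).1, swap_apply_left]))
    have e : σ * (S.a b₁ * w) * σ⁻¹ = S.a b₂ * w := by
      rw [show σ * (S.a b₁ * w) * σ⁻¹ = σ * S.a b₁ * σ⁻¹ * (σ * w * σ⁻¹) by group, (hs b₁).2.1, swap_apply_left]
      rcases hw with rfl | rfl
      · simp
      · rw [hz]
    rw [e] at h''
    obtain ⟨t, ht, hr⟩ := (S.tv_o I1 b₂).rot (S.sqA _) h'' (fun e => hm'' (S.tv_symm S.jg (S.tv_o I1 b₂) h'' e)) hm''
    exact ⟨t, hr, closure_comm ht (comm_of_fix (S.o_y _ _ _)) (comm_of_fix (only one1 h'' m2 hm'' m1 ne)),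
      closure_comm ht (cw _ (S.o_memJ _ _) (S.ac b₁ b₂ ne).symm)
        (comm_of_fix (nadj one1 h'' h m2 m1 ne.symm hm'' hm))⟩
  · obtain ⟨g', h', hm'⟩ := tr m1 m2 ne h hm
    obtain ⟨g₃, c, h₃, hm₃⟩ := E2 hG m2
    have t2 := S.tv_o (I2 b₂) b₂
    obtain ⟨t, ht, hr⟩ := t2.rot (S.sqA _) h₃ (fun e => hm₃ (S.tv_symm S.jg t2 h₃ e)) hm₃
    refine ⟨t, c, hr, closure_comm ht (comm_of_fix (S.o_y _ _ _)) (comm_of_fix (only (one2 b₂) h₃ m2 hm₃ m1 ne)),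
      closure_comm ht (cw _ (S.o_memJ _ _) (by rw [o2_self]; exact S.aa _ _))
        (comm_of_fix (nadj (one2 b₂) h₃ h' m2 m1 ne.symm hm₃ hm')), ?_⟩
    obtain ⟨P, Q, e⟩ := S.mem_A.1 h₃.mem
    have q2 : b₂ ∈ Q := by
      by_contra hn
      exact hm₃ (S.tv_symm S.jg t2 h₃ (e ▸ (S.o_fix_iff _ b₂ P Q).2 hn))
    have qK : ∀ d ∈ Q.erase b₂, d ∉ S.K := fun d hd hK =>
      (S.o_fix_iff _ d P Q).1 (e ▸ S.tv_symm S.jg h₃ (S.tv_o _ d)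
        (only (one2 b₂) h₃ m2 hm₃ hK (Finset.ne_of_mem_erase hd))) (Finset.mem_of_mem_erase hd)
    have hA : S.hP (I2 b₂) (Q.erase b₂) ∈ S.A (I2 b₂) := S.mem_A.2 ⟨∅, _, by rw [S.yP_empty, one_mul]⟩
    rw [e, ← Finset.insert_erase q2, S.hP_insert _ (Finset.notMem_erase _ _),
      comm_of_sq (S.sqA _) (S.h_mem _ b₂) hA, h2_self, mul_assoc, mul_assoc, S.e2, mul_one]
    refine mul_mem (closure_mono Set.subset_union_left (S.yP_memZ P)) (noncommProd_mem _ _ fun d hd => ?_)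
    rw [h2_of_ne (Finset.ne_of_mem_erase hd)]
    exact subset_closure (Or.inr ⟨d, qK d hd, rfl⟩)

end Cfsg.Agent.WA.Al
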