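import Cfsg.Agent.WA.AlIso
import Cfsg.Agent.WA.AlCs1
import Cfsg.Agent.WA.AlSur

/-! S3218: weights of involutions in `V × K`. -/

set_option autoImplicit false
set_option linter.unusedSectionVars false
set_option linter.unusedSimpArgs false

namespace Cfsg.Agent.WA.Al

open Subgroup Equiv

universe u

variable {G : Type u} [Group G] [Finite G] {B : Type} [Fintype B] [DecidableEq B] {s : ℕ}

namespace W

open Cs

theorem yK_empty : yK s (∅ : Finset B) = 1 := by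
  refine Subtype.ext (Equiv.ext ?_)
  rintro (⟨c, i⟩ | j) <;> simp [yK_l, yK_r]

theorem yK_insert {b : B} {P : Finset B} (h : b ∉ P) : yK s (insert b P) = y0 s b * yK s P := by
  refine Subtype.ext (Equiv.ext ?_)
  rintro (⟨c, i⟩ | j)
  · by_cases e : c = b
    · subst e; simp [mul_ap, yK_l, y0_l, h]
    · simp [mul_ap, yK_l, y0_l, e]
  · simp [mul_ap, yK_r, y0_r]

theorem yK_sq (P : Finset B) : yK s P * yK s P = 1 :=
  Subtype.ext (Equiv.ext fun x => yK_yK P x)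

theorem sq_gen {α : Type} [Fintype α] [DecidableEq α] (H : Subgroup (Alt α)) (h : ∀ x, x * x ∈ H) (p : Alt α) :
    p ∈ H := by
  have h1 : alternatingGroup α ≤ H.map (alternatingGroup α).subtype := by
    refine Perm.closure_three_cycles_eq_alternating.symm.le.trans ((closure_le _).2 ?_)
    intro σ hσ
    have m : σ ∈ alternatingGroup α := Perm.IsThreeCycle.mem_alternatingGroup hσ
    refine ⟨(⟨σ, m⟩ * ⟨σ, m⟩) * (⟨σ, m⟩ * ⟨σ, m⟩), h _, ?_⟩
    have h3 : σ ^ 3 = 1 := by rw [← Perm.IsThreeCycle.orderOf hσ]; exact pow_orderOf_eq_one σ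
    change σ * σ * (σ * σ) = σ
    calc σ * σ * (σ * σ) = σ ^ 3 * σ := by simp only [pow_succ, pow_zero, one_mul, mul_assoc]
      _ = σ := by rw [h3, one_mul]
  obtain ⟨q, hq, e⟩ := h1 p.2
  have : q = p := Subtype.ext e
  exact this ▸ hq

theorem exists_size (hs : s ≤ 1) {x : Alt (Pt B s)} (hx : x * x = 1) : ∃ P : Finset B, x.1.support.card = 4 * P.card := by
  obtain ⟨j, hj⟩ := Sur.four_dvd hx
  have h1 : Sur.w x ≤ Fintype.card (Pt B s) := Finset.card_le_univ _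
  rw [Fintype.card_sum, Fintype.card_prod, Fintype.card_fin, Fintype.card_fin] at h1
  obtain ⟨P, -, hP⟩ := Finset.exists_subset_card_eq (s := (Finset.univ : Finset B)) (n := j)
    (by rw [Finset.card_univ]; omega)
  exact ⟨P, by rw [hP]; exact hj⟩

theorem memV (F : JF G B) {b : B} {v : G} : v ∈ F.V b ↔ v = 1 ∨ v = F.y b ∨ v = F.a b ∨ v = F.y b * F.a b := by
  have y2 := F.y2 b
  have a2 := F.a2 b
  have ya := F.ya b b
  constructor
  · intro hv
    induction hv using closure_induction with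
    | mem x hx => rcases hx with rfl | rfl <;> simp
    | one => simp
    | mul x y _ _ hx hy =>
      have e1 : F.y b * (F.y b * F.a b) = F.a b := by rw [← mul_assoc, y2, one_mul]
      have e2 : F.a b * (F.y b * F.a b) = F.y b := by rw [ya, ← mul_assoc, a2, one_mul]
      have e3 : F.y b * F.a b * F.y b = F.a b := by rw [ya, mul_assoc, y2, mul_one]
      have e4 : F.y b * F.a b * F.a b = F.y b := by rw [mul_assoc, a2, mul_one]
      have e5 : F.y b * F.a b * (F.y b * F.a b) = 1 := by rw [← mul_assoc, e3, a2]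
      rcases hx with rfl | rfl | rfl | rfl <;> rcases hy with rfl | rfl | rfl | rfl <;>
        simp [y2, a2, e1, e2, e3, e4, e5, ← ya]
    | inv x _ hx =>
      have e5 : F.y b * F.a b * (F.y b * F.a b) = 1 := by
        rw [← mul_assoc, mul_assoc (F.y b), ← ya, ← mul_assoc, y2, one_mul, a2]
      rcases hx with rfl | rfl | rfl | rfl
      · simp
      · rw [inv_eq_of_mul_eq_one_left y2]; simp
      · rw [inv_eq_of_mul_eq_one_left a2]; simp
      · rw [inv_eq_of_mul_eq_one_left e5]; simp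
  · have hy : F.y b ∈ F.V b := subset_closure (by simp)
    have ha : F.a b ∈ F.V b := subset_closure (by simp)
    rintro (rfl | rfl | rfl | rfl)
    exacts [one_mem _, hy, ha, mul_mem hy ha]

theorem yV (F : JF G B) (b : B) : F.y b ∈ F.V b := subset_closure (by simp)
theorem aV (F : JF G B) (b : B) : F.a b ∈ F.V b := subset_closure (by simp)

theorem V_le_A (F : JF G B) (b : B) : F.V b ≤ F.A fun _ => true := by
  rw [JF.V, closure_le]
  rintro x (rfl | rfl)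
  · exact F.y_mem _ b
  · exact F.h_mem (fun _ => true) b

theorem V_sq (F : JF G B) {b : B} {v : G} (h : v ∈ F.V b) : v * v = 1 := F.A_sq (V_le_A F b h)

theorem V_comm (F : JF G B) {b : B} {v w : G} (h : v ∈ F.V b) (h' : w ∈ F.V b) : v * w = w * v :=
  Iso.comm_of_sq (F.sqA _) (V_le_A F b h) (V_le_A F b h')

theorem normV (F : JF G B) {b : B} {t : G} (h1 : t * F.y b * t⁻¹ ∈ F.V b) (h2 : t * F.a b * t⁻¹ ∈ F.V b) :
    t ∈ normalizer (F.V b : Set G) := by
  refine H8.mem_normalizer_of_cj_le ?_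
  rw [H8.cj, map_le_iff_le_comap, JF.V, closure_le]
  rintro x (rfl | rfl)
  exacts [h1, h2]

/-- every involution of `V` is moved to `y b` inside `N(V)` -/
theorem rotV (F : JF G B) {b : B} (r : ∃ t, Rot t (F.y b) (F.a b)) {v : G} (hv : v ∈ F.V b) (h1 : v ≠ 1) :
    ∃ t ∈ normalizer (F.V b : Set G), t * v * t⁻¹ = F.y b := by
  obtain ⟨t, ht⟩ := r
  have m : t ∈ normalizer (F.V b : Set G) :=
    normV F (ht.h1 ▸ aV F b) (ht.h2 ▸ mul_mem (yV F b) (aV F b))
  rcases (memV F).1 hv with rfl | rfl | rfl | rfl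
  · exact absurd rfl h1
  · exact ⟨1, one_mem _, by simp⟩
  · exact ⟨t⁻¹, inv_mem m, by rw [← ht.h1]; group⟩
  · refine ⟨t, m, ?_⟩
    calc t * (F.y b * F.a b) * t⁻¹ = (t * F.y b * t⁻¹) * (t * F.a b * t⁻¹) := by group
      _ = F.y b := by rw [ht.h1, ht.h2, F.ya, ← mul_assoc, F.a2, one_mul]

variable (M : Mid G B s)

theorem K_cen (x : Alt (Pt {b // b ≠ M.b₁} s)) : M.κ x ∈ centralizer (M.V M.b₁ : Set G) :=
  M.cV ▸ mem_sup_right ⟨x, rfl⟩

theorem VK {v : G} (hv : v ∈ M.V M.b₁) (x : Alt (Pt {b // b ≠ M.b₁} s)) : v * M.κ x = M.κ x * v :=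
  K_cen M x v hv

theorem dec {g : G} (hg : g ∈ centralizer (M.V M.b₁ : Set G)) : ∃ v ∈ M.V M.b₁, ∃ x, g = v * M.κ x := by
  rw [M.cV] at hg
  have hle : M.κ.range ≤ normalizer (M.V M.b₁ : Set G) := by
    rintro _ ⟨x, rfl⟩
    exact centralizer_le_normalizer _ (K_cen M x)
  have : g ∈ ((M.V M.b₁ ⊔ M.κ.range : Subgroup G) : Set G) := hg
  rw [coe_mul_of_right_le_normalizer_left _ _ hle] at this
  obtain ⟨v, hv, _, ⟨x, rfl⟩, rfl⟩ := this
  exact ⟨v, hv, x, rfl⟩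

theorem triv {v : G} (hv : v ∈ M.V M.b₁) (hk : v ∈ M.κ.range) : v = 1 := by
  have : v ∈ M.V M.b₁ ⊓ M.κ.range := ⟨hv, hk⟩
  rwa [M.disj, mem_bot] at this

theorem sq_vk {v : G} (hv : v ∈ M.V M.b₁) (x : Alt (Pt {b // b ≠ M.b₁} s)) :
    v * M.κ x * (v * M.κ x) = M.κ (x * x) := by
  calc v * M.κ x * (v * M.κ x) = v * (M.κ x * v) * M.κ x := by group
    _ = (v * v) * (M.κ x * M.κ x) := by rw [← VK M hv]; group
    _ = _ := by rw [V_sq _ hv, one_mul, map_mul]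

theorem conjK {g : G} (hg : g ∈ normalizer (M.V M.b₁ : Set G)) (x : Alt (Pt {b // b ≠ M.b₁} s)) :
    ∃ x', g * M.κ x * g⁻¹ = M.κ x' := by
  have key : ∀ p, p ∈ (M.κ.range.comap (MulAut.conj g).toMonoidHom).comap M.κ := by
    refine sq_gen _ fun p => ?_
    have : g * M.κ p * g⁻¹ ∈ centralizer (M.V M.b₁ : Set G) := by
      have := H8.conj_mem_cj g (K_cen M p)
      rwa [H8.cj_centralizer, H8.cj_eq_self hg] at this
    obtain ⟨v, hv, y, e⟩ := dec M this
    refine ⟨y * y, ?_⟩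
    change _ = g * M.κ (p * p) * g⁻¹
    rw [← sq_vk M hv, ← e, map_mul]; group
  obtain ⟨x', h⟩ := key x
  exact ⟨x', h.symm⟩

/-- the embedding of the other blocks -/
abbrev up (P : Finset {b // b ≠ M.b₁}) : Finset B := P.map (Function.Embedding.subtype _)

theorem notMem_up (P : Finset {b // b ≠ M.b₁}) : M.b₁ ∉ up M P := by simp [up]

theorem mem_up {P : Finset {b // b ≠ M.b₁}} {b : {b // b ≠ M.b₁}} : b.1 ∈ up M P ↔ b ∈ P :=
  Finset.mem_map' (Function.Embedding.subtype _)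

theorem exists_up {P : Finset B} (hP : M.b₁ ∉ P) : ∃ P', P = up M P' :=
  ⟨P.subtype _, (Finset.subtype_map_of_mem (p := fun b => b ≠ M.b₁) fun x hx (e : x = M.b₁) => hP (e ▸ hx)).symm⟩

theorem card_up (P : Finset {b // b ≠ M.b₁}) : (up M P).card = P.card := Finset.card_map _

variable {M}

theorem κ_yK (h : M.LabY) (P : Finset {b // b ≠ M.b₁}) : M.κ (yK s P) = M.yP (up M P) := by
  induction P using Finset.induction_on with
  | empty => rw [yK_empty, map_one, up, Finset.map_empty, JF.yP_empty]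
  | insert b P hb ih =>
    rw [yK_insert hb, map_mul, h, ih, up, up, Finset.map_insert, JF.yP_insert]
    · rfl
    · exact fun e => hb ((mem_up M).1 e)

theorem w1a (h : M.LabY) {x : Alt (Pt {b // b ≠ M.b₁} s)} (hx : x * x = 1) {P : Finset B}
    (hP : M.b₁ ∉ P) (hc : x.1.support.card = 4 * P.card) : ∃ k, M.κ k * M.κ x * (M.κ k)⁻¹ = M.yP P := by
  obtain ⟨P, rfl⟩ := exists_up M hP
  obtain ⟨k, hk⟩ := Sur.conj_supp hx (yK_sq P) (by rw [Sur.w, Sur.w, hc, card_supp, card_up])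
  exact ⟨k, by rw [← map_inv, ← map_mul, ← map_mul, hk, κ_yK h]⟩

theorem size (M : Mid G B s) {x : Alt (Pt {b // b ≠ M.b₁} s)} (hx : x * x = 1) :
    ∃ P : Finset B, M.b₁ ∉ P ∧ x.1.support.card = 4 * P.card := by
  obtain ⟨P, hP⟩ := exists_size M.hs hx
  exact ⟨up M P, notMem_up M P, by rw [card_up, hP]⟩

end W

open W

theorem Mid.norm_K (M : Mid G B s) : normalizer (M.V M.b₁ : Set G) ≤ normalizer (M.κ.range : Set G) := by
  intro g hg
  refine H8.mem_normalizer_of_cj_le ?_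
  rintro _ ⟨_, ⟨x, rfl⟩, rfl⟩
  obtain ⟨x', h⟩ := conjK M hg x
  exact ⟨x', h.symm⟩

theorem Mid.w1 (M : Mid G B s) (h : M.LabY) {x : Alt (Pt {b // b ≠ M.b₁} s)} (hx : x * x = 1) {P : Finset B}
    (hP : M.b₁ ∉ P) (hc : x.1.support.card = 4 * P.card) :
    (∃ k, M.κ k * M.κ x * (M.κ k)⁻¹ = M.yP P) ∧ ∀ v ∈ M.V M.b₁, v ≠ 1 → IsConj (v * M.κ x) (M.y M.b₁ * M.yP P) := by
  refine ⟨w1a h hx hP hc, fun v hv h1 => ?_⟩
  obtain ⟨t, ht, e⟩ := rotV M.toJF M.r1 hv h1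
  obtain ⟨x', hx'⟩ := conjK M ht x
  have sq : x' * x' = 1 := M.inj (by
    rw [map_mul, ← hx', map_one]
    calc _ = t * M.κ (x * x) * t⁻¹ := by rw [map_mul]; group
      _ = 1 := by rw [hx, map_one]; group)
  obtain ⟨Q, hQ, cQ⟩ := size M sq
  obtain ⟨k, hk⟩ := w1a h hx hP hc
  obtain ⟨k', hk'⟩ := w1a h sq hQ cQ
  have c : P.card = Q.card := M.toJF.wt M.jg (isConj_iff.2 ⟨M.κ k' * t * (M.κ k)⁻¹, by
    rw [← hk, ← hk', ← hx']; group⟩)
  obtain ⟨k'', hk''⟩ := w1a h sq hP (by rw [cQ, c])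
  refine isConj_iff.2 ⟨M.κ k'' * t, ?_⟩
  calc M.κ k'' * t * (v * M.κ x) * (M.κ k'' * t)⁻¹
      = M.κ k'' * ((t * v * t⁻¹) * (t * M.κ x * t⁻¹)) * (M.κ k'')⁻¹ := by group
    _ = (M.κ k'' * M.y M.b₁) * M.κ x' * (M.κ k'')⁻¹ := by rw [e, hx']; group
    _ = M.y M.b₁ * (M.κ k'' * M.κ x' * (M.κ k'')⁻¹) := by rw [← VK M (yV _ _)]; group
    _ = _ := by rw [hk'']

theorem Mid.w0 (M : Mid G B s) (h : M.LabY) {P Q : Finset B} (hc : P.card = Q.card) : IsConj (M.yP P) (M.yP Q) := by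
  let S : Subgroup (Perm B) :=
    { carrier := {π | ∃ g : G, ∀ b, g * M.y b * g⁻¹ = M.y (π b)}
      one_mem' := ⟨1, fun b => by simp⟩
      mul_mem' := by
        rintro π π' ⟨g, hg⟩ ⟨g', hg'⟩
        exact ⟨g * g', fun b => by rw [Perm.mul_apply, ← hg, ← hg']; group⟩
      inv_mem' := by
        rintro π ⟨g, hg⟩
        refine ⟨g⁻¹, fun b => ?_⟩
        have := hg (π⁻¹ b)
        rw [show π (π⁻¹ b) = b by simp] at this
        rw [← this]; group }
  have s1 : ∀ c d, c ≠ M.b₁ → d ≠ M.b₁ → swap c d ∈ S := by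
    intro c d hc hd
    obtain ⟨g, -, hg⟩ := Cs.sw0 (s := s) (Finset.univ : Finset {b // b ≠ M.b₁}) ⟨c, hc⟩ ⟨d, hd⟩ (by simp)
    refine ⟨M.κ g, fun b => ?_⟩
    by_cases e : b = M.b₁
    · subst e
      rw [swap_apply_of_ne_of_ne hc.symm hd.symm, ← VK M (yV _ _)]; group
    · rw [← h ⟨b, e⟩, ← map_inv, ← map_mul, ← map_mul, (hg _).1, h]
      congr 1
      simp only [swap_apply_def, Subtype.mk.injEq]
      split_ifs <;> rfl
  have s2 : ∀ c, c ≠ M.b₁ → swap M.b₁ c ∈ S := by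
    intro c hc
    have h0 : swap M.b₁ M.b₂ ∈ S := ⟨M.σ, M.σy⟩
    by_cases e : c = M.b₂
    · rwa [e]
    · rw [swap_comm, ← swap_mul_swap_mul_swap M.ne.symm hc.symm]
      exact mul_mem (mul_mem (s1 _ _ M.ne hc) h0) (s1 _ _ M.ne hc)
  have top : (⊤ : Subgroup (Perm B)) ≤ S := by
    rw [← Perm.closure_isSwap, closure_le]
    rintro _ ⟨c, d, hcd, rfl⟩
    by_cases e : c = M.b₁
    · subst e; exact s2 d hcd.symm
    · by_cases e' : d = M.b₁
      · subst e'; rw [swap_comm]; exact s2 c e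
      · exact s1 c d e e'
  obtain ⟨π, hπ⟩ := Perm.exists_map_finset_eq P Q hc
  obtain ⟨g, hg⟩ := top (mem_top π)
  exact isConj_iff.2 ⟨g, by rw [M.toJF.yP_conj π hg, hπ]⟩

theorem W.wv {M : Mid G B s} (h : M.LabY) {x : Alt (Pt {b // b ≠ M.b₁} s)} (h1 : x ≠ 1) {v : G} (hv : v ∈ M.V M.b₁)
    (hc : IsConj (M.y M.b₁) (v * M.κ x)) : v = 1 := by
  have hx : x * x = 1 := M.inj (by
    obtain ⟨c, hc⟩ := isConj_iff.1 hc
    rw [← sq_vk M hv, ← hc, map_one]
    calc _ = c * (M.y M.b₁ * M.y M.b₁) * c⁻¹ := by group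
      _ = 1 := by rw [M.y2]; group)
  by_contra hne
  obtain ⟨P, hP, cP⟩ := size M hx
  have h2 := hc.trans ((M.w1 h hx hP cP).2 v hv hne)
  rw [← M.toJF.yP_insert hP, ← M.toJF.yP_single] at h2
  have := M.toJF.wt M.jg h2
  rw [Finset.card_singleton, Finset.card_insert_of_notMem hP] at this
  exact h1 (Sur.w_zero (by rw [Sur.w, cP]; omega))

theorem Mid.wq (M : Mid G B s) (h : M.LabY) {g k v : G} (hk : k ∈ centralizer (H8.cj g (M.V M.b₁) : Set G))
    (hk' : k ∉ H8.cj g (M.V M.b₁)) (hv : v ∈ H8.cj g (M.V M.b₁)) (h1 : IsConj (M.y M.b₁) k)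
    (h2 : IsConj (M.y M.b₁) (k * v)) : v = 1 := by
  rw [← H8.cj_centralizer, H8.mem_cj] at hk
  rw [H8.mem_cj] at hk' hv
  obtain ⟨v0, hv0, x, e⟩ := dec M hk
  have x1 : x ≠ 1 := by
    rintro rfl
    exact hk' (by rw [e, map_one, mul_one]; exact hv0)
  have c1 : IsConj (M.y M.b₁) (v0 * M.κ x) := h1.trans (isConj_iff.2 ⟨g⁻¹, by rw [← e]; group⟩)
  have v1 := W.wv h x1 hv0 c1
  rw [v1, one_mul] at e
  have c2 : IsConj (M.y M.b₁) (g⁻¹ * v * g * M.κ x) := h2.trans (isConj_iff.2 ⟨g⁻¹, by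
    rw [VK M hv, ← e]; group⟩)
  have v2 := W.wv h x1 hv c2
  calc v = g * (g⁻¹ * v * g) * g⁻¹ := by group
    _ = 1 := by rw [v2]; group

end Cfsg.Agent.WA.Al
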