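import Cfsg.Agent.WA.AlX70
import Cfsg.Agent.WA.AlGen

/-! S3218, module AlX7: the case `L₃(2)` in degree 10. -/

set_option autoImplicit false
set_option linter.unusedSectionVars false

namespace Cfsg.Agent.WA.Al

open Subgroup Equiv JA Gen

universe u

variable {G : Type u} [Group G] [Finite G] {B : Type} [Fintype B] [DecidableEq B] {s : ℕ}

namespace X7

theorem Od_le (H : Subgroup G) : Od H ≤ H := (closure_le _).mpr fun _ h => h.1

theorem memV (F : JF G B) (b : B) {v : G} : v ∈ F.V b ↔ v = 1 ∨ v = F.a b ∨ v = F.y b ∨ v = F.y b * F.a b :=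
  H3.mem_closure_two (F.y2 b) (F.a2 b) (F.ya b b)

theorem V_le (F : JF G B) (b : B) : F.V b ≤ centralizer (F.V b : Set G) := by
  rw [JF.V, closure_le]
  rintro _ (rfl | rfl)
  exacts [(mem_cV F b).mpr ⟨rfl, F.ya b b⟩, (mem_cV F b).mpr ⟨(F.ya b b).symm, rfl⟩]

theorem V_sq (F : JF G B) (b : B) {v : G} (h : v ∈ F.V b) : v * v = 1 := by
  rcases (memV F b).mp h with h | h | h | h <;> rw [h]
  exacts [mul_one _, F.a2 b, F.y2 b, by rw [mul_assoc, ← mul_assoc (F.a b), ← F.ya, mul_assoc, F.a2, mul_one, F.y2]]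

theorem X_le (F : JF G B) (b : B) : F.V b ⊔ Od (centralizer (F.V b : Set G)) ≤ centralizer (F.V b : Set G) :=
  sup_le (V_le F b) (Od_le _)

theorem X_norm {V : Subgroup G} {g x : G} (hg : g ∈ normalizer (V : Set G))
    (hx : x ∈ V ⊔ Od (centralizer (V : Set G))) : g * x * g⁻¹ ∈ V ⊔ Od (centralizer (V : Set G)) := by
  have : (V ⊔ Od (centralizer (V : Set G))).map (MulAut.conj g).toMonoidHom ≤ V ⊔ Od (centralizer (V : Set G)) := by
    rw [Subgroup.map_sup]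
    refine sup_le_sup ?_ ?_
    · rintro _ ⟨v, hv, rfl⟩
      exact H3.U.conj_mem' hg hv
    · rw [Od, MonoidHom.map_closure, closure_le]
      rintro _ ⟨y, ⟨h1, h2⟩, rfl⟩
      refine subset_closure ⟨fun v hv => ?_, by rwa [MulEquiv.coe_toMonoidHom, MulEquiv.orderOf_eq]⟩
      change v * (g * y * g⁻¹) = g * y * g⁻¹ * v
      calc _ = g * (g⁻¹ * v * g * y) * g⁻¹ := by group
        _ = _ := by rw [h1 _ (H3.U.conj_mem hg hv)]; group
  exact this ⟨x, hx, rfl⟩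

theorem e_norm (F : JF G B) (b : B) : F.e b ∈ normalizer (F.V b : Set G) := by
  refine H3.mem_normalizer_closure ?_
  have ei : (F.e b)⁻¹ = F.e b := H3.inv_eq_of_sq (F.e2 b)
  rintro _ (rfl | rfl) <;> rw [ei]
  · rw [← F.ye, mul_assoc, F.e2, mul_one]; exact subset_closure (by simp)
  · rw [ea, mul_assoc, F.e2, mul_one]
    exact mul_mem (subset_closure (by simp)) (subset_closure (by simp))

/-- the model of `J` for two blocks -/
def ps2 (F : JF G B) {b c : B} (h : b ≠ c) : D × D →* G := (ph F b).noncommCoprod (ph F c) (ph_comm F h)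

theorem ps2_l (F : JF G B) {b c : B} (h : b ≠ c) (d : D) : ps2 F h (d, 1) = ph F b d := by simp [ps2]
theorem ps2_r (F : JF G B) {b c : B} (h : b ≠ c) (d : D) : ps2 F h (1, d) = ph F c d := by simp [ps2]

end X7

open X7

theorem CS.x7 (S : CS G B s) {b₁ b₂ : B} (T : Two S b₁ b₂ 1) (hB : Fintype.card B = 2)
    (hg : centralizer ({S.z} : Set G) ⊓ centralizer (S.V b₁ : Set G) ≤ S.V b₁ ⊔ Od (centralizer (S.V b₁ : Set G)))
    (h7 : ¬ 7 ∣ Nat.card (centralizer ({S.z} : Set G)))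
    {X : Type u} [Group X] [Finite X] [IsSimpleGroup X] (p : ↥(S.V b₁ ⊔ Od (centralizer (S.V b₁ : Set G))) →* X)
    (hp : Function.Surjective p) (hk : ∀ x, p x = 1 ↔ x.1 ∈ S.V b₁) (hX : Nat.card X = 168)
    (hz : S.z ∈ S.V b₁ ⊔ Od (centralizer (S.V b₁ : Set G)))
    (h8 : Nat.card (centralizer ({p ⟨S.z, hz⟩} : Set X)) = 8) : False := by
  have hb : ∀ b, b = b₁ ∨ b = b₂ := fun b => by
    have : ({b₁, b₂} : Finset B) = Finset.univ :=
      Finset.eq_univ_of_card _ (by rw [Finset.card_pair T.ne, hB])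
    have h := Finset.mem_univ b
    rw [← this] at h
    simpa using h
  have hK : S.K = {b₁, b₂} := by
    ext b
    rcases hb b with rfl | rfl <;> simp [T.m1, T.m2]
  have ez : S.z = S.y b₁ * S.y b₂ := by
    rw [S.hz, hK, S.yP_insert (by simpa using T.ne), S.yP_single]
  let ψ := ps2 S.toJF T.ne
  have py1 : ψ (D.y, 1) = S.y b₁ := (ps2_l _ _ _).trans (ph_y _ _)
  have pa1 : ψ (D.a, 1) = S.a b₁ := (ps2_l _ _ _).trans (ph_a _ _)
  have pe1 : ψ (D.e, 1) = S.e b₁ := (ps2_l _ _ _).trans (ph_e _ _)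
  have py2 : ψ (1, D.y) = S.y b₂ := (ps2_r _ _ _).trans (ph_y _ _)
  have pa2 : ψ (1, D.a) = S.a b₂ := (ps2_r _ _ _).trans (ph_a _ _)
  have pe2 : ψ (1, D.e) = S.e b₂ := (ps2_r _ _ _).trans (ph_e _ _)
  have pz : ψ (D.y, D.y) = S.z := by rw [ez, ← py1, ← py2, ← map_mul]; rfl
  have mX : ∀ m : D × D, m * (D.y, D.y) = (D.y, D.y) * m → m * (D.y, 1) = (D.y, 1) * m → m * (D.a, 1) = (D.a, 1) * m →
      ψ m ∈ S.V b₁ ⊔ Od (centralizer (S.V b₁ : Set G)) := fun m h1 h2 h3 =>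
    hg ⟨mem_centralizer_singleton_iff.mpr (by rw [← pz, ← map_mul, h1, map_mul]),
      (mem_cV _ _).mpr ⟨by rw [← py1, ← map_mul, h2, map_mul], by rw [← pa1, ← map_mul, h3, map_mul]⟩⟩
  obtain ⟨ta, ra, ta1, ta2⟩ := T.r2
  obtain ⟨tb, c, rb, tb1, tb2, hc⟩ := T.r3
  rw [mul_one] at ra ta2 tb2
  obtain ⟨mc, hmc, rfl⟩ : ∃ mc : D × D, (mc = (1, D.e) ∨ mc = (1, D.y * D.e) ∨ mc = (D.y, D.e) ∨ mc = (D.y, D.y * D.e)) ∧
      ψ mc = c := by
    have h1 : c * S.e b₂ ∈ closure ({S.y b₁, S.y b₂} : Set G) := by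
      refine closure_mono ?_ hc
      rintro _ (⟨b, rfl⟩ | ⟨b, hb', -⟩)
      · rcases hb b with rfl | rfl <;> simp
      · exact absurd (by rcases hb b with rfl | rfl; exacts [T.m1, T.m2]) hb'
    have h2 : c = c * S.e b₂ * S.e b₂ := by rw [mul_assoc, S.e2, mul_one]
    rcases (H3.mem_closure_two (S.y2 _) (S.y2 _) (S.yy _ _)).mp h1 with e | e | e | e <;> rw [e] at h2
    · exact ⟨_, .inl rfl, by rw [h2, pe2, one_mul]⟩
    · exact ⟨_, .inr (.inl rfl), by rw [h2, ← py2, ← pe2, ← map_mul]; rfl⟩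
    · exact ⟨_, .inr (.inr (.inl rfl)), by rw [h2, ← py1, ← pe2, ← map_mul]; rfl⟩
    · exact ⟨_, .inr (.inr (.inr rfl)), by rw [h2, ← py1, ← py2, ← pe2, ← map_mul, ← map_mul]; rfl⟩
  have taC : ta ∈ centralizer (S.V b₁ : Set G) := (mem_cV _ _).mpr ⟨ta1, ta2⟩
  have tbC : tb ∈ centralizer (S.V b₁ : Set G) := (mem_cV _ _).mpr ⟨tb1, tb2⟩
  let Ta : ↥(S.V b₁ ⊔ Od (centralizer (S.V b₁ : Set G))) := ⟨ta, mem_sup_right (subset_closure ⟨taC, ra.odd⟩)⟩
  let Tb : ↥(S.V b₁ ⊔ Od (centralizer (S.V b₁ : Set G))) := ⟨tb, mem_sup_right (subset_closure ⟨tbC, rb.odd⟩)⟩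
  let Y2 : ↥(S.V b₁ ⊔ Od (centralizer (S.V b₁ : Set G))) := ⟨ψ (1, D.y), mX _ (by decide) (by decide) (by decide)⟩
  let A2 : ↥(S.V b₁ ⊔ Od (centralizer (S.V b₁ : Set G))) := ⟨ψ (1, D.a), mX _ (by decide) (by decide) (by decide)⟩
  let C2 : ↥(S.V b₁ ⊔ Od (centralizer (S.V b₁ : Set G))) := ⟨ψ mc, mX _
    (by rcases hmc with h | h | h | h <;> rw [h] <;> decide) (by rcases hmc with h | h | h | h <;> rw [h] <;> decide)
    (by rcases hmc with h | h | h | h <;> rw [h] <;> decide)⟩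
  have pzy : p ⟨S.z, hz⟩ = p Y2 := by
    rw [← mul_inv_eq_one, ← map_inv, ← map_mul, hk]
    change S.z * (ψ (1, D.y))⁻¹ ∈ _
    rw [ez, py2, mul_inv_cancel_right]
    exact subset_closure (by simp)
  let cj : ↥(S.V b₁ ⊔ Od (centralizer (S.V b₁ : Set G))) →* ↥(S.V b₁ ⊔ Od (centralizer (S.V b₁ : Set G))) :=
    MonoidHom.mk' (fun x => ⟨S.e b₁ * x * (S.e b₁)⁻¹, X_norm (e_norm _ _) x.2⟩) fun x y => Subtype.ext (by
      simp only [coe_mul]; group)
  let δ : X →* X := p.liftOfSurjective hp ⟨p.comp cj, fun x hx =>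
    (hk _).mpr (H3.U.conj_mem' (e_norm _ _) ((hk x).mp hx))⟩
  have hδ : ∀ x, δ (p x) = p (cj x) := fun x => MonoidHom.liftOfRightInverse_comp_apply _ _ _ _ x
  have fx : ∀ (m : D × D) (h : ψ m ∈ S.V b₁ ⊔ Od (centralizer (S.V b₁ : Set G))), (D.e, 1) * m = m * (D.e, 1) →
      δ (p ⟨ψ m, h⟩) = p ⟨ψ m, h⟩ := fun m h e => by
    rw [hδ]
    congr 1
    refine Subtype.ext ?_
    change S.e b₁ * ψ m * (S.e b₁)⁻¹ = ψ m
    rw [← pe1, ← map_mul, e, map_mul, mul_inv_cancel_right]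
  have key := aut168 hX δ (z := p Y2) (a := p A2) (c := p C2) (ta := p Ta) (tb := p Tb)
    (by rw [← map_mul, ← map_one p]; congr 1; exact Subtype.ext (by change ψ _ * ψ _ = 1; rw [py2, S.y2]))
    (by rw [← map_mul, ← map_one p]; congr 1; exact Subtype.ext (by change ψ _ * ψ _ = 1; rw [pa2, S.a2]))
    (by
      rw [← map_mul, ← map_one p]; congr 1
      refine Subtype.ext ?_
      change ψ _ * ψ _ = 1
      rw [← map_mul, ← map_one ψ]
      rcases hmc with h | h | h | h <;> rw [h] <;> rfl)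
    (by rw [← map_mul, ← map_mul]; congr 1; exact Subtype.ext (by change ψ _ * ψ _ = ψ _ * ψ _; rw [py2, pa2, S.ya]))
    (by
      rw [← map_mul, ← map_mul]; congr 1
      refine Subtype.ext ?_
      change ψ _ * ψ _ = ψ _ * ψ _
      rw [← map_mul, ← map_mul]
      rcases hmc with h | h | h | h <;> rw [h] <;> rfl)
    (by
      rw [← map_mul, ← map_mul, ← map_mul]; congr 1
      refine Subtype.ext ?_
      change ψ _ * ψ _ * ψ _ = ψ _ * ψ _
      rw [← map_mul, ← map_mul, ← map_mul]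
      rcases hmc with h | h | h | h <;> rw [h] <;> rfl)
    (by
      rw [Ne, hk]
      change ψ _ ∉ _
      rw [py2, memV]
      have n1 : ∀ v, v * S.e b₁ = S.e b₁ * v → v * S.a b₁ * S.e b₁ ≠ S.e b₁ * (v * S.a b₁) := fun v hv e => by
        rw [← mul_assoc, ← hv, mul_assoc v (S.e b₁), ea, mul_assoc, mul_right_inj, mul_assoc, right_eq_mul] at e
        exact y_ne _ _ e
      rintro (e | e | e | e)
      · exact y_ne _ _ e
      · exact n1 1 (by simp) (by rw [one_mul, ← e, S.ye])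
      · exact T.ne (y_inj _ e).symm
      · exact n1 _ (S.ye b₁ b₁) (by rw [← e, S.ye]))
    (pzy ▸ h8)
    (by rw [← map_inv, ← map_mul, ← map_mul]; congr 1; exact Subtype.ext (by change ta * ψ _ * ta⁻¹ = ψ _; rw [py2, pa2, ra.h1]))
    (by
      rw [← map_inv, ← map_mul, ← map_mul, ← map_mul]; congr 1
      exact Subtype.ext (by change ta * ψ _ * ta⁻¹ = ψ _ * ψ _; rw [py2, pa2, ra.h2]))
    (by rw [← map_inv, ← map_mul, ← map_mul]; congr 1; exact Subtype.ext (by change tb * ψ _ * tb⁻¹ = ψ _; rw [py2, rb.h1]))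
    (by
      rw [← map_inv, ← map_mul, ← map_mul, ← map_mul]; congr 1
      exact Subtype.ext (by change tb * ψ _ * tb⁻¹ = ψ _ * ψ _; rw [py2, rb.h2]))
    (fx _ _ (by decide)) (fx _ _ (by decide)) (fx _ _ (by rcases hmc with h | h | h | h <;> rw [h] <;> decide))
  obtain ⟨md, hmd, hd⟩ : ∃ md : D × D, (md = (D.e, 1) ∨ md = (D.e, D.y)) ∧
      ∀ x : ↥(S.V b₁ ⊔ Od (centralizer (S.V b₁ : Set G))), ψ md * x * (ψ md)⁻¹ * (x : G)⁻¹ ∈ S.V b₁ := by
    rcases key with k | k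
    · refine ⟨_, .inl rfl, fun x => ?_⟩
      have := k (p x)
      rw [hδ, ← mul_inv_eq_one, ← map_inv, ← map_mul, hk] at this
      rwa [pe1]
    · refine ⟨_, .inr rfl, fun x => ?_⟩
      have := k (p x)
      rw [hδ, ← mul_inv_eq_one, ← map_inv, ← map_inv, ← map_mul, ← map_mul, ← map_mul, hk] at this
      rw [show ((D.e, D.y) : D × D) = (1, D.y) * (D.e, 1) by decide, map_mul, pe1]
      convert this using 1
      change _ = ψ _ * (S.e b₁ * x * (S.e b₁)⁻¹) * (ψ _)⁻¹ * (x : G)⁻¹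
      group
  have hodd : ∀ x : ↥(S.V b₁ ⊔ Od (centralizer (S.V b₁ : Set G))), Odd (orderOf x) → (x : G) * ψ md = ψ md * x :=
    fun x hx => by
      have h1 := hd x
      have h2 : Commute (ψ md * x * (ψ md)⁻¹ * (x : G)⁻¹) x := X_le _ _ x.2 _ h1
      have h3 := h2.mul_pow (orderOf x)
      rw [inv_mul_cancel_right, conj_pow, ← orderOf_coe, pow_orderOf_eq_one, mul_one, mul_one, mul_inv_cancel,
        orderOf_coe] at h3
      obtain ⟨k, hk'⟩ := hx
      rw [hk', pow_succ, pow_mul, pow_two, V_sq _ _ h1, one_pow, one_mul, eq_comm, mul_inv_eq_one,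
        mul_inv_eq_iff_eq_mul] at h3
      exact h3.symm
  have : Fact (Nat.Prime 7) := ⟨by norm_num⟩
  obtain ⟨x, hx⟩ := exists_prime_orderOf_dvd_card' (G := ↥(S.V b₁ ⊔ Od (centralizer (S.V b₁ : Set G)))) 7
    (Dvd.dvd.trans (by rw [hX]; norm_num) (card_dvd_of_surjective p hp))
  have x1 := hodd x (by rw [hx]; decide)
  have x2 := ((mem_cV _ _).mp (X_le _ _ x.2)).1
  have nc : ∀ w, (x : G) * w = w * x → ¬ IsConj S.z w := fun w hw H => by
    obtain ⟨g, e⟩ := isConj_iff.mp H.symm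
    refine h7 ?_
    rw [← e, ← H8.cj_centralizer_singleton, H8.card_cj, ← hx, ← orderOf_coe]
    exact Subgroup.orderOf_dvd_natCard _ (mem_centralizer_singleton_iff.mpr hw)
  have cm : ∀ m n : D × D, (∃ w, w * m * w⁻¹ = n) → IsConj (ψ m) (ψ n) := fun m n h => ψ.map_isConj (isConj_iff.mpr h)
  obtain ⟨g, gz, g1, -, g3, -⟩ := S.sp b₁ T.m1 b₂ T.m2 T.ne
  have t1 := hodd Tb (by rw [← orderOf_coe]; exact rb.odd)
  change tb * _ = _ * tb at t1
  have f1 : IsConj (S.y b₁) (ψ (md * (1, D.y))) := by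
    refine (isConj_iff.mpr ⟨g, g1⟩).trans (IsConj.trans (b := ψ (md * mc)) ?_ (isConj_iff.mpr ⟨tb, ?_⟩).symm)
    · rw [← pe1, ← pe2, ← map_mul]
      refine cm _ (md * mc) ?_
      rcases hmd with h | h <;> rcases hmc with h' | h' | h' | h' <;> rw [h, h'] <;> decide
    · rw [map_mul, map_mul, ← mul_assoc, t1, py2, ← rb.h1]; group
  have n1 := nc _ x2
  have n2 : ∀ n : D × D, n = (D.e * D.y, 1) ∨ n = (D.e, D.y) → ¬ IsConj S.z (ψ n) := fun n hn H => by
    have : n = md ∨ n = md * (D.y, 1) ∨ ∃ w, w * (md * (1, D.y)) * w⁻¹ = n := by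
      rcases hmd with h | h <;> rcases hn with h' | h' <;> rw [h, h'] <;> decide
    rcases this with e | e | e
    · exact nc _ x1 (e ▸ H)
    · refine nc _ ?_ H
      rw [e, map_mul, py1, ← mul_assoc, x1, mul_assoc, x2, mul_assoc]
    · exact n1 (H.trans (f1.trans (cm _ _ e)).symm)
  have f2 : IsConj S.z (ψ ((D.y, 1) * mc)) := isConj_iff.mpr ⟨tb, by
    rw [map_mul, py1, ez, ← mul_assoc, tb1, ← rb.h1]; group⟩
  have : (∃ w, w * ((D.y, 1) * mc) * w⁻¹ = ((1, D.e) : D × D)) ∨ ∃ w, w * ((D.y, 1) * mc) * w⁻¹ = (1, D.e) * (D.y, D.y) := by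
    rcases hmc with h' | h' | h' | h' <;> rw [h'] <;> decide
  rcases this with e | e
  · refine n2 _ (.inl rfl) ((f2.trans (cm _ _ e)).trans (isConj_iff.mpr ⟨g, ?_⟩))
    rw [pe2, g3, ← pe1, ← py1, ← map_mul]; rfl
  · refine n2 _ (.inr rfl) ((f2.trans (cm _ _ e)).trans (isConj_iff.mpr ⟨g, ?_⟩))
    rw [map_mul, pe2, pz, mul_assoc g, mul_assoc, ← Commute.inv_left gz, ← mul_assoc, ← mul_assoc, g3, ← pe1,
      ← py1, ← pz, ← map_mul, ← map_mul]
    rfl

end Cfsg.Agent.WA.Al
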