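import Cfsg.Agent.WA.H3U5
import Cfsg.Agent.WA.H3U
import Cfsg.Agent.WA.H3V

/-! S3218, module AlX7, part 0: endomorphisms of a simple group of order 168 fixing a Sylow 2-subgroup. -/

set_option autoImplicit false

namespace Cfsg.Agent.WA.Al.X7

open Subgroup H3

variable {X : Type*} [Group X]

theorem lemA (δ : X →* X) {z a e t : X} (z2 : z * z = 1) (a2 : a * a = 1) (e2 : e * e = 1) (za : z * a = a * z)
    (ze : z * e = e * z) (ea : e * a * e = a * z) (z1 : z ≠ 1) (t1 : t * z * t⁻¹ = a) (t2 : t * a * t⁻¹ = z * a)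
    (dz : δ z = z) (da : δ a = a) (de : δ e = e)
    (hC : ∀ g, g * z = z * g → g * a = a * g → g = 1 ∨ g = z ∨ g = a ∨ g = a * z) : δ t = t ∨ z * δ t * z = t := by
  have t3 : t * (z * a) * t⁻¹ = z := by
    calc _ = (t * z * t⁻¹) * (t * a * t⁻¹) := by group
      _ = _ := by rw [t1, t2, za, ← mul_assoc, a2, one_mul]
  have d1 := congrArg δ t1
  have d2 := congrArg δ t2
  have d3 := congrArg δ t3
  simp only [map_mul, map_inv, dz, da] at d1 d2 d3
  have hk := hC (δ t * t⁻¹) (by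
    calc _ = δ t * (t⁻¹ * (t * (z * a) * t⁻¹)) := by rw [t3, mul_assoc]
      _ = δ t * (z * a) * (δ t)⁻¹ * (δ t * t⁻¹) := by group
      _ = _ := by rw [d3]) (by
    calc _ = δ t * (t⁻¹ * (t * z * t⁻¹)) := by rw [t1, mul_assoc]
      _ = δ t * z * (δ t)⁻¹ * (δ t * t⁻¹) := by group
      _ = _ := by rw [d1])
  have ei : e⁻¹ = e := inv_eq_of_sq e2
  have eza : e * (z * a) * e = a := by
    calc _ = z * (e * a * e) := by rw [← mul_assoc, ← ze]; group
      _ = _ := by rw [ea, ← mul_assoc, za, mul_assoc, z2, mul_one]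
  have eze : e * z * e = z := by rw [← ze, mul_assoc, e2, mul_one]
  have hu : δ (e * t * e * t) = e * t * e * t := by
    have := hC (e * t * e * t) (by
      rw [← mul_inv_eq_iff_eq_mul]
      calc _ = e * (t * (e * (t * z * t⁻¹) * e⁻¹) * t⁻¹) * e⁻¹ := by group
        _ = _ := by rw [t1, ei, ea, ← za, t3, eze]) (by
      rw [← mul_inv_eq_iff_eq_mul]
      calc _ = e * (t * (e * (t * a * t⁻¹) * e⁻¹) * t⁻¹) * e⁻¹ := by group
        _ = _ := by rw [t2, ei, eza, t2, eza])
    rcases this with h | h | h | h <;> rw [h]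
    exacts [map_one δ, dz, da, by rw [map_mul, da, dz]]
  obtain ⟨k, hk'⟩ : ∃ k, δ t = k * t := ⟨δ t * t⁻¹, by group⟩
  rw [hk', mul_inv_cancel_right] at hk
  rw [map_mul, map_mul, map_mul, de, hk'] at hu
  have h1 : k * (t * (e * k * e) * t⁻¹) = 1 := by
    calc _ = e⁻¹ * (e * (k * t) * e * (k * t)) * t⁻¹ * e * t⁻¹ := by group
      _ = t * (e * e) * t⁻¹ := by rw [hu]; group
      _ = _ := by rw [e2]; group
  have az : a ≠ z := fun h => by
    rw [h, eze, z2] at ea
    exact z1 ea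
  rw [hk']
  rcases hk with h | h | h | h <;> rw [h] at h1 ⊢
  · exact .inl (one_mul t)
  · rw [eze, t1] at h1
    exact absurd (mul_left_cancel (h1.trans z2.symm)) az
  · rw [ea, ← za, t3] at h1
    exact absurd (mul_left_cancel (h1.trans a2.symm)) az.symm
  · refine .inr ?_
    calc _ = z * (a * z) * (t * z * t⁻¹) * t := by group
      _ = _ := by rw [t1, ← za, ← mul_assoc z, z2, one_mul, a2, one_mul]

variable [Finite X]

theorem four_le {z a e : X} (z2 : z * z = 1) (z1 : z ≠ 1) (ze : z * e = e * z) (ae : e * a ≠ a * e) :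
    4 ≤ Nat.card (closure ({a, z} : Set X)) := by
  have h1 := U.two_mul_le (bot_le : ⊥ ≤ closure ({z} : Set X)) (g := z) (subset_closure rfl) (by rwa [mem_bot])
  have h2 := U.two_mul_le (closure_mono (by simp) : closure ({z} : Set X) ≤ closure {a, z}) (g := a)
    (subset_closure (by simp)) fun h => by
      rcases (mem_closure_one z2).mp h with h | h <;> rw [h] at ae
      exacts [ae (by simp), ae ze.symm]
  rw [card_bot] at h1
  omega

theorem lemB {z a e : X} (z2 : z * z = 1) (a2 : a * a = 1) (za : z * a = a * z) (z1 : z ≠ 1) (ze : z * e = e * z)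
    (ae : e * a ≠ a * e) (h8 : Nat.card (centralizer ({z} : Set X)) = 8) (g : X) (h1 : g * z = z * g)
    (h2 : g * a = a * g) : g = 1 ∨ g = z ∨ g = a ∨ g = a * z := by
  rw [← mem_closure_two a2 z2 za.symm]
  by_contra hg
  have k1 := four_le z2 z1 ze ae
  have k2 := U.two_mul_le (P := closure ({a, z} : Set X)) (Q := centralizer {z} ⊓ centralizer {a}) (g := g) (by
    rw [closure_le]
    rintro _ (rfl | rfl)
    exacts [⟨U.mem_cen1.mpr za.symm, U.mem_cen1.mpr rfl⟩, ⟨U.mem_cen1.mpr rfl, U.mem_cen1.mpr za⟩])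
    ⟨U.mem_cen1.mpr h1, U.mem_cen1.mpr h2⟩ hg
  have k3 := U.two_mul_le (inf_le_left : centralizer {z} ⊓ centralizer {a} ≤ centralizer ({z} : Set X)) (g := e)
    (U.mem_cen1.mpr ze.symm) fun h => ae (U.mem_cen1.mp h.2)
  omega

theorem lemC [IsSimpleGroup X] (hX : Nat.card X = 168) (η : X →* X) {z a c ta tb : X} (z2 : z * z = 1) (a2 : a * a = 1)
    (c2 : c * c = 1) (za : z * a = a * z) (zc : z * c = c * z) (ac : a * c * a = c * z) (z1 : z ≠ 1)
    (h8 : Nat.card (centralizer ({z} : Set X)) = 8) (a1 : ta * z * ta⁻¹ = a) (a3 : ta * a * ta⁻¹ = z * a)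
    (b1 : tb * z * tb⁻¹ = c) (b3 : tb * c * tb⁻¹ = z * c) (dz : η z = z) (da : η a = a) (dc : η c = c)
    (dt : η ta = ta) (x : X) : η x = x := by
  classical
  have nac : a * c ≠ c * a := fun h => by
    rw [h, mul_assoc, a2, mul_one] at ac
    exact z1 (left_eq_mul.mp ac)
  have hb := lemA η z2 c2 a2 zc za ac z1 b1 b3 dz dc da (lemB z2 c2 zc z1 za nac h8)
  let F : Subgroup X := η.eqLocus (MonoidHom.id X)
  have mF : ∀ {g}, g ∈ F ↔ η g = g := Iff.rfl
  by_contra hx
  have Ftop : F ≠ ⊤ := fun h => hx (mF.mp (h ▸ mem_top x))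
  have hU : closure ({a, z} : Set X) ≤ F ⊓ centralizer {z} := by
    rw [closure_le]
    rintro _ (rfl | rfl)
    exacts [⟨da, U.mem_cen1.mpr za.symm⟩, ⟨dz, U.mem_cen1.mpr rfl⟩]
  have c8 : F ⊓ centralizer {z} = centralizer {z} := by
    refine eq_of_le_of_card_ge inf_le_right ?_
    have k1 := four_le z2 z1 zc nac.symm
    have k2 := U.two_mul_le hU (g := c) ⟨dc, U.mem_cen1.mpr zc.symm⟩ fun h => by
      rcases (mem_closure_two a2 z2 za.symm).mp h with h | h | h | h <;> rw [h] at nac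
      exacts [nac (by simp), nac za.symm, nac rfl, nac (by rw [mul_assoc, za])]
    omega
  have az : a ≠ z := fun h => nac (by rw [h, zc])
  have d8 : 8 ∣ Nat.card F := by rw [← h8, ← c8]; exact card_dvd_of_le inf_le_left
  have d3 : 3 ∣ Nat.card F := by
    refine Dvd.dvd.trans ?_ (F.orderOf_dvd_natCard (mF.mpr dt))
    by_contra h
    obtain ⟨m, hm⟩ := exists_pow_eq_self_of_coprime (x := ta) (n := 3) ((Nat.Prime.coprime_iff_not_dvd Nat.prime_three).mpr h)
    have h3 : Commute (ta ^ 3) z := by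
      change _ * _ = _ * _
      rw [← mul_inv_eq_iff_eq_mul]
      calc _ = ta * (ta * (ta * z * ta⁻¹) * ta⁻¹) * ta⁻¹ := by simp only [pow_succ, pow_zero, one_mul]; group
        _ = ta * (z * a) * ta⁻¹ := by rw [a1, a3]
        _ = (ta * z * ta⁻¹) * (ta * a * ta⁻¹) := by group
        _ = _ := by rw [a1, a3, za, ← mul_assoc, a2, one_mul]
    have h4 := (h3.pow_left m).eq
    rw [hm] at h4
    rw [h4, mul_inv_cancel_right] at a1
    exact az a1.symm
  have cF := F.card_mul_index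
  have i1 : F.index ≠ 1 := fun h => Ftop (index_eq_one.mp h)
  rw [hX] at cF
  obtain ⟨c24, i7⟩ : Nat.card F = 24 ∧ F.index = 7 := by
    obtain ⟨n, hn⟩ : 24 ∣ Nat.card F := Nat.Coprime.mul_dvd_of_dvd_of_dvd (by norm_num) d8 d3
    have h7 : n * F.index = 7 := by rw [hn, mul_assoc] at cF; omega
    have := (Nat.dvd_prime (by norm_num : Nat.Prime 7)).mp (Dvd.intro_left _ h7)
    have h5 : F.index = 7 := this.resolve_left i1
    rw [h5] at h7
    exact ⟨by omega, h5⟩
  rcases hb with hb | hb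
  · have k := card_eq_cls F z
    rw [c8, h8, c24] at k
    obtain ⟨p, q, r, -, -, -, e⟩ := Set.ncard_eq_three.mp (by omega : (cls F z).ncard = 3)
    have m1 : z ∈ cls F z := self_mem_cls _ _
    have m2 : a ∈ cls F z := ⟨ta⁻¹, inv_mem (mF.mpr dt), by rw [inv_inv, a1]⟩
    have m3 : c ∈ cls F z := ⟨tb⁻¹, inv_mem (mF.mpr hb), by rw [inv_inv, b1]⟩
    have m4 : z * a ∈ cls F z := ⟨(ta * ta)⁻¹, inv_mem (mul_mem (mF.mpr dt) (mF.mpr dt)), by
      rw [← a3, ← a1]; simp only [mul_inv_rev, inv_inv, mul_assoc]⟩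
    have n1 : c ≠ z := fun h => nac (by rw [h, za])
    have n2 : c ≠ a := fun h => nac (by rw [h])
    have n3 : c ≠ z * a := fun h => nac (by rw [h, ← mul_assoc, za])
    have n4 : z * a ≠ a := fun h => z1 (mul_eq_right.mp h)
    have n5 : z * a ≠ z := fun h => nac (by rw [mul_eq_left.mp h]; simp)
    rw [e] at m1 m2 m3 m4
    simp only [Set.mem_insert_iff, Set.mem_singleton_iff] at m1 m2 m3 m4
    grind
  let k : X → X := fun g => g * (η g)⁻¹
  have k1 : ∀ g y, k (y * g) = y * k g * y⁻¹ * k y := fun g y => by simp only [k, map_mul]; group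
  have k0 : ∀ {f}, f ∈ F → k f = 1 := fun h => by simp only [k, mF.mp h, mul_inv_cancel]
  have zi : z⁻¹ = z := inv_eq_of_sq z2
  have eb : η tb = z * tb * z := by
    calc _ = z * z * η tb * (z * z) := by rw [z2, one_mul, mul_one]
      _ = z * (z * η tb * z) * z := by group
      _ = _ := by rw [hb]
  have kb : k tb = z * c := by
    simp only [k]
    rw [eb, zc, ← b1, mul_inv_rev, mul_inv_rev, zi]; group
  have zc1 : z * c ≠ 1 := fun h => nac (by rw [← mul_left_cancel (h.trans z2.symm).symm, za])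
  have allF : ∀ g, k g ∈ F := fun g => by
    by_contra hg
    have := Fintype.ofFinite (X ⧸ F)
    let T0 : Finset X := Finset.univ.image fun q : X ⧸ F => k q.out
    have mT : ∀ y, k y ∈ T0 := fun y => by
      obtain ⟨f, hf⟩ := QuotientGroup.mk_out_eq_mul F y
      exact Finset.mem_image.mpr ⟨y, Finset.mem_univ _, by rw [hf, k1, k0 f.2]; group⟩
    have cT : T0.card ≤ 7 := Finset.card_image_le.trans (by
      rw [Finset.card_univ, ← Nat.card_eq_fintype_card]; exact i7.le)
    have g1 : k g ≠ 1 := fun h => hg (h ▸ one_mem _)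
    have c5 : ((T0.erase 1).erase (k g)).card ≤ 5 := by
      rw [Finset.card_erase_of_mem (Finset.mem_erase.mpr ⟨g1, mT g⟩), Finset.card_erase_of_mem (k0 (one_mem F) ▸ mT 1)]
      omega
    have zcF : z * c ∈ F := mul_mem (mF.mpr dz) (mF.mpr dc)
    have h1 := U.cls_le F (z * c) ((T0.erase 1).erase (k g)) fun f hf => by
      refine Finset.mem_erase.mpr ⟨fun e => hg (e ▸ mul_mem (mul_mem (inv_mem hf) zcF) hf), Finset.mem_erase.mpr
        ⟨fun e => zc1 (by rw [show z * c = f * (f⁻¹ * (z * c) * f) * f⁻¹ by group, e]; group), ?_⟩⟩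
      have := mT (f⁻¹ * tb)
      rwa [k1, k0 (inv_mem hf), mul_one, kb, inv_inv] at this
    have s1 : tb * tb * z * (tb * tb)⁻¹ = z * c := by rw [← b3, ← b1]; group
    have s2 : tb * tb * c * (tb * tb)⁻¹ = z := by
      calc _ = tb * (tb * c * tb⁻¹) * tb⁻¹ := by group
        _ = tb * (z * c) * tb⁻¹ := by rw [b3]
        _ = (tb * z * tb⁻¹) * (tb * c * tb⁻¹) := by group
        _ = _ := by rw [b1, b3, zc, ← mul_assoc, c2, one_mul]
    have h2 := U.two_mul_le (inf_le_right : F ⊓ centralizer {z * c} ≤ centralizer ({z * c} : Set X))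
      (g := tb * tb * a * (tb * tb)⁻¹) (U.mem_cen1.mpr (by
        rw [← s1]
        calc _ = tb * tb * (a * z) * (tb * tb)⁻¹ := by group
          _ = _ := by rw [← za]; group)) fun h => by
      have e := mF.mp h.1
      simp only [map_mul, map_inv, eb, da] at e
      have e1 : z * tb * z * (z * tb * z) * a * (z * tb * z * (z * tb * z))⁻¹ = z * (tb * tb * a * (tb * tb)⁻¹) * z⁻¹ := by
        calc _ = z * tb * (z * z) * tb * (z * a * z⁻¹) * tb⁻¹ * (z * z)⁻¹ * tb⁻¹ * z⁻¹ := by group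
          _ = _ := by rw [z2, za]; group
      rw [e1, ← s2] at e
      refine nac (Eq.symm ?_)
      rw [← mul_inv_eq_iff_eq_mul]
      calc _ = (tb * tb)⁻¹ * (tb * tb * c * (tb * tb)⁻¹ * (tb * tb * a * (tb * tb)⁻¹) *
          (tb * tb * c * (tb * tb)⁻¹)⁻¹) * (tb * tb) := by group
        _ = _ := by rw [e]; group
    have h3 : Nat.card (centralizer ({z * c} : Set X)) = 8 := by
      rw [← s1, ← H8.cj_centralizer_singleton, H8.card_cj, h8]
    rw [c24] at h1
    have h4 : Nat.card ↥(F ⊓ centralizer {z * c}) ≤ 4 := by omega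
    have := Nat.mul_le_mul c5 h4
    omega
  have hn : (closure (Set.range k)).Normal := ⟨fun n hn y => by
    have : (closure (Set.range k)).map (MulAut.conj y).toMonoidHom ≤ closure (Set.range k) := by
      rw [MonoidHom.map_closure, closure_le]
      rintro _ ⟨_, ⟨g, rfl⟩, rfl⟩
      change y * k g * y⁻¹ ∈ closure (Set.range k)
      rw [← mul_mem_cancel_right (subset_closure ⟨y, rfl⟩ : k y ∈ closure (Set.range k)), ← k1]
      exact subset_closure ⟨_, rfl⟩
    exact this ⟨n, hn, rfl⟩⟩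
  rcases hn.eq_bot_or_eq_top with h | h
  · exact zc1 (by rw [← kb, ← mem_bot, ← h]; exact subset_closure ⟨_, rfl⟩)
  · refine Ftop (eq_top_iff.mpr ?_)
    rw [← h, closure_le]
    rintro _ ⟨g, rfl⟩
    exact allF g

theorem aut168 [IsSimpleGroup X] (hX : Nat.card X = 168) (δ : X →* X) {z a c ta tb : X} (z2 : z * z = 1)
    (a2 : a * a = 1) (c2 : c * c = 1) (za : z * a = a * z) (zc : z * c = c * z) (ac : a * c * a = c * z) (z1 : z ≠ 1)
    (h8 : Nat.card (centralizer ({z} : Set X)) = 8) (a1 : ta * z * ta⁻¹ = a) (a3 : ta * a * ta⁻¹ = z * a)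
    (b1 : tb * z * tb⁻¹ = c) (b3 : tb * c * tb⁻¹ = z * c) (dz : δ z = z) (da : δ a = a) (dc : δ c = c) :
    (∀ x, δ x = x) ∨ ∀ x, z * δ x * z⁻¹ = x := by
  have ca : c * a * c = a * z := by
    calc _ = c * a * c * (a * a) := by rw [a2, mul_one]
      _ = c * (a * c * a) * a := by group
      _ = _ := by rw [ac, ← mul_assoc, c2, one_mul, za]
  have nca : c * a ≠ a * c := fun h => by
    rw [h, mul_assoc, c2, mul_one] at ca
    exact z1 (left_eq_mul.mp ca)
  rcases lemA δ z2 a2 c2 za zc ca z1 a1 a3 dz da dc (lemB z2 a2 za z1 zc nca h8) with h | h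
  · exact .inl (lemC hX δ z2 a2 c2 za zc ac z1 h8 a1 a3 b1 b3 dz da dc h)
  · refine .inr (lemC hX ((MulAut.conj z).toMonoidHom.comp δ) z2 a2 c2 za zc ac z1 h8 a1 a3 b1 b3 ?_ ?_ ?_ ?_)
    · change z * δ z * z⁻¹ = z
      rw [dz]; group
    · change z * δ a * z⁻¹ = a
      rw [da, za]; group
    · change z * δ c * z⁻¹ = c
      rw [dc, zc]; group
    · change z * δ ta * z⁻¹ = ta
      rw [inv_eq_of_sq z2, h]

end Cfsg.Agent.WA.Al.X7
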