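import Cfsg.Agent.WA.AlJB
import Cfsg.Agent.WA.AlSur
import Cfsg.Agent.WA.AlCs0
import Cfsg.Agent.WA.AlW
import Cfsg.Agent.WA.AlCh
import Cfsg.Agent.WA.TeQ2a
import Cfsg.Agent.WA.H3U5
import Cfsg.Agent.H6.PSLEven
import Mathlib.GroupTheory.SpecificGroups.Alternating.Simple

/-! S3218: the centralizer of `y b₁` normalizes `V b₁`. -/

set_option autoImplicit false
set_option linter.unusedSectionVars false

namespace Cfsg.Agent.WA.Al

open Subgroup Equiv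

universe u

variable {G : Type u} [Group G] [Finite G] {B : Type} [Fintype B] [DecidableEq B] {s : ℕ}

namespace Z

section perm

variable {α : Type} [Fintype α] [DecidableEq α]

theorem cyc {p : Perm α} (hp : p * p = 1) :
    p.cycleType = Multiset.replicate p.cycleType.card 2 ∧ p.support.card = 2 * p.cycleType.card := by
  have : Fact (Nat.Prime 2) := ⟨Nat.prime_two⟩
  have h := Perm.cycleType_of_pow_prime_eq_one (σ := p) (p := 2) (by rw [pow_two, hp])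
  refine ⟨h, ?_⟩
  have := Perm.sum_cycleType p
  rw [h, Multiset.sum_replicate, smul_eq_mul] at this
  omega

theorem odd_supp {p : Perm α} (hp : p * p = 1) (hs : Perm.sign p = -1) : ∃ k, p.support.card = 4 * k + 2 := by
  obtain ⟨h, h'⟩ := cyc hp
  have h1 := Perm.sign_of_cycleType p
  rw [hs, Perm.sum_cycleType] at h1
  have : Odd (p.support.card + p.cycleType.card) := by
    by_contra hne
    rw [Nat.not_odd_iff_even] at hne
    rw [hne.neg_one_pow] at h1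
    exact absurd h1 (by decide)
  obtain ⟨k, hk⟩ := this
  exact ⟨p.cycleType.card / 2, by omega⟩

theorem conjP {p q : Perm α} (hp : p * p = 1) (hq : q * q = 1) (p1 : p ≠ 1) (h : p.support.card = q.support.card) :
    ∃ c : Alt α, c.1 * p * c.1⁻¹ = q := by
  obtain ⟨h1, h1'⟩ := cyc hp
  obtain ⟨h2, h2'⟩ := cyc hq
  have hc : IsConj p q := by
    rw [Perm.isConj_iff_cycleType_eq, h1, h2]; congr 1; omega
  obtain ⟨c, hc⟩ := isConj_iff.1 hc
  by_cases hs : Perm.sign c = 1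
  · exact ⟨⟨c, Perm.mem_alternatingGroup.2 hs⟩, hc⟩
  obtain ⟨a, ha⟩ : ∃ a, p a ≠ a := by
    by_contra hn
    push Not at hn
    exact p1 (Perm.ext hn)
  have pp : p (p a) = a := by
    have := congrArg (fun t : Perm α => t a) hp
    simpa using this
  have cm : swap a (p a) * p * (swap a (p a))⁻¹ = p := by
    rw [mul_inv_eq_iff_eq_mul, eq_comm, ← mul_inv_eq_iff_eq_mul, ← swap_apply_apply, pp, swap_comm]
  refine ⟨⟨c * swap a (p a), ?_⟩, ?_⟩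
  · rw [Perm.mem_alternatingGroup, map_mul, Perm.sign_swap ha.symm, (Int.units_eq_one_or _).resolve_left hs]; decide
  · show c * swap a (p a) * p * (c * swap a (p a))⁻¹ = q
    rw [← hc, mul_inv_rev]
    conv_rhs => rw [← cm]
    group

end perm

theorem τ_eq : (τ0 s : Perm (Pt B s)) = swap (Sum.inr 0) (Sum.inr 1) := by
  unfold τ0 rr; exact Perm.sumCongr_one_swap _ _

theorem τ_sq : (τ0 s : Perm (Pt B s)) * τ0 s = 1 := by rw [τ_eq, swap_mul_self]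

theorem τ_ne : (Sum.inr 0 : Pt B s) ≠ Sum.inr 1 := fun h => Fin.zero_ne_one (Sum.inr_injective h)

theorem τ_sign : Perm.sign (τ0 s : Perm (Pt B s)) = -1 := by rw [τ_eq, Perm.sign_swap τ_ne]

theorem τ_supp : (τ0 s : Perm (Pt B s)).support.card = 2 := by rw [τ_eq, Perm.card_support_swap τ_ne]

theorem τ_disj (P : Finset B) : Perm.Disjoint (τ0 s : Perm (Pt B s)) (yK s P).1 := by
  rintro (x | j)
  · exact Or.inl (Cs.rr_l _ _)
  · exact Or.inr (Cs.yK_r _ _)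

theorem τ_yK (P : Finset B) : (τ0 s * (yK s P).1) * (τ0 s * (yK s P).1) = 1 ∧
    (τ0 s * (yK s P).1).support.card = 4 * P.card + 2 := by
  constructor
  · rw [← pow_two, (τ_disj P).commute.mul_pow, pow_two, pow_two, τ_sq, one_mul]
    ext x; simp [Cs.yK_yK]
  · rw [(τ_disj P).card_support_mul, τ_supp, card_supp_yK, add_comm]

/-- conjugation by `τ0` -/
def ct (p : Alt (Pt B s)) : Alt (Pt B s) := ⟨τ0 s * p.1 * (τ0 s)⁻¹, by
  rw [Perm.mem_alternatingGroup, map_mul, map_mul, map_inv, Perm.mem_alternatingGroup.1 p.2, mul_one, mul_inv_cancel]⟩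

variable (M : Mid G B s)

local notation "y₁" => JF.y M.toJF M.b₁
local notation "a₁" => JF.a M.toJF M.b₁
local notation "e₁" => JF.e M.toJF M.b₁
local notation "V₁" => JF.V M.toJF M.b₁

theorem memV {F : JF G B} {b : B} {v : G} (h : v ∈ F.V b) : v = 1 ∨ v = F.a b ∨ v = F.y b ∨ v = F.y b * F.a b :=
  H3.U.mem_cl2 (F.y2 b) (F.a2 b) (F.ya b b) h

theorem yV (F : JF G B) (b : B) : F.y b ∈ F.V b := subset_closure (by simp)
theorem aV (F : JF G B) (b : B) : F.a b ∈ F.V b := subset_closure (by simp)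
theorem aJ (F : JF G B) (b : B) : F.a b ∈ F.J := subset_closure (Or.inl ⟨b, rfl⟩)
theorem eJ (F : JF G B) (b : B) : F.e b ∈ F.J := subset_closure (Or.inr ⟨b, rfl⟩)

theorem cenV {F : JF G B} {b : B} {g : G} : g ∈ centralizer (F.V b : Set G) ↔ g * F.y b = F.y b * g ∧ g * F.a b = F.a b * g := by
  unfold JF.V
  rw [← H3.U.mem_cen2, centralizer_closure]

theorem aea (F : JF G B) (b : B) : F.a b * F.e b * (F.a b)⁻¹ = F.e b * F.y b := by
  rw [H3.U.inv_eq (F.a2 b), ← F.ye, ← F.ae b, mul_assoc (F.a b * F.e b * F.a b), F.e2, mul_one]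

theorem eae (F : JF G B) (b : B) : F.e b * F.a b * (F.e b)⁻¹ = F.y b * F.a b := by
  rw [H3.U.inv_eq (F.e2 b), F.ya, ← F.ae b, ← mul_assoc, ← mul_assoc, ← mul_assoc, F.a2, one_mul]

theorem a_ne (F : JF G B) (b : B) : F.a b ≠ 1 ∧ F.y b * F.a b ≠ 1 := by
  have y1 := JA.y_ne F b
  constructor
  · intro h
    have := F.ae b
    rw [h, one_mul, mul_one, F.e2] at this
    exact y1 this.symm
  · intro h
    have h' : F.a b = F.y b := by rw [← one_mul (F.a b), ← F.y2 b, mul_assoc, h, mul_one]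
    have := F.ae b
    rw [h', mul_assoc (F.y b), ← F.ye, ← mul_assoc, F.y2, one_mul, F.e2] at this
    exact y1 this.symm

theorem κ_cen (p : Alt (Pt {b // b ≠ M.b₁} s)) : M.κ p ∈ centralizer (V₁ : Set G) := by
  rw [M.cV]; exact mem_sup_right ⟨p, rfl⟩

theorem κ_comm (p : Alt (Pt {b // b ≠ M.b₁} s)) {v : G} (hv : v ∈ V₁) : v * M.κ p = M.κ p * v :=
  κ_cen M p v hv

theorem dec {g : G} (hg : g ∈ centralizer (V₁ : Set G)) : ∃ v ∈ V₁, ∃ p, g = v * M.κ p := by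
  rw [M.cV] at hg
  obtain ⟨v, hv, _, ⟨p, rfl⟩, e⟩ := H7.mem_sup_of_normalizes (Or.inr (by
    rintro _ ⟨p, rfl⟩
    exact centralizer_le_normalizer _ (κ_cen M p))) hg
  exact ⟨v, hv, p, e.symm⟩

theorem uniq {v : G} (hv : v ∈ V₁) {p : Alt (Pt {b // b ≠ M.b₁} s)} (h : v * M.κ p = 1) : v = 1 ∧ p = 1 := by
  have h1 : v ∈ V₁ ⊓ M.κ.range := ⟨hv, p⁻¹, by rw [map_inv]; exact (eq_inv_of_mul_eq_one_left h).symm⟩
  rw [M.disj, mem_bot] at h1
  rw [h1, one_mul] at h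
  exact ⟨h1, M.inj (h.trans (map_one _).symm)⟩

theorem V_sq {F : JF G B} {b : B} {v : G} (h : v ∈ F.V b) : v * v = 1 := by
  rcases memV h with rfl | rfl | rfl | rfl
  · exact one_mul _
  · exact F.a2 b
  · exact F.y2 b
  · rw [mul_assoc, ← mul_assoc (F.a b), ← F.ya, mul_assoc, F.a2, mul_one, F.y2]

def up (P : Finset {b // b ≠ M.b₁}) : Finset B := P.map (Function.Embedding.subtype _)

theorem up_not (P : Finset {b // b ≠ M.b₁}) : M.b₁ ∉ up M P := by simp [up]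

theorem up_card (P : Finset {b // b ≠ M.b₁}) : (up M P).card = P.card := Finset.card_map _

theorem up_surj {Q : Finset B} (h : M.b₁ ∉ Q) : ∃ P, up M P = Q :=
  ⟨Q.subtype _, Finset.subtype_map_of_mem fun _ hx e => h (e ▸ hx)⟩

theorem κ_yK (h : M.LabY) (P : Finset {b // b ≠ M.b₁}) : M.κ (yK s P) = M.toJF.yP (up M P) := by
  obtain ⟨F0, hy, -, -, -, hP⟩ := exists_jf0 (B := {b // b ≠ M.b₁}) M.hs
  induction P using Finset.induction_on with
  | empty => rw [← hP, F0.yP_empty, map_one, up, Finset.map_empty, JF.yP_empty]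
  | insert b P hb ih =>
    rw [← hP, F0.yP_insert hb, map_mul, hP, ih, hy, h b, up, up, Finset.map_insert, JF.yP_insert]
    · rfl
    · rw [Finset.mem_map']; exact hb

theorem split (F : JF G B) (b : B) (Q : Finset B) : ∃ Q', b ∉ Q' ∧ (F.yP Q = F.yP Q' ∨ F.yP Q = F.y b * F.yP Q') := by
  by_cases h : b ∈ Q
  · exact ⟨Q.erase b, by simp, Or.inr (by rw [← F.yP_insert (by simp), Finset.insert_erase h])⟩
  · exact ⟨Q, h, Or.inl rfl⟩

theorem yK_sq (P : Finset B) : yK s P * yK s P = 1 := by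
  apply Subtype.ext; ext x; simp [Cs.yK_yK]

theorem wt1 {Q : Finset B} (hQ : M.b₁ ∉ Q) (h : IsConj y₁ (y₁ * M.toJF.yP Q)) : Q = ∅ := by
  rw [← JF.yP_insert _ hQ] at h
  nth_rewrite 1 [← JF.yP_single] at h
  have := M.toJF.wt M.jg h
  rw [Finset.card_singleton, Finset.card_insert_of_notMem hQ] at this
  exact Finset.card_eq_zero.1 (by omega)

theorem ex_P {x : Alt (Pt {b // b ≠ M.b₁} s)} (hx : x * x = 1) : ∃ Q : Finset B, M.b₁ ∉ Q ∧ x.1.support.card = 4 * Q.card := by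
  obtain ⟨P, hP⟩ := exists_yK M.hs hx
  obtain ⟨c, hc⟩ := isConj_iff.1 hP
  refine ⟨up M P, up_not M P, ?_⟩
  rw [up_card, ← card_supp_yK (s := s), ← hc]
  exact (Perm.card_support_conj (σ := c.1)).symm

theorem wA (h : M.LabY) {x : Alt (Pt {b // b ≠ M.b₁} s)} (hx : x * x = 1) {v : G} (hv : v ∈ V₁) (v1 : v ≠ 1)
    (hc : IsConj y₁ (v * M.κ x)) : x = 1 := by
  obtain ⟨Q, hQ, e⟩ := ex_P M hx
  have := wt1 M hQ (hc.trans ((M.w1 h hx hQ e).2 v hv v1))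
  rw [this] at e
  exact Sur.w_zero e

theorem labY (h : M.Lab) : M.LabY := fun b => (h b).1

theorem e_κ (h' : M.Out) (p : Alt (Pt {b // b ≠ M.b₁} s)) : e₁ * M.κ p * (e₁)⁻¹ = M.κ (ct p) := h'.1 p _ rfl

theorem kconj (h' : M.Out) {x x' : Alt (Pt {b // b ≠ M.b₁} s)} (hx : τ0 s * x.1 * (τ0 s * x.1) = 1)
    (hx' : τ0 s * x'.1 * (τ0 s * x'.1) = 1) (hc : (τ0 s * x.1).support.card = (τ0 s * x'.1).support.card) :
    ∃ c, M.κ c * (e₁ * M.κ x) * (M.κ c)⁻¹ = e₁ * M.κ x' := by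
  obtain ⟨c, e⟩ := conjP hx hx' (fun e => by
    have := congrArg Perm.sign e
    rw [map_mul, τ_sign, Perm.mem_alternatingGroup.1 x.2, map_one] at this
    exact absurd this (by decide)) hc
  refine ⟨c, ?_⟩
  have e1 : ct c * x * c⁻¹ = x' := by
    apply Subtype.ext
    show τ0 s * c.1 * (τ0 s)⁻¹ * x.1 * c.1⁻¹ = x'.1
    rw [H3.U.inv_eq τ_sq]
    calc τ0 s * c.1 * τ0 s * x.1 * c.1⁻¹ = τ0 s * (c.1 * (τ0 s * x.1) * c.1⁻¹) := by group
      _ = x'.1 := by rw [e, ← mul_assoc, τ_sq, one_mul]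
  rw [← e1, map_mul, map_mul, map_inv, ← e_κ M h', H3.U.inv_eq (M.e2 _), ← mul_assoc, ← mul_assoc, ← mul_assoc,
    ← mul_assoc, ← mul_assoc, M.e2, one_mul]

theorem y_e (h' : M.Out) : IsConj y₁ e₁ := by
  have := h'.2 ∅ (by simp)
  rw [JF.yP_empty, mul_one, mul_one] at this
  exact this.symm

theorem nf0 (h : M.Lab) (h' : M.Out) {g : G} (h1 : g * y₁ * g⁻¹ = y₁) (h2 : g * a₁ * g⁻¹ = e₁) : False := by
  have cen : ∀ k, k * y₁ = y₁ * k → k * e₁ = e₁ * k → g⁻¹ * k * g ∈ centralizer (V₁ : Set G) := fun k c1 c2 => by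
    rw [← h1] at c1
    rw [← h2] at c2
    refine cenV.2 ⟨?_, ?_⟩
    · calc g⁻¹ * k * g * y₁ = g⁻¹ * (k * (g * y₁ * g⁻¹)) * g := by group
        _ = _ := by rw [c1]; group
    · calc g⁻¹ * k * g * a₁ = g⁻¹ * (k * (g * a₁ * g⁻¹)) * g := by group
        _ = _ := by rw [c2]; group
  have c1 : IsConj y₁ (e₁ * M.e M.b₂) := by
    have eu : τ0 s * (e0 s (⟨M.b₂, M.ne⟩ : {b // b ≠ M.b₁})).1 = swap (Sum.inl (⟨M.b₂, M.ne⟩, 0)) (Sum.inl (⟨M.b₂, M.ne⟩, 1)) := by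
      rw [τ_eq]
      ext x
      rcases x with ⟨c, i⟩ | j
      · rw [Perm.mul_apply, Cs.e0_l, swap_apply_of_ne_of_ne (by simp) (by simp)]
        simp only [swap_apply_def]
        grind
      · rw [Perm.mul_apply, Cs.e0_r]
        simp only [swap_apply_def]
        grind
    obtain ⟨c, e⟩ := kconj M h' (x := 1) (x' := e0 s ⟨M.b₂, M.ne⟩) (by simpa using τ_sq) (by rw [eu, swap_mul_self])
      (by rw [eu, Perm.card_support_swap (by simp)]; simpa using τ_supp)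
    rw [map_one, mul_one, (h _).2.2] at e
    exact (y_e M h').trans (isConj_iff.2 ⟨_, e⟩)
  refine JA.y_ne M.toJF M.b₁ (M.wq (labY M h) (g := g) (k := e₁ * M.e M.b₂) ?_ ?_ ?_ c1 ?_)
  · rw [← H8.cj_centralizer, H8.mem_cj]
    exact cen _ (by rw [mul_assoc, ← M.ye, ← mul_assoc, ← M.ye, mul_assoc]) (by rw [mul_assoc, M.ee M.b₂])
  · intro hk
    have := cen (M.a M.b₂) (M.ya _ _).symm (M.ac _ _ M.ne) _ (H8.mem_cj.1 hk)
    have e : e₁ * M.e M.b₂ * M.a M.b₂ = M.a M.b₂ * (e₁ * M.e M.b₂) := by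
      calc _ = g * (g⁻¹ * (e₁ * M.e M.b₂) * g * (g⁻¹ * M.a M.b₂ * g)) * g⁻¹ := by group
        _ = _ := by rw [this]; group
    rw [← mul_assoc, M.ac _ _ M.ne, mul_assoc, mul_assoc, mul_right_inj] at e
    have e' := M.ae M.b₂
    rw [← e, mul_assoc (M.e M.b₂), M.a2, mul_one, M.e2] at e'
    exact JA.y_ne _ _ e'.symm
  · rw [← h1]; exact H8.conj_mem_cj g (yV _ _)
  · refine c1.trans (isConj_iff.2 ⟨a₁, ?_⟩)
    rw [← conj_mul, aea, M.ac _ _ M.ne.symm, mul_inv_cancel_right, mul_assoc, M.ye, mul_assoc]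

theorem y_a : IsConj y₁ a₁ ∧ IsConj y₁ (y₁ * a₁) := by
  obtain ⟨t, r⟩ := M.r1
  exact ⟨isConj_iff.2 ⟨t, r.h1⟩, (isConj_iff.2 ⟨t, r.h1⟩).trans (isConj_iff.2 ⟨t, r.h2⟩)⟩

theorem nf1 (h : M.Lab) (h' : M.Out) {g : G} (h1 : g * y₁ * g⁻¹ = y₁) {Q : Finset B} (hQ : M.b₁ ∉ Q)
    (h2 : g * a₁ * g⁻¹ = e₁ * M.toJF.yP Q) : False := by
  have := wt1 M hQ (((y_a M).1.trans (isConj_iff.2 ⟨g, h2⟩)).trans (h'.2 Q hQ))
  rw [this, JF.yP_empty, mul_one] at h2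
  exact nf0 M h h' h1 h2

theorem nf2 (h : M.Lab) (h' : M.Out) {g : G} (h1 : g * y₁ * g⁻¹ = y₁) {Q : Finset B} (hQ : M.b₁ ∉ Q)
    (h2 : g * a₁ * g⁻¹ = e₁ * (y₁ * M.toJF.yP Q)) : False := by
  refine nf1 M h h' (g := a₁ * g) ?_ hQ ?_
  · calc a₁ * g * y₁ * (a₁ * g)⁻¹ = a₁ * (g * y₁ * g⁻¹) * (a₁)⁻¹ := by group
      _ = _ := by rw [h1, ← M.ya, mul_inv_cancel_right]
  · calc a₁ * g * a₁ * (a₁ * g)⁻¹ = a₁ * (g * a₁ * g⁻¹) * (a₁)⁻¹ := by group
      _ = _ := by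
        rw [h2, ← conj_mul, ← conj_mul, aea, ← M.ya, mul_inv_cancel_right, JF.yP_comm _ Q (aJ _ _), mul_inv_cancel_right,
          mul_assoc, ← mul_assoc y₁, M.y2, one_mul]

theorem syl (h : M.Lab) (h' : M.Out) {S : Subgroup G} (hS : IsPGroup 2 S) (hJ : M.toJF.J ≤ S) {g : G} (hg : g ∈ S)
    (h1 : g * y₁ = y₁ * g) : g ∈ centralizer (V₁ : Set G) ∨ e₁ * g ∈ centralizer (V₁ : Set G) := by
  obtain ⟨π, hπ⟩ := M.toJF.norm_J ((M.toJF.max_two M.jg hS hJ).1 hg)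
  obtain ⟨e, hc⟩ := hπ M.b₁
  have h1' : g * y₁ * g⁻¹ = y₁ := by rw [h1, mul_inv_cancel_right]
  have eπ : π M.b₁ = M.b₁ := JA.y_inj _ (e.symm.trans h1')
  rw [eπ] at hc
  rcases hc with ⟨hc, -⟩ | ⟨hc, -⟩
  · obtain ⟨Q, hQ⟩ := M.toJF.mem_Z.1 hc
    obtain ⟨Q', n, hQ'⟩ := split M.toJF M.b₁ Q
    obtain ⟨P, rfl⟩ := up_surj M n
    rw [← κ_yK M (labY M h)] at hQ'
    have e2 : g * a₁ * g⁻¹ = a₁ * M.toJF.yP Q := by rw [← hQ, ← mul_assoc, M.a2, one_mul]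
    have cj : IsConj y₁ (a₁ * M.toJF.yP Q) := (y_a M).1.trans (isConj_iff.2 ⟨g, e2⟩)
    rcases hQ' with hQ' | hQ'
    · rw [hQ'] at cj e2
      rw [wA M (labY M h) (yK_sq P) (aV _ _) (a_ne _ _).1 cj, map_one, mul_one] at e2
      exact Or.inl (cenV.2 ⟨h1, mul_inv_eq_iff_eq_mul.1 e2⟩)
    · rw [hQ', ← mul_assoc, ← M.ya] at cj e2
      rw [wA M (labY M h) (yK_sq P) (mul_mem (yV _ _) (aV _ _)) (a_ne _ _).2 cj, map_one, mul_one] at e2
      refine Or.inr (cenV.2 ⟨by rw [mul_assoc, h1, ← mul_assoc, ← M.ye, mul_assoc], mul_inv_eq_iff_eq_mul.1 ?_⟩)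
      calc e₁ * g * a₁ * (e₁ * g)⁻¹ = e₁ * (g * a₁ * g⁻¹) * (e₁)⁻¹ := by group
        _ = _ := by rw [e2, ← conj_mul, eae, ← M.ye, mul_inv_cancel_right, ← mul_assoc, M.y2, one_mul]
  · exfalso
    obtain ⟨Q, hQ⟩ := M.toJF.mem_Z.1 hc
    obtain ⟨Q', n, hQ'⟩ := split M.toJF M.b₁ Q
    have e2 : g * a₁ * g⁻¹ = e₁ * M.toJF.yP Q := by rw [← hQ, ← mul_assoc, M.e2, one_mul]
    rcases hQ' with hQ' | hQ' <;> rw [hQ'] at e2
    · exact nf1 M h h' h1' n e2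
    · exact nf2 M h h' h1' n e2

theorem iso (h : M.Lab) (h' : M.Out) {g : G} (h1 : g * y₁ = y₁ * g)
    (hw : g * a₁ * g⁻¹ ∈ centralizer (V₁ : Set G) ∨ e₁ * (g * a₁ * g⁻¹) ∈ centralizer (V₁ : Set G)) :
    (a₁)⁻¹ * (g * a₁ * g⁻¹) ∈ zpowers y₁ := by
  have h1' : g * y₁ * g⁻¹ = y₁ := by rw [h1, mul_inv_cancel_right]
  have w2 : g * a₁ * g⁻¹ * (g * a₁ * g⁻¹) = 1 := by rw [conj_mul, M.a2]; simp
  have c1 : IsConj y₁ (g * a₁ * g⁻¹) := (y_a M).1.trans (isConj_iff.2 ⟨g, rfl⟩)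
  have c2 : IsConj y₁ (y₁ * (g * a₁ * g⁻¹)) := (y_a M).2.trans (isConj_iff.2 ⟨g, by rw [← conj_mul, h1']⟩)
  rcases hw with hw | hw
  · obtain ⟨v, hv, x, e⟩ := dec M hw
    rw [e] at w2 c1 c2
    have x2 : x * x = 1 := by
      rw [mul_assoc v (M.κ x), ← mul_assoc (M.κ x), ← κ_comm M x hv, ← mul_assoc, ← mul_assoc, V_sq hv, one_mul,
        ← map_mul] at w2
      exact M.inj (w2.trans (map_one _).symm)
    by_cases v1 : v = 1
    · rw [v1, one_mul] at c2 c1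
      rw [wA M (labY M h) x2 (yV _ _) (JA.y_ne _ _) c2, map_one, isConj_one_left] at c1
      exact absurd c1 (JA.y_ne _ _)
    rw [wA M (labY M h) x2 hv v1 c1, map_one, mul_one] at e
    rcases memV hv with rfl | rfl | rfl | rfl
    · exact absurd rfl v1
    · rw [e, inv_mul_cancel]; exact one_mem _
    · exfalso
      nth_rewrite 1 [← h1'] at e
      rw [mul_left_inj, mul_right_inj] at e
      exact (a_ne M.toJF M.b₁).2 (by rw [e, M.y2])
    · rw [e, M.ya, inv_mul_cancel_left]; exact mem_zpowers _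
  · exfalso
    obtain ⟨v, hv, x, e⟩ := dec M hw
    have e' : g * a₁ * g⁻¹ = e₁ * (v * M.κ x) := by rw [← e, ← mul_assoc, M.e2, one_mul]
    rw [e'] at w2
    have w3 : (e₁ * v * (e₁)⁻¹ * v) * M.κ (ct x * x) = 1 := by
      rw [← w2, map_mul, mul_assoc, ← mul_assoc v, κ_comm M _ hv, ← e_κ M h']
      nth_rewrite 2 [H3.U.inv_eq (M.e2 _)]
      group
    have w4 : y₁ * M.κ (ct x * x) ≠ 1 := fun e => JA.y_ne _ _ (uniq M (yV _ _) e).1
    have key : ct x * x = 1 → ∃ c P, M.κ c * (e₁ * M.κ x) * (M.κ c)⁻¹ = e₁ * M.toJF.yP (up M P) := fun hx => by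
      have hx' : τ0 s * x.1 * (τ0 s * x.1) = 1 := by
        have : τ0 s * x.1 * (τ0 s)⁻¹ * x.1 = 1 := congrArg Subtype.val hx
        rwa [H3.U.inv_eq τ_sq, mul_assoc] at this
      obtain ⟨k, hk⟩ := odd_supp hx' (by rw [map_mul, τ_sign, Perm.mem_alternatingGroup.1 x.2, mul_one])
      have hle : (τ0 s * x.1).support.card ≤ _ := Finset.card_le_univ _
      rw [Fintype.card_sum, Fintype.card_prod, Fintype.card_fin, Fintype.card_fin] at hle
      have := M.hs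
      obtain ⟨P, -, hP⟩ := Finset.exists_subset_card_eq (s := (Finset.univ : Finset {b // b ≠ M.b₁})) (n := k)
        (by rw [Finset.card_univ]; omega)
      obtain ⟨c, hc⟩ := kconj M h' hx' (τ_yK P).1 (by rw [hk, (τ_yK P).2, hP])
      exact ⟨c, P, by rw [hc, κ_yK M (labY M h)]⟩
    have cy : ∀ c, M.κ c * g * y₁ * (M.κ c * g)⁻¹ = y₁ := fun c => by
      calc M.κ c * g * y₁ * (M.κ c * g)⁻¹ = M.κ c * (g * y₁ * g⁻¹) * (M.κ c)⁻¹ := by group
        _ = _ := by rw [h1', ← κ_comm M c (yV _ _), mul_inv_cancel_right]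
    have ca : ∀ c, M.κ c * g * a₁ * (M.κ c * g)⁻¹ = M.κ c * (e₁ * (v * M.κ x)) * (M.κ c)⁻¹ := fun c => by
      rw [← e']; group
    rcases memV hv with rfl | rfl | rfl | rfl
    · obtain ⟨c, P, hc⟩ := key (uniq M (one_mem _) (by simpa using w3)).2
      exact nf1 M h h' (cy c) (up_not M P) (by rw [ca, one_mul, hc])
    · rw [eae, mul_assoc y₁, M.a2, mul_one] at w3
      exact w4 w3
    · rw [← M.ye, mul_inv_cancel_right, M.y2] at w3
      obtain ⟨c, P, hc⟩ := key (uniq M (one_mem _) w3).2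
      refine nf2 M h h' (cy c) (up_not M P) ?_
      rw [ca, ← mul_assoc e₁, ← M.ye, mul_assoc y₁, ← mul_assoc (M.κ c), ← κ_comm M c (yV _ _), mul_assoc y₁, mul_assoc y₁,
        hc, ← mul_assoc, M.ye, mul_assoc]
    · rw [← conj_mul, eae, ← M.ye, mul_inv_cancel_right, ← mul_assoc y₁ y₁, M.y2, one_mul, ← mul_assoc a₁, ← M.ya,
        mul_assoc y₁, M.a2, mul_one] at w3
      exact w4 w3

theorem odd_cen {O : Subgroup G} (ho : Odd (Nat.card O)) (hn : centralizer (V₁ : Set G) ≤ normalizer (O : Set G))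
    {x : G} (hx : x ∈ O) (hc : x ∈ centralizer (V₁ : Set G)) : x = 1 := by
  have hs : IsSimpleGroup (Alt (Pt {b // b ≠ M.b₁} s)) := alternatingGroup.isSimpleGroup (by
    have : 0 < Fintype.card {b // b ≠ M.b₁} := Fintype.card_pos_iff.2 ⟨⟨M.b₂, M.ne⟩⟩
    rw [Nat.card_eq_fintype_card, Fintype.card_sum, Fintype.card_prod, Fintype.card_fin, Fintype.card_fin]
    omega)
  have od : ∀ u ∈ O, u * u = 1 → u = 1 := fun u hu u2 => by
    have h1 : orderOf u ∣ 2 := orderOf_dvd_of_pow_eq_one (by rw [pow_two, u2])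
    have h2 : Odd (orderOf u) := ho.of_dvd_nat (orderOf_dvd_natCard O hu)
    rcases (Nat.dvd_prime Nat.prime_two).1 h1 with e | e
    · exact orderOf_eq_one_iff.1 e
    · rw [e] at h2; exact absurd h2 (by decide)
  have nn : (O.comap M.κ).Normal := ⟨fun p hp c => by
    rw [mem_comap, map_mul, map_mul, map_inv]
    exact H3.U.conj_mem' (hn (κ_cen M c)) hp⟩
  obtain ⟨v, hv, p, rfl⟩ := dec M hc
  have e : v * M.κ p * (v * M.κ p) = M.κ (p * p) := by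
    rw [map_mul, mul_assoc v (M.κ p), ← mul_assoc (M.κ p), ← κ_comm M p hv, ← mul_assoc, ← mul_assoc, V_sq hv, one_mul]
  rcases hs.eq_bot_or_eq_top_of_normal _ nn with hb | hb
  · have : p * p ∈ O.comap M.κ := by rw [mem_comap, ← e]; exact mul_mem hx hx
    rw [hb, mem_bot] at this
    exact od _ hx (by rw [e, this, map_one])
  · exfalso
    have h1 : yK s Finset.univ ∈ O.comap M.κ := by rw [hb]; trivial
    have h2 := M.inj ((od _ h1 (by rw [← map_mul, yK_sq, map_one])).trans (map_one _).symm)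
    have h3 := card_supp_yK (s := s) (Finset.univ : Finset {b // b ≠ M.b₁})
    have : 0 < Fintype.card {b // b ≠ M.b₁} := Fintype.card_pos_iff.2 ⟨⟨M.b₂, M.ne⟩⟩
    rw [h2, Finset.card_univ] at h3
    have h4 : (1 : Alt (Pt {b // b ≠ M.b₁} s)).1.support.card = 0 := by simp
    omega

theorem rot_fix (h : M.LabY) {Q : Finset B} (hQ : M.b₁ ∉ Q) : ∃ t ∈ normalizer (V₁ : Set G), t * y₁ * t⁻¹ = a₁ ∧
    t * M.toJF.yP Q * t⁻¹ = M.toJF.yP Q := by
  obtain ⟨t, r⟩ := M.r1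
  have tn : t ∈ normalizer (V₁ : Set G) := by
    refine (inv_mem_iff (H := normalizer (V₁ : Set G))).1 (H3.U.mem_norm_cl ?_)
    rintro _ (rfl | rfl) <;> rw [inv_inv]
    · rw [r.h1]; exact aV _ _
    · rw [r.h2]; exact mul_mem (yV _ _) (aV _ _)
  obtain ⟨P, rfl⟩ := up_surj M hQ
  obtain ⟨x, hx⟩ := H3.U.conj_mem' (M.norm_K tn) (y := M.toJF.yP (up M P)) ⟨_, κ_yK M h P⟩
  have x2 : x * x = 1 := M.inj (by rw [map_mul, hx, conj_mul, ← κ_yK M h, ← map_mul, yK_sq]; simp)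
  obtain ⟨Q', n, e⟩ := ex_P M x2
  obtain ⟨k, hk⟩ := (M.w1 h x2 n e).1
  have := M.toJF.wt M.jg ((isConj_iff.2 ⟨t, hx.symm⟩).trans (isConj_iff.2 ⟨_, hk⟩))
  obtain ⟨k', hk'⟩ := (M.w1 h x2 hQ (by rw [e, this])).1
  refine ⟨M.κ k' * t, mul_mem (centralizer_le_normalizer _ (κ_cen M k')) tn, ?_, ?_⟩
  · calc M.κ k' * t * y₁ * (M.κ k' * t)⁻¹ = M.κ k' * (t * y₁ * t⁻¹) * (M.κ k')⁻¹ := by group
      _ = _ := by rw [r.h1, ← κ_comm M k' (aV _ _), mul_inv_cancel_right]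
  · calc M.κ k' * t * _ * (M.κ k' * t)⁻¹ = M.κ k' * (t * M.toJF.yP (up M P) * t⁻¹) * (M.κ k')⁻¹ := by group
      _ = _ := by rw [← hx, hk']

theorem O_bot (h : M.LabY) {P : Finset B} (hP : M.b₁ ∈ P) (alt : ∀ v ∈ V₁, v ≠ 1 → ∀ x, Odd (orderOf x) →
    x * M.toJF.yP P = M.toJF.yP P * x → x * v = v * x → x ∈ centralizer (V₁ : Set G)) {x : G}
    (hx : x ∈ H7.opp 2 (centralizer ({y₁} : Set G))) : x = 1 := by
  set O := H7.opp 2 (centralizer ({y₁} : Set G)) with hO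
  have ho : Odd (Nat.card O) := Nat.odd_iff.2 (Nat.two_dvd_ne_zero.1 (H7.not_dvd_card_opp _))
  have nO : ∀ g, g * y₁ = y₁ * g → g ∈ normalizer (O : Set G) := fun g hg => H7.le_normalizer_opp _ (H3.U.mem_cen1.2 hg)
  have oc : ∀ x ∈ O, x ∈ centralizer (V₁ : Set G) → x = 1 := fun x hx hc =>
    odd_cen M ho (fun g hg => nO g (cenV.1 hg).1) hx hc
  have cy : ∀ x ∈ O, x * y₁ = y₁ * x := fun x hx => H3.U.mem_cen1.1 (H7.opp_le _ hx)
  have ox : ∀ x ∈ O, Odd (orderOf x) := fun x hx => ho.of_dvd_nat (orderOf_dvd_natCard O hx)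
  have yJ : y₁ ∈ M.toJF.J := M.toJF.A_le_J (fun _ => true) (M.toJF.Z_le_A _ (subset_closure ⟨_, rfl⟩))
  have z2 : M.toJF.yP P * M.toJF.yP P = 1 := by rw [JF.yP_mul, symmDiff_self, Finset.bot_eq_empty, JF.yP_empty]
  have i1 := H6.inverts_of_fpf' (nO a₁ (M.ya _ _).symm) (M.a2 _) (fun g hg c => oc g hg (cenV.2 ⟨cy g hg, c⟩)) hx
  have i2 := H6.inverts_of_fpf' (nO _ (M.toJF.yP_comm P yJ).symm) z2
    (fun g hg c => oc g hg (alt _ (yV _ _) (JA.y_ne _ _) g (ox g hg) c (cy g hg))) (inv_mem hx)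
  obtain ⟨t, tn, t1, t2⟩ := rot_fix M h (Q := P.erase M.b₁) (by simp)
  have ez : M.toJF.yP P = y₁ * M.toJF.yP (P.erase M.b₁) := by rw [← JF.yP_insert _ (by simp), Finset.insert_erase hP]
  have e3 : t * M.toJF.yP P * t⁻¹ = a₁ * M.toJF.yP (P.erase M.b₁) := by rw [ez, ← conj_mul, t1, t2]
  have c3 : x * (a₁ * M.toJF.yP (P.erase M.b₁)) = (a₁ * M.toJF.yP (P.erase M.b₁)) * x := by
    rw [inv_inv] at i2
    have e4 : a₁ * M.toJF.yP (P.erase M.b₁) = y₁ * (M.toJF.yP P * a₁) := by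
      rw [ez, ← mul_assoc, ← mul_assoc, M.y2, one_mul, JF.yP_comm _ _ (aJ _ _)]
    have e5 : x * (M.toJF.yP P * a₁) = (M.toJF.yP P * a₁) * x := by
      nth_rewrite 1 [← i2]
      rw [← i1]; group
    rw [e4, ← mul_assoc, cy x hx, mul_assoc, e5, mul_assoc y₁]
  have hv : t⁻¹ * y₁ * t ∈ V₁ := H3.U.conj_mem tn (yV _ _)
  have := alt _ hv (fun e => JA.y_ne M.toJF M.b₁ (by
      calc y₁ = t * (t⁻¹ * y₁ * t) * t⁻¹ := by group
        _ = 1 := by rw [e]; group)) (t⁻¹ * x * t) (by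
      have := (MulAut.conj t⁻¹).orderOf_eq x
      rw [MulAut.conj_apply, inv_inv] at this
      rw [this]; exact ox x hx) (by
      rw [← e3] at c3
      calc t⁻¹ * x * t * M.toJF.yP P = t⁻¹ * (x * (t * M.toJF.yP P * t⁻¹)) * t := by group
        _ = _ := by rw [c3]; group) (by
      calc t⁻¹ * x * t * (t⁻¹ * y₁ * t) = t⁻¹ * (x * y₁) * t := by group
        _ = _ := by rw [cy x hx]; group)
  refine oc x hx fun v hv => ?_
  have h2 := this _ (H3.U.conj_mem tn hv)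
  calc v * x = t * (t⁻¹ * v * t * (t⁻¹ * x * t)) * t⁻¹ := by group
    _ = _ := by rw [h2]; group

end Z

theorem Mid.cen (M : Mid G B s) (h : M.Lab) (h' : M.Out) :
    centralizer ({M.y M.b₁} : Set G) ≤ normalizer (M.V M.b₁ : Set G) := by
  rcases M.alt with h1 | ⟨-, P, hP, alt⟩
  · exact h1.1
  have : Fact (Nat.Prime 2) := ⟨Nat.prime_two⟩
  have JC : M.toJF.J ≤ centralizer ({M.y M.b₁} : Set G) :=
    (JB.J_le_cen M.toJF).trans (centralizer_le (by rintro _ rfl; exact ⟨_, rfl⟩))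
  obtain ⟨S, hS, hJ⟩ := H8.exists_isSylowIn_ge (JB.pJ M.toJF) JC
  have yJ : M.y M.b₁ ∈ M.toJF.J := M.toJF.A_le_J (fun _ => true) (M.toJF.Z_le_A _ (subset_closure ⟨_, rfl⟩))
  intro g hg
  obtain ⟨z, hz, x, hx, e⟩ := Te.Q2.zs (Z := zpowers (M.y M.b₁)) ((JB.pJ M.toJF).to_le (zpowers_le.2 yJ))
    (zpowers_le.2 (hJ yJ)) (by rw [zpowers_eq_closure, centralizer_closure]) hS (M.a2 M.b₁) (JC (Z.aJ _ _))
    (fun k hk hm => Z.iso M h h' (H3.U.mem_cen1.1 hk) (Z.syl M h h' hS.pgroup hJ hm (H3.U.mem_cen1.1 (hS.le hm)))) hg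
  rw [Z.O_bot M (Z.labY M h) hP alt hx, mul_one] at e
  refine (inv_mem_iff (H := normalizer (M.V M.b₁ : Set G))).1 (H3.U.mem_norm_cl ?_)
  rintro _ (rfl | rfl) <;> rw [inv_inv]
  · rw [H3.U.mem_cen1.1 hg, mul_inv_cancel_right]; exact Z.yV _ _
  · rw [e]; exact mul_mem (Z.aV _ _) (zpowers_le.2 (Z.yV M.toJF M.b₁) hz)

end Cfsg.Agent.WA.Al
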