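import Cfsg.Agent.WA.GdDef
import Cfsg.Agent.H5.Rank
import Mathlib.RingTheory.Idempotents

/-! Idempotents in rings of rank at most two. -/

set_option autoImplicit false

namespace Cfsg.Agent.WA.Gd

open Subgroup Cfsg.Agent.H8

universe u v

variable {R : Type v} [Ring R] {X : Type u} [Group X]

theorem RK.corner (h : RK R) {e p : R} (he : e * e = e) (h1 : e ≠ 1) (hp : p * p = p) (h2 : p * e = p)
    (h3 : e * p = p) : p = 0 ∨ p = e := by
  rcases h e p (e - p) he h1 (by rw [h2, mul_sub, h2, hp, sub_self]) with h | h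
  · exact Or.inl (h2 ▸ h)
  · rw [mul_sub, he, h3, sub_eq_zero] at h; exact Or.inr h.symm

theorem idem_compl {e : R} (he : e * e = e) : (1 - e) * (1 - e) = 1 - e := by
  rw [mul_sub, sub_mul, sub_mul, he]; simp

theorem RK.comm_idem (h : RK R) {e p : R} (he : e * e = e) (h0 : e ≠ 0) (h1 : e ≠ 1) (hp : p * p = p)
    (hc : e * p = p * e) : p = 0 ∨ p = 1 ∨ p = e ∨ p = 1 - e := by
  have key : ∀ f : R, f * f = f → f ≠ 1 → f * p = p * f → f * p = 0 ∨ f * p = f := fun f hf f1 hc =>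
    h.corner hf f1 (by rw [mul_assoc, ← mul_assoc p, ← hc, mul_assoc, hp, ← mul_assoc, hf])
      (by rw [mul_assoc, ← hc, ← mul_assoc, hf]) (by rw [← mul_assoc, hf])
  have e2 : p = e * p + (1 - e) * p := by rw [← add_mul]; simp
  rcases key e he h1 hc with a | a <;>
    rcases key (1 - e) (idem_compl he) (by simpa using h0) (by rw [sub_mul, mul_sub, hc]; simp) with b | b <;>
    rw [a, b] at e2 <;> simp [e2]

/-- a group without subgroup of index two fixes an idempotent commuting with its conjugates -/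
theorem RK.stab (h : RK R) (ρ : X →* R) (hi : ∀ K : Subgroup X, K.index ≠ 2) {e : R} (he : e * e = e)
    (h0 : e ≠ 0) (h1 : e ≠ 1) (hc : ∀ g, e * (ρ g⁻¹ * e * ρ g) = ρ g⁻¹ * e * ρ g * e) (x : X) :
    e * ρ x = ρ x * e := by
  have i1 : ∀ g, ρ g * ρ g⁻¹ = 1 := fun g => by rw [← map_mul]; simp
  have i2 : ∀ g, ρ g⁻¹ * ρ g = 1 := fun g => by rw [← map_mul]; simp
  have cs : ∀ g, e * ρ g = ρ g * e ∨ e * ρ g = ρ g * (1 - e) := fun g => by
    have e1 : e * ρ g = ρ g * (ρ g⁻¹ * e * ρ g) := by rw [← mul_assoc, ← mul_assoc, i1, one_mul]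
    have e2 : e = ρ g * (ρ g⁻¹ * e * ρ g) * ρ g⁻¹ := by rw [← e1, mul_assoc, i1, mul_one]
    rcases h.comm_idem he h0 h1 (p := ρ g⁻¹ * e * ρ g)
      (by rw [mul_assoc, ← e1, ← mul_assoc, mul_assoc _ e e, he]) (hc g) with a | a | a | a
    · rw [a] at e2; exact absurd (by simpa using e2) h0
    · rw [a, mul_one, i1] at e2; exact absurd e2 h1
    · exact Or.inl (by rw [e1, a])
    · exact Or.inr (by rw [e1, a])
  let H : Subgroup X :=
    { carrier := {g | e * ρ g = ρ g * e}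
      one_mem' := by simp
      mul_mem' := fun {a b} ha hb => by
        simp only [Set.mem_ofPred_eq, map_mul] at *
        rw [← mul_assoc, ha, mul_assoc, hb, mul_assoc]
      inv_mem' := fun {a} ha => by
        simp only [Set.mem_ofPred_eq] at *
        calc e * ρ a⁻¹ = ρ a⁻¹ * (ρ a * e) * ρ a⁻¹ := by rw [← mul_assoc, i2, one_mul]
          _ = ρ a⁻¹ * e := by rw [← ha, mul_assoc, mul_assoc, i1, mul_one] }
  by_contra hx
  refine hi H (index_eq_two_iff.2 ⟨x, fun b => ?_⟩)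
  by_cases hb : b ∈ H
  · exact Or.inr ⟨hb, fun h => hx ((H.mul_mem_cancel_left hb).1 h)⟩
  · refine Or.inl ⟨?_, hb⟩
    have h1 := (cs b).resolve_left hb
    have h2 := (cs x).resolve_left hx
    change e * ρ (b * x) = ρ (b * x) * e
    rw [map_mul, ← mul_assoc, h1, mul_assoc, sub_mul, h2, mul_assoc]
    congr 1
    rw [mul_sub]; simp

theorem RK.sq_cases [Algebra ℚ R] (h : RK R) {t d : R} (ht : t * t = 1) (h1 : t ≠ 1) (h2 : t ≠ -1)
    (hd : d * d = 1) (hc : t * d = d * t) : d = 1 ∨ d = -1 ∨ d = t ∨ d = -t := by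
  have id : ∀ u : R, u * u = 1 → ((2 : ℚ)⁻¹ • (1 - u)) * ((2 : ℚ)⁻¹ • (1 - u)) = (2 : ℚ)⁻¹ • (1 - u) := by
    intro u hu
    rw [smul_mul_smul_comm, mul_sub, sub_mul, sub_mul, hu]
    simp only [mul_one, one_mul]
    module
  have sol : ∀ u w : R, (2 : ℚ)⁻¹ • (1 - u) = w → u = 1 - (2 : ℚ) • w := by
    rintro u _ rfl; module
  rcases h.comm_idem (id t ht) (fun e => h1 (by rw [sol _ _ e]; simp))
    (fun e => h2 (by rw [sol _ _ e]; module)) (id d hd)
    (by rw [smul_mul_smul_comm, smul_mul_smul_comm]; congr 1; noncomm_ring [hc]) with a | a | a | a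
  · exact Or.inl (by rw [sol _ _ a]; simp)
  · exact Or.inr (Or.inl (by rw [sol _ _ a]; module))
  · exact Or.inr (Or.inr (Or.inl (by rw [sol _ _ a]; module)))
  · exact Or.inr (Or.inr (Or.inr (by rw [sol _ _ a]; module)))

variable [Algebra ℚ R]

/-- the average of the powers of `u` -/
noncomputable def ev (p : ℕ) (u : R) : R := (p : ℚ)⁻¹ • ∑ j ∈ Finset.range p, u ^ j

theorem mul_ev {p : ℕ} {u : R} (h : u ^ p = 1) : u * ev p u = ev p u := by
  have := mul_geom_sum u p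
  rw [h, sub_self, sub_mul, one_mul, sub_eq_zero] at this
  rw [ev, mul_smul_comm, this]

theorem ev_comm {p : ℕ} {u w : R} (h : w * u = u * w) : w * ev p u = ev p u * w := by
  rw [ev, mul_smul_comm, smul_mul_assoc, Finset.mul_sum, Finset.sum_mul]
  congr 1
  exact Finset.sum_congr rfl fun j _ => (Commute.pow_right h j).eq

theorem ev_idem {p : ℕ} (hp : p ≠ 0) {u : R} (h : u ^ p = 1) : ev p u * ev p u = ev p u := by
  have : ∀ j : ℕ, u ^ j * ev p u = ev p u := fun j => by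
    induction j with
    | zero => simp
    | succ j ih => rw [pow_succ, mul_assoc, mul_ev h, ih]
  nth_rewrite 1 [ev]
  rw [smul_mul_assoc, Finset.sum_mul, Finset.sum_congr rfl fun j _ => this j, Finset.sum_const,
    Finset.card_range, ← Nat.cast_smul_eq_nsmul ℚ, smul_smul, inv_mul_cancel₀ (by exact_mod_cast hp), one_smul]

theorem ev_ne_one {p : ℕ} {u : R} (h : u ^ p = 1) (h1 : u ≠ 1) : ev p u ≠ 1 := fun e => by
  have := mul_ev h
  rw [e, mul_one] at this; exact h1 this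

theorem exists_ev [Finite X] (ρ : X →* R) (nt : (1 : R) ≠ 0) {p : ℕ} [hp : Fact p.Prime] {E : Subgroup X}
    (hE : IsPGroup p E) (hc : IsMulCommutative E) (hn : ¬ IsCyclic E) :
    ∃ y ∈ E, y ≠ 1 ∧ y ^ p = 1 ∧ ev p (ρ y) ≠ 0 := by
  obtain ⟨a, ha, b, hb, oa, pb, hab⟩ := H5.exists_order_prime_not_mem_of_comm hE hc hn
  by_contra hh
  push Not at hh
  have p0 : (p : ℚ) ≠ 0 := by exact_mod_cast hp.out.ne_zero
  have h0 : ∀ y ∈ E, y ≠ 1 → y ^ p = 1 → ∑ j ∈ Finset.range p, ρ y ^ j = 0 := fun y hy y1 yp => by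
    have := congrArg ((p : ℚ) • ·) (hh y hy y1 yp)
    simpa [ev, smul_smul, p0] using this
  have pa : a ^ p = 1 := oa ▸ pow_orderOf_eq_one a
  have c : Commute a b := setLike_mul_comm ha hb
  have s1 : ∑ i ∈ Finset.range p, ∑ j ∈ Finset.range p, ρ (a ^ i * b) ^ j = 0 :=
    Finset.sum_eq_zero fun i _ => h0 _ (mul_mem (pow_mem ha i) hb)
      (fun e => hab (by rw [eq_inv_of_mul_eq_one_right e]; exact inv_mem (pow_mem (mem_zpowers a) i)))
      (by rw [(c.pow_left i).mul_pow, pb, ← pow_mul, mul_comm i, pow_mul, pa]; simp)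
  rw [Finset.sum_comm] at s1
  have s2 : ∀ j, ∑ i ∈ Finset.range p, ρ (a ^ i * b) ^ j = (∑ i ∈ Finset.range p, ρ (a ^ j) ^ i) * ρ b ^ j :=
    fun j => by
      rw [Finset.sum_mul]
      refine Finset.sum_congr rfl fun i _ => ?_
      rw [← map_pow, ← map_pow, ← map_pow, ← map_mul, (c.pow_left i).mul_pow, ← pow_mul, ← pow_mul, mul_comm i]
  rw [Finset.sum_eq_single 0] at s1
  · simp only [pow_zero, Finset.sum_const, Finset.card_range] at s1
    rw [← Nat.cast_smul_eq_nsmul ℚ] at s1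
    have := congrArg ((p : ℚ)⁻¹ • ·) s1
    simp only [smul_smul, inv_mul_cancel₀ p0, one_smul, smul_zero] at this
    exact nt this
  · intro j hj j0
    rw [s2, h0 _ (pow_mem ha j) (pow_ne_one_of_lt_orderOf j0 (oa ▸ Finset.mem_range.1 hj))
      (by rw [← pow_mul, mul_comm j, pow_mul, pa, one_pow]), zero_mul]
  · intro h; exact absurd (Finset.mem_range.2 hp.out.pos) h

theorem RK.exists_corner (rk : RK R) (ρ : X →* R) {e : R} (he : e * e = e) (h0 : e ≠ 0) (h1 : e ≠ 1)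
    (hc : ∀ x, e * ρ x = ρ x * e) :
    ∃ (K : Subgroup X) (_ : K.Normal), (∀ x, x ∈ K ↔ ρ x * e = e) ∧
      ∃ (R' : Type v) (_ : Ring R') (_ : Algebra ℚ R') (σ : X ⧸ K →* R'), Function.Injective σ ∧ (1 : R') ≠ 0 ∧
        ∀ f : R', f * f = f → f = 0 ∨ f = 1 := by
  have he' : IsIdempotentElem e := he
  have mk : ∀ r : R, e * r = r * e → r * e ∈ Subsemigroup.corner e := fun r h =>
    (Subsemigroup.mem_corner_iff he').2 ⟨by rw [← mul_assoc, h, mul_assoc, he], by rw [mul_assoc, he]⟩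
  have ml : ∀ r s : R, e * s = s * e → r * s * e = r * e * (s * e) := fun r s h => by
    rw [mul_assoc r e, ← mul_assoc e, h, mul_assoc s, he, mul_assoc]
  let τ : X →* he'.Corner :=
    { toFun := fun x => ⟨ρ x * e, mk _ (hc x)⟩
      map_one' := Subtype.ext (by change ρ 1 * e = e; simp)
      map_mul' := fun x y => Subtype.ext (by
        change ρ (x * y) * e = ρ x * e * (ρ y * e)
        rw [map_mul, ml _ _ (hc y)]) }
  let φ : ℚ →+* he'.Corner :=
    { toFun := fun q => ⟨algebraMap ℚ R q * e, mk _ (Algebra.commutes q e).symm⟩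
      map_one' := Subtype.ext (by change algebraMap ℚ R 1 * e = e; simp)
      map_mul' := fun x y => Subtype.ext (by
        change algebraMap ℚ R (x * y) * e = algebraMap ℚ R x * e * (algebraMap ℚ R y * e)
        rw [map_mul, ml _ _ (Algebra.commutes y e).symm])
      map_zero' := Subtype.ext (by change algebraMap ℚ R 0 * e = 0; simp)
      map_add' := fun x y => Subtype.ext (by
        change algebraMap ℚ R (x + y) * e = algebraMap ℚ R x * e + algebraMap ℚ R y * e
        rw [map_add, add_mul]) }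
  refine ⟨τ.ker, inferInstance, fun x => ⟨fun h => congrArg Subtype.val h, fun h => Subtype.ext h⟩,
    he'.Corner, inferInstance, φ.toAlgebra' fun q r => Subtype.ext ?_, QuotientGroup.lift _ τ le_rfl, ?_,
    fun h => h0 (congrArg Subtype.val h), fun f hf => ?_⟩
  · obtain ⟨h1, h2⟩ := (Subsemigroup.mem_corner_iff he').1 r.2
    change algebraMap ℚ R q * e * r.1 = r.1 * (algebraMap ℚ R q * e)
    rw [mul_assoc, h1, ← mul_assoc, ← Algebra.commutes, mul_assoc, h2]
  · intro x y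
    obtain ⟨x, rfl⟩ := QuotientGroup.mk_surjective x
    obtain ⟨y, rfl⟩ := QuotientGroup.mk_surjective y
    intro h
    change τ x = τ y at h
    rw [QuotientGroup.eq, MonoidHom.mem_ker, map_mul, ← h, ← map_mul]; simp
  · obtain ⟨h2, h3⟩ := (Subsemigroup.mem_corner_iff he').1 f.2
    rcases rk.corner he h1 (congrArg Subtype.val hf) h3 h2 with h | h
    · exact Or.inl (Subtype.ext h)
    · exact Or.inr (Subtype.ext h)

theorem not_cyclic_of_sq {p : ℕ} [hp : Fact p.Prime] {E : Subgroup X} (h : IsElementaryAbelian p E)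
    (hc : Nat.card E = p ^ 2) : ¬ IsCyclic E := fun hcy => by
  obtain ⟨g, hg⟩ := hcy.exists_ofOrder_eq_natCard
  have : orderOf g ∣ p := orderOf_dvd_of_pow_eq_one (Subtype.ext (h.2 g g.2))
  rw [hg, hc] at this
  have h1 := Nat.le_of_dvd hp.out.pos this
  have h2 := hp.out.two_le
  nlinarith

theorem cyc_of_noidem [Finite X] (ρ : X →* R) (inj : Function.Injective ρ) (nt : (1 : R) ≠ 0)
    (h : ∀ f : R, f * f = f → f = 0 ∨ f = 1) {p : ℕ} [hp : Fact p.Prime] (h2 : p ≠ 2) (hX : IsPGroup p X) :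
    IsCyclic X := by
  have : IsCyclic (⊤ : Subgroup X) := H5.isCyclic_of_no_elementary_sq h2 (hX.to_subgroup _) fun E _ hE hc => by
    obtain ⟨y, -, y1, yp, hy⟩ := exists_ev ρ nt (hX.to_subgroup E) hE.1 (not_cyclic_of_sq hE hc)
    have yp' : ρ y ^ p = 1 := by rw [← map_pow, yp, map_one]
    exact ev_ne_one yp' (fun e => y1 (inj (by simpa using e))) ((h _ (ev_idem hp.out.ne_zero yp')).resolve_left hy)
  exact isCyclic_of_surjective _ topEquiv.surjective

/-- an abelian normal subgroup which is not cyclic gives an invariant idempotent -/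
theorem RK.exists_idem [Finite X] (rk : RK R) (ρ : X →* R) (inj : Function.Injective ρ) (nt : (1 : R) ≠ 0)
    (hi : ∀ K : Subgroup X, K.index ≠ 2) {p : ℕ} [hp : Fact p.Prime] {E : Subgroup X} [hN : E.Normal]
    (hE : IsPGroup p E) (hc : IsMulCommutative E) (hn : ¬ IsCyclic E) :
    ∃ e : R, e * e = e ∧ e ≠ 0 ∧ e ≠ 1 ∧ ∀ x, e * ρ x = ρ x * e := by
  obtain ⟨y, hy, y1, yp, e0⟩ := exists_ev ρ nt hE hc hn
  have yp' : ρ y ^ p = 1 := by rw [← map_pow, yp, map_one]
  have e1 := ev_ne_one yp' (fun e => y1 (inj (by simpa using e)))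
  have ee := ev_idem hp.out.ne_zero yp'
  refine ⟨_, ee, e0, e1, rk.stab ρ hi ee e0 e1 fun g => (ev_comm ?_).symm⟩
  have h1 : ρ (g * y * g⁻¹) * ev p (ρ y) = ev p (ρ y) * ρ (g * y * g⁻¹) :=
    ev_comm (by rw [← map_mul, ← map_mul, setLike_mul_comm (hN.conj_mem y hy g) hy])
  calc ρ g⁻¹ * ev p (ρ y) * ρ g * ρ y = ρ g⁻¹ * (ev p (ρ y) * ρ (g * y * g⁻¹)) * ρ g := by
        simp only [mul_assoc, ← map_mul]; simp
    _ = _ := by rw [← h1]; simp only [← mul_assoc, ← map_mul]; simp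

theorem RK.odd_comm [Finite X] (rk : RK R) (ρ : X →* R) (inj : Function.Injective ρ) (nt : (1 : R) ≠ 0)
    {p : ℕ} [hp : Fact p.Prime] (h2 : p ≠ 2) (hX : IsPGroup p X) (a b : X) : a * b = b * a := by
  by_cases hcy : IsCyclic (⊤ : Subgroup X)
  · have : IsCyclic X := isCyclic_of_surjective _ topEquiv.surjective
    exact IsCyclic.isMulCommutative.is_comm.comm a b
  obtain ⟨E, -, hE, hel, hc⟩ := H5.exists_invariant_elementary_sq h2 (P := ⊤) (hX.to_subgroup _) le_rfl
    le_normalizer hcy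
  haveI : E.Normal := normalizer_eq_top_iff.1 (top_le_iff.1 hE)
  obtain ⟨e, ee, e0, e1, hc⟩ := rk.exists_idem ρ inj nt (fun K hK => by
    obtain ⟨n, hn⟩ := hX.index K
    rw [hK] at hn
    rcases n with _ | n
    · simp at hn
    · exact h2 ((Nat.prime_dvd_prime_iff_eq hp.out Nat.prime_two).1 (hn ▸ dvd_pow_self p n.succ_ne_zero)))
    (hX.to_subgroup E) hel.1 (not_cyclic_of_sq hel hc)
  have key : ∀ e : R, e * e = e → e ≠ 0 → e ≠ 1 → (∀ x, e * ρ x = ρ x * e) → ρ ((a * b)⁻¹ * (b * a)) * e = e := by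
    intro e ee e0 e1 hc
    obtain ⟨K, _, hK, R', _, _, σ, inj', nt', h'⟩ := rk.exists_corner ρ ee e0 e1 hc
    have := cyc_of_noidem σ inj' nt' h' h2 (hX.to_quotient K)
    rw [← hK, ← QuotientGroup.eq]
    exact IsCyclic.isMulCommutative.is_comm.comm (a : X ⧸ K) b
  have k1 := key e ee e0 e1 hc
  have k2 := key (1 - e) (idem_compl ee) (fun h => e1 (sub_eq_zero.1 h).symm) (by simpa using e0)
    fun x => by rw [sub_mul, mul_sub, hc]; simp
  rw [mul_sub, k1, mul_one, sub_left_inj, ← map_one ρ] at k2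
  exact inv_mul_eq_one.1 (inj k2)

theorem rk_mat {D : Type v} [DivisionRing D] : RK (Matrix (Fin 2) (Fin 2) D) := by
  intro f a b hf f1 h
  by_contra hh
  push Not at hh
  obtain ⟨h1, h2⟩ := hh
  obtain ⟨i, j, hij⟩ : ∃ i j, (a * f) i j ≠ 0 := by
    by_contra h; push Not at h; exact h1 (Matrix.ext h)
  obtain ⟨k, l, hkl⟩ : ∃ i j, (1 - f) i j ≠ 0 := by
    by_contra h; push Not at h; exact f1 (sub_eq_zero.1 (Matrix.ext h)).symm
  have z1 : a * f * (1 - f) = 0 := by rw [mul_assoc, mul_sub, hf]; simp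
  have z2 : f * (1 - f) = 0 := by rw [mul_sub, hf]; simp
  have z3 : a * f * (f * b) = 0 := by rw [← mul_assoc, mul_assoc a, hf, h]
  have z4 : f * (f * b) = f * b := by rw [← mul_assoc, hf]
  generalize a * f = A at *
  generalize 1 - f = V at *
  generalize f * b = W at *
  apply h2
  rw [← z4]
  ext r c
  have q1 := congrFun (congrFun z1 i) l
  have q3 := congrFun (congrFun z3 i) c
  have q2 := congrFun (congrFun z2 r) l
  simp only [Matrix.mul_apply, Fin.sum_univ_two, Matrix.zero_apply] at q1 q2 q3 ⊢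
  have key : ∀ x y v0 v1 w0 w1 p q : D, x ≠ 0 → (v0 ≠ 0 ∨ v1 ≠ 0) → x * v0 + y * v1 = 0 → x * w0 + y * w1 = 0 →
      p * v0 + q * v1 = 0 → p * w0 + q * w1 = 0 := by
    intro x y v0 v1 w0 w1 p q hx hv a1 a2 a3
    have b1 : v0 = -(x⁻¹ * y * v1) := by
      rw [mul_assoc, ← neg_eq_of_add_eq_zero_right a1, mul_neg, neg_neg, inv_mul_cancel_left₀ hx]
    have b2 : w0 = -(x⁻¹ * y * w1) := by
      rw [mul_assoc, ← neg_eq_of_add_eq_zero_right a2, mul_neg, neg_neg, inv_mul_cancel_left₀ hx]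
    have h1 : v1 ≠ 0 := by
      rintro rfl
      simp [b1] at hv
    have : (q - p * (x⁻¹ * y)) * v1 = 0 := by rw [← a3, b1]; noncomm_ring
    rw [b2, sub_eq_zero.1 ((mul_eq_zero.1 this).resolve_right h1)]; noncomm_ring
  have hv : V 0 l ≠ 0 ∨ V 1 l ≠ 0 := by
    fin_cases k
    · exact Or.inl hkl
    · exact Or.inr hkl
  fin_cases j
  · exact key _ _ _ _ _ _ _ _ hij hv q1 q3 q2
  · rw [add_comm] at q1 q2 q3 ⊢
    exact key _ _ _ _ _ _ _ _ hij hv.symm q1 q3 q2

end Cfsg.Agent.WA.Gd
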