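import Cfsg.Agent.WA.Gd1
import Cfsg.Agent.H5.GWc4
import Cfsg.Agent.H6.Count
import Cfsg.Agent.L0.Char5

/-! Noncentral normal `2`-subgroups. -/

set_option autoImplicit false

namespace Cfsg.Agent.WA.Gd

open Subgroup Cfsg.Agent.H8
open scoped commutatorElement

universe u v

variable {R : Type v} [Ring R] {X : Type u} [Group X]

/-- the conclusion -/
def Concl (S : Type*) [Group S] : Prop :=
  ∃ (F : Type) (_ : Field F) (_ : Fintype F), (Fintype.card F = 5 ∨ Fintype.card F = 9) ∧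
    Nonempty (S ≃* Matrix.ProjectiveSpecialLinearGroup (Fin 2) F)

theorem concl_of_index {S : Type*} [Group S] [Finite S] [IsSimpleGroup S] (hS : ¬ IsMulCommutative S)
    {H : Subgroup S} (h1 : H ≠ ⊤) (h5 : H.index ≤ 5) : Concl S := by
  have h := (H6.two_mul_card_dvd_factorial_index hS h1).trans (Nat.factorial_dvd_factorial h5)
  have h60 : Nat.card S ∣ 60 := Nat.dvd_of_mul_dvd_mul_left two_pos (h.trans (by decide))
  have ns : ¬ Group.IsSolvable S := fun h => hS ⟨⟨IsSimpleGroup.comm_iff_isSolvable.mpr h⟩⟩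
  have pr : ∀ r : ℕ, r.Prime → r ∣ Nat.card S → r = 2 ∨ r = 3 ∨ r = 5 := fun r hr hd => by
    have h1 := hd.trans h60
    have h2 := Nat.le_of_dvd (by norm_num) h1
    interval_cases r <;> first | omega | (exfalso; revert hr; norm_num)
  have d2 : 2 ∣ Nat.card S := H5.two_dvd_card_of_simple hS
  have d3 : 3 ∣ Nat.card S := by
    by_contra h
    exact ns (L0.isSolvable_of_primes Nat.prime_two Nat.prime_five fun r hr hd => by
      rcases pr r hr hd with rfl | rfl | rfl <;> simp_all)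
  have d5 : 5 ∣ Nat.card S := by
    by_contra h
    exact ns (L0.isSolvable_of_primes Nat.prime_two Nat.prime_three fun r hr hd => by
      rcases pr r hr hd with rfl | rfl | rfl <;> simp_all)
  obtain ⟨q, c, hq, -, -, c1, hc, hqc⟩ := H6.exists_prime_dvd_pow_sub_one (p := 2) (H6.perfect_of_simple hS) d2
  have d4 : 4 ∣ Nat.card S := by
    rcases c with _ | _ | c
    · omega
    · exact absurd (Nat.dvd_one.1 hqc) hq.ne_one
    · exact (pow_dvd_pow 2 (by omega : 2 ≤ c + 1 + 1)).trans hc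
  have h2 := Nat.le_of_dvd (by norm_num) h60
  have h3 : 0 < Nat.card S := Nat.card_pos
  haveI := Fact.mk Nat.prime_five
  exact ⟨ZMod 5, inferInstance, inferInstance, Or.inl (ZMod.card 5),
    H5.equiv_PSL_five_of_card (by omega) (ZMod.card 5)⟩

theorem cen_of_comm (hp : commutator X = ⊤) {x : X} (h : ∀ g, g * x * g⁻¹ * x⁻¹ ∈ center X) : x ∈ center X := by
  open scoped IsMulCommutative in
  let φ : X →* center X := MonoidHom.mk' (fun g => ⟨g * x * g⁻¹ * x⁻¹, h g⟩) fun a b => Subtype.ext (by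
    change a * b * x * (a * b)⁻¹ * x⁻¹ = a * x * a⁻¹ * x⁻¹ * (b * x * b⁻¹ * x⁻¹)
    calc a * b * x * (a * b)⁻¹ * x⁻¹ = a * (b * x * b⁻¹ * x⁻¹) * (x * a⁻¹ * x⁻¹) := by group
      _ = _ := by rw [mul_assoc a, ← mem_center_iff.1 (h b)]; group)
  refine mem_center_iff.2 fun g => ?_
  open scoped IsMulCommutative in
  have := congrArg Subtype.val (H6.map_eq_one_of_mem_commutator φ (x := g) (hp ▸ mem_top g))
  change g * x * g⁻¹ * x⁻¹ = 1 at this
  rw [mul_inv_eq_one, mul_inv_eq_iff_eq_mul] at this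
  exact this

theorem cen_of_cyclic (hp : commutator X = ⊤) {E : Subgroup X} [E.Normal] [IsCyclic E] : E ≤ center X := by
  intro x hx
  refine mem_center_iff.2 fun g => ?_
  have := H6.map_eq_one_of_mem_commutator ((IsCyclic.mulAutMulEquiv E).toMonoidHom.comp (MulAut.conjNormal (H := E)))
    (x := g) (hp ▸ mem_top g)
  rw [MonoidHom.comp_apply, MulEquiv.coe_toMonoidHom, MulEquiv.map_eq_one_iff] at this
  have h := congrArg Subtype.val (congrArg (fun f : MulAut E => f ⟨x, hx⟩) this)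
  simp only [MulAut.conjNormal_apply, MulAut.one_apply] at h
  exact mul_inv_eq_iff_eq_mul.1 h

theorem six [Finite X] {x z : X} (zc : ∀ g, z * g = g * z) (zz : z * z = 1)
    (hx : ¬ ∀ g, g * x * g⁻¹ = x ∨ g * x * g⁻¹ = z * x) :
    (∃ H : Subgroup X, H ≠ ⊤ ∧ H.index ≤ 5) ∨
      ∃ g : Fin 6 → X, ∀ i j, i ≠ j → g i * x * (g i)⁻¹ ≠ g j * x * (g j)⁻¹ ∧
        g i * x * (g i)⁻¹ ≠ z * (g j * x * (g j)⁻¹) := by
  have cz : ∀ g y, g * (z * y) * g⁻¹ = z * (g * y * g⁻¹) := fun g y => by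
    rw [← mul_assoc g, ← zc]; group
  have z2 : ∀ y, z * (z * y) = y := fun y => by rw [← mul_assoc, zz, one_mul]
  let H : Subgroup X :=
    { carrier := {g | g * x * g⁻¹ = x ∨ g * x * g⁻¹ = z * x}
      one_mem' := by simp
      mul_mem' := fun {a b} ha hb => by
        have : a * b * x * (a * b)⁻¹ = a * (b * x * b⁻¹) * a⁻¹ := by group
        simp only [Set.mem_ofPred_eq] at *
        rw [this]
        rcases hb with hb | hb <;> rw [hb] <;> rcases ha with ha | ha <;> simp only [cz, ha, z2] <;> simp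
      inv_mem' := fun {a} ha => by
        simp only [Set.mem_ofPred_eq] at *
        rcases ha with ha | ha
        · left; nth_rewrite 1 [← ha]; group
        · right; rw [← z2 (a⁻¹ * x * a⁻¹⁻¹), ← cz a⁻¹ x]; congr 1; rw [← ha]; group }
  by_cases h5 : H.index ≤ 5
  · exact Or.inl ⟨H, fun e => hx fun g => (e ▸ mem_top g : g ∈ H), h5⟩
  right
  haveI := Fintype.ofFinite (X ⧸ H)
  obtain ⟨f⟩ := Function.Embedding.nonempty_of_card_le (α := Fin 6) (β := X ⧸ H) (by
    rw [Fintype.card_fin, ← Nat.card_eq_fintype_card]; change 6 ≤ H.index; omega)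
  refine ⟨fun i => (f i).out, fun i j hij => ?_⟩
  have : ((f j).out)⁻¹ * (f i).out ∉ H := fun h => hij (f.injective (by
    rw [← QuotientGroup.eq] at h; simpa using h.symm))
  dsimp only
  generalize (f i).out = a at *
  generalize (f j).out = b at *
  have e : b⁻¹ * a * x * (b⁻¹ * a)⁻¹ = b⁻¹ * (a * x * a⁻¹) * b⁻¹⁻¹ := by group
  constructor <;> intro h <;> apply this
  · left; rw [e, h]; group
  · right; rw [e, h, cz]; group

variable [Algebra ℚ R]

theorem nz (nt : (1 : R) ≠ 0) {a b a' b' : R} (ha : a' * a = 1) (hb : b * b' = 1) (h1 : a * b = b * a)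
    (h2 : a * b = -(b * a)) : False := by
  have h3 : a * b = 0 := by
    have : (2 : ℚ)⁻¹ • (a * b + a * b) = a * b := by module
    rw [← this]; nth_rewrite 1 [h1, h2]; simp
  apply nt
  calc (1 : R) = a' * (a * b) * b' := by rw [← mul_assoc, ha, one_mul, hb]
    _ = 0 := by rw [h3]; simp

theorem no_six (rk : RK R) (nt : (1 : R) ≠ 0) (v : Fin 6 → R) (sq : ∀ i, v i * v i = 1)
    (an : ∀ i j, i ≠ j → v i * v j = -(v j * v i)) : False := by
  have s' : ∀ i w, v i * (v i * w) = w := fun i w => by rw [← mul_assoc, sq, one_mul]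
  have a : ∀ i j, j < i → v i * v j = -(v j * v i) := fun i j h => an i j h.ne'
  have a' : ∀ i j, j < i → ∀ w, v i * (v j * w) = -(v j * (v i * w)) := fun i j h w => by
    rw [← mul_assoc, a i j h, neg_mul, mul_assoc]
  have uu : v 0 * v 1 * v 2 * v 3 * (v 0 * v 1 * v 2 * v 3) = 1 := by
    simp [mul_assoc, s', sq, a' 3 0, a' 2 0, a' 1 0, a' 3 1, a' 2 1, a' 3 2]
  have u0 : v 0 * v 1 * v 2 * v 3 * v 0 = -(v 0 * (v 0 * v 1 * v 2 * v 3)) := by
    simp [mul_assoc, s', a 3 0, a' 2 0, a' 1 0]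
  have u4 : v 4 * (v 0 * v 1 * v 2 * v 3) = v 0 * v 1 * v 2 * v 3 * v 4 := by
    simp [mul_assoc, a' 4 0, a' 4 1, a' 4 2, a 4 3]
  have u5 : v 5 * (v 0 * v 1 * v 2 * v 3) = v 0 * v 1 * v 2 * v 3 * v 5 := by
    simp [mul_assoc, a' 5 0, a' 5 1, a' 5 2, a 5 3]
  generalize v 0 * v 1 * v 2 * v 3 = w at *
  rcases rk.sq_cases (sq 4) (fun e => nz nt (sq 4) (sq 0) (by simp [e]) (a 4 0 (by decide)))
    (fun e => nz nt (sq 4) (sq 0) (by simp [e]) (a 4 0 (by decide))) uu u4 with h | h | h | h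
  · exact nz nt uu (sq 0) (by simp [h]) u0
  · exact nz nt uu (sq 0) (by simp [h]) u0
  · exact nz nt (sq 5) uu u5 (by rw [h]; exact a 5 4 (by decide))
  · exact nz nt (sq 5) uu u5 (by rw [h, mul_neg, neg_mul, a 5 4 (by decide)])

theorem Rp.cen_inv (r : Rp X R) {c : X} (hc : c ∈ center X) (h : c * c = 1) : r.ρ c = 1 ∨ r.ρ c = -1 := by
  have cc : r.ρ c * r.ρ c = 1 := by rw [← map_mul, h, map_one]
  have sol : ∀ u w : R, (2 : ℚ)⁻¹ • (1 - u) = w → u = 1 - (2 : ℚ) • w := by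
    rintro u _ rfl; module
  rcases r.irr ((2 : ℚ)⁻¹ • (1 - r.ρ c)) (by
      rw [smul_mul_smul_comm, mul_sub, sub_mul, sub_mul, cc]
      simp only [mul_one, one_mul]
      module) (fun x => by
      rw [smul_mul_assoc, mul_smul_comm, sub_mul, mul_sub, ← map_mul, ← map_mul, mem_center_iff.1 hc]; simp)
    with a | a
  · exact Or.inl (by rw [sol _ _ a]; simp)
  · exact Or.inr (by rw [sol _ _ a]; module)

variable [Finite X]

theorem Rp.cen (r : Rp X R) (hp : commutator X = ⊤) {p : ℕ} [Fact p.Prime] {E : Subgroup X} [E.Normal]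
    (hE : IsPGroup p E) (hc : IsMulCommutative E) : E ≤ center X := by
  have : IsCyclic E := by
    by_contra hn
    obtain ⟨e, ee, e0, e1, h⟩ := r.rk.exists_idem r.ρ r.inj r.nt (H6.index_ne_two_of_perfect hp) hE hc hn
    exact (r.irr e ee h).elim e0 e1
  exact cen_of_cyclic hp

theorem Rp.small (r : Rp X R) (hp : commutator X = ⊤) {P : Subgroup X} (hN : P.Normal) (hP : IsPGroup 2 P)
    (hc : ¬ P ≤ center X) : ∃ H : Subgroup X, H ≠ ⊤ ∧ H.index ≤ 5 := by
  obtain ⟨P, -, ⟨hN, hP, hc⟩, hmin⟩ := exists_minimal_le_of_wellFoundedLT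
    (fun P : Subgroup X => P.Normal ∧ IsPGroup 2 P ∧ ¬ P ≤ center X) P ⟨hN, hP, hc⟩
  have hm : ∀ K : Subgroup X, K.Normal → K ≤ P → K ≤ center X ∨ P ≤ K := fun K h1 h2 => by
    by_cases h : K ≤ center X
    · exact Or.inl h
    · exact Or.inr (hmin ⟨h1, hP.to_le h2, h⟩ h2)
  have c1 : ∀ x ∈ P, ∀ y ∈ P, x * y * x⁻¹ * y⁻¹ ∈ center X := fun x hx y hy => by
    refine (hm ⁅P, P⁆ inferInstance (commutator_le_left _ _)).resolve_right (fun h => hc ?_)
      (commutator_mem_commutator hx hy)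
    rw [H6.eq_bot_of_le_commutator_of_nilpotent hP.isNilpotent le_rfl h]; exact bot_le
  have sw : ∀ x ∈ P, ∀ y ∈ P, ∃ c ∈ center X, x * y = c * (y * x) := fun x hx y hy =>
    ⟨_, c1 x hx y hy, by group⟩
  have sq : ∀ x ∈ P, ∀ y ∈ P, ∀ c ∈ center X, y * x = c * (x * y) → x * y * (x * y) = c * (x * x * (y * y)) :=
    fun x hx y hy c hc h => by
      rw [mul_assoc x y, ← mul_assoc y, h, mul_assoc c, ← mul_assoc x c, mem_center_iff.1 hc]; group
  have c2 : ∀ x ∈ P, x * x ∈ center X := by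
    let K : Subgroup X :=
      { carrier := {x | x ∈ P ∧ x * x ∈ center X}
        one_mem' := ⟨one_mem _, by simp⟩
        mul_mem' := fun {a b} ha hb => ⟨mul_mem ha.1 hb.1, by
          obtain ⟨c, hc, h⟩ := sw b hb.1 a ha.1
          rw [sq a ha.1 b hb.1 c hc h]; exact mul_mem hc (mul_mem ha.2 hb.2)⟩
        inv_mem' := fun {a} ha => ⟨inv_mem ha.1, by rw [← mul_inv_rev]; exact inv_mem ha.2⟩ }
    refine fun x hx => ((hm K ⟨fun n hn g => ⟨hN.conj_mem n hn.1 g, ?_⟩⟩ fun x hx => hx.1).resolve_left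
      (fun h => hc fun x hx => ?_) hx).2
    · have := (inferInstance : (center X).Normal).conj_mem _ hn.2 g
      convert this using 1; group
    · obtain ⟨k, hk⟩ := hP ⟨x, hx⟩
      have hk' : x ^ 2 ^ k ∈ center X := by rw [show x ^ 2 ^ k = 1 from congrArg Subtype.val hk]; exact one_mem _
      clear hk
      induction k with
      | zero => simpa using hk'
      | succ k ih => exact ih (h ⟨pow_mem hx _, by rwa [← pow_two, ← pow_mul, ← pow_succ]⟩)
  have c3 : ∀ x ∈ P, ∀ y ∈ P, ∀ c ∈ center X, x * y = c * (y * x) → c * c = 1 := fun x hx y hy c hc h => by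
    have e1 : x * x * y = c * c * (y * (x * x)) := by
      rw [mul_assoc x, h, ← mul_assoc x c, mem_center_iff.1 hc, mul_assoc c x, ← mul_assoc x y, h]; group
    rw [← mem_center_iff.1 (c2 x hx)] at e1
    exact (mul_eq_right.1 e1.symm)
  obtain ⟨a, ha, b, hb, hab⟩ : ∃ a ∈ P, ∃ b ∈ P, a * b ≠ b * a := by
    by_contra h; push Not at h
    exact hc (r.cen hp hP (H5.isMulCommutative_of_forall h))
  obtain ⟨z, hz, hz'⟩ := sw a ha b hb
  have zz := c3 a ha b hb z hz hz'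
  have rz : r.ρ z = -1 := (r.cen_inv hz zz).resolve_left fun e => hab (by
    rw [hz', r.inj (e.trans (map_one r.ρ).symm), one_mul])
  have ci : ∀ c ∈ center X, c * c = 1 → c = 1 ∨ c = z := fun c hc h =>
    (r.cen_inv hc h).imp (fun e => r.inj (e.trans (map_one r.ρ).symm)) fun e => r.inj (e.trans rz.symm)
  have c4 : ∀ x ∈ P, x * x * (x * x) = 1 := by
    have mu : ∀ x ∈ P, ∀ y ∈ P, x * y * (x * y) * (x * y * (x * y)) = x * x * (x * x) * (y * y * (y * y)) :=
      fun x hx y hy => by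
        obtain ⟨c, hc, h⟩ := sw y hy x hx
        rw [sq x hx y hy c hc h, mul_assoc c, ← mul_assoc _ c, mem_center_iff.1 hc, ← mul_assoc c, ← mul_assoc c,
          c3 y hy x hx c hc h, one_mul, mul_assoc (x * x), ← mul_assoc (y * y), mem_center_iff.1 (c2 x hx)]
        group
    let K : Subgroup X :=
      { carrier := {x | x ∈ P ∧ x * x * (x * x) = 1}
        one_mem' := ⟨one_mem _, by simp⟩
        mul_mem' := fun {a b} ha hb => ⟨mul_mem ha.1 hb.1, by rw [mu a ha.1 b hb.1, ha.2, hb.2, one_mul]⟩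
        inv_mem' := fun {a} ha => ⟨inv_mem ha.1, by rw [← mul_inv_rev, ← mul_inv_rev, ha.2, inv_one]⟩ }
    refine fun x hx => ((hm K ⟨fun n hn g => ⟨hN.conj_mem n hn.1 g, ?_⟩⟩ fun x hx => hx.1).resolve_left
      (fun h => hc fun x hx => cen_of_comm hp fun g => h ⟨mul_mem (hN.conj_mem x hx g) (inv_mem hx), ?_⟩) hx).2
    · calc _ = g * (n * n * (n * n)) * g⁻¹ := by group
        _ = 1 := by rw [hn.2]; simp
    · rw [mu _ (hN.conj_mem x hx g) _ (inv_mem hx)]
      calc _ = g * (x * x * (x * x)) * g⁻¹ * (x * x * (x * x))⁻¹ := by group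
        _ = 1 := by rw [mem_center_iff.1 (mul_mem (c2 x hx) (c2 x hx))]; group
  have zc : ∀ g, z * g = g * z := fun g => (mem_center_iff.1 hz g).symm
  have nn : ∀ x, x ∉ center X → ¬ ∀ g, g * x * g⁻¹ = x ∨ g * x * g⁻¹ = z * x := fun x hx h =>
    hx (cen_of_comm hp fun g => by
      rcases h g with e | e <;> rw [e]
      · simp
      · simpa using hz)
  have an : ∀ x ∈ P, ∀ y ∈ P, x * y ≠ y * x → r.ρ x * r.ρ y = -(r.ρ y * r.ρ x) := fun x hx y hy h => by
    obtain ⟨c, hc, h'⟩ := sw x hx y hy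
    rcases ci c hc (c3 x hx y hy c hc h') with e | e
    · exact absurd (by rw [h', e, one_mul]) h
    · rw [← map_mul, h', e, map_mul, map_mul, rz]; simp
  have ncj : ∀ x, x ∉ center X → ∀ g, g * x * g⁻¹ ∉ center X := fun x hx g h =>
    hx (by simpa [mul_assoc] using (inferInstance : (center X).Normal).conj_mem _ h g⁻¹)
  by_cases hI : ∃ t ∈ P, t * t = 1 ∧ t ∉ center X
  · obtain ⟨t, ht, tt, tc⟩ := hI
    refine (six zc zz (nn t tc)).resolve_right ?_
    rintro ⟨g, hg⟩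
    have s1 : ∀ i, r.ρ (g i * t * (g i)⁻¹) * r.ρ (g i * t * (g i)⁻¹) = 1 := fun i => by
      rw [← map_mul, conj_mul, tt]; simp
    have n1 : ∀ i, r.ρ (g i * t * (g i)⁻¹) ≠ 1 := fun i e =>
      ncj t tc (g i) (by rw [r.inj (e.trans (map_one r.ρ).symm)]; exact one_mem _)
    have n2 : ∀ i, r.ρ (g i * t * (g i)⁻¹) ≠ -1 := fun i e =>
      ncj t tc (g i) (by rw [r.inj (e.trans rz.symm)]; exact hz)
    refine no_six r.rk r.nt (fun i => r.ρ (g i * t * (g i)⁻¹)) s1 fun i j hij =>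
      an _ (hN.conj_mem t ht _) _ (hN.conj_mem t ht _) fun h => ?_
    rcases r.rk.sq_cases (s1 j) (n1 j) (n2 j) (s1 i) (by rw [← map_mul, ← h, map_mul]) with e | e | e | e
    · exact n1 i e
    · exact n2 i e
    · exact (hg i j hij).1 (r.inj e)
    · exact (hg i j hij).2 (r.inj (by rw [e, map_mul r.ρ z, rz]; simp))
  · push Not at hI
    obtain ⟨x, hx, xc⟩ := SetLike.not_le_iff_exists.1 hc
    refine (six zc zz (nn x xc)).resolve_right ?_
    rintro ⟨g, hg⟩
    have xx : x * x = z := (ci _ (c2 x hx) (c4 x hx)).resolve_left fun e => xc (hI x hx e)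
    obtain ⟨y, hy⟩ : ∃ y : Fin 6 → X, ∀ i, y i = g i * x * (g i)⁻¹ := ⟨_, fun _ => rfl⟩
    simp only [← hy] at hg
    have yP : ∀ i, y i ∈ P := fun i => hy i ▸ hN.conj_mem x hx _
    have s0 : ∀ i, y i * y i = z := fun i => by rw [hy, conj_mul, xx, ← zc]; simp
    have s1 : ∀ i, r.ρ (y i) * r.ρ (y i) = -1 := fun i => by rw [← map_mul, s0, rz]
    have a : ∀ i j, j < i → r.ρ (y i) * r.ρ (y j) = -(r.ρ (y j) * r.ρ (y i)) := fun i j hij =>
      an _ (yP i) _ (yP j) fun h => by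
        have h1 : y i * (y j)⁻¹ * (y i * (y j)⁻¹) = 1 := by
          have : Commute (y i) (y j) := h
          rw [this.inv_right.symm.mul_mul_mul_comm, ← mul_inv_rev, s0, s0, mul_inv_cancel]
        rcases ci _ (hI _ (mul_mem (yP i) (inv_mem (yP j))) h1) h1 with e | e
        · exact (hg i j hij.ne').1 (mul_inv_eq_one.1 e)
        · exact (hg i j hij.ne').2 (mul_inv_eq_iff_eq_mul.1 e)
    have s' : ∀ i w, r.ρ (y i) * (r.ρ (y i) * w) = -w := fun i w => by rw [← mul_assoc, s1]; simp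
    have a' : ∀ i j, j < i → ∀ w, r.ρ (y i) * (r.ρ (y j) * w) = -(r.ρ (y j) * (r.ρ (y i) * w)) :=
      fun i j h w => by rw [← mul_assoc, a i j h, neg_mul, mul_assoc]
    have uu : r.ρ (y 0 * y 1 * y 2) * r.ρ (y 0 * y 1 * y 2) = 1 := by
      simp [mul_assoc, s', s1, a' 2 0, a' 1 0, a' 2 1]
    have u3 : r.ρ (y 3) * r.ρ (y 0 * y 1 * y 2) = -(r.ρ (y 0 * y 1 * y 2) * r.ρ (y 3)) := by
      simp [mul_assoc, a' 3 0, a' 3 1, a 3 2]
    refine nz r.nt (a' := -r.ρ (y 3)) (by simp [s1]) uu ?_ u3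
    rw [← map_mul, ← map_mul, mem_center_iff.1 (hI _ (mul_mem (mul_mem (yP 0) (yP 1)) (yP 2))
      (r.inj (by rw [map_mul, uu, map_one])))]

end Cfsg.Agent.WA.Gd
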