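import Cfsg.Agent.WA.GdA1
import Cfsg.Agent.H1.F4

/-! The case of `SL₂(q)`. -/

set_option autoImplicit false

namespace Cfsg.Agent.WA.Gd

open Subgroup Cfsg.Agent.H8 Matrix
open scoped MatrixGroups ComplexConjugate

universe u v

namespace XA

variable {F : Type} [Field F]

/-- the underlying matrix -/
def V : SL(2, F) →* Matrix (Fin 2) (Fin 2) F := ⟨⟨fun x => x.1, rfl⟩, fun _ _ => rfl⟩

theorem V_inj : Function.Injective (V (F := F)) := fun _ _ h => Subtype.ext h
theorem V_neg (x : SL(2, F)) : V (-x) = -V x := rfl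
theorem V_det (x : SL(2, F)) : V x 0 0 * V x 1 1 - V x 0 1 * V x 1 0 = 1 := (det_fin_two _).symm.trans x.2
theorem V_ex (a b c d : F) (h : a * d - b * c = 1) : ∃ x, V x = !![a, b; c, d] :=
  ⟨⟨!![a, b; c, d], by simpa [det_fin_two] using h⟩, rfl⟩

/-- unipotent elements -/
def uu : Multiplicative F →* SL(2, F) := MonoidHom.mk' (fun c => ⟨!![1, c.toAdd; 0, 1], by simp [det_fin_two]⟩)
  fun a b => V_inj (by
    change !![1, (a * b).toAdd; 0, 1] = !![1, a.toAdd; 0, 1] * !![1, b.toAdd; 0, 1]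
    simp [add_comm])

/-- diagonal elements -/
def dd : Fˣ →* SL(2, F) := MonoidHom.mk' (fun s => ⟨!![(s : F), 0; 0, (s⁻¹ : Fˣ)], by simp [det_fin_two]⟩)
  fun a b => V_inj (by
    change !![((a * b : Fˣ) : F), 0; 0, ((a * b)⁻¹ : Fˣ)] = !![(a : F), 0; 0, (a⁻¹ : Fˣ)] * !![(b : F), 0; 0, (b⁻¹ : Fˣ)]
    simp [mul_comm])

theorem uu_inj : Function.Injective (uu (F := F)) := fun _ _ h =>
  Multiplicative.toAdd.injective (congrFun (congrFun (congrArg V h) 0) 1)

theorem dd_inj : Function.Injective (dd (F := F)) := fun _ _ h =>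
  Units.ext (congrFun (congrFun (congrArg V h) 0) 0)

theorem dd_uu (s : Fˣ) (c : F) : dd s * uu (.ofAdd c) * (dd s)⁻¹ = uu (.ofAdd (s ^ 2 * c)) := by
  rw [mul_inv_eq_iff_eq_mul]
  refine V_inj ?_
  change !![(s : F), 0; 0, (s⁻¹ : Fˣ)] * !![1, c; 0, 1] = !![1, s ^ 2 * c; 0, 1] * !![(s : F), 0; 0, (s⁻¹ : Fˣ)]
  simp
  field_simp

theorem eq_neg_one (h2 : (2 : F) ≠ 0) {z : SL(2, F)} (zz : z * z = 1) (z1 : z ≠ 1) : z = -1 := by
  have h := congrArg V zz
  rw [map_mul, map_one] at h
  have a := congrFun (congrFun h 0) 0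
  have b := congrFun (congrFun h 0) 1
  have c := congrFun (congrFun h 1) 0
  have a' := congrFun (congrFun h 1) 1
  have d := V_det z
  simp only [mul_apply, Fin.sum_univ_two, one_apply_eq, ne_eq, zero_ne_one, one_ne_zero, not_false_eq_true,
    one_apply_ne] at a b c a'
  have t : V z 0 0 + V z 1 1 ≠ 0 := fun e => h2 (by linear_combination V z 0 0 * e - a - d)
  have b0 : V z 0 1 = 0 := (mul_eq_zero.1 (by linear_combination b)).resolve_left t
  have c0 : V z 1 0 = 0 := (mul_eq_zero.1 (by linear_combination c)).resolve_left t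
  have e0 : V z 1 1 = V z 0 0 := sub_eq_zero.1 ((mul_eq_zero.1 (by linear_combination a' - a)).resolve_left t)
  rw [b0, zero_mul, add_zero] at a
  rcases mul_self_eq_one_iff.1 a with e | e
  · exact absurd (V_inj (by ext i j; fin_cases i <;> fin_cases j <;> simp [b0, c0, e0, e])) z1
  · exact V_inj (by ext i j; fin_cases i <;> fin_cases j <;> simp [V_neg, b0, c0, e0, e])

theorem tr_conj (g y : SL(2, F)) : (V (g * y * g⁻¹)).trace = (V y).trace := by
  rw [map_mul, trace_mul_comm, ← map_mul]; simp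

variable [Fintype F]

theorem cent [DecidableEq F] {x : SL(2, F)} (h : V x 1 0 ≠ 0) : Nat.card (centralizer ({x} : Set SL(2, F))) ≤
    (Finset.univ.filter fun p : F × F => p.1 ^ 2 + (V x).trace * p.1 * p.2 + p.2 ^ 2 = 1).card := by
  have key : ∀ M : centralizer ({x} : Set SL(2, F)), V M.1 0 1 = V M.1 1 0 / V x 1 0 * V x 0 1 ∧
      V M.1 1 1 = V M.1 0 0 + V M.1 1 0 / V x 1 0 * (V x 1 1 - V x 0 0) := fun M => by
    have e := congrArg V (mem_centralizer_singleton_iff.1 M.2)
    have a := congrFun (congrFun e 0) 0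
    have b := congrFun (congrFun e 1) 0
    simp only [map_mul, mul_apply, Fin.sum_univ_two] at a b
    constructor <;> field_simp
    · linear_combination a
    · linear_combination b
  rw [← Nat.card_eq_finsetCard]
  refine Nat.card_le_card_of_injective (fun M =>
    ⟨(V M.1 0 0 - V M.1 1 0 / V x 1 0 * V x 0 0, V M.1 1 0 / V x 1 0), ?_⟩) fun M N e => ?_
  · have d := V_det M.1
    have d' := V_det x
    rw [(key M).1, (key M).2] at d
    have : V M.1 1 0 = V M.1 1 0 / V x 1 0 * V x 1 0 := by field_simp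
    simp only [Finset.mem_filter, Finset.mem_univ, true_and, trace_fin_two]
    generalize V M.1 1 0 / V x 1 0 = l at *
    rw [this] at d
    linear_combination d - l ^ 2 * d'
  · have e1 := congrArg (fun p => p.1.1) e
    have e2 := congrArg (fun p => p.1.2) e
    dsimp only at e1 e2
    have e3 : V M.1 0 0 = V N.1 0 0 := by rw [e2] at e1; exact sub_left_inj.1 e1
    refine Subtype.ext (V_inj ?_)
    ext i j; fin_cases i <;> fin_cases j
    · exact e3
    · exact (key M).1.trans (by rw [e2]; exact (key N).1.symm)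
    · exact (div_left_inj' h).1 e2
    · exact (key M).2.trans (by rw [e2, e3]; exact (key N).2.symm)

theorem conic [DecidableEq F] (τ : F) :
    (Finset.univ.filter fun p : F × F => p.1 ^ 2 + τ * p.1 * p.2 + p.2 ^ 2 = 1).card ≤ 2 * Fintype.card F := by
  refine (Finset.card_le_mul_card_image_of_maps_to (f := Prod.snd) (t := Finset.univ) (fun _ _ => Finset.mem_univ _)
    2 fun b _ => ?_)
  rcases Finset.eq_empty_or_nonempty ((Finset.univ.filter fun p : F × F =>
    p.1 ^ 2 + τ * p.1 * p.2 + p.2 ^ 2 = 1).filter fun p => p.2 = b) with h | ⟨a, ha⟩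
  · rw [h]; simp
  · refine (Finset.card_le_card (t := {a, (-a.1 - τ * b, b)}) fun c hc => ?_).trans Finset.card_le_two
    simp only [Finset.mem_filter, Finset.mem_univ, true_and] at ha hc
    obtain ⟨a, a'⟩ := a
    obtain ⟨c, c'⟩ := c
    obtain ⟨h1, rfl⟩ := ha
    obtain ⟨h2, rfl⟩ := hc
    dsimp only at *
    rcases mul_eq_zero.1 (by linear_combination h2 - h1 : (c - a) * (c - (-a - τ * c')) = 0) with e | e <;>
      simp [sub_eq_zero.1 e]

variable {χ : SL(2, F) → ℂ}

theorem two_pow (hχ : IsIrrCharacter _ χ) (hf : HF χ) : ∃ k, Fintype.card F - 1 = 2 ^ k := by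
  classical
  refine ⟨_, Nat.eq_prime_pow_of_unique_prime_dvd (Nat.sub_ne_zero_of_lt Fintype.one_lt_card) fun {r} hr hd => ?_⟩
  by_contra h2
  haveI := Fact.mk hr
  obtain ⟨s, hs⟩ := exists_prime_orderOf_dvd_card (G := Fˣ) r (by rwa [Fintype.card_units])
  refine frob hf (L0.IsIrrCharacter.isClassFunction hχ) (L0.IsIrrCharacter.apply_one_ne_zero hχ)
    (U := uu.range) (Y := (zpowers s).map dd) (fun e => ?_) ?_ ?_ ?_
  · have : uu (.ofAdd (1 : F)) = 1 := mem_bot.1 (e ▸ ⟨_, rfl⟩)
    exact one_ne_zero (α := F) (congrArg Multiplicative.toAdd (uu_inj (this.trans (map_one _).symm)))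
  · rw [card_map_of_injective dd_inj, Nat.card_zpowers, hs]
    have := hr.two_le
    omega
  · rintro _ ⟨t, -, rfl⟩ _ ⟨c, rfl⟩
    exact ⟨_, (dd_uu t c.toAdd).symm⟩
  · rintro _ ⟨t, ht, rfl⟩ _ ⟨c, rfl⟩ h
    have h1 := dd_uu t c.toAdd
    rw [ofAdd_toAdd, h, mul_inv_cancel_right] at h1
    have h3 : c.toAdd = t ^ 2 * c.toAdd := congrArg Multiplicative.toAdd (uu_inj h1)
    by_cases c0 : c.toAdd = 0
    · right; rw [show c = 1 from c0, map_one]
    · left
      have h4 : t ^ 2 = 1 := Units.ext (by simpa using (mul_left_eq_self₀.1 h3.symm).resolve_right c0)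
      have h5 := Nat.dvd_gcd (orderOf_dvd_of_pow_eq_one h4) (hs ▸ orderOf_dvd_of_mem_zpowers ht)
      rw [(Nat.coprime_primes Nat.prime_two hr).2 (Ne.symm h2), Nat.dvd_one, orderOf_eq_one_iff] at h5
      rw [h5, map_one]

theorem deg (hχ : IsIrrCharacter _ χ) (hf : HF χ) {m d : ℕ} (hm : Fintype.card F = 2 * m + 1) (hd : χ 1 = d) :
    m ≤ d := by
  classical
  have d0 : 0 < d := Nat.pos_of_ne_zero fun e => L0.IsIrrCharacter.apply_one_ne_zero hχ (by simp [hd, e])
  have m0 : m ≠ 0 := by have := Fintype.one_lt_card (α := F); omega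
  obtain ⟨γ, hγ⟩ := IsCyclic.exists_ofOrder_eq_natCard (α := Fˣ)
  rw [Nat.card_eq_fintype_card, Fintype.card_units, hm, Nat.add_sub_cancel] at hγ
  obtain ⟨g, hg⟩ : ∃ g : F → ℂ, ∀ c, g c = χ (uu (.ofAdd c)) := ⟨_, fun _ => rfl⟩
  have g2 : ∀ j : ℕ, g (γ ^ (2 * j) : Fˣ) = g 1 ∧ g (γ ^ (2 * j + 1) : Fˣ) = g γ := fun j => by
    constructor <;> rw [hg, hg, ← L0.IsIrrCharacter.isClassFunction hχ (uu (.ofAdd _)) (dd (γ ^ j)⁻¹), dd_uu] <;>
      congr 3 <;> simp <;> field_simp <;> ring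
  have s1 : ∀ n : ℕ, ∑ j ∈ Finset.range (2 * n), g (γ ^ j : Fˣ) = n * (g 1 + g γ) := fun n => by
    induction n with
    | zero => simp
    | succ n ih =>
      rw [Nat.mul_succ, Finset.sum_range_succ, Finset.sum_range_succ, ih, (g2 n).1, (g2 n).2]; push_cast; ring
  have s2 : ∑ c, g c = d + m * (g 1 + g γ) := by
    rw [Fintype.sum_eq_add_sum_subtype_ne _ 0, ← unitsEquivNeZero.sum_comp, ← s1, Finset.sum_range, hg, ofAdd_zero,
      map_one, hd, ← Function.Bijective.sum_comp (e := fun j : Fin (2 * m) => γ ^ (j : ℕ))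
        ((Fintype.bijective_iff_injective_and_card _).2 ⟨fun a b h => Fin.ext (pow_injOn_Iio_orderOf
          (by simp [hγ]) (by simp [hγ]) h), by simp [Fintype.card_units, hm]⟩)]
    rfl
  have hi : IsIntegral ℤ (g 1 + g γ) := by
    rw [hg, hg]
    exact (L0.IsCharacter.isIntegral (L0.IsIrrCharacter.isCharacter hχ) _).add
      (L0.IsCharacter.isIntegral (L0.IsIrrCharacter.isCharacter hχ) _)
  have h := top hf uu uu_inj
  rw [← Multiplicative.ofAdd.sum_comp, Finset.sum_congr rfl fun c _ => (hg c).symm, s2, Fintype.card_multiplicative,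
    hm, hd] at h
  have m1 : (m : ℂ) ≠ 0 := by exact_mod_cast m0
  generalize g 1 + g γ = N at *
  refine Nat.le_of_dvd d0 ?_
  rcases h with h | h
  · exact L0.nat_dvd_of_isIntegral_div m0 (by
      rw [show (d : ℂ) / m = -N by field_simp; linear_combination h]; exact hi.neg)
  · exact L0.nat_dvd_of_isIntegral_div m0 (by
      rw [show (d : ℂ) / m = 2 * d - 2 * N by field_simp; push_cast at h; linear_combination h]
      exact ((isIntegral_natCast 2).mul (isIntegral_natCast d)).sub ((isIntegral_natCast 2).mul hi))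

theorem three (hχ : IsIrrCharacter _ χ) (hf : HF χ) {x : SL(2, F)} (h3 : x ^ 3 = 1) (h1 : x ≠ 1) {d : ℕ}
    (hd : χ 1 = d) : (χ x).re = -d / 2 ∨ (χ x).re = d / 4 := by
  haveI := Fact.mk Nat.prime_three
  have h := cyc hf (orderOf_eq_prime h3 h1) h1
  have e : x ^ 2 = x⁻¹ := eq_inv_of_mul_eq_one_left (by rw [← pow_succ, h3])
  simp only [Finset.sum_range_succ, Finset.sum_range_zero, pow_zero, pow_one, e, hd,
    L0.IsCharacter.apply_inv (L0.IsIrrCharacter.isCharacter hχ)] at h
  refine h.imp (fun h => ?_) fun h => ?_ <;> have := congrArg Complex.re h <;> simp at this <;> linarith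

theorem sq_re (a : ℂ) : a.re ^ 2 ≤ ‖a‖ ^ 2 := by
  rw [← sq_abs]; gcongr; exact Complex.abs_re_le_norm a

theorem small (hχ : IsIrrCharacter _ χ) (hf : HF χ) (hz : ∀ x, χ (-x) = -χ x) (h2 : (2 : F) ≠ 0) {d : ℕ}
    (hd : χ 1 = d) : d ^ 2 ≤ 16 * Fintype.card F := by
  classical
  obtain ⟨x, hx⟩ := V_ex (0 : F) (-1) 1 (-1) (by simp)
  have h := three hχ hf (x := x) (V_inj (by simp [hx, pow_succ, one_fin_two]))
    (fun e => by simpa [e] using congrFun (congrFun hx 0) 0) hd
  have hb := bound hχ ![x, -x] (fun y => (V y).trace) tr_conj (fun a b h => by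
      fin_cases a <;> fin_cases b <;> simp [hx, V_neg, trace_fin_two] at h ⊢
      · exact h2 (by linear_combination -h)
      · exact h2 (by linear_combination h))
    (c := 2 * Fintype.card F) fun i => (cent (by fin_cases i <;> simp [hx, V_neg])).trans (conic _)
  simp only [Fin.sum_univ_two, cons_val_zero, cons_val_one, hz, norm_neg] at hb
  have := sq_re (χ x)
  push_cast at hb
  have : (d : ℝ) ^ 2 ≤ 16 * Fintype.card F := by
    rcases h with h | h <;> rw [h] at this <;> nlinarith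
  exact_mod_cast this

instance : Fact (Nat.Prime 17) := ⟨by norm_num⟩

theorem seventeen {χ : SL(2, ZMod 17) → ℂ} (hχ : IsIrrCharacter _ χ) (hf : HF χ) (hz : ∀ x, χ (-x) = -χ x) :
    False := by
  obtain ⟨d, -, hd⟩ := L0.IsIrrCharacter.exists_nat_pos hχ
  have h8 : (8 : ℝ) ≤ d := by exact_mod_cast deg hχ hf (m := 8) (ZMod.card 17) hd
  obtain ⟨y, hy⟩ := V_ex (0 : ZMod 17) (-1) 1 7 (by simp)
  have y9 : y ^ 9 = 1 := V_inj (by rw [map_pow, hy, map_one]; decide)
  have y3 : y ^ 3 ≠ 1 := fun e => by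
    have := congrArg V e
    rw [map_pow, hy, map_one] at this; revert this; decide
  haveI := Fact.mk Nat.prime_three
  have h3 := three hχ hf (x := y ^ 3) (by rw [← pow_mul, y9]) y3 hd
  have h9 := cyc hf (orderOf_eq_prime_pow (p := 3) (n := 1) y3 y9) (fun e => y3 (by simp [e]))
  have e : ∀ i j, i + j = 9 → χ (y ^ i) = conj (χ (y ^ j)) := fun i j h => by
    rw [← L0.IsCharacter.apply_inv (L0.IsIrrCharacter.isCharacter hχ),
      eq_inv_of_mul_eq_one_left (by rw [← pow_add, h, y9] : y ^ i * y ^ j = 1)]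
  simp only [show 3 ^ (1 + 1) = 9 from rfl, Finset.sum_range_succ, Finset.sum_range_zero, pow_zero, hd,
    e 5 4 rfl, e 6 3 rfl, e 7 2 rfl, e 8 1 rfl] at h9
  have hb := bound hχ ![y ^ 1, y ^ 2, y ^ 3, y ^ 4, -y ^ 1, -y ^ 2, -y ^ 3, -y ^ 4] (fun y => (V y).trace) tr_conj
    (by
      have : (fun i => (V (![y ^ 1, y ^ 2, y ^ 3, y ^ 4, -y ^ 1, -y ^ 2, -y ^ 3, -y ^ 4] i)).trace)
          = ![7, 13, 16, 14, 10, 4, 1, 3] := by
        funext i
        fin_cases i <;> simp only [cons_val', cons_val_zero, cons_val_succ', Fin.mk_zero, Fin.zero_eta,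
          V_neg, map_pow, hy] <;> decide
      rw [this]; decide) (c := 18) fun i => by
        fin_cases i <;> refine (cent ?_).trans ?_ <;> simp only [cons_val', cons_val_zero, cons_val_succ', Fin.mk_zero,
          Fin.zero_eta, V_neg, map_pow, hy] <;> decide +kernel
  simp only [Fin.sum_univ_succ, Fin.sum_univ_zero, cons_val_zero, cons_val_succ, hz, norm_neg] at hb
  have b1 := sq_re (χ (y ^ 1))
  have b2 := sq_re (χ (y ^ 2))
  have b3 := sq_re (χ (y ^ 3))
  have b4 := sq_re (χ (y ^ 4))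
  push_cast at hb
  rcases h3 with h3 | h3
  · rw [h3] at b3; nlinarith
  · have : (χ (y ^ 1)).re + (χ (y ^ 2)).re + (χ (y ^ 4)).re = -3 * d / 4 ∨
        (χ (y ^ 1)).re + (χ (y ^ 2)).re + (χ (y ^ 4)).re = 3 * d / 2 := by
      refine h9.imp (fun h => ?_) fun h => ?_ <;> have := congrArg Complex.re h <;>
        simp only [Complex.add_re, Complex.mul_re, Complex.conj_re, Complex.natCast_re, Complex.natCast_im,
          Complex.zero_re, Complex.re_ofNat, Complex.im_ofNat] at this <;> push_cast at this <;> linarith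
    generalize (χ (y ^ 1)).re = a at *
    generalize (χ (y ^ 2)).re = b at *
    generalize (χ (y ^ 4)).re = c at *
    have : 36 ≤ (a + b + c) ^ 2 := by rcases this with h | h <;> rw [h] <;> nlinarith
    nlinarith [sq_nonneg (a - b), sq_nonneg (b - c), sq_nonneg (a - c), sq_nonneg (χ (y ^ 3)).re]

end XA

variable {X : Type u} [Group X] [Finite X]

theorem sl2 {F : Type} [Field F] [Fintype F] (hodd : Odd (Fintype.card F)) (h3 : 3 < Fintype.card F)
    (e : X ≃* Matrix.SpecialLinearGroup (Fin 2) F) {χ : X → ℂ} (hχ : IsIrrCharacter X χ) (hf : HF χ)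
    {z : X} (hz : ∀ x, χ (z * x) = -χ x) (zz : z * z = 1) : Fintype.card F = 5 ∨ Fintype.card F = 9 := by
  have tr : ∀ {K : Type} [Field K] (e : X ≃* SL(2, K)), (2 : K) ≠ 0 → IsIrrCharacter _ (fun x => χ (e.symm x)) ∧
      HF (fun x => χ (e.symm x)) ∧ ∀ x, χ (e.symm (-x)) = -χ (e.symm x) := fun e h2 =>
    ⟨L0.IsIrrCharacter.comp_of_surjective hχ e.symm.toMonoidHom e.symm.surjective,
      XA.comp hf e.symm.toMonoidHom e.symm.injective, fun x => by
        rw [← hz, ← neg_one_mul x, ← XA.eq_neg_one h2 (z := e z) (by rw [← map_mul, zz, map_one]) fun h => ?_]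
        · simp
        · have := hz 1
          rw [e.injective (h.trans (map_one e).symm), one_mul, eq_neg_iff_add_eq_zero, add_self_eq_zero] at this
          exact L0.IsIrrCharacter.apply_one_ne_zero hχ this⟩
  have h2 : (2 : F) ≠ 0 := Ring.two_ne_zero fun h => by
    have := FiniteField.even_card_iff_char_two.1 h
    rw [Nat.odd_iff] at hodd; omega
  obtain ⟨a1, a2, a3⟩ := tr e h2
  obtain ⟨k, hk⟩ := XA.two_pow a1 a2
  obtain ⟨d, -, hd⟩ := L0.IsIrrCharacter.exists_nat_pos a1
  obtain ⟨m, hm⟩ := hodd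
  have b1 := XA.deg a1 a2 hm hd
  have b2 := XA.small a1 a2 a3 h2 hd
  have b3 : m ≤ 32 := by nlinarith
  have b4 : k ≤ 6 := by
    by_contra h
    have := Nat.pow_le_pow_right two_pos (by omega : 7 ≤ k)
    omega
  have pp := FiniteField.isPrimePow_card F
  interval_cases k
  · omega
  · omega
  · omega
  · omega
  · obtain ⟨c1, c2, c3⟩ := tr (e.trans (H1.slCongr (ZMod.ringEquivOfPrime F (p := 17) (by norm_num)
      (by omega)).symm)) (by decide)
    exact (XA.seventeen c1 c2 c3).elim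
  · rw [show Fintype.card F = 33 by omega] at pp; exact absurd pp (by decide +kernel)
  · rw [show Fintype.card F = 65 by omega] at pp; exact absurd pp (by decide +kernel)

end Cfsg.Agent.WA.Gd
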