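import Cfsg.Agent.WA.GdDef
import Cfsg.Agent.L0.Char3

/-! Character arithmetic for `HF`. -/

set_option autoImplicit false

namespace Cfsg.Agent.WA.Gd

open Subgroup Cfsg.Agent.H8

universe u v

namespace XA

variable {X : Type*} [Group X] {χ : X → ℂ}

theorem comp {H : Type*} [Group H] (hf : HF χ) (f : H →* X) (inj : Function.Injective f) : HF fun x => χ (f x) := by
  intro Y hY
  have h := hf (Y.map f) fun e => hY ((Subgroup.map_eq_bot_iff_of_injective _ inj).1 e)
  rw [← finsum_comp_equiv (Y.equivMapOfInjective f inj).toEquiv, card_map_of_injective inj] at h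
  simpa using h

theorem top {H : Type*} [Group H] [Fintype H] [Nontrivial H] (hf : HF χ) (f : H →* X) (inj : Function.Injective f) :
    ∑ h, χ (f h) = 0 ∨ 2 * ∑ h, χ (f h) = Fintype.card H * χ 1 := by
  have h := comp hf f inj ⊤ top_ne_bot
  rw [← finsum_comp_equiv (topEquiv (G := H)).symm.toEquiv, card_top, finsum_eq_sum_of_fintype] at h
  simpa using h

variable [Finite X]

theorem cyc (hf : HF χ) {y : X} {n : ℕ} (h : orderOf y = n) (h1 : y ≠ 1) :
    ∑ j ∈ Finset.range n, χ (y ^ j) = 0 ∨ 2 * ∑ j ∈ Finset.range n, χ (y ^ j) = n * χ 1 := by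
  have h2 := hf (zpowers y) (by simpa using h1)
  rw [← finsum_comp_equiv (finEquivZPowers (isOfFinOrder_of_finite y)), Nat.card_zpowers,
    finsum_eq_sum_of_fintype] at h2
  subst h
  rw [Finset.sum_range]
  exact h2

theorem frob (hf : HF χ) (hc : IsClassFunction X χ) (h1 : χ 1 ≠ 0) {U Y : Subgroup X} (hU : U ≠ ⊥)
    (hY : 3 ≤ Nat.card Y) (hn : ∀ y ∈ Y, ∀ u ∈ U, y * u * y⁻¹ ∈ U)
    (fp : ∀ y ∈ Y, ∀ u ∈ U, y * u = u * y → y = 1 ∨ u = 1) : False := by
  classical
  haveI := Fintype.ofFinite U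
  haveI := Fintype.ofFinite Y
  have hle : Y ≤ normalizer (U : Set X) := fun y hy => mem_normalizer_iff.2 fun u =>
    ⟨hn y hy u, fun h => by simpa [mul_assoc] using hn _ (inv_mem hy) _ h⟩
  let e : U × Y ≃ (U ⊔ Y : Subgroup X) := Equiv.ofBijective
    (fun p => ⟨p.1 * p.2, mul_mem (mem_sup_left p.1.2) (mem_sup_right p.2.2)⟩) ⟨fun a b h => by
      have h2 : (a.1 : X) * a.2 = b.1 * b.2 := congrArg Subtype.val h
      have h3 : (b.1 : X)⁻¹ * a.1 = b.2 * (a.2 : X)⁻¹ := by rw [inv_mul_eq_iff_eq_mul, ← mul_assoc, ← h2]; simp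
      have h4 : (b.1 : X)⁻¹ * a.1 = 1 := (fp _ (h3 ▸ mul_mem b.2.2 (inv_mem a.2.2)) _
        (mul_mem (inv_mem b.1.2) a.1.2) rfl).elim id id
      exact Prod.ext (Subtype.ext (inv_mul_eq_one.1 h4).symm) (Subtype.ext (mul_inv_eq_one.1 (h3 ▸ h4)).symm),
    fun w => by
      have : (w : X) ∈ ((U ⊔ Y : Subgroup X) : Set X) := w.2
      rw [coe_mul_of_right_le_normalizer_left _ _ hle] at this
      obtain ⟨a, ha, b, hb, h⟩ := this
      exact ⟨⟨⟨a, ha⟩, ⟨b, hb⟩⟩, Subtype.ext h⟩⟩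
  have s1 : ∀ y : Y, y ≠ 1 → ∑ u : U, χ (u * y) = Nat.card U * χ y := fun y hy => by
    have inj : Function.Injective fun v : U =>
        (⟨v * (y * (v : X)⁻¹ * (y : X)⁻¹), mul_mem v.2 (hn _ y.2 _ (inv_mem v.2))⟩ : U) := fun a b h => by
      have h2 : (a : X) * (y * (a : X)⁻¹ * (y : X)⁻¹) = b * (y * (b : X)⁻¹ * (y : X)⁻¹) := congrArg Subtype.val h
      have h3 := (fp _ y.2 _ (mul_mem (inv_mem b.2) a.2) (by
        calc (y : X) * ((b : X)⁻¹ * a) = (b : X)⁻¹ * (b * (y * (b : X)⁻¹ * (y : X)⁻¹)) * y * a := by group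
          _ = _ := by rw [← h2]; group)).resolve_left fun e => hy (Subtype.ext e)
      exact Subtype.ext (inv_mul_eq_one.1 h3).symm
    rw [← (Finite.injective_iff_bijective.1 inj).sum_comp, Finset.sum_congr rfl fun (v : U) _ =>
      (by rw [← hc y v]; congr 1; group : χ (v * (y * (v : X)⁻¹ * (y : X)⁻¹) * y) = χ y)]
    simp
  have s2 : ∑ᶠ w : (U ⊔ Y : Subgroup X), χ w = ∑ u : U, χ u + Nat.card U * (∑ y : Y, χ y - χ 1) := by
    rw [← finsum_comp_equiv e, finsum_eq_sum_of_fintype, Fintype.sum_prod_type_right,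
      ← Finset.add_sum_erase _ _ (Finset.mem_univ (1 : Y)), ← Finset.add_sum_erase _ _ (Finset.mem_univ (1 : Y))]
    simp only [OneMemClass.coe_one, add_sub_cancel_left, Finset.mul_sum]
    congr 1
    · exact Finset.sum_congr rfl fun u _ => congrArg χ (mul_one (u : X))
    · exact Finset.sum_congr rfl fun y hy => s1 y (Finset.ne_of_mem_erase hy)
  have a1 := hf U hU
  have a2 := hf Y (fun e => by rw [e, card_bot] at hY; omega)
  have a3 := hf (U ⊔ Y) fun e => hU (eq_bot_iff.2 (e ▸ le_sup_left))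
  rw [s2, ← Nat.card_congr e, Nat.card_prod] at a3
  rw [finsum_eq_sum_of_fintype] at a1 a2
  have a0 : (Nat.card U : ℂ) ≠ 0 := by exact_mod_cast Nat.card_pos.ne'
  generalize ∑ u : U, χ u = A at *
  generalize ∑ y : Y, χ y = B at *
  generalize χ 1 = d at *
  generalize Nat.card U = a at *
  generalize Nat.card Y = r at *
  have key : ∀ k l : ℤ, (a : ℂ) * d * (k * r - l) = 0 → k * r = l := fun k l h => by
    have := (mul_eq_zero.1 h).resolve_left (mul_ne_zero a0 h1)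
    exact_mod_cast sub_eq_zero.1 this
  push_cast at a3
  rcases a1 with a1 | a1 <;> rcases a2 with a2 | a2 <;> rcases a3 with a3 | a3
  · have := key 0 2 (by push_cast; linear_combination 2 * a3 - 2 * a1 - 2 * a * a2); omega
  · have := key (-1) 2 (by push_cast; linear_combination a3 - 2 * a1 - 2 * a * a2); omega
  · have := key 1 2 (by push_cast; linear_combination 2 * a3 - 2 * a1 - a * a2); omega
  · have := key 0 2 (by push_cast; linear_combination a3 - 2 * a1 - a * a2); omega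
  · have := key 0 1 (by push_cast; linear_combination 2 * a3 - a1 - 2 * a * a2); omega
  · have := key (-1) 1 (by push_cast; linear_combination a3 - a1 - 2 * a * a2); omega
  · have := key 1 1 (by push_cast; linear_combination 2 * a3 - a1 - a * a2); omega
  · have := key 0 1 (by push_cast; linear_combination a3 - a1 - a * a2); omega

theorem bound (hχ : IsIrrCharacter X χ) {ι β : Type*} [Fintype ι] (x : ι → X) (τ : X → β)
    (hτ : ∀ g y, τ (g * y * g⁻¹) = τ y) (inj : Function.Injective fun i => τ (x i)) {c : ℕ}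
    (hc : ∀ i, Nat.card (centralizer ({x i} : Set X)) ≤ c) : ∑ i, ‖χ (x i)‖ ^ 2 ≤ c := by
  classical
  haveI := Fintype.ofFinite X
  have n0 : (0 : ℝ) < Nat.card X := by exact_mod_cast Nat.card_pos
  have h1 : ∑ g, ‖χ g‖ ^ 2 = Nat.card X := by
    have := L0.IsIrrCharacter.classInner_self hχ
    rw [L0.classInner_self_eq] at this
    have h2 : (Nat.card X : ℝ)⁻¹ * ∑ g, ‖χ g‖ ^ 2 = 1 := by exact_mod_cast this
    rwa [inv_mul_eq_one₀ n0.ne', eq_comm] at h2
  have h2 : ∑ i, ((centralizer ({x i} : Set X)).index : ℝ) * ‖χ (x i)‖ ^ 2 ≤ Nat.card X := by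
    rw [← h1]
    calc _ = ∑ i, ∑ y ∈ Finset.univ.filter (IsConj (x i)), ‖χ y‖ ^ 2 := Finset.sum_congr rfl fun i _ => by
          rw [← L0.card_filter_isConj, ← nsmul_eq_mul, ← Finset.sum_const]
          exact Finset.sum_congr rfl fun y hy => by
            rw [L0.IsClassFunction.eq_of_isConj (L0.IsIrrCharacter.isClassFunction hχ) (Finset.mem_filter.1 hy).2]
      _ = ∑ y ∈ Finset.univ.biUnion fun i => Finset.univ.filter (IsConj (x i)), ‖χ y‖ ^ 2 :=
          (Finset.sum_biUnion fun i _ j _ hij => Finset.disjoint_left.2 fun y hi hj => hij (inj (by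
            obtain ⟨g, hg⟩ := isConj_iff.1 ((Finset.mem_filter.1 hi).2.trans (Finset.mem_filter.1 hj).2.symm)
            simp only [← hg, hτ]))).symm
      _ ≤ _ := Finset.sum_le_sum_of_subset_of_nonneg (Finset.subset_univ _) fun _ _ _ => by positivity
  refine le_of_mul_le_mul_left ?_ n0
  calc _ = ∑ i, (Nat.card X : ℝ) * ‖χ (x i)‖ ^ 2 := Finset.mul_sum ..
    _ ≤ ∑ i, c * (((centralizer ({x i} : Set X)).index : ℝ) * ‖χ (x i)‖ ^ 2) := Finset.sum_le_sum fun i _ => by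
        rw [← mul_assoc, ← (centralizer ({x i} : Set X)).card_mul_index]
        push_cast
        gcongr
        exact hc i
    _ ≤ _ := by rw [← Finset.mul_sum, mul_comm (Nat.card X : ℝ)]; gcongr

theorem mem_pow {y u : X} {n : ℕ} (hn : n ≠ 0) (h : y ^ n = 1) (hu : u ∈ zpowers y) : ∃ i < n, u = y ^ i := by
  obtain ⟨i, rfl⟩ := (mem_powers_iff_mem_zpowers.2 hu : u ∈ Submonoid.powers y)
  exact ⟨i % n, Nat.mod_lt _ (Nat.pos_of_ne_zero hn), pow_eq_pow_mod i h⟩

end XA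

variable {X : Type u} [Group X] [Finite X]

set_option maxRecDepth 100000 in
theorem a7 (h : IsNonsplitDoubleCover X (alternatingGroup (Fin 7))) {χ : X → ℂ} (hχ : IsIrrCharacter X χ)
    (hf : HF χ) : False := by
  obtain ⟨h2, ⟨e⟩, -⟩ := h
  let φ : X →* Equiv.Perm (Fin 7) := (alternatingGroup _).subtype.comp (e.toMonoidHom.comp (QuotientGroup.mk' _))
  have k1 : ∀ x, φ x = 1 → x ∈ center X := fun x hx =>
    (QuotientGroup.eq_one_iff x).1 (e.injective ((Subtype.ext hx).trans (map_one e).symm))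
  have k2 : ∀ x, φ x = 1 → x ^ 2 = 1 := fun x hx => by
    have := congrArg Subtype.val (pow_card_eq_one' (x := (⟨x, k1 x hx⟩ : center X)))
    rwa [h2] at this
  have su : ∀ p : Equiv.Perm (Fin 7), Equiv.Perm.sign p = 1 → ∃ x, φ x = p := fun p hp => by
    obtain ⟨x, hx⟩ := (e.surjective.comp (QuotientGroup.mk'_surjective _)) ⟨p, hp⟩
    exact ⟨x, congrArg Subtype.val hx⟩
  obtain ⟨u', hu'⟩ := su (c[0, 1, 2, 3, 4, 5, 6]) (by decide)
  obtain ⟨y', hy'⟩ := su (c[1, 2, 4] * c[3, 6, 5]) (by decide)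
  have u7 : (u' ^ 8) ^ 7 = 1 := by
    rw [← pow_mul, show 8 * 7 = 7 * 2 * 4 from rfl, pow_mul, pow_mul, k2 _ (by rw [map_pow, hu']; decide), one_pow]
  have y3 : (y' ^ 4) ^ 3 = 1 := by
    rw [← pow_mul, show 4 * 3 = 3 * 2 * 2 from rfl, pow_mul, pow_mul, k2 (y' ^ 3) (by rw [map_pow, hy']; decide), one_pow]
  have hu : φ (u' ^ 8) = c[0, 1, 2, 3, 4, 5, 6] := by rw [map_pow, hu']; decide
  have hy : φ (y' ^ 4) = c[1, 2, 4] * c[3, 6, 5] := by rw [map_pow, hy']; decide
  generalize u' ^ 8 = u at *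
  generalize y' ^ 4 = y at *
  have yu : y * u * y⁻¹ = u ^ 2 := by
    have h1 : φ (y * u * y⁻¹ * (u ^ 2)⁻¹) = 1 := by
      simp only [map_mul, map_inv, map_pow, hu, hy]; decide
    obtain ⟨c, hc⟩ : ∃ c, c = y * u * y⁻¹ * (u ^ 2)⁻¹ := ⟨_, rfl⟩
    rw [← hc] at h1
    have h3 : y * u * y⁻¹ = c * u ^ 2 := by rw [hc]; simp
    have h4 : Commute c (u ^ 2) := (mem_center_iff.1 (k1 c h1) _).symm
    have h5 := congrArg (· ^ 7) h3
    simp only [conj_pow, u7, h4.mul_pow, ← pow_mul] at h5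
    rw [show 2 * 7 = 7 * 2 from rfl, pow_mul, u7, show 7 = 2 * 3 + 1 from rfl, pow_succ, pow_mul, k2 c h1] at h5
    rw [h3, show c = 1 by simpa using h5.symm, one_mul]
  haveI := Fact.mk Nat.prime_three
  refine XA.frob hf (L0.IsIrrCharacter.isClassFunction hχ) (L0.IsIrrCharacter.apply_one_ne_zero hχ)
    (U := zpowers u) (Y := zpowers y) ?_ ?_ (fun a ha b hb => ?_) fun a ha b hb h => ?_
  · rw [Ne, zpowers_eq_bot]; rintro rfl; rw [map_one] at hu; revert hu; decide
  · rw [Nat.card_zpowers, orderOf_eq_prime y3]; rintro rfl; rw [map_one] at hy; revert hy; decide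
  · obtain ⟨i, -, rfl⟩ := XA.mem_pow (by norm_num) y3 ha
    clear ha
    induction i with
    | zero => simpa using hb
    | succ i ih =>
      obtain ⟨k, hk⟩ := mem_zpowers_iff.1 ih
      rw [show y ^ (i + 1) * b * (y ^ (i + 1))⁻¹ = y * (y ^ i * b * (y ^ i)⁻¹) * y⁻¹ by rw [pow_succ']; group,
        ← hk, ← conj_zpow, yu]
      exact zpow_mem (pow_mem (mem_zpowers u) 2) k
  · obtain ⟨i, hi, rfl⟩ := XA.mem_pow (by norm_num) y3 ha
    obtain ⟨j, hj, rfl⟩ := XA.mem_pow (by norm_num) u7 hb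
    have h1 := congrArg φ h
    simp only [map_mul, map_pow, hu, hy] at h1
    have : ∀ i < 3, ∀ j < 7, (c[1, 2, 4] * c[3, 6, 5] : Equiv.Perm (Fin 7)) ^ i * c[0, 1, 2, 3, 4, 5, 6] ^ j =
      c[0, 1, 2, 3, 4, 5, 6] ^ j * (c[1, 2, 4] * c[3, 6, 5]) ^ i → i = 0 ∨ j = 0 := by decide
    rcases this i hi j hj h1 with rfl | rfl <;> simp

end Cfsg.Agent.WA.Gd
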