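import Cfsg.Agent.WA.GdBDef
import Cfsg.Agent.H8.Clos1

/-! Common tools for part B. -/

set_option autoImplicit false

namespace Cfsg.Agent.WA.Gd

open Subgroup Cfsg.Agent.H8

universe u

variable {X : Type u} [Group X]

theorem mk_eq_one {x : X} : (QuotientGroup.mk x : X ⧸ center X) = 1 ↔ x ∈ center X := QuotientGroup.eq_one_iff x

/-- `Z*`, commuting form -/
theorem zs_comm [Finite X] (hs : IsSimpleGroup (X ⧸ center X)) (hna : ¬ IsMulCommutative (X ⧸ center X))
    {x : X} (hx : x * x ∈ center X) (hc : x ∉ center X) :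
    ∃ g : X, x⁻¹ * (g * x * g⁻¹) ∉ center X ∧
      (x * (g * x * g⁻¹))⁻¹ * (g * x * g⁻¹ * x) ∈ center X := by
  by_contra h
  push Not at h
  have := H7.Isolated.of_commute (t := (QuotientGroup.mk x : X ⧸ center X))
    (by rw [← QuotientGroup.mk_mul, mk_eq_one]; exact hx) (fun g hg => by
      obtain ⟨g, rfl⟩ := QuotientGroup.mk_surjective g
      by_contra hne
      refine h g (fun h1 => hne (QuotientGroup.eq.2 h1).symm) (QuotientGroup.eq.1 hg.eq))
  exact this.eq_one_or_comm.elim (fun h1 => hc (mk_eq_one.1 h1)) hna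

theorem center_le_syl [Finite X] (hZ : IsPGroup 2 (center X)) {S : Subgroup X} (hS : IsSylowIn 2 S ⊤) :
    center X ≤ S :=
  hS.le_of_le_normalizer hZ le_top (by rw [normalizer_eq_top]; exact le_top)

/-- `Z*`, Sylow form -/
theorem zs_syl [Finite X] (hZ : IsPGroup 2 (center X)) (hs : IsSimpleGroup (X ⧸ center X))
    (hna : ¬ IsMulCommutative (X ⧸ center X)) {S : Subgroup X} (hS : IsSylowIn 2 S ⊤)
    {x : X} (hx : x * x ∈ center X) (hc : x ∉ center X) :
    ∃ g : X, g * x * g⁻¹ ∈ S ∧ x⁻¹ * (g * x * g⁻¹) ∉ center X := by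
  have := Fact.mk Nat.prime_two
  have h1 := hS.map (QuotientGroup.mk' (center X))
  rw [map_top_of_surjective _ (QuotientGroup.mk'_surjective _)] at h1
  obtain ⟨g, ⟨y, hy, e⟩, h3⟩ := Clos.exists_conj_ne hna h1 (t := (QuotientGroup.mk x : X ⧸ center X))
    ⟨by rw [← QuotientGroup.mk_mul, mk_eq_one]; exact hx, fun h => hc (mk_eq_one.1 h)⟩
  obtain ⟨g, rfl⟩ := QuotientGroup.mk_surjective g
  refine ⟨g, ?_, fun h => h3 (QuotientGroup.eq.2 h).symm⟩
  have h4 : y⁻¹ * (g * x * g⁻¹) ∈ center X := QuotientGroup.eq.1 e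
  simpa using mul_mem hy (center_le_syl hZ hS h4)

theorem ncomm_of_perfect (pf : commutator X = ⊤) (hs : IsSimpleGroup (X ⧸ center X)) :
    ¬ IsMulCommutative (X ⧸ center X) := fun h => by
  have h1 : commutator X ≤ center X := by
    rw [commutator_def, commutator_le]
    intro a _ b _
    rw [← mk_eq_one, commutatorElement_def]
    simp only [QuotientGroup.mk_mul, QuotientGroup.mk_inv]
    rw [h.1.1 (a : X ⧸ center X) b]; group
  obtain ⟨y, hy⟩ := exists_ne (1 : X ⧸ center X)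
  obtain ⟨y, rfl⟩ := QuotientGroup.mk_surjective y
  exact hy (mk_eq_one.2 (h1 (pf ▸ mem_top y)))

theorem index_ne_two (pf : commutator X = ⊤) (K : Subgroup X) : K.index ≠ 2 := fun h => by
  have hn : K.Normal := normal_of_index_eq_two h
  have h1 : commutator X ≤ K := by
    rw [commutator_def, commutator_le]
    intro a _ b _
    rw [commutatorElement_def, mul_assoc, mul_mem_iff_of_index_two h, mul_mem_iff_of_index_two h,
      mul_mem_iff_of_index_two h, inv_mem_iff, inv_mem_iff]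
  rw [pf, top_le_iff] at h1
  rw [h1, index_top] at h; omega

variable {z : X}

namespace PB

variable (h : PB z)
include h

theorem zi : z⁻¹ = z := inv_eq_of_mul_eq_one_right h.zz
theorem zZ : z ∈ center X := mem_center_iff.2 fun g => (h.zc g).symm
theorem zl (a b : X) : a * (z * b) = z * (a * b) := by rw [← mul_assoc, ← h.zc, mul_assoc]
theorem zr (a : X) : a * z = z * a := (h.zc a).symm
theorem zzl (a : X) : z * (z * a) = a := by rw [← mul_assoc, h.zz, one_mul]
theorem conj_z (g : X) : g * z * g⁻¹ = z := by rw [h.zr, mul_inv_cancel_right]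
theorem ne_zmul (a : X) : a ≠ z * a := fun e => h.z1 (by simpa using e.symm)
theorem hi (K : Subgroup X) : K.index ≠ 2 := index_ne_two h.pf K

theorem ni_z {d : X} (hd : NI z d) : NI z (z * d) :=
  ⟨by rw [mul_assoc, h.zl, h.zzl, hd.1], fun e => hd.2.2 (by rw [← h.zzl d, e, mul_one]),
    fun e => hd.2.1 (by simpa using e)⟩

theorem ni_conj {d : X} (hd : NI z d) (g : X) : NI z (g * d * g⁻¹) :=
  ⟨by rw [show g * d * g⁻¹ * (g * d * g⁻¹) = g * (d * d) * g⁻¹ by group, hd.1]; group,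
    fun e => hd.2.1 (by simpa using e), fun e => hd.2.2 (by
      rw [← h.conj_z g] at e; simpa using e)⟩

theorem ni_nc {d : X} (hd : NI z d) : d ∉ center X := fun hc => (h.ci d hc hd.1).elim hd.2.1 hd.2.2

/-- an involution anticommuting with some element -/
theorem ni_of {d x : X} (hd : d * d = 1) (hx : d * x = z * (x * d)) : NI z d :=
  ⟨hd, fun e => h.ne_zmul x (by simpa [e] using hx), fun e => h.ne_zmul (z * x) (by
    rw [e] at hx; rw [← h.zc x] at hx; exact hx)⟩

theorem anti_symm {a b : X} (e : a * b = z * (b * a)) : b * a = z * (a * b) := by rw [e, h.zzl]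

/-- the elements commuting with `y` up to `z` -/
def Cz (y : X) : Subgroup X where
  carrier := {x | Pm z x y}
  one_mem' := Or.inl (by simp)
  mul_mem' {a b} ha hb := by
    rcases ha with ha | ha <;> rcases hb with hb | hb
    · left; rw [mul_assoc, hb, ← mul_assoc, ha, mul_assoc]
    · right; rw [mul_assoc, hb, h.zl, ← mul_assoc a, ha, mul_assoc]
    · right; rw [mul_assoc, hb, ← mul_assoc, ha, mul_assoc, mul_assoc]
    · left; rw [mul_assoc, hb, h.zl, ← mul_assoc a, ha, mul_assoc, h.zzl, mul_assoc]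
  inv_mem' {a} ha := by
    rcases ha with ha | ha
    · left; rw [inv_mul_eq_iff_eq_mul, ← mul_assoc, ha, mul_inv_cancel_right]
    · right; rw [inv_mul_eq_iff_eq_mul, h.zl, ← mul_assoc a, ha, mul_assoc z, h.zzl, mul_inv_cancel_right]

theorem mem_Cz {x y : X} : x ∈ h.Cz y ↔ Pm z x y := Iff.rfl

theorem zS [Finite X] {S : Subgroup X} (hS : IsSylowIn 2 S ⊤) : z ∈ S := center_le_syl h.hZ hS h.zZ

/-- extremal conjugation -/
theorem ext [Finite X] {S P : Subgroup X} (hS : IsSylowIn 2 S ⊤) {x y : X} (hy : ∀ u ∈ S, Pm z u y)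
    (hc : IsConj x y) (hP : IsPGroup 2 P) (hx : ∀ u ∈ P, Pm z u x) :
    ∃ k : X, (k * x * k⁻¹ = y ∨ k * x * k⁻¹ = z * y) ∧ ∀ u ∈ P, k * u * k⁻¹ ∈ S := by
  have := Fact.mk Nat.prime_two
  obtain ⟨g, hg⟩ := isConj_iff.1 hc
  have h1 : cj g P ≤ h.Cz y := by
    rintro _ ⟨u, hu, rfl⟩
    refine (hx u hu).imp (fun e => ?_) (fun e => ?_)
    · rw [← hg]; change g * u * g⁻¹ * _ = _ * (g * u * g⁻¹)
      rw [show g * u * g⁻¹ * (g * x * g⁻¹) = g * (u * x) * g⁻¹ by group, e]; group
    · rw [← hg]; change g * u * g⁻¹ * _ = z * (_ * (g * u * g⁻¹))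
      rw [show g * u * g⁻¹ * (g * x * g⁻¹) = g * (u * x) * g⁻¹ by group, e, h.zl]; group
  obtain ⟨Q, hQ, hle⟩ := exists_isSylowIn_ge (pgroup_cj hP g) h1
  obtain ⟨m, hm, e⟩ := hQ.exists_cj_eq (hS.of_le (H := h.Cz y) (fun u hu => hy u hu) le_top)
  refine ⟨m * g, ?_, fun u hu => ?_⟩
  · rw [show m * g * x * (m * g)⁻¹ = m * (g * x * g⁻¹) * m⁻¹ by group, hg]
    exact Or.imp (fun e => by rw [e, mul_inv_cancel_right]) (fun e => by rw [e]; group) hm
  · rw [show m * g * u * (m * g)⁻¹ = m * (g * u * g⁻¹) * m⁻¹ by group, ← e]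
    exact conj_mem_cj m (hle (conj_mem_cj g hu))

end PB

end Cfsg.Agent.WA.Gd
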