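import Cfsg.Agent.WA.GdDef

/-! Part B of the `GL₂(D)` problem: the pure group setting. -/

set_option autoImplicit false

namespace Cfsg.Agent.WA.Gd

open Subgroup Cfsg.Agent.H8

universe u

variable {X : Type u} [Group X]

/-- `a` and `b` commute up to `z` -/
def Pm (z a b : X) : Prop := a * b = b * a ∨ a * b = z * (b * a)

/-- the group-theoretic hypotheses -/
structure PB (z : X) : Prop where
  zz : z * z = 1
  z1 : z ≠ 1
  zc : ∀ x, z * x = x * z
  ci : ∀ c ∈ center X, c * c = 1 → c = 1 ∨ c = z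
  f1 : ∀ {t d : X}, NI z t → d * d = 1 → d * t = t * d → d = 1 ∨ d = z ∨ d = t ∨ d = z * t
  f2 : ∀ x : X, ¬ NI z (x * x)
  pf : commutator X = ⊤
  hZ : IsPGroup 2 (center X)
  hs : IsSimpleGroup (X ⧸ center X)
  hna : ¬ IsMulCommutative (X ⧸ center X)

/-- a Sylow `2`-subgroup normalizing `⟨t, z⟩` and a conjugate `s` of `t` moving `t` -/
structure F0 (z : X) (S : Subgroup X) (t s : X) : Prop where
  syl : IsSylowIn 2 S ⊤
  ht : NI z t
  hs : NI z s
  tS : t ∈ S
  sS : s ∈ S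
  st : s * t = z * (t * s)
  nt : ∀ x ∈ S, Pm z x t
  cj : ∀ d, NI z d → IsConj d t

/-- the frame of the last step -/
structure Bf (z : X) (S : Subgroup X) (t s c w a : X) : Prop extends F0 z S t s where
  cS : c ∈ S
  cc : c * c = z
  ct : c * t = t * c
  cs : c * s = s * c
  nc : ∀ x ∈ S, Pm z x c
  ab : ∀ x ∈ S, ∀ y ∈ S, x * t = t * x → x * c = c * x → y * t = t * y → y * c = c * y → x * y = y * x
  exJ : ∃ J ∈ S, J * c = z * (c * J)
  inv : ∀ J ∈ S, J * t = t * J → J * c = z * (c * J) →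
    J * J = z ∧ ∀ x ∈ S, x * t = t * x → x * c = c * x → J * x * J⁻¹ = x⁻¹
  neg : ∀ x ∈ S, x * t = t * x → x * c = c * x → s * x * s = x⁻¹ →
    x = 1 ∨ x = z ∨ x = t * c ∨ x = z * (t * c)
  wS : w ∈ S
  wt : w * t = t * w
  ws : w * s = s * w
  ww : w * w = c
  aS : a ∈ S
  at' : a * t = t * a
  ac : a * c = c * a
  as : a * s = s * a
  cyc : ∀ x ∈ S, x * t = t * x → x * c = c * x → x * s = s * x → x ∈ zpowers a

end Cfsg.Agent.WA.Gd
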