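import Cfsg.Agent.WA.Gd1

/-! The character attached to a representation in a ring of rank at most two. -/

set_option autoImplicit false

namespace Cfsg.Agent.WA.Gd

open Subgroup Cfsg.Agent.H8
open scoped TensorProduct

universe u v

namespace XC

theorem factor {K V : Type*} [Field K] [AddCommGroup V] [Module K V] {a b : V →ₗ[K] V}
    (h : ∀ v, a v = 0 → b v = 0) : ∃ g : V →ₗ[K] V, g ∘ₗ a = b := by
  obtain ⟨g, hg⟩ := LinearMap.exists_extend
    ((LinearMap.ker a).liftQ b (fun v hv => LinearMap.mem_ker.2 (h v (LinearMap.mem_ker.1 hv))) ∘ₗ a.quotKerEquivRange.symm.toLinearMap)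
  refine ⟨g, LinearMap.ext fun v => ?_⟩
  have := LinearMap.congr_fun hg ⟨a v, LinearMap.mem_range_self a v⟩
  refine this.trans ?_
  rw [LinearMap.comp_apply, LinearEquiv.coe_coe, LinearMap.quotKerEquivRange_symm_apply_image]; rfl

theorem half {V : Type*} [AddCommGroup V] [Module ℂ V] [FiniteDimensional ℂ V] {P g g' : Module.End ℂ V}
    (hP : ∀ w, P (P w) = P w) (h1 : ∀ w, P w = 0 → P (g w) = 0 → w = 0)
    (h2 : ∀ w, P w = w → P (g' w) = g' w → w = 0) : 2 * LinearMap.trace ℂ V P = Module.finrank ℂ V := by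
  have pr : LinearMap.IsProj (LinearMap.range P) P := ⟨fun x => ⟨x, rfl⟩, by rintro _ ⟨x, rfl⟩; exact hP x⟩
  have a1 : Module.finrank ℂ (LinearMap.ker P) ≤ Module.finrank ℂ (LinearMap.range P) :=
    LinearMap.finrank_le_finrank_of_injective (f := P.rangeRestrict ∘ₗ g ∘ₗ (LinearMap.ker P).subtype)
      ((injective_iff_map_eq_zero _).2 fun w hw => Subtype.ext (h1 w w.2 (congrArg Subtype.val hw)))
  have a2 : Module.finrank ℂ (LinearMap.range P) ≤ Module.finrank ℂ (LinearMap.ker P) :=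
    LinearMap.finrank_le_finrank_of_injective
      (f := LinearMap.codRestrict (LinearMap.ker P) ((1 - P) ∘ₗ g' ∘ₗ (LinearMap.range P).subtype) fun w => by
        simp [hP])
      ((injective_iff_map_eq_zero _).2 fun w hw => Subtype.ext (h2 w (pr.map_id _ w.2) (by
        have := congrArg Subtype.val hw
        exact (sub_eq_zero.1 this).symm)))
  rw [pr.trace, ← LinearMap.finrank_range_add_finrank_ker P, le_antisymm a1 a2]
  push_cast; ring

variable {X : Type u} [Group X] [Finite X] {R : Type v} [Ring R] [Algebra ℚ R]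

theorem avg (ρ : X →* R) (Y : Subgroup X) [Fintype Y] :
    (∀ y ∈ Y, ρ y * ((Nat.card Y : ℚ)⁻¹ • ∑ y : Y, ρ y) = (Nat.card Y : ℚ)⁻¹ • ∑ y : Y, ρ y) ∧
    ((Nat.card Y : ℚ)⁻¹ • ∑ y : Y, ρ y) * ((Nat.card Y : ℚ)⁻¹ • ∑ y : Y, ρ y) = (Nat.card Y : ℚ)⁻¹ • ∑ y : Y, ρ y := by
  have h : ∀ y ∈ Y, ρ y * ((Nat.card Y : ℚ)⁻¹ • ∑ y : Y, ρ y) = (Nat.card Y : ℚ)⁻¹ • ∑ y : Y, ρ y := fun y hy => by
    rw [mul_smul_comm, Finset.mul_sum]
    congr 1
    exact Fintype.sum_equiv (Equiv.mulLeft (⟨y, hy⟩ : Y)) _ _ fun x => by simp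
  refine ⟨h, ?_⟩
  nth_rewrite 1 [smul_mul_assoc, Finset.sum_mul]
  rw [Finset.sum_congr rfl fun (y : Y) _ => h y y.2, Finset.sum_const, Finset.card_univ, ← Nat.card_eq_fintype_card,
    ← Nat.cast_smul_eq_nsmul ℚ, smul_smul, inv_mul_cancel₀ (by exact_mod_cast Nat.card_pos.ne'), one_smul]

theorem exists_ne (r : Rp X R) {f : R} (f0 : f ≠ 0) (f1 : f ≠ 1) :
    ∃ x, (1 - f) * r.ρ x * f ≠ 0 := by
  by_contra h
  push Not at h
  have h1 : ∀ x, f * (r.ρ x * f) = r.ρ x * f := fun x => by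
    have := h x
    rw [mul_assoc, sub_mul, one_mul, sub_eq_zero] at this
    exact this.symm
  haveI := Fintype.ofFinite X
  obtain ⟨g, hg⟩ : ∃ g, g = (Nat.card X : ℚ)⁻¹ • ∑ x, r.ρ x * f * r.ρ x⁻¹ := ⟨_, rfl⟩
  have a1 : f * g = g := by
    rw [hg, mul_smul_comm, Finset.mul_sum]
    congr 1
    exact Finset.sum_congr rfl fun x _ => by rw [← mul_assoc, h1]
  have a2 : g * f = f := by
    rw [hg, smul_mul_assoc, Finset.sum_mul, Finset.sum_congr rfl fun x _ =>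
      (by rw [mul_assoc, mul_assoc, h1, ← mul_assoc, ← map_mul]; simp : r.ρ x * f * r.ρ x⁻¹ * f = f),
      Finset.sum_const, Finset.card_univ, ← Nat.card_eq_fintype_card,
      ← Nat.cast_smul_eq_nsmul ℚ, smul_smul, inv_mul_cancel₀ (by exact_mod_cast Nat.card_pos.ne'), one_smul]
  rcases r.irr g (by nth_rewrite 2 [← a1]; rw [← mul_assoc, a2, a1]) (fun y => by
    rw [hg, mul_smul_comm, smul_mul_assoc, Finset.mul_sum, Finset.sum_mul]
    congr 1
    exact Fintype.sum_equiv (Equiv.mulLeft y⁻¹) _ _ fun x => by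
      simp only [Equiv.coe_mulLeft, ← mul_assoc, ← map_mul]
      simp [mul_assoc, ← map_mul]) with e | e
  · rw [e, zero_mul] at a2; exact f0 a2.symm
  · rw [e, mul_one] at a1; exact f1 a1

theorem key (rk : RK R) {f a : R} (ff : f * f = f) (f1 : f ≠ 1) (h : a * f ≠ 0) (w : ℂ ⊗[ℚ] R)
    (hw : (1 ⊗ₜ (a * f)) * w = 0) : (1 ⊗ₜ f : ℂ ⊗[ℚ] R) * w = 0 := by
  obtain ⟨g, hg⟩ := factor (a := LinearMap.mulLeft ℚ (a * f)) (b := LinearMap.mulLeft ℚ f) fun v hv =>
    (rk f a v ff f1 hv).resolve_left h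
  have e : ∀ (b : R) (w : ℂ ⊗[ℚ] R), (1 ⊗ₜ b : ℂ ⊗[ℚ] R) * w = (LinearMap.mulLeft ℚ b).baseChange ℂ w := by
    intro b w
    induction w with
    | zero => simp
    | tmul c d => simp
    | add x y hx hy => rw [mul_add, map_add, hx, hy]
  rw [e] at hw
  rw [e, ← hg, LinearMap.baseChange_comp, LinearMap.comp_apply, hw, map_zero]

theorem fin (r : Rp X R) [Module.Finite ℚ R] :
    ∃ χ : X → ℂ, IsIrrCharacter X χ ∧ HF χ ∧ ∀ z, r.ρ z = -1 → ∀ x, χ (z * x) = -χ x := by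
  haveI : Nontrivial R := ⟨1, 0, r.nt⟩
  let ι : R →ₐ[ℚ] ℂ ⊗[ℚ] R := Algebra.TensorProduct.includeRight
  let σ : Representation ℂ X (ℂ ⊗[ℚ] R) :=
    (Algebra.lmul ℂ (ℂ ⊗[ℚ] R)).toRingHom.toMonoidHom.comp (ι.toRingHom.toMonoidHom.comp r.ρ)
  have hσ : ∀ x w, σ x w = ι (r.ρ x) * w := fun _ _ => rfl
  obtain ⟨W, -, ⟨W0, hW⟩, hmin⟩ := exists_minimal_le_of_wellFoundedLT
    (fun W : Submodule ℂ (ℂ ⊗[ℚ] R) => W ≠ ⊥ ∧ ∀ g, W ≤ W.comap (σ g)) ⊤ ⟨top_ne_bot, fun _ => by simp⟩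
  let τ := σ.subrepresentation W hW
  have hτ : ∀ x (w : W), (τ x w : ℂ ⊗[ℚ] R) = ι (r.ρ x) * w := fun _ _ => rfl
  haveI : τ.IsIrreducible := (L0.isIrreducible_iff τ).2 ⟨Submodule.nontrivial_iff_ne_bot.2 W0, fun U hU => by
    by_cases h : U = ⊥
    · exact Or.inl h
    · refine Or.inr (top_le_iff.1 fun w _ => ?_)
      obtain ⟨v, hv, e⟩ := hmin (y := U.map W.subtype) ⟨fun e => h (Submodule.map_injective_of_injective
        W.subtype_injective (e.trans (Submodule.map_bot _).symm)), by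
          rintro g _ ⟨v, hv, rfl⟩
          exact ⟨_, hU g v hv, rfl⟩⟩ (Submodule.map_subtype_le _ _) w.2
      rwa [← (Subtype.ext e : v = w)]⟩
  refine ⟨τ.character, L0.isIrrCharacter_character τ, fun Y hY => ?_, fun z hz x => ?_⟩
  · haveI := Fintype.ofFinite Y
    obtain ⟨a1, ee⟩ := avg r.ρ Y
    obtain ⟨e, he⟩ : ∃ e, e = (Nat.card Y : ℚ)⁻¹ • ∑ y : Y, r.ρ y := ⟨_, rfl⟩
    rw [← he] at a1 ee
    obtain ⟨P, hP⟩ : ∃ P : Module.End ℂ W, P = (Nat.card Y : ℂ)⁻¹ • ∑ y : Y, τ y := ⟨_, rfl⟩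
    have c0 : (Nat.card Y : ℂ) ≠ 0 := by exact_mod_cast Nat.card_pos.ne'
    have p1 : ∀ w : W, (P w : ℂ ⊗[ℚ] R) = ι e * w := fun w => by
      rw [hP, he, map_smul, map_sum, smul_mul_assoc, Finset.sum_mul, LinearMap.smul_apply, LinearMap.sum_apply,
        Submodule.coe_smul, Submodule.coe_sum, ← algebraMap_smul ℂ (Nat.card Y : ℚ)⁻¹]
      simp [hτ]
    have p2 : ∑ᶠ y : Y, τ.character y = Nat.card Y * LinearMap.trace ℂ W P := by
      rw [hP, map_smul, map_sum, smul_eq_mul, mul_inv_cancel_left₀ c0, finsum_eq_sum_of_fintype]; rfl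
    rw [p2]
    by_cases e0 : e = 0
    · left
      rw [show P = 0 from LinearMap.ext fun w => Subtype.ext (by simp [p1, e0])]; simp
    right
    have e1 : e ≠ 1 := fun h => hY (eq_bot_iff.2 fun y hy => r.inj (by simpa [h] using a1 y hy))
    have e1' : 1 - e ≠ 1 := by simpa using e0
    obtain ⟨x, hx⟩ := exists_ne r (fun h => e1 (sub_eq_zero.1 h).symm) e1'
    obtain ⟨x', hx'⟩ := exists_ne r e0 e1
    rw [τ.char_one, ← half (P := P) (g := τ x) (g' := τ x') (fun w => Subtype.ext (by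
      rw [p1, p1, ← mul_assoc, ← map_mul, ee])) (fun w h1 h2 => ?_) (fun w h1 h2 => ?_)]
    · ring
    · have h3 : ι (1 - e) * w = w := by rw [map_sub, map_one, sub_mul, ← p1, h1]; simp
      refine Subtype.ext (h3.symm.trans (key r.rk (idem_compl ee) e1' hx w ?_))
      change ι _ * _ = _
      rw [map_mul, mul_assoc, h3, sub_sub_cancel, map_mul, mul_assoc, ← hτ, ← p1, h2]; rfl
    · have h3 : ι e * w = w := by rw [← p1, h1]
      refine Subtype.ext (h3.symm.trans (key r.rk ee e1 hx' w ?_))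
      change ι _ * _ = _
      rw [map_mul, mul_assoc, h3, map_mul, mul_assoc, ← hτ, map_sub, map_one, sub_mul, ← p1, h2]; simp
  · have : τ (z * x) = (-1 : ℂ) • τ x := LinearMap.ext fun w => Subtype.ext (by simp [hτ, hz])
    simp only [Representation.character, this, map_smul]
    simp

end XC

variable {X : Type u} [Group X] [Finite X]

theorem Rp.exists_char {R : Type v} [Ring R] [Algebra ℚ R] (r : Rp X R) :
    ∃ χ : X → ℂ, IsIrrCharacter X χ ∧ HF χ ∧ ∀ z, r.ρ z = -1 → ∀ x, χ (z * x) = -χ x := by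
  let L := MonoidAlgebra.lift ℚ R X r.ρ
  haveI : Module.Finite ℚ L.range := Module.Finite.of_surjective L.rangeRestrict.toLinearMap L.rangeRestrict_surjective
  let ρ : X →* L.range := r.ρ.codRestrict L.range fun x => ⟨MonoidAlgebra.of ℚ X x, by simp [L]⟩
  obtain ⟨χ, h1, h2, h3⟩ := XC.fin (R := L.range) ⟨ρ, fun a b h => r.inj (congrArg Subtype.val h),
    fun f a b hf f1 h => (r.rk f a b (congrArg Subtype.val hf) (fun e => f1 (Subtype.ext e))
      (congrArg Subtype.val h)).imp Subtype.ext Subtype.ext, fun h => r.nt (congrArg Subtype.val h),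
    fun e he h => (r.irr e (congrArg Subtype.val he) fun x => congrArg Subtype.val (h x)).imp Subtype.ext Subtype.ext⟩
  exact ⟨χ, h1, h2, fun z hz => h3 z (Subtype.ext hz)⟩

end Cfsg.Agent.WA.Gd
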