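import Cfsg.Agent.H8.SylowIn
import Cfsg.Agent.H6.Transfer
import Cfsg.Agent.L0.Char1
import Cfsg.Prelude.Def_SporadicB

/-! Definitions for finite subgroups of `GL₂(D)` (see PLAN_GD.md). -/

set_option autoImplicit false

namespace Cfsg.Agent.WA.Gd

open Subgroup Cfsg.Agent.H8

universe u v

/-- every idempotent other than `1` has rank at most one -/
def RK (R : Type v) [Ring R] : Prop :=
  ∀ f a b : R, f * f = f → f ≠ 1 → a * f * b = 0 → a * f = 0 ∨ f * b = 0

/-- a faithful irreducible representation in a ring of rank at most two -/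
structure Rp (X : Type u) [Group X] (R : Type v) [Ring R] where
  ρ : X →* R
  inj : Function.Injective ρ
  rk : RK R
  nt : (1 : R) ≠ 0
  irr : ∀ e : R, e * e = e → (∀ x, e * ρ x = ρ x * e) → e = 0 ∨ e = 1

/-- the fixed space of a nontrivial subgroup is zero or has half the dimension -/
def HF {X : Type u} [Group X] (χ : X → ℂ) : Prop :=
  ∀ Y : Subgroup X, Y ≠ ⊥ → ∑ᶠ y : Y, χ y = 0 ∨ 2 * ∑ᶠ y : Y, χ y = Nat.card Y * χ 1

/-- `d` is an involution other than `z` -/
def NI {X : Type u} [Group X] (z d : X) : Prop := d * d = 1 ∧ d ≠ 1 ∧ d ≠ z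

/-- The group-theoretic shadow: `z = -1`, and `Rf t` is the group of the elements acting trivially
on the `-1`-eigenspace of the involution `t`. -/
structure St (X : Type u) [Group X] where
  z : X
  Rf : X → Subgroup X
  zz : z * z = 1
  z1 : z ≠ 1
  zc : ∀ x, z * x = x * z
  cjm : ∀ t g x : X, x ∈ Rf t → g * x * g⁻¹ ∈ Rf (g * t * g⁻¹)
  le : ∀ {t x : X}, NI z t → x ∈ Rf t → x * t = t * x
  dis : ∀ {t x : X}, NI z t → x ∈ Rf t → x ∈ Rf (z * t) → x = 1
  mem : ∀ {t : X}, NI z t → z * t ∈ Rf t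
  uq : ∀ {t x : X}, NI z t → x * t = t * x → x * x ∈ Rf t → x ∈ Rf t ∨ z * x ∈ Rf t
  cyc : ∀ {t : X} {p : ℕ} {P : Subgroup X}, NI z t → p.Prime → p ≠ 2 → IsPGroup p P →
    (∀ x ∈ P, x * t = t * x) → P ⊓ Rf t = ⊥ → IsCyclic P
  tr : ∀ {t s x y : X}, NI z t → NI z s → s * t = z * (t * s) → x ∈ Rf t → y ∈ Rf s →
    x * (s * x * s) = y * (t * y * t) → x ^ 4 = 1
  tr2 : ∀ {t s s' x y : X}, NI z t → NI z s → NI z s' → s * t = z * (t * s) → s' * t = z * (t * s') →
    (s * s') ^ 4 = z → x ∈ Rf s → y ∈ Rf s' → x * (t * x * t) = y * (t * y * t) →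
    x * (t * x * t) * (x * (t * x * t)) = z → False

variable {X : Type u} [Group X]

/-- a Sylow `2`-subgroup `T`, a normal four-group `⟨z, t⟩` of `T` and an involution `s` moving `t` -/
structure Fr (S : St X) where
  T : Subgroup X
  t : X
  s : X
  syl : IsSylowIn 2 T ⊤
  ht : NI S.z t
  hs : NI S.z s
  tT : t ∈ T
  sT : s ∈ T
  st : s * t = S.z * (t * s)
  nt : ∀ x ∈ T, x * t = t * x ∨ x * t = S.z * (t * x)

instance St.normal_Rf (S : St X) (t : X) :
    ((S.Rf (S.z * t)).subgroupOf (centralizer ({t} : Set X))).Normal := ⟨fun x hx g => by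
  have h := S.cjm _ g _ (mem_subgroupOf.1 hx)
  have e : (g : X) * (S.z * t) * (g : X)⁻¹ = S.z * t := by
    rw [← mul_assoc, ← S.zc, mul_assoc S.z, (mem_centralizer_singleton_iff.1 g.2), mul_assoc, mul_assoc,
      mul_inv_cancel, mul_one]
  rw [e] at h; exact mem_subgroupOf.2 h⟩

/-- the group of coordinates: the action of `C(t)` on the `+1`-eigenspace of `t` -/
abbrev St.H (S : St X) (t : X) : Type u :=
  centralizer ({t} : Set X) ⧸ (S.Rf (S.z * t)).subgroupOf (centralizer ({t} : Set X))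

variable {S : St X}

open Classical in
/-- first coordinate of an element of `C(t)` -/
noncomputable def Fr.a (f : Fr S) (x : X) : S.H f.t :=
  if h : x * f.t = f.t * x then QuotientGroup.mk ⟨x, mem_centralizer_singleton_iff.2 h⟩ else 1

/-- second coordinate of an element of `C(t)` -/
noncomputable def Fr.b (f : Fr S) (x : X) : S.H f.t := f.a (f.s * x * f.s)

/-- the element `-1` of the group of coordinates -/
noncomputable def Fr.m (f : Fr S) : S.H f.t := f.a S.z

/-- no reflection of order four -/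
def Fr.K2 (f : Fr S) : Prop := ∀ x ∈ f.T, x ∈ S.Rf f.t → x = 1 ∨ x = S.z * f.t

/-- `T = Q₈ ≀ 2` with quaternion reflection subgroups -/
structure Fr.Q8 (f : Fr S) : Prop where
  le : S.Rf f.t ≤ f.T
  ex : ∃ x ∈ S.Rf f.t, ∃ y ∈ S.Rf f.t,
    x * x = S.z * f.t ∧ y * y = S.z * f.t ∧ x * y = S.z * f.t * (y * x)
  e4 : ∀ x ∈ S.Rf f.t, x ^ 4 = 1
  sp : ∀ x ∈ f.T, x * f.t = f.t * x → ∃ k ∈ S.Rf f.t, ∃ l ∈ S.Rf (S.z * f.t), x = k * l

/-- the diagonal element `(i, i)` of order four generating a normal subgroup of `T` -/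
structure Fr.I (f : Fr S) (i : X) : Prop where
  iT : i ∈ f.T
  ii : i * i = S.z
  it : i * f.t = f.t * i
  is : i * f.s = f.s * i
  nm : ∀ x ∈ f.T, x * i = i * x ∨ x * i = S.z * (i * x)

end Cfsg.Agent.WA.Gd
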