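import Cfsg.Agent.WA.GdF1a

/-! Reduction to the last frame. -/

set_option autoImplicit false
set_option linter.unusedSectionVars false

namespace Cfsg.Agent.WA.Gd

open Subgroup Cfsg.Agent.H8

universe u

variable {X : Type u} [Group X] {z : X}

/-- adjoining an element to a subgroup containing all squares -/
def adj {S M : Subgroup X} (hM : M ≤ S) (sq : ∀ y ∈ S, y * y ∈ M) {x : X} (hx : x ∈ S) : Subgroup X where
  carrier := {y | y ∈ M ∨ y * x ∈ M}
  one_mem' := Or.inl (one_mem _)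
  mul_mem' {a b} ha hb := by
    have nm : ∀ y ∈ M, x⁻¹ * y * x ∈ M := fun y hy => by
      convert mul_mem (mul_mem (inv_mem (sq x hx)) (sq _ (mul_mem hx (hM hy)))) (inv_mem hy) using 1; group
    rcases ha with ha | ha <;> rcases hb with hb | hb
    · exact Or.inl (mul_mem ha hb)
    · exact Or.inr (by rw [mul_assoc]; exact mul_mem ha hb)
    · exact Or.inr (by convert mul_mem ha (nm b hb) using 1; group)
    · exact Or.inl (by convert mul_mem (mul_mem ha (nm _ hb)) (inv_mem (sq x hx)) using 1; group)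
  inv_mem' {a} ha := ha.imp inv_mem fun ha => by
    convert mul_mem (inv_mem (sq a ((S.mul_mem_cancel_right hx).1 (hM ha)))) ha using 1; group

theorem adj_le {S M : Subgroup X} (hM : M ≤ S) (sq : ∀ y ∈ S, y * y ∈ M) {x : X} (hx : x ∈ S) : adj hM sq hx ≤ S :=
  fun _ hy => hy.elim (fun h => hM h) fun h => (S.mul_mem_cancel_right hx).1 (hM h)

variable [Finite X] {S : Subgroup X} {t s c : X}

theorem odd_index (hS : IsSylowIn 2 S ⊤) : Odd S.index := by
  have := Fact.mk Nat.prime_two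
  have := hS.not_dvd_relIndex
  rw [relIndex_top_right] at this
  exact Nat.odd_iff.2 (by omega)

theorem C0.nz (h : PB z) (f : C0 z S t s c) : c ∉ center X := fun hc => by
  have hi : (T2 S t c).relIndex S = 2 := index_eq_two_iff.2 ⟨⟨s, f.sS⟩, fun b => by
    simp only [mem_subgroupOf, mem_T2, Subgroup.coe_mul]
    rcases f.nt b b.2 with e | e
    · exact Or.inr ⟨⟨b.2, e, mem_center_iff.1 hc _⟩, fun a => h.not_ca a.2.1 (h.ca e f.st)⟩
    · exact Or.inl ⟨⟨mul_mem b.2 f.sS, f.mul_s h e, mem_center_iff.1 hc _⟩, fun a => h.not_ca a.2.1 e⟩⟩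
  haveI : IsMulCommutative (T2 S t c) := H5.isMulCommutative_of_forall fun x hx y hy => f.ab h hx hy
  open scoped IsMulCommutative in
  have h1 := H6.transfer_eq_pow_of (MonoidHom.id (T2 S t c)) c ⟨c, mem_T2.2 ⟨f.cS, f.ct, rfl⟩⟩ (by
    intro k g hk _ _
    ext
    simp only [MonoidHom.id_apply, SubmonoidClass.coe_pow]
    rw [mul_assoc, ← mem_center_iff.1 (pow_mem hc k)]; simp)
  open scoped IsMulCommutative in
  rw [H6.map_eq_one_of_mem_commutator _ (h.pf ▸ mem_top c), eq_comm] at h1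
  have h2 : c ^ (T2 S t c).index = 1 := congrArg Subtype.val h1
  obtain ⟨k, hk⟩ := odd_index f.syl
  rw [← relIndex_mul_index (fun x hx => (mem_T2.1 hx).1 : T2 S t c ≤ S), hi, hk, pow_mul, pow_two, f.cc, pow_succ,
    pow_mul, pow_two, h.zz] at h2
  exact h.z1 (by simpa using h2)

theorem C0.nrm (h : PB z) (f : C0 z S t s c) {x y : X} (hx : x ∈ T2 S t c) (hy : y ∈ T2 S t c) :
    x * y * (s * (x * y) * s) = x * (s * x * s) * (y * (s * y * s)) := by
  rw [mul_assoc x (s * x * s), ← mul_assoc (s * x * s), f.ab h (f.sw h hx) hy]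
  simp only [mul_assoc]
  rw [← mul_assoc s s, f.hs.1, one_mul]

theorem C0.beta1 (h : PB z) (f : C0 z S t s c) (hb : ∀ d ∈ S, NI z d → d * c = c * d) {J : X} (hJ : J ∈ S)
    (jt : J * t = t * J) (jc : J * c = z * (c * J))
    (hN : ∀ x ∈ T2 S t c, x * (s * x * s) = 1 ∨ x * (s * x * s) = z) : False := by
  have ss := f.hs.1
  let U : Subgroup X :=
    { carrier := {x | x ∈ T2 S t c ∧ x * (s * x * s) = 1}
      one_mem' := ⟨one_mem _, by simp [ss]⟩
      mul_mem' := fun {a b} ha hb => ⟨mul_mem ha.1 hb.1, by rw [f.nrm h ha.1 hb.1, ha.2, hb.2, one_mul]⟩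
      inv_mem' := fun {a} ha => ⟨inv_mem ha.1, by
        have := f.nrm h (inv_mem ha.1) ha.1
        rw [ha.2, mul_one, inv_mul_cancel] at this
        rw [← this]; simp [ss]⟩ }
  have zU : z ∈ U := ⟨mem_T2.2 ⟨h.zS f.syl, h.zc t, h.zc c⟩, by rw [h.zr s, mul_assoc, ss, mul_one, h.zz]⟩
  have oz : ∀ x, x = 1 ∨ x = z → x ∈ U := by rintro _ (rfl | rfl); exacts [one_mem _, zU]
  have US : U ≤ S := fun x hx => (mem_T2.1 hx.1).1
  have sq : ∀ y ∈ S, y * y ∈ U := fun y hy => by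
    rcases f.nt y hy with a | a <;> rcases f.nc y hy with b | b
    · have m := mem_T2.2 ⟨hy, a, b⟩
      exact ⟨mul_mem m m, by rw [f.nrm h m m]; rcases hN y m with e | e <;> rw [e]; exacts [one_mul _, h.zz]⟩
    · rw [f.JJ h hy a b]; exact zU
    · have := hN _ (mem_T2.2 ⟨mul_mem hy f.sS, f.mul_s h a, cm_mul b f.cs.symm⟩)
      rw [mul_assoc s, mul_assoc y s s, ss, mul_one, mul_assoc, ← mul_assoc s, ss, one_mul] at this
      exact oz _ this
    · have m : y * y ∈ T2 S t c := mem_T2.2 ⟨mul_mem hy hy, h.aa a a, h.aa b b⟩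
      have := f.inv h (mul_mem f.sS hy) (h.aa f.st a) (h.ca f.cs.symm b) m
      refine ⟨m, ?_⟩
      rw [mul_eq_one_iff_inv_eq, ← this, mul_inv_rev, inv_eq_of_mul_eq_one_right ss]; group
  have stS := mul_mem f.sS f.tS
  have sq0 : ∀ y ∈ S, y * y ∈ adj US sq stS := fun y hy => Or.inl (sq y hy)
  obtain ⟨M, hM⟩ : ∃ M, M = adj (adj_le US sq stS) sq0 hJ := ⟨_, rfl⟩
  have UM : ∀ x ∈ U, x ∈ M := fun x hx => hM ▸ Or.inl (Or.inl hx)
  have stM : s * t ∈ M := hM ▸ Or.inl (Or.inr (sq _ stS))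
  have JM : J ∈ M := hM ▸ Or.inr (sq0 J hJ)
  have ast : s * t * t = z * (t * (s * t)) := h.ac f.st rfl
  have tM : t ∉ M := by
    rw [hM]
    rintro ((a | a) | a | a)
    · have := a.2
      rw [f.sts, h.zl, f.ht.1, mul_one] at this; exact h.z1 this
    · exact h.not_ca (mem_T2.1 a.1).2.1 (h.ca rfl ast)
    · exact h.not_ca (mem_T2.1 a.1).2.2 (h.ca f.ct.symm jc)
    · exact h.not_ca (mem_T2.1 a.1).2.1 (h.ca (cm_mul rfl jt) ast)
  have tT : t ∈ T2 S t c := mem_T2.2 ⟨f.tS, rfl, f.ct.symm⟩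
  have c1 : ∀ x ∈ T2 S t c, x ∈ M ∨ x * t ∈ M := fun x hx => (hN x hx).imp (fun e => UM _ ⟨hx, e⟩) fun e =>
    UM _ ⟨mul_mem hx tT, by rw [f.nrm h hx tT, e, f.sts, h.zl t, f.ht.1, mul_one, h.zz]⟩
  have c2 : ∀ x ∈ S, x * t = t * x → x ∈ M ∨ x * t ∈ M := fun x hx a => by
    rcases f.nc x hx with b | b
    · exact c1 x (mem_T2.2 ⟨hx, a, b⟩)
    · refine (c1 _ (mem_T2.2 ⟨mul_mem hx hJ, cm_mul a jt, h.aa b jc⟩)).imp (M.mul_mem_cancel_right JM).1 fun e => ?_
      rwa [mul_assoc, jt, ← mul_assoc, M.mul_mem_cancel_right JM] at e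
  have c3 : ∀ x ∈ S, x ∈ M ∨ x * t ∈ M := fun x hx => by
    rcases f.nt x hx with a | a
    · exact c2 x hx a
    · refine (c2 _ (mul_mem hx stS) (h.aa a ast)).imp (M.mul_mem_cancel_right stM).1 fun e => ?_
      rwa [mul_assoc, ast, h.zl, M.mul_mem_cancel_left (UM z zU), ← mul_assoc, M.mul_mem_cancel_right stM] at e
  obtain ⟨g, hg⟩ := H6.thompson_transfer h.hi (odd_index f.syl) (M := M) (index_eq_two_iff.2 ⟨⟨t, f.tS⟩, fun b => by
    simp only [mem_subgroupOf, Subgroup.coe_mul]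
    by_cases e : (b : X) ∈ M
    · exact Or.inr ⟨e, fun a => tM ((M.mul_mem_cancel_left e).1 a)⟩
    · exact Or.inl ⟨(c3 b b.2).resolve_left e, e⟩⟩) (t := t) (by rw [pow_two, f.ht.1])
  have hd := h.ni_conj f.ht g⁻¹
  rw [inv_inv] at hd
  generalize g⁻¹ * t * g = d at *
  have dS : d ∈ S := adj_le _ _ _ (hM ▸ hg)
  rcases f.nt d dS with a | a
  · rcases h.f1 f.ht hd.1 a with e | e | e | e
    · exact hd.2.1 e
    · exact hd.2.2 e
    · exact tM (e ▸ hg)
    · exact tM ((M.mul_mem_cancel_left (UM z zU)).1 (e ▸ hg))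
  · have : d * s ∈ M := UM _ ⟨mem_T2.2 ⟨mul_mem dS f.sS, f.mul_s h a, cm_mul (hb d dS hd) f.cs.symm⟩, by
      rw [mul_assoc s, mul_assoc d s s, ss, mul_one, mul_assoc, ← mul_assoc s, ss, one_mul, hd.1]⟩
    exact tM ((M.mul_mem_cancel_left ((M.mul_mem_cancel_left hg).1 this)).1 stM)

theorem C0.beta (h : PB z) (f : C0 z S t s c) (hb : ∀ d ∈ S, NI z d → d * c = c * d) : False := by
  have ss := f.hs.1
  have k1 : ∀ v ∈ S, IsConj v c → ∃ k, Ap z (k * v * k⁻¹) c ∧ ∀ u ∈ S, Pm z u v → k * u * k⁻¹ ∈ S := fun v hv hc => by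
    obtain ⟨k, a, b⟩ := h.ext f.syl (P := S ⊓ h.Cz v) f.nc hc (f.syl.pgroup.to_le inf_le_left) fun u hu => hu.2
    exact ⟨k, a, fun u h1 h2 => b u ⟨h1, h2⟩⟩
  have k2 : ∀ v ∈ S, IsConj v c → ∀ d ∈ S, NI z d → Pm z d v → d * v = v * d := fun v hv hc d hd nd pm => by
    obtain ⟨k, a, b⟩ := k1 v hv hc
    simpa [mul_assoc] using cm_conj k⁻¹ (h.ap_cm' a (hb _ (b d hd pm) (h.ni_conj nd k)))
  have k3 : ∀ v, IsConj v c → ¬ Ap z v (t * c) := fun v hc a => by
    have := h.ap_an' a (h.anti_symm (h.ac (h.anti_symm f.st) f.cs))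
    refine h.not_ca (k2 v ?_ hc s f.sS f.hs (Or.inr this)) this
    rcases a with rfl | rfl
    exacts [mul_mem f.tS f.cS, mul_mem (h.zS f.syl) (mul_mem f.tS f.cS)]
  -- no element of `S` moving `t` and `c` with square in `⟨z⟩`
  have k4 : ∀ v ∈ S, v * t = z * (t * v) → v * c = z * (c * v) → ¬ (v * v = 1 ∨ v * v = z) := by
    rintro v hv a b (e | e)
    · exact h.not_ca (hb v hv (h.ni_of e a)) b
    · exact h.not_ca (hb _ (mul_mem hv f.tS) (h.ni_of (by rw [h.sq_an a, e, f.ht.1, mul_one, h.zz]) (h.ac a rfl)))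
        (h.ac b f.ct.symm)
  obtain ⟨g, hJ, hz⟩ := zs_syl h.hZ h.hs h.hna f.syl (x := c) (f.cc ▸ h.zZ) (f.nz h)
  have cj : IsConj (g * c * g⁻¹) c := (isConj_iff.2 ⟨g, rfl⟩).symm
  have JJ : g * c * g⁻¹ * (g * c * g⁻¹) = z := by rw [conj_mul, f.cc, h.conj_z]
  generalize g * c * g⁻¹ = J at *
  have jt : J * t = t * J := (k2 J hJ cj t f.tS f.ht (h.pm_symm (f.nt J hJ))).symm
  have jc : J * c = z * (c * J) := (f.nc J hJ).resolve_left fun e => by
    rcases h.four f.ht jt f.ct e JJ f.cc with (a | a) | a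
    · exact hz (by simp [a])
    · exact hz (by rw [a, h.zl]; simpa using h.zZ)
    · exact k3 J cj a
  obtain ⟨k, ka, kb⟩ := k1 J hJ cj
  have kt : Ap z (k * t * k⁻¹) t := by
    have nd := h.ni_conj f.ht k
    have dS := kb t f.tS (Or.inl jt.symm)
    have vS := kb c f.cS (Or.inr (h.anti_symm jc))
    have vt := k2 _ vS (isConj_iff.2 ⟨k, rfl⟩).symm t f.tS f.ht (h.pm_symm (f.nt _ vS))
    rcases f.nt _ dS with a | a
    · rcases h.f1 f.ht nd.1 a with e | e | e | e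
      exacts [absurd e nd.2.1, absurd e nd.2.2, Or.inl e, Or.inr e]
    · refine absurd (Or.inr ?_) (k4 _ (mul_mem vS dS) (h.ca vt.symm a)
        (h.ac (h.ap_an' (h.ap_symm ka) (h.an_conj k (h.anti_symm jc))) (hb _ dS nd)))
      rw [sq_cm (cm_conj k f.ct), nd.1, conj_mul, f.cc, h.conj_z, mul_one]
  have uT : s * J * s * J⁻¹ ∈ T2 S t c := mem_T2.2 ⟨mul_mem (mul_mem (mul_mem f.sS hJ) f.sS) (inv_mem hJ),
    cm_mul (h.aa (h.ac f.st jt) f.st) (cm_inv jt), h.aa (h.ac (h.ca f.cs.symm jc) f.cs.symm) (h.an_inv jc)⟩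
  have uN : s * J * s * J⁻¹ * (s * (s * J * s * J⁻¹) * s) = 1 := by
    rw [← mul_assoc s, ← mul_assoc s, ← mul_assoc s s, ss]
    simp only [mul_assoc, one_mul, inv_mul_cancel_left]
    rw [← mul_assoc s s, ss]; simp [ss]
  obtain ⟨u, hu⟩ : ∃ u, u = s * J * s * J⁻¹ := ⟨_, rfl⟩
  rw [← hu] at uT uN
  replace hu : s * J * s = u * J := by rw [hu]; simp
  have tT : t ∈ T2 S t c := mem_T2.2 ⟨f.tS, rfl, f.ct.symm⟩
  have tN : t * (s * t * s) = z := by rw [f.sts, h.zl, f.ht.1, mul_one]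
  have nsq : ∀ x ∈ T2 S t c, x * (s * x * s) * (x * (s * x * s)) = 1 → x * (s * x * s) = 1 ∨ x * (s * x * s) = z :=
    fun x hx e => by
      have m := mem_T2.1 (mul_mem hx (f.sw h hx))
      have cs : x * (s * x * s) * s = s * (x * (s * x * s)) := by
        nth_rewrite 2 [f.ab h hx (f.sw h hx)]
        simp only [mul_assoc]
        rw [ss, mul_one, ← mul_assoc s s, ss, one_mul]
      rcases h.f1 f.ht e m.2.1 with a | a | a | a
      · exact Or.inl a
      · exact Or.inr a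
      · rw [a] at cs; exact (h.not_ca cs.symm f.st).elim
      · rw [a] at cs; exact (h.not_ca cs (h.ca (h.zc s) (h.anti_symm f.st))).elim
  have xJ : ∀ x ∈ T2 S t c, x⁻¹ * (x * x * J) * x = J := fun x hx => by
    have := f.inv h hJ jt jc hx
    rw [mul_inv_eq_iff_eq_mul] at this
    rw [mul_assoc x x, inv_mul_cancel_left, mul_assoc, this, mul_inv_cancel_left]
  obtain ⟨x0, h0, hg⟩ := f.gen h
  obtain ⟨n, hn⟩ := hg u uT
  rcases Nat.even_or_odd' n with ⟨j, rfl | rfl⟩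
  · have hx := pow_mem h0 j
    rw [mul_comm 2, pow_mul, pow_two] at hn
    generalize x0 ^ j = x at *
    obtain ⟨xS, xt, xc⟩ := mem_T2.1 hx
    rcases hn with rfl | rfl
    · have gJ : x⁻¹ * s * J = J * (x⁻¹ * s) := by
        rw [mul_assoc, show s * J = x * x * J * s by rw [← hu, mul_assoc, ss, mul_one]]
        nth_rewrite 2 [← xJ x hx]; group
      refine k4 _ (mul_mem (mul_mem (inv_mem xS) f.sS) hJ) (h.ac (h.ca (cm_inv xt) f.st) jt)
        (h.ca (cm_mul (cm_inv xc) f.cs.symm) jc) ?_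
      rw [sq_cm gJ, JJ]
      have hi := inv_mem hx
      rcases nsq _ hi (by
        have := f.nrm h (mul_mem hx hx) (inv_mem (mul_mem hx hx))
        rw [uN, one_mul] at this
        rw [← f.nrm h hi hi, ← mul_inv_rev, ← this]
        simp [ss]) with e | e
      · right; rw [mul_assoc x⁻¹ s, ← mul_assoc s, e, one_mul]
      · left; rw [mul_assoc x⁻¹ s, ← mul_assoc s, e, h.zz]
    · refine k3 (k * (t * J) * k⁻¹) ((isConj_iff.2 ⟨k, rfl⟩).symm.trans (IsConj.trans (isConj_iff.2 ⟨s * x, ?_⟩) cj)) ?_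
      · nth_rewrite 1 [← xJ x hx]
        rw [mul_inv_rev, inv_eq_of_mul_eq_one_right ss]
        calc s * x * (t * (x⁻¹ * (x * x * J) * x)) * (x⁻¹ * s) = s * (x * t * (x * J)) * s := by group
          _ = s * (x * x * t * J) * s := by rw [← mul_assoc (x * t), mul_assoc x t, ← xt, ← mul_assoc x]
          _ = J := by rw [← hu, mul_assoc, mul_assoc, ss, mul_one, ← mul_assoc, ss, one_mul]
      · rw [← conj_mul]; exact h.ap_mul kt ka
  · refine f.beta1 h hb hJ jt jc fun x hx => nsq x hx ?_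
    have np : ∀ n : ℕ, x0 ^ n * (s * x0 ^ n * s) = (x0 * (s * x0 * s)) ^ n := fun n => by
      induction n with
      | zero => simp [ss]
      | succ n ih => rw [pow_succ, f.nrm h (pow_mem h0 n) h0, ih, pow_succ]
    have n2 : ∀ n : ℕ, ∀ y, y = x0 ^ n ∨ y = x0 ^ n * t → y * (s * y * s) * (y * (s * y * s)) =
        ((x0 * (s * x0 * s)) ^ 2) ^ n := by
      rintro n _ (rfl | rfl)
      · rw [np, ← pow_two, ← pow_mul, ← pow_mul, mul_comm]
      · rw [f.nrm h (pow_mem h0 n) tT, np, tN, sq_cm (h.zc _).symm, h.zz, mul_one, ← pow_two, ← pow_mul, ← pow_mul,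
          mul_comm]
    have e1 := n2 _ u hn
    rw [uN, one_mul] at e1
    obtain ⟨m, hm⟩ := H5.IsPGroup_pow_eq_one f.syl.pgroup (pow_mem (mem_T2.1 (mul_mem h0 (f.sw h h0))).1 2)
    have e2 : (x0 * (s * x0 * s)) ^ 2 = 1 := by
      rw [← orderOf_eq_one_iff]
      exact Nat.eq_one_of_dvd_coprimes (Nat.Coprime.pow_left m (by simp)) (orderOf_dvd_of_pow_eq_one hm)
        (orderOf_dvd_of_pow_eq_one e1.symm)
    obtain ⟨n, hn⟩ := hg x hx
    rw [n2 n x hn, e2, one_pow]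

theorem C0.bf (h : PB z) (f : C0 z S t s c) (hJ : ∃ J ∈ S, J * c = z * (c * J)) {e : X} (eS : e ∈ S)
    (et : e * t = t * e) (ee : Ap z (e * e) c) : ∃ w a, Bf z S t s c w a := by
  have := Fact.mk Nat.prime_two
  have ss := f.hs.1
  have tT : t ∈ T2 S t c := mem_T2.2 ⟨f.tS, rfl, f.ct.symm⟩
  have ec : e * c = c * e := h.ap_cm' (h.ap_symm ee) (mul_assoc e e e).symm
  obtain ⟨v, hv, vv⟩ : ∃ v ∈ T2 S t c, v * v = c := by
    rcases ee with a | a
    · exact ⟨e, mem_T2.2 ⟨eS, et, ec⟩, a⟩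
    · exact ⟨e * c, mem_T2.2 ⟨mul_mem eS f.cS, cm_mul et f.ct, cm_mul ec rfl⟩, by
        rw [sq_cm ec, a, f.cc, h.zr, h.zzl]⟩
  obtain ⟨w, hw, ws, ww⟩ : ∃ w ∈ T2 S t c, w * s = s * w ∧ w * w = c := by
    have h1 := mul_mem (f.sw h hv) (inv_mem hv)
    have h2 : s * v * s * (s * v * s) = c := by
      rw [mul_assoc, ← mul_assoc s (s * v), ← mul_assoc s s, ss, one_mul, mul_assoc, ← mul_assoc v, vv, f.cs,
        ← mul_assoc, ss, one_mul]
    have h3 : ∀ d, s * v * s = d * v → v = s * d * s * (d * v) := fun d hd => by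
      rw [← hd]
      calc v = s * (s * v * s) * s := by simp only [mul_assoc, ss, mul_one]; rw [← mul_assoc, ss, one_mul]
        _ = _ := by nth_rewrite 1 [hd]; simp only [mul_assoc]; rw [← mul_assoc s s, ss, one_mul]
    rcases h.f1 f.ht (by rw [sq_cm (f.ab h (f.sw h hv) (inv_mem hv)), h2, ← mul_inv_rev, vv, mul_inv_cancel])
      (mem_T2.1 h1).2.1 with a | a | a | a <;> rw [mul_inv_eq_iff_eq_mul] at a
    · exact ⟨v, hv, by rw [one_mul] at a; nth_rewrite 2 [← a]; rw [← mul_assoc, ← mul_assoc, ss, one_mul], vv⟩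
    · refine ⟨t * v, mul_mem tT hv, ?_, by rw [sq_cm (f.ab h tT hv), f.ht.1, vv, one_mul]⟩
      refine h.aa (h.anti_symm f.st) (h.anti_symm ?_)
      rw [← mul_assoc, ← a, mul_assoc, ss, mul_one]
    · have := h3 _ a
      rw [f.sts, mul_assoc, ← mul_assoc t, f.ht.1, one_mul] at this
      exact absurd this (h.ne_zmul v)
    · have := h3 _ a
      rw [h.zl s, mul_assoc z, f.sts, h.zzl, mul_assoc z, h.zl, ← mul_assoc t, f.ht.1, one_mul] at this
      exact absurd this (h.ne_zmul v)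
  obtain ⟨a, ha⟩ : ∃ a ∈ T2 S t c ⊓ centralizer {s}, ∀ x ∈ T2 S t c ⊓ centralizer {s}, x ∈ zpowers a := by
    have : IsCyclic ↥(T2 S t c ⊓ centralizer {s}) := by
      by_contra hn
      obtain ⟨a, ha, b, hb, oa, b2, hab⟩ := H5.exists_order_prime_not_mem_of_comm (p := 2) (A := T2 S t c ⊓ centralizer {s})
        (f.syl.pgroup.to_le fun x hx => (mem_T2.1 hx.1).1)
        (H5.isMulCommutative_of_forall fun x hx y hy => f.ab h hx.1 hy.1) hn
      have k : ∀ d ∈ T2 S t c ⊓ centralizer {s}, d ^ 2 = 1 → d = 1 ∨ d = z := fun d hd d2 => by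
        have ds := mem_centralizer_singleton_iff.1 hd.2
        rcases h.f1 f.ht (by rwa [← pow_two]) (mem_T2.1 hd.1).2.1 with e | e | e | e
        · exact Or.inl e
        · exact Or.inr e
        · rw [e] at ds; exact (h.not_ca ds.symm f.st).elim
        · rw [e] at ds; exact (h.not_ca ds (h.ca (h.zc s) (h.anti_symm f.st))).elim
      rcases k a ha (oa ▸ pow_orderOf_eq_one a) with e | e
      · simp [e] at oa
      · rcases k b hb b2 with e' | e' <;> simp [e, e'] at hab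
    obtain ⟨a, ha⟩ := IsCyclic.exists_generator (α := ↥(T2 S t c ⊓ centralizer {s}))
    exact ⟨a, a.2, fun x hx => by
      obtain ⟨n, hn⟩ := ha ⟨x, hx⟩
      exact ⟨n, congrArg Subtype.val hn⟩⟩
  obtain ⟨aS, at', ac⟩ := mem_T2.1 ha.1.1
  refine ⟨w, a, f.toF0, f.cS, f.cc, f.ct, f.cs, f.nc,
    fun x h1 y h2 h3 h4 h5 h6 => f.ab h (mem_T2.2 ⟨h1, h3, h4⟩) (mem_T2.2 ⟨h2, h5, h6⟩), hJ,
    fun J h1 h2 h3 => ⟨f.JJ h h1 h2 h3, fun x h4 h5 h6 => f.inv h h1 h2 h3 (mem_T2.2 ⟨h4, h5, h6⟩)⟩,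
    fun x xS xt xc hx => ?_, (mem_T2.1 hw).1, (mem_T2.1 hw).2.1, ws, ww, aS, at', ac,
    mem_centralizer_singleton_iff.1 ha.1.2, fun x h1 h2 h3 h4 =>
      ha.2 x ⟨mem_T2.2 ⟨h1, h2, h3⟩, mem_centralizer_singleton_iff.2 h4⟩⟩
  have k : ∀ y, y * t = t * y → y * c = c * y → s * y * s = y⁻¹ → y * y = z → Ap z y (t * c) := fun y yt yc hy yy =>
    (h.four f.ht yt f.ct yc yy f.cc).resolve_left fun a => by
      rw [← h.ap_cm a f.cs, mul_assoc, ss, mul_one] at hy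
      exact h.z1 (by rw [← yy]; nth_rewrite 1 [hy]; simp)
  by_cases x1 : x * x = 1
  · rw [inv_eq_of_mul_eq_one_right x1] at hx
    rcases h.f1 f.ht x1 xt with e | e | e | e
    · exact Or.inl e
    · exact Or.inr (Or.inl e)
    · rw [e, f.sts] at hx; exact absurd hx.symm (h.ne_zmul t)
    · rw [e, h.zl, mul_assoc, f.sts] at hx; exact absurd hx.symm (h.ne_zmul _)
  by_cases x2 : x * x = z
  · exact Or.inr (Or.inr (k x xt xc hx x2))
  exfalso
  obtain ⟨m, hm⟩ := H5.IsPGroup_pow_eq_one f.syl.pgroup xS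
  obtain ⟨n, hn⟩ := h.pow4 f.ht m x hm xt x1 x2
  have hy := pow_mem (mem_T2.2 ⟨xS, xt, xc⟩) n
  have hs : s * (x ^ n * x ^ n) * s = (x ^ n * x ^ n)⁻¹ := by
    rw [← pow_add, ← inv_pow, ← hx]; nth_rewrite 2 4 [← inv_eq_of_mul_eq_one_right ss]; rw [conj_pow]
  generalize x ^ n = y at *
  obtain ⟨-, yt, yc⟩ := mem_T2.1 (mul_mem hy hy)
  refine h.f2 (y * w) ?_
  rw [sq_cm (f.ab h hy hw), ww]
  rcases k _ yt yc hs hn with e | e <;> rw [e]
  · rw [mul_assoc, f.cc, h.zr]; exact h.ni_z f.ht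
  · rw [mul_assoc, mul_assoc, f.cc, h.zr, h.zzl]; exact f.ht

theorem F0.exists_bf (h : PB z) {S : Subgroup X} {t s : X} (f : F0 z S t s)
    (sq : ¬ ∀ x ∈ S, x * x = 1 ∨ x * x = z) : ∃ s c w a, Bf z S t s c w a := by
  obtain ⟨c, f⟩ := f.exists_c h sq
  by_cases hb : ∀ d ∈ S, NI z d → d * c = c * d
  · exact (f.beta h hb).elim
  push Not at hb
  obtain ⟨d, dS, nd, dc⟩ := hb
  replace dc := (f.nc d dS).resolve_left dc
  have dt : d * t = z * (t * d) := (f.nt d dS).resolve_left fun e => h.not_ca (h.cm_E f.ht nd.1 e f.ct) dc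
  obtain ⟨x, hx, x1, x2⟩ : ∃ x ∈ T2 S t c, x * x ≠ 1 ∧ x * x ≠ z := by
    by_contra hh
    push Not at hh
    have k : ∀ y ∈ T2 S t c, ∀ r, r * r = 1 → Pm z t r → Pm z c r → y * r * (y * r) = 1 ∨ y * r * (y * r) = z := by
      intro y hy r rr a b
      have y2 : y * y = 1 ∨ y * y = z := (em _).imp id (hh y hy)
      have ap : ∀ u v, Ap z u v → Pm z v r → Pm z u r := by
        rintro u v (rfl | rfl) e
        exacts [e, (h.Cz r).mul_mem (Or.inl (h.zc r)) e]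
      have : Pm z y r := by
        rcases y2 with e | e
        · rcases h.f1 f.ht e (mem_T2.1 hy).2.1 with e | e | e | e <;> rw [e]
          exacts [Or.inl (by simp), Or.inl (h.zc r), a, ap _ _ (Or.inr rfl) a]
        · rcases h.four f.ht (mem_T2.1 hy).2.1 f.ct (mem_T2.1 hy).2.2 e f.cc with e | e
          exacts [ap _ _ e b, ap _ _ e ((h.Cz r).mul_mem a b)]
      rcases this with e | e
      · rwa [sq_cm e, rr, mul_one]
      · rw [h.sq_an e, rr, mul_one]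
        exact y2.symm.imp (fun e => by rw [e, h.zz]) fun e => by rw [e, mul_one]
    refine sq fun x hx => ?_
    rcases f.nt x hx with a | a <;> rcases f.nc x hx with b | b
    · exact (em _).imp id (hh x (mem_T2.2 ⟨hx, a, b⟩))
    · exact Or.inr (f.JJ h hx a b)
    · simpa [mul_assoc, f.hs.1] using k _ (mem_T2.2 ⟨mul_mem hx f.sS, f.mul_s h a, cm_mul b f.cs.symm⟩) s f.hs.1
        (Or.inr (h.anti_symm f.st)) (Or.inl f.cs)
    · simpa [mul_assoc, nd.1] using k _ (mem_T2.2 ⟨mul_mem hx dS, h.aa a dt, h.aa b dc⟩) d nd.1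
        (Or.inr (h.anti_symm dt)) (Or.inr (h.anti_symm dc))
  obtain ⟨m, hm⟩ := H5.IsPGroup_pow_eq_one f.syl.pgroup (mem_T2.1 hx).1
  obtain ⟨n, hn⟩ := h.pow4 f.ht m x hm (mem_T2.1 hx).2.1 x1 x2
  obtain ⟨yS, yt, yc⟩ := mem_T2.1 (pow_mem hx n)
  generalize x ^ n = y at *
  rcases h.four f.ht (cm_mul yt yt) f.ct (cm_mul yc yc) hn f.cc with e | e
  · exact ⟨s, c, f.bf h ⟨d, dS, dc⟩ yS yt e⟩
  · refine ⟨d, t * c, C0.bf h ⟨⟨f.syl, f.ht, nd, f.tS, dS, dt, f.nt, f.cj⟩, mul_mem f.tS f.cS,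
      by rw [sq_cm f.ct.symm, f.ht.1, f.cc, one_mul], cm_mul rfl f.ct, h.aa (h.anti_symm dt) (h.anti_symm dc),
      fun x hx => h.pm_symm ((h.Cz x).mul_mem (h.pm_symm (f.nt x hx)) (h.pm_symm (f.nc x hx)))⟩
      ⟨s, f.sS, h.anti_symm (h.ac (h.anti_symm f.st) f.cs)⟩ yS yt e⟩

end Cfsg.Agent.WA.Gd
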