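import Cfsg.Agent.WA.GdF2a
import Cfsg.Agent.H5.Rank

/-! The element `c` of order four and its centralizer. -/

set_option autoImplicit false
set_option linter.unusedSectionVars false

namespace Cfsg.Agent.WA.Gd

open Subgroup Cfsg.Agent.H8
open scoped commutatorElement

universe u

variable {X : Type u} [Group X] {z : X}

/-- a normal element of order four commuting with `t` and `s` -/
structure C0 (z : X) (S : Subgroup X) (t s c : X) : Prop extends F0 z S t s where
  cS : c ∈ S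
  cc : c * c = z
  ct : c * t = t * c
  cs : c * s = s * c
  nc : ∀ x ∈ S, Pm z x c

/-- the centralizer of `t` and `c` in `S` -/
def T2 (S : Subgroup X) (t c : X) : Subgroup X := S ⊓ centralizer {t} ⊓ centralizer {c}

theorem mem_T2 {S : Subgroup X} {t c x : X} : x ∈ T2 S t c ↔ x ∈ S ∧ x * t = t * x ∧ x * c = c * x := by
  simp [T2, mem_centralizer_singleton_iff, and_assoc]

theorem cm_pow {a x : X} (ha : a * x = x * a) (n : ℕ) : a ^ n * x = x * a ^ n := (Commute.pow_left ha n).eq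

namespace PB

variable (h : PB z) {t : X} (ht : NI z t)
include h ht

theorem sq_cases {x : X} (hx : x * t = t * x) (h4 : x * x * (x * x) = 1) : x * x = 1 ∨ x * x = z := by
  rcases h.f1 ht h4 (cm_mul hx hx) with e | e | e | e
  · exact Or.inl e
  · exact Or.inr e
  · exact absurd (e ▸ ht) (h.f2 x)
  · exact absurd (e ▸ h.ni_z ht) (h.f2 x)

theorem cm_E {d x : X} (hd : d * d = 1) (dt : d * t = t * d) (hx : x * t = t * x) : d * x = x * d := by
  rcases h.f1 ht hd dt with rfl | rfl | rfl | rfl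
  · simp
  · exact h.zc x
  · exact hx.symm
  · exact cm_mul (h.zc x) hx.symm

theorem four {y c : X} (yt : y * t = t * y) (ct : c * t = t * c) (yc : y * c = c * y) (yy : y * y = z)
    (cc : c * c = z) : Ap z y c ∨ Ap z y (t * c) := by
  have e : y * c⁻¹ * (y * c⁻¹) = 1 := by
    rw [sq_cm (cm_inv yc.symm).symm, ← mul_inv_rev, yy, cc, mul_inv_cancel]
  rcases h.f1 ht e (cm_mul yt (cm_inv ct)) with e | e | e | e <;> rw [mul_inv_eq_iff_eq_mul] at e
  · exact Or.inl (Or.inl (by simpa using e))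
  · exact Or.inl (Or.inr e)
  · exact Or.inr (Or.inl e)
  · exact Or.inr (Or.inr (by rw [e, mul_assoc]))

theorem pow4 (k : ℕ) : ∀ x : X, x ^ 2 ^ k = 1 → x * t = t * x → x * x ≠ 1 → x * x ≠ z →
    ∃ n : ℕ, x ^ n * x ^ n * (x ^ n * x ^ n) = z := by
  induction k with
  | zero => intro x h1 _ h2; rw [pow_zero, pow_one] at h1; simp [h1] at h2
  | succ k ih =>
    intro x h1 xt h2 h3
    by_cases h4 : x * x * (x * x) = z
    · exact ⟨1, by simpa using h4⟩
    obtain ⟨n, hn⟩ := ih (x * x) (by rw [← pow_two, ← pow_mul, ← pow_succ', h1]) (cm_mul xt xt)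
      (fun e => (h.sq_cases ht xt e).elim h2 h3) h4
    exact ⟨2 * n, by rwa [pow_mul, pow_two]⟩

/-- an element whose square commutes with `c` has order at most four or commutes with `c` -/
theorem sq_or {S : Subgroup X} (hS : IsPGroup 2 S) {g c : X} (hg : g ∈ S) (gt : g * t = t * g) (ct : c * t = t * c)
    (cc : c * c = z) (h2 : g * g * c = c * (g * g)) : g * g = z ∨ g * c = c * g := by
  by_cases h1 : g * g = 1
  · exact Or.inr (h.cm_E ht h1 gt ct)
  by_contra hh
  push Not at hh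
  obtain ⟨k, hk⟩ := H5.IsPGroup_pow_eq_one hS hg
  obtain ⟨n, hn⟩ := h.pow4 ht k g hk gt h1 hh.1
  have e : g ^ n * g ^ n = (g * g) ^ n := by rw [← pow_two, ← pow_two, ← pow_mul, ← pow_mul, mul_comm]
  have gv : g * (g ^ n * g ^ n) = g ^ n * g ^ n * g := by group
  rcases h.four ht (cm_mul (cm_pow gt n) (cm_pow gt n)) ct (by rw [e]; exact cm_pow h2 n) hn cc with a | a
  · exact hh.2 (h.ap_cm' (h.ap_symm a) gv)
  · have := h.ap_cm' (h.ap_symm a) gv
    rw [← mul_assoc, gt, mul_assoc, mul_assoc, mul_right_inj] at this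
    exact hh.2 this

end PB

variable [Finite X] {S : Subgroup X} {t s c : X}

theorem F0.sts (f : F0 z S t s) : s * t * s = z * t := by
  rw [f.st, mul_assoc, mul_assoc, f.hs.1, mul_one]

theorem F0.mul_s (h : PB z) (f : F0 z S t s) {x : X} (hx : x * t = z * (t * x)) : x * s * t = t * (x * s) :=
  h.aa hx f.st

theorem F0.exists_c (h : PB z) (f : F0 z S t s) (sq : ¬ ∀ x ∈ S, x * x = 1 ∨ x * x = z) : ∃ c, C0 z S t s c := by
  have := Fact.mk Nat.prime_two
  have ht := f.ht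
  let E : Subgroup X :=
    { carrier := {x | x * t = t * x ∧ x * x = 1}
      one_mem' := by simp
      mul_mem' := fun {a b} ha hb => ⟨cm_mul ha.1 hb.1, by rw [sq_cm (h.cm_E ht ha.2 ha.1 hb.1), ha.2, hb.2, one_mul]⟩
      inv_mem' := fun {a} ha => ⟨cm_inv ha.1, by rw [← mul_inv_rev, ha.2, inv_one]⟩ }
  obtain ⟨c, ⟨cS, ct⟩, cE, c2, hc⟩ := H5.exists_mem_not_mem_central_mod (K := S ⊓ centralizer {t}) (H := E)
    f.syl.pgroup inf_le_left (fun g hg => H5.mem_normalizer_of_conj_mem fun y hy =>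
      ⟨S.mul_mem (S.mul_mem hg hy.1) (S.inv_mem hg), mem_centralizer_singleton_iff.2 (h.ap_cm' (h.ap_symm
        (h.ap_of_pm (f.nt g hg))) (cm_conj g (mem_centralizer_singleton_iff.1 hy.2)))⟩) fun hE => sq fun x hx => by
      rcases f.nt x hx with e | e
      · exact Or.inl (hE ⟨hx, mem_centralizer_singleton_iff.2 e⟩).2
      · obtain ⟨a1, a2⟩ := hE ⟨mul_mem hx f.sS, mem_centralizer_singleton_iff.2 (f.mul_s h e)⟩
        have ex : x = x * s * s := by rw [mul_assoc, f.hs.1, mul_one]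
        have : Pm z (x * s) s := by
          rcases h.f1 ht a2 a1 with e | e | e | e <;> rw [e]
          · exact Or.inl (by simp)
          · exact Or.inl (h.zc s)
          · exact Or.inr (h.anti_symm f.st)
          · exact Or.inr (h.ca (h.zc s) (h.anti_symm f.st))
        rw [ex]
        rcases this with e | e
        · left; rw [sq_cm e, a2, f.hs.1, one_mul]
        · right; rw [h.sq_an e, a2, f.hs.1]; simp
  replace ct : c * t = t * c := mem_centralizer_singleton_iff.1 ct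
  have cc : c * c = z := (h.sq_cases ht ct (by rw [← pow_two c]; exact c2.2)).resolve_left fun e => cE ⟨ct, e⟩
  have key : ∀ g ∈ S, Pm z g c ∨ ∃ e, NI z e ∧ e * t = t * e ∧ c * g = e * (g * c) := fun g hg => by
    obtain ⟨a1, a2⟩ := hc g hg
    have e : c * g = ⁅c, g⁆ * (g * c) := by rw [commutatorElement_def]; group
    rcases h.f1 ht a2 a1 with b | b | b | b <;> rw [b] at e
    · exact Or.inl (Or.inl (by rw [e, one_mul]))
    · exact Or.inl (Or.inr (h.anti_symm e))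
    · exact Or.inr ⟨t, ht, rfl, e⟩
    · exact Or.inr ⟨_, h.ni_z ht, cm_mul (h.zc t) rfl, e⟩
  have k1 : ∀ g ∈ S, g * t = t * g → Pm z g c := fun g hg gt => (key g hg).resolve_right (by
    rintro ⟨e, he, et, b⟩
    have eg := h.cm_E ht he.1 et gt
    rcases h.sq_or ht f.syl.pgroup hg gt ct cc (by
      rw [← mul_assoc c, b, mul_assoc, mul_assoc, mul_assoc, b, ← mul_assoc g e, ← eg, mul_assoc, ← mul_assoc e e,
        he.1, one_mul]) with a | a
    · refine h.f2 (g * c) ?_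
      rwa [mul_assoc, ← mul_assoc c, b, ← mul_assoc, ← mul_assoc, ← eg, mul_assoc e, mul_assoc e,
        ← mul_assoc g, mul_assoc (g * g), a, cc, h.zz, mul_one]
    · rw [a] at b; exact he.2.1 (mul_eq_right.1 b.symm))
  have k2 : Pm z s c := (key s f.sS).resolve_right (by
    rintro ⟨e, he, et, b⟩
    refine h.f2 (s * c) ?_
    have := h.ni_z (h.ni_conj he s)
    rw [inv_eq_of_mul_eq_one_right f.hs.1] at this
    rwa [mul_assoc, ← mul_assoc c, b, mul_assoc e, mul_assoc s c, cc, h.zr, h.zl, h.zl, ← mul_assoc s])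
  have k3 : ∀ x ∈ S, Pm z x c := fun x hx => by
    rcases f.nt x hx with e | e
    · exact k1 x hx e
    · have := (h.Cz c).mul_mem (k1 _ (mul_mem hx f.sS) (f.mul_s h e)) k2
      rwa [mul_assoc, f.hs.1, mul_one] at this
  rcases k2 with e | e
  · exact ⟨c, f, cS, cc, ct, e.symm, k3⟩
  · refine ⟨t * c, f, mul_mem f.tS cS, by rw [sq_cm ct.symm, ht.1, cc, one_mul], cm_mul rfl ct,
      h.aa (h.anti_symm f.st) (h.anti_symm e), fun x hx => h.pm_symm ?_⟩
    exact (h.Cz x).mul_mem (h.pm_symm (f.nt x hx)) (h.pm_symm (k3 x hx))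

theorem C0.gen (h : PB z) (f : C0 z S t s c) :
    ∃ x0 ∈ T2 S t c, ∀ x ∈ T2 S t c, ∃ n : ℕ, x = x0 ^ n ∨ x = x0 ^ n * t := by
  have ht := f.ht
  have tm : ∀ x, x ∈ zpowers t → x = 1 ∨ x = t := fun x hx => by
    obtain ⟨k, rfl⟩ := (mem_powers_iff_mem_zpowers.2 hx : x ∈ Submonoid.powers t)
    dsimp only
    rcases Nat.even_or_odd' k with ⟨j, rfl | rfl⟩ <;> simp [pow_succ, pow_mul, ht.1]
  haveI hN : ((zpowers t).subgroupOf (T2 S t c)).Normal := ⟨fun n hn g => by
    rw [mem_subgroupOf] at hn ⊢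
    rcases tm _ hn with e | e <;> simp [e, (mem_T2.1 g.2).2.1]⟩
  let π := QuotientGroup.mk' ((zpowers t).subgroupOf (T2 S t c))
  have pe : ∀ a b : T2 S t c, π a = π b → (b : X) = a ∨ (b : X) = a * t := fun a b e => by
    simpa [inv_mul_eq_iff_eq_mul] using tm _ (mem_subgroupOf.1 (QuotientGroup.eq.1 e))
  have zm : z ∈ T2 S t c := mem_T2.2 ⟨h.zS f.syl, h.zc t, h.zc c⟩
  have cm : c ∈ T2 S t c := mem_T2.2 ⟨f.cS, f.ct, rfl⟩
  have tm' : t ∈ T2 S t c := mem_T2.2 ⟨f.tS, rfl, f.ct.symm⟩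
  have pt : π ⟨t, tm'⟩ = 1 := (QuotientGroup.eq_one_iff _).2 (mem_subgroupOf.2 (mem_zpowers t))
  have uq : ∀ q, q * q = 1 → q = 1 ∨ q = π ⟨z, zm⟩ := fun q hq => by
    obtain ⟨a, rfl⟩ := QuotientGroup.mk'_surjective _ q
    have a2 : (a : X) * a = 1 := by
      rcases pe 1 (a * a) (by rw [map_one, map_mul]; exact hq.symm) with e | e
      · exact e
      · exact absurd (by rw [show (a : X) * a = t by simpa using e]; exact ht) (h.f2 a)
    rcases h.f1 ht a2 (mem_T2.1 a.2).2.1 with e | e | e | e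
    · left; rw [show a = 1 from Subtype.ext e, map_one]
    · right; rw [show a = ⟨z, zm⟩ from Subtype.ext e]
    · left; rw [show a = ⟨t, tm'⟩ from Subtype.ext e]; exact pt
    · right; rw [show a = ⟨z, zm⟩ * ⟨t, tm'⟩ from Subtype.ext e, map_mul, pt, mul_one]
  have hP : IsPGroup 2 (T2 S t c) := f.syl.pgroup.to_le fun x hx => (mem_T2.1 hx).1
  rcases H5.cyclic_or_quaternion_of_no_four (P := ⊤) ((hP.to_quotient ((zpowers t).subgroupOf (T2 S t c))).to_subgroup _)
    (fun E _ hE h4 => by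
      have : Nat.card E ≤ ({1, π ⟨z, zm⟩} : Set _).ncard :=
        by
        rw [← Nat.card_coe_set_eq]
        exact Nat.card_le_card_of_injective (fun q : E => (⟨q, uq q (by rw [← pow_two, hE.2 q q.2])⟩ :
          ({1, π ⟨z, zm⟩} : Set _))) fun a b e => Subtype.ext (congrArg (fun x : ({1, π ⟨z, zm⟩} : Set _) => x.1) e)
      have h2 := Set.ncard_insert_le 1 ({π ⟨z, zm⟩} : Set _)
      rw [Set.ncard_singleton] at h2; omega) with hc | ⟨m, a, b, hm, oa, -, -, hb, -⟩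
  · have := isCyclic_of_surjective _ (topEquiv (G := T2 S t c ⧸ (zpowers t).subgroupOf (T2 S t c))).surjective
    obtain ⟨g, hg⟩ := IsCyclic.exists_monoid_generator (α := T2 S t c ⧸ (zpowers t).subgroupOf (T2 S t c))
    obtain ⟨x0, rfl⟩ := QuotientGroup.mk'_surjective _ g
    refine ⟨x0, x0.2, fun x hx => ?_⟩
    obtain ⟨n, hn⟩ := hg (π ⟨x, hx⟩)
    exact ⟨n, pe (x0 ^ n) ⟨x, hx⟩ (by rw [map_pow]; exact hn)⟩
  · exfalso
    obtain ⟨m, rfl⟩ : ∃ k, m = k + 1 := ⟨m - 1, by omega⟩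
    have cz : ∀ q, q * π ⟨c, cm⟩ = π ⟨c, cm⟩ * q := fun q => by
      obtain ⟨a, rfl⟩ := QuotientGroup.mk'_surjective _ q
      rw [← map_mul, ← map_mul]; exact congrArg π (Subtype.ext (mem_T2.1 a.2).2.2)
    have cc : π ⟨c, cm⟩ * π ⟨c, cm⟩ = π ⟨z, zm⟩ := by rw [← map_mul]; exact congrArg π (Subtype.ext f.cc)
    have a1 : a ^ 2 ^ m * a ^ 2 ^ m ≠ 1 := by
      rw [← pow_two, ← pow_mul, ← pow_succ]
      exact pow_ne_one_of_lt_orderOf (by positivity) (by rw [oa]; exact Nat.pow_lt_pow_right one_lt_two (by omega))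
    have a2 : a ^ 2 ^ m * a ^ 2 ^ m * (a ^ 2 ^ m * a ^ 2 ^ m) = 1 := by
      rw [← pow_two, ← pow_two, ← pow_mul, ← pow_mul, ← pow_orderOf_eq_one a, oa]; congr 1; ring
    have a3 : b * a ^ 2 ^ m * b⁻¹ = (a ^ 2 ^ m)⁻¹ := by rw [← conj_pow, hb, inv_pow]
    generalize a ^ 2 ^ m = v at *
    generalize π ⟨c, cm⟩ = w at *
    have a4 := (uq _ a2).resolve_left a1
    have bv : b * v = v * b := by
      rcases uq (v * w) (by rw [(show Commute v w from cz v).symm.mul_mul_mul_comm, cc, ← a4, a2]) with e | e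
      · rw [eq_inv_of_mul_eq_one_left e]; exact (cm_inv (cz b).symm).symm
      · rw [← cc, mul_left_inj] at e; rw [e]; exact cz b
    rw [bv, mul_inv_cancel_right] at a3
    exact a1 (by nth_rewrite 1 [a3]; simp)

theorem C0.ab (h : PB z) (f : C0 z S t s c) {x y : X} (hx : x ∈ T2 S t c) (hy : y ∈ T2 S t c) : x * y = y * x := by
  obtain ⟨x0, h0, hg⟩ := f.gen h
  have k : ∀ w, x0 * w = w * x0 → t * w = w * t → ∀ x ∈ T2 S t c, x * w = w * x := fun w a b x hx => by
    obtain ⟨n, rfl | rfl⟩ := hg x hx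
    · exact cm_pow a n
    · exact cm_mul (cm_pow a n) b
  exact k y (k x0 rfl (mem_T2.1 h0).2.1.symm y hy).symm (mem_T2.1 hy).2.1.symm x hx

theorem C0.JJ (h : PB z) (f : C0 z S t s c) {J : X} (hJ : J ∈ S) (jt : J * t = t * J) (jc : J * c = z * (c * J)) :
    J * J = z :=
  (h.sq_or f.ht f.syl.pgroup hJ jt f.ct f.cc (h.aa jc jc)).resolve_right fun e => h.not_ca e jc

theorem C0.inv (h : PB z) (f : C0 z S t s c) {J x : X} (hJ : J ∈ S) (jt : J * t = t * J) (jc : J * c = z * (c * J))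
    (hx : x ∈ T2 S t c) : J * x * J⁻¹ = x⁻¹ := by
  obtain ⟨a, b, d⟩ := mem_T2.1 hx
  have e := f.JJ h (mul_mem a hJ) (cm_mul b jt) (h.ca d jc)
  rw [← f.JJ h hJ jt jc, ← mul_assoc, mul_left_inj] at e
  rw [mul_inv_eq_iff_eq_mul, eq_inv_mul_iff_mul_eq, ← mul_assoc, e]

theorem C0.sw (h : PB z) (f : C0 z S t s c) {x : X} (hx : x ∈ T2 S t c) : s * x * s ∈ T2 S t c := by
  obtain ⟨a, b, d⟩ := mem_T2.1 hx
  exact mem_T2.2 ⟨mul_mem (mul_mem f.sS a) f.sS, h.aa (h.ac f.st b) f.st, cm_mul (cm_mul f.cs.symm d) f.cs.symm⟩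

end Cfsg.Agent.WA.Gd
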