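import Cfsg.Agent.WA.GdF2a

/-! The element `c` of the last frame is isolated modulo the centre. -/

set_option autoImplicit false
set_option linter.unusedSectionVars false

namespace Cfsg.Agent.WA.Gd

open Subgroup Cfsg.Agent.H8

universe u

variable {X : Type u} [Group X] {z : X}

namespace Bf

variable [Finite X] {S : Subgroup X} {t s c w a : X} (h : PB z) (f : Bf z S t s c w a)
include h f

theorem cc_ap {x y : X} (e : Ap z x y) (hy : IsConj y c) : IsConj x c := by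
  rcases e with rfl | rfl
  · exact hy
  obtain ⟨J, -, hJ⟩ := f.exJ
  obtain ⟨g, hg⟩ := isConj_iff.1 hy
  refine isConj_iff.2 ⟨J * g, ?_⟩
  rw [show J * g * (z * y) * (J * g)⁻¹ = J * (g * z * (y * g⁻¹)) * J⁻¹ by group, h.zr, mul_assoc z, ← mul_assoc g,
    hg, h.zl, hJ, h.zzl, mul_inv_cancel_right]

omit h f in
theorem cc_conj {x : X} (k : X) (hx : IsConj x c) : IsConj (k * x * k⁻¹) c :=
  (isConj_iff.2 ⟨k, rfl⟩ : IsConj x _).symm.trans hx

theorem ext' {x y : X} (hy : ∀ u ∈ S, Pm z u y) (hx : IsConj x y) :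
    ∃ k : X, Ap z (k * x * k⁻¹) y ∧ ∀ u ∈ S, Pm z u x → k * u * k⁻¹ ∈ S := by
  obtain ⟨k, h1, h2⟩ := h.ext (P := S ⊓ h.Cz x) f.syl hy hx (f.syl.pgroup.to_le inf_le_left) (fun u hu => hu.2)
  exact ⟨k, h1, fun u a b => h2 u ⟨a, b⟩⟩

omit f in
theorem toQ {x k d : X} (h1 : Ap z (k * x * k⁻¹) c) (h2 : ∀ u ∈ S, Pm z u x → k * u * k⁻¹ ∈ S)
    (hd : d ∈ S) (hd' : NI z d) (e : d * x = x * d) : QQ z S c (k * d * k⁻¹) :=
  ⟨h2 d hd (Or.inl e), h.ni_conj hd' k, h.ap_cm' (h.ap_symm h1) (cm_conj k e)⟩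

omit f in
theorem toR {x k d : X} (h1 : Ap z (k * x * k⁻¹) c) (h2 : ∀ u ∈ S, Pm z u x → k * u * k⁻¹ ∈ S)
    (hd : d ∈ S) (hd' : NI z d) (e : d * x = z * (x * d)) : RR z S c (k * d * k⁻¹) :=
  ⟨h2 d hd (Or.inr e), h.ni_conj hd' k, h.ap_an' (h.ap_symm h1) (h.an_conj k e)⟩

theorem l1 {d e : X} (hd : QQ z S c d) (he : QQ z S c e) (de : d * e = z * (e * d)) : ¬ IsConj (d * e) c := by
  intro hc
  obtain ⟨k, h1, h2⟩ := f.ext' h f.nc hc
  have hr := toR h h1 h2 hd.1 hd.2.1 (h.anti_symm (h.ca rfl (h.anti_symm de)))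
  obtain ⟨r, hr⟩ : ∃ r, RR z S c r := ⟨_, hr⟩
  have hr' := f.r_mul h hr (f.wA h)
  have key : ∀ y, RR z S c y → QQ z S c (k * y * k⁻¹) := fun y hy => toQ h h1 h2 hy.1 hy.2.1
    (h.aa (h.anti_symm (f.r_an h hy hd)) (h.anti_symm (f.r_an h hy he))).symm
  exact f.not_pm h hr (h.pm_of_conj (f.q_pm h (key _ hr) (key _ hr')))

/-- elements permuting the two kinds of involutions -/
def LL (z : X) (S : Subgroup X) (c k : X) : Prop :=
  (∀ d, QQ z S c d → QQ z S c (k * d * k⁻¹)) ∧ ∀ d, RR z S c d → RR z S c (k * d * k⁻¹)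

theorem ll_S {k : X} (hk : k ∈ S) : LL z S c k :=
  ⟨fun d hd => ⟨mul_mem (mul_mem hk hd.1) (inv_mem hk), h.ni_conj hd.2.1 k,
      h.ap_cm' (h.ap_symm (h.ap_of_pm (f.nc k hk))) (cm_conj k hd.2.2)⟩,
    fun d hd => ⟨mul_mem (mul_mem hk hd.1) (inv_mem hk), h.ni_conj hd.2.1 k,
      h.ap_an' (h.ap_symm (h.ap_of_pm (f.nc k hk))) (h.an_conj k hd.2.2)⟩⟩

omit h f [Finite X] in
theorem LL.mul {k l : X} (hk : LL z S c k) (hl : LL z S c l) : LL z S c (k * l) :=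
  ⟨fun d hd => by simpa [mul_assoc] using hk.1 _ (hl.1 d hd), fun d hd => by simpa [mul_assoc] using hk.2 _ (hl.2 d hd)⟩

theorem exists_ll {r : X} (hr : RR z S c r) : ∃ k, LL z S c k ∧ Ap z (k * s * k⁻¹) t ∧
    ∀ u ∈ S, Pm z u s → k * u * k⁻¹ ∈ S := by
  obtain ⟨k, h1, h2⟩ := f.ext' h f.nt (f.cj s f.hs)
  have hr' := f.r_mul h hr (f.wA h)
  have mR : ∀ y, RR z S c y → k * y * k⁻¹ ∈ S := fun y hy => h2 y hy.1 (Or.inr (f.r_s h hy))
  have hQ : ∀ d, QQ z S c d → QQ z S c (k * d * k⁻¹) := fun d hd =>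
    (f.qr h (h2 d hd.1 (f.q_pm h hd (f.qs h))) (h.ni_conj hd.2.1 k)).resolve_right fun e =>
      f.not_pm h hr (h.pm_of_conj (f.pm_r h e (mR _ hr) (h.ni_conj hr.2.1 k) (mR _ hr') (h.ni_conj hr'.2.1 k)
        (h.pm_conj k (Or.inr (f.r_an h hr hd))) (h.pm_conj k (Or.inr (f.r_an h hr' hd)))))
  refine ⟨k, ⟨hQ, fun d hd => (f.qr h (mR d hd) (h.ni_conj hd.2.1 k)).resolve_left fun e => ?_⟩, h1, h2⟩
  exact f.no4 h e (hQ _ (f.qs h)) (hQ _ (f.qu h)) (hQ _ (f.qt h)) (h.an_conj k (f.r_s h hd))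
    (h.an_conj k (f.r_an h hd (f.qu h))) (h.an_conj k (f.r_t h hd)) (h.an_conj k (h.anti_symm (f.us h)))
    (h.an_conj k f.st) (h.an_conj k (f.ut h))

/-- a three-cycle given by the images of two classes -/
theorem cyc3 {k d1 d2 d3 : X} (hk : LL z S c k) (h1 : QQ z S c d1) (h2 : QQ z S c d2) (h3 : QQ z S c d3)
    (a12 : d1 * d2 = z * (d2 * d1)) (a13 : d1 * d3 = z * (d3 * d1)) (a23 : d2 * d3 = z * (d3 * d2))
    (e1 : Ap z (k * d1 * k⁻¹) d2) (e2 : Ap z (k * d2 * k⁻¹) d3) {d : X} (hd : QQ z S c d) :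
    d * (k * (k * d * k⁻¹) * k⁻¹) = z * (k * (k * d * k⁻¹) * k⁻¹ * d) := by
  have e3 : Ap z (k * d3 * k⁻¹) d1 := by
    rcases f.tri h (hk.1 _ h3) h1 h2 h3 a12 a13 a23 with b | b | b
    · exact b
    · exact (h.not_ca (h.ap_same e1 b) (h.an_conj k a13)).elim
    · exact (h.not_ca (h.ap_same e2 b) (h.an_conj k a23)).elim
  have two : ∀ {x y y' : X}, Ap z d x → Ap z (k * x * k⁻¹) y → Ap z (k * y * k⁻¹) y' → x * y' = z * (y' * x) →
      d * (k * (k * d * k⁻¹) * k⁻¹) = z * (k * (k * d * k⁻¹) * k⁻¹ * d) := fun b1 b2 b3 b4 =>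
    h.ap_an b1 (h.ap_an' (h.ap_trans (h.ap_conj k (h.ap_trans (h.ap_conj k b1) b2)) b3) b4)
  rcases f.tri h hd h1 h2 h3 a12 a13 a23 with b | b | b
  · exact two b e1 e2 a13
  · exact two b e2 e3 (h.anti_symm a12)
  · exact two b e3 e1 (h.anti_symm a23)

theorem exists_cyc {r : X} (hr : RR z S c r) : ∃ k, LL z S c k ∧ ∀ d, QQ z S c d →
    d * (k * (k * d * k⁻¹) * k⁻¹) = z * (k * (k * d * k⁻¹) * k⁻¹ * d) := by
  have := Fact.mk Nat.prime_two
  obtain ⟨k, hk, h1, h2⟩ := f.exists_ll h hr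
  have su := h.anti_symm (f.us h)
  have tu := h.anti_symm (f.ut h)
  rcases f.cls h (hk.1 _ (f.qt h)) with b | b | b
  · exact (h.not_ca (h.ap_same h1 b) (h.an_conj k f.st)).elim
  swap
  · exact ⟨k, hk, fun d hd => f.cyc3 h hk (f.qs h) (f.qt h) (f.qu h) f.st su tu h1 b hd⟩
  by_cases hS : ∀ y ∈ S, Pm z y s
  · exfalso
    have hN : k ∈ normalizer (S : Set X) := mem_normalizer_of_cj_le (by
      rintro _ ⟨u, hu, rfl⟩; exact h2 u hu (hS u hu))
    have hodd := (f.syl.of_le le_normalizer le_top).not_dvd_relIndex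
    have hp : k ^ S.relIndex (normalizer (S : Set X)) ∈ S :=
      (S.subgroupOf (normalizer (S : Set X))).pow_index_mem ⟨k, hN⟩
    obtain ⟨n, hn⟩ : ∃ n, S.relIndex (normalizer (S : Set X)) = 2 * n + 1 := ⟨_, (Nat.div_add_mod _ 2).symm.trans (by
      rw [Nat.two_dvd_ne_zero.1 hodd])⟩
    rw [hn] at hp
    have key : ∀ m : ℕ, Ap z (k ^ (2 * m + 1) * s * (k ^ (2 * m + 1))⁻¹) t := fun m => by
      induction m with
      | zero => simpa using h1
      | succ m ih =>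
        have := h.ap_trans (h.ap_conj k (h.ap_trans (h.ap_conj k ih) b)) h1
        rwa [show k * (k * (k ^ (2 * m + 1) * s * (k ^ (2 * m + 1))⁻¹) * k⁻¹) * k⁻¹ =
          k ^ (2 * (m + 1) + 1) * s * (k ^ (2 * (m + 1) + 1))⁻¹ by group] at this
    exact h.not_ca (h.ap_same (h.ap_trans (h.ap_symm (h.ap_of_pm (hS _ hp))) (key n)) (Or.inl rfl)) f.st
  · push Not at hS
    obtain ⟨y, hy, hy'⟩ := hS
    have ly := f.ll_S h hy
    have yt := h.ap_of_pm (f.nt y hy)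
    have ys : Ap z (y * s * y⁻¹) (s * (t * c)) := by
      rcases f.cls h (ly.1 _ (f.qs h)) with b | b | b
      · exact (h.not_ca (h.ap_same b yt) (h.an_conj y f.st)).elim
      · exact (hy' (b.imp (fun e => by rw [← mul_inv_eq_iff_eq_mul, e]) fun e => by
          rw [← mul_assoc, ← mul_inv_eq_iff_eq_mul, e])).elim
      · exact b
    refine ⟨y * k, ly.mul hk, fun d hd => f.cyc3 h (ly.mul hk) (f.qt h) (f.qu h) (f.qs h) tu (h.anti_symm f.st)
      (f.us h) ?_ ?_ hd⟩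
    · simpa [mul_assoc] using h.ap_trans (h.ap_conj y b) ys
    · have ku : Ap z (k * (s * (t * c)) * k⁻¹) (s * (t * c)) := by
        rcases f.cls h (hk.1 _ (f.qu h)) with b' | b' | b'
        · exact (h.not_ca (h.ap_same h1 b') (h.an_conj k su)).elim
        · exact (h.not_ca (h.ap_same b b') (h.an_conj k tu)).elim
        · exact b'
      have yu : Ap z (y * (s * (t * c)) * y⁻¹) s := by
        rcases f.cls h (ly.1 _ (f.qu h)) with b' | b' | b'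
        · exact (h.not_ca (h.ap_same yt b') (h.an_conj y tu)).elim
        · exact b'
        · exact (h.not_ca (h.ap_same ys b') (h.an_conj y su)).elim
      simpa [mul_assoc] using h.ap_trans (h.ap_conj y ku) yu

theorem aA : AA S t s c a := ⟨f.aS, f.at', f.ac, f.as⟩

theorem aa_pow {x : X} (hx : AA S t s c x) (n : ℕ) : AA S t s c (x ^ n) :=
  ⟨pow_mem hx.1 n, (Commute.pow_left hx.2.1 n).eq, (Commute.pow_left hx.2.2.1 n).eq, (Commute.pow_left hx.2.2.2 n).eq⟩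

theorem aa_eq {x : X} (hx : AA S t s c x) : ∃ n : ℕ, a ^ n = x :=
  (mem_powers_iff_mem_zpowers.2 (f.cyc x hx.1 hx.2.1 hx.2.2.1 hx.2.2.2) : x ∈ Submonoid.powers a)

theorem l2 {d r : X} (hd : QQ z S c d) (hr : RR z S c r) (hc : IsConj (d * r) c) :
    ∃ d', QQ z S c d' ∧ d * d' = z * (d' * d) ∧ IsConj (d' * r) c := by
  have := Fact.mk Nat.prime_two
  obtain ⟨k, hk, h3⟩ := f.exists_cyc h hr
  refine ⟨_, hk.1 _ (hk.1 d hd), h3 d hd, ?_⟩
  have kA : ∀ x, AA S t s c x → AA S t s c (k * x * k⁻¹) := fun x hx => by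
    have := f.rr h (hk.2 _ hr) (hk.2 _ (f.r_mul h hr hx))
    rwa [show k * r * k⁻¹ * (k * (r * x) * k⁻¹) = k * (r * r * x) * k⁻¹ by group, hr.2.1.1, one_mul] at this
  obtain ⟨m, hm⟩ := f.aa_eq h (kA a (f.aA h))
  obtain ⟨e, he⟩ := f.aa_eq h (f.rr h hr (hk.2 _ hr))
  obtain ⟨j, hj⟩ : Odd m := by
    by_contra hev
    obtain ⟨j, rfl⟩ := Nat.not_odd_iff_even.1 hev
    obtain ⟨N, hN⟩ := f.syl.pgroup ⟨a, f.aS⟩
    have hN' : a ^ 2 ^ N = 1 := congrArg Subtype.val hN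
    have it : ∀ i : ℕ, k ^ i * a * (k ^ i)⁻¹ = a ^ (j + j) ^ i := fun i => by
      induction i with
      | zero => simp
      | succ i ih =>
        rw [pow_succ', mul_inv_rev, show k * k ^ i * a * ((k ^ i)⁻¹ * k⁻¹) = k * (k ^ i * a * (k ^ i)⁻¹) * k⁻¹ by group,
          ih, ← conj_pow, ← hm, ← pow_mul, pow_succ']
    have a1 : a = 1 := by
      have := it N
      rw [← two_mul, mul_pow, pow_mul, hN', one_pow] at this
      simpa using this
    obtain ⟨n, hn⟩ := f.aa_eq h (f.cA h)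
    rw [a1, one_pow] at hn
    exact h.z1 (by rw [← f.cc, ← hn, one_mul])
  have e1 : k * r * k⁻¹ = r * a ^ e := by rw [he, ← mul_assoc, hr.2.1.1, one_mul]
  obtain ⟨b, hb⟩ : ∃ b, b = a ^ (e * (j + 1)) := ⟨_, rfl⟩
  have bA : AA S t s c b := hb ▸ f.aa_pow h (f.aA h) _
  have e2 : k * (k * r * k⁻¹) * k⁻¹ = b⁻¹ * r * b := by
    rw [← f.r_inv h hr bA]
    nth_rw 1 [e1]
    rw [show k * (r * a ^ e) * k⁻¹ = k * r * k⁻¹ * (k * a * k⁻¹) ^ e by rw [conj_pow]; group, e1, ← hm, hb, hj,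
      ← pow_mul, mul_assoc, mul_assoc, ← pow_add, ← pow_add]
    congr 2; ring
  have := cc_conj b (cc_conj k (cc_conj k hc))
  rwa [show k * (k * (d * r) * k⁻¹) * k⁻¹ = k * (k * d * k⁻¹) * k⁻¹ * (k * (k * r * k⁻¹) * k⁻¹) by group, e2,
    ← mul_assoc b, f.a_q h bA (hk.1 _ (hk.1 d hd)), show ∀ y : X, y * b * (b⁻¹ * r * b) * b⁻¹ = y * r from
      fun y => by group] at this

theorem l3 {d r : X} (hd : QQ z S c d) (hr : RR z S c r) : ¬ IsConj (d * r) c := by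
  intro hc
  obtain ⟨k, h1, h2⟩ := f.ext' h f.nc hc
  obtain ⟨d1, d2, q1, q2, a1, a2, a12, -⟩ := f.others h hd
  have hr' := f.r_mul h hr (f.cA h)
  have p1 := toQ h h1 h2 q1.1 q1.2.1 (h.aa a1 (f.r_an h hr q1)).symm
  have p2 := toQ h h1 h2 q2.1 q2.2.1 (h.aa a2 (f.r_an h hr q2)).symm
  have rc : r * (r * c) = z * (r * c * r) := h.anti_symm (h.ca rfl (h.anti_symm hr.2.2))
  have p3 := toQ h h1 h2 hr'.1 hr'.2.1 (h.aa (h.anti_symm (f.r_an h hr' hd)) rc).symm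
  have pb := toR h h1 h2 hr.1 hr.2.1 (h.anti_symm (h.ac (h.anti_symm (f.r_an h hr hd)) rfl))
  have c1 : IsConj (k * (r * c) * k⁻¹ * (k * r * k⁻¹)) c := by
    refine f.cc_ap h (Or.inr (h.anti_symm (h.an_conj k rc))) ?_
    rw [show k * r * k⁻¹ * (k * (r * c) * k⁻¹) = k * (r * r * c) * k⁻¹ by group, hr.2.1.1, one_mul]
    exact cc_conj k (IsConj.refl c)
  obtain ⟨d', q', a', c2⟩ := f.l2 h p3 pb c1
  have wd : k * w * k⁻¹ * d' = d' * (k * w * k⁻¹) := by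
    rcases f.tri h q' p3 p1 p2 (h.an_conj k (f.r_an h hr' q1)) (h.an_conj k (f.r_an h hr' q2)) (h.an_conj k a12)
      with b | b | b
    · exact (h.not_ca (h.ap_same (Or.inl rfl) b) a').elim
    · exact h.ap_cm' b (cm_conj k (f.a_q h (f.wA h) q1))
    · exact h.ap_cm' b (cm_conj k (f.a_q h (f.wA h) q2))
  refine f.l1 h q' p3 (h.anti_symm a') ?_
  have := cc_conj (k * w * k⁻¹)⁻¹ c2
  rwa [← mul_assoc, cm_inv wd, show d' * (k * w * k⁻¹)⁻¹ * (k * r * k⁻¹) * (k * w * k⁻¹)⁻¹⁻¹ =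
    d' * (k * (w⁻¹ * r * w) * k⁻¹) by group, ← f.r_inv h hr (f.wA h), mul_assoc r, f.ww] at this

theorem con : False := by
  obtain ⟨J, -, hJ⟩ := f.exJ
  obtain ⟨g, hx, hn⟩ := zs_syl h.hZ h.hs h.hna f.syl (x := c) (f.cc ▸ h.zZ)
    (fun e => h.not_ca (mem_center_iff.1 e J) hJ)
  have hc : IsConj (g * c * g⁻¹) c := cc_conj g (IsConj.refl c)
  have xx : g * c * g⁻¹ * (g * c * g⁻¹) = z := by
    rw [show g * c * g⁻¹ * (g * c * g⁻¹) = g * (c * c) * g⁻¹ by group, f.cc, h.conj_z]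
  generalize g * c * g⁻¹ = x at hx hn hc xx
  have su : s * (s * (t * c)) = t * c := by rw [← mul_assoc, f.hs.1, one_mul]
  have n1 : ¬ IsConj (t * c) c := su ▸ f.l1 h (f.qs h) (f.qu h) (h.anti_symm (f.us h))
  have ci : c⁻¹ = z * c := by rw [inv_eq_iff_mul_eq_one, h.zl, f.cc, h.zz]
  have xi : x⁻¹ = z * x := by rw [inv_eq_iff_mul_eq_one, h.zl, xx, h.zz]
  rcases f.nt x hx with xt | xt
  swap
  · have e : x * t * t = z * (t * (x * t)) := h.ac xt rfl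
    have hd : NI z (x * t) := h.ni_of (by rw [h.sq_an xt, xx, f.ht.1, mul_one, h.zz]) e
    have e' : x * t * t = x := by rw [mul_assoc, f.ht.1, mul_one]
    rcases f.qr h (mul_mem hx f.tS) hd with b | b
    · exact f.l1 h b (f.qt h) e (e'.symm ▸ hc)
    · exact f.l3 h (f.qt h) b (f.cc_ap h (Or.inr (h.anti_symm e)) (e'.symm ▸ hc))
  rcases f.nc x hx with xc | xc
  · have e : x = z * (x * c * c) := by rw [mul_assoc, f.cc, h.zr, h.zzl]
    rcases h.f1 f.ht (d := x * c) (by rw [sq_cm xc, xx, f.cc, h.zz]) (cm_mul xt f.ct) with b | b | b | b <;>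
      rw [b] at e
    · exact hn (by rw [e, one_mul, h.zl, inv_mul_cancel, mul_one]; exact h.zZ)
    · exact hn (by rw [e, h.zzl, inv_mul_cancel]; exact one_mem _)
    · exact n1 (f.cc_ap h (h.ap_symm (Or.inr e)) hc)
    · exact n1 (f.cc_ap h (h.ap_symm (Or.inl (by rw [e, mul_assoc, h.zzl]))) hc)
  have si : s⁻¹ = s := inv_eq_of_mul_eq_one_right f.hs.1
  obtain ⟨v, hv⟩ : ∃ v, v = x⁻¹ * (s * (x * s)) := ⟨_, rfl⟩
  have sx : s * x = x * v * s := by rw [hv, mul_inv_cancel_left, mul_assoc, mul_assoc, f.hs.1, mul_one]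
  have R3 : ∀ d, QQ z S c d → d * x = z * (x * d) → False := fun d hd e => by
    have e1 := h.ca hd.2.2 xc
    refine f.l3 h hd (r := d * x) ⟨mul_mem hd.1 hx, h.ni_of (by rw [h.sq_an e, hd.2.1.1, xx, one_mul, h.zz]) e1, e1⟩ ?_
    rwa [← mul_assoc, hd.2.1.1, one_mul]
  have vap : v = 1 ∨ v = z ∨ Ap z v (t * c) := by
    refine (f.neg v (hv ▸ mul_mem (inv_mem hx) (mul_mem f.sS (mul_mem hx f.sS)))
      (hv ▸ cm_mul (cm_inv xt) (h.aa f.st (h.ca xt f.st)))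
      (hv ▸ h.aa (h.an_inv xc) (h.ca f.cs.symm (h.ac xc f.cs.symm))) ?_).imp id (Or.imp id id)
    rw [hv, mul_inv_rev, mul_inv_rev, mul_inv_rev, si, inv_inv]
    rw [show s * (x⁻¹ * (s * (x * s))) * s = s * x⁻¹ * s * x * (s * s) by group, f.hs.1, mul_one]
  rcases vap with b | b | b
  · exact R3 _ (f.qu h) (h.ca (by rw [sx, b, mul_one]) (h.ca xt.symm (h.anti_symm xc)))
  · exact R3 _ (f.qs h) (by rw [sx, b, h.zr, mul_assoc])
  have c1 : IsConj (x * (t * c)) c := by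
    refine f.cc_ap h (h.ap_mul (Or.inl rfl) (h.ap_symm b)) ?_
    have := cc_conj s hc
    rwa [sx, mul_inv_cancel_right] at this
  have c2 : IsConj (x * t) c := by
    have wA := f.wA h
    have e := (f.inv x hx xt xc).2 w wA.1 wA.2.1 wA.2.2.1
    have := cc_conj w⁻¹ c1
    rw [inv_inv, ← e, show x * w * x⁻¹ * (x * (t * c)) * w = x * (w * (t * c)) * w by group,
      ← cm_mul wA.2.1.symm wA.2.2.1.symm, show x * (t * c * w) * w = x * t * (c * (w * w)) by group, f.ww, f.cc,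
      h.zr] at this
    exact f.cc_ap h (h.ap_symm (Or.inr rfl)) this
  obtain ⟨k, h1, h2⟩ := f.ext' h f.nc hc
  have p := toQ h h1 h2 f.tS f.ht xt.symm
  obtain ⟨d1, d2, q1, q2, -, -, a12, e⟩ := f.others h p
  refine f.l1 h q1 q2 a12 (f.cc_ap h (h.ap_symm (h.ap_trans (h.ap_mul h1 (Or.inl rfl)) e)) ?_)
  have := cc_conj k c2
  rwa [show k * (x * t) * k⁻¹ = k * x * k⁻¹ * (k * t * k⁻¹) by group] at this

end Bf

end Cfsg.Agent.WA.Gd
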