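import Cfsg.Agent.WA.GdB0

/-! Sign calculus and the reflections of the last frame. -/

set_option autoImplicit false
set_option linter.unusedSectionVars false

namespace Cfsg.Agent.WA.Gd

open Subgroup Cfsg.Agent.H8

universe u

variable {X : Type u} [Group X] {z : X}

/-- equal up to `z` -/
def Ap (z a b : X) : Prop := a = b ∨ a = z * b

theorem cm_mul {a b x : X} (ha : a * x = x * a) (hb : b * x = x * b) : a * b * x = x * (a * b) := by
  rw [mul_assoc, hb, ← mul_assoc, ha, mul_assoc]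

theorem cm_conj {a b : X} (k : X) (e : a * b = b * a) :
    k * a * k⁻¹ * (k * b * k⁻¹) = k * b * k⁻¹ * (k * a * k⁻¹) := by
  rw [show k * a * k⁻¹ * (k * b * k⁻¹) = k * (a * b) * k⁻¹ by group, e]; group

theorem cm_inv {a x : X} (ha : a * x = x * a) : a⁻¹ * x = x * a⁻¹ := by
  rw [inv_mul_eq_iff_eq_mul, ← mul_assoc, ha, mul_inv_cancel_right]

namespace PB

variable (h : PB z)
include h

theorem aa {a b x : X} (ha : a * x = z * (x * a)) (hb : b * x = z * (x * b)) : a * b * x = x * (a * b) := by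
  rw [mul_assoc, hb, h.zl, ← mul_assoc a, ha, mul_assoc, h.zzl, mul_assoc]
theorem ac {a b x : X} (ha : a * x = z * (x * a)) (hb : b * x = x * b) : a * b * x = z * (x * (a * b)) := by
  rw [mul_assoc, hb, ← mul_assoc, ha, mul_assoc, mul_assoc]
theorem ca {a b x : X} (ha : a * x = x * a) (hb : b * x = z * (x * b)) : a * b * x = z * (x * (a * b)) := by
  rw [mul_assoc, hb, h.zl, ← mul_assoc a, ha, mul_assoc]
theorem an_inv {a x : X} (ha : a * x = z * (x * a)) : a⁻¹ * x = z * (x * a⁻¹) := by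
  rw [inv_mul_eq_iff_eq_mul, h.zl, ← mul_assoc a, ha, mul_assoc z, h.zzl, mul_inv_cancel_right]
theorem an_conj {a b : X} (k : X) (e : a * b = z * (b * a)) :
    k * a * k⁻¹ * (k * b * k⁻¹) = z * (k * b * k⁻¹ * (k * a * k⁻¹)) := by
  rw [show k * a * k⁻¹ * (k * b * k⁻¹) = k * (a * b) * k⁻¹ by group, e, h.zl]; group
theorem not_ca {a b : X} (e : a * b = b * a) (e' : a * b = z * (b * a)) : False := h.ne_zmul _ (e.symm.trans e')
theorem pm_conj {a b : X} (k : X) (e : Pm z a b) : Pm z (k * a * k⁻¹) (k * b * k⁻¹) :=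
  e.imp (cm_conj k) (h.an_conj k)
theorem pm_of_conj {a b k : X} (e : Pm z (k * a * k⁻¹) (k * b * k⁻¹)) : Pm z a b := by
  simpa [mul_assoc] using h.pm_conj k⁻¹ e
theorem pm_symm {a b : X} (e : Pm z a b) : Pm z b a := e.imp Eq.symm h.anti_symm

theorem ap_symm {a b : X} (e : Ap z a b) : Ap z b a := e.imp Eq.symm fun e => by rw [e, h.zzl]
theorem ap_trans {a b c : X} (e : Ap z a b) (e' : Ap z b c) : Ap z a c := by
  rcases e with rfl | rfl
  · exact e'
  · rcases e' with rfl | rfl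
    · exact Or.inr rfl
    · exact Or.inl (h.zzl _)
theorem ap_mul {a b c d : X} (e : Ap z a b) (e' : Ap z c d) : Ap z (a * c) (b * d) := by
  rcases e with rfl | rfl <;> rcases e' with rfl | rfl
  · exact Or.inl rfl
  · exact Or.inr (h.zl _ _)
  · exact Or.inr (mul_assoc _ _ _)
  · exact Or.inl (by rw [mul_assoc, h.zl, h.zzl])
theorem ap_conj {a b : X} (k : X) (e : Ap z a b) : Ap z (k * a * k⁻¹) (k * b * k⁻¹) :=
  e.imp (fun e => by rw [e]) fun e => by rw [e, h.zl]; group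
theorem ap_cm {a b x : X} (e : Ap z a b) (hb : b * x = x * b) : a * x = x * a := by
  rcases e with rfl | rfl
  · exact hb
  · exact cm_mul (h.zc x) hb
theorem ap_an {a b x : X} (e : Ap z a b) (hb : b * x = z * (x * b)) : a * x = z * (x * a) := by
  rcases e with rfl | rfl
  · exact hb
  · exact h.ca (h.zc x) hb
theorem ap_cm' {a b x : X} (e : Ap z a b) (hb : x * b = b * x) : x * a = a * x := (h.ap_cm e hb.symm).symm
theorem ap_an' {a b x : X} (e : Ap z a b) (hb : x * b = z * (b * x)) : x * a = z * (a * x) :=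
  h.anti_symm (h.ap_an e (h.anti_symm hb))
theorem ap_same {a b e : X} (h1 : Ap z a e) (h2 : Ap z b e) : a * b = b * a := h.ap_cm h1 (h.ap_cm' h2 rfl)
theorem ap_of_pm {k a : X} (e : Pm z k a) : Ap z (k * a * k⁻¹) a :=
  e.imp (fun e => by rw [e, mul_inv_cancel_right]) fun e => by rw [e]; group
theorem ap_swap {a b : X} (e : Pm z a b) : Ap z (a * b) (b * a) := e
/-- the square of a product of anticommuting elements -/
theorem sq_an {a b : X} (e : a * b = z * (b * a)) : a * b * (a * b) = z * (a * a * (b * b)) := by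
  rw [mul_assoc, ← mul_assoc b, h.anti_symm e, mul_assoc z, h.zl]; group

end PB

theorem sq_cm {a b : X} (e : a * b = b * a) : a * b * (a * b) = a * a * (b * b) := by
  rw [mul_assoc, ← mul_assoc b, ← e]; group

/-- involutions of `S` commuting with `c` -/
def QQ (z : X) (S : Subgroup X) (c d : X) : Prop := d ∈ S ∧ NI z d ∧ d * c = c * d
/-- involutions of `S` inverting `c` -/
def RR (z : X) (S : Subgroup X) (c d : X) : Prop := d ∈ S ∧ NI z d ∧ d * c = z * (c * d)
/-- the centralizer in `S` of `t, c, s` -/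
def AA (S : Subgroup X) (t s c x : X) : Prop := x ∈ S ∧ x * t = t * x ∧ x * c = c * x ∧ x * s = s * x

namespace Bf

variable [Finite X] {S : Subgroup X} {t s c w a : X} (h : PB z) (f : Bf z S t s c w a)
include h f

theorem qt : QQ z S c t := ⟨f.tS, f.ht, f.ct.symm⟩
theorem qs : QQ z S c s := ⟨f.sS, f.hs, f.cs.symm⟩
theorem ut : s * (t * c) * t = z * (t * (s * (t * c))) := h.ac f.st (cm_mul rfl f.ct)
theorem us : s * (t * c) * s = z * (s * (s * (t * c))) := h.ca rfl (h.ac (h.anti_symm f.st) f.cs)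
theorem c1sq : t * c * (t * c) = z := by rw [sq_cm f.ct.symm, f.ht.1, f.cc, one_mul]
theorem qu : QQ z S c (s * (t * c)) :=
  ⟨mul_mem f.sS (mul_mem f.tS f.cS), h.ni_of (by
    rw [h.sq_an (h.anti_symm (h.ac (h.anti_symm f.st) f.cs)), f.c1sq h, f.hs.1, one_mul, h.zz]) (f.ut h),
    cm_mul f.cs.symm (cm_mul f.ct.symm rfl)⟩

theorem cls {d : X} (hd : QQ z S c d) : Ap z d t ∨ Ap z d s ∨ Ap z d (s * (t * c)) := by
  obtain ⟨h1, h2, h3⟩ := hd
  rcases f.nt d h1 with e | e
  · rcases h.f1 f.ht h2.1 e with e | e | e | e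
    · exact (h2.2.1 e).elim
    · exact (h2.2.2 e).elim
    · exact Or.inl (Or.inl e)
    · exact Or.inl (Or.inr e)
  · have e1 : d = s * (s * d) := by rw [← mul_assoc, f.hs.1, one_mul]
    right
    rcases f.neg (s * d) (mul_mem f.sS h1) (h.aa f.st e) (cm_mul f.cs.symm h3) (by
      rw [← mul_assoc, f.hs.1, one_mul, mul_inv_rev, inv_eq_of_mul_eq_one_right h2.1,
        inv_eq_of_mul_eq_one_right f.hs.1]) with e | e | e | e <;> rw [e] at e1
    · exact Or.inl (Or.inl (by rw [e1, mul_one]))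
    · exact Or.inl (Or.inr (by rw [e1, h.zr]))
    · exact Or.inr (Or.inl e1)
    · exact Or.inr (Or.inr (by rw [e1, h.zl]))

theorem q_ap {d e : X} (hd : QQ z S c d) (he : QQ z S c e) : Ap z d e ∨ d * e = z * (e * d) := by
  have st := f.st; have ut := f.ut h; have us := f.us h
  rcases f.cls h hd with a | a | a <;> rcases f.cls h he with b | b | b <;>
    first
    | exact Or.inl (h.ap_trans a (h.ap_symm b))
    | exact Or.inr (h.ap_an a (h.ap_an' b (by assumption)))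
    | exact Or.inr (h.ap_an a (h.ap_an' b (h.anti_symm (by assumption))))

theorem q_pm {d e : X} (hd : QQ z S c d) (he : QQ z S c e) : Pm z d e :=
  (f.q_ap h hd he).imp (fun a => h.ap_same a (Or.inl rfl)) id

theorem no4 {d1 d2 d3 d4 : X} (h1 : QQ z S c d1) (h2 : QQ z S c d2) (h3 : QQ z S c d3) (h4 : QQ z S c d4)
    (a12 : d1 * d2 = z * (d2 * d1)) (a13 : d1 * d3 = z * (d3 * d1)) (a14 : d1 * d4 = z * (d4 * d1))
    (a23 : d2 * d3 = z * (d3 * d2)) (a24 : d2 * d4 = z * (d4 * d2)) (a34 : d3 * d4 = z * (d4 * d3)) : False := by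
  rcases f.cls h h1 with b1 | b1 | b1 <;> rcases f.cls h h2 with b2 | b2 | b2 <;>
    rcases f.cls h h3 with b3 | b3 | b3 <;> rcases f.cls h h4 with b4 | b4 | b4 <;>
    first
    | exact h.not_ca (h.ap_same b1 b2) a12
    | exact h.not_ca (h.ap_same b1 b3) a13
    | exact h.not_ca (h.ap_same b1 b4) a14
    | exact h.not_ca (h.ap_same b2 b3) a23
    | exact h.not_ca (h.ap_same b2 b4) a24
    | exact h.not_ca (h.ap_same b3 b4) a34

theorem tri {d d1 d2 d3 : X} (h0 : QQ z S c d) (h1 : QQ z S c d1) (h2 : QQ z S c d2) (h3 : QQ z S c d3)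
    (a12 : d1 * d2 = z * (d2 * d1)) (a13 : d1 * d3 = z * (d3 * d1)) (a23 : d2 * d3 = z * (d3 * d2)) :
    Ap z d d1 ∨ Ap z d d2 ∨ Ap z d d3 := by
  by_contra hc
  push Not at hc
  exact f.no4 h h0 h1 h2 h3 ((f.q_ap h h0 h1).resolve_left hc.1) ((f.q_ap h h0 h2).resolve_left hc.2.1)
    ((f.q_ap h h0 h3).resolve_left hc.2.2) a12 a13 a23

/-- the two other classes -/
theorem others {d : X} (hd : QQ z S c d) : ∃ d1 d2, QQ z S c d1 ∧ QQ z S c d2 ∧ d * d1 = z * (d1 * d) ∧
    d * d2 = z * (d2 * d) ∧ d1 * d2 = z * (d2 * d1) ∧ Ap z (c * d) (d1 * d2) := by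
  have st := f.st; have ut := f.ut h; have us := f.us h
  rcases f.cls h hd with b | b | b
  · refine ⟨s, _, f.qs h, f.qu h, h.ap_an b (h.anti_symm st), h.ap_an b (h.anti_symm ut), h.anti_symm us,
      h.ap_trans (h.ap_mul (Or.inl rfl) b) (Or.inl ?_)⟩
    rw [← mul_assoc, f.hs.1, one_mul, f.ct]
  · refine ⟨t, _, f.qt h, f.qu h, h.ap_an b st, h.ap_an b (h.anti_symm us), h.anti_symm ut,
      h.ap_trans (h.ap_mul (Or.inl rfl) b) (Or.inr ?_)⟩
    rw [← mul_assoc t, h.anti_symm st, mul_assoc z, h.zzl, mul_assoc, ← mul_assoc t, f.ht.1, one_mul, f.cs]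
  · refine ⟨s, t, f.qs h, f.qt h, h.ap_an b us, h.ap_an b ut, st,
      h.ap_trans (h.ap_mul (Or.inl rfl) b) (Or.inr ?_)⟩
    rw [← (f.qu h).2.2, mul_assoc, mul_assoc, f.cc, h.zr, h.zl]

theorem qr {d : X} (h1 : d ∈ S) (h2 : NI z d) : QQ z S c d ∨ RR z S c d :=
  (f.nc d h1).imp (fun e => ⟨h1, h2, e⟩) fun e => ⟨h1, h2, e⟩

theorem r_t {r : X} (hr : RR z S c r) : r * t = z * (t * r) := by
  refine (f.nt r hr.1).resolve_left fun e => ?_
  rcases h.f1 f.ht hr.2.1.1 e with e | e | e | e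
  · exact hr.2.1.2.1 e
  · exact hr.2.1.2.2 e
  · exact h.not_ca (h.ap_cm (Or.inl e) f.ct.symm) hr.2.2
  · exact h.not_ca (h.ap_cm (Or.inr e) f.ct.symm) hr.2.2

theorem r_J {r : X} (hr : RR z S c r) : s * r * (s * r) = z ∧
    ∀ x ∈ S, x * t = t * x → x * c = c * x → s * r * x * (s * r)⁻¹ = x⁻¹ :=
  f.inv _ (mul_mem f.sS hr.1) (h.aa f.st (f.r_t h hr)) (h.ca f.cs.symm hr.2.2)

theorem r_s {r : X} (hr : RR z S c r) : r * s = z * (s * r) := by
  have := (f.r_J h hr).1
  calc r * s = s * (s * r * (s * r)) * r := by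
        rw [show s * (s * r * (s * r)) * r = s * s * r * s * (r * r) by group, f.hs.1, hr.2.1.1]; group
    _ = _ := by rw [this, h.zr, mul_assoc]

theorem r_an {r d : X} (hr : RR z S c r) (hd : QQ z S c d) : r * d = z * (d * r) := by
  rcases f.cls h hd with b | b | b
  · exact h.ap_an' b (f.r_t h hr)
  · exact h.ap_an' b (f.r_s h hr)
  · exact h.ap_an' b (h.anti_symm (h.ac (h.anti_symm (f.r_s h hr))
      (h.aa (h.anti_symm (f.r_t h hr)) (h.anti_symm hr.2.2))))

theorem a_q {x d : X} (hx : AA S t s c x) (hd : QQ z S c d) : x * d = d * x := by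
  rcases f.cls h hd with b | b | b
  · exact h.ap_cm' b hx.2.1
  · exact h.ap_cm' b hx.2.2.2
  · exact h.ap_cm' b (cm_mul hx.2.2.2.symm (cm_mul hx.2.1.symm hx.2.2.1.symm)).symm

theorem r_inv {r x : X} (hr : RR z S c r) (hx : AA S t s c x) : r * x = x⁻¹ * r := by
  have := (f.r_J h hr).2 x hx.1 hx.2.1 hx.2.2.1
  rw [mul_inv_eq_iff_eq_mul, ← mul_assoc, cm_inv hx.2.2.2, mul_assoc, mul_assoc] at this
  exact mul_left_cancel this

theorem r_mul {r x : X} (hr : RR z S c r) (hx : AA S t s c x) : RR z S c (r * x) := by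
  have e := h.ac hr.2.2 hx.2.2.1
  refine ⟨mul_mem hr.1 hx.1, h.ni_of ?_ e, e⟩
  nth_rw 1 [f.r_inv h hr hx]
  rw [mul_assoc, ← mul_assoc r, hr.2.1.1, one_mul, inv_mul_cancel]

theorem rr {r r' : X} (hr : RR z S c r) (hr' : RR z S c r') : AA S t s c (r * r') :=
  ⟨mul_mem hr.1 hr'.1, h.aa (f.r_t h hr) (f.r_t h hr'), h.aa hr.2.2 hr'.2.2, h.aa (f.r_s h hr) (f.r_s h hr')⟩

theorem wA : AA S t s c w := ⟨f.wS, f.wt, by rw [← f.ww, mul_assoc], f.ws⟩
theorem cA : AA S t s c c := ⟨f.cS, f.ct, rfl, f.cs⟩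

theorem not_pm {r : X} (hr : RR z S c r) : ¬ Pm z r (r * w) := by
  have e1 : r * (r * w) = w := by rw [← mul_assoc, hr.2.1.1, one_mul]
  have e2 : r * w * r = w⁻¹ := by rw [f.r_inv h hr (f.wA h), mul_assoc, hr.2.1.1, mul_one]
  rintro (e | e) <;> rw [e1, e2, eq_comm] at e
  · apply h.z1; rw [← f.cc, ← f.ww, ← inv_eq_iff_mul_eq_one.1 e, inv_eq_iff_mul_eq_one.1 e, one_mul]
  · apply h.z1; rw [mul_inv_eq_iff_eq_mul, f.ww] at e
    have := f.cc; rw [← e, h.zz] at this; exact this.symm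

/-- involutions commuting up to `z` with a member of `RR` commute up to `z` -/
theorem pm_r {r d e : X} (hr : RR z S c r) (hd : d ∈ S) (hd' : NI z d) (he : e ∈ S) (he' : NI z e)
    (h1 : Pm z d r) (h2 : Pm z e r) : Pm z d e := by
  rcases f.qr h hd hd' with a | a <;> rcases f.qr h he he' with b | b
  · exact f.q_pm h a b
  · exact Or.inr (h.anti_symm (f.r_an h b a))
  · exact Or.inr (f.r_an h a b)
  have key : ∀ y, RR z S c y → Pm z y r → Ap z (r * y * (r * y)) 1 := fun y hy e => by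
    have := h.ap_mul (Or.inl rfl : Ap z (r * y) (r * y)) (h.ap_swap (h.pm_symm e))
    rwa [mul_assoc r y (y * r), ← mul_assoc y, hy.2.1.1, one_mul, hr.2.1.1] at this
  have k1 := key d a h1
  have k2 := key e b h2
  have A1 := f.rr h hr a
  have A2 := f.rr h hr b
  have cm := f.ab _ A1.1 _ A2.1 A1.2.1 A1.2.2.1 A2.2.1 A2.2.2.1
  have e1 : d * e * (d * e) = (r * d * (r * d))⁻¹ * (r * e * (r * e)) := by
    have e0 : d * e = (r * d)⁻¹ * (r * e) := by rw [mul_inv_rev, inv_eq_of_mul_eq_one_right hd'.1]; group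
    rw [e0, sq_cm (cm_inv cm), mul_inv_rev (r * d)]
  have e2 : Ap z (d * e * (d * e)) 1 := by
    rw [e1]
    rcases k1 with k1 | k1 <;> rw [k1]
    · simpa using k2
    · rw [mul_one, h.zi]; exact h.ap_trans (Or.inr rfl) k2
  have e3 := h.ap_mul e2 (Or.inl rfl : Ap z (e * d) (e * d))
  rwa [one_mul, mul_assoc (d * e), mul_assoc d e (e * d), ← mul_assoc e e, he'.1, one_mul, hd'.1, mul_one] at e3

end Bf

end Cfsg.Agent.WA.Gd
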