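import Cfsg.Agent.WA.GdB0
import Cfsg.Agent.H4.Dihedral

/-! Integrality: a noncentral involution is not a square. -/

set_option autoImplicit false

namespace Cfsg.Agent.WA.Gd

open Subgroup Cfsg.Agent.H8

universe u v

namespace XI

variable {R : Type v} [Ring R] [Algebra ℚ R]

theorem cancel {n : ℕ} (hn : n ≠ 0) {a : R} (h : (n : R) * a = 0) : a = 0 := by
  have h1 : (n : ℚ) • a = 0 := by rw [Nat.cast_smul_eq_nsmul, nsmul_eq_mul, h]
  have h2 : (n : ℚ) ≠ 0 := by exact_mod_cast hn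
  calc a = (n : ℚ)⁻¹ • ((n : ℚ) • a) := by rw [smul_smul, inv_mul_cancel₀ h2, one_smul]
    _ = 0 := by rw [h1, smul_zero]

theorem two {a b : R} (h : a + a = b + b) : a = b := by
  have := cancel (R := R) (n := 2) two_ne_zero (a := a - b) (by
    rw [Nat.cast_ofNat, two_mul, ← sub_eq_zero.2 h]; abel)
  exact sub_eq_zero.1 this

/-- rank condition for a multiple of an idempotent -/
theorem rkn (rk : RK R) {n : ℕ} (hn : n ≠ 0) {F : R} (hF : F * F = n * F) (h1 : F ≠ n) {a b : R}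
    (h : a * F * b = 0) : a * F = 0 ∨ F * b = 0 := by
  have h2 : (n : ℚ) ≠ 0 := by exact_mod_cast hn
  have e : ∀ y : R, (n : R) * y = (n : ℚ) • y := fun y => by rw [Nat.cast_smul_eq_nsmul, nsmul_eq_mul]
  have k : ∀ y : R, (n : ℚ)⁻¹ • y = 0 → y = 0 := fun y hy => by
    calc y = (n : ℚ) • ((n : ℚ)⁻¹ • y) := by rw [smul_smul, mul_inv_cancel₀ h2, one_smul]
      _ = 0 := by rw [hy, smul_zero]
  have := rk ((n : ℚ)⁻¹ • F) a b (by
    rw [smul_mul_smul_comm, hF, e, smul_smul, mul_assoc, inv_mul_cancel₀ h2, mul_one]) (fun h3 => h1 (by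
    have : (n : ℚ) • ((n : ℚ)⁻¹ • F) = (n : ℚ) • (1 : R) := by rw [h3]
    rwa [smul_smul, mul_inv_cancel₀ h2, one_smul, ← e, mul_one] at this)) (by
    rw [mul_smul_comm, smul_mul_assoc, h, smul_zero])
  rw [mul_smul_comm, smul_mul_assoc] at this
  exact this.imp (k _) (k _)

theorem rk2 (rk : RK R) {T : R} (hT : T * T = 1) (h1 : T ≠ 1) {a b : R}
    (h : a * (1 + T) * b = 0) : a * (1 + T) = 0 ∨ (1 + T) * b = 0 := by
  refine rkn rk (n := 2) two_ne_zero ?_ (fun h3 => h1 ?_) h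
  · rw [Nat.cast_ofNat, mul_add, add_mul, add_mul, hT, two_mul]; simp only [mul_one, one_mul]; abel
  · rw [Nat.cast_ofNat, ← one_add_one_eq_two] at h3; exact add_left_cancel h3

theorem half {u : R} (hu : IsIntegral ℤ u) (h : u * u + u * u = u) : u = 0 := by
  obtain ⟨p, hp, h0⟩ := hu
  have h1 : u * u = (1 / 2 : ℚ) • u := by
    nth_rw 3 [← h]; rw [← two_smul ℚ, smul_smul]; norm_num
  have key : ∀ q : Polynomial ℤ, u * Polynomial.aeval u q = (Polynomial.aeval (1 / 2 : ℚ) q) • u := by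
    intro q
    induction q using Polynomial.induction_on with
    | C a =>
      rw [Polynomial.aeval_C, Polynomial.aeval_C, eq_intCast, eq_intCast, Int.cast_smul_eq_zsmul, zsmul_eq_mul,
        Int.cast_comm]
    | add p q hp hq => rw [map_add, map_add, mul_add, add_smul, hp, hq]
    | monomial n a ih =>
      rw [pow_succ', ← mul_assoc, mul_comm (Polynomial.C a), mul_assoc, map_mul _ Polynomial.X,
        map_mul _ Polynomial.X, Polynomial.aeval_X, Polynomial.aeval_X, ← mul_assoc, h1, smul_mul_assoc, ih, smul_smul]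
  have h2 := key p
  rw [show Polynomial.aeval u p = 0 from h0, mul_zero] at h2
  by_contra hne
  have h3 : Polynomial.aeval (1 / 2 : ℚ) p = 0 := by
    by_contra h3
    apply hne
    calc u = (Polynomial.aeval (1 / 2 : ℚ) p)⁻¹ • ((Polynomial.aeval (1 / 2 : ℚ) p) • u) := by
          rw [smul_smul, inv_mul_cancel₀ h3, one_smul]
      _ = 0 := by rw [← h2, smul_zero]
  obtain ⟨y, hy⟩ := (IsIntegrallyClosed.isIntegral_iff (R := ℤ) (K := ℚ) (x := 1 / 2)).1 ⟨p, hp, h3⟩
  have h4 : ((2 * y : ℤ) : ℚ) = 1 := by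
    rw [eq_intCast] at hy; push_cast; rw [hy]; norm_num
  have h5 : 2 * y = 1 := by exact_mod_cast h4
  omega

theorem sum_zero (rk : RK R) {T G : R} {k : ℕ} (hT : T * T = 1) (hG : G ^ (2 * k + 1) = 1) (G1 : G ≠ 1)
    (hi : T * G * T * G = 1) (hc : ∀ N : R, N = ∑ i ∈ Finset.range (2 * k + 1), G ^ i → T * N = N * T) :
    ∑ i ∈ Finset.range (2 * k + 1), G ^ i = 0 := by
  obtain ⟨N, hN⟩ : ∃ N, N = ∑ i ∈ Finset.range (2 * k + 1), G ^ i := ⟨_, rfl⟩
  have tN := hc N hN
  rw [← hN]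
  have gN : G * N = N := by
    have := mul_neg_geom_sum G (2 * k + 1)
    rw [← hN, hG, sub_self, sub_mul, one_mul] at this
    exact (sub_eq_zero.1 this).symm
  have Ng : N * G = N := by
    have := geom_sum_mul_neg G (2 * k + 1)
    rw [← hN, hG, sub_self, mul_sub, mul_one] at this
    exact (sub_eq_zero.1 this).symm
  have fix : ∀ q : R, q * G = q → q * N = ((2 * k + 1 : ℕ) : R) * q := fun q hq => by
    have : ∀ i : ℕ, q * G ^ i = q := fun i => by
      induction i with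
      | zero => simp
      | succ i ih => rw [pow_succ, ← mul_assoc, ih, hq]
    rw [hN, Finset.mul_sum, Finset.sum_congr rfl fun i _ => this i, Finset.sum_const, Finset.card_range,
      nsmul_eq_mul]
  by_contra h0
  obtain ⟨n, hn⟩ : ∃ n : R, n = ((2 * k + 1 : ℕ) : R) := ⟨_, rfl⟩
  have nc : ∀ y : R, n * y = y * n := fun y => by rw [hn]; exact (Nat.cast_comm _ y)
  have NN := fix N Ng
  rw [← hn] at NN
  have qq : (n - N) * (n - N) = ((2 * k + 1 : ℕ) : R) * (n - N) := by
    rw [← hn, sub_mul, mul_sub N, NN, nc N, sub_self, sub_zero]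
  have tq : T * (n - N) = (n - N) * T := by rw [mul_sub, sub_mul, tN, nc]
  have gq : G * (n - N) = (n - N) * G := by rw [mul_sub, sub_mul, gN, Ng, nc]
  have h1 := rkn rk (n := 2 * k + 1) (by omega) qq (by rw [← hn]; simpa using h0) (a := 1 - T) (b := 1 + T) (by
    rw [mul_assoc, mul_add, mul_one, ← tq, sub_mul, one_mul, mul_add, ← mul_assoc, hT, one_mul]; abel)
  obtain ⟨q, hq⟩ : ∃ q, q = n - N := ⟨_, rfl⟩
  rw [← hq] at h1 tq gq
  have h2 : q * G * G = q := by
    have h3 : T * (G * (T * (q * G))) = q := by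
      rw [← gq, ← mul_assoc, ← mul_assoc, ← mul_assoc, hi, one_mul]
    rcases h1 with h1 | h1
    · have h4 : T * q = q := by rw [sub_mul, one_mul] at h1; exact (sub_eq_zero.1 h1).symm
      rwa [← mul_assoc T q, h4, ← mul_assoc G, gq, ← mul_assoc, ← mul_assoc, h4] at h3
    · have h4 : T * q = -q := by rw [mul_add, mul_one, ← tq] at h1; exact (neg_eq_of_add_eq_zero_right h1).symm
      rwa [← mul_assoc T q, h4, neg_mul, mul_neg, mul_neg, ← mul_assoc G, gq, ← mul_assoc, ← mul_assoc, h4,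
        neg_mul, neg_mul, neg_neg] at h3
  have h5 : ∀ j : ℕ, q * G ^ (2 * j) = q := fun j => by
    induction j with
    | zero => simp
    | succ j ih => rw [mul_add, pow_add, ← mul_assoc, ih, mul_one, pow_two, ← mul_assoc, h2]
  have h6 : q * G = q := by
    have := congrArg (q * ·) hG
    simp only [pow_succ G (2 * k), ← mul_assoc, h5, mul_one] at this
    exact this
  have h7 : q = 0 := cancel (n := 2 * k + 1) (by omega) (by
    rw [← fix q h6, hq, sub_mul, NN, sub_self])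
  rw [hq, sub_eq_zero] at h7
  apply G1
  have := cancel (R := R) (n := 2 * k + 1) (by omega) (a := G - 1) (by
    rw [← hn, mul_sub, mul_one, h7, Ng, sub_self])
  exact sub_eq_zero.1 this

theorem core (O : Subalgebra ℤ R) (hO : O.toSubmodule.FG) {T G H K : R} {k : ℕ} (hT : T * T = 1)
    (hG : G ^ (2 * k + 1) = 1) (h0 : ∑ i ∈ Finset.range (2 * k + 1), G ^ i = 0) (GH : G * H = 1) (HG : H * G = 1)
    (TG : T * G = H * T) (TH : T * H = G * T) (KK : K * K = T) (KT : K * (1 + T) = 1 + T)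
    (TO : T ∈ O) (GO : G ∈ O) (KO : K ∈ O) : T = 1 := by
  obtain ⟨s, hs⟩ : ∃ s, s = ∑ j ∈ Finset.range k, G ^ (2 * j) := ⟨_, rfl⟩
  have sO : s ∈ O := hs ▸ O.sum_mem fun j _ => O.pow_mem GO _
  have s1 : ∀ m : ℕ, (1 + G) * ∑ j ∈ Finset.range m, G ^ (2 * j) = ∑ i ∈ Finset.range (2 * m), G ^ i := fun m => by
    induction m with
    | zero => simp
    | succ m ih =>
      rw [Finset.sum_range_succ, mul_add, ih, mul_add, mul_one, Finset.sum_range_succ, Finset.sum_range_succ,
        add_mul, one_mul, pow_succ', add_assoc]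
  have Gs : Commute G s := hs ▸ Commute.sum_right _ _ _ fun j _ => (Commute.refl G).pow_right _
  have s2 : (1 + G) * (-(G * s)) = 1 := by
    have h1 : (1 + G) * s = -G ^ (2 * k) := by
      rw [hs, s1]; rw [Finset.sum_range_succ] at h0; exact eq_neg_of_add_eq_zero_left h0
    rw [Gs.eq, mul_neg, ← mul_assoc, h1, neg_mul, neg_neg, ← pow_succ, hG]
  obtain ⟨V, hV⟩ : ∃ V, V = -(G * s) := ⟨_, rfl⟩
  have VO : V ∈ O := hV ▸ O.neg_mem (O.mul_mem GO sO)
  have GV : Commute G V := hV ▸ ((Commute.refl G).mul_right Gs).neg_right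
  rw [← hV] at s2
  have s3 : V * (1 + G) = 1 := by rw [← ((Commute.one_left V).add_left GV).eq, s2]
  obtain ⟨U, hU⟩ : ∃ U, U = 1 + 1 + (G + H) := ⟨_, rfl⟩
  obtain ⟨W, hW⟩ : ∃ W, W = G * V * V := ⟨_, rfl⟩
  have WO : W ∈ O := hW ▸ O.mul_mem (O.mul_mem GO VO) VO
  have UW : U * W = 1 := by
    have : U * G = (1 + G) * (1 + G) := by
      rw [hU, add_mul, add_mul, add_mul, HG]; noncomm_ring
    rw [hW, ← mul_assoc, ← mul_assoc, this, mul_assoc (1 + G), s2, mul_one, s2]
  have WU : W * U = 1 := by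
    have : G * U = (1 + G) * (1 + G) := by
      rw [hU, mul_add, mul_add, mul_add, GH]; noncomm_ring
    rw [hW, GV.eq, mul_assoc V, GV.eq, mul_assoc, mul_assoc, this, ← mul_assoc V (1 + G), s3, one_mul, s3]
  have TS : T * (G + H) = (G + H) * T := by rw [mul_add, add_mul, TG, TH, add_comm]
  have TU : T * U = U * T := by rw [hU, mul_add, add_mul, TS]; noncomm_ring
  have TW : T * W = W * T := by
    calc T * W = W * U * T * W := by rw [WU, one_mul]
      _ = W * T := by rw [mul_assoc W, ← TU, mul_assoc, mul_assoc, UW, mul_one]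
  obtain ⟨E, hE⟩ : ∃ E, E = 1 - T := ⟨_, rfl⟩
  have ET : E * T = -E := by rw [hE, sub_mul, hT, one_mul, neg_sub]
  have TE : T * E = -E := by rw [hE, mul_sub, hT, mul_one, neg_sub]
  have EE : E * E = E + E := by nth_rw 2 [hE]; rw [mul_sub, ET, mul_one, sub_neg_eq_add]
  have EW : E * W = W * E := by rw [hE, sub_mul, mul_sub, TW, one_mul, mul_one]
  have EU : E * U = U * E := by rw [hE, sub_mul, mul_sub, TU, one_mul, mul_one]
  have ES : E * (G + H) = (G + H) * E := by rw [hE, sub_mul, mul_sub, TS, one_mul, mul_one]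
  have e1 : E * G * E = E * H * E := by
    have : E * (T * G) * E = E * (H * T) * E := by rw [TG]
    rwa [← mul_assoc, ET, mul_assoc E (H * T), mul_assoc H, TE, mul_neg, mul_neg, neg_mul, neg_mul, neg_inj,
      ← mul_assoc] at this
  have e2 : E * G * E = (G + H) * E := two (by
    nth_rw 2 [e1]; rw [← add_mul, ← mul_add, ES, mul_assoc, EE, mul_add])
  have e3 : E * (1 - T * G) * E = U * E := by
    rw [mul_sub, mul_one, ← mul_assoc, ET, neg_mul, sub_neg_eq_add, add_mul, e2, EE, hU, add_mul (1 + 1), add_mul 1 1,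
      one_mul]
  have kT : K * T = T * K := by rw [← KK, mul_assoc]
  have kk : K * T = 1 + T - K := by rw [← KT, mul_add, mul_one, add_sub_cancel_left]
  have b1 : (K - 1) * E = (K - 1) + (K - 1) := by rw [hE, mul_sub, sub_mul K 1 T, kk]; noncomm_ring
  have b2 : E * (K * T - 1) = (K * T - 1) + (K * T - 1) := by
    rw [hE, sub_mul, mul_sub T, ← mul_assoc, ← kT, mul_assoc K, hT, kk]; noncomm_ring
  have b3 : (K - 1) * (K * T - 1) = E := by
    rw [sub_mul, mul_sub, ← mul_assoc, KK, hT, kk, hE]; noncomm_ring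
  obtain ⟨y, hy⟩ : ∃ y, y = (K - 1) * (1 - T * G) * W * (K * T - 1) := ⟨_, rfl⟩
  have MO : 1 - T * G ∈ O := O.sub_mem O.one_mem (O.mul_mem TO GO)
  have yO : y ∈ O := hy ▸ O.mul_mem (O.mul_mem (O.mul_mem (O.sub_mem KO O.one_mem) MO) WO)
    (O.sub_mem (O.mul_mem KO TO) O.one_mem)
  have y2 : y + y = E := two (by
    calc y + y + (y + y) = (K - 1) * E * (1 - T * G) * W * (E * (K * T - 1)) := by
          rw [b1, b2, hy]; noncomm_ring
      _ = (K - 1) * (E * (1 - T * G) * E * W) * (K * T - 1) := by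
          rw [mul_assoc (E * _) E W, EW]; noncomm_ring
      _ = E + E := by
          rw [e3, ← EU, mul_assoc E, UW, mul_one, b1, add_mul, b3])
  obtain ⟨u, hu⟩ : ∃ u, u = y * (1 - T * G) * y * W := ⟨_, rfl⟩
  have uO : u ∈ O := hu ▸ O.mul_mem (O.mul_mem (O.mul_mem yO MO) yO) WO
  have u4 : u + u + (u + u) = E := by
    calc u + u + (u + u) = (y + y) * (1 - T * G) * (y + y) * W := by rw [hu]; noncomm_ring
      _ = E := by rw [y2, e3, ← EU, mul_assoc E, UW, mul_one]
  have u0 : u = 0 := half (IsIntegral.of_mem_of_fg O hO u uO) (two (two (two (by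
    have : E * E = E + E := EE
    rw [← u4] at this
    rw [← sub_eq_zero] at this ⊢
    rw [← this]; noncomm_ring))))
  rw [u0, hE] at u4
  simp only [add_zero] at u4
  exact (sub_eq_zero.1 u4.symm).symm

end XI

open XI

variable {X : Type u} [Group X] [Finite X] {R : Type v} [Ring R] [Algebra ℚ R]

omit [Finite X] in
theorem Rp.ci (r : Rp X R) {c : X} (hc : c ∈ center X) (h : c * c = 1) : c = 1 ∨ r.ρ c = -1 := by
  have hT : r.ρ c * r.ρ c = 1 := by rw [← map_mul, h, map_one]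
  have := r.irr ((1 / 2 : ℚ) • (1 + r.ρ c)) (by
    rw [smul_mul_smul_comm, mul_add, add_mul, add_mul, hT]; simp only [mul_one, one_mul]
    rw [add_comm (r.ρ c) 1, ← two_smul ℚ, smul_smul]; norm_num) (fun x => by
    rw [smul_mul_assoc, mul_smul_comm, add_mul, mul_add, ← map_mul, ← map_mul, mem_center_iff.1 hc x,
      one_mul, mul_one])
  have k : ∀ y : R, (2 : ℚ) • (1 / 2 : ℚ) • y = y := fun y => by rw [smul_smul]; norm_num
  rcases this with h1 | h1
  · right
    have := k (1 + r.ρ c)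
    rw [h1, smul_zero] at this
    exact (neg_eq_of_add_eq_zero_right this.symm).symm
  · left
    have := k (1 + r.ρ c)
    rw [h1, two_smul] at this
    exact r.inj (by rw [map_one]; exact (add_left_cancel this).symm)

omit [Finite X] in
theorem Rp.comm_inv (r : Rp X R) {t d : X} (ht : t * t = 1) (hd : d * d = 1) (h : d * t = t * d) :
    r.ρ t = 1 ∨ r.ρ t = -1 ∨ r.ρ d = 1 ∨ r.ρ d = -1 ∨ r.ρ d = r.ρ t ∨ r.ρ d = -r.ρ t := by
  have hT : r.ρ t * r.ρ t = 1 := by rw [← map_mul, ht, map_one]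
  have hD : r.ρ d * r.ρ d = 1 := by rw [← map_mul, hd, map_one]
  have hc : r.ρ d * r.ρ t = r.ρ t * r.ρ d := by rw [← map_mul, h, map_mul]
  generalize r.ρ t = T at *
  generalize r.ρ d = D at *
  by_cases h1 : T = 1
  · exact Or.inl h1
  by_cases h2 : T = -1
  · exact Or.inr (Or.inl h2)
  right; right
  have a1 := rk2 r.rk hT h1 (a := 1 + D) (b := 1 - D) (by
    have : (1 + D) * (1 + T) * (1 - D) = (1 - D * D) + (T - D * (T * D)) + (D * T - T * D) := by noncomm_ring
    rw [this, ← hc, ← mul_assoc, hD]; simp)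
  have a2 := rk2 r.rk (T := -T) (by rw [neg_mul_neg, hT]) (fun h3 => h2 (neg_eq_iff_eq_neg.1 h3))
    (a := 1 + D) (b := 1 - D) (by
    have : (1 + D) * (1 + -T) * (1 - D) = (1 - D * D) - (T - D * (T * D)) - (D * T - T * D) := by noncomm_ring
    rw [this, ← hc, ← mul_assoc, hD]; simp)
  rcases a1 with a1 | a1 <;> rcases a2 with a2 | a2
  · refine Or.inr (Or.inl (two ?_))
    rw [← sub_eq_zero, ← add_zero (0 : R)]; nth_rw 1 [← a1]; rw [← a2]; noncomm_ring
  · refine Or.inr (Or.inr (Or.inr (two ?_)))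
    rw [← sub_eq_zero, ← sub_zero (0 : R), ← sub_zero (0 - 0 : R)]
    nth_rw 1 [← a1]; nth_rw 1 [← a2]; rw [← sub_eq_zero.2 hc]; noncomm_ring
  · refine Or.inr (Or.inr (Or.inl (two ?_)))
    rw [← sub_eq_zero, ← sub_zero (0 : R), ← add_zero (0 - 0 : R)]
    nth_rw 1 [← a2]; nth_rw 1 [← a1]; rw [← sub_eq_zero.2 hc]; noncomm_ring
  · refine Or.inl (two ?_)
    rw [eq_comm, ← sub_eq_zero, ← add_zero (0 : R)]; nth_rw 1 [← a1]; rw [← a2]; noncomm_ring

theorem Rp.not_sq (r : Rp X R) {t x g : X} (ht : t * t = 1) (h1 : r.ρ t ≠ 1) (hx : x * x = t)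
    (hg : Odd (orderOf g)) (g1 : g ≠ 1) (hi : t * g * t⁻¹ = g⁻¹) : False := by
  obtain ⟨k, hk⟩ := hg
  have ti : t⁻¹ = t := inv_eq_of_mul_eq_one_right ht
  have hT : r.ρ t * r.ρ t = 1 := by rw [← map_mul, ht, map_one]
  have hG : r.ρ g ^ (2 * k + 1) = 1 := by rw [← map_pow, ← hk, pow_orderOf_eq_one, map_one]
  have tg : t * g = g⁻¹ * t := by rw [← hi]; group
  have tg' : t * g⁻¹ = g * t := by rw [← hi, ti, ← mul_assoc, ← mul_assoc, ht, one_mul]
  have h0 := sum_zero r.rk hT hG (fun h => g1 (r.inj (by rw [h, map_one])))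
    (by rw [← map_mul, ← map_mul, ← map_mul, tg, mul_assoc g⁻¹, ht, mul_one, inv_mul_cancel, map_one])
    (fun N hN => by
      have e : ∀ i, r.ρ t * r.ρ g ^ i = r.ρ g⁻¹ ^ i * r.ρ t := fun i => by
        rw [← map_pow, ← map_pow, ← map_mul, ← map_mul, ← hi, conj_pow]; congr 1; group
      have e2 : ∑ i ∈ Finset.range (2 * k + 1), r.ρ g⁻¹ ^ i = ∑ i ∈ Finset.range (2 * k + 1), r.ρ g ^ i := by
        have e3 : ∀ i ∈ Finset.range (2 * k + 1), r.ρ g⁻¹ ^ i = r.ρ g * r.ρ g ^ (2 * k + 1 - 1 - i) := fun i hi => by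
          rw [← pow_succ', ← map_pow, ← map_pow]; congr 1
          rw [inv_pow, inv_eq_iff_mul_eq_one, ← pow_add,
            show i + (2 * k + 1 - 1 - i + 1) = orderOf g by have := Finset.mem_range.1 hi; omega, pow_orderOf_eq_one]
        rw [Finset.sum_congr rfl e3, ← Finset.mul_sum, Finset.sum_range_reflect (fun i => r.ρ g ^ i)]
        have := mul_neg_geom_sum (r.ρ g) (2 * k + 1)
        rw [hG, sub_self, sub_mul, one_mul] at this
        exact (sub_eq_zero.1 this).symm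
      rw [hN, Finset.mul_sum, Finset.sum_congr rfl fun i _ => e i, ← Finset.sum_mul, e2])
  have hO : (Algebra.adjoin ℤ (Set.range r.ρ)).toSubmodule.FG := by
    rw [Algebra.adjoin_eq_span, ← MonoidHom.coe_mrange, Submonoid.closure_eq]
    exact Submodule.fg_span (by rw [MonoidHom.coe_mrange]; exact Set.finite_range _)
  have mO : ∀ y, r.ρ y ∈ Algebra.adjoin ℤ (Set.range r.ρ) := fun y => Algebra.subset_adjoin ⟨y, rfl⟩
  have xx : r.ρ x * r.ρ x = r.ρ t := by rw [← map_mul, hx]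
  have fin : ∀ K : R, K * K = r.ρ t → K * (1 + r.ρ t) = 1 + r.ρ t → K ∈ Algebra.adjoin ℤ (Set.range r.ρ) → False :=
    fun K a b c => h1 (core _ hO (H := r.ρ g⁻¹) hT hG h0 (by rw [← map_mul, mul_inv_cancel, map_one])
      (by rw [← map_mul, inv_mul_cancel, map_one]) (by rw [← map_mul, ← map_mul, tg])
      (by rw [← map_mul, ← map_mul, tg']) a b (mO t) (mO g) c)
  have xt : r.ρ x * r.ρ t = r.ρ t * r.ρ x := by rw [← xx, mul_assoc]
  rcases rk2 r.rk hT h1 (a := r.ρ x - 1) (b := r.ρ x + 1) (by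
    have : (r.ρ x - 1) * (1 + r.ρ t) * (r.ρ x + 1) = (r.ρ x * r.ρ x - 1) + (r.ρ x * (r.ρ t * r.ρ x) - r.ρ t) +
      (r.ρ x * r.ρ t - r.ρ t * r.ρ x) := by noncomm_ring
    rw [this, ← xt, ← mul_assoc, xx, hT]; simp) with h | h
  · exact fin _ xx (by rw [sub_mul, one_mul] at h; exact sub_eq_zero.1 h) (mO x)
  · refine fin (-r.ρ x) (by rw [neg_mul_neg, xx]) ?_ (neg_mem (mO x))
    rw [mul_add, mul_one, add_mul, ← xt, one_mul] at h
    rw [neg_mul, mul_add, mul_one]
    exact neg_eq_of_add_eq_zero_right h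

theorem mem_center_of_pCore (hs : IsSimpleGroup (X ⧸ center X))
    (hna : ¬ IsMulCommutative (X ⧸ center X)) {t : X} (h : t ∈ pCore 2 X) : t ∈ center X := by
  have := Fact.mk Nat.prime_two
  have hn := (pCore_normal 2 X).map _ (QuotientGroup.mk'_surjective (center X))
  rcases hn.eq_bot_or_eq_top with h1 | h1
  · exact mk_eq_one.1 (mem_bot.1 (h1 ▸ mem_map_of_mem _ h))
  · have h2 := (H4.isPGroup_pCore 2 X).map (QuotientGroup.mk' (center X))
    rw [h1] at h2
    have h3 : IsPGroup 2 (X ⧸ center X) := h2.of_equiv topEquiv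
    have := h3.isNilpotent
    exact (hna ⟨⟨IsSimpleGroup.comm_iff_isSolvable.2 inferInstance⟩⟩).elim

theorem Rp.pb (r : Rp X R) (pf : commutator X = ⊤)
    (hZ : IsPGroup 2 (center X)) (hs : IsSimpleGroup (X ⧸ center X)) (hna : ¬ IsMulCommutative (X ⧸ center X))
    {t : X} (ht : t * t = 1) (hc : t ∉ center X) : ∃ z : X, PB z ∧ NI z t := by
  have m1 : (-1 : R) ≠ 1 := fun h => r.nt (two (by nth_rw 1 [← h]; simp))
  have cen : ∀ x, r.ρ x = -1 → x ∈ center X := fun x hx => mem_center_iff.2 fun g => r.inj (by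
    rw [map_mul, map_mul, hx, mul_neg, neg_mul, mul_one, one_mul])
  have one : ∀ x, r.ρ x = 1 → x = 1 := fun x hx => r.inj (by rw [hx, map_one])
  obtain ⟨z, hz⟩ : ∃ z, r.ρ z = -1 := by
    obtain ⟨g, h1, h2⟩ := zs_comm hs hna (x := t) (ht ▸ one_mem _) hc
    obtain ⟨s, hs'⟩ : ∃ s, s = g * t * g⁻¹ := ⟨_, rfl⟩
    rw [← hs'] at h1 h2
    have ss : s * s = 1 := by rw [hs', show g * t * g⁻¹ * (g * t * g⁻¹) = g * (t * t) * g⁻¹ by group, ht]; group
    have ti : t⁻¹ = t := inv_eq_of_mul_eq_one_right ht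
    have si : s⁻¹ = s := inv_eq_of_mul_eq_one_right ss
    rw [mul_inv_rev, ti, si] at h2
    have h3 : s * t * (s * t) * (s * t * (s * t)) = 1 := by
      have h4 := mem_center_iff.1 h2 t
      calc _ = s * t * (s * t) * s * (t * (s * t)) := by group
        _ = t * (t * (s * t * (s * t))) * s * (t * (s * t)) := by rw [← mul_assoc t t, ht, one_mul]
        _ = t * s * t * s * (t * t) * s * t * s * t := by rw [h4]; group
        _ = 1 := by
          rw [ht, mul_one, mul_assoc _ s s, ss, mul_one, mul_assoc _ t t, ht, mul_one, mul_assoc _ s s, ss, mul_one, ht]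
    rcases r.ci h2 h3 with h4 | h4
    · have h5 : s * t = t * s := by rw [← inv_eq_of_mul_eq_one_right h4, mul_inv_rev, ti, si]
      have sc : s ∉ center X := fun h => hc (by
        have := (inferInstance : (center X).Normal).conj_mem _ h g⁻¹
        rwa [hs', show g⁻¹ * (g * t * g⁻¹) * g⁻¹⁻¹ = t by group] at this)
      rcases r.comm_inv ht ss h5 with h | h | h | h | h | h
      · exact (hc (one t h ▸ one_mem _)).elim
      · exact ⟨t, h⟩
      · exact (sc (one s h ▸ one_mem _)).elim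
      · exact ⟨s, h⟩
      · exact (h1 (by rw [r.inj h, inv_mul_cancel]; exact one_mem _)).elim
      · exact ⟨s * t, by rw [map_mul, h, neg_mul, ← map_mul, ht, map_one]⟩
    · exact ⟨_, h4⟩
  have eqz : ∀ x, r.ρ x = -1 → x = z := fun x hx => r.inj (by rw [hx, hz])
  refine ⟨z, ⟨one _ (by rw [map_mul, hz, neg_mul_neg, one_mul]), fun e => m1 (by rw [← hz, e, map_one]),
    fun x => (mem_center_iff.1 (cen z hz) x).symm, fun c h1 h2 => (r.ci h1 h2).imp id (eqz c),
    fun {t d} h1 h2 h3 => ?_, fun x h1 => ?_, pf, hZ, hs, hna⟩,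
    ht, fun e => hc (e ▸ one_mem _), fun e => hc (e ▸ cen z hz)⟩
  · rcases r.comm_inv h1.1 h2 h3 with h | h | h | h | h | h
    · exact (h1.2.1 (one t h)).elim
    · exact (h1.2.2 (eqz t h)).elim
    · exact Or.inl (one d h)
    · exact Or.inr (Or.inl (eqz d h))
    · exact Or.inr (Or.inr (Or.inl (r.inj h)))
    · exact Or.inr (Or.inr (Or.inr (r.inj (by rw [map_mul, h, hz, neg_one_mul]))))
  · obtain ⟨g, g1, g2, g3, -⟩ := H4.exists_odd_prime_order_inverted_of_not_mem_pCore h1.1 (fun h =>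
      (r.ci (mem_center_of_pCore hs hna h) h1.1).elim h1.2.1 (fun e => h1.2.2 (eqz _ e)))
    exact r.not_sq h1.1 (fun e => h1.2.1 (one _ e)) rfl (g1.odd_of_ne_two g2)
      (fun e => by rw [e, orderOf_one] at g1; exact Nat.not_prime_one g1) g3

end Cfsg.Agent.WA.Gd
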