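import Cfsg.Agent.WA.H3T
import Cfsg.Agent.WA.H3V
import Cfsg.Agent.H4.R4a

/-! S3139, module H3A: type 2a, the core frame in `C(u)/⟨u⟩`. -/

set_option autoImplicit false
set_option linter.unusedSectionVars false

namespace Cfsg.Agent.WA.H3

open Subgroup Cfsg.Agent.FT Cfsg.Agent.L0 Cfsg.Agent.H8 Cfsg.Agent.H4.R4

universe w

namespace TA

variable {G : Type*} [Group G] [Finite G]

theorem rel (F : F2 G) : F.a * F.z = F.z * F.a ∧ F.u * F.z = F.z * F.u ∧ F.t * F.z = F.z * F.t ∧ F.x⁻¹ * F.u * F.x = F.z * F.u ∧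
    F.s * F.s = 1 ∧ F.a * F.s * F.a * F.s = F.z ∧ F.t * F.s = F.s * F.t ∧ F.s * F.u = F.u * F.s ∧ F.s * F.z = F.z * F.s := by
  have ia := inv_eq_of_mul_eq_one_right F.a2
  have iu := inv_eq_of_mul_eq_one_right F.u2
  have iz := inv_eq_of_mul_eq_one_right F.z2
  have h1 : F.a * F.z = F.z * F.a := by
    rw [← mul_inv_eq_iff_eq_mul, ← F.x4, ← conj_pow, ia, F.ax, pow_right_comm, F.x4, pow_three, F.z2, mul_one]
  have h2 : F.u * F.z = F.z * F.u := by
    rw [← mul_inv_eq_iff_eq_mul, ← F.x4, ← conj_pow, iu, F.ux, pow_right_comm, F.x4, pow_succ, show 4 = 2 * 2 from rfl, pow_mul, pow_two F.z,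
      F.z2, one_pow, one_mul]
  have h3 : F.u * F.x = F.x * F.z * F.u := by rw [← mul_inv_eq_iff_eq_mul, iu, F.ux, ← F.x4]; group
  have h4 : F.a * F.x⁻¹ * F.a = (F.x ^ 3)⁻¹ := by rw [← F.ax, mul_inv_rev, mul_inv_rev, ia, mul_assoc]
  have h5 : F.x * F.z = F.z * F.x := by rw [← F.x4]; group
  refine ⟨h1, h2, by rw [← F.x4]; exact Commute.pow_right F.tx 4, by rw [mul_assoc, h3]; group,
    by simp [← F.hs, mul_assoc, ← mul_assoc F.a, F.a2], ?_, by rw [← F.hs]; exact ((Commute.inv_right F.tx).mul_right F.ta).mul_right F.tx, ?_,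
    by rw [← F.hs]; exact ((Commute.inv_left h5).mul_left h1).mul_left h5⟩
  · calc _ = F.a * F.x⁻¹ * F.a * F.x * (F.a * F.x⁻¹ * F.a) * F.x := by rw [← F.hs]; group
      _ = _ := by rw [h4, ← iz, ← F.x4]; group
  · have h6 : F.u * F.x⁻¹ = F.x⁻¹ * F.z * F.u := by
      rw [eq_comm, mul_assoc, inv_mul_eq_iff_eq_mul, eq_comm, ← mul_assoc, mul_inv_eq_iff_eq_mul, mul_assoc F.z, h3, h5, ← mul_assoc,
        ← mul_assoc, F.z2, one_mul]
    calc _ = F.x⁻¹ * (F.z * (F.z * F.a)) * F.x * F.u := by rw [← F.hs, ← mul_assoc F.z, F.z2, one_mul]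
      _ = F.x⁻¹ * F.z * (F.a * (F.x * F.z * F.u)) := by rw [← h1, h5]; group
      _ = _ := by rw [← h3, ← F.hs, ← mul_assoc F.u, ← mul_assoc F.u, h6, mul_assoc _ F.u, ← F.au]; group

/-- conjugate in `C(t)` -/
def Rl (t y y' : G) : Prop := ∃ g, g * t = t * g ∧ g⁻¹ * y * g = y'

theorem Rl.trans {t y y' y'' : G} (h : Rl t y y') (h' : Rl t y' y'') : Rl t y y'' := by
  obtain ⟨g, k, rfl⟩ := h
  obtain ⟨g', k', rfl⟩ := h'
  exact ⟨g * g', Commute.mul_left k k', by group⟩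

theorem Rl.c {t y y' : G} (h : Rl t y y') : IsConj y y' := h.elim fun g k => isConj_iff.2 ⟨g⁻¹, by simpa using k.2⟩

theorem Rl.ct {t y y' : G} (h : Rl t y y') : IsConj (t * y) (t * y') := h.elim fun g k => isConj_iff.2 ⟨g⁻¹, by
  rw [← k.2, ← mul_assoc, (show Commute g t from k.1).inv_left.eq]; group⟩

theorem fus (F : F2 G) : Rl F.t F.z F.a ∧ Rl F.t F.z (F.a * F.z) ∧ Rl F.t F.z F.s ∧ Rl F.t F.u (F.z * F.u) ∧ Rl F.t (F.a * F.u) F.u ∧
    Rl F.t (F.a * F.u) (F.a * F.z * F.u) ∧ Rl F.t (F.a * F.u) (F.s * F.u) ∧ IsConj F.t (F.t * F.s) := by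
  obtain ⟨h1, h2, h3, h4, h5, h6, h7, h8, h9⟩ := rel F
  have k1 : Rl F.t F.z F.a := ⟨_, F.ρt, F.ρz⟩
  have k2 := k1.trans ⟨_, F.tx.symm, F.hs⟩
  refine ⟨k1, k1.trans ⟨_, F.ρt, F.ρa⟩, k2, ⟨_, F.tx.symm, h4⟩, F.au ▸ F.fus, ⟨_, F.ρt, by
    rw [← F.ρa, mul_assoc _ F.ρ, F.ρu]; group⟩, .trans (y' := F.s * (F.z * F.u)) ⟨_, F.tx.symm, by rw [← h4, ← F.hs]; group⟩ ⟨_, F.ta.symm, ?_⟩,
    (isConj_iff.2 ⟨F.f⁻¹, by simpa using F.ft⟩).trans k2.ct⟩
  calc _ = F.a * F.s * (F.z * (F.u * F.a)) := by rw [inv_eq_of_mul_eq_one_right F.a2]; group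
    _ = F.a * F.s * F.a * (F.s * F.s) * F.z * F.u := by rw [← F.au, ← mul_assoc F.z, ← h1, h5]; group
    _ = _ := by rw [← mul_assoc _ F.s, h6, ← h9, mul_assoc F.s, F.z2, mul_one]

theorem f0 (F : F2 G) (hu : ¬ IsConj F.t F.u) : (∀ y ∈ closure {F.z, F.a} ⊔ zpowers F.u, y * y = 1 ∧ ¬ IsConj F.t y) ∧
    #|(closure {F.z, F.a} ⊔ zpowers F.u : Subgroup G)| = 8 := by
  have := Fact.mk Nat.prime_two
  obtain ⟨h1, h2, h3, -⟩ := rel F
  obtain ⟨k1, k2, -, k4, k5, k6, -⟩ := fus F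
  have c : ∀ {w : G}, w * F.z = F.z * w → w * F.a = F.a * w → w ∈ 𝐂(closure {F.z, F.a}) := fun e e' => by
    rw [centralizer_closure]; rintro _ (rfl | rfl); exacts [e.symm, e'.symm]
  have t1 : ¬ IsConj F.t 1 := fun e => F.nz (by have := F.ft; rw [isConj_one_left.1 e] at this ⊢; simp at this; rw [← this])
  have m : ∀ y ∈ closure {F.z, F.a}, y = 1 ∨ y = F.z ∨ y = F.a ∨ y = F.a * F.z := fun y hy => by
    rw [Set.insert_eq, Subgroup.closure_union, ← zpowers_eq_closure, ← zpowers_eq_closure] at hy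
    rcases two (centralizer_le_normalizer _ (centralizer_zpowers F.z ▸ mem_centralizer_singleton_iff.2 h1)) (F.a2 ▸ one_mem _) hy with
      e | ⟨w, e, rfl⟩ <;> rcases (H9.mem_zpowers_of_mul_self F.z2).1 e with rfl | rfl <;> simp [h1]
  have az : F.a * F.z * (F.a * F.z) = 1 := by rw [← pow_two, Commute.mul_pow h1, pow_two, pow_two, F.a2, F.z2, one_mul]
  have s : ∀ y ∈ closure {F.z, F.a}, y * y = 1 := fun y hy => by rcases m y hy with rfl | rfl | rfl | rfl; exacts [one_mul 1, F.z2, F.a2, az]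
  have n := c h2 F.au.symm
  have k : ∀ y ∈ closure {F.z, F.a} ⊔ zpowers F.u, y * y = 1 ∧ ¬ IsConj F.t y := fun y hy => by
    rcases two (centralizer_le_normalizer _ n) (F.u2 ▸ one_mem _) hy with e | ⟨w, e, rfl⟩
    · refine ⟨s y e, fun k => ?_⟩
      rcases m y e with rfl | rfl | rfl | rfl
      exacts [t1 k, F.nz k, F.nz (k.trans k1.c.symm), F.nz (k.trans k2.c.symm)]
    · refine ⟨by rw [← pow_two, Commute.mul_pow (n w e), pow_two, pow_two, s w e, F.u2, one_mul], fun k => hu ?_⟩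
      rcases m w e with rfl | rfl | rfl | rfl
      exacts [by simpa using k, k.trans k4.c.symm, k.trans k5.c, (k.trans k6.c.symm).trans k5.c]
  refine ⟨k, ?_⟩
  have := H5.card_sup_zpowers (p := 2) (normalizer_inf_normalizer_le_normalizer_sup _ _ ⟨centralizer_le_normalizer _ (c h3 F.ta),
    centralizer_le_normalizer _ (centralizer_zpowers F.u ▸ mem_centralizer_singleton_iff.2 F.tu)⟩) (fun e => (k _ e).2 (IsConj.refl _)) (by rw [pow_two, F.t2]; exact one_mem _)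
  rw [show closure {F.z, F.a} ⊔ zpowers F.u ⊔ zpowers F.t = closure {F.t, F.u, F.a, F.z} by
    rw [zpowers_eq_closure, zpowers_eq_closure, ← Subgroup.closure_union, ← Subgroup.closure_union]; congr 1; ext; simp; tauto, F.c0.2.2.1] at this
  omega

theorem key (F : F2 G) {D R : Subgroup G} {c : G} (hD : ∀ y ∈ D, y * y = 1 ∧ ¬ IsConj F.t y) (h8 : #|D| = 8) (hc : IsConj F.t c)
    (hR : IsPGroup 2 R) (hRc : R ≤ 𝐂[c]) (h64 : #|R| = 64) (le : D ≤ R) (hn : R ≤ 𝐍(D)) : False := by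
  have := Fact.mk Nat.prime_two
  obtain ⟨g, rfl⟩ := isConj_iff.1 hc
  obtain ⟨k, -, e⟩ := ((F.syl.cj g).of_card_ge hR (by rwa [cj_centralizer_singleton]) (by rw [card_cj, F.card0, h64])).exists_cj_eq (F.syl.cj g)
  replace e := congrArg (cj g⁻¹) e
  rw [cj_inv_cj, ← cj_mul] at e
  generalize g⁻¹ * k = m at e
  have := eq_of_le_of_card_ge (F.nea (D := cj m D) (e ▸ cj_mono m le) (fun y hy => by
    simpa [mul_assoc, ← mul_assoc m, inv_mul_eq_iff_eq_mul, ← eq_mul_inv_iff_mul_eq, eq_comm] using (hD _ (mem_cj.1 hy)).1)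
    (e ▸ (cj_mono m hn).trans (cj_normalizer m D).le)) (by rw [card_cj, h8, F.c0.2.2.2.1])
  exact (hD _ (mem_cj.1 (this.ge (subset_closure (Or.inl rfl))))).2 (isConj_iff.2 ⟨m⁻¹, by simp⟩)

end TA

open TA

/-- module H3A -/
theorem F3.typeA {G : Type w} [Group G] [Finite G] (F : F3 G) (hb : F.Hb) (hn : ¬ IsConj F.t (F.t * F.u))
    (hCL : ∀ (Y : Type w) [Group Y] [Finite Y] (C : CF Y), Bd (centralizer ({C.t} : Set Y)) 16 → Bd (⊤ : Subgroup Y) 256) :
    Bd (centralizer ({F.u, F.z} : Set G)) 512 := by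
  obtain ⟨b, bz, ba, bu, bt⟩ := hb
  obtain ⟨h1, h2, h3, h4, h5, h6, h7, h8, h9⟩ := rel F.toF2
  obtain ⟨k1, k2, k3, k4, k5, k6, k7, k8⟩ := fus F.toF2
  obtain ⟨f1, f2⟩ := f0 F.toF2 F.nu
  have m : ∀ {g}, g * F.u = F.u * g → g ∈ 𝐂[F.u] := mem_centralizer_singleton_iff.2
  have cu : ∀ g : 𝐂[F.u], g * F.u = F.u * g := fun g => mem_centralizer_singleton_iff.1 g.2
  have u2 : (⟨F.u, m rfl⟩ : 𝐂[F.u]) * ⟨F.u, m rfl⟩ = 1 := Subtype.ext F.u2
  have u1 : F.u ≠ 1 := fun e => hn (by rw [e, mul_one])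
  have : (zpowers (⟨F.u, m rfl⟩ : 𝐂[F.u])).Normal := ⟨fun y hy g => by
    rcases (H9.mem_zpowers_of_mul_self u2).1 hy with rfl | rfl
    · simp
    · rw [show g * _ * g⁻¹ = ⟨F.u, m rfl⟩ from Subtype.ext (mul_inv_eq_iff_eq_mul.2 (cu g))]; exact hy⟩
  obtain ⟨Y, _, _, π, hs, hk⟩ : ∃ (Y : Type w) (_ : Group Y) (_ : Finite Y) (π : 𝐂[F.u] →* Y), Function.Surjective π ∧
    π.ker = zpowers ⟨F.u, m rfl⟩ := ⟨_, _, inferInstance, _, QuotientGroup.mk'_surjective _, QuotientGroup.ker_mk' _⟩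
  have ck : #|π.ker| = 2 := by rw [hk, Nat.card_zpowers, orderOf_eq_prime ((pow_two _).trans u2) fun e => u1 (congrArg Subtype.val e)]
  have eq : ∀ {y w}, π y = π w → y.1 = w ∨ y.1 = w * F.u := fun {y w} e => by
    have := (H9.mem_zpowers_of_mul_self u2).1 (hk.le (show w⁻¹ * y ∈ π.ker by simp [e]))
    rw [inv_mul_eq_iff_eq_mul, inv_mul_eq_iff_eq_mul, mul_one] at this
    exact this.imp (congrArg _) (congrArg Subtype.val)
  have cp : ∀ K : Subgroup Y, #|(comap π K).map (𝐂[F.u]).subtype| = 2 * #|K| := fun K => by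
    rw [card_map_of_injective (subtype_injective _), card_comap_of_surjective π hs, ck]
  have pp : ∀ {K : Subgroup Y}, IsPGroup 2 K → IsPGroup 2 ((comap π K).map (𝐂[F.u]).subtype) := fun h =>
    (h.comap_of_ker_isPGroup π (IsPGroup.of_card (n := 1) ck)).map _
  have bd : ∀ {K' K n}, Bd K (2 * n) → (∀ g, π g ∈ K' → g.1 ∈ K) → Bd K' n := fun {K' K n} h k P hP le => by
    have := h _ (pp hP) (by rintro _ ⟨g, hg, rfl⟩; exact k g (le hg))
    rw [cp] at this; omega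
  have c0 : ∀ {c g}, π c * π g = π g * π c → g.1⁻¹ * c * g = c ∨ g.1⁻¹ * c * g = c * F.u := fun {c g} e =>
    eq (y := g⁻¹ * c * g) (by rw [map_mul, map_mul, mul_assoc, e]; simp)
  have c1 : ∀ {c g : 𝐂[F.u]}, ¬ IsConj c.1 (c * F.u) → π c * π g = π g * π c → c.1 * g = g * c := fun {c g} n e => by
    rw [← inv_mul_eq_iff_eq_mul, ← mul_assoc]
    exact (c0 e).resolve_right fun e => n (isConj_iff.2 ⟨g.1⁻¹, by simpa using e⟩)
  have nc : ∀ {y w : 𝐂[F.u]}, ¬ IsConj y.1 w.1 → ¬ IsConj y.1 (w * F.u) → ¬ IsConj (π y) (π w) := fun {y w} n n' e => by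
    obtain ⟨g, e⟩ := isConj_iff.1 e
    obtain ⟨g, rfl⟩ := hs g
    exact (eq (y := g * y * g⁻¹) (by simpa using e)).elim (fun e => n (isConj_iff.2 ⟨g, e⟩)) fun e => n' (isConj_iff.2 ⟨g, e⟩)
  have pc : ∀ S, (comap π (closure (π '' S))).map (𝐂[F.u]).subtype = closure (Subtype.val '' S) ⊔ zpowers F.u := fun S => by
    rw [← MonoidHom.map_closure, comap_map_eq, Subgroup.map_sup, MonoidHom.map_closure, hk, MonoidHom.map_zpowers]; rfl
  have ns : ¬ IsConj F.t F.s := fun e => F.nz (e.trans k3.c.symm)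
  have nsu : ¬ IsConj F.t (F.s * F.u) := fun e => F.nu ((e.trans k7.c.symm).trans k5.c)
  have nzu : ¬ IsConj F.t (F.z * F.u) := fun e => F.nu (e.trans k4.c.symm)
  have nts : ¬ IsConj (F.t * F.s) (F.t * F.s * F.u) := fun e => hn (((k8.trans (mul_assoc F.t _ _ ▸ e)).trans k7.ct.symm).trans k5.ct)
  let t : 𝐂[F.u] := ⟨F.t, m F.tu⟩
  let a : 𝐂[F.u] := ⟨F.a, m F.au⟩
  let s : 𝐂[F.u] := ⟨F.s, m h8⟩
  let z : 𝐂[F.u] := ⟨F.z, m h2.symm⟩
  let ρ : 𝐂[F.u] := ⟨F.ρ, m F.ρu⟩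
  let β : 𝐂[F.u] := ⟨b, m bu⟩
  have b16 : Bd 𝐂[π t] 16 := bd F.bU fun g hg => by
    rintro _ (rfl | rfl)
    exacts [c1 (c := t) hn (mem_centralizer_singleton_iff.1 hg).symm, (cu g).symm]
  have cts : ∀ {K}, K ≤ 𝐂[π t * π s] → (comap π K).map (𝐂[F.u]).subtype ≤ 𝐂[F.t * F.s] := fun le => by
    rintro _ ⟨g, hg, rfl⟩
    exact mem_centralizer_singleton_iff.2 (c1 (c := t * s) nts (by rw [map_mul]; exact (mem_centralizer_singleton_iff.1 (le hg)).symm)).symm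
  have uD : F.u ∉ closure {F.t, F.a, F.s} := fun e => by
    have := card_le_of_le ((closure_le _).2 (show {F.t, F.u, F.a, F.s} ⊆ (closure {F.t, F.a, F.s} : Set G) by
      rintro _ (rfl | rfl | rfl | rfl); exacts [subset_closure (by simp), e, subset_closure (by simp), subset_closure (by simp)]))
    rw [F.c0.2.1, F.c0.2.2.2.2] at this; omega
  have e1 : ∀ {x y : 𝐂[F.u]}, x.1 * y = 1 → π x * π y = 1 := fun {x y} e => by rw [← map_mul, show x * y = 1 from Subtype.ext e, map_one]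
  have e2 : ∀ {x y : 𝐂[F.u]}, x.1 * y = y * x → π x * π y = π y * π x := fun e => by
    rw [← map_mul, ← map_mul]; exact congrArg π (Subtype.ext e)
  have e3 : ∀ {x y w : 𝐂[F.u]}, x.1⁻¹ * y * x = w → (π x)⁻¹ * π y * π x = π w := fun e => by
    rw [← map_inv, ← map_mul, ← map_mul]; exact congrArg π (Subtype.ext e)
  have B := hCL _ ⟨π t, π a, π s, π z, π ρ, π β, e1 F.t2, e1 F.a2, e1 h5, e1 F.z2, by
      rw [← map_mul, ← map_mul, ← map_mul]; exact congrArg π (Subtype.ext h6), e2 F.ta, e2 h7, ?_, e2 F.ρt, e3 F.ρz,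
    (e3 (w := a * z) F.ρa).trans (map_mul _ _ _), e2 bz, e2 ba, (e3 (w := t * z) bt).trans (map_mul _ _ _), nc F.nz nzu, nc ns nsu,
    map_mul π t s ▸ nc (fun e => ns (k8.trans e)) fun e => nsu (k8.trans e), map_mul π t s ▸ nc (fun e => F.nz (k8.trans e)) fun e => nzu (k8.trans e),
    bd F.bA fun g hg => ?_, fun P hP le => (b16 P hP le).trans (by norm_num), fun R hR le c => absurd (b16 R hR le) (by omega),
    fun P hP le => ?_, fun R hR le c y l n => ?_⟩ b16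
  · intro P hP le
    have l : P ≤ 𝐂[F.u] := le.trans (centralizer_le (by simp))
    have := B _ ((pgroup_subgroupOf hP _).map π) le_top
    have k := card_le_of_le ((map_subgroupOf_eq_of_le l).ge.trans (map_mono (le_comap_map π _)))
    rw [cp] at k; omega
  · have := cp (closure (π '' {t, a, s}))
    rw [pc, Set.image_insert_eq, Set.image_pair, Set.image_insert_eq, Set.image_pair, zpowers_eq_closure, ← Subgroup.closure_union,
      show _ ∪ _ = {F.t, F.u, F.a, F.s} by ext; simp [t, a, s]; tauto, F.c0.2.1] at this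
    omega
  · have g1 : F.t * g = g * F.t := c1 (c := t) hn (hg _ (by simp))
    have g2 : g.1⁻¹ * F.a * g = F.a ∨ g.1⁻¹ * F.a * g = F.a * F.u := c0 (c := a) (hg _ (by simp))
    have g3 : g.1⁻¹ * F.z * g = F.z ∨ g.1⁻¹ * F.z * g = F.z * F.u := c0 (c := z) (hg _ (by simp))
    have mE : ∀ {y}, y ∈ ({F.t, F.u, F.a, F.z} : Set G) → y ∈ closure {F.t, F.u, F.a, F.z} := fun h => subset_closure h
    have nA := (F.act g g1.symm (mem_normalizer_closure (by
      rintro _ (rfl | rfl | rfl | rfl)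
      · rw [conj_eq_iff_comm.2 g1.symm]; exact mE (by simp)
      · rw [conj_eq_iff_comm.2 (cu g)]; exact mE (by simp)
      · rcases g2 with e | e <;> rw [e]; exacts [mE (by simp), mul_mem (mE (by simp)) (mE (by simp))]
      · rcases g3 with e | e <;> rw [e]; exacts [mE (by simp), mul_mem (mE (by simp)) (mE (by simp))]))).2
    have AD : closure {F.a, F.z} ≤ closure {F.t, F.a, F.s} := (closure_le _).2 (by
      rintro _ (rfl | rfl)
      exacts [subset_closure (by simp), h6 ▸ mul_mem (mul_mem (mul_mem (subset_closure (by simp)) (subset_closure (by simp)))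
        (subset_closure (by simp))) (subset_closure (by simp))])
    have k : ∀ y ∈ closure {F.a, F.z}, g.1⁻¹ * y * g ≠ y * F.u := fun y hy e => uD (AD ((mul_mem_cancel_left hy).1 (e ▸ conj_mem_of_norm nA hy)))
    rintro _ (rfl | rfl | rfl)
    exacts [g1, (conj_eq_iff_comm.1 (g2.resolve_right (k _ (subset_closure (by simp))))).symm,
      (conj_eq_iff_comm.1 (g3.resolve_right (k _ (subset_closure (by simp))))).symm]
  · obtain ⟨g, e⟩ := isConj_iff.1 k8
    have := (F.bT.cj g) _ (pp hP) (by rw [cj_centralizer_singleton, e]; exact cts le)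
    rw [cp] at this; omega
  · obtain ⟨y, rfl⟩ := hs y
    have e := pc {y⁻¹ * z * y, y⁻¹ * a * y}
    simp only [Set.image_pair, map_mul, map_inv] at e
    have e' : cj y.1⁻¹ (closure {F.z, F.a} ⊔ zpowers F.u) = (comap π (closure {(π y)⁻¹ * π z * π y, (π y)⁻¹ * π a * π y})).map (𝐂[F.u]).subtype := by
      rw [e, cj_sup, cj, cj, MonoidHom.map_closure, Set.image_pair, MonoidHom.map_zpowers]
      simp [z, a, conj_eq_iff_comm.2 (cu y)]
    refine key F.toF2 (fun w hw => ?_) ((card_cj y.1⁻¹ _).trans f2) k8 (pp hR) (cts le) (by rw [cp, c]) (e' ▸ map_mono (comap_mono l))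
      (e' ▸ (map_mono ((comap_mono n).trans (le_normalizer_comap π))).trans (le_normalizer_map _))
    have := f1 _ (mem_cj.1 hw)
    exact ⟨by rw [← conj_eq_one_iff (a := y.1), ← conj_mul]; simpa using this.1, fun k => this.2 (k.trans (isConj_of_eq rfl))⟩

end Cfsg.Agent.WA.H3
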