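import Cfsg.Agent.WA.H3Al0

/-! Type alpha for S3139 (module H3Al). -/

set_option autoImplicit false

namespace Cfsg.Agent.WA.H3

open Subgroup

theorem card_le_two_mul_of_mul_mem {G : Type*} [Group G] [Finite G] {W X : Subgroup G} (hle : W ≤ X)
    (h : ∀ g ∈ X, ∀ k ∈ X, g ∉ W → k ∉ W → g * k ∈ W) : Nat.card X ≤ 2 * Nat.card W := by
  by_cases hX : X ≤ W
  · have := card_le_of_le hX
    omega
  · obtain ⟨g, hg, hgW⟩ := SetLike.not_le_iff_exists.1 hX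
    have hi : (W.subgroupOf X).index = 2 := by
      rw [index_eq_two_iff]
      refine ⟨⟨g, hg⟩, fun b => ?_⟩
      simp only [mem_subgroupOf, coe_mul]
      by_cases hb : (b : G) ∈ W
      · exact Or.inr ⟨hb, fun hbg => hgW ((W.mul_mem_cancel_left hb).1 hbg)⟩
      · exact Or.inl ⟨h _ b.2 _ hg hb hgW, hb⟩
    have := U.card_rel hle
    rw [relIndex, hi] at this
    omega

namespace WM

theorem inv_cases : ∀ m : WM, m * m = 1 → (m.s = false ∧ m.t = false) ∨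
    (m.t = false ∧ m.s = true ∧ ∀ b : WM, (b.s = false ∧ b.t = false ∧ b.a = false ∧ b.p = false) → b * m = m * b) ∨
    (∃ y : WM, (y.s = false ∧ y.t = false) ∧ (m = y⁻¹ * T * y ∨ m = y⁻¹ * (S * T) * y)) := by
  decide +kernel

theorem P_sq : ∀ m : WM, (m.s = false ∧ m.t = false) → m * m = 1 := by decide +kernel

theorem P_comm (m n : WM) (hm : m ∈ P) (hn : n ∈ P) : m * n = n * m :=
  comm_of_sq (fun y hy => P_sq y hy) hm hn

theorem cen_UZ : ∀ m : WM, m * U = U * m ∧ m * Z = Z * m := by decide +kernel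

end WM

/-- the setting inside a Sylow subgroup `S` of `C(u, z)`. -/
structure AlS {G : Type*} [Group G] (F : F3 G) (ψ : WM →* G) (S : Subgroup G) : Prop where
  inj : Function.Injective ψ
  pU : ψ WM.U = F.u
  pZ : ψ WM.Z = F.z
  pA : ψ WM.A = F.a
  pS : ψ WM.S = F.s
  pT : ψ WM.T = F.t
  pg : IsPGroup 2 S
  le : ψ.range ≤ S
  cen : S ≤ centralizer ({F.u, F.z} : Set G)

namespace AlS

variable {G : Type*} [Group G] [Finite G] {F : F3 G} {ψ : WM →* G} {S : Subgroup G} (H : AlS F ψ S)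
include H

theorem C0_le : closure ({F.t, F.u, F.a, F.s} : Set G) ≤ ψ.range := by
  rw [closure_le]
  rintro _ (rfl | rfl | rfl | rfl)
  · exact ⟨_, H.pT⟩
  · exact ⟨_, H.pU⟩
  · exact ⟨_, H.pA⟩
  · exact ⟨_, H.pS⟩

theorem cenT {y : G} (hy : y ∈ S) (h : y * F.t = F.t * y) : y ∈ closure ({F.t, F.u, F.a, F.s} : Set G) := by
  refine U.mem_of_Bd F.bU H.pg (H.C0_le.trans H.le) ?_ F.toF2.c0.2.1.ge hy
    (U.mem_cen2.2 ⟨h, (U.mem_cen2.1 (H.cen hy)).1⟩)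
  rw [closure_le]
  rintro _ (rfl | rfl | rfl | rfl) <;> refine U.mem_cen2.2 ⟨?_, ?_⟩
  · rfl
  · exact F.tu
  · exact F.tu.symm
  · rfl
  · exact F.ta.symm
  · exact F.au
  · exact F.toF2.ts.symm
  · exact F.toF2.us.symm

theorem cenT' {h y : G} (hh : h ∈ S) (hy : y ∈ S) (hc : y * (h⁻¹ * F.t * h) = (h⁻¹ * F.t * h) * y) :
    h * y * h⁻¹ ∈ closure ({F.t, F.u, F.a, F.s} : Set G) := by
  refine H.cenT (mul_mem (mul_mem hh hy) (inv_mem hh)) ?_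
  calc h * y * h⁻¹ * F.t = h * (y * (h⁻¹ * F.t * h)) * h⁻¹ := by group
    _ = _ := by rw [hc]; group

theorem elem {h : G} (hh : h ∈ S) {D : Subgroup G} (hD : D ≤ S) (h2 : ∀ y ∈ D, y * y = 1)
    (hc : ∀ y ∈ D, y * (h⁻¹ * F.t * h) = (h⁻¹ * F.t * h) * y) (hn : 16 ≤ Nat.card D) :
    Nat.card D = 16 ∧ h⁻¹ * F.t * h ∈ D := by
  have h1 : H8.cj h D ≤ closure ({F.t, F.x, F.a, F.u} : Set G) := by
    rintro _ ⟨y, hy, rfl⟩
    exact F.toF2.C0_le (H.cenT' hh (hD hy) (hc y hy))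
  have h3 : ∀ y ∈ H8.cj h D, y * y = 1 := by
    rintro _ ⟨y, hy, rfl⟩
    rw [← map_mul, h2 y hy, map_one]
  have hE' : Nat.card (closure ({F.t, F.u, F.s, F.z} : Set G)) = 16 := by
    rw [← F.toF2.map_E', card_map_of_injective F.toF2.phi_inj, HM.card_of_mem _ _ HM.mem_E']; decide +kernel
  rw [← H8.mem_cj, ← H8.card_cj h D]
  rcases F.toF2.e16 h1 h3 (by rw [H8.card_cj]; exact hn) with e | e <;> rw [e]
  · exact ⟨F.toF2.c0.2.2.1, subset_closure (by simp)⟩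
  · exact ⟨hE', subset_closure (by simp)⟩

theorem mem_of_conj {X : Subgroup G} (hW : ψ.range ≤ X) (hX : X ≤ S) {g w : G} (hg : g ∈ S) (hw : w ∈ X)
    (h : g⁻¹ * F.t * g = w⁻¹ * F.t * w) : g ∈ X := by
  have h1 : g * w⁻¹ ∈ X := by
    refine hW (H.C0_le (H.cenT (mul_mem hg (inv_mem (hX hw))) ?_))
    calc g * w⁻¹ * F.t = g * (w⁻¹ * F.t * w) * w⁻¹ := by group
      _ = _ := by rw [← h]; group
  simpa using mul_mem h1 hw

theorem L1 {h : G} (hh : h ∈ S) (ht : h⁻¹ * F.t * h ∈ ψ.range) :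
    ∃ y ∈ WM.P, h⁻¹ * F.t * h = ψ (y⁻¹ * WM.T * y) ∨ h⁻¹ * F.t * h = ψ (y⁻¹ * (WM.S * WM.T) * y) := by
  obtain ⟨m, hm⟩ := ht
  have m2 : m * m = 1 := by
    apply H.inj
    rw [map_mul, hm, map_one]
    calc _ = h⁻¹ * (F.t * F.t) * h := by group
      _ = 1 := by rw [F.t2]; simp
  rcases WM.inv_cases m m2 with h1 | ⟨h1, h2, h3⟩ | ⟨y, hy, h1⟩
  · exfalso
    have hc : Nat.card (WM.P.map ψ) = 64 := by rw [card_map_of_injective H.inj, WM.card_P]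
    have := (H.elem hh (D := WM.P.map ψ) ((map_le_range _ _).trans H.le) ?_ ?_ (by omega)).1
    · omega
    · rintro _ ⟨y, hy, rfl⟩
      rw [← map_mul, WM.P_sq y hy, map_one]
    · rintro _ ⟨y, hy, rfl⟩
      rw [← hm, ← map_mul, ← map_mul, WM.P_comm y m hy h1]
  · exfalso
    have hc : Nat.card (WM.B.map ψ) = 16 := by rw [card_map_of_injective H.inj, WM.card_B]
    have := (H.elem hh (D := WM.B.map ψ) ((map_le_range _ _).trans H.le) ?_ ?_ (by omega)).2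
    · rw [← hm, mem_map_iff_mem H.inj] at this
      rw [this.1] at h2
      exact absurd h2 (by decide)
    · rintro _ ⟨y, hy, rfl⟩
      rw [← map_mul, WM.P_sq y ⟨hy.1, hy.2.1⟩, map_one]
    · rintro _ ⟨y, hy, rfl⟩
      rw [← hm, ← map_mul, ← map_mul, h3 y hy]
  · refine ⟨y, hy, ?_⟩
    rcases h1 with h1 | h1
    · left; rw [← h1, hm]
    · right; rw [← h1, hm]

theorem swap {g : G} (hg : g ∈ S) (hn : g ∈ normalizer (ψ.range : Set G)) (hW : g ∉ ψ.range) :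
    ∃ y ∈ WM.P, g⁻¹ * F.t * g = ψ (y⁻¹ * (WM.S * WM.T) * y) := by
  obtain ⟨y, hy, h | h⟩ := H.L1 hg (U.conj_mem hn ⟨_, H.pT⟩)
  · exfalso
    refine hW (H.mem_of_conj le_rfl H.le hg (w := ψ y) ⟨y, rfl⟩ ?_)
    rw [h, map_mul, map_mul, map_inv, H.pT]
  · exact ⟨y, hy, h⟩

theorem idx {g k : G} (hg : g ∈ S ⊓ normalizer (ψ.range : Set G)) (hk : k ∈ S ⊓ normalizer (ψ.range : Set G))
    (hg' : g ∉ ψ.range) (hk' : k ∉ ψ.range) : g * k ∈ ψ.range := by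
  obtain ⟨y1, -, h1⟩ := H.swap hg.1 hg.2 hg'
  obtain ⟨y2, -, h2⟩ := H.swap (inv_mem hk.1) (inv_mem hk.2) (fun h => hk' (inv_mem_iff.1 h))
  simp only [map_mul, map_inv, inv_inv] at h1 h2
  have h3 : g * ((ψ y1)⁻¹ * ψ y2) * k ∈ ψ.range := by
    refine H.mem_of_conj le_rfl H.le (mul_mem (mul_mem hg.1 (H.le (mul_mem (inv_mem ⟨_, rfl⟩) ⟨_, rfl⟩))) hk.1)
      (one_mem _) ?_
    calc _ = k⁻¹ * ((ψ y2)⁻¹ * (ψ y1 * (g⁻¹ * F.t * g) * (ψ y1)⁻¹) * ψ y2) * k := by group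
      _ = k⁻¹ * ((ψ y2)⁻¹ * (ψ WM.S * ψ WM.T) * ψ y2) * k := by rw [h1]; group
      _ = _ := by rw [← h2]; group
  have h4 : k⁻¹ * ((ψ y1)⁻¹ * ψ y2) * k ∈ ψ.range := U.conj_mem hk.2 (mul_mem (inv_mem ⟨_, rfl⟩) ⟨_, rfl⟩)
  have := mul_mem h3 (inv_mem h4)
  simpa [mul_assoc] using this

theorem normP {g : G} (hn : g ∈ normalizer (ψ.range : Set G)) {y : WM} (hy : y ∈ WM.P) :
    ∃ y' ∈ WM.P, g⁻¹ * ψ y * g = ψ y' := by
  have h1 : H8.cj g⁻¹ (WM.P.map ψ) ≤ ψ.range := H8.cj_le_of_mem_normalizer (inv_mem hn) (map_le_range _ _)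
  have hmap : ((H8.cj g⁻¹ (WM.P.map ψ)).comap ψ).map ψ = H8.cj g⁻¹ (WM.P.map ψ) := map_comap_eq_self h1
  have hcard : Nat.card ((H8.cj g⁻¹ (WM.P.map ψ)).comap ψ) = 64 := by
    rw [← card_map_of_injective H.inj, hmap, H8.card_cj, card_map_of_injective H.inj, WM.card_P]
  have h2 := WM.e64 _ (fun w hw => ?_) hcard.ge
  · have h3 : g⁻¹ * ψ y * g ∈ H8.cj g⁻¹ (WM.P.map ψ) := by
      rw [H8.mem_cj]; simpa [mul_assoc] using mem_map_of_mem ψ hy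
    obtain ⟨y', hy'⟩ := h1 h3
    exact ⟨y', h2 (by rw [mem_comap, hy']; exact h3), hy'.symm⟩
  · apply H.inj
    obtain ⟨_, ⟨w', hw', rfl⟩, e⟩ := mem_comap.1 hw
    rw [map_mul, ← e, ← map_mul, ← map_mul, WM.P_sq w' hw', map_one, map_one]

theorem fixUZ {h : G} (hh : h ∈ S) : h⁻¹ * F.u * h = F.u ∧ h⁻¹ * F.z * h = F.z :=
  ⟨U.conj_eq_iff.2 (U.mem_cen2.1 (H.cen hh)).1, U.conj_eq_iff.2 (U.mem_cen2.1 (H.cen hh)).2⟩

theorem e8b {h : G} (hh : h ∈ S) (ht : h⁻¹ * F.t * h ∉ ψ.range) {m : WM}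
    (hm : h * ψ m * h⁻¹ ∈ closure ({F.t, F.u, F.z} : Set G)) :
    m.a = false ∧ m.τ = false ∧ m.c = false ∧ m.p = false ∧ m.s = false ∧ m.t = false := by
  obtain ⟨hu, hz⟩ := H.fixUZ hh
  have e : ∀ y : G, h * ψ m * h⁻¹ = y → ψ m = h⁻¹ * y * h := by
    intro y hy; rw [← hy]; group
  have k1 : ∀ v : WM, h⁻¹ * ψ v * h = ψ v → h * ψ m * h⁻¹ = ψ v → m = v := by
    intro v hv hy
    exact H.inj ((e _ hy).trans hv)
  have k2 : ∀ v : WM, h⁻¹ * ψ v * h = ψ v → h * ψ m * h⁻¹ = F.t * ψ v → False := by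
    intro v hv hy
    refine ht ⟨m * v⁻¹, ?_⟩
    rw [map_mul, map_inv, e _ hy]
    calc _ = (h⁻¹ * F.t * h) * (h⁻¹ * ψ v * h) * (ψ v)⁻¹ := by group
      _ = _ := by rw [hv]; group
  have v1 : h⁻¹ * ψ 1 * h = ψ 1 := by simp
  have vU : h⁻¹ * ψ WM.U * h = ψ WM.U := by rw [H.pU, hu]
  have vZ : h⁻¹ * ψ WM.Z * h = ψ WM.Z := by rw [H.pZ, hz]
  have vUZ : h⁻¹ * ψ (WM.U * WM.Z) * h = ψ (WM.U * WM.Z) := by
    rw [map_mul]
    calc _ = (h⁻¹ * ψ WM.U * h) * (h⁻¹ * ψ WM.Z * h) := by group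
      _ = _ := by rw [vU, vZ]
  rcases U.mem_cl3 F.t2 F.u2 F.z2 F.tu F.toF2.tz F.toF2.uz hm with q | q | q | q | q | q | q | q
  · rw [k1 1 v1 (by rw [q, map_one])]; decide
  · rw [k1 _ vZ (by rw [q, H.pZ])]; decide
  · rw [k1 _ vU (by rw [q, H.pU])]; decide
  · rw [k1 _ vUZ (by rw [q, map_mul, H.pU, H.pZ])]; decide
  · exact (k2 1 v1 (by rw [q, map_one, mul_one])).elim
  · exact (k2 _ vZ (by rw [q, H.pZ])).elim
  · exact (k2 _ vU (by rw [q, H.pU])).elim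
  · exact (k2 _ vUZ (by rw [q, map_mul, H.pU, H.pZ, mul_assoc])).elim

theorem exists_r {h : G} (hh : h ∈ S)
    (hn : h ∈ normalizer ((S ⊓ normalizer (ψ.range : Set G) : Subgroup G) : Set G))
    (ht : h⁻¹ * F.t * h ∉ ψ.range) :
    ∃ r : WM, r ∉ WM.P ∧ ψ r * (h⁻¹ * F.t * h) = (h⁻¹ * F.t * h) * ψ r := by
  have hW1 : ψ.range ≤ S ⊓ normalizer (ψ.range : Set G) := le_inf H.le le_normalizer
  have ht1 : h⁻¹ * F.t * h ∈ S ⊓ normalizer (ψ.range : Set G) := U.conj_mem hn (hW1 ⟨_, H.pT⟩)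
  have key : ∀ c ∈ ψ.range, ∃ r : WM, ψ r = h⁻¹ * c * h ∨ ψ r = h⁻¹ * (c * F.t) * h := by
    intro c hc
    by_cases h1 : h⁻¹ * c * h ∈ ψ.range
    · obtain ⟨r, hr⟩ := h1
      exact ⟨r, Or.inl hr⟩
    · obtain ⟨r, hr⟩ := H.idx (U.conj_mem hn (hW1 hc)) ht1 h1 ht
      exact ⟨r, Or.inr (by rw [hr]; group)⟩
  have cm : ∀ (r : WM) (c : G), c * F.t = F.t * c → ψ r = h⁻¹ * c * h →
      ψ r * (h⁻¹ * F.t * h) = (h⁻¹ * F.t * h) * ψ r := by
    intro r c hc hr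
    rw [hr]
    calc _ = h⁻¹ * (c * F.t) * h := by group
      _ = _ := by rw [hc]; group
  have cm' : ∀ (r : WM) (c : G), c * F.t = F.t * c → (ψ r = h⁻¹ * c * h ∨ ψ r = h⁻¹ * (c * F.t) * h) →
      ψ r * (h⁻¹ * F.t * h) = (h⁻¹ * F.t * h) * ψ r := by
    rintro r c hc (hr | hr)
    · exact cm r c hc hr
    · exact cm r _ (by rw [hc, mul_assoc, hc]) hr
  obtain ⟨ra, hra⟩ := key _ ⟨_, H.pA⟩
  obtain ⟨rs, hrs⟩ := key _ ⟨_, H.pS⟩
  by_cases pa : ra ∈ WM.P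
  swap
  · exact ⟨ra, pa, cm' ra _ F.ta.symm hra⟩
  by_cases ps : rs ∈ WM.P
  swap
  · exact ⟨rs, ps, cm' rs _ F.toF2.ts.symm hrs⟩
  exfalso
  have hc := congrArg ψ (WM.P_comm ra rs pa ps)
  rw [map_mul, map_mul] at hc
  have k : ∀ c d : WM, ψ ra = h⁻¹ * ψ c * h → ψ rs = h⁻¹ * ψ d * h → c * d = d * c := by
    intro c d h1 h2
    apply H.inj
    rw [h1, h2] at hc
    rw [map_mul, map_mul]
    calc _ = h * ((h⁻¹ * ψ c * h) * (h⁻¹ * ψ d * h)) * h⁻¹ := by group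
      _ = _ := by rw [hc]; group
  rw [← H.pA, ← H.pT, ← map_mul] at hra
  rw [← H.pS, ← H.pT, ← map_mul] at hrs
  rcases hra with h1 | h1 <;> rcases hrs with h2 | h2 <;> exact absurd (k _ _ h1 h2) (by decide)

theorem final {h : G} (hh : h ∈ S)
    (hn : h ∈ normalizer ((S ⊓ normalizer (ψ.range : Set G) : Subgroup G) : Set G))
    (ht : h⁻¹ * F.t * h ∉ ψ.range) : False := by
  have hW1 : ψ.range ≤ S ⊓ normalizer (ψ.range : Set G) := le_inf H.le le_normalizer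
  have ht1 : h⁻¹ * F.t * h ∈ S ⊓ normalizer (ψ.range : Set G) := U.conj_mem hn (hW1 ⟨_, H.pT⟩)
  obtain ⟨r, hrP, hr⟩ := H.exists_r hh hn ht
  have K0 : ∀ b ∈ WM.P, ψ b * (h⁻¹ * F.t * h) = (h⁻¹ * F.t * h) * ψ b → r.s = true →
      (b.a = false ∧ b.τ = false ∧ b.c = false ∧ b.p = false) ∨ r⁻¹ * b * r = b * WM.Z := by
    intro b hb hc hs
    have h1 := H.cenT' hh (H.le ⟨b, rfl⟩) hc
    have h2 := H.cenT' hh (H.le ⟨r, rfl⟩) hr
    obtain ⟨n1, e1⟩ := F.toF2.mem_S0.1 (F.toF2.C0_le h1)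
    obtain ⟨n2, e2⟩ := F.toF2.mem_S0.1 (F.toF2.C0_le h2)
    rw [← e1, F.toF2.phi_mem_C0] at h1
    rw [← e2, F.toF2.phi_mem_C0] at h2
    have h3 : n1 * n1 = 1 := by
      rw [← F.toF2.phi_eq, map_mul, e1, map_one]
      calc _ = h * ψ (b * b) * h⁻¹ := by rw [map_mul]; group
        _ = 1 := by rw [WM.P_sq b hb, map_one]; simp
    have key : ∀ n1 n2 : HM, n1.i.val % 2 = 0 → n2.i.val % 2 = 0 → n1 * n1 = 1 →
        (n1.i.val % 4 = 0 ∧ n1.j = 0) ∨ (n2.i.val % 4 = 0 ∧ n2.j = 0) ∨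
        ((n1 * n2).i.val % 4 = 0 ∧ (n1 * n2).j = 0) ∨ n2⁻¹ * n1 * n2 = n1 * HM.Z := by decide +kernel
    rcases key n1 n2 h1 h2 h3 with q | q | q | q
    · rw [← F.toF2.phi_mem_E8, e1] at q
      obtain ⟨q1, q2, q3, q4, -, -⟩ := H.e8b hh ht q
      exact Or.inl ⟨q1, q2, q3, q4⟩
    · rw [← F.toF2.phi_mem_E8, e2] at q
      rw [(H.e8b hh ht q).2.2.2.2.1] at hs
      exact absurd hs (by decide)
    · rw [← F.toF2.phi_mem_E8, map_mul, e1, e2,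
        show h * ψ b * h⁻¹ * (h * ψ r * h⁻¹) = h * ψ (b * r) * h⁻¹ by rw [map_mul]; group] at q
      have := (H.e8b hh ht q).2.2.2.2.1
      rw [show (b * r).s = (b.s ^^ r.s) from rfl, hb.1, hs] at this
      exact absurd this (by decide)
    · right
      rw [← F.toF2.phi_eq, map_mul, map_mul, map_mul, map_inv, e1, e2, F.toF2.phi_Z] at q
      apply H.inj
      rw [map_mul, map_mul, map_mul, map_inv, H.pZ, ← (H.fixUZ hh).2]
      calc _ = h⁻¹ * ((h * ψ r * h⁻¹)⁻¹ * (h * ψ b * h⁻¹) * (h * ψ r * h⁻¹)) * h := by group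
        _ = _ := by rw [q]; group
  have tt : (h⁻¹ * F.t * h) * (h⁻¹ * F.t * h) = 1 := by
    calc _ = h⁻¹ * (F.t * F.t) * h := by group
      _ = 1 := by rw [F.t2]; simp
  generalize h⁻¹ * F.t * h = w at *
  have wi : w⁻¹ = w := U.inv_eq tt
  have ww : ∀ x y : G, w⁻¹ * x * w = y → w⁻¹ * y * w = x := by
    intro x y e
    rw [← e]
    calc _ = (w * w)⁻¹ * x * (w * w) := by group
      _ = x := by rw [tt]; simp
  have cw : ∀ x y x' y' : WM, w⁻¹ * ψ x * w = ψ x' → w⁻¹ * ψ y * w = ψ y' → w⁻¹ * ψ (x * y) * w = ψ (x' * y') := by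
    intro x y x' y' e1 e2
    rw [map_mul, map_mul, ← e1, ← e2]; group
  obtain ⟨y0, hy0, h0⟩ := H.swap ht1.1 ht1.2 ht
  rw [← H.pT] at h0
  have hrw : w⁻¹ * ψ r * w = ψ r := U.conj_eq_iff.2 hr.symm
  have hm2 : ∀ y : WM, (y.s = false ∧ y.t = false) →
      (y⁻¹ * (WM.S * WM.T) * y).s = true ∧ (y⁻¹ * (WM.S * WM.T) * y).t = true ∧
      ((y⁻¹ * (WM.S * WM.T) * y)⁻¹ * WM.Pp * (y⁻¹ * (WM.S * WM.T) * y)).c = true := by decide +kernel
  obtain ⟨m2s, m2t, m2c⟩ := hm2 y0 hy0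
  generalize y0⁻¹ * (WM.S * WM.T) * y0 = m2 at *
  have hrt : r.t = false := by
    by_contra h1
    rw [Bool.not_eq_false] at h1
    cases hs : r.s
    · have hy : WM.T⁻¹ * r ∈ WM.P :=
        ⟨by show (false ^^ r.s) = false; rw [hs]; rfl, by show (true ^^ r.t) = false; rw [h1]; rfl⟩
      obtain ⟨y', hy', e⟩ := H.normP ht1.2 hy
      have := cw _ _ _ _ h0 e
      rw [mul_inv_cancel_left, hrw] at this
      have := congrArg WM.s (H.inj this)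
      rw [show (m2 * y').s = (m2.s ^^ y'.s) from rfl, hs, m2s, hy'.1] at this
      exact absurd this (by decide)
    · have hy : m2⁻¹ * r ∈ WM.P :=
        ⟨by show (m2.s ^^ r.s) = false; rw [hs, m2s]; rfl, by show (m2.t ^^ r.t) = false; rw [h1, m2t]; rfl⟩
      obtain ⟨y', hy', e⟩ := H.normP ht1.2 hy
      have := cw _ _ _ _ (ww _ _ h0) e
      rw [mul_inv_cancel_left, hrw] at this
      have := congrArg WM.s (H.inj this)
      rw [show (WM.T * y').s = (false ^^ y'.s) from rfl, hs, hy'.1] at this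
      exact absurd this (by decide)
  have hrs : r.s = true := by
    by_contra h1
    rw [Bool.not_eq_true] at h1
    exact hrP ⟨h1, hrt⟩
  have k1 : ∀ r : WM, r.s = true → r.t = false → ∀ b : WM, b.s = false → b.t = false →
      (r⁻¹ * b * r = b * WM.Z → b.a = true ∧ b.p = false) ∧ (b * r = r * b → b.a = false ∧ b.p = false) ∧
      (b.a = false → b.p = false → b * r = r * b) := by decide +kernel
  have D : ∀ y ∈ WM.P, ∃ d ∈ WM.P, w⁻¹ * ψ y * w = ψ (y * d) ∧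
      ((d.a = false ∧ d.τ = false ∧ d.c = false ∧ d.p = false) ∨ (d.a = true ∧ d.p = false)) := by
    intro y hy
    obtain ⟨y', hy', e⟩ := H.normP ht1.2 hy
    refine ⟨y * y', mul_mem hy hy', by rw [← mul_assoc, WM.P_sq y hy, one_mul, e], ?_⟩
    have h1 := cw _ _ _ _ e (ww _ _ e)
    rw [WM.P_comm y' y hy' hy] at h1
    rcases K0 _ (mul_mem hy hy') (U.conj_eq_iff.1 h1).symm hrs with q | q
    · exact Or.inl q
    · exact Or.inr ((k1 r hrs hrt _ (mul_mem hy hy').1 (mul_mem hy hy').2).1 q)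
  have ma : ∀ y ∈ WM.P, ∀ d : WM, (y * d).a = (y.a ^^ d.a) ∧ (y * d).c = (y.c ^^ d.c) := by
    intro y hy d
    simp [WM.mul_def, hy.1, hy.2]
  have DB : ∀ y ∈ WM.P, y.a = false → y.p = false → ∃ d ∈ WM.P, w⁻¹ * ψ y * w = ψ (y * d) ∧
      d.a = false ∧ d.c = false := by
    intro y hy h1 h2
    obtain ⟨d, hd, e, q⟩ := D y hy
    refine ⟨d, hd, e, ?_⟩
    rcases q with q | q
    · exact ⟨q.1, q.2.2.1⟩
    · exfalso
      have c1 := (k1 r hrs hrt y hy.1 hy.2).2.2 h1 h2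
      have c2 := cw _ _ _ _ e hrw
      rw [c1, cw _ _ _ _ hrw e] at c2
      have c3 := ((k1 r hrs hrt _ (mul_mem hy hd).1 (mul_mem hy hd).2).2.1 (H.inj c2).symm).1
      rw [(ma y hy d).1, h1, q.1] at c3
      exact absurd c3 (by decide)
  have D1 : ∀ y ∈ WM.P, y.p = false → ∃ d ∈ WM.P, w⁻¹ * ψ y * w = ψ (y * d) ∧ d.c = false := by
    intro y hy h2
    cases h1 : y.a
    · obtain ⟨d, hd, e, -, q⟩ := DB y hy h1 h2
      exact ⟨d, hd, e, q⟩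
    obtain ⟨d, hd, e, q⟩ := D y hy
    refine ⟨d, hd, e, ?_⟩
    rcases q with q | q
    · exact q.2.2.1
    · exfalso
      have ea : (y * d).a = false := by rw [(ma y hy d).1, h1, q.1]; rfl
      obtain ⟨d', hd', e', q', -⟩ := DB (y * d) (mul_mem hy hd) ea
        (by show (y.p ^^ d.p) = false; rw [h2, q.2]; rfl)
      rw [ww _ _ e] at e'
      have := congrArg WM.a (H.inj e')
      rw [(ma _ (mul_mem hy hd) d').1, ea, q', h1] at this
      exact absurd this (by decide)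
  obtain ⟨d, hd, e, q⟩ := D WM.Pp ⟨rfl, rfl⟩
  have dp : d.p = false := by
    rcases q with q | q
    · exact q.2.2.2
    · exact q.2
  have k2 : ∀ d : WM, d.s = false → d.t = false → d.p = false →
      ((WM.Pp⁻¹ * (WM.T⁻¹ * (WM.Pp * d) * WM.T)).s = false ∧ (WM.Pp⁻¹ * (WM.T⁻¹ * (WM.Pp * d) * WM.T)).t = false) ∧
      (WM.Pp⁻¹ * (WM.T⁻¹ * (WM.Pp * d) * WM.T)).p = false ∧
      (WM.Pp * d * (WM.Pp⁻¹ * (WM.T⁻¹ * (WM.Pp * d) * WM.T))).c = false := by decide +kernel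
  obtain ⟨eP, ep, ec⟩ := k2 d hd.1 hd.2 dp
  obtain ⟨v, hv, ev, vc⟩ := D1 _ eP ep
  have f1 := cw _ _ _ _ e ev
  rw [mul_inv_cancel_left, ← mul_assoc (WM.Pp * d)] at f1
  have f2 : ψ (m2⁻¹ * WM.Pp * m2) = w⁻¹ * ψ (WM.T⁻¹ * (WM.Pp * d) * WM.T) * w := by
    rw [map_mul, map_mul, map_inv, ← h0, map_mul, map_mul, map_inv, ← e]
    calc _ = w⁻¹ * ((ψ WM.T)⁻¹ * (w⁻¹⁻¹ * ψ WM.Pp * w⁻¹) * ψ WM.T) * w := by group
      _ = _ := by rw [inv_inv, wi]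
  rw [f1] at f2
  have f3 := congrArg WM.c (H.inj f2)
  rw [m2c, (ma _ (mul_mem (mul_mem (show WM.Pp ∈ WM.P from ⟨rfl, rfl⟩) hd) eP) v).2, ec, vc] at f3
  exact absurd f3 (by decide)

theorem card_le : Nat.card S ≤ 512 := by
  have hW1 : ψ.range ≤ S ⊓ normalizer (ψ.range : Set G) := le_inf H.le le_normalizer
  have hW : Nat.card ψ.range = 256 := by
    rw [MonoidHom.range_eq_map, card_map_of_injective H.inj, card_top, WM.card_WM]
  have h1 := card_le_two_mul_of_mul_mem hW1 (fun g hg k hk => H.idx hg hk)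
  by_cases hS : S ≤ S ⊓ normalizer (ψ.range : Set G)
  · have := card_le_of_le hS
    omega
  exfalso
  obtain ⟨h, hh, hn, hh'⟩ := U.exists_norm H.pg inf_le_left hS
  refine H.final hh hn fun ht => hh' ?_
  obtain ⟨y, hy, e | e⟩ := H.L1 hh ht
  · refine H.mem_of_conj hW1 inf_le_left hh (w := ψ y) (hW1 ⟨y, rfl⟩) ?_
    rw [e, map_mul, map_mul, map_inv, H.pT]
  · by_cases hle : S ⊓ normalizer (ψ.range : Set G) ≤ ψ.range
    · rw [le_antisymm hle hW1] at hn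
      exact ⟨hh, hn⟩
    · obtain ⟨g, hg, hg'⟩ := SetLike.not_le_iff_exists.1 hle
      obtain ⟨y', -, e'⟩ := H.swap hg.1 hg.2 hg'
      refine H.mem_of_conj hW1 inf_le_left hh (w := g * ψ (y'⁻¹ * y)) (mul_mem hg (hW1 ⟨_, rfl⟩)) ?_
      simp only [map_mul, map_inv] at e e' ⊢
      rw [e]
      calc _ = (ψ y)⁻¹ * (ψ y' * ((ψ y')⁻¹ * (ψ WM.S * ψ WM.T) * ψ y') * (ψ y')⁻¹) * ψ y := by group
        _ = _ := by rw [← e']; group

end AlS

/-- module H3Al -/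
theorem F4.alpha {G : Type*} [Group G] [Finite G] (F : F4 G) (h : F.Al) :
    Bd (centralizer ({F.u, F.z} : Set G)) 512 := by
  haveI : Fact (Nat.Prime 2) := ⟨Nat.prime_two⟩
  obtain ⟨R, v, hv, hσ⟩ := F.al_aux h
  have hle : closure ({F.t, F.u, F.a, F.s, F.τ, F.σ, F.p} : Set G) ≤ R.psi.range := by
    rw [closure_le]
    rintro _ (rfl | rfl | rfl | rfl | rfl | rfl | rfl)
    · exact ⟨_, R.psi_T⟩
    · exact ⟨_, R.psi_U⟩
    · exact ⟨_, R.psi_A⟩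
    · exact ⟨_, R.psi_S⟩
    · exact ⟨_, R.psi_Ta⟩
    · have : closure ({F.u, F.z, F.a} : Set G) ≤ R.psi.range := by
        rw [closure_le]
        rintro _ (rfl | rfl | rfl)
        · exact ⟨_, R.psi_U⟩
        · exact ⟨_, R.psi_Z⟩
        · exact ⟨_, R.psi_A⟩
      rw [hσ]
      exact mul_mem (mul_mem ⟨_, R.psi_Ta⟩ ⟨_, R.psi_C⟩) (this hv)
    · exact ⟨_, R.psi_P⟩
  have inj := R.psi_inj (by rw [← F.cardW]; exact card_le_of_le hle)
  have hW : Nat.card R.psi.range = 256 := by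
    rw [MonoidHom.range_eq_map, card_map_of_injective inj, card_top, WM.card_WM]
  have hc : R.psi.range ≤ centralizer ({F.u, F.z} : Set G) := by
    rintro _ ⟨m, rfl⟩
    refine U.mem_cen2.2 ⟨?_, ?_⟩
    · have := congrArg R.psi (WM.cen_UZ m).1
      rwa [map_mul, map_mul, R.psi_U] at this
    · have := congrArg R.psi (WM.cen_UZ m).2
      rwa [map_mul, map_mul, R.psi_Z] at this
  obtain ⟨S, hS, hWS⟩ := H8.exists_isSylowIn_ge (IsPGroup.of_card (p := 2) (n := 8) hW) hc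
  exact U.Bd_of_syl hS
    (AlS.card_le (F := F.toF3) ⟨inj, R.psi_U, R.psi_Z, R.psi_A, R.psi_S, R.psi_T, hS.pgroup, hWS, hS.le⟩)

end Cfsg.Agent.WA.H3
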