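import Cfsg.Agent.WA.H3T
import Cfsg.Agent.WA.H3U5

/-! Coordinate model of `W = E₆₄ ⋊ ⟨s, t⟩` (type alpha) for S3139 (module H3Al, part 0). -/

set_option autoImplicit false

namespace Cfsg.Agent.WA.H3

open Subgroup

/-- model of `W`: `u^· z^· a^· τ^· c^· p^· s^· t^·`. -/
@[ext] structure WM where
  u : Bool
  z : Bool
  a : Bool
  τ : Bool
  c : Bool
  p : Bool
  s : Bool
  t : Bool
  deriving DecidableEq

namespace WM

instance : Mul WM := ⟨fun m n =>
  ⟨m.u ^^ (n.u ^^ (m.t && n.τ)), m.z ^^ ((n.z ^^ (m.t && n.c)) ^^ (m.s && (n.a ^^ (m.t && n.p)))),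
    m.a ^^ (n.a ^^ (m.t && n.p)), m.τ ^^ n.τ, m.c ^^ (n.c ^^ (m.s && n.p)), m.p ^^ n.p, m.s ^^ n.s, m.t ^^ n.t⟩⟩
instance : One WM := ⟨⟨false, false, false, false, false, false, false, false⟩⟩
instance : Inv WM := ⟨fun m =>
  ⟨m.u ^^ (m.t && m.τ), (m.z ^^ (m.t && m.c)) ^^ (m.s && (m.a ^^ (m.t && m.p))),
    m.a ^^ (m.t && m.p), m.τ, m.c ^^ (m.s && m.p), m.p, m.s, m.t⟩⟩

theorem mul_def (m n : WM) : m * n =
  ⟨m.u ^^ (n.u ^^ (m.t && n.τ)), m.z ^^ ((n.z ^^ (m.t && n.c)) ^^ (m.s && (n.a ^^ (m.t && n.p)))),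
    m.a ^^ (n.a ^^ (m.t && n.p)), m.τ ^^ n.τ, m.c ^^ (n.c ^^ (m.s && n.p)), m.p ^^ n.p, m.s ^^ n.s, m.t ^^ n.t⟩ := rfl

/-- coordinates. -/
def equivProd : WM ≃ Bool × Bool × Bool × Bool × Bool × Bool × Bool × Bool where
  toFun m := (m.u, m.z, m.a, m.τ, m.c, m.p, m.s, m.t)
  invFun q := ⟨q.1, q.2.1, q.2.2.1, q.2.2.2.1, q.2.2.2.2.1, q.2.2.2.2.2.1, q.2.2.2.2.2.2.1, q.2.2.2.2.2.2.2⟩
  left_inv _ := rfl
  right_inv _ := rfl

instance : Fintype WM := Fintype.ofEquiv _ equivProd.symm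

theorem card_WM : Nat.card WM = 256 := by
  rw [Nat.card_congr equivProd]; simp

theorem forall_iff {q : WM → Prop} : (∀ m, q m) ↔ ∀ u z a τ c p s t, q ⟨u, z, a, τ, c, p, s, t⟩ :=
  ⟨fun h _ _ _ _ _ _ _ _ => h _, fun h m => h m.u m.z m.a m.τ m.c m.p m.s m.t⟩

theorem exists_iff {q : WM → Prop} : (∃ m, q m) ↔ ∃ u z a τ c p s t, q ⟨u, z, a, τ, c, p, s, t⟩ :=
  ⟨fun ⟨m, h⟩ => ⟨m.u, m.z, m.a, m.τ, m.c, m.p, m.s, m.t, h⟩, fun ⟨_, _, _, _, _, _, _, _, h⟩ => ⟨_, h⟩⟩

instance decForall (q : WM → Prop) [DecidablePred q] : Decidable (∀ m, q m) :=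
  decidable_of_iff (∀ u z a τ c p s t, q ⟨u, z, a, τ, c, p, s, t⟩) forall_iff.symm

instance decExists (q : WM → Prop) [DecidablePred q] : Decidable (∃ m, q m) :=
  decidable_of_iff (∃ u z a τ c p s t, q ⟨u, z, a, τ, c, p, s, t⟩) exists_iff.symm

theorem assoc1 : ∀ x y w j j' b b' : Bool,
    ((x ^^ (y ^^ (j && b))) ^^ (w ^^ ((j ^^ j') && b'))) = (x ^^ ((y ^^ (w ^^ (j' && b'))) ^^ (j && (b ^^ b')))) := by
  decide

theorem assocz : ∀ z z' z'' i j i' j' c' c'' a' a'' p' p'' : Bool,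
    ((z ^^ ((z' ^^ (j && c')) ^^ (i && (a' ^^ (j && p'))))) ^^
      ((z'' ^^ ((j ^^ j') && c'')) ^^ ((i ^^ i') && (a'' ^^ ((j ^^ j') && p''))))) =
    (z ^^ (((z' ^^ ((z'' ^^ (j' && c'')) ^^ (i' && (a'' ^^ (j' && p''))))) ^^ (j && (c' ^^ (c'' ^^ (i' && p''))))) ^^
      (i && ((a' ^^ (a'' ^^ (j' && p''))) ^^ (j && (p' ^^ p'')))))) := by
  decide +kernel

instance : Group WM where
  mul_assoc a b c := by
    refine WM.ext ?_ ?_ ?_ ?_ ?_ ?_ ?_ ?_
    · exact assoc1 _ _ _ _ _ _ _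
    · exact assocz _ _ _ _ _ _ _ _ _ _ _ _ _
    · exact assoc1 _ _ _ _ _ _ _
    · exact Bool.xor_assoc _ _ _
    · exact assoc1 _ _ _ _ _ _ _
    · exact Bool.xor_assoc _ _ _
    · exact Bool.xor_assoc _ _ _
    · exact Bool.xor_assoc _ _ _
  one_mul := by decide +kernel
  mul_one := by decide +kernel
  inv_mul_cancel := by decide +kernel

/-- generator -/
def U : WM := ⟨true, false, false, false, false, false, false, false⟩
/-- generator -/
def Z : WM := ⟨false, true, false, false, false, false, false, false⟩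
/-- generator -/
def A : WM := ⟨false, false, true, false, false, false, false, false⟩
/-- generator -/
def Ta : WM := ⟨false, false, false, true, false, false, false, false⟩
/-- generator -/
def C : WM := ⟨false, false, false, false, true, false, false, false⟩
/-- generator -/
def Pp : WM := ⟨false, false, false, false, false, true, false, false⟩
/-- generator -/
def S : WM := ⟨false, false, false, false, false, false, true, false⟩
/-- generator -/
def T : WM := ⟨false, false, false, false, false, false, false, true⟩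

/-- `P = E₆₄`. -/
def P : Subgroup WM where
  carrier := {m | m.s = false ∧ m.t = false}
  one_mem' := ⟨rfl, rfl⟩
  mul_mem' := fun {a b} ha hb => by
    constructor
    · show (a.s ^^ b.s) = false
      rw [ha.1, hb.1]; rfl
    · show (a.t ^^ b.t) = false
      rw [ha.2, hb.2]; rfl
  inv_mem' := fun {a} ha => ha

theorem mem_P {m : WM} : m ∈ P ↔ m.s = false ∧ m.t = false := Iff.rfl

/-- `B = C_P(s)`. -/
def B : Subgroup WM where
  carrier := {m | m.s = false ∧ m.t = false ∧ m.a = false ∧ m.p = false}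
  one_mem' := ⟨rfl, rfl, rfl, rfl⟩
  mul_mem' := fun {a b} ha hb => by
    obtain ⟨h1, h2, h3, h4⟩ := ha
    obtain ⟨k1, k2, k3, k4⟩ := hb
    simp [mul_def, h1, h2, h3, h4, k1, k2, k3, k4]
  inv_mem' := fun {a} ha => by
    obtain ⟨h1, h2, h3, h4⟩ := ha
    refine ⟨h1, h2, ?_, h4⟩
    show (a.a ^^ (a.t && a.p)) = false
    rw [h2, h3]; rfl

theorem mem_B {m : WM} : m ∈ B ↔ m.s = false ∧ m.t = false ∧ m.a = false ∧ m.p = false := Iff.rfl

theorem card_of_mem (K : Subgroup WM) (q : WM → Prop) [DecidablePred q] (h : ∀ m, m ∈ K ↔ q m) :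
    Nat.card K = (Finset.univ.filter q).card := by
  rw [← Fintype.card_coe, ← Nat.card_eq_fintype_card]
  refine Nat.card_congr (Equiv.subtypeEquivRight fun m => ?_)
  simp [h]

theorem card_le_of_mem (K : Subgroup WM) (q : WM → Prop) [DecidablePred q] (h : ∀ m, m ∈ K → q m) :
    Nat.card K ≤ (Finset.univ.filter q).card := by
  classical
  rw [card_of_mem K (fun m => m ∈ K) (fun _ => Iff.rfl)]
  refine Finset.card_le_card fun m hm => ?_
  simp only [Finset.mem_filter, Finset.mem_univ, true_and] at hm ⊢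
  exact h m hm

theorem card_P : Nat.card P = 64 := by
  rw [card_of_mem P _ (fun _ => mem_P)]; decide +kernel

theorem card_B : Nat.card B = 16 := by
  rw [card_of_mem B _ (fun _ => mem_B)]; decide +kernel

theorem e64 (D : Subgroup WM) (h2 : ∀ y ∈ D, y * y = 1) (hc : 64 ≤ Nat.card D) : D ≤ P := by
  intro y hy
  by_contra hn
  have h1 := card_le_of_mem D (fun m => m * m = 1 ∧ (m * y) * (m * y) = 1)
    (fun m hm => ⟨h2 m hm, h2 _ (mul_mem hm hy)⟩)
  have key : ∀ y : WM, y * y = 1 → ¬ (y.s = false ∧ y.t = false) →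
      (Finset.univ.filter (fun m : WM => m * m = 1 ∧ (m * y) * (m * y) = 1)).card ≤ 40 := by decide +kernel
  have := key y (h2 y hy) hn
  omega

end WM

section Ev

variable {G : Type*} [Group G]

/-- `g ^ b`. -/
def bp (g : G) (b : Bool) : G := if b then g else 1

@[simp] theorem bp_true (g : G) : bp g true = g := rfl
@[simp] theorem bp_false (g : G) : bp g false = 1 := rfl

theorem bp_xor {g : G} (h : g * g = 1) (b b' : Bool) : bp g (b ^^ b') = bp g b * bp g b' := by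
  cases b <;> cases b' <;> simp [h]

theorem bp_mem {K : Subgroup G} {g : G} (h : g ∈ K) (b : Bool) : bp g b ∈ K := by
  cases b
  · exact one_mem _
  · exact h

theorem bp_semi {w g : G} (h : w * g = g * w) (b : Bool) : SemiconjBy w (bp g b) (bp g b) := by
  cases b
  · simp
  · exact h

theorem bp_semi2 {w g g' : G} (h : w * g = g * g' * w) (b : Bool) : SemiconjBy w (bp g b) (bp g b * bp g' b) := by
  cases b
  · simp
  · exact h

theorem ac1 {A : Type*} [CommGroup A] (x1 x2 x3 x4 x5 x6 y1 y2 y3 y4 y5 y6 : A) :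
    x1 * y1 * (x2 * y2) * (x3 * y3) * (x4 * y4) * (x5 * y5) * (x6 * y6) =
      x1 * x2 * x3 * x4 * x5 * x6 * (y1 * y2 * y3 * y4 * y5 * y6) := by ac_rfl

theorem ac2 {A : Type*} [CommGroup A] (x1 x2 x3 x4 x5 x6 y2 y5 : A) :
    x1 * x2 * (x3 * y2) * x4 * x5 * (x6 * y5) = x1 * (x2 * y2) * x3 * x4 * (x5 * y5) * x6 := by ac_rfl

theorem ac3 {A : Type*} [CommGroup A] (x1 x2 x3 x4 x5 x6 y1 y2 y3 : A) :
    x1 * x2 * x3 * (x4 * y1) * (x5 * y2) * (x6 * y3) = x1 * y1 * (x2 * y2) * (x3 * y3) * x4 * x5 * x6 := by ac_rfl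

/-- relations of type alpha. -/
structure AR (u z a τ c p s t : G) : Prop where
  comm : ∀ x ∈ ({u, z, a, τ, c, p} : Set G), ∀ y ∈ ({u, z, a, τ, c, p} : Set G), x * y = y * x
  u2 : u * u = 1
  z2 : z * z = 1
  a2 : a * a = 1
  τ2 : τ * τ = 1
  c2 : c * c = 1
  p2 : p * p = 1
  s2 : s * s = 1
  t2 : t * t = 1
  ts : t * s = s * t
  su : s * u = u * s
  sz : s * z = z * s
  sa : s * a = a * z * s
  sτ : s * τ = τ * s
  sc : s * c = c * s
  sp : s * p = p * c * s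
  tu : t * u = u * t
  tz : t * z = z * t
  ta : t * a = a * t
  tτ : t * τ = τ * u * t
  tc : t * c = c * z * t
  tp : t * p = p * a * t

/-- evaluation on `P`. -/
def ev6 (u z a τ c p : G) (b1 b2 b3 b4 b5 b6 : Bool) : G :=
  bp u b1 * bp z b2 * bp a b3 * bp τ b4 * bp c b5 * bp p b6

namespace AR

variable {u z a τ c p s t : G} (R : AR u z a τ c p s t)
include R

theorem ev_mul (b1 b2 b3 b4 b5 b6 d1 d2 d3 d4 d5 d6 : Bool) :
    ev6 u z a τ c p (b1 ^^ d1) (b2 ^^ d2) (b3 ^^ d3) (b4 ^^ d4) (b5 ^^ d5) (b6 ^^ d6) =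
      ev6 u z a τ c p b1 b2 b3 b4 b5 b6 * ev6 u z a τ c p d1 d2 d3 d4 d5 d6 := by
  letI := closureCommGroupOfComm R.comm
  have m : ∀ g ∈ ({u, z, a, τ, c, p} : Set G), ∀ b, bp g b ∈ closure ({u, z, a, τ, c, p} : Set G) :=
    fun g hg b => bp_mem (subset_closure hg) b
  unfold ev6
  rw [bp_xor R.u2, bp_xor R.z2, bp_xor R.a2, bp_xor R.τ2, bp_xor R.c2, bp_xor R.p2]
  exact congrArg Subtype.val (ac1 (A := closure ({u, z, a, τ, c, p} : Set G))
    ⟨_, m u (by simp) b1⟩ ⟨_, m z (by simp) b2⟩ ⟨_, m a (by simp) b3⟩ ⟨_, m τ (by simp) b4⟩ ⟨_, m c (by simp) b5⟩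
    ⟨_, m p (by simp) b6⟩ ⟨_, m u (by simp) d1⟩ ⟨_, m z (by simp) d2⟩ ⟨_, m a (by simp) d3⟩ ⟨_, m τ (by simp) d4⟩
    ⟨_, m c (by simp) d5⟩ ⟨_, m p (by simp) d6⟩)

theorem ev_s (i b1 b2 b3 b4 b5 b6 : Bool) : SemiconjBy (bp s i) (ev6 u z a τ c p b1 b2 b3 b4 b5 b6)
    (ev6 u z a τ c p b1 (b2 ^^ (i && b3)) b3 b4 (b5 ^^ (i && b6)) b6) := by
  cases i
  · simp
  letI := closureCommGroupOfComm R.comm
  have m : ∀ g ∈ ({u, z, a, τ, c, p} : Set G), ∀ b, bp g b ∈ closure ({u, z, a, τ, c, p} : Set G) :=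
    fun g hg b => bp_mem (subset_closure hg) b
  have h := (((((bp_semi R.su b1).mul_right (bp_semi R.sz b2)).mul_right (bp_semi2 R.sa b3)).mul_right
    (bp_semi R.sτ b4)).mul_right (bp_semi R.sc b5)).mul_right (bp_semi2 R.sp b6)
  have e := congrArg Subtype.val (ac2 (A := closure ({u, z, a, τ, c, p} : Set G))
    ⟨_, m u (by simp) b1⟩ ⟨_, m z (by simp) b2⟩ ⟨_, m a (by simp) b3⟩ ⟨_, m τ (by simp) b4⟩ ⟨_, m c (by simp) b5⟩
    ⟨_, m p (by simp) b6⟩ ⟨_, m z (by simp) b3⟩ ⟨_, m c (by simp) b6⟩)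
  simp only [Subgroup.coe_mul] at e
  rw [e] at h
  unfold ev6
  rw [Bool.true_and, Bool.true_and, bp_xor R.z2, bp_xor R.c2]
  exact h

theorem ev_t (j b1 b2 b3 b4 b5 b6 : Bool) : SemiconjBy (bp t j) (ev6 u z a τ c p b1 b2 b3 b4 b5 b6)
    (ev6 u z a τ c p (b1 ^^ (j && b4)) (b2 ^^ (j && b5)) (b3 ^^ (j && b6)) b4 b5 b6) := by
  cases j
  · simp
  letI := closureCommGroupOfComm R.comm
  have m : ∀ g ∈ ({u, z, a, τ, c, p} : Set G), ∀ b, bp g b ∈ closure ({u, z, a, τ, c, p} : Set G) :=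
    fun g hg b => bp_mem (subset_closure hg) b
  have h := (((((bp_semi R.tu b1).mul_right (bp_semi R.tz b2)).mul_right (bp_semi R.ta b3)).mul_right
    (bp_semi2 R.tτ b4)).mul_right (bp_semi2 R.tc b5)).mul_right (bp_semi2 R.tp b6)
  have e := congrArg Subtype.val (ac3 (A := closure ({u, z, a, τ, c, p} : Set G))
    ⟨_, m u (by simp) b1⟩ ⟨_, m z (by simp) b2⟩ ⟨_, m a (by simp) b3⟩ ⟨_, m τ (by simp) b4⟩ ⟨_, m c (by simp) b5⟩
    ⟨_, m p (by simp) b6⟩ ⟨_, m u (by simp) b4⟩ ⟨_, m z (by simp) b5⟩ ⟨_, m a (by simp) b6⟩)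
  simp only [Subgroup.coe_mul] at e
  rw [e] at h
  unfold ev6
  rw [Bool.true_and, Bool.true_and, Bool.true_and, bp_xor R.u2, bp_xor R.z2, bp_xor R.a2]
  exact h

/-- the evaluation map from the model. -/
def psi : WM →* G := MonoidHom.mk'
  (fun m => ev6 u z a τ c p m.u m.z m.a m.τ m.c m.p * bp s m.s * bp t m.t) (by
    intro m n
    have h := ((R.ev_s m.s _ _ _ _ _ _).mul_left (R.ev_t m.t n.u n.z n.a n.τ n.c n.p)).eq
    have c1 : bp s n.s * bp t m.t = bp t m.t * bp s n.s := by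
      cases n.s <;> cases m.t <;> simp [R.ts]
    simp only [WM.mul_def]
    rw [R.ev_mul, bp_xor R.s2, bp_xor R.t2]
    calc _ = ev6 u z a τ c p m.u m.z m.a m.τ m.c m.p *
          (ev6 u z a τ c p (n.u ^^ (m.t && n.τ)) ((n.z ^^ (m.t && n.c)) ^^ (m.s && (n.a ^^ (m.t && n.p))))
            (n.a ^^ (m.t && n.p)) n.τ (n.c ^^ (m.s && n.p)) n.p * (bp s m.s * bp t m.t)) *
          bp s n.s * bp t n.t := by
          simp only [mul_assoc]
          rw [← mul_assoc (bp s n.s), c1, mul_assoc]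
      _ = _ := by rw [← h]; simp only [mul_assoc])

theorem psi_apply (m : WM) :
    R.psi m = ev6 u z a τ c p m.u m.z m.a m.τ m.c m.p * bp s m.s * bp t m.t := rfl

theorem psi_U : R.psi WM.U = u := by simp [psi_apply, WM.U, ev6]
theorem psi_Z : R.psi WM.Z = z := by simp [psi_apply, WM.Z, ev6]
theorem psi_A : R.psi WM.A = a := by simp [psi_apply, WM.A, ev6]
theorem psi_Ta : R.psi WM.Ta = τ := by simp [psi_apply, WM.Ta, ev6]
theorem psi_C : R.psi WM.C = c := by simp [psi_apply, WM.C, ev6]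
theorem psi_P : R.psi WM.Pp = p := by simp [psi_apply, WM.Pp, ev6]
theorem psi_S : R.psi WM.S = s := by simp [psi_apply, WM.S, ev6]
theorem psi_T : R.psi WM.T = t := by simp [psi_apply, WM.T, ev6]

theorem psi_inj (h : 256 ≤ Nat.card R.psi.range) : Function.Injective R.psi := by
  have h2 := R.psi.ker.card_mul_index
  rw [index_ker, WM.card_WM] at h2
  rw [← MonoidHom.ker_eq_bot_iff, ← card_eq_one]
  have : 0 < Nat.card R.psi.ker := Nat.card_pos
  nlinarith

end AR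

end Ev

namespace F4

variable {G : Type*} [Group G] (F : F4 G)

/-- `c = p · p^s`. -/
def c : G := F.p * (F.s * F.p * F.s)

theorem al_aux (h : F.Al) : AR F.u F.z F.a F.τ F.c F.p F.s F.t ∧ ∃ v ∈ closure ({F.u, F.z, F.a} : Set G),
    F.σ = F.τ * F.c * v := by
  obtain ⟨h1, h2, h3, h4⟩ := h
  obtain ⟨v, hv, hps⟩ := F.ps
  have s2 := F.toF2.s2
  have cua : Commute F.u F.a := F.au.symm
  have cuz : Commute F.u F.z := F.toF2.uz
  have caz : Commute F.a F.z := F.toF2.az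
  have cτa : Commute F.τ F.a := F.τa
  have cτs : Commute F.τ F.s := F.τs
  have cτu : Commute F.τ F.u := F.τu
  have cτz : Commute F.τ F.z := by
    rw [← F.toF2.asas]; exact ((cτa.mul_right cτs).mul_right cτa).mul_right cτs
  have cj : ∀ {y y' : G}, Commute F.τ y → F.x⁻¹ * y * F.x = y' → Commute F.σ y' := by
    intro y y' hy e
    rw [← F.hσ, ← e]
    have := hy.map (MulAut.conj F.x⁻¹)
    simpa using this
  have cσz : Commute F.σ F.z := cj cτz (by rw [mul_assoc, ← F.toF2.xz]; simp)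
  have z2 := F.z2
  have cσa : Commute F.σ F.a := by
    have := (cj cτs F.toF2.s_x).mul_right cσz
    rwa [mul_assoc, z2, mul_one] at this
  have cσu : Commute F.σ F.u := by
    have := (cj cτu F.toF2.u_x).mul_right cσz
    rwa [mul_assoc, z2, mul_one] at this
  have cτσ : Commute F.τ F.σ := h1
  have cpτ : Commute F.p F.τ := h3
  have cpσ : Commute F.p F.σ := h4
  have cpz : Commute F.p F.z := F.pz
  have cpa : Commute F.p F.a := F.pa
  have cpu : Commute F.p F.u := F.pu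
  have σ2 : F.σ * F.σ = 1 := by
    rw [← F.hσ]
    calc _ = F.x⁻¹ * (F.τ * F.τ) * F.x := by group
      _ = 1 := by rw [F.τ2]; simp
  have vc : ∀ {g : G}, Commute g F.u → Commute g F.z → Commute g F.a → Commute g v := by
    intro g g1 g2 g3
    have : closure ({F.u, F.z, F.a} : Set G) ≤ centralizer ({g} : Set G) := by
      rw [closure_le]
      rintro _ (rfl | rfl | rfl)
      · exact U.mem_cen1.2 g1.symm
      · exact U.mem_cen1.2 g2.symm
      · exact U.mem_cen1.2 g3.symm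
    exact (U.mem_cen1.1 (this hv)).symm
  have v2 : v * v = 1 := by
    rw [← F.toF2.map_F] at hv
    obtain ⟨m, hm, rfl⟩ := hv
    rw [SetLike.mem_coe, HM.mem_F] at hm
    rw [← map_mul, ← map_one F.toF2.phi, F.toF2.phi_eq]
    clear hps vc
    revert m
    decide +kernel
  have hc : F.c = F.τ * F.σ * v := by
    unfold c
    rw [hps, ← mul_assoc, ← mul_assoc, ← mul_assoc, h2, one_mul]
  have cc : ∀ {g : G}, Commute g F.τ → Commute g F.σ → Commute g v → Commute g F.c := by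
    intro g g1 g2 g3
    rw [hc]; exact (g1.mul_right g2).mul_right g3
  have cτv := vc cτu cτz cτa
  have cσv := vc cσu cσz cσa
  have cuc : Commute F.u F.c := cc cτu.symm cσu.symm (vc (Commute.refl _) cuz cua)
  have czc : Commute F.z F.c := cc cτz.symm cσz.symm (vc cuz.symm (Commute.refl _) caz.symm)
  have cac : Commute F.a F.c := cc cτa.symm cσa.symm (vc cua.symm caz (Commute.refl _))
  have cτc : Commute F.τ F.c := cc (Commute.refl _) cτσ cτv
  have cpc : Commute F.p F.c := cc cpτ cpσ (vc cpu cpz cpa)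
  have c2 : F.c * F.c = 1 := by
    rw [hc, (cτv.mul_left cσv).symm.mul_mul_mul_comm, cτσ.symm.mul_mul_mul_comm, F.τ2, σ2, v2]; simp
  have ctu : Commute F.t F.u := F.tu
  have ctz : Commute F.t F.z := F.toF2.tz
  have cta : Commute F.t F.a := F.ta
  have tτ : F.t * F.τ = F.τ * F.u * F.t := by
    rw [mul_assoc, ← ctu.eq, ← F.τt]; group
  have tσ : F.t * F.σ = F.σ * (F.u * F.z) * F.t := by
    rw [← F.toF2.u_x, ← F.hσ]
    calc F.t * (F.x⁻¹ * F.τ * F.x) = F.x⁻¹ * (F.x * F.t * F.x⁻¹ * F.τ) * F.x := by group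
      _ = F.x⁻¹ * (F.τ * F.u * F.t) * F.x := by rw [← F.tx, ← tτ]; group
      _ = F.x⁻¹ * F.τ * F.u * (F.t * F.x) := by group
      _ = _ := by rw [F.tx]; group
  refine ⟨⟨?_, F.u2, z2, F.a2, F.τ2, c2, h2, s2, F.t2, F.toF2.ts, F.toF2.us.symm, F.toF2.sz, ?_, cτs.eq.symm, ?_, ?_,
    F.tu, ctz.eq, F.ta, tτ, ?_, ?_⟩, v, hv, ?_⟩
  · have key : ∀ x ∈ ({F.u, F.z, F.a, F.τ, F.c, F.p} : Set G), ∀ y ∈ ({F.u, F.z, F.a, F.τ, F.c, F.p} : Set G),
        Commute x y := by
      rintro _ (rfl | rfl | rfl | rfl | rfl | rfl) _ (rfl | rfl | rfl | rfl | rfl | rfl) <;>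
        first | exact Commute.refl _ | assumption | (apply Commute.symm; assumption)
    exact key
  · rw [← F.toF2.sas, mul_assoc, s2, mul_one]
  · have e : F.s * F.c * F.s = F.c⁻¹ := by
      refine eq_inv_of_mul_eq_one_right ?_
      unfold c
      calc _ = F.p * (F.s * F.p * (F.s * F.s) * F.p * (F.s * F.s) * (F.s * F.s)⁻¹ * F.s * F.p * (F.s * F.s)) := by
            group
        _ = 1 := by
            rw [s2]
            calc _ = F.p * (F.s * (F.p * F.p) * F.s) * F.p := by group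
              _ = 1 := by rw [h2, mul_one, s2, mul_one, h2]
    rw [U.inv_eq c2] at e
    calc F.s * F.c = F.s * F.c * F.s * F.s := by rw [mul_assoc _ F.s, s2, mul_one]
      _ = _ := by rw [e]
  · unfold c
    rw [← mul_assoc, h2, one_mul, mul_assoc, s2, mul_one]
  · have ctv := vc ctu ctz cta
    rw [hc]
    calc F.t * (F.τ * F.σ * v) = (F.t * F.τ) * F.σ * v := by group
      _ = F.τ * F.u * (F.t * F.σ) * v := by rw [tτ]; group
      _ = F.τ * (F.u * F.σ) * F.u * F.z * (F.t * v) := by rw [tσ]; group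
      _ = F.τ * F.σ * (F.u * F.u) * (F.z * v) * F.t := by rw [← cσu.eq, ctv.eq]; group
      _ = _ := by rw [F.u2, (vc cuz.symm (Commute.refl _) caz.symm).eq]; group
  · rw [mul_assoc, ← cta.eq, ← F.pt]; group
  · rw [hc]
    calc F.σ = (F.τ * F.τ) * F.σ * (v * v) := by rw [F.τ2, v2]; simp
      _ = _ := by group

end F4

end Cfsg.Agent.WA.H3
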