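import Cfsg.Agent.WA.H3Cl
import Cfsg.Agent.WA.H3U

/-! Module H3W0 of S3139. -/

set_option autoImplicit false

namespace Cfsg.Agent.WA.H3

open Subgroup U Cl

/-- module H3W0 -/
theorem F3.exists_W0 {G : Type*} [Group G] [Finite G] (F : F3 G) (hτ : F.Hτ) (hb : F.Hb ∨ F.Hq) :
    ∃ W : Subgroup G, IsPGroup 2 W ∧ Nat.card W = 128 ∧ closure ({F.t, F.u, F.a, F.s} : Set G) ≤ W ∧
      W ≤ centralizer ({F.u, F.z} : Set G) ∧
      W ≤ normalizer ((closure ({F.t, F.u, F.a, F.z} : Set G) : Subgroup G) : Set G) ∧ F.x ∈ normalizer (W : Set G) ∧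
      (∀ g ∈ W, ∃ v ∈ closure ({F.u, F.z} : Set G), g⁻¹ * F.t * g = F.t * v) ∧
      ∃ τ ∈ W, τ * F.a = F.a * τ ∧ τ⁻¹ * F.t * τ = F.t * F.u := by
  classical
  haveI : Fact (Nat.Prime 2) := ⟨Nat.prime_two⟩
  obtain ⟨τ, τz, τa, τu, τt⟩ := hτ
  obtain ⟨b, bz, bu, bt⟩ : ∃ b : G, b * F.z = F.z * b ∧ b * F.u = F.u * b ∧ b⁻¹ * F.t * b = F.t * F.z := by
    rcases hb with ⟨b, h1, -, h2, h3⟩ | ⟨b, h1, -, h2, h3⟩ <;> exact ⟨b, h1, h2, h3⟩
  have mu : F.u ∈ closure ({F.u, F.z} : Set G) := subset_closure (by simp)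
  have mz : F.z ∈ closure ({F.u, F.z} : Set G) := subset_closure (by simp)
  set V := closure ({F.u, F.z} : Set G) with hV
  set E8' := closure ({F.t, F.u, F.z} : Set G) with hE8
  set N1 := normalizer (E8' : Set G) ⊓ normalizer (V : Set G) with hN1
  have nrm : ∀ g : G, g⁻¹ * F.t * g ∈ E8' → (g⁻¹ * F.u * g = F.u ∨ g⁻¹ * F.u * g = F.u * F.z) →
      g⁻¹ * F.z * g = F.z → g ∈ N1 := fun g ht hu hz => by
    refine ⟨mem_norm_cl ?_, mem_norm_cl ?_⟩
    · rintro y (rfl | rfl | rfl)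
      · exact ht
      · rcases hu with h | h <;> rw [h]
        exacts [m8u F, mul_mem (m8u F) (m8z F)]
      · rw [hz]; exact m8z F
    · rintro y (rfl | rfl)
      · rcases hu with h | h <;> rw [h]
        exacts [mu, mul_mem mu mz]
      · rw [hz]; exact mz
  have h0 : closure ({F.t, F.x, F.a, F.u} : Set G) ≤ N1 := by
    rw [closure_le]
    rintro y (rfl | rfl | rfl | rfl)
    · exact nrm _ (by rw [conj_eq_iff.2 rfl]; exact m8t F) (Or.inl (conj_eq_iff.2 F.tu)) (conj_eq_iff.2 (zt _))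
    · exact nrm _ (by rw [tx']; exact m8t F) (Or.inr (ux _)) (zx' _)
    · exact nrm _ (by rw [conj_eq_iff.2 F.ta.symm]; exact m8t F) (Or.inl (conj_eq_iff.2 F.au))
        (conj_eq_iff.2 (za _))
    · exact nrm _ (by rw [conj_eq_iff.2 F.tu.symm]; exact m8t F) (Or.inl (conj_eq_iff.2 rfl))
        (conj_eq_iff.2 (zu _))
  obtain ⟨W1, hW1, hW0⟩ := H8.exists_isSylowIn_ge F.syl.pgroup h0
  have hc : centralizer ({F.u, F.z} : Set G) = centralizer (V : Set G) := (centralizer_closure _).symm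
  have nC : ∀ g ∈ normalizer (V : Set G), g ∈ normalizer ((centralizer (V : Set G) : Subgroup G) : Set G) :=
    fun g hg => H8.cj_eq_self_iff.1 (by rw [H8.cj_centralizer, H8.cj_eq_self hg])
  have hW := hW1.inf_of_le_normalizer (N := centralizer (V : Set G)) (fun g hg => nC g hg.2)
  have xW : F.x ∈ normalizer ((W1 ⊓ centralizer (V : Set G) : Subgroup G) : Set G) :=
    inf_le_norm (X := W1) le_normalizer (fun g hg => nC g (hW1.le hg).2) (hW0 (xS _))
  rw [← hc] at hW xW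
  set W := W1 ⊓ centralizer ({F.u, F.z} : Set G) with hWd
  set K := N1 ⊓ centralizer ({F.u, F.z} : Set G) with hK
  have CW : closure ({F.t, F.u, F.a, F.s} : Set G) ≤ W := fun y hy =>
    ⟨hW0 (C0le F hy), mem_cen2.2 (C0cen F hy).2⟩
  have τK : τ ∈ K := ⟨nrm _ (by rw [τt]; exact mul_mem (m8t F) (m8u F)) (Or.inl (conj_eq_iff.2 τu))
    (conj_eq_iff.2 τz), mem_cen2.2 ⟨τu, τz⟩⟩
  have bK : b ∈ K := ⟨nrm _ (by rw [bt]; exact mul_mem (m8t F) (m8z F)) (Or.inl (conj_eq_iff.2 bu))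
    (conj_eq_iff.2 bz), mem_cen2.2 ⟨bu, bz⟩⟩
  have hcls : cls K F.t = ↑({F.t, F.t * F.z, F.t * F.u, F.t * F.u * F.z} : Finset G) := by
    ext y
    simp only [Finset.coe_insert, Finset.coe_singleton, Set.mem_insert_iff, Set.mem_singleton_iff]
    constructor
    · rintro ⟨g, hg, rfl⟩
      exact tcl F (conj_mem hg.1.1 (m8t F))
    · rintro (rfl | rfl | rfl | rfl)
      · exact self_mem_cls _ _
      · exact ⟨b, bK, bt⟩
      · exact ⟨τ, τK, τt⟩
      · refine ⟨b * τ, mul_mem bK τK, ?_⟩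
        rw [show (b * τ)⁻¹ * F.t * (b * τ) = τ⁻¹ * (b⁻¹ * F.t * b) * τ by group, bt,
          show τ⁻¹ * (F.t * F.z) * τ = τ⁻¹ * F.t * τ * (τ⁻¹ * F.z * τ) by group, τt, conj_eq_iff.2 τz]
  have hn : (cls K F.t).ncard = 2 ^ 2 := by
    rw [hcls, Set.ncard_coe_finset, show 2 ^ 2 = 4 by norm_num, Finset.card_eq_four]
    refine ⟨_, _, _, _, ?_, ?_, ?_, ?_, ?_, ?_, rfl⟩
    · exact (mul_z_ne F.toF2 _).symm
    · exact fun h => u1 F.toF2 (by simpa using h)
    · exact fun h => uz1 F.toF2 (by rw [mul_assoc] at h; simpa using h)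
    · exact fun h => uz F.toF2 (mul_left_cancel h).symm
    · exact fun h => u1 F.toF2 (by simpa using mul_right_cancel h)
    · exact (mul_z_ne F.toF2 _).symm
  have hclW := syl_cls hW hn
  have stab : W ⊓ centralizer {F.t} = closure ({F.t, F.u, F.a, F.s} : Set G) := by
    refine le_antisymm (fun g hg => ?_) (le_inf CW fun y hy => mem_cen1.2 (C0cen F hy).1)
    exact mem_of_Bd F.bU hW.pgroup CW (fun y hy => mem_cen2.2 ⟨(C0cen F hy).1, (C0cen F hy).2.1⟩) F.c0.2.1.ge
      hg.1 (mem_cen2.2 ⟨mem_cen1.1 hg.2, (mem_cen2.1 hg.1.2).1⟩)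
  have tv : ∀ g ∈ W, ∃ v ∈ V, g⁻¹ * F.t * g = F.t * v := fun g hg => by
    rcases tcl F (conj_mem (hW.le hg).1.1 (m8t F)) with h | h | h | h
    exacts [⟨1, one_mem _, by rw [h, mul_one]⟩, ⟨_, mz, h⟩, ⟨_, mu, h⟩, ⟨_, mul_mem mu mz, by rw [h, mul_assoc]⟩]
  have EC : closure ({F.t, F.u, F.a, F.z} : Set G) ≤ closure ({F.t, F.u, F.a, F.s} : Set G) := by
    rw [closure_le]
    rintro y (rfl | rfl | rfl | rfl)
    · exact subset_closure (by simp)
    · exact subset_closure (by simp)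
    · exact subset_closure (by simp)
    · exact (F.c0.1 _ (zS _)).1 (zu _).symm
  have Eel : ∀ y ∈ closure ({F.t, F.u, F.a, F.z} : Set G), y * y = 1 := by
    intro y hy
    have hcm : ∀ y ∈ closure ({F.t, F.u, F.a, F.z} : Set G), ∀ w ∈ closure ({F.t, F.u, F.a, F.z} : Set G),
        y * w = w * y := by
      intro y hy w hw
      have : closure ({F.t, F.u, F.a, F.z} : Set G) ≤
          centralizer ((closure ({F.t, F.u, F.a, F.z} : Set G) : Subgroup G) : Set G) := by
        rw [centralizer_closure, closure_le]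
        rintro y (rfl | rfl | rfl | rfl) w (rfl | rfl | rfl | rfl) <;>
          first | rfl | exact F.tu | exact F.tu.symm | exact F.ta | exact F.ta.symm | exact F.au | exact F.au.symm
                | exact zt _ | exact (zt _).symm | exact zu _ | exact (zu _).symm | exact za _ | exact (za _).symm
      exact (this hy w hw).symm
    induction hy using closure_induction with
    | mem x hx =>
      rcases hx with rfl | rfl | rfl | rfl
      exacts [F.t2, F.u2, F.a2, F.z2]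
    | one => simp
    | mul x y hx hy h1 h2 => rw [← sq, Commute.mul_pow (hcm x hx y hy), sq, sq, h1, h2, one_mul]
    | inv x _ h => rw [← mul_inv_rev, h, inv_one]
  have WE : W ≤ normalizer ((closure ({F.t, F.u, F.a, F.z} : Set G) : Subgroup G) : Set G) := fun g hg => by
    have h1 : H8.cj g⁻¹ (closure ({F.t, F.u, F.a, F.z} : Set G)) ≤ closure ({F.t, F.x, F.a, F.u} : Set G) := by
      intro y hy
      have hy' := EC (H8.mem_cj.1 hy)
      refine C0le F ?_
      rw [← stab]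
      have yW : y ∈ W := by simpa [mul_assoc] using mul_mem (mul_mem (inv_mem hg) (CW hy')) hg
      refine ⟨yW, mem_cen1.2 ?_⟩
      obtain ⟨v, hv, h⟩ := tv g⁻¹ (inv_mem hg)
      have c1 : g⁻¹⁻¹ * y * g⁻¹ * (F.t * v) = F.t * v * (g⁻¹⁻¹ * y * g⁻¹) :=
        Commute.mul_right (C0cen F hy').1 (by
          have := (CW hy').2
          rw [hc] at this
          exact (this v hv).symm)
      rw [← h] at c1
      have := conj_comm (g := g) c1
      simpa [mul_assoc] using this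
    rcases F.e16 h1 (fun y hy => by
        have h2 := Eel _ (H8.mem_cj.1 hy)
        have : g⁻¹⁻¹ * (y * y) * g⁻¹ = 1 := by rw [← h2]; group
        exact isConj_one_left.1 (isConj_of this)) (by rw [H8.card_cj, F.c0.2.2.1]) with h2 | h2
    · simpa using inv_mem (H8.cj_eq_self_iff.1 h2)
    · exfalso
      have h3 : g * F.x⁻¹ ∈ normalizer ((closure ({F.t, F.u, F.a, F.z} : Set G) : Subgroup G) : Set G) := by
        refine mem_norm fun y hy => ?_
        have h4 : g⁻¹ * y * g ∈ closure ({F.t, F.u, F.s, F.z} : Set G) := by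
          rw [← h2]; exact H8.mem_cj.2 (by simpa [mul_assoc] using hy)
        have h5 : closure ({F.t, F.u, F.s, F.z} : Set G) ≤ H8.cj F.x⁻¹ (closure ({F.t, F.u, F.a, F.z} : Set G)) := by
          rw [closure_le]
          rintro w (rfl | rfl | rfl | rfl) <;> refine H8.mem_cj.2 ?_ <;> rw [inv_inv]
          · rw [← F.tx, mul_inv_cancel_right]; exact subset_closure (by simp)
          · rw [xu]; exact mul_mem (subset_closure (by simp)) (subset_closure (by simp))
          · rw [← F.hs, show F.x * (F.x⁻¹ * F.a * F.x) * F.x⁻¹ = F.a by group]; exact subset_closure (by simp)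
          · rw [zx, mul_inv_cancel_right]; exact subset_closure (by simp)
        have := H8.mem_cj.1 (h5 h4)
        simpa [mul_assoc] using this
      have h6 := conj_eq_iff.2 (F.NE _ h3)
      rw [show (g * F.x⁻¹)⁻¹ * F.u * (g * F.x⁻¹) = F.x * (g⁻¹ * F.u * g) * F.x⁻¹ by group,
        conj_eq_iff.2 (mem_cen2.1 hg.2).1, xu] at h6
      exact mul_z_ne _ _ h6
  refine ⟨W, hW.pgroup, ?_, CW, inf_le_right, WE, xW, tv, ?_⟩
  · rw [card_eq_cls W F.t, stab, hclW, hn, F.c0.2.1]; norm_num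
  obtain ⟨τ0, h0W, h0t⟩ : F.t * F.u ∈ cls W F.t := by rw [hclW]; exact ⟨τ, τK, τt⟩
  have τE : τ ∈ normalizer ((closure ({F.t, F.u, F.a, F.z} : Set G) : Subgroup G) : Set G) := by
    refine mem_norm_cl ?_
    rintro y (rfl | rfl | rfl | rfl)
    · rw [τt]; exact mul_mem (subset_closure (by simp)) (subset_closure (by simp))
    · rw [conj_eq_iff.2 τu]; exact subset_closure (by simp)
    · rw [conj_eq_iff.2 τa]; exact subset_closure (by simp)
    · rw [conj_eq_iff.2 τz]; exact subset_closure (by simp)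
  have hk := (F.act (τ0 * τ⁻¹) (conj_eq_iff.1 (by
    rw [show (τ0 * τ⁻¹)⁻¹ * F.t * (τ0 * τ⁻¹) = τ * (τ0⁻¹ * F.t * τ0) * τ⁻¹ by group, h0t, ← τt]; group))
    (mul_mem (WE h0W) (inv_mem τE))).2
  have τA : τ ∈ normalizer ((closure ({F.a, F.z} : Set G) : Subgroup G) : Set G) := by
    refine mem_norm_cl ?_
    rintro y (rfl | rfl)
    · rw [conj_eq_iff.2 τa]; exact subset_closure (by simp)
    · rw [conj_eq_iff.2 τz]; exact subset_closure (by simp)
  have h0A := mul_mem hk τA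
  rw [inv_mul_cancel_right] at h0A
  have h0z := conj_eq_iff.2 (mem_cen2.1 h0W.2).2
  rcases mem_cl2 F.a2 F.z2 (za _) (conj_mem h0A (subset_closure (by simp) : F.a ∈ _)) with h | h | h | h
  · exact absurd (isConj_one_left.1 (isConj_of h)) fun h1 => by
      have := (F.nf.2 0 0 0 1 0 (by simpa using h1)).2.2.2.1
      simp at this
  · rw [← h0z] at h
    have h1 : F.a = F.z := by simpa using h
    have := (F.nf.2 0 0 1 1 0 (by simp [h1, F.z2])).2.2.2.1
    simp at this
  · exact ⟨τ0, h0W, conj_eq_iff.1 h, h0t⟩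
  · refine ⟨τ0 * F.s, mul_mem h0W (CW (subset_closure (by simp))), conj_eq_iff.1 ?_, ?_⟩
    · rw [show (τ0 * F.s)⁻¹ * F.a * (τ0 * F.s) = F.s⁻¹ * (τ0⁻¹ * F.a * τ0) * F.s by group, h, inv_eq (s2 _),
        ← mul_assoc, sa, mul_assoc (F.a * F.s) F.z, F.z2, mul_one, mul_assoc, s2, mul_one]
    · rw [show (τ0 * F.s)⁻¹ * F.t * (τ0 * F.s) = F.s⁻¹ * (τ0⁻¹ * F.t * τ0) * F.s by group, h0t]
      exact conj_eq_iff.2 (Commute.mul_right (ts _).symm (su _))

end Cfsg.Agent.WA.H3
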