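import Cfsg.Agent.WA.H3A
import Cfsg.Agent.WA.H3W0

/-! S3139, module H3B: type 2b-i, the Sylow subgroup of `N(E)`. -/

set_option autoImplicit false
set_option linter.unusedSectionVars false

namespace Cfsg.Agent.WA.H3

open Subgroup Cfsg.Agent.FT Cfsg.Agent.L0 Cfsg.Agent.H8 Cfsg.Agent.H4.R4

namespace TB

variable {G : Type*} [Group G] [Finite G] {Q K H : Subgroup G} {t u z a s r τ σ x y w g v c c₁ c₂ : G}

/-- the commutator -/
def κ (x y : G) : G := x⁻¹ * (y⁻¹ * x * y)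

theorem κ_cj (g x y : G) : g⁻¹ * κ x y * g = κ (g⁻¹ * x * g) (g⁻¹ * y * g) := by unfold κ; group

theorem κ_eq : κ x y = w ↔ y⁻¹ * x * y = x * w := inv_mul_eq_iff_eq_mul

theorem κ_one : κ x y = 1 ↔ y * x = x * y := by rw [κ_eq, mul_one, conj_eq_iff_comm]

theorem κ_inv (x y : G) : (κ x y)⁻¹ = κ y x := by unfold κ; group

/-- a class two configuration -/
structure Cl (Q K : Subgroup G) (t : G) : Prop where
  cen : ∀ v ∈ K, ∀ q ∈ Q, q * v = v * q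
  le : K ≤ Q
  sq : ∀ q ∈ Q, q * q ∈ K
  el : ∀ v ∈ K, v * v = 1
  tQ : t ∈ Q
  t2 : t * t = 1
  ker : ∀ q ∈ Q, κ t q = 1 → q ∈ K ∨ t * q ∈ K

namespace Cl

variable (h : Cl Q K t)
include h

theorem mem (hx : x ∈ Q) (hy : y ∈ Q) : κ x y ∈ K := by
  simpa [κ, mul_assoc] using H9.comm_mem_of_sq_mem h.sq (inv_mem hx) (inv_mem hy)

theorem mr (hx : x ∈ Q) (hy : y ∈ Q) (hw : w ∈ Q) : κ x (y * w) = κ x w * κ x y := by
  calc _ = κ x w * (w⁻¹ * (κ x y * w)) := by unfold κ; group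
    _ = _ := by rw [← h.cen _ (h.mem hx hy) w hw]; group

theorem ml (hx : x ∈ Q) (hy : y ∈ Q) (hw : w ∈ Q) : κ (x * w) y = κ x y * κ w y := by
  calc _ = w⁻¹ * (κ x y * w) * κ w y := by unfold κ; group
    _ = _ := by rw [← h.cen _ (h.mem hx hy) w hw]; group

theorem k1 (hx : x ∈ Q) (hv : v ∈ K) : κ x v = 1 := κ_one.2 (h.cen v hv x hx).symm

theorem sym (hx : x ∈ Q) (hy : y ∈ Q) : κ y x = κ x y := by rw [← κ_inv, inv_eq_of_sq (h.el _ (h.mem hx hy))]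

theorem sqv (hx : x ∈ Q) (hv : v ∈ K) : x * v * (x * v) = x * x := by
  rw [mul_assoc, ← mul_assoc v, ← h.cen v hv x hx, mul_assoc, h.el v hv, mul_one]

theorem sqm (hx : x ∈ Q) (hy : y ∈ Q) : x * y * (x * y) = x * x * (y * y) * κ y x := by
  calc _ = x * x * (y * (κ y x * y)) := by unfold κ; group
    _ = _ := by rw [← h.cen _ (h.mem hy hx) y hy]; group

theorem sqr (hτ : τ ∈ Q) (e : κ t τ = u) (hr : r ∈ 𝐍(Q)) (rt : r⁻¹ * t * r = t) (ru : r⁻¹ * u * r = u) :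
    (r⁻¹ * (τ * τ) * r = τ * τ ∧ τ * (r⁻¹ * τ * r) ∈ K) ∨ r⁻¹ * (τ * τ) * r = τ * τ * u := by
  have m := conj_mem_of_norm hr hτ
  have hu := e ▸ h.mem h.tQ hτ
  have i := inv_eq_of_sq (h.el _ (h.sq τ hτ))
  refine (h.ker _ (mul_mem hτ m) (by rw [h.mr h.tQ hτ m, ← rt, ← κ_cj, rt, e, ru, h.el u hu])).imp (fun k => ⟨?_, k⟩) fun k => ?_
  · rw [conj_mul', ← inv_mul_cancel_left τ (r⁻¹ * τ * r), h.sqv (inv_mem hτ) k, ← mul_inv_rev, i]
  · rw [conj_mul', show r⁻¹ * τ * r = (t * τ)⁻¹ * (t * (τ * (r⁻¹ * τ * r))) by group, h.sqv (inv_mem (mul_mem h.tQ hτ)) k, ← mul_inv_rev,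
      inv_eq_of_sq (h.el _ (h.sq _ (mul_mem h.tQ hτ))), h.sqm h.tQ hτ, h.t2, one_mul, h.sym h.tQ hτ, e]

theorem core (hτ : τ ∈ Q) (hσ : σ ∈ Q) (τ2 : τ * τ = 1) (σ2 : σ * σ = 1) (e1 : κ t τ = u) (e2 : κ t σ = z * u) (u1 : u ≠ 1) (hz : z ∈ K)
    (hr : r ∈ 𝐍(Q)) (rt : r⁻¹ * t * r = t) (ru : r⁻¹ * u * r = u) (rz : r⁻¹ * z * r = a) (ra : r⁻¹ * a * r = a * z) (ha : a ∈ K)
    (hs : s ∈ 𝐍(Q)) (st : s⁻¹ * t * s = t) (sτ : s⁻¹ * τ * s = τ) (sa : s⁻¹ * a * s = a * z) (hc : κ τ σ = 1 ∨ κ τ σ = z) :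
    ∃ p ∈ Q, κ t p = a ∧ p * (τ * σ) * (s⁻¹ * p * s) ∈ K ∧ κ p (τ * σ) = 1 ∧ p * p = r⁻¹ * κ τ σ * r ∧ κ τ p = r⁻¹ * κ τ σ * r := by
  have hu := e1 ▸ h.mem h.tQ hτ
  have tQ := h.tQ
  have hv := ((h.sqr hτ e1 hr rt ru).resolve_right (by rw [τ2]; simpa [eq_comm] using u1)).2
  have kr : ∀ y ∈ Q, κ τ (r⁻¹ * y * r) = r⁻¹ * κ τ y * r := fun y hy => by
    have m := conj_mem_of_norm hr hy
    rw [κ_cj, ← inv_mul_cancel_left τ (r⁻¹ * τ * r), inv_eq_of_sq τ2, h.ml hτ m (h.le hv), h.sym m (h.le hv), h.k1 m hv, mul_one]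
  have lr : ∀ y, κ t (r⁻¹ * y * r) = r⁻¹ * κ t y * r := fun y => by rw [κ_cj, rt]
  have hβ := mul_mem hτ hσ
  have b1 : κ t (τ * σ) = z := by rw [h.mr tQ hτ hσ, e1, e2, mul_assoc, h.el u hu, mul_one]
  have b2 : κ τ (τ * σ) = κ τ σ := by rw [h.mr hτ hτ hσ, κ_one.2 rfl, mul_one]
  have b3 : τ * σ * (τ * σ) = κ τ σ := by rw [h.sqm hτ hσ, τ2, σ2, h.sym hτ hσ, one_mul, one_mul]
  have az : a * z * a * z = 1 := by rw [mul_assoc, h.el _ (mul_mem ha hz)]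
  have za : a * z * (z * a) = 1 := by rw [← h.cen z hz a (h.le ha), h.el _ (mul_mem ha hz)]
  generalize τ * σ = β at *
  generalize κ τ σ = c at *
  have hp := conj_mem_of_norm hr hβ
  have hq := conj_mem_of_norm hr hp
  have hp' := conj_mem_of_norm hs hp
  have p1 := lr β
  have q1 := lr (r⁻¹ * β * r)
  have p2 := kr β hβ
  have q2 := kr _ hp
  have p3 := (conj_mul' r β β).symm
  have q3 := (conj_mul' r (r⁻¹ * β * r) (r⁻¹ * β * r)).symm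
  rw [b1, rz] at p1
  rw [p1, ra] at q1
  rw [b2] at p2
  rw [p2] at q2
  rw [b3] at p3
  rw [p3] at q3
  have c1 : r⁻¹ * (r⁻¹ * c * r) * r * (r⁻¹ * c * r) * c = 1 := by rcases hc with rfl | rfl; simp; rw [rz, ra, az]
  have c2 : s⁻¹ * (r⁻¹ * c * r) * s * (c * (r⁻¹ * c * r)) = 1 := by rcases hc with rfl | rfl; simp; rw [rz, sa, za]
  generalize r⁻¹ * β * r = p at *
  generalize r⁻¹ * p * r = q at *
  have tu : κ τ t = u := (h.sym tQ hτ).trans e1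
  have m1 := mul_mem (mul_mem hβ hp) hq
  have m2 := mul_mem (mul_mem hp hβ) hp'
  have k1 : β * p * q ∈ K := (h.ker _ m1 (by rw [h.mr tQ (mul_mem hβ hp) hq, h.mr tQ hβ hp, q1, p1, b1, ← mul_assoc, az])).resolve_right
    fun k => u1 (by rw [← h.k1 hτ k, h.mr hτ tQ m1, h.mr hτ (mul_mem hβ hp) hq, h.mr hτ hβ hp, q2, p2, b2, tu, ← mul_assoc, c1, one_mul])
  refine ⟨p, hp, p1, (h.ker _ m2 (by
    rw [h.mr tQ (mul_mem hp hβ) hp', h.mr tQ hp hβ, p1, b1, ← st, ← κ_cj, p1, sa, za])).resolve_right fun k => u1 (by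
      rw [← h.k1 hτ k, h.mr hτ tQ m2, h.mr hτ (mul_mem hp hβ) hp', h.mr hτ hp hβ, p2, b2, tu, ← sτ, ← κ_cj, p2, c2, one_mul]), ?_, p3, p2⟩
  have := h.sqv (inv_mem (mul_mem hβ hp)) k1
  rw [inv_mul_cancel_left, q3, ← mul_inv_rev, h.sqm hβ hp, b3, p3, eq_inv_iff_mul_eq_one, h.cen _ (p2 ▸ h.mem hτ hp) c (b2 ▸ h.le (h.mem hτ hβ)),
    ← mul_assoc, ← mul_assoc, c1, one_mul] at this
  exact this

end Cl

theorem tr (h1 : ∃ c ∈ H ⊓ 𝐂(closure {u, a, z}), c⁻¹ * t * c = t * u) (h2 : ∃ c ∈ H ⊓ 𝐂(closure {u, a, z}), c⁻¹ * t * c = t * a)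
    (h3 : ∃ c ∈ H ⊓ 𝐂(closure {u, a, z}), c⁻¹ * t * c = t * z) :
    (t * ·) '' (closure {u, a, z} : Subgroup G) ⊆ cls (H ⊓ 𝐂(closure {u, a, z})) t := by
  rintro _ ⟨v, hv, rfl⟩
  induction hv using closure_induction with
  | mem x hx => rcases hx with rfl | rfl | rfl; exacts [h1, h2, h3]
  | one => simpa using self_mem_cls _ t
  | mul x y hx _ k k' =>
    obtain ⟨c, hc, e⟩ := k
    obtain ⟨d, hd, e'⟩ := k'
    exact ⟨d * c, mul_mem hd hc, by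
      rw [conj_conj, e', conj_mul', e, conj_eq_iff_comm.2 (hc.2 y ‹_›).symm, mul_assoc]⟩
  | inv x hx k =>
    obtain ⟨c, hc, e⟩ := k
    refine ⟨c⁻¹, inv_mem hc, ?_⟩
    rw [eq_mul_inv_iff_mul_eq, inv_inv, mul_assoc, ← (show Commute x c from hc.2 x hx).inv_right.eq, ← mul_assoc, mul_assoc c, ← show _ = t * x from e]; group

end TB

open TA TB

/-- module H3B -/
theorem F3.typeB {G : Type*} [Group G] [Finite G] (F : F3 G) (hb : F.Hb) (hτ : F.Hτ) :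
    ∃ F' : F4 G, F'.toF3 = F ∧ (F'.Al ∨ F'.De) := by
  have := Fact.mk Nat.prime_two
  obtain ⟨W, pW, -, CW, WV, WE, xW, -, τ₁, m₁, a₁, t₁⟩ := F.exists_W0 hτ (Or.inl hb)
  obtain ⟨b, bz, ba, bu, bt⟩ := hb
  obtain ⟨τ₀, τz, τa, τu, τt⟩ := hτ
  obtain ⟨h1, h2, h3, h4, h5, h6, h7, h8, h9⟩ := rel F.toF2
  obtain ⟨f1, f2⟩ := f0 F.toF2 F.nu
  rw [show closure {F.z, F.a} ⊔ zpowers F.u = closure {F.u, F.a, F.z} by
    rw [zpowers_eq_closure, ← Subgroup.closure_union]; congr 1; ext; simp; tauto] at f1 f2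
  have cK : ∀ {g}, g * F.u = F.u * g → g * F.a = F.a * g → g * F.z = F.z * g → g ∈ 𝐂(closure {F.u, F.a, F.z}) := fun e e' e'' => by
    rw [centralizer_closure]; rintro _ (rfl | rfl | rfl); exacts [e.symm, e'.symm, e''.symm]
  have uK : F.u ∈ closure {F.u, F.a, F.z} := subset_closure (by simp)
  have aK : F.a ∈ closure {F.u, F.a, F.z} := subset_closure (by simp)
  have zK : F.z ∈ closure {F.u, F.a, F.z} := subset_closure (by simp)
  have tC := cK F.tu F.ta h3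
  have mE : ∀ {y}, y ∈ closure {F.t, F.u, F.a, F.z} ↔ y ∈ closure {F.u, F.a, F.z} ∨ F.t⁻¹ * y ∈ closure {F.u, F.a, F.z} :=
    mem_closure_insert (F.t2 ▸ one_mem _) fun k hk => by rw [conj_eq_iff_comm.2 (tC k (subset_closure hk)).symm]; exact subset_closure hk
  have tE : F.t ∈ closure {F.t, F.u, F.a, F.z} := mE.2 (Or.inr (by simp))
  have KC : closure {F.u, F.a, F.z} ≤ 𝐂(closure {F.u, F.a, F.z}) := H4.R4.cen fun v hv => (f1 v hv).1
  have nE : ∀ {g v}, g ∈ 𝐂(closure {F.u, F.a, F.z}) → v ∈ closure {F.u, F.a, F.z} → g⁻¹ * F.t * g = F.t * v →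
      g ∈ 𝐍(closure {F.t, F.u, F.a, F.z}) := fun hg hv e => mem_normalizer_closure fun k hk => by
    rcases hk with rfl | hk
    · rw [e]; exact mul_mem tE (mE.2 (Or.inl hv))
    · rw [conj_eq_iff_comm.2 (hg k (subset_closure hk)).symm]; exact subset_closure (Or.inr hk)
  have ρK : ∀ {g}, g * F.u = F.u * g → g * F.a = F.a * g → g * F.z = F.z * g → F.ρ⁻¹ * g * F.ρ ∈ 𝐂(closure {F.u, F.a, F.z}) := fun {g} e e' e'' => by
    have k : ∀ {y}, g * y = y * g → Commute (F.ρ⁻¹ * g * F.ρ) (F.ρ⁻¹ * y * F.ρ) := fun e => by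
      rw [Commute, SemiconjBy, ← conj_mul', e, conj_mul']
    have ka := F.ρz ▸ k e''
    exact cK (conj_eq_iff_comm.2 F.ρu ▸ k e) ka (by
      have := ka.mul_right (F.ρa ▸ k e')
      rwa [← mul_assoc, F.a2, one_mul] at this)
  have bρ : (F.ρ⁻¹ * b * F.ρ)⁻¹ * F.t * (F.ρ⁻¹ * b * F.ρ) = F.t * F.a := by
    rw [← F.ρz, ← conj_eq_iff_comm.2 F.ρt, ← conj_mul', ← bt]; group
  have T1 := tr ⟨τ₀, ⟨nE (cK τu τa τz) uK τt, cK τu τa τz⟩, τt⟩ ⟨_, ⟨nE (ρK bu ba bz) aK bρ, ρK bu ba bz⟩, bρ⟩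
    ⟨b, ⟨nE (cK bu ba bz) zK bt, cK bu ba bz⟩, bt⟩
  have T2 : cls 𝐍(closure {F.t, F.u, F.a, F.z}) F.t ⊆ (F.t * ·) '' (closure {F.u, F.a, F.z} : Subgroup G) := by
    rintro _ ⟨g, hg, rfl⟩
    exact ⟨_, (mE.1 (conj_mem_of_norm hg tE)).resolve_left fun k => (f1 _ k).2 (isConj_of_eq rfl), by simp⟩
  have T3 : ((F.t * ·) '' (closure {F.u, F.a, F.z} : Subgroup G)).ncard = 2 ^ 3 := by
    rw [Set.ncard_image_of_injective _ (mul_right_injective _), ← Nat.card_coe_set_eq, SetLike.coe_sort_coe, f2]; rfl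
  have T4 := T1.antisymm ((cls_mono inf_le_left _).trans T2)
  have NK : 𝐍(closure {F.t, F.u, F.a, F.z}) ≤ 𝐍(closure {F.u, F.a, F.z}) := fun g hg => mem_normalizer_of_conj fun y hy =>
    (mE.1 (conj_mem_of_norm hg (mE.2 (Or.inl hy)))).resolve_right fun k => by
      obtain ⟨c, -, e⟩ := T1 ⟨_, k, rfl⟩
      exact (f1 y hy).2 ((isConj_of_eq (e.trans (mul_inv_cancel_left _ _))).trans (isConj_of_eq rfl).symm)
  have NA : ∀ g ∈ 𝐍(closure {F.t, F.u, F.a, F.z}), g⁻¹ * F.a * g ∈ closure {F.a, F.z} := fun g hg => by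
    obtain ⟨c, hc, e⟩ := T1 (T2 (mem_cls (inv_mem hg)))
    have := conj_mem_of_norm (F.act (c * g) (by rw [← conj_eq_iff_comm, conj_conj, e]; group) (mul_mem hc.1 hg)).2
      (subset_closure (Or.inl rfl))
    rwa [conj_conj, conj_eq_iff_comm.2 (hc.2 _ aK).symm] at this
  have bN : Bd 𝐍(closure {F.t, F.u, F.a, F.z}) 256 := fun P hP le => by
    rw [card_eq_cls P F.t]
    exact Nat.mul_le_mul (F.bU _ (hP.to_le inf_le_left) fun g hg => mem_cen_iff.2 (by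
      rintro _ (rfl | rfl); exacts [mem_centralizer_singleton_iff.1 hg.2, F.NE g (le hg.1)]))
      ((Set.ncard_le_ncard ((cls_mono le _).trans T2)).trans T3.le)
  obtain ⟨S, hS, WS⟩ := exists_isSylowIn_ge pW WE
  have NC := le_normalizer_centralizer NK
  have hQ := hS.inf_of_le_normalizer NC
  have T5 := (syl_cls hQ (T4 ▸ T3)).trans T4.symm
  have sQ : F.s ∈ 𝐍((S ⊓ 𝐂(closure {F.u, F.a, F.z}) : Subgroup G)) :=
    le_normalizer_inf le_normalizer (hS.le.trans NC) (WS (CW (subset_closure (by simp))))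
  have mC : ∀ {y}, y ∈ ({F.t, F.u, F.a, F.s} : Set G) → y ∈ closure {F.t, F.u, F.a, F.s} := fun h => subset_closure h
  have KC0 : closure {F.u, F.a, F.z} ≤ closure {F.t, F.u, F.a, F.s} := (closure_le _).2 (by
    rintro _ (rfl | rfl | rfl)
    exacts [mC (by simp), mC (by simp), h6 ▸ mul_mem (mul_mem (mul_mem (mC (by simp)) (mC (by simp))) (mC (by simp))) (mC (by simp))])
  have KQ := le_inf (KC0.trans (CW.trans WS)) KC
  have tQ : F.t ∈ S ⊓ 𝐂(closure {F.u, F.a, F.z}) := ⟨WS (CW (mC (by simp))), tC⟩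
  have WQ : ∀ g ∈ W, g * F.a = F.a * g → g ∈ S ⊓ 𝐂(closure {F.u, F.a, F.z}) := fun g hg e =>
    ⟨WS hg, cK (WV hg _ (by simp)).symm e (WV hg _ (by simp)).symm⟩
  have ρE : F.ρ ∈ 𝐍(closure {F.t, F.u, F.a, F.z}) := mem_normalizer_closure (by
    rintro _ (rfl | rfl | rfl | rfl)
    exacts [(conj_eq_iff_comm.2 F.ρt).symm ▸ tE, (conj_eq_iff_comm.2 F.ρu).symm ▸ mE.2 (Or.inl uK), F.ρa ▸ mE.2 (Or.inl (mul_mem aK zK)),
      F.ρz ▸ mE.2 (Or.inl aK)])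
  obtain ⟨k, hk, hr⟩ := hQ.frattini (le_normalizer_inf le_normalizer NC ρE)
  have QS : S ⊓ 𝐂(closure {F.u, F.a, F.z}) ≤ S := inf_le_left
  have QC : S ⊓ 𝐂(closure {F.u, F.a, F.z}) ≤ 𝐂(closure {F.u, F.a, F.z}) := inf_le_right
  have pQ := hQ.pgroup
  generalize S ⊓ 𝐂(closure {F.u, F.a, F.z}) = Q at *
  have it := inv_eq_of_sq F.t2
  have ker : ∀ q ∈ Q, q * F.t = F.t * q → q ∈ closure {F.t, F.u, F.a, F.z} := fun q hq e =>
    (F.bA.eq_of_le (R := Q ⊓ 𝐂[F.t]) (pQ.to_le inf_le_left) (fun g hg => by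
      rintro _ (rfl | rfl | rfl); exacts [(mem_centralizer_singleton_iff.1 hg.2).symm, QC hg.1 _ aK, QC hg.1 _ zK])
      (fun y hy => (mE.1 hy).elim (fun k => ⟨KQ k, mem_centralizer_singleton_iff.2 (tC y k)⟩) fun k => by
        rw [← mul_inv_cancel_left F.t y]
        exact mul_mem ⟨tQ, mem_centralizer_singleton_iff.2 rfl⟩ ⟨KQ k, mem_centralizer_singleton_iff.2 (tC _ k)⟩) F.c0.2.2.1.ge).le
      ⟨hq, mem_centralizer_singleton_iff.2 e⟩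
  have cl : Cl Q (closure {F.u, F.a, F.z}) F.t := ⟨fun v hv q hq => (QC hq v hv).symm, KQ, fun q hq => by
    obtain ⟨v, hv, e⟩ := T5.le (mem_cls hq)
    refine (mE.1 (ker _ (mul_mem hq hq) (by
      rw [← conj_eq_iff_comm, conj_conj, ← e, conj_mul', ← e, conj_eq_iff_comm.2 (QC hq v hv).symm, mul_assoc, (f1 v hv).1, mul_one]))).resolve_right
      fun k => (f1 F.t ?_).2 (IsConj.refl _)
    have c : q * F.t = F.t * q := by
      have := ((Commute.refl q).mul_right (Commute.refl q)).mul_right (Commute.inv_right (QC hq _ k).symm)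
      rwa [show q * q * (F.t⁻¹ * (q * q))⁻¹ = F.t by group] at this
    rcases mE.1 (ker q hq c) with k' | k'
    · simpa [(f1 q k').1, it] using k
    · have := (f1 _ k').1
      rw [it, mul_assoc, ← mul_assoc q, c, ← mul_assoc, ← mul_assoc, F.t2, one_mul] at this
      simpa [this, it] using k, fun v hv => (f1 v hv).1, tQ, F.t2, fun q hq e => it ▸ mE.1 (ker q hq (κ_one.1 e))⟩
  obtain ⟨q, hq, eq⟩ := T5.ge (T2 (mem_cls (mul_mem hk.1 ρE)))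
  have ry : ∀ y ∈ closure {F.u, F.a, F.z}, (k * F.ρ * q⁻¹)⁻¹ * y * (k * F.ρ * q⁻¹) = F.ρ⁻¹ * y * F.ρ := fun y hy => by
    rw [conj_conj, conj_conj, conj_eq_iff_comm.2 (hk.2 y hy).symm, conj_eq_iff_comm.2 (QC (inv_mem hq) _ (conj_mem_of_norm (NK ρE) hy)).symm]
  have rt : (k * F.ρ * q⁻¹)⁻¹ * F.t * (k * F.ρ * q⁻¹) = F.t := by rw [conj_conj, ← eq]; group
  have ru := (ry _ uK).trans (conj_eq_iff_comm.2 F.ρu)
  have rz := (ry _ zK).trans F.ρz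
  have ra := (ry _ aK).trans F.ρa
  replace hr := mul_mem hr (inv_mem (le_normalizer hq))
  generalize k * F.ρ * q⁻¹ = r at hr rt ru rz ra
  have ind := fun j k l => F.nf.2 0 j k l 0
  have u1 : F.u ≠ 1 := fun e => by simpa using ind 1 0 0 (by simpa using e)
  have fx : ∀ y ∈ closure {F.a, F.z}, r⁻¹ * y * r = y ∨ r⁻¹ * y * r = y * F.u → y = 1 := fun y hy e => by
    rcases (mem_closure_two F.a2 F.z2 h1).1 hy with rfl | rfl | rfl | rfl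
    · rfl
    · rcases rz ▸ e with e | e
      exacts [by simpa using ind 0 1 1 (by simp [e, F.z2]), by simpa using ind 1 1 1 (by simp [e, mul_assoc, ← mul_assoc F.z, F.z2, F.u2])]
    · rcases ra ▸ e with e | e
      exacts [by simpa using ind 0 1 0 (by simpa using e), by simpa using ind 1 1 0 (by simp [mul_left_cancel e, F.u2])]
    · rw [conj_mul', ra, rz] at e
      rcases e with e | e
      exacts [by simpa using ind 0 0 1 (by simpa using e), by simpa using ind 1 0 1 (by simp [mul_left_cancel e, F.u2])]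
  have aW := CW (mC (show F.a ∈ _ by simp))
  obtain ⟨τ₂, m₂, a₂, s₂, t₂⟩ : ∃ τ ∈ W, τ * F.a = F.a * τ ∧ τ * F.s = F.s * τ ∧ τ⁻¹ * F.t * τ = F.t * F.u := by
    have m := conj_mem_of_norm' xW m₁
    have e0 : τ₁⁻¹ * F.s * τ₁ = F.x⁻¹ * ((F.x * τ₁ * F.x⁻¹)⁻¹ * F.a * (F.x * τ₁ * F.x⁻¹)) * F.x := by rw [← F.hs]; group
    have e : τ₁⁻¹ * F.s * τ₁ = F.s ∨ τ₁⁻¹ * F.s * τ₁ = F.s * F.z := by
      have cz := conj_eq_iff_comm.2 (WV m F.z (by simp)).symm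
      have := (mem_closure_two F.a2 F.z2 h1).1 (NA _ (WE m))
      generalize F.x * τ₁ * F.x⁻¹ = g at *
      rw [e0, ← F.hs]
      rcases this with e | e | e | e
      · left; rw [show F.a = 1 by simpa [mul_assoc, inv_mul_eq_iff_eq_mul] using e]; simp
      · left; rw [show F.a = F.z by simpa using e.trans cz.symm, cz]
      · left; rw [e]
      · right; rw [e, conj_mul', ← F.x4]; group
    refine e.elim (fun e => ⟨τ₁, m₁, a₁, conj_eq_iff_comm.1 e, t₁⟩) fun e => ⟨τ₁ * F.a, mul_mem m₁ aW, Commute.mul_left a₁ rfl,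
      conj_eq_iff_comm.1 ?_, by rw [conj_conj, t₁, conj_eq_iff_comm.2 (Commute.mul_right F.ta.symm F.au)]⟩
    rw [conj_conj, e, inv_eq_of_sq F.a2, mul_assoc, mul_assoc, ← h1, ← mul_assoc, ← mul_assoc, eq_mul_inv_of_mul_eq h6,
      inv_eq_of_sq h5, ← h9, mul_assoc, F.z2, mul_one]
  obtain ⟨τ, m, τa, τs, τt, τ2⟩ : ∃ τ ∈ W, τ * F.a = F.a * τ ∧ τ * F.s = F.s * τ ∧ τ⁻¹ * F.t * τ = F.t * F.u ∧ τ * τ = 1 := by
    have mQ := WQ _ m₂ a₂
    have e := (cl.sqr mQ (κ_eq.2 t₂) hr rt ru).imp_left And.left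
    rcases (mem_closure_insert (F.u2 ▸ one_mem _) fun k hk => by
      rw [conj_eq_iff_comm.2 (KC uK k (subset_closure (Or.inr hk))).symm]; exact subset_closure hk).1 (cl.sq _ mQ) with k | k
    · exact ⟨τ₂, m₂, a₂, s₂, t₂, fx _ k e⟩
    · have := fx _ k (by rw [conj_mul', inv_eq_of_sq F.u2, ru, mul_assoc F.u, mul_right_inj, mul_right_inj]; exact e)
      refine ⟨F.t * τ₂, mul_mem (CW (mC (by simp))) m₂, Commute.mul_left F.ta a₂, Commute.mul_left h7 s₂, by rw [conj_conj, ← t₂]; group, ?_⟩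
      rw [cl.sqm tQ mQ, F.t2, one_mul, cl.sym tQ mQ, κ_eq.2 t₂, ← inv_mul_eq_one.1 this, F.u2]
  have xs : F.x * F.x = (F.a * F.s)⁻¹ := by
    rw [eq_inv_iff_mul_eq_one, ← F.hs, ← mul_assoc F.a, ← mul_assoc F.a, show F.a * F.x⁻¹ * F.a = (F.x ^ 3)⁻¹ by
      rw [← F.ax, mul_inv_rev, mul_inv_rev, inv_eq_of_sq F.a2, mul_assoc]]; group
  have τx : Commute τ (F.x * F.x) := xs ▸ (Commute.mul_right τa τs).inv_right
  have mσ := conj_mem_of_norm xW m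
  have σa : F.x⁻¹ * τ * F.x * F.a = F.a * (F.x⁻¹ * τ * F.x) := by
    have := (τx.mul_right τs).mul_right τx.inv_right
    rw [← F.hs] at this
    calc _ = F.x⁻¹ * (τ * (F.x * F.x * (F.x⁻¹ * F.a * F.x) * (F.x * F.x)⁻¹)) * F.x := by group
      _ = _ := by rw [this]; group
  have σt : (F.x⁻¹ * τ * F.x)⁻¹ * F.t * (F.x⁻¹ * τ * F.x) = F.t * (F.z * F.u) := by
    rw [← h4, ← conj_eq_iff_comm.2 F.tx.symm, ← conj_mul', ← τt]; group
  have σx : F.x⁻¹ * (F.x⁻¹ * τ * F.x) * F.x = τ := by rw [← conj_conj, conj_eq_iff_comm.2 τx.symm]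
  have σ2 : F.x⁻¹ * τ * F.x * (F.x⁻¹ * τ * F.x) = 1 := by rw [← conj_mul', τ2]; group
  generalize hσ : F.x⁻¹ * τ * F.x = σ at mσ σa σt σx σ2
  have τQ := WQ _ m τa
  have σQ := WQ _ mσ σa
  have mc := cl.mem τQ σQ
  have hc : κ τ σ = 1 ∨ κ τ σ = F.z := by
    rcases F.cen (c := κ τ σ) ((closure_le _).2 (by
      rintro _ (rfl | rfl | rfl)
      exacts [subset_closure (by simp), subset_closure (by simp), F.x4 ▸ pow_mem (subset_closure (by simp)) 4]) mc)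
      (conj_eq_iff_comm.1 (by rw [κ_cj, hσ, σx, cl.sym τQ σQ])).symm (KC mc _ aK).symm with e | e | e | e
    exacts [Or.inl e, ((f1 _ mc).2 (e ▸ IsConj.refl _)).elim, Or.inr e, ((f1 _ mc).2 (e ▸ isConj_of_eq F.ft)).elim]
  obtain ⟨p, hp, p1, p2, p3, p4, p5⟩ := cl.core τQ σQ τ2 σ2 (κ_eq.2 τt) (κ_eq.2 σt) u1 zK hr rt ru rz ra aK sQ (conj_eq_iff_comm.2 h7.symm)
    (conj_eq_iff_comm.2 τs.symm) (by rw [← h6, inv_eq_of_sq h5]; simp [← mul_assoc, F.a2]) hc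
  have le : closure {F.t, F.u, F.a, F.s, τ, σ, p} ≤ S := (closure_le _).2 (by
    rintro _ (rfl | rfl | rfl | rfl | rfl | rfl | rfl)
    exacts [QS tQ, QS (KQ uK), QS (KQ aK), WS (CW (mC (by simp))), QS τQ, QS σQ, QS hp])
  have mW : ∀ {y}, y ∈ ({F.t, F.u, F.a, F.s, τ, σ, p} : Set G) → y ∈ closure {F.t, F.u, F.a, F.s, τ, σ, p} := fun h => subset_closure h
  have pσ : κ σ p = κ τ p := by
    rw [cl.mr hp τQ σQ, mul_eq_one_iff_eq_inv, κ_inv] at p3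
    rw [cl.sym hp σQ, p3]
  refine ⟨⟨F, τ, σ, p, hσ, τ2, τa, τs, (QC τQ _ uK).symm, τt, (QC hp _ zK).symm, (QC hp _ aK).symm, (QC hp _ uK).symm, κ_eq.1 p1,
    ⟨(p * (τ * σ) * (p * (τ * σ)))⁻¹ * (p * (τ * σ) * (F.s⁻¹ * p * F.s)), Set.pair_comm F.a F.z ▸ mul_mem (inv_mem (cl.sq _ (mul_mem hp (mul_mem τQ σQ)))) p2,
      by rw [inv_eq_of_sq h5]; group⟩, hS.pgroup.to_le le, (bN _ (hS.pgroup.to_le le) (le.trans hS.le)).antisymm ?_, bN⟩, rfl, ?_⟩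
  · rw [card_eq_cls _ F.t]
    refine Nat.mul_le_mul (F.c0.2.1.ge.trans (card_le_of_le ((closure_le _).2 ?_))) (T3.ge.trans (Set.ncard_le_ncard
      ((tr ⟨τ, ⟨mW (by simp), QC τQ⟩, τt⟩ ⟨p, ⟨mW (by simp), QC hp⟩, κ_eq.1 p1⟩ ⟨τ * σ, ⟨mul_mem (mW (by simp)) (mW (by simp)), QC (mul_mem τQ σQ)⟩,
        κ_eq.1 (by rw [cl.mr tQ τQ σQ, κ_eq.2 τt, κ_eq.2 σt, mul_assoc, F.u2, mul_one])⟩).trans (cls_mono inf_le_left _))))
    rintro _ (rfl | rfl | rfl | rfl)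
    exacts [⟨mW (by simp), mem_centralizer_singleton_iff.2 rfl⟩, ⟨mW (by simp), mem_centralizer_singleton_iff.2 F.tu.symm⟩,
      ⟨mW (by simp), mem_centralizer_singleton_iff.2 F.ta.symm⟩, ⟨mW (by simp), mem_centralizer_singleton_iff.2 h7.symm⟩]
  · refine hc.imp (fun e => ?_) fun e => ?_ <;> rw [e] at p4 p5
    · rw [mul_one, inv_mul_cancel] at p4 p5
      exact ⟨(κ_one.1 e).symm, p4, κ_one.1 p5, κ_one.1 (pσ.trans p5)⟩
    · rw [rz] at p4 p5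
      refine ⟨?_, p4, κ_one.1 (by rw [cl.ml τQ hp tQ, p5, p1, F.a2]), κ_one.1 (by rw [cl.ml σQ hp tQ, pσ, p5, p1, F.a2])⟩
      change τ * σ = σ * τ * F.z
      rw [← e]; unfold κ; group

end Cfsg.Agent.WA.H3
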