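import Cfsg.Agent.WA.H3C3

/-! S3139, module H3C: type 2b-ii. -/

set_option autoImplicit false

namespace Cfsg.Agent.WA.H3

open Subgroup

namespace TC

theorem sq3 {G : Type*} [Group G] {A B V : G} (h1 : A * B = B * A) (h2 : A * V = V * A) (h3 : B * V = V * B) :
    A * B * V * (A * B * V) = A * A * (B * B) * (V * V) := by
  calc A * B * V * (A * B * V) = A * B * (V * A) * B * V := by group
    _ = A * (B * A) * (V * B) * V := by rw [← h2]; group
    _ = _ := by rw [← h1, ← h3]; group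

theorem pw_sq {G : Type*} [Group G] {g : G} (h : g * g = 1) (i : ZMod 2) : pw g i * pw g i = 1 := by
  rcases zc i with rfl | rfl <;> simp [h]

theorem nf0_sq {G : Type*} [Group G] (F : F2 G) (i j k α β : ZMod 2) :
    nf0 F i j k α β * nf0 F i j k α β = ve F 0 (j * k) := by
  have e : nf0 F i j k α β = pw F.t i * (pw F.a j * pw F.s k) * ve F α β := by unfold nf0; group
  have h1 : pw F.t i * (pw F.a j * pw F.s k) = (pw F.a j * pw F.s k) * pw F.t i :=
    (Commute.mul_right (show Commute (pw F.t i) _ from pw_comm (pw_comm F.ta.symm i).symm j)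
      (show Commute (pw F.t i) _ from pw_comm (pw_comm (ts F).symm i).symm k)).eq
  have h2 : pw F.t i * ve F α β = ve F α β * pw F.t i := (pw_comm (ve_comm F F.tu (tz F) α β).symm i).symm
  have h3 : pw F.a j * pw F.s k * ve F α β = ve F α β * (pw F.a j * pw F.s k) :=
    (Commute.mul_left (show Commute _ (ve F α β) from (pw_comm (ve_comm F F.au (az F) α β).symm j).symm)
      (show Commute _ (ve F α β) from (pw_comm (ve_comm F (su F) (sz F) α β).symm k).symm)).eq
  rw [e, sq3 h1 h2 h3, pw_sq F.t2, ve_sq, one_mul, mul_one]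
  rcases zc j with rfl | rfl <;> rcases zc k with rfl | rfl
  · simp [ve00]
  · simp [ve00, s2]
  · simp [ve00, F.a2]
  · simp only [pw_one, mul_one, ve01]
    calc F.a * F.s * (F.a * F.s) = F.a * (F.s⁻¹ * F.a * F.s) := by rw [si]; group
      _ = F.z := by rw [as', ← mul_assoc, F.a2, one_mul]

variable {G : Type*} [Group G] [Finite G] {F : F3 G}

namespace WD

variable (D : WD F)

/-- conjugates of `t` in `W` under an element normalising an overgroup of `W`. -/
theorem cls_t (hq : F.Hq) {U : Subgroup G} (hU : IsPGroup 2 U) (hW : D.W ≤ U)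
    (hC : U ≤ centralizer ({F.u, F.z} : Set G)) {h : G} (hN : h ∈ normalizer (U : Set G))
    (hh : h ∈ centralizer ({F.u, F.z} : Set G)) (ht : h⁻¹ * F.t * h ∈ D.W) :
    ∃ α β, h⁻¹ * F.t * h = F.t * ve F.toF2 α β ∨ h⁻¹ * F.t * h = F.t * D.y1 * D.y2 * ve F.toF2 α β := by
  obtain ⟨y11, y22, n1, n2⟩ := D.key hq
  have hv := ve_comm F.toF2 (cu F hh) (cz F hh)
  have nc : ∀ y ∈ D.W, ∀ β, y * y = ve F.toF2 1 β → (h⁻¹ * F.t * h)⁻¹ * y * (h⁻¹ * F.t * h) ≠ y := by
    intro y hy β h1 h2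
    have h3 : h * y * h⁻¹ ∈ closure ({F.t, F.u, F.a, F.s} : Set G) := by
      rw [← cen_C0 F.toF2 hU (D.C0W.trans hW) hC]
      refine mem_inf.2 ⟨H3.U.conj_mem' hN (hW hy), mem_centralizer_singleton_iff.2 (comm_of_act ?_).symm⟩
      calc F.t⁻¹ * (h * y * h⁻¹) * F.t = h * ((h⁻¹ * F.t * h)⁻¹ * y * (h⁻¹ * F.t * h)) * h⁻¹ := by group
        _ = _ := by rw [h2]
    obtain ⟨i, j, k, γ, δ, e⟩ := mem_C0 _ h3
    have h4 := nf0_sq F.toF2 i j k γ δ
    rw [← e] at h4
    have h5 : h * y * h⁻¹ * (h * y * h⁻¹) = ve F.toF2 1 β := by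
      calc h * y * h⁻¹ * (h * y * h⁻¹) = h * (y * y) * h⁻¹ := by group
        _ = _ := by rw [h1, hv]; group
    exact absurd (ve_inj _ (h4.symm.trans h5)).1 (by decide)
  obtain ⟨i, j, k, α, β, l, m, e⟩ := D.mem_W ht
  have e1 : i + k = 1 := by
    rcases zc (i + k) with e1 | e1
    · have := D.nf_y1 i j k α β l m
      rw [e1, ve00, mul_one, ← e] at this
      exact (nc _ D.y1W _ y11 this).elim
    · exact e1
  have e2 : i + j = 1 := by
    rcases zc (i + j) with e2 | e2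
    · have := D.nf_y2 i j k α β l m
      rw [e2, ve00, mul_one, ← e] at this
      exact (nc _ D.y2W _ y22 this).elim
    · exact e2
  have hc : IsConj F.t (D.nf i j k α β l m) := e ▸ isConj_act _ _
  have key : ∀ i j k : ZMod 2, i + k = 1 → i + j = 1 → (i = 1 ∧ j = 0 ∧ k = 0) ∨ (i = 0 ∧ j = 1 ∧ k = 1) := by
    decide
  have v1 := D.wv D.y1W α β
  have v2 := D.wv D.y2W α β
  rcases key i j k e1 e2 with ⟨rfl, rfl, rfl⟩ | ⟨rfl, rfl, rfl⟩
  · rw [e]
    simp only [nf, nf0, pw_zero, pw_one, mul_one] at hc ⊢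
    rcases zc l with rfl | rfl <;> rcases zc m with rfl | rfl
    · exact ⟨α, β, Or.inl (by simp)⟩
    · exfalso
      apply n2 α β
      rwa [pw_zero, pw_one, one_mul, mul_assoc, ← v2, ← mul_assoc] at hc
    · exfalso
      apply n1 α β
      rwa [pw_zero, pw_one, mul_one, mul_assoc, ← v1, ← mul_assoc] at hc
    · refine ⟨α, β, Or.inr ?_⟩
      rw [pw_one, pw_one]
      calc F.t * ve F.toF2 α β * (D.y1 * D.y2) = F.t * (ve F.toF2 α β * D.y1) * D.y2 := by group
        _ = F.t * D.y1 * (ve F.toF2 α β * D.y2) := by rw [← v1]; group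
        _ = _ := by rw [← v2]; group
  · exfalso
    have t2 : D.nf 0 1 1 α β l m * D.nf 0 1 1 α β l m = 1 := by
      rw [← e]
      calc h⁻¹ * F.t * h * (h⁻¹ * F.t * h) = h⁻¹ * (F.t * F.t) * h := by group
        _ = 1 := by rw [F.t2]; group
    have c1 := D.nf_y1 0 1 1 α β 0 0
    have c2 := D.nf_y2 0 1 1 α β 0 0
    have c0 := nf0_sq F.toF2 0 1 1 α β
    simp only [nf, pw_zero, mul_one, zero_add] at c1 c2 c0 t2
    set c := nf0 F.toF2 0 1 1 α β with hc'
    have sq : ∀ r : G, ∀ γ δ, r ∈ D.W → c⁻¹ * r * c = r * ve F.toF2 γ δ → r * r = ve F.toF2 γ δ →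
        c * r * (c * r) = 1 → False := by
      intro r γ δ hr h1 h2 h3
      have : c * r * (c * r) = ve F.toF2 0 1 := by
        calc c * r * (c * r) = c * c * (c⁻¹ * r * c) * r := by group
          _ = c * c * (r * ve F.toF2 γ δ * r) := by rw [h1]; group
          _ = c * c * (ve F.toF2 γ δ * (r * r)) := by rw [D.wv hr]; group
          _ = _ := by rw [h2, ve_sq, mul_one, c0]
      rw [h3, ← ve00 F.toF2] at this
      exact absurd (ve_inj _ this).2 (by decide)
    rcases zc l with rfl | rfl <;> rcases zc m with rfl | rfl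
    · exact sq 1 0 0 (one_mem _) (by simp [ve00]) (by simp [ve00]) (by simpa using t2)
    · exact sq _ _ _ D.y2W c2 y22 (by simpa using t2)
    · exact sq _ _ _ D.y1W c1 y11 (by simpa using t2)
    · refine sq _ _ _ (mul_mem D.y1W D.y2W) (act_prod' _ c1 c2 (D.wu D.y2W) (D.wz D.y2W)) ?_ (by simpa using t2)
      rw [← ve_add, ← y11, ← y22]
      calc D.y1 * D.y2 * (D.y1 * D.y2) = D.y1 * (D.y2 * D.y1) * D.y2 := by group
        _ = _ := by rw [← D.c12]; group

/-- elements of `W` commuting with `y₁ y₂` commute. -/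
theorem comm_yy {c c' : G} (hc : c ∈ D.W) (hc' : c' ∈ D.W) (h : c * (D.y1 * D.y2) = D.y1 * D.y2 * c)
    (h' : c' * (D.y1 * D.y2) = D.y1 * D.y2 * c') : c * c' = c' * c := by
  have key : ∀ c ∈ D.W, c * (D.y1 * D.y2) = D.y1 * D.y2 * c → ∃ i α β l m, c = D.nf i i i α β l m := by
    intro c hc h
    obtain ⟨i, j, k, α, β, l, m, rfl⟩ := D.mem_W hc
    have h1 := act_prod' _ (D.nf_y1 i j k α β l m) (D.nf_y2 i j k α β l m) (D.wu D.y2W) (D.wz D.y2W)
    obtain ⟨e1, e2⟩ := act_inj _ h1 (act0 _ h)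
    have : ∀ i j k : ZMod 2, i + k + (i + j) = 0 → 0 + (i + j) = 0 → j = i ∧ k = i := by decide
    obtain ⟨rfl, rfl⟩ := this i j k e1 e2
    exact ⟨_, α, β, l, m, rfl⟩
  obtain ⟨i, α, β, l, m, e⟩ := key c hc h
  obtain ⟨i', α', β', l', m', rfl⟩ := key c' hc' h'
  have e0 : ∀ i : ZMod 2, i + i = 0 := by decide
  have h1 := D.nf_y1 i i i α β l m
  have h2 := D.nf_y2 i i i α β l m
  have h3 := D.nf_d i i i α β l m
  rw [e0, ve00, mul_one, ← e] at h1 h2 h3
  have k1 : Commute c (pw D.y1 l') := pw_comm (comm_of_act h1) _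
  have k2 : Commute c (pw D.y2 m') := pw_comm (comm_of_act h2) _
  have k3 : Commute c (pw F.t i' * pw F.a i' * pw F.s i') := by
    rcases zc i' with rfl | rfl
    · simp
    · simpa using (show Commute c _ from comm_of_act h3)
  have k4 : Commute c (ve F.toF2 α' β') := D.wv hc _ _
  exact ((k3.mul_right k4).mul_right (k1.mul_right k2)).eq

include D in
theorem fin (hq : F.Hq) : Bd (centralizer ({F.u, F.z} : Set G)) 512 := by
  classical
  have : Fact (Nat.Prime 2) := ⟨Nat.prime_two⟩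
  obtain ⟨R, hR, hWR⟩ := H8.exists_isSylowIn_ge D.pW D.WC
  refine U.Bd_of_syl hR ?_
  set N : Subgroup G := R ⊓ normalizer (D.W : Set G) with hN
  have pN : IsPGroup 2 N := hR.pgroup.to_le inf_le_left
  have WN : D.W ≤ N := le_inf hWR le_normalizer
  have NC : N ≤ centralizer ({F.u, F.z} : Set G) := inf_le_left.trans hR.le
  have clsN : ∀ g ∈ N, ∃ α β, g⁻¹ * F.t * g = F.t * ve F.toF2 α β ∨
      g⁻¹ * F.t * g = F.t * D.y1 * D.y2 * ve F.toF2 α β := fun g hg =>
    D.cls_t hq D.pW le_rfl D.WC hg.2 (NC hg) (conj_mem hg.2 D.tm)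
  have cN : Nat.card N ≤ 256 := by
    have := card_le_of_conj N F.t
      ((Finset.univ : Finset (ZMod 2 × ZMod 2 × ZMod 2)).image
        fun p => F.t * pw (D.y1 * D.y2) p.1 * ve F.toF2 p.2.1 p.2.2) (by
      intro g hg
      obtain ⟨α, β, e | e⟩ := clsN g hg
      · exact Finset.mem_image.2 ⟨(0, α, β), Finset.mem_univ _, by simp [e]⟩
      · exact Finset.mem_image.2 ⟨(1, α, β), Finset.mem_univ _, by simp [e, mul_assoc]⟩)
    rw [cen_C0 F.toF2 pN (D.C0W.trans WN) NC, F.c0.2.1] at this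
    refine this.trans ?_
    have h8 := Finset.card_image_le (s := (Finset.univ : Finset (ZMod 2 × ZMod 2 × ZMod 2)))
      (f := fun p => F.t * pw (D.y1 * D.y2) p.1 * ve F.toF2 p.2.1 p.2.2)
    have : (Finset.univ : Finset (ZMod 2 × ZMod 2 × ZMod 2)).card = 8 := by decide
    omega
  by_cases hRN : R ≤ N
  · exact (card_le_of_le hRN).trans (cN.trans (by norm_num))
  exfalso
  obtain ⟨h, hhR, hhN, hh⟩ := U.exists_norm hR.pgroup inf_le_left hRN
  obtain ⟨n, hnR, hnN, hn⟩ := U.exists_norm hR.pgroup hWR fun h => hRN (h.trans WN)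
  have nN : n ∈ N := mem_inf.2 ⟨hnR, hnN⟩
  have outN : ∀ g ∈ N, g ∉ D.W → ∃ α β, g⁻¹ * F.t * g = F.t * D.y1 * D.y2 * ve F.toF2 α β := by
    intro g hg hg'
    obtain ⟨α, β, e | e⟩ := clsN g hg
    · exact (hg' (D.mem_of_t pN WN NC hg e)).elim
    · exact ⟨α, β, e⟩
  have tN : h⁻¹ * F.t * h ∈ N := conj_mem hhN (WN D.tm)
  by_cases ht : h⁻¹ * F.t * h ∈ D.W
  · obtain ⟨α, β, e | e⟩ := D.cls_t hq pN WN NC hhN (hR.le hhR) ht
    · exact hh (WN (D.mem_of_t hR.pgroup hWR hR.le hhR e))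
    · obtain ⟨γ, δ, e'⟩ := outN n nN hn
      obtain ⟨g, hg, e''⟩ := D.adj D.tr_tyy e e'
      have : n * g * h⁻¹ ∈ closure ({F.t, F.u, F.a, F.s} : Set G) := by
        rw [← cen_C0 F.toF2 hR.pgroup (D.C0W.trans hWR) hR.le]
        exact mem_inf.2 ⟨mul_mem (mul_mem hnR (hWR hg)) (inv_mem hhR), mem_centralizer_singleton_iff.2 e''⟩
      have h2 := mul_mem (inv_mem (WN (D.C0W this))) (mul_mem nN (WN hg))
      have h3 : (n * g * h⁻¹)⁻¹ * (n * g) = h := by group
      rw [h3] at h2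
      exact hh h2
  · set t' := h⁻¹ * F.t * h with ht'
    obtain ⟨γ, δ, e'⟩ := outN t' tN ht
    have tv := ve_comm F.toF2 (cu F (NC tN)) (cz F (NC tN))
    have cyy : ∀ c ∈ D.W, c * t' = t' * c → c * (D.y1 * D.y2) = D.y1 * D.y2 * c := by
      intro c hc h1
      obtain ⟨α, β, e⟩ := D.tW c hc
      have h2 : c⁻¹ * (t'⁻¹ * F.t * t') * c = t'⁻¹ * F.t * t' * ve F.toF2 α β := by
        calc c⁻¹ * (t'⁻¹ * F.t * t') * c = (t' * c)⁻¹ * F.t * (t' * c) := by group
          _ = t'⁻¹ * (c⁻¹ * F.t * c) * t' := by rw [← h1]; group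
          _ = t'⁻¹ * F.t * (ve F.toF2 α β * t') := by rw [e]; group
          _ = _ := by rw [← tv]; group
      rw [e'] at h2
      have yW : D.y1 * D.y2 ∈ D.W := mul_mem D.y1W D.y2W
      apply comm_of_act
      have h3 : F.t * ve F.toF2 α β * (c⁻¹ * (D.y1 * D.y2) * c) * ve F.toF2 γ δ =
          F.t * ve F.toF2 α β * (D.y1 * D.y2) * ve F.toF2 γ δ := by
        calc F.t * ve F.toF2 α β * (c⁻¹ * (D.y1 * D.y2) * c) * ve F.toF2 γ δ
            = (c⁻¹ * F.t * c) * (c⁻¹ * (D.y1 * D.y2) * c) * (c⁻¹ * ve F.toF2 γ δ * c) := by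
              rw [e, act_of_comm (D.wv hc γ δ)]
          _ = c⁻¹ * (F.t * D.y1 * D.y2 * ve F.toF2 γ δ) * c := by group
          _ = F.t * (D.y1 * D.y2 * (ve F.toF2 γ δ * ve F.toF2 α β)) := by rw [h2]; group
          _ = F.t * (D.y1 * D.y2 * ve F.toF2 α β) * ve F.toF2 γ δ := by
              rw [ve_add, add_comm γ, add_comm δ, ← ve_add]; group
          _ = _ := by rw [D.wv yW]; group
      exact mul_left_cancel (mul_right_cancel h3)
    have t2 : t' * t' = 1 := by
      calc t' * t' = h⁻¹ * (F.t * F.t) * h := by rw [ht']; group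
        _ = 1 := by rw [F.t2]; group
    have dec : ∀ y ∈ D.W, F.t * y = y * F.t → ∃ c ∈ D.W, Commute c t' ∧ (h⁻¹ * y * h = c ∨ h⁻¹ * y * h = c * t') := by
      intro y hy h1
      have yN : h⁻¹ * y * h ∈ N := conj_mem hhN (WN hy)
      have h2 : Commute (h⁻¹ * y * h) t' := by
        show h⁻¹ * y * h * t' = t' * (h⁻¹ * y * h)
        calc h⁻¹ * y * h * t' = h⁻¹ * (y * F.t) * h := by rw [ht']; group
          _ = _ := by rw [← h1, ht']; group
      by_cases hy' : h⁻¹ * y * h ∈ D.W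
      · exact ⟨_, hy', h2, Or.inl rfl⟩
      · refine ⟨h⁻¹ * y * h * t', U.idx2 WN (by rw [D.cardW]; exact cN) yN hy' tN ht, h2.mul_left rfl, Or.inr ?_⟩
        rw [mul_assoc _ t' t', t2, mul_one]
    obtain ⟨c, hc, h1, e1⟩ := dec _ D.am F.ta
    obtain ⟨c', hc', h2, e2⟩ := dec _ D.sm (ts _)
    have cc : Commute c c' := D.comm_yy hc hc' (cyy _ hc h1) (cyy _ hc' h2)
    have h3 : Commute (h⁻¹ * F.a * h) (h⁻¹ * F.s * h) := by
      rcases e1 with e1 | e1 <;> rcases e2 with e2 | e2 <;> rw [e1, e2]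
      · exact cc
      · exact cc.mul_right h1
      · exact cc.mul_left h2.symm
      · exact (cc.mul_right h1).mul_left (h2.symm.mul_right rfl)
    have h4 : F.s * F.a = F.a * F.s := by
      have : h⁻¹ * (F.s * F.a) * h = h⁻¹ * (F.a * F.s) * h := by
        calc h⁻¹ * (F.s * F.a) * h = (h⁻¹ * F.s * h) * (h⁻¹ * F.a * h) := by group
          _ = _ := by rw [← h3.eq]; group
      exact mul_left_cancel (mul_right_cancel this)
    have h5 : (0 : ZMod 2) = 1 := (act_inj F.toF2 (act0 _ h4) (γ := 0) (δ := 1) (by rw [ve01]; exact as' _)).2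
    exact zero_ne_one h5

end WD

end TC

/-- module H3C -/
theorem F3.typeC {G : Type*} [Group G] [Finite G] (F : F3 G) (hτ : F.Hτ) (hq : F.Hq) :
    Bd (centralizer ({F.u, F.z} : Set G)) 512 := by
  obtain ⟨D⟩ := TC.exists_WD F hτ hq
  exact D.fin hq

end Cfsg.Agent.WA.H3
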