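import Cfsg.Agent.WA.H3Def

/-! S3139, module H3C, part 1: generic tools and basic relations of the frame `F2`. -/

set_option autoImplicit false

namespace Cfsg.Agent.WA.H3.TC

open Subgroup

section Generic

variable {G : Type*} [Group G]

theorem card_le_of_conj [Finite G] (U : Subgroup G) (t : G) (S : Finset G)
    (h : ∀ g ∈ U, g⁻¹ * t * g ∈ S) :
    Nat.card U ≤ Nat.card (U ⊓ centralizer ({t} : Set G) : Subgroup G) * S.card := by
  classical
  set C : Subgroup G := U ⊓ centralizer ({t} : Set G) with hC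
  have key : ∀ y : S, ∃ r : G, ∀ g ∈ U, g⁻¹ * t * g = y → g * r⁻¹ ∈ C := by
    intro y
    by_cases hy : ∃ r ∈ U, r⁻¹ * t * r = y
    · obtain ⟨r, hr, hry⟩ := hy
      refine ⟨r, fun g hg hgy => mem_inf.2 ⟨U.mul_mem hg (U.inv_mem hr), ?_⟩⟩
      rw [mem_centralizer_singleton_iff]
      have e : g⁻¹ * t * g = r⁻¹ * t * r := hgy.trans hry.symm
      calc g * r⁻¹ * t = g * (r⁻¹ * t * r) * r⁻¹ := by group
        _ = g * (g⁻¹ * t * g) * r⁻¹ := by rw [e]
        _ = t * (g * r⁻¹) := by group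
    · exact ⟨1, fun g hg hgy => (hy ⟨g, hg, hgy⟩).elim⟩
  choose r hr using key
  let f : U → C × S := fun g =>
    (⟨g * (r ⟨_, h g g.2⟩)⁻¹, hr ⟨_, h g g.2⟩ g g.2 rfl⟩, ⟨_, h g g.2⟩)
  have hf : Function.Injective f := by
    intro g g' e
    have e2 : (⟨_, h g g.2⟩ : S) = ⟨_, h g' g'.2⟩ := congrArg Prod.snd e
    have e1 : (g : G) * (r ⟨_, h g g.2⟩)⁻¹ = g' * (r ⟨_, h g' g'.2⟩)⁻¹ :=
      congrArg (fun p : C × S => (p.1 : G)) e
    rw [e2] at e1
    exact Subtype.ext (mul_right_cancel e1)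
  have := Nat.card_le_card_of_injective f hf
  rwa [Nat.card_prod, Nat.card_eq_fintype_card (α := S), Fintype.card_coe] at this

theorem nrm_of_gens [Finite G] (S : Set G) {g : G} (h : ∀ y ∈ S, g⁻¹ * y * g ∈ closure S) :
    g ∈ normalizer ((closure S : Subgroup G) : Set G) := by
  have : g⁻¹ ∈ normalizer ((closure S : Subgroup G) : Set G) := by
    apply H8.mem_normalizer_of_cj_le
    rw [H8.cj_le_iff, closure_le]
    intro y hy
    rw [SetLike.mem_coe, H8.mem_cj]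
    simpa using h y hy
  simpa using (normalizer _).inv_mem this

theorem conj_mem {H : Subgroup G} {g y : G} (hg : g ∈ normalizer (H : Set G)) (hy : y ∈ H) :
    g⁻¹ * y * g ∈ H := by
  have := (mem_normalizer_iff.1 ((normalizer _).inv_mem hg) y).1 hy
  simpa using this

theorem act_mul {c d y e e' : G} (h1 : c⁻¹ * y * c = y * e) (h2 : d⁻¹ * y * d = y * e') (hd : d * e = e * d) :
    (c * d)⁻¹ * y * (c * d) = y * (e' * e) := by
  calc (c * d)⁻¹ * y * (c * d) = d⁻¹ * (c⁻¹ * y * c) * d := by group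
    _ = d⁻¹ * y * (e * d) := by rw [h1]; group
    _ = (d⁻¹ * y * d) * e := by rw [← hd]; group
    _ = y * (e' * e) := by rw [h2]; group

theorem act_inv {c y e : G} (h1 : c⁻¹ * y * c = y * e) (hc : c * e = e * c) (he : e * e = 1) :
    c⁻¹⁻¹ * y * c⁻¹ = y * e := by
  have h2 : y * c = c * y * e := by
    calc y * c = c * (c⁻¹ * y * c) := by group
      _ = c * y * e := by rw [h1]; group
  calc c⁻¹⁻¹ * y * c⁻¹ = (c * y * e) * e * c⁻¹ := by
        rw [mul_assoc (c * y) e e, he]; group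
    _ = y * (c * e) * c⁻¹ := by rw [← h2]; group
    _ = y * e := by rw [hc]; group

theorem act_flip {c y e : G} (h1 : c⁻¹ * y * c = y * e) (he : e * e = 1) :
    y⁻¹ * c * y = c * e := by
  have h2 : y * c = c * y * e := by
    calc y * c = c * (c⁻¹ * y * c) := by group
      _ = c * y * e := by rw [h1]; group
  calc y⁻¹ * c * y = y⁻¹ * (c * y) * (e * e) := by rw [he]; group
    _ = y⁻¹ * (c * y * e) * e := by group
    _ = c * e := by rw [← h2]; group

theorem act_prod {c y y' e e' : G} (h1 : c⁻¹ * y * c = y * e) (h2 : c⁻¹ * y' * c = y' * e') (h : y' * e = e * y') :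
    c⁻¹ * (y * y') * c = y * y' * (e * e') := by
  calc c⁻¹ * (y * y') * c = (c⁻¹ * y * c) * (c⁻¹ * y' * c) := by group
    _ = y * (e * y') * e' := by rw [h1, h2]; group
    _ = y * y' * (e * e') := by rw [← h]; group

theorem act_of_comm {c y : G} (h : c * y = y * c) : c⁻¹ * y * c = y := by
  calc c⁻¹ * y * c = c⁻¹ * (y * c) := by group
    _ = y := by rw [← h]; group

theorem comm_of_act {c y : G} (h : c⁻¹ * y * c = y) : c * y = y * c := by
  calc c * y = c * (c⁻¹ * y * c) := by rw [h]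
    _ = y * c := by group

theorem isConj_act (y g : G) : IsConj y (g⁻¹ * y * g) :=
  isConj_iff.2 ⟨g⁻¹, by group⟩

/-- power with exponent in `ZMod 2`. -/
def pw (g : G) (i : ZMod 2) : G := g ^ i.val

theorem zc (i : ZMod 2) : i = 0 ∨ i = 1 := by revert i; decide

@[simp] theorem pw_zero (g : G) : pw g 0 = 1 := pow_zero g

@[simp] theorem pw_one (g : G) : pw g 1 = g := pow_one g

theorem pw_add {g : G} (h : g * g = 1) (i j : ZMod 2) : pw g (i + j) = pw g i * pw g j := by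
  have e : (1 + 1 : ZMod 2) = 0 := rfl
  rcases zc i with rfl | rfl <;> rcases zc j with rfl | rfl <;> simp [e, h]

theorem pw_comm {g c : G} (h : c * g = g * c) (i : ZMod 2) : c * pw g i = pw g i * c := by
  rcases zc i with rfl | rfl <;> simp [h]

theorem pw_mem {H : Subgroup G} {g : G} (h : g ∈ H) (i : ZMod 2) : pw g i ∈ H := H.pow_mem h _

end Generic

section Rel

variable {G : Type*} [Group G] (F : F2 G)

theorem ai : F.a⁻¹ = F.a := inv_eq_of_mul_eq_one_right F.a2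
theorem ui : F.u⁻¹ = F.u := inv_eq_of_mul_eq_one_right F.u2
theorem ti : F.t⁻¹ = F.t := inv_eq_of_mul_eq_one_right F.t2
theorem zi : F.z⁻¹ = F.z := inv_eq_of_mul_eq_one_right F.z2

theorem x8 : F.x ^ 8 = 1 := by
  have : F.x ^ 8 = F.x ^ 4 * F.x ^ 4 := by group
  rw [this, F.x4, F.z2]

theorem xz : F.x * F.z = F.z * F.x := by rw [← F.x4]; group

theorem axn (n : ℕ) : F.a * F.x ^ n * F.a = F.x ^ (3 * n) := by
  have := conj_pow (a := F.a) (b := F.x) (i := n)
  rw [ai, F.ax, ← pow_mul] at this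
  exact this.symm

theorem uxn (n : ℕ) : F.u * F.x ^ n * F.u = F.x ^ (5 * n) := by
  have := conj_pow (a := F.u) (b := F.x) (i := n)
  rw [ui, F.ux, ← pow_mul] at this
  exact this.symm

theorem az : F.a * F.z = F.z * F.a := by
  have h := axn F 4
  have e : F.x ^ (3 * 4) = F.x ^ 8 * F.x ^ 4 := by group
  rw [e, x8, one_mul, F.x4] at h
  calc F.a * F.z = F.a * F.z * F.a * F.a := by rw [mul_assoc _ F.a F.a, F.a2, mul_one]
    _ = F.z * F.a := by rw [h]

theorem uz : F.u * F.z = F.z * F.u := by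
  have h := uxn F 4
  have e : F.x ^ (5 * 4) = F.x ^ 8 * F.x ^ 8 * F.x ^ 4 := by group
  rw [e, x8, one_mul, one_mul, F.x4] at h
  calc F.u * F.z = F.u * F.z * F.u * F.u := by rw [mul_assoc _ F.u F.u, F.u2, mul_one]
    _ = F.z * F.u := by rw [h]

theorem tz : F.t * F.z = F.z * F.t := by
  rw [← F.x4]; exact (Commute.pow_right (show Commute F.t F.x from F.tx) 4).eq

theorem xi : F.x⁻¹ = F.x ^ 7 := by
  apply inv_eq_of_mul_eq_one_right
  rw [← x8 F]; group

/-- `u ^ x = u z` -/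
theorem ux' : F.x⁻¹ * F.u * F.x = F.u * F.z := by
  have h := uxn F 7
  have e : F.x ^ (5 * 7) = F.x ^ 8 * F.x ^ 8 * F.x ^ 8 * F.x ^ 8 * F.x ^ 3 := by group
  rw [e, x8, one_mul, one_mul, one_mul, one_mul] at h
  calc F.x⁻¹ * F.u * F.x = (F.u * F.u) * F.x ^ 7 * F.u * F.x := by rw [F.u2, xi]; group
    _ = F.u * (F.u * F.x ^ 7 * F.u) * F.x := by group
    _ = F.u * F.z := by rw [h, ← F.x4]; group

theorem zx' : F.x⁻¹ * F.z * F.x = F.z := act_of_comm (xz F)
theorem tx' : F.x⁻¹ * F.t * F.x = F.t := act_of_comm F.tx.symm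

theorem sa : F.s * F.a = F.x ^ 2 := by
  have h := axn F 1
  calc F.s * F.a = F.x⁻¹ * (F.a * F.x ^ 1 * F.a) := by rw [← F.hs]; group
    _ = F.x ^ 2 := by rw [h]; group

theorem s2 : F.s * F.s = 1 := by
  rw [← F.hs]
  calc F.x⁻¹ * F.a * F.x * (F.x⁻¹ * F.a * F.x) = F.x⁻¹ * (F.a * F.a) * F.x := by group
    _ = 1 := by rw [F.a2]; group

theorem si : F.s⁻¹ = F.s := inv_eq_of_mul_eq_one_right (s2 F)

theorem ts : F.t * F.s = F.s * F.t := by
  rw [← F.hs]
  calc F.t * (F.x⁻¹ * F.a * F.x) = (F.x⁻¹ * F.t * F.x) * (F.x⁻¹ * F.a * F.x) := by rw [tx']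
    _ = F.x⁻¹ * (F.t * F.a) * F.x := by group
    _ = (F.x⁻¹ * F.a * F.x) * (F.x⁻¹ * F.t * F.x) := by rw [F.ta]; group
    _ = _ := by rw [tx']

theorem sz : F.s * F.z = F.z * F.s := by
  rw [← F.hs]
  calc F.x⁻¹ * F.a * F.x * F.z = (F.x⁻¹ * F.a * F.x) * (F.x⁻¹ * F.z * F.x) := by rw [zx']
    _ = F.x⁻¹ * (F.a * F.z) * F.x := by group
    _ = (F.x⁻¹ * F.z * F.x) * (F.x⁻¹ * F.a * F.x) := by rw [az]; group
    _ = _ := by rw [zx']

theorem su : F.s * F.u = F.u * F.s := by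
  have e : F.u = F.x⁻¹ * (F.u * F.z) * F.x := by
    calc F.u = F.u * F.z * F.z := by rw [mul_assoc, F.z2, mul_one]
      _ = (F.x⁻¹ * F.u * F.x) * (F.x⁻¹ * F.z * F.x) := by rw [ux', zx']
      _ = _ := by group
  have c : F.a * (F.u * F.z) = F.u * F.z * F.a := by
    rw [← mul_assoc, F.au, mul_assoc, az, mul_assoc]
  calc F.s * F.u = (F.x⁻¹ * F.a * F.x) * (F.x⁻¹ * (F.u * F.z) * F.x) := by rw [F.hs, ← e]
    _ = F.x⁻¹ * (F.a * (F.u * F.z)) * F.x := by group
    _ = (F.x⁻¹ * (F.u * F.z) * F.x) * (F.x⁻¹ * F.a * F.x) := by rw [c]; group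
    _ = _ := by rw [F.hs, ← e]

/-- `a ^ s = a z` -/
theorem as' : F.s⁻¹ * F.a * F.s = F.a * F.z := by
  have h : F.s * F.a * (F.s * F.a) = F.z := by rw [sa, ← F.x4]; group
  calc F.s⁻¹ * F.a * F.s = F.s * F.a * (F.s * F.a) * F.a := by
        rw [si, mul_assoc _ (F.s * F.a) F.a, mul_assoc F.s F.a F.a, F.a2]; group
    _ = F.a * F.z := by rw [h, az]

/-- `s ^ a = s z` -/
theorem sa' : F.a⁻¹ * F.s * F.a = F.s * F.z := act_flip (as' F) F.z2

/-- `s ^ x = a z` -/
theorem sx' : F.x⁻¹ * F.s * F.x = F.a * F.z := by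
  calc F.x⁻¹ * F.s * F.x = (F.x ^ 2)⁻¹ * F.a * F.x ^ 2 := by rw [← F.hs, pow_two]; group
    _ = F.a⁻¹ * (F.s⁻¹ * F.a * F.s) * F.a := by rw [← sa]; group
    _ = F.a⁻¹ * (F.a * F.z) * F.a := by rw [as']
    _ = F.z * F.a := by group
    _ = F.a * F.z := (az F).symm

/-- elements of `V₀ = ⟨u, z⟩` -/
def ve (α β : ZMod 2) : G := pw F.u α * pw F.z β

theorem ve00 : ve F 0 0 = 1 := by simp [ve]
theorem ve10 : ve F 1 0 = F.u := by simp [ve]
theorem ve01 : ve F 0 1 = F.z := by simp [ve]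
theorem ve11 : ve F 1 1 = F.u * F.z := by simp [ve]

theorem ve_comm {c : G} (hu : c * F.u = F.u * c) (hz : c * F.z = F.z * c) (α β : ZMod 2) :
    c * ve F α β = ve F α β * c := by
  unfold ve
  rw [← mul_assoc, pw_comm hu, mul_assoc, pw_comm hz, mul_assoc]

theorem ve_u (α β : ZMod 2) : ve F α β * F.u = F.u * ve F α β := (ve_comm F rfl (uz F) α β).symm
theorem ve_z (α β : ZMod 2) : ve F α β * F.z = F.z * ve F α β := (ve_comm F (uz F).symm rfl α β).symm

theorem ve_add (α β γ δ : ZMod 2) : ve F α β * ve F γ δ = ve F (α + γ) (β + δ) := by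
  unfold ve
  rw [pw_add F.u2, pw_add F.z2]
  have : pw F.z β * pw F.u γ = pw F.u γ * pw F.z β := pw_comm (pw_comm (uz F) β).symm γ
  calc pw F.u α * pw F.z β * (pw F.u γ * pw F.z δ) = pw F.u α * (pw F.z β * pw F.u γ) * pw F.z δ := by group
    _ = _ := by rw [this]; group

theorem ve_sq (α β : ZMod 2) : ve F α β * ve F α β = 1 := by
  have e : ∀ i : ZMod 2, i + i = 0 := by decide
  rw [ve_add, e, e, ve00]

theorem ve_mem {H : Subgroup G} (hu : F.u ∈ H) (hz : F.z ∈ H) (α β : ZMod 2) : ve F α β ∈ H :=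
  H.mul_mem (pw_mem hu _) (pw_mem hz _)

theorem mem_V {v : G} (hv : v ∈ closure ({F.u, F.z} : Set G)) : ∃ α β, v = ve F α β := by
  induction hv using closure_induction with
  | mem y hy =>
    rcases hy with rfl | rfl
    · exact ⟨1, 0, (ve10 F).symm⟩
    · exact ⟨0, 1, (ve01 F).symm⟩
  | one => exact ⟨0, 0, (ve00 F).symm⟩
  | mul y y' _ _ h h' =>
    obtain ⟨α, β, rfl⟩ := h
    obtain ⟨γ, δ, rfl⟩ := h'
    exact ⟨_, _, ve_add F α β γ δ⟩
  | inv y _ h =>
    obtain ⟨α, β, rfl⟩ := h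
    exact ⟨α, β, inv_eq_of_mul_eq_one_right (ve_sq F α β)⟩

theorem act_pw {c y : G} {α β : ZMod 2} (h : c⁻¹ * y * c = y * ve F α β) (i : ZMod 2) :
    (pw c i)⁻¹ * y * pw c i = y * ve F (i * α) (i * β) := by
  rcases zc i with rfl | rfl
  · simp [ve00]
  · simpa using h

theorem act_mul' {c d y : G} {α β γ δ : ZMod 2} (h1 : c⁻¹ * y * c = y * ve F α β)
    (h2 : d⁻¹ * y * d = y * ve F γ δ) (hu : d * F.u = F.u * d) (hz : d * F.z = F.z * d) :
    (c * d)⁻¹ * y * (c * d) = y * ve F (α + γ) (β + δ) := by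
  rw [act_mul h1 h2 (ve_comm F hu hz _ _), ve_add, add_comm γ, add_comm δ]

theorem act0 {c y : G} (h : c * y = y * c) : c⁻¹ * y * c = y * ve F 0 0 := by
  rw [ve00, mul_one]; exact act_of_comm h

/-- `x` acts on `V₀`. -/
theorem ve_x (α β : ZMod 2) : F.x⁻¹ * ve F α β * F.x = ve F α (α + β) := by
  have e : (1 + 1 : ZMod 2) = 0 := rfl
  rcases zc α with rfl | rfl <;> rcases zc β with rfl | rfl
  · simp [ve00]
  · simpa [ve01] using zx' F
  · simpa [ve10, ve11] using ux' F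
  · rw [ve11, e, ve10]
    calc F.x⁻¹ * (F.u * F.z) * F.x = (F.x⁻¹ * F.u * F.x) * (F.x⁻¹ * F.z * F.x) := by group
      _ = F.u := by rw [ux', zx', mul_assoc, F.z2, mul_one]

/-- elements of `E`. -/
theorem mem_E {c : G} (hc : c ∈ closure ({F.t, F.u, F.a, F.z} : Set G)) :
    ∃ i j α β, c = pw F.t i * pw F.a j * ve F α β := by
  have hm : ∀ i j α β i' j' γ δ, pw F.t i * pw F.a j * ve F α β * (pw F.t i' * pw F.a j' * ve F γ δ) =
      pw F.t (i + i') * pw F.a (j + j') * ve F (α + γ) (β + δ) := by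
    intro i j α β i' j' γ δ
    rw [pw_add F.t2, pw_add F.a2, ← ve_add]
    have h1 : ve F α β * pw F.t i' = pw F.t i' * ve F α β := pw_comm (ve_comm F F.tu (tz F) _ _).symm _
    have h2 : ve F α β * pw F.a j' = pw F.a j' * ve F α β := pw_comm (ve_comm F F.au (az F) _ _).symm _
    have h3 : pw F.a j * pw F.t i' = pw F.t i' * pw F.a j := pw_comm (pw_comm F.ta j).symm _
    calc pw F.t i * pw F.a j * ve F α β * (pw F.t i' * pw F.a j' * ve F γ δ)
        = pw F.t i * pw F.a j * (ve F α β * pw F.t i') * pw F.a j' * ve F γ δ := by group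
      _ = pw F.t i * (pw F.a j * pw F.t i') * (ve F α β * pw F.a j') * ve F γ δ := by rw [h1]; group
      _ = _ := by rw [h2, h3]; group
  induction hc using closure_induction with
  | mem y hy =>
    rcases hy with rfl | rfl | rfl | rfl
    · exact ⟨1, 0, 0, 0, by simp [ve00]⟩
    · exact ⟨0, 0, 1, 0, by simp [ve10]⟩
    · exact ⟨0, 1, 0, 0, by simp [ve00]⟩
    · exact ⟨0, 0, 0, 1, by simp [ve01]⟩
  | one => exact ⟨0, 0, 0, 0, by simp [ve00]⟩
  | mul y y' _ _ h h' =>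
    obtain ⟨i, j, α, β, rfl⟩ := h
    obtain ⟨i', j', γ, δ, rfl⟩ := h'
    exact ⟨_, _, _, _, hm ..⟩
  | inv y _ h =>
    obtain ⟨i, j, α, β, rfl⟩ := h
    refine ⟨i, j, α, β, inv_eq_of_mul_eq_one_right ?_⟩
    have e : ∀ i : ZMod 2, i + i = 0 := by decide
    rw [hm, e, e, e, e]; simp [ve00]

/-- elements of `A`. -/
theorem mem_A {c : G} (hc : c ∈ closure ({F.a, F.z} : Set G)) : ∃ j β, c = pw F.a j * ve F 0 β := by
  have hm : ∀ j β j' δ, pw F.a j * ve F 0 β * (pw F.a j' * ve F 0 δ) = pw F.a (j + j') * ve F 0 (β + δ) := by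
    intro j β j' δ
    rw [pw_add F.a2, ← add_zero (0 : ZMod 2), ← ve_add, add_zero]
    have h2 : ve F 0 β * pw F.a j' = pw F.a j' * ve F 0 β := pw_comm (ve_comm F F.au (az F) _ _).symm _
    calc pw F.a j * ve F 0 β * (pw F.a j' * ve F 0 δ) = pw F.a j * (ve F 0 β * pw F.a j') * ve F 0 δ := by group
      _ = _ := by rw [h2]; group
  induction hc using closure_induction with
  | mem y hy =>
    rcases hy with rfl | rfl
    · exact ⟨1, 0, by simp [ve00]⟩
    · exact ⟨0, 1, by simp [ve01]⟩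
  | one => exact ⟨0, 0, by simp [ve00]⟩
  | mul y y' _ _ h h' =>
    obtain ⟨j, β, rfl⟩ := h
    obtain ⟨j', δ, rfl⟩ := h'
    exact ⟨_, _, hm ..⟩
  | inv y _ h =>
    obtain ⟨j, β, rfl⟩ := h
    refine ⟨j, β, inv_eq_of_mul_eq_one_right ?_⟩
    have e : ∀ i : ZMod 2, i + i = 0 := by decide
    rw [hm, e, e]; simp [ve00]

end Rel

end Cfsg.Agent.WA.H3.TC
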