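import Cfsg.Agent.WA.H3C1
import Cfsg.Agent.WA.H3W0

/-! S3139, module H3C, part 2: the group `W` of order 128 and its generators. -/

set_option autoImplicit false

namespace Cfsg.Agent.WA.H3.TC

open Subgroup

section F2

variable {G : Type*} [Group G] [Finite G] (F : F2 G)

/-- normal form in `C₀` -/
def nf0 (i j k α β : ZMod 2) : G := pw F.t i * pw F.a j * pw F.s k * ve F α β

omit [Finite G] in
theorem nf0_eq (i j k α β : ZMod 2) :
    nf0 F i j k α β = pw F.t i * pw F.u α * pw F.z β * pw F.a j * pw F.s k := by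
  have h1 : pw F.a j * ve F α β = ve F α β * pw F.a j := (pw_comm (ve_comm F F.au (az F) _ _).symm _).symm
  have h2 : pw F.s k * ve F α β = ve F α β * pw F.s k := (pw_comm (ve_comm F (su F) (sz F) _ _).symm _).symm
  calc nf0 F i j k α β = pw F.t i * pw F.a j * (pw F.s k * ve F α β) := by unfold nf0; group
    _ = pw F.t i * (pw F.a j * ve F α β) * pw F.s k := by rw [h2]; group
    _ = _ := by rw [h1]; unfold ve; group

theorem mem_C0 {c : G} (hc : c ∈ closure ({F.t, F.u, F.a, F.s} : Set G)) : ∃ i j k α β, c = nf0 F i j k α β := by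
  obtain ⟨i, j, k, l, m, h⟩ := F.nf.1 c hc
  exact ⟨i, l, m, j, k, h.trans (nf0_eq F i l m j k).symm⟩

theorem nf0_inj {i j k α β : ZMod 2} (h : nf0 F i j k α β = 1) : i = 0 ∧ j = 0 ∧ k = 0 ∧ α = 0 ∧ β = 0 := by
  rw [nf0_eq] at h
  obtain ⟨h1, h2, h3, h4, h5⟩ := F.nf.2 i α β j k h
  exact ⟨h1, h4, h5, h2, h3⟩

theorem ve_inj {α β γ δ : ZMod 2} (h : ve F α β = ve F γ δ) : α = γ ∧ β = δ := by
  have : nf0 F 0 0 0 (α + γ) (β + δ) = 1 := by
    simp only [nf0, pw_zero, one_mul]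
    rw [← ve_add, h, ve_sq]
  obtain ⟨-, -, -, h4, h5⟩ := nf0_inj F this
  have e : ∀ i j : ZMod 2, i + j = 0 → i = j := by decide
  exact ⟨e _ _ h4, e _ _ h5⟩

theorem act_inj {c y : G} {α β γ δ : ZMod 2} (h1 : c⁻¹ * y * c = y * ve F α β) (h2 : c⁻¹ * y * c = y * ve F γ δ) :
    α = γ ∧ β = δ := ve_inj F (mul_left_cancel (h1.symm.trans h2))

omit [Finite G] in
theorem tC0 : F.t ∈ closure ({F.t, F.u, F.a, F.s} : Set G) := subset_closure (by simp)
omit [Finite G] in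
theorem uC0 : F.u ∈ closure ({F.t, F.u, F.a, F.s} : Set G) := subset_closure (by simp)
omit [Finite G] in
theorem aC0 : F.a ∈ closure ({F.t, F.u, F.a, F.s} : Set G) := subset_closure (by simp)
omit [Finite G] in
theorem sC0 : F.s ∈ closure ({F.t, F.u, F.a, F.s} : Set G) := subset_closure (by simp)
omit [Finite G] in
theorem zC0 : F.z ∈ closure ({F.t, F.u, F.a, F.s} : Set G) := by
  have : F.z = F.a⁻¹ * (F.s⁻¹ * F.a * F.s) := by rw [as']; group
  rw [this]
  exact mul_mem (inv_mem (aC0 F)) (mul_mem (mul_mem (inv_mem (sC0 F)) (aC0 F)) (sC0 F))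

theorem cen_C0 {U : Subgroup G} (hU : IsPGroup 2 U) (h0 : closure ({F.t, F.u, F.a, F.s} : Set G) ≤ U)
    (hC : U ≤ centralizer ({F.u, F.z} : Set G)) :
    U ⊓ centralizer ({F.t} : Set G) = closure ({F.t, F.u, F.a, F.s} : Set G) := by
  have hle : closure ({F.t, F.u, F.a, F.s} : Set G) ≤ U ⊓ centralizer ({F.t} : Set G) := by
    refine le_inf h0 ?_
    rw [closure_le]
    intro y hy
    rw [SetLike.mem_coe, mem_centralizer_singleton_iff]
    rcases hy with rfl | rfl | rfl | rfl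
    · rfl
    · exact F.tu.symm
    · exact F.ta.symm
    · exact (ts F).symm
  have hb := F.bU (U ⊓ centralizer ({F.t} : Set G)) (hU.to_le inf_le_left) (by
    intro g hg
    rw [mem_centralizer_iff]
    intro y hy
    rcases hy with rfl | rfl
    · exact (mem_centralizer_singleton_iff.1 hg.2).symm
    · exact mem_centralizer_iff.1 (hC hg.1) _ (by simp))
  exact (eq_of_le_of_card_ge hle (by rw [F.c0.2.1]; exact hb)).symm

omit [Finite G] in
theorem act_nf0 {y : G} {α1 β1 α2 β2 α3 β3 : ZMod 2} (h1 : F.t⁻¹ * y * F.t = y * ve F α1 β1)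
    (h2 : F.a⁻¹ * y * F.a = y * ve F α2 β2) (h3 : F.s⁻¹ * y * F.s = y * ve F α3 β3)
    (hu : y * F.u = F.u * y) (hz : y * F.z = F.z * y) (i j k α β : ZMod 2) :
    (nf0 F i j k α β)⁻¹ * y * nf0 F i j k α β =
      y * ve F (i * α1 + j * α2 + k * α3) (i * β1 + j * β2 + k * β3) := by
  have a1 := act_mul' F (act_pw F h1 i) (act_pw F h2 j) (pw_comm F.au.symm j).symm (pw_comm (az F).symm j).symm
  have a2 := act_mul' F a1 (act_pw F h3 k) (pw_comm (su F).symm k).symm (pw_comm (sz F).symm k).symm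
  have a3 := act_mul' F a2 (act0 F (ve_comm F hu hz α β).symm) (ve_u F α β) (ve_z F α β)
  simpa [nf0] using a3

/-- centre of `C₀` -/
theorem cen0 {c : G} (hc : c ∈ closure ({F.t, F.u, F.a, F.s} : Set G)) (ha : c⁻¹ * F.a * c = F.a)
    (hs : c⁻¹ * F.s * c = F.s) : ∃ i α β, c = pw F.t i * ve F α β := by
  obtain ⟨i, j, k, α, β, rfl⟩ := mem_C0 F hc
  have h1 := act_nf0 F (y := F.a) (act0 F F.ta) (act0 F rfl) (by rw [ve01]; exact as' F) F.au (az F) i j k α β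
  have h2 := act_nf0 F (y := F.s) (act0 F (ts F)) (by rw [ve01]; exact sa' F) (act0 F rfl) (su F) (sz F) i j k α β
  have e1 := (act_inj F h1 (γ := 0) (δ := 0) (by rw [ve00, mul_one]; exact ha)).2
  have e2 := (act_inj F h2 (γ := 0) (δ := 0) (by rw [ve00, mul_one]; exact hs)).2
  simp only [mul_zero, mul_one, zero_add, add_zero] at e1 e2
  subst e1 e2
  exact ⟨i, α, β, by simp [nf0]⟩

omit [Finite G] in
theorem cj_za : IsConj F.z F.a := by rw [← F.ρz]; exact isConj_act _ _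

omit [Finite G] in
theorem cj_ua : IsConj F.u (F.a * F.u) := by
  obtain ⟨k, -, hk⟩ := F.fus
  rw [F.au, ← hk]
  exact (by rw [hk]; exact (by have := isConj_act (F.u * F.a) k; rw [hk] at this; exact this.symm))

end F2

section F3

variable {G : Type*} [Group G] [Finite G] (F : F3 G)

theorem ncF (j α β : ZMod 2) : ¬ IsConj F.t (pw F.a j * ve F.toF2 α β) := by
  intro h
  have hz : ∀ y, IsConj F.z y → ¬ IsConj F.t y := fun y h1 h2 => F.nz (h2.trans h1.symm)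
  have hu : ∀ y, IsConj F.u y → ¬ IsConj F.t y := fun y h1 h2 => F.nu (h2.trans h1.symm)
  have asv : ∀ α β, F.s⁻¹ * (F.a * ve F.toF2 α β) * F.s = F.a * ve F.toF2 α (β + 1) := by
    intro α β
    have := act_prod (c := F.s) (y := F.a) (y' := ve F.toF2 α β) (e := ve F.toF2 0 1) (e' := 1)
      (by rw [ve01]; exact as' F.toF2) (by rw [mul_one]; exact act_of_comm (ve_comm F.toF2 (su _) (sz _) α β))
      (by rw [ve_add, ve_add, add_comm α, add_comm β])
    rw [this, mul_one, mul_assoc, ve_add, add_zero]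
  rcases zc j with rfl | rfl
  · rw [pw_zero, one_mul] at h
    rcases zc α with rfl | rfl <;> rcases zc β with rfl | rfl
    · rw [ve00, isConj_one_left] at h
      have : nf0 F.toF2 1 0 0 0 0 = 1 := by simp [nf0, ve00, h]
      exact absurd (nf0_inj _ this).1 (by decide)
    · rw [ve01] at h; exact F.nz h
    · rw [ve10] at h; exact F.nu h
    · rw [ve11, ← ux'] at h; exact hu _ (isConj_act _ _) h
  · rw [pw_one] at h
    have h0 : IsConj F.t (F.a * ve F.toF2 α 0) := by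
      rcases zc β with rfl | rfl
      · exact h
      · have := isConj_act (F.a * ve F.toF2 α 1) F.s
        rw [asv] at this
        exact h.trans this
    rcases zc α with rfl | rfl
    · rw [ve00, mul_one] at h0; exact hz _ (cj_za _) h0
    · rw [ve10] at h0; exact hu _ (cj_ua _) h0

theorem ncS (α β : ZMod 2) : ¬ IsConj F.t (F.s * ve F.toF2 α β) := by
  intro h
  have e : F.x⁻¹ * (pw F.a 1 * ve F.toF2 α (α + β)) * F.x = F.s * ve F.toF2 α β := by
    have e2 : ∀ α β : ZMod 2, α + (α + β) = β := by decide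
    calc F.x⁻¹ * (pw F.a 1 * ve F.toF2 α (α + β)) * F.x
        = (F.x⁻¹ * F.a * F.x) * (F.x⁻¹ * ve F.toF2 α (α + β) * F.x) := by rw [pw_one]; group
      _ = _ := by rw [F.hs, ve_x, e2]
  have := isConj_act (pw F.a 1 * ve F.toF2 α (α + β)) F.x
  rw [e] at this
  exact ncF F _ _ _ (h.trans this.symm)

/-- no element of `C(t) ∩ N(E)` maps `z` to `u z`. -/
theorem noA {h : G} (ht : h * F.t = F.t * h)
    (hE : h ∈ normalizer ((closure ({F.t, F.u, F.a, F.z} : Set G) : Subgroup G) : Set G))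
    (hz : h⁻¹ * F.z * h = ve F.toF2 1 1) : False := by
  have hA := conj_mem (F.act h ht hE).2 (subset_closure (show F.z ∈ ({F.a, F.z} : Set G) by simp))
  obtain ⟨j, β, e⟩ := mem_A F.toF2 hA
  rw [hz] at e
  have : nf0 F.toF2 0 j 0 (0 + 1) (β + 1) = 1 := by
    simp only [nf0, pw_zero, one_mul, mul_one]
    rw [← ve_add, ← mul_assoc, ← e, ve_sq]
  exact absurd (nf0_inj _ this).2.2.2.1 (by decide)

/-- the group `W` with its generators. -/
structure WD (F : F3 G) where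
  W : Subgroup G
  y1 : G
  y2 : G
  pW : IsPGroup 2 W
  cardW : Nat.card W = 128
  C0W : closure ({F.t, F.u, F.a, F.s} : Set G) ≤ W
  WC : W ≤ centralizer ({F.u, F.z} : Set G)
  WN : W ≤ normalizer ((closure ({F.t, F.u, F.a, F.z} : Set G) : Subgroup G) : Set G)
  tW : ∀ g ∈ W, ∃ α β, g⁻¹ * F.t * g = F.t * ve F.toF2 α β
  y1W : y1 ∈ W
  y2W : y2 ∈ W
  hy : F.x⁻¹ * y1 * F.x = y2
  t1 : y1⁻¹ * F.t * y1 = F.t * ve F.toF2 1 0
  t2 : y2⁻¹ * F.t * y2 = F.t * ve F.toF2 1 1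
  a1 : y1⁻¹ * F.a * y1 = F.a * ve F.toF2 0 0
  a2 : y2⁻¹ * F.a * y2 = F.a * ve F.toF2 1 1
  s1 : y1⁻¹ * F.s * y1 = F.s * ve F.toF2 1 0
  s2 : y2⁻¹ * F.s * y2 = F.s * ve F.toF2 0 0
  c12 : y1 * y2 = y2 * y1

omit [Finite G] in
theorem cu {g : G} (h : g ∈ centralizer ({F.u, F.z} : Set G)) : g * F.u = F.u * g :=
  (mem_centralizer_iff.1 h _ (by simp)).symm

omit [Finite G] in
theorem cz {g : G} (h : g ∈ centralizer ({F.u, F.z} : Set G)) : g * F.z = F.z * g :=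
  (mem_centralizer_iff.1 h _ (by simp)).symm

theorem qN {q : G} (qz : q * F.z = F.z * q) (qa : q⁻¹ * F.a * q = F.a * F.u) (qu : q * F.u = F.u * q)
    (qt : q⁻¹ * F.t * q = F.t * F.z) :
    q ∈ normalizer ((closure ({F.t, F.u, F.a, F.z} : Set G) : Subgroup G) : Set G) := by
  apply nrm_of_gens
  have m : ∀ y ∈ ({F.t, F.u, F.a, F.z} : Set G), y ∈ closure ({F.t, F.u, F.a, F.z} : Set G) :=
    fun y hy => subset_closure hy
  intro y hy
  rcases hy with rfl | rfl | rfl | rfl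
  · rw [qt]; exact mul_mem (m _ (by simp)) (m _ (by simp))
  · rw [act_of_comm qu]; exact m _ (by simp)
  · rw [qa]; exact mul_mem (m _ (by simp)) (m _ (by simp))
  · rw [act_of_comm qz]; exact m _ (by simp)

theorem exists_tau (hτ : F.Hτ) (hq : F.Hq) {W : Subgroup G} (C0W : closure ({F.t, F.u, F.a, F.s} : Set G) ≤ W)
    (WC : W ≤ centralizer ({F.u, F.z} : Set G))
    (WN : W ≤ normalizer ((closure ({F.t, F.u, F.a, F.z} : Set G) : Subgroup G) : Set G))
    (xW : F.x ∈ normalizer (W : Set G)) {τ : G} (τW : τ ∈ W) (τa : τ * F.a = F.a * τ)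
    (τt : τ⁻¹ * F.t * τ = F.t * F.u) :
    ∃ τ ∈ W, τ * F.a = F.a * τ ∧ τ⁻¹ * F.t * τ = F.t * F.u ∧
      (F.x⁻¹ * τ * F.x)⁻¹ * F.a * (F.x⁻¹ * τ * F.x) = F.a * ve F.toF2 1 1 := by
  obtain ⟨τ0, τ0z, τ0a, τ0u, τ0t⟩ := hτ
  obtain ⟨q, qz, qa, qu, qt⟩ := hq
  set σ := F.x⁻¹ * τ * F.x with hσ
  have σW : σ ∈ W := conj_mem xW τW
  have σt : σ⁻¹ * F.t * σ = F.t * ve F.toF2 1 1 := by
    calc σ⁻¹ * F.t * σ = σ⁻¹ * (F.x⁻¹ * F.t * F.x) * σ := by rw [tx']
      _ = F.x⁻¹ * (τ⁻¹ * F.t * τ) * F.x := by rw [hσ]; group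
      _ = (F.x⁻¹ * F.t * F.x) * (F.x⁻¹ * F.u * F.x) := by rw [τt]; group
      _ = _ := by rw [tx', ux', ve11]
  have τ0N : τ0 ∈ normalizer ((closure ({F.t, F.u, F.a, F.z} : Set G) : Subgroup G) : Set G) := by
    apply nrm_of_gens
    have m : ∀ y ∈ ({F.t, F.u, F.a, F.z} : Set G), y ∈ closure ({F.t, F.u, F.a, F.z} : Set G) :=
      fun y hy => subset_closure hy
    intro y hy
    rcases hy with rfl | rfl | rfl | rfl
    · rw [τ0t]; exact mul_mem (m _ (by simp)) (m _ (by simp))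
    · rw [act_of_comm τ0u]; exact m _ (by simp)
    · rw [act_of_comm τ0a]; exact m _ (by simp)
    · rw [act_of_comm τ0z]; exact m _ (by simp)
  have dt : (q * τ0)⁻¹ * F.t * (q * τ0) = F.t * ve F.toF2 1 1 := by
    simpa using act_mul' F.toF2 (c := q) (d := τ0) (α := 0) (β := 1) (γ := 1) (δ := 0)
      (by rw [ve01]; exact qt) (by rw [ve10]; exact τ0t) τ0u τ0z
  have da : (q * τ0)⁻¹ * F.a * (q * τ0) = F.a * ve F.toF2 1 0 := by
    simpa using act_mul' F.toF2 (c := q) (d := τ0) (α := 1) (β := 0) (γ := 0) (δ := 0)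
      (by rw [ve10]; exact qa) (act0 _ τ0a) τ0u τ0z
  have du : q * τ0 * F.u = F.u * (q * τ0) := by rw [mul_assoc, τ0u, ← mul_assoc, qu, mul_assoc]
  have dz : q * τ0 * F.z = F.z * (q * τ0) := by rw [mul_assoc, τ0z, ← mul_assoc, qz, mul_assoc]
  set d := q * τ0 with hd
  have ht : σ * d⁻¹ * F.t = F.t * (σ * d⁻¹) := by
    apply comm_of_act
    calc (σ * d⁻¹)⁻¹ * F.t * (σ * d⁻¹) = d * (σ⁻¹ * F.t * σ) * d⁻¹ := by group
      _ = d * (d⁻¹ * F.t * d) * d⁻¹ := by rw [σt, dt]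
      _ = F.t := by group
  have hN : σ * d⁻¹ ∈ normalizer ((closure ({F.t, F.u, F.a, F.z} : Set G) : Subgroup G) : Set G) :=
    mul_mem (WN σW) (inv_mem (mul_mem (qN F qz qa qu qt) τ0N))
  have hA := conj_mem (F.act _ ht hN).2 (subset_closure (show F.a ∈ ({F.a, F.z} : Set G) by simp))
  obtain ⟨j, β, e⟩ := mem_A F.toF2 hA
  have hv : ∀ α β, (σ * d⁻¹) * ve F.toF2 α β = ve F.toF2 α β * (σ * d⁻¹) := by
    intro α β
    have h1 := ve_comm F.toF2 (cu F (WC σW)) (cz F (WC σW)) α β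
    have h2 := ve_comm F.toF2 du dz α β
    exact (Commute.mul_left (show Commute σ _ from h1) (Commute.inv_left (show Commute d _ from h2))).eq
  rcases zc j with rfl | rfl
  · exfalso
    rw [pw_zero, one_mul] at e
    have e' : F.a = ve F.toF2 0 β := by
      calc F.a = (σ * d⁻¹) * ((σ * d⁻¹)⁻¹ * F.a * (σ * d⁻¹)) * (σ * d⁻¹)⁻¹ := by group
        _ = _ := by rw [e, hv]; group
    have : nf0 F.toF2 0 1 0 0 β = 1 := by
      simp only [nf0, pw_zero, pw_one, one_mul, mul_one]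
      rw [e', ve_sq]
    exact absurd (nf0_inj _ this).2.1 (by decide)
  rw [pw_one] at e
  have σa : σ⁻¹ * F.a * σ = F.a * ve F.toF2 1 β := by
    have := act_mul' F.toF2 e da du dz
    simpa using this
  rcases zc β with rfl | rfl
  · refine ⟨τ * F.a, mul_mem τW (C0W (aC0 _)), by rw [mul_assoc, ← mul_assoc F.a τ, ← τa, mul_assoc], ?_, ?_⟩
    · have := act_mul' F.toF2 (c := τ) (d := F.a) (α := 1) (β := 0) (by rw [ve10]; exact τt) (act0 _ F.ta.symm)
        F.au (az _)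
      simpa [ve10] using this
    · have e1 : F.x⁻¹ * (τ * F.a) * F.x = σ * F.s := by rw [hσ, ← F.hs]; group
      rw [e1]
      have := act_mul' F.toF2 σa (d := F.s) (γ := 0) (δ := 1) (by rw [ve01]; exact as' _) (su _) (sz _)
      simpa using this
  · exact ⟨τ, τW, τa, τt, σa⟩

theorem exists_WD (hτ : F.Hτ) (hq : F.Hq) : Nonempty (WD F) := by
  obtain ⟨W, pW, cardW, C0W, WC, WN, xW, tW, τ', τW', τa', τt'⟩ := F.exists_W0 hτ (Or.inr hq)
  obtain ⟨τ, τW, τa, τt, σa⟩ := exists_tau F hτ hq C0W WC WN xW τW' τa' τt'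
  set σ := F.x⁻¹ * τ * F.x with hσ
  have σW : σ ∈ W := conj_mem xW τW
  have τu := cu F (WC τW)
  have τz := cz F (WC τW)
  have σu := cu F (WC σW)
  have σz := cz F (WC σW)
  have τt1 : τ⁻¹ * F.t * τ = F.t * ve F.toF2 1 0 := by rw [ve10]; exact τt
  have τa1 := act0 F.toF2 τa
  have σt : σ⁻¹ * F.t * σ = F.t * ve F.toF2 1 1 := by
    calc σ⁻¹ * F.t * σ = σ⁻¹ * (F.x⁻¹ * F.t * F.x) * σ := by rw [tx']
      _ = F.x⁻¹ * (τ⁻¹ * F.t * τ) * F.x := by rw [hσ]; group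
      _ = (F.x⁻¹ * F.t * F.x) * (F.x⁻¹ * F.u * F.x) := by rw [τt]; group
      _ = _ := by rw [tx', ux', ve11]
  have σs : σ⁻¹ * F.s * σ = F.s * ve F.toF2 0 0 := by
    rw [ve00, mul_one]
    calc σ⁻¹ * F.s * σ = F.x⁻¹ * (τ⁻¹ * F.a * τ) * F.x := by rw [hσ, ← F.hs]; group
      _ = F.s := by rw [act_of_comm τa, F.hs]
  have τs : τ⁻¹ * F.s * τ = F.s * ve F.toF2 1 0 := by
    have e1 : σ⁻¹ * (F.a * F.z) * σ = F.a * F.z * ve F.toF2 1 1 := by
      have := act_prod σa (y' := F.z) (e' := 1) (by rw [mul_one]; exact act_of_comm σz) (ve_z _ _ _).symm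
      rwa [mul_one] at this
    have e2 : F.x⁻¹ * (τ⁻¹ * F.s * τ) * F.x = F.x⁻¹ * (F.s * ve F.toF2 1 0) * F.x := by
      calc F.x⁻¹ * (τ⁻¹ * F.s * τ) * F.x = σ⁻¹ * (F.x⁻¹ * F.s * F.x) * σ := by rw [hσ]; group
        _ = F.a * F.z * ve F.toF2 1 1 := by rw [sx', e1]
        _ = (F.x⁻¹ * F.s * F.x) * (F.x⁻¹ * ve F.toF2 1 0 * F.x) := by rw [sx', ve_x, add_zero]
        _ = _ := by group
    exact mul_left_cancel (mul_right_cancel e2)
  have hC0 := cen_C0 F.toF2 pW C0W WC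
  have inC0 : ∀ c ∈ W, c⁻¹ * F.t * c = F.t → c ∈ closure ({F.t, F.u, F.a, F.s} : Set G) := by
    intro c hc h
    rw [← hC0]
    exact mem_inf.2 ⟨hc, mem_centralizer_singleton_iff.2 (comm_of_act h)⟩
  have e11 : (1 + 1 : ZMod 2) = 0 := rfl
  -- `τ²`
  have τ2 : ∃ α β, τ * τ = ve F.toF2 α β := by
    have h1 := act_mul' F.toF2 τt1 τt1 τu τz
    have h2 := act_mul' F.toF2 τa1 τa1 τu τz
    have h3 := act_mul' F.toF2 τs τs τu τz
    simp only [e11, add_zero, ve00, mul_one] at h1 h2 h3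
    obtain ⟨i, α, β, e⟩ := cen0 F.toF2 (inC0 _ (mul_mem τW τW) h1) h2 h3
    rcases zc i with rfl | rfl
    · exact ⟨α, β, by simpa using e⟩
    · exfalso
      rw [pw_one] at e
      have h4 := act_prod τt1 (y' := ve F.toF2 α β) (e' := 1)
        (by rw [mul_one]; exact act_of_comm (ve_comm _ τu τz _ _)) (by rw [ve_add, ve_add, add_comm α, add_comm β])
      rw [← e, mul_one] at h4
      have h5 : τ⁻¹ * (τ * τ) * τ = τ * τ * ve F.toF2 0 0 := by rw [ve00]; group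
      exact absurd (act_inj _ h4 h5).1 (by decide)
  -- the commutator
  have hc : ∃ β, σ⁻¹ * τ * σ = τ * ve F.toF2 0 β := by
    have iu : ∀ {g : G}, g * F.u = F.u * g → g⁻¹ * F.u = F.u * g⁻¹ := fun h =>
      (Commute.inv_left (show Commute _ _ from h)).eq
    have iz : ∀ {g : G}, g * F.z = F.z * g → g⁻¹ * F.z = F.z * g⁻¹ := fun h =>
      (Commute.inv_left (show Commute _ _ from h)).eq
    have cy : ∀ {y : G} {α β γ δ : ZMod 2}, τ⁻¹ * y * τ = y * ve F.toF2 α β → σ⁻¹ * y * σ = y * ve F.toF2 γ δ →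
        (τ⁻¹ * σ⁻¹ * τ * σ)⁻¹ * y * (τ⁻¹ * σ⁻¹ * τ * σ) = y := by
      intro y α β γ δ h1 h2
      have i1 := act_inv h1 (ve_comm _ τu τz _ _) (ve_sq _ _ _)
      have i2 := act_inv h2 (ve_comm _ σu σz _ _) (ve_sq _ _ _)
      have := act_mul' F.toF2 (act_mul' F.toF2 (act_mul' F.toF2 i1 i2 (iu σu) (iz σz)) h1 τu τz) h2 σu σz
      have e : ∀ a b : ZMod 2, a + b + a + b = 0 := by decide
      rwa [e, e, ve00, mul_one] at this
    obtain ⟨i, α, β, e⟩ := cen0 F.toF2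
      (inC0 _ (mul_mem (mul_mem (mul_mem (inv_mem τW) (inv_mem σW)) τW) σW) (cy τt1 σt)) (cy τa1 σa) (cy τs σs)
    have e' : σ⁻¹ * τ * σ = τ * (pw F.t i * ve F.toF2 α β) := by rw [← e]; group
    obtain ⟨γ, δ, hτ2⟩ := τ2
    have hi : i = 0 := by
      rcases zc i with rfl | rfl
      · rfl
      exfalso
      rw [pw_one] at e'
      have h4 := act_prod τt1 (y' := ve F.toF2 α β) (e' := 1)
        (by rw [mul_one]; exact act_of_comm (ve_comm _ τu τz _ _)) (by rw [ve_add, ve_add, add_comm α, add_comm β])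
      rw [mul_one] at h4
      have c2 : F.t * ve F.toF2 α β * (F.t * ve F.toF2 α β) = 1 := by
        calc F.t * ve F.toF2 α β * (F.t * ve F.toF2 α β) = F.t * (ve F.toF2 α β * F.t) * ve F.toF2 α β := by group
          _ = (F.t * F.t) * (ve F.toF2 α β * ve F.toF2 α β) := by rw [← ve_comm _ F.tu (tz _)]; group
          _ = 1 := by rw [F.t2, ve_sq, one_mul]
      have cu' : ve F.toF2 1 0 * (F.t * ve F.toF2 α β) = F.t * ve F.toF2 α β * ve F.toF2 1 0 := by
        rw [← mul_assoc, ← ve_comm _ F.tu (tz _), mul_assoc, mul_assoc, ve_add, ve_add, add_comm α, add_comm β]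
      have h5 : σ⁻¹ * (τ * τ) * σ = τ * τ * ve F.toF2 1 0 := by
        calc σ⁻¹ * (τ * τ) * σ = (σ⁻¹ * τ * σ) * (σ⁻¹ * τ * σ) := by group
          _ = τ * τ * (τ⁻¹ * (F.t * ve F.toF2 α β) * τ) * (F.t * ve F.toF2 α β) := by rw [e']; group
          _ = τ * τ * (F.t * ve F.toF2 α β) * (ve F.toF2 1 0 * (F.t * ve F.toF2 α β)) := by rw [h4]; group
          _ = τ * τ * (F.t * ve F.toF2 α β * (F.t * ve F.toF2 α β)) * ve F.toF2 1 0 := by rw [cu']; group
          _ = _ := by rw [c2, mul_one]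
      have h6 : σ⁻¹ * (τ * τ) * σ = τ * τ * ve F.toF2 0 0 := by
        rw [hτ2]; exact act0 _ (ve_comm _ σu σz _ _)
      exact absurd (act_inj _ h5 h6).1 (by decide)
    subst hi
    rw [pw_zero, one_mul] at e'
    -- `x`-invariance
    have f1 : τ⁻¹ * σ * τ = σ * ve F.toF2 α β := act_flip e' (ve_sq _ _ _)
    have τx2 : F.x⁻¹ * σ * F.x = τ * ve F.toF2 1 0 := by
      have g1 := act_flip τs (ve_sq _ _ _)
      have g2 := act_flip τa1 (ve_sq _ _ _)
      have := act_mul' F.toF2 g1 g2 F.au (az _)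
      rw [sa, add_zero, add_zero] at this
      rw [← this, hσ, pow_two]; group
    have f2 : τ⁻¹ * σ * τ = σ * ve F.toF2 α (α + β) := by
      have g : F.x⁻¹ * (σ⁻¹ * τ * σ) * F.x = σ * ve F.toF2 α (α + β) := by
        rw [e', ← ve_x, hσ]; group
      have g' : F.x⁻¹ * (σ⁻¹ * τ * σ) * F.x = (τ * ve F.toF2 1 0)⁻¹ * σ * (τ * ve F.toF2 1 0) := by
        calc F.x⁻¹ * (σ⁻¹ * τ * σ) * F.x = (F.x⁻¹ * σ * F.x)⁻¹ * (F.x⁻¹ * τ * F.x) * (F.x⁻¹ * σ * F.x) := by group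
          _ = _ := by rw [τx2]
      have g'' := act_mul' F.toF2 f1 (act0 F.toF2 (ve_comm _ σu σz 1 0).symm) (ve_u _ _ _) (ve_z _ _ _)
      rw [← g', g, add_zero, add_zero] at g''
      rw [f1, g'']
    have := (act_inj _ f1 f2).2
    have e0 : ∀ a b : ZMod 2, b = a + b → a = 0 := by decide
    have hα := e0 _ _ this
    subst hα
    exact ⟨β, e'⟩
  have tW' : ∀ g ∈ W, ∃ α β, g⁻¹ * F.t * g = F.t * ve F.toF2 α β := by
    intro g hg
    obtain ⟨v, hv, e⟩ := tW g hg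
    obtain ⟨α, β, rfl⟩ := mem_V F.toF2 hv
    exact ⟨α, β, e⟩
  obtain ⟨β, hc⟩ := hc
  rcases zc β with rfl | rfl
  · rw [ve00, mul_one] at hc
    exact ⟨⟨W, τ, σ, pW, cardW, C0W, WC, WN, tW', τW, σW, rfl, τt1, σt, τa1, σa, τs, σs, (comm_of_act hc).symm⟩⟩
  · have tWm : F.t ∈ W := C0W (tC0 _)
    have m : ∀ {g y : G} {α β : ZMod 2}, g⁻¹ * y * g = y * ve F.toF2 α β → F.t * y = y * F.t →
        (g * F.t)⁻¹ * y * (g * F.t) = y * ve F.toF2 α β := by
      intro g y α β h1 h2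
      simpa using act_mul' F.toF2 h1 (act0 _ h2) F.tu (tz _)
    refine ⟨⟨W, τ * F.t, σ * F.t, pW, cardW, C0W, WC, WN, tW', mul_mem τW tWm, mul_mem σW tWm, ?_,
      m τt1 rfl, m σt rfl, m τa1 F.ta, m σa F.ta, m τs (ts _), m σs (ts _), ?_⟩⟩
    · calc F.x⁻¹ * (τ * F.t) * F.x = σ * (F.x⁻¹ * F.t * F.x) := by rw [hσ]; group
        _ = _ := by rw [tx']
    · symm
      apply comm_of_act
      have g1 := act_prod hc σt (ve_comm _ F.tu (tz _) _ _)
      have g2 := act_prod (act_flip τt1 (ve_sq _ _ _)) (act0 F.toF2 (rfl : F.t * F.t = F.t * F.t))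
        (ve_comm _ F.tu (tz _) _ _)
      rw [ve_add] at g1 g2
      have := act_mul' F.toF2 g1 g2 F.tu (tz _)
      simpa [e11, ve00] using this

end F3

end Cfsg.Agent.WA.H3.TC
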