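import Cfsg.Agent.WA.H3C2
import Cfsg.Agent.WA.H3U5

/-! S3139, module H3C, part 3: coordinates in `W`, the element `w`. -/

set_option autoImplicit false

namespace Cfsg.Agent.WA.H3.TC

open Subgroup

theorem act_prod' {G : Type*} [Group G] (F : F2 G) {c y y' : G} {α β γ δ : ZMod 2}
    (h1 : c⁻¹ * y * c = y * ve F α β) (h2 : c⁻¹ * y' * c = y' * ve F γ δ) (hu : y' * F.u = F.u * y')
    (hz : y' * F.z = F.z * y') : c⁻¹ * (y * y') * c = y * y' * ve F (α + γ) (β + δ) := by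
  rw [act_prod h1 h2 (ve_comm F hu hz _ _), ve_add]

theorem ve_w {G : Type*} [Group G] (F : F2 G) {w : G} (hu : w * F.u = F.u * w) (hz : w⁻¹ * F.z * w = ve F 1 1)
    (α β : ZMod 2) : w⁻¹ * ve F α β * w = ve F (α + β) β := by
  have e : (1 + 1 : ZMod 2) = 0 := rfl
  rcases zc α with rfl | rfl <;> rcases zc β with rfl | rfl
  · simp [ve00]
  · simpa [ve01] using hz
  · simpa [ve10] using act_of_comm hu
  · rw [e]
    calc w⁻¹ * ve F 1 1 * w = (w⁻¹ * F.u * w) * (w⁻¹ * F.z * w) := by rw [ve11]; group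
      _ = ve F 1 0 * ve F 1 1 := by rw [act_of_comm hu, hz, ve10]
      _ = _ := by rw [ve_add, e, zero_add]

variable {G : Type*} [Group G] [Finite G] {F : F3 G}

theorem exists_q' (hq : F.Hq) :
    ∃ q ∈ normalizer ((closure ({F.t, F.u, F.a, F.z} : Set G) : Subgroup G) : Set G), q * F.u = F.u * q ∧
      q⁻¹ * F.z * q = ve F.toF2 1 1 ∧ q⁻¹ * F.t * q = F.t * F.a * ve F.toF2 0 1 := by
  obtain ⟨q, qz, qa, qu, qt⟩ := hq
  have ρN : F.ρ ∈ normalizer ((closure ({F.t, F.u, F.a, F.z} : Set G) : Subgroup G) : Set G) := by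
    apply nrm_of_gens
    have m : ∀ y ∈ ({F.t, F.u, F.a, F.z} : Set G), y ∈ closure ({F.t, F.u, F.a, F.z} : Set G) :=
      fun y hy => subset_closure hy
    intro y hy
    rcases hy with rfl | rfl | rfl | rfl
    · rw [act_of_comm F.ρt]; exact m _ (by simp)
    · rw [act_of_comm F.ρu]; exact m _ (by simp)
    · rw [F.ρa]; exact mul_mem (m _ (by simp)) (m _ (by simp))
    · rw [F.ρz]; exact m _ (by simp)
  have r1 : F.ρ * F.a * F.ρ⁻¹ = F.z := by rw [← F.ρz]; group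
  have r2 : F.ρ * F.z * F.ρ⁻¹ = F.a * F.z := by
    have : F.ρ⁻¹ * (F.a * F.z) * F.ρ = F.z := by
      calc F.ρ⁻¹ * (F.a * F.z) * F.ρ = (F.ρ⁻¹ * F.a * F.ρ) * (F.ρ⁻¹ * F.z * F.ρ) := by group
        _ = F.a * F.z * F.a := by rw [F.ρa, F.ρz]
        _ = F.z := by rw [az, mul_assoc, F.a2, mul_one]
    calc F.ρ * F.z * F.ρ⁻¹ = F.ρ * (F.ρ⁻¹ * (F.a * F.z) * F.ρ) * F.ρ⁻¹ := by rw [this]
      _ = _ := by group
  have r3 : F.ρ * F.u * F.ρ⁻¹ = F.u := by rw [F.ρu]; group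
  have r4 : F.ρ * F.t * F.ρ⁻¹ = F.t := by rw [F.ρt]; group
  refine ⟨F.ρ * q * F.ρ⁻¹, mul_mem (mul_mem ρN (qN F qz qa qu qt)) (inv_mem ρN), ?_, ?_, ?_⟩
  · exact ((Commute.mul_left (show Commute F.ρ F.u from F.ρu) (show Commute q F.u from qu)).mul_left
      (Commute.inv_left (show Commute F.ρ F.u from F.ρu))).eq
  · calc (F.ρ * q * F.ρ⁻¹)⁻¹ * F.z * (F.ρ * q * F.ρ⁻¹) = F.ρ * (q⁻¹ * (F.ρ⁻¹ * F.z * F.ρ) * q) * F.ρ⁻¹ := by group
      _ = (F.ρ * F.a * F.ρ⁻¹) * (F.ρ * F.u * F.ρ⁻¹) := by rw [F.ρz, qa]; group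
      _ = _ := by rw [r1, r3, ve11, uz]
  · calc (F.ρ * q * F.ρ⁻¹)⁻¹ * F.t * (F.ρ * q * F.ρ⁻¹) = F.ρ * (q⁻¹ * (F.ρ⁻¹ * F.t * F.ρ) * q) * F.ρ⁻¹ := by group
      _ = (F.ρ * F.t * F.ρ⁻¹) * (F.ρ * F.z * F.ρ⁻¹) := by rw [act_of_comm F.ρt, qt]; group
      _ = _ := by rw [r2, r4, ve01, mul_assoc]

/-- a conjugate of `t` in `E` -/
theorem conjE {c : G} (hc : c ∈ closure ({F.t, F.u, F.a, F.z} : Set G)) (h : IsConj F.t c) :
    ∃ α β, c = F.t * ve F.toF2 α β ∨ c = F.t * F.a * ve F.toF2 α β := by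
  obtain ⟨i, j, α, β, rfl⟩ := mem_E F.toF2 hc
  rcases zc i with rfl | rfl
  · rw [pw_zero, one_mul] at h
    exact (ncF F _ _ _ h).elim
  · rcases zc j with rfl | rfl
    · exact ⟨α, β, Or.inl (by simp)⟩
    · exact ⟨α, β, Or.inr (by simp)⟩

namespace WD

variable (D : WD F)

omit [Finite G] in
theorem wu {g : G} (hg : g ∈ D.W) : g * F.u = F.u * g := cu F (D.WC hg)
omit [Finite G] in
theorem wz {g : G} (hg : g ∈ D.W) : g * F.z = F.z * g := cz F (D.WC hg)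
omit [Finite G] in
theorem wv {g : G} (hg : g ∈ D.W) (α β : ZMod 2) : g * ve F.toF2 α β = ve F.toF2 α β * g :=
  ve_comm _ (D.wu hg) (D.wz hg) α β
omit [Finite G] in
theorem tm : F.t ∈ D.W := D.C0W (tC0 _)
omit [Finite G] in
theorem am : F.a ∈ D.W := D.C0W (aC0 _)
omit [Finite G] in
theorem sm : F.s ∈ D.W := D.C0W (sC0 _)

omit [Finite G] in
theorem trans {c d y : G} {γ : ZMod 2} (hc : c ∈ D.W) (hd : d ∈ D.W) (h1 : c⁻¹ * y * c = y * ve F.toF2 1 0)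
    (h2 : d⁻¹ * y * d = y * ve F.toF2 γ 1) (α β : ZMod 2) : ∃ g ∈ D.W, g⁻¹ * y * g = y * ve F.toF2 α β := by
  refine ⟨pw c (α + β * γ) * pw d β, mul_mem (pw_mem hc _) (pw_mem hd _), ?_⟩
  have := act_mul' F.toF2 (act_pw _ h1 (α + β * γ)) (act_pw _ h2 β) (D.wu (pw_mem hd _)) (D.wz (pw_mem hd _))
  have e1 : ∀ α β γ : ZMod 2, (α + β * γ) * 1 + β * γ = α := by decide
  have e2 : ∀ α β γ : ZMod 2, (α + β * γ) * 0 + β * 1 = β := by decide
  rwa [e1, e2] at this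

omit [Finite G] in
theorem adj {y r n : G} {α β γ δ : ZMod 2} (htr : ∀ α β, ∃ g ∈ D.W, g⁻¹ * y * g = y * ve F.toF2 α β)
    (hr : r⁻¹ * F.t * r = y * ve F.toF2 α β) (hn : n⁻¹ * F.t * n = y * ve F.toF2 γ δ) :
    ∃ g ∈ D.W, n * g * r⁻¹ * F.t = F.t * (n * g * r⁻¹) := by
  obtain ⟨g, hg, e⟩ := htr (α + γ) (β + δ)
  refine ⟨g, hg, comm_of_act ?_⟩
  have e1 : ∀ α γ : ZMod 2, α + γ + γ = α := by decide
  calc (n * g * r⁻¹)⁻¹ * F.t * (n * g * r⁻¹) = r * (g⁻¹ * (n⁻¹ * F.t * n) * g) * r⁻¹ := by group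
    _ = r * ((g⁻¹ * y * g) * (g⁻¹ * ve F.toF2 γ δ * g)) * r⁻¹ := by rw [hn]; group
    _ = r * (r⁻¹ * F.t * r) * r⁻¹ := by
        rw [e, act_of_comm (D.wv hg γ δ), mul_assoc y, ve_add, e1, e1, hr]
    _ = F.t := by group

omit [Finite G] in
theorem tr_t (α β : ZMod 2) : ∃ g ∈ D.W, g⁻¹ * F.t * g = F.t * ve F.toF2 α β :=
  D.trans D.y1W D.y2W D.t1 D.t2 α β

omit [Finite G] in
theorem tr_ta (α β : ZMod 2) : ∃ g ∈ D.W, g⁻¹ * (F.t * F.a) * g = F.t * F.a * ve F.toF2 α β := by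
  refine D.trans (γ := 0) D.y1W D.sm ?_ ?_ α β
  · simpa using act_prod' F.toF2 D.t1 D.a1 F.au (az _)
  · simpa using act_prod' F.toF2 (act0 _ (ts F.toF2).symm) (γ := 0) (δ := 1) (by rw [ve01]; exact as' _) F.au (az _)

omit [Finite G] in
theorem tr_tyy (α β : ZMod 2) :
    ∃ g ∈ D.W, g⁻¹ * (F.t * D.y1 * D.y2) * g = F.t * D.y1 * D.y2 * ve F.toF2 α β := by
  refine D.trans (γ := 1) D.y1W D.y2W ?_ ?_ α β
  · simpa using act_prod' F.toF2 (act_prod' F.toF2 D.t1 (act0 _ rfl) (D.wu D.y1W) (D.wz D.y1W)) (act0 _ D.c12)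
      (D.wu D.y2W) (D.wz D.y2W)
  · simpa using act_prod' F.toF2 (act_prod' F.toF2 D.t2 (act0 _ D.c12.symm) (D.wu D.y1W) (D.wz D.y1W)) (act0 _ rfl)
      (D.wu D.y2W) (D.wz D.y2W)

/-- an element of a `2`-group `U ≥ W` in `C(V₀)` moving `t` inside `t V₀` lies in `W`. -/
theorem mem_of_t {U : Subgroup G} (hU : IsPGroup 2 U) (hW : D.W ≤ U) (hC : U ≤ centralizer ({F.u, F.z} : Set G))
    {r : G} (hr : r ∈ U) {α β : ZMod 2} (h : r⁻¹ * F.t * r = F.t * ve F.toF2 α β) : r ∈ D.W := by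
  obtain ⟨g, hg, e⟩ := D.adj D.tr_t h (n := 1) (act0 _ (by simp))
  have : 1 * g * r⁻¹ ∈ closure ({F.t, F.u, F.a, F.s} : Set G) := by
    rw [← cen_C0 F.toF2 hU (D.C0W.trans hW) hC]
    exact mem_inf.2 ⟨mul_mem (mul_mem (one_mem _) (hW hg)) (inv_mem hr), mem_centralizer_singleton_iff.2 e⟩
  have h2 := mul_mem (inv_mem (D.C0W this)) hg
  simpa using h2

/-- normal form in `W` -/
def nf (i j k α β l m : ZMod 2) : G := nf0 F.toF2 i j k α β * (pw D.y1 l * pw D.y2 m)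

theorem mem_W {g : G} (hg : g ∈ D.W) : ∃ i j k α β l m, g = D.nf i j k α β l m := by
  obtain ⟨α, β, e⟩ := D.tW g hg
  have h := act_mul' F.toF2 (act_pw _ D.t1 (α + β)) (act_pw _ D.t2 β) (D.wu (pw_mem D.y2W _)) (D.wz (pw_mem D.y2W _))
  have e1 : ∀ α β : ZMod 2, (α + β) * 1 + β * 1 = α := by decide
  have e2 : ∀ α β : ZMod 2, (α + β) * 0 + β * 1 = β := by decide
  rw [e1, e2, ← e] at h
  have rW : pw D.y1 (α + β) * pw D.y2 β ∈ D.W := mul_mem (pw_mem D.y1W _) (pw_mem D.y2W _)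
  set r := pw D.y1 (α + β) * pw D.y2 β with hr
  have : g * r⁻¹ ∈ closure ({F.t, F.u, F.a, F.s} : Set G) := by
    rw [← cen_C0 F.toF2 D.pW D.C0W D.WC]
    refine mem_inf.2 ⟨mul_mem hg (inv_mem rW), mem_centralizer_singleton_iff.2 (comm_of_act ?_)⟩
    calc (g * r⁻¹)⁻¹ * F.t * (g * r⁻¹) = r * (g⁻¹ * F.t * g) * r⁻¹ := by group
      _ = r * (r⁻¹ * F.t * r) * r⁻¹ := by rw [h]
      _ = F.t := by group
  obtain ⟨i, j, k, γ, δ, e'⟩ := mem_C0 _ this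
  exact ⟨i, j, k, γ, δ, α + β, β, by rw [nf, ← e', ← hr]; group⟩

omit [Finite G] in
theorem act_nf {y : G} {α1 β1 α2 β2 α3 β3 α4 β4 α5 β5 : ZMod 2} (h1 : F.t⁻¹ * y * F.t = y * ve F.toF2 α1 β1)
    (h2 : F.a⁻¹ * y * F.a = y * ve F.toF2 α2 β2) (h3 : F.s⁻¹ * y * F.s = y * ve F.toF2 α3 β3)
    (h4 : D.y1⁻¹ * y * D.y1 = y * ve F.toF2 α4 β4) (h5 : D.y2⁻¹ * y * D.y2 = y * ve F.toF2 α5 β5)
    (hy : y ∈ D.W) (i j k α β l m : ZMod 2) :
    (D.nf i j k α β l m)⁻¹ * y * D.nf i j k α β l m =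
      y * ve F.toF2 (i * α1 + j * α2 + k * α3 + (l * α4 + m * α5)) (i * β1 + j * β2 + k * β3 + (l * β4 + m * β5)) :=
  act_mul' _ (act_nf0 _ h1 h2 h3 (D.wu hy) (D.wz hy) i j k α β)
    (act_mul' _ (act_pw _ h4 l) (act_pw _ h5 m) (D.wu (pw_mem D.y2W _)) (D.wz (pw_mem D.y2W _)))
    (D.wu (mul_mem (pw_mem D.y1W _) (pw_mem D.y2W _))) (D.wz (mul_mem (pw_mem D.y1W _) (pw_mem D.y2W _)))

omit [Finite G] in
theorem nf_t (i j k α β l m : ZMod 2) :
    (D.nf i j k α β l m)⁻¹ * F.t * D.nf i j k α β l m = F.t * ve F.toF2 (l + m) m := by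
  have := D.act_nf (act0 _ rfl) (act0 _ F.ta.symm) (act0 _ (ts _).symm) D.t1 D.t2 D.tm i j k α β l m
  simpa only [mul_zero, mul_one, zero_add, add_zero] using this

omit [Finite G] in
theorem nf_a (i j k α β l m : ZMod 2) :
    (D.nf i j k α β l m)⁻¹ * F.a * D.nf i j k α β l m = F.a * ve F.toF2 m (k + m) := by
  have := D.act_nf (act0 _ F.ta) (act0 _ rfl) (α3 := 0) (β3 := 1) (by rw [ve01]; exact as' _) D.a1 D.a2 D.am
    i j k α β l m
  simpa only [mul_zero, mul_one, zero_add, add_zero] using this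

omit [Finite G] in
theorem nf_s (i j k α β l m : ZMod 2) :
    (D.nf i j k α β l m)⁻¹ * F.s * D.nf i j k α β l m = F.s * ve F.toF2 l j := by
  have := D.act_nf (act0 _ (ts _)) (α2 := 0) (β2 := 1) (by rw [ve01]; exact sa' _) (act0 _ rfl) D.s1 D.s2 D.sm
    i j k α β l m
  simpa only [mul_zero, mul_one, zero_add, add_zero] using this

omit [Finite G] in
theorem nf_y1 (i j k α β l m : ZMod 2) :
    (D.nf i j k α β l m)⁻¹ * D.y1 * D.nf i j k α β l m = D.y1 * ve F.toF2 (i + k) 0 := by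
  have := D.act_nf (act_flip D.t1 (ve_sq _ _ _)) (act_flip D.a1 (ve_sq _ _ _)) (act_flip D.s1 (ve_sq _ _ _))
    (act0 _ rfl) (act0 _ D.c12.symm) D.y1W i j k α β l m
  simpa only [mul_zero, mul_one, zero_add, add_zero] using this

omit [Finite G] in
theorem nf_y2 (i j k α β l m : ZMod 2) :
    (D.nf i j k α β l m)⁻¹ * D.y2 * D.nf i j k α β l m = D.y2 * ve F.toF2 (i + j) (i + j) := by
  have := D.act_nf (act_flip D.t2 (ve_sq _ _ _)) (act_flip D.a2 (ve_sq _ _ _)) (act_flip D.s2 (ve_sq _ _ _))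
    (act0 _ D.c12) (act0 _ rfl) D.y2W i j k α β l m
  simpa only [mul_zero, mul_one, zero_add, add_zero] using this

omit [Finite G] in
theorem nf_d (i j k α β l m : ZMod 2) :
    (D.nf i j k α β l m)⁻¹ * (F.t * F.a * F.s) * D.nf i j k α β l m = F.t * F.a * F.s * ve F.toF2 0 (j + k) := by
  have := act_prod' F.toF2 (act_prod' F.toF2 (D.nf_t i j k α β l m) (D.nf_a i j k α β l m) F.au (az _))
    (D.nf_s i j k α β l m) (su _) (sz _)
  have e1 : ∀ l m : ZMod 2, l + m + m + l = 0 := by decide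
  have e2 : ∀ j k m : ZMod 2, m + (k + m) + j = j + k := by decide
  rwa [e1, e2] at this

theorem exists_w (hq : F.Hq) : ∃ w ∈ normalizer (D.W : Set G),
    w ∈ normalizer ((closure ({F.t, F.u, F.a, F.z} : Set G) : Subgroup G) : Set G) ∧ w * F.u = F.u * w ∧
      w⁻¹ * F.z * w = ve F.toF2 1 1 := by
  have : Fact (Nat.Prime 2) := ⟨Nat.prime_two⟩
  obtain ⟨q, qE, qu, qz, qt⟩ := exists_q' hq
  set K : Subgroup G := normalizer ((closure ({F.t, F.u, F.a, F.z} : Set G) : Subgroup G) : Set G) ⊓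
    centralizer ({F.u, F.z} : Set G) with hK
  have tE : F.t ∈ closure ({F.t, F.u, F.a, F.z} : Set G) := subset_closure (by simp)
  have hS : H8.IsSylowIn 2 D.W K := by
    refine ⟨le_inf D.WN D.WC, D.pW, fun Q hQ hQp hle => le_antisymm (fun r hr => ?_) hle⟩
    obtain ⟨α, β, e | e⟩ := conjE (conj_mem (hQ hr).1 tE) (isConj_act _ _)
    · exact D.mem_of_t hQp hle (hQ.trans inf_le_right) hr e
    · exfalso
      obtain ⟨g, hg, e'⟩ := D.adj D.tr_ta e qt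
      refine noA F e' (mul_mem (mul_mem qE (D.WN hg)) (inv_mem (hQ hr).1)) ?_
      calc (q * g * r⁻¹)⁻¹ * F.z * (q * g * r⁻¹) = r * (g⁻¹ * (q⁻¹ * F.z * q) * g) * r⁻¹ := by group
        _ = _ := by
          rw [qz, act_of_comm (D.wv hg 1 1), ve_comm _ (cu F (hQ hr).2) (cz F (hQ hr).2)]; group
  have qK : q ∈ normalizer (K : Set G) := by
    apply U.mem_norm
    intro y hy
    refine mem_inf.2 ⟨mul_mem (mul_mem (inv_mem qE) hy.1) qE, U.mem_cen2.2 ⟨?_, ?_⟩⟩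
    · exact (((Commute.inv_left (show Commute q F.u from qu)).mul_left
        (show Commute y F.u from cu F hy.2)).mul_left (show Commute q F.u from qu)).eq
    · have e := ve_w F.toF2 qu qz 1 1
      rw [show (1 + 1 : ZMod 2) = 0 from rfl, ve01] at e
      calc q⁻¹ * y * q * F.z = q⁻¹ * (y * ve F.toF2 1 1) * q := by rw [← e]; group
        _ = F.z * (q⁻¹ * y * q) := by rw [ve_comm _ (cu F hy.2) (cz F hy.2), ← e]; group
  obtain ⟨k, hk, hw⟩ := hS.frattini qK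
  refine ⟨k * q, hw, mul_mem hk.1 qE, ?_, ?_⟩
  · rw [mul_assoc, qu, ← mul_assoc, cu F hk.2, mul_assoc]
  · calc (k * q)⁻¹ * F.z * (k * q) = q⁻¹ * (k⁻¹ * F.z * k) * q := by group
      _ = _ := by rw [act_of_comm (cz F hk.2), qz]

theorem key (hq : F.Hq) : D.y1 * D.y1 = ve F.toF2 1 0 ∧ D.y2 * D.y2 = ve F.toF2 1 1 ∧
    (∀ α β, ¬ IsConj F.t (F.t * D.y1 * ve F.toF2 α β)) ∧ ∀ α β, ¬ IsConj F.t (F.t * D.y2 * ve F.toF2 α β) := by
  obtain ⟨w, wW, wE, wu, wz⟩ := D.exists_w hq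
  have tE : F.t ∈ closure ({F.t, F.u, F.a, F.z} : Set G) := subset_closure (by simp)
  have aE : F.a ∈ closure ({F.t, F.u, F.a, F.z} : Set G) := subset_closure (by simp)
  have wv := ve_w F.toF2 wu wz
  have wv' : ∀ α β, w⁻¹ * ve F.toF2 (α + β) β * w = ve F.toF2 α β := by
    intro α β
    have e : ∀ α β : ZMod 2, α + β + β = α := by decide
    rw [wv, e]
  -- `t ^ w`
  obtain ⟨α1, β1, ht⟩ : ∃ α β, w⁻¹ * F.t * w = F.t * F.a * ve F.toF2 α β := by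
    obtain ⟨α, β, e | e⟩ := conjE (conj_mem wE tE) (isConj_act _ _)
    · exfalso
      obtain ⟨g, hg, e'⟩ := D.adj D.tr_t (r := 1) (act0 _ (by simp)) e
      refine noA F e' (mul_mem (mul_mem wE (D.WN hg)) (inv_mem (one_mem _))) ?_
      calc (w * g * 1⁻¹)⁻¹ * F.z * (w * g * 1⁻¹) = g⁻¹ * (w⁻¹ * F.z * w) * g := by group
        _ = _ := by rw [wz, act_of_comm (D.wv hg 1 1)]
    · exact ⟨α, β, e⟩
  -- `a ^ w`
  obtain ⟨α2, β2, ha⟩ : ∃ α β, w⁻¹ * F.a * w = F.a * ve F.toF2 α β := by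
    obtain ⟨i, j, α, β, e⟩ := mem_E F.toF2 (conj_mem wE aE)
    have na : ¬ IsConj F.t (w⁻¹ * F.a * w) := fun h =>
      ncF F 1 0 0 (by rw [pw_one, ve00, mul_one]; exact h.trans (isConj_act _ _).symm)
    rcases zc i with rfl | rfl <;> rcases zc j with rfl | rfl
    · exfalso
      simp only [pw_zero, one_mul] at e
      rw [← wv'] at e
      have e' : F.a = ve F.toF2 (α + β) β := mul_left_cancel (mul_right_cancel e)
      have : nf0 F.toF2 0 1 0 (α + β) β = 1 := by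
        simp only [nf0, pw_zero, pw_one, one_mul, mul_one]
        rw [e', ve_sq]
      exact absurd (nf0_inj _ this).2.1 (by decide)
    · exact ⟨α, β, by simpa using e⟩
    · exfalso
      obtain ⟨g, -, hg⟩ := D.tr_t α β
      apply na
      rw [e, pw_one, pw_zero, mul_one, ← hg]
      exact isConj_act _ _
    · exfalso
      obtain ⟨g, -, hg⟩ := D.tr_ta α β
      obtain ⟨g', -, hg'⟩ := D.tr_ta α1 β1
      apply na
      rw [e, pw_one, pw_one, ← hg]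
      have h1 := isConj_act F.t w
      rw [ht, ← hg'] at h1
      exact (h1.trans (isConj_act _ _).symm).trans (isConj_act _ _)
  -- `d ^ w`
  have dW : F.t * F.a * F.s ∈ D.W := mul_mem (mul_mem D.tm D.am) D.sm
  have d2 : F.t * F.a * F.s * (F.t * F.a * F.s) = F.z := by
    calc F.t * F.a * F.s * (F.t * F.a * F.s) = F.t * F.a * (F.s * F.t) * F.a * F.s := by group
      _ = F.t * (F.a * F.t) * (F.s * F.a * F.s) := by rw [← ts]; group
      _ = (F.t * F.t) * F.a * (F.s⁻¹ * F.a * F.s) := by rw [← F.ta, si]; group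
      _ = F.z := by rw [F.t2, as', one_mul, ← mul_assoc, F.a2, one_mul]
  set d := F.t * F.a * F.s with hd
  have dc : ∀ c ∈ D.W, ∃ β, (w⁻¹ * d * w)⁻¹ * c * (w⁻¹ * d * w) = c * ve F.toF2 β β := by
    intro c hc
    obtain ⟨i, j, k, α, β, l, m, e⟩ := D.mem_W (U.conj_mem' wW hc)
    have h1 := act_flip (D.nf_d i j k α β l m) (ve_sq _ _ _)
    rw [← e, ← hd] at h1
    refine ⟨j + k, ?_⟩
    calc (w⁻¹ * d * w)⁻¹ * c * (w⁻¹ * d * w) = w⁻¹ * (d⁻¹ * (w * c * w⁻¹) * d) * w := by group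
      _ = c * (w⁻¹ * ve F.toF2 0 (j + k) * w) := by rw [h1]; group
      _ = _ := by rw [wv, zero_add]
  obtain ⟨α3, β3, hdw⟩ : ∃ α β, w⁻¹ * d * w = ve F.toF2 α β * D.y2 := by
    obtain ⟨i, j, k, α, β, l, m, e⟩ := D.mem_W (conj_mem wW dW)
    obtain ⟨b1, h1⟩ := dc _ D.tm
    obtain ⟨b2, h2⟩ := dc _ D.am
    obtain ⟨b3, h3⟩ := dc _ D.sm
    obtain ⟨b4, h4⟩ := dc _ D.y1W
    rw [e] at h1 h2 h3 h4
    obtain ⟨e1, e1'⟩ := act_inj _ h1 (D.nf_t ..)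
    obtain ⟨e2, e2'⟩ := act_inj _ h2 (D.nf_a ..)
    obtain ⟨e3, e3'⟩ := act_inj _ h3 (D.nf_s ..)
    obtain ⟨e4, e4'⟩ := act_inj _ h4 (D.nf_y1 ..)
    have : ∀ i j k l m : ZMod 2, l + m = m → m = k + m → l = j → i + k = 0 → i = 0 ∧ j = 0 ∧ k = 0 ∧ l = 0 := by
      decide
    obtain ⟨rfl, rfl, rfl, rfl⟩ := this i j k l m (e1.symm.trans e1') (e2.symm.trans e2') (e3.symm.trans e3')
      (e4.symm.trans e4')
    simp only [nf, nf0, pw_zero, one_mul] at e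
    rcases zc m with rfl | rfl
    · exfalso
      rw [pw_zero, mul_one] at e
      have h5 : ve F.toF2 1 1 = ve F.toF2 0 0 := by
        calc ve F.toF2 1 1 = (w⁻¹ * d * w) * (w⁻¹ * d * w) := by rw [← wz, ← d2]; group
          _ = _ := by rw [e, ve_sq, ve00]
      exact absurd (ve_inj _ h5).1 (by decide)
    · exact ⟨α, β, by rw [e, pw_one]⟩
  have y22 : D.y2 * D.y2 = ve F.toF2 1 1 := by
    calc D.y2 * D.y2 = (ve F.toF2 α3 β3 * ve F.toF2 α3 β3) * (D.y2 * D.y2) := by rw [ve_sq, one_mul]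
      _ = ve F.toF2 α3 β3 * (D.y2 * ve F.toF2 α3 β3) * D.y2 := by rw [D.wv D.y2W]; group
      _ = (w⁻¹ * d * w) * (w⁻¹ * d * w) := by rw [hdw]; group
      _ = _ := by rw [← wz, ← d2]; group
  have n2 : ∀ α β, ¬ IsConj F.t (F.t * D.y2 * ve F.toF2 α β) := by
    intro α β h
    have hs : F.s = F.a * F.t * d := by
      rw [hd, ← F.ta]
      calc F.s = (F.t * F.t) * (F.a * F.a) * F.s := by rw [F.t2, F.a2]; group
        _ = F.t * (F.t * F.a) * F.a * F.s := by group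
        _ = F.t * (F.a * F.t) * F.a * F.s := by rw [F.ta]
        _ = _ := by group
    have hsw : w⁻¹ * F.s * w = F.t * D.y2 * ve F.toF2 (α2 + α1 + α3) (β2 + β1 + β3) := by
      have c1 := D.wv (mul_mem D.tm D.am) α2 β2
      calc w⁻¹ * F.s * w = (w⁻¹ * F.a * w) * (w⁻¹ * F.t * w) * (w⁻¹ * d * w) := by rw [hs]; group
        _ = F.a * (ve F.toF2 α2 β2 * (F.t * F.a)) * ve F.toF2 α1 β1 * ve F.toF2 α3 β3 * D.y2 := by
          rw [ha, ht, hdw]; group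
        _ = (F.a * F.t) * F.a * (ve F.toF2 α2 β2 * ve F.toF2 α1 β1 * ve F.toF2 α3 β3 * D.y2) := by
          rw [← c1]; group
        _ = _ := by
          rw [ve_add, ve_add, ← D.wv D.y2W, ← F.ta, mul_assoc F.t F.a F.a, F.a2, mul_one, mul_assoc]
    have e : ∀ a b : ZMod 2, a + (a + b) = b := by decide
    refine ncS F (α2 + α1 + α3 + α + (β2 + β1 + β3 + β)) (β2 + β1 + β3 + β) (h.trans ?_)
    have e2 : F.t * D.y2 * ve F.toF2 α β =
        w⁻¹ * (F.s * ve F.toF2 (α2 + α1 + α3 + α + (β2 + β1 + β3 + β)) (β2 + β1 + β3 + β)) * w := by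
      calc F.t * D.y2 * ve F.toF2 α β = (w⁻¹ * F.s * w) *
            (w⁻¹ * ve F.toF2 (α2 + α1 + α3 + α + (β2 + β1 + β3 + β)) (β2 + β1 + β3 + β) * w) := by
            rw [hsw, wv', mul_assoc _ (ve _ _ _), ve_add, e, e]
        _ = _ := by group
    rw [e2]
    exact (isConj_act _ _).symm
  refine ⟨?_, y22, fun α β h => n2 α (α + β) (h.trans ?_), n2⟩
  · have : F.x⁻¹ * (D.y1 * D.y1) * F.x = F.x⁻¹ * ve F.toF2 1 0 * F.x := by
      rw [ve_x, add_zero, ← y22, ← D.hy]; group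
    exact mul_left_cancel (mul_right_cancel this)
  · have : F.t * D.y2 * ve F.toF2 α (α + β) = F.x⁻¹ * (F.t * D.y1 * ve F.toF2 α β) * F.x := by
      calc F.t * D.y2 * ve F.toF2 α (α + β)
          = (F.x⁻¹ * F.t * F.x) * (F.x⁻¹ * D.y1 * F.x) * (F.x⁻¹ * ve F.toF2 α β * F.x) := by rw [tx', D.hy, ve_x]
        _ = _ := by group
    rw [this]
    exact isConj_act _ _

end WD

end Cfsg.Agent.WA.H3.TC
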