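import Cfsg.Agent.WA.H3Ca0

/-! S3139: the Sylow subgroup of `N(E)` in the core frame. -/

set_option autoImplicit false

namespace Cfsg.Agent.WA.H3

open Subgroup H8

section

variable {Y : Type*} [Group Y]

namespace CF

variable (C : CF Y)

theorem A_comm {g y : Y} (ha : g * C.a = C.a * g) (hz : g * C.z = C.z * g)
    (hy : y ∈ closure ({C.a, C.z} : Set Y)) : g * y = y * g := by
  have h1 : Commute g C.a := ha
  have h2 : Commute g C.z := hz
  rcases C.memA.1 hy with rfl | rfl | rfl | rfl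
  · simp
  · exact hz
  · exact ha
  · exact (h1.mul_right h2).eq

theorem A_sq {y : Y} (hy : y ∈ closure ({C.a, C.z} : Set Y)) : y * y = 1 := by
  rcases C.memA.1 hy with rfl | rfl | rfl | rfl
  · simp
  · exact C.z2
  · exact C.a2
  · rw [mul_assoc, ← mul_assoc C.z, ← C.az, mul_assoc, C.z2, mul_one, C.a2]

theorem cardE [Finite Y] : Nat.card (closure ({C.t, C.a, C.z} : Set Y)) = 8 := by
  have h1 := card_eq_cls (closure ({C.t, C.a, C.z} : Set Y)) C.t
  have h2 : (closure ({C.a, C.z} : Set Y)).relIndex (closure ({C.t, C.a, C.z} : Set Y)) = 2 := by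
    rw [relIndex, index_eq_two_iff]
    refine ⟨⟨C.t, subset_closure (by simp)⟩, fun y => ?_⟩
    simp only [mem_subgroupOf, coe_mul]
    have ht : ∀ w, w ∈ closure ({C.a, C.z} : Set Y) → w * C.t ∉ closure ({C.a, C.z} : Set Y) := fun w hw h =>
      C.t_notA (by simpa using mul_mem (inv_mem hw) h)
    rcases C.memE.1 y.2 with h | h
    · exact Or.inr ⟨h, ht _ h⟩
    · refine Or.inl ⟨?_, fun h' => ?_⟩
      · have h3 := C.A_comm C.ta C.tz h
        rw [mul_inv_cancel_left, inv_eq_of_sq C.t2] at h3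
        have : (y : Y) * C.t = C.t⁻¹ * y := by
          conv_lhs => rw [h3]
          rw [mul_assoc, C.t2, mul_one, inv_eq_of_sq C.t2]
        rw [this]; exact h
      · exact C.t_notA (by simpa using mul_mem h' (inv_mem h))
  have h3 : closure ({C.a, C.z} : Set Y) ≤ closure ({C.t, C.a, C.z} : Set Y) := closure_mono (Set.subset_insert _ _)
  rw [← card_mul_index ((closure ({C.a, C.z} : Set Y)).subgroupOf (closure ({C.t, C.a, C.z} : Set Y))),
    Nat.card_congr (subgroupOfEquivOfLe h3).toEquiv, C.cardA]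
  rw [relIndex] at h2; rw [h2]

theorem E_le_cen : closure ({C.t, C.a, C.z} : Set Y) ≤ centralizer ({C.t, C.a, C.z} : Set Y) := by
  rw [closure_le]
  rintro y (rfl | rfl | rfl) <;> rw [SetLike.mem_coe, mem_cen_iff] <;> rintro w (rfl | rfl | rfl) <;>
    first | rfl | exact C.ta | exact C.tz | exact C.az | exact C.ta.symm | exact C.tz.symm | exact C.az.symm

theorem pE [Finite Y] : IsPGroup 2 (closure ({C.t, C.a, C.z} : Set Y)) := IsPGroup.of_card (n := 3) C.cardE

/-- the Sylow data. -/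
theorem sylW [Finite Y] : ∃ W : Subgroup Y,
    IsSylowIn 2 W (normalizer ((closure ({C.t, C.a, C.z} : Set Y) : Subgroup Y) : Set Y)) ∧
    closure ({C.t, C.a, C.s} : Set Y) ≤ W ∧ (∀ g ∈ W, g * C.z = C.z * g) ∧ Nat.card W = 64 ∧
    (∀ c ∈ closure ({C.a, C.z} : Set Y), ∃ q ∈ W, q * C.a = C.a * q ∧ q⁻¹ * C.t * q = C.t * c) ∧
    (∀ q ∈ W, q * C.a = C.a * q → q * C.t = C.t * q → q ∈ closure ({C.t, C.a, C.z} : Set Y)) ∧
    ∃ r : Y, r * C.t = C.t * r ∧ r⁻¹ * C.z * r = C.a ∧ r⁻¹ * C.a * r = C.a * C.z ∧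
      ∀ q ∈ W, q * C.a = C.a * q → r⁻¹ * q * r ∈ W ∧ (r⁻¹ * q * r) * C.a = C.a * (r⁻¹ * q * r) := by
  have : Fact (Nat.Prime 2) := ⟨Nat.prime_two⟩
  set E := closure ({C.t, C.a, C.z} : Set Y) with hE
  set A := closure ({C.a, C.z} : Set Y) with hA
  obtain ⟨W, hW, hDW⟩ := exists_isSylowIn_ge C.pD C.D_le
  have hsW : C.s ∈ W := hDW (subset_closure (by simp))
  have haW : C.a ∈ W := hDW (subset_closure (by simp))
  have htW : C.t ∈ W := hDW (subset_closure (by simp))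
  have hzW : C.z ∈ W := hDW C.z_memD
  have hzA : C.z ∈ A := subset_closure (by simp)
  have haA : C.a ∈ A := subset_closure (by simp)
  have h1 := C.z_ne; have h2 := C.a_ne; have h3 := C.az_ne
  have h4 : C.z ≠ C.a := fun h => h3 (by rw [← h, C.z2])
  have hsaz : C.s⁻¹ * (C.a * C.z) * C.s = C.a := by
    rw [conj_mul', C.s_conj_a, conj_eq_iff_comm.2 C.sz, mul_assoc, C.z2, mul_one]
  have hcz : ∀ g ∈ W, g * C.z = C.z * g := by
    intro g hg
    by_contra hne
    apply not_three_dvd hW.pgroup C.z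
    have hsub : cls W C.z = {C.z, C.a, C.a * C.z} := by
      apply Set.Subset.antisymm
      · rintro y ⟨h, hh, rfl⟩
        rcases C.memA.1 (C.NE_A (hW.le hh) hzA) with h | h | h | h
        · exact absurd (by simpa [mul_eq_one_iff_eq_inv] using h) h1
        all_goals simp [h]
      · have ha : C.a ∈ cls W C.z := by
          rcases C.memA.1 (C.NE_A (hW.le hg) hzA) with h | h | h | h
          · exact absurd (by simpa [mul_eq_one_iff_eq_inv] using h) h1
          · exact absurd (conj_eq_iff_comm.1 h) hne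
          · exact ⟨g, hg, h⟩
          · exact ⟨g * C.s, mul_mem hg hsW, by rw [conj_conj, h, hsaz]⟩
        obtain ⟨k, hk, e⟩ := ha
        rintro y (rfl | rfl | rfl)
        · exact self_mem_cls _ _
        · exact ⟨k, hk, e⟩
        · exact ⟨k * C.s, mul_mem hk hsW, by rw [conj_conj, e, C.s_conj_a]⟩
    rw [hsub, Set.ncard_insert_of_notMem (by simp [h4, h2]), Set.ncard_pair (by simp [h1])]
  set N1 := normalizer (E : Set Y) ⊓ centralizer ({C.a, C.z} : Set Y) with hN1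
  have hnorm : normalizer (E : Set Y) ≤ normalizer ((centralizer ({C.a, C.z} : Set Y) : Subgroup Y) : Set Y) := by
    intro g hg
    apply mem_normalizer_of_conj
    intro c hc
    rw [mem_cen_iff] at hc ⊢
    intro y hy
    have h5 := C.NE_A (inv_mem hg) (subset_closure hy)
    have h6 := C.A_comm (hc _ (by simp)) (hc _ (by simp)) h5
    rw [← conj_eq_iff_comm] at h6 ⊢
    calc (g⁻¹ * c * g)⁻¹ * y * (g⁻¹ * c * g) = g⁻¹ * (c⁻¹ * (g⁻¹⁻¹ * y * g⁻¹) * c) * g := by group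
      _ = y := by rw [h6]; group
  have hQ : IsSylowIn 2 (W ⊓ centralizer ({C.a, C.z} : Set Y)) N1 := hW.inf_of_le_normalizer hnorm
  set Q := W ⊓ centralizer ({C.a, C.z} : Set Y) with hQd
  have memQ : ∀ q, q ∈ Q ↔ q ∈ W ∧ q * C.a = C.a * q := fun q =>
    ⟨fun h => ⟨h.1, mem_cen_iff.1 h.2 _ (by simp)⟩, fun h => ⟨h.1, mem_cen_iff.2 (by
      rintro y (rfl | rfl)
      · exact h.2
      · exact hcz _ h.1)⟩⟩
  have hcl : cls N1 C.t = {y | ∃ c ∈ A, y = C.t * c} := by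
    apply Set.Subset.antisymm
    · rintro y ⟨h, hh, rfl⟩
      exact C.NE_t hh.1
    · rintro y ⟨c, hc, rfl⟩
      obtain ⟨g, ga, gz, gt⟩ := C.trans hc
      refine ⟨g, ⟨C.mem_NE ?_ hc gt, mem_cen_iff.2 ?_⟩, gt⟩
      · rintro y (rfl | rfl)
        · rw [conj_eq_iff_comm.2 ga]; exact haA
        · rw [conj_eq_iff_comm.2 gz]; exact hzA
      · rintro y (rfl | rfl)
        · exact ga
        · exact gz
  have hcQ : cls Q C.t = {y | ∃ c ∈ A, y = C.t * c} := by
    rw [← hcl]; exact syl_cls hQ (k := 2) (by rw [hcl, C.ncard_tA]; norm_num)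
  have hEQ : E ≤ Q ⊓ centralizer ({C.t} : Set Y) := by
    intro e he
    have h5 := mem_cen_iff.1 (C.E_le_cen he)
    have hEW : E ≤ W := by
      apply (closure_le _).2
      rintro y (rfl | rfl | rfl)
      exacts [htW, haW, hzW]
    exact ⟨(memQ e).2 ⟨hEW he, h5 _ (by simp)⟩, mem_cen_iff.2 (by rintro y rfl; exact h5 _ (by simp))⟩
  have hQE : Q ⊓ centralizer ({C.t} : Set Y) = E := by
    refine C.bE.eq_of_le (hQ.pgroup.to_inf_left) ?_ hEQ C.cardE.ge
    rintro q ⟨hq, hqt⟩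
    rw [mem_cen_iff]
    rintro y (rfl | rfl | rfl)
    · exact mem_cen_iff.1 hqt _ rfl
    · exact mem_cen_iff.1 hq.2 _ (by simp)
    · exact mem_cen_iff.1 hq.2 _ (by simp)
  have cQ : Nat.card Q = 32 := by rw [card_eq_cls Q C.t, hQE, hcQ, C.ncard_tA, C.cardE]
  have hWa : W ⊓ centralizer ({C.a} : Set Y) = Q := by
    ext q; rw [memQ, mem_inf, mem_cen_iff]; simp
  have hcla : cls W C.a = {C.a, C.a * C.z} := by
    apply Set.Subset.antisymm
    · rintro y ⟨h, hh, rfl⟩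
      rcases C.memA.1 (C.NE_A (hW.le hh) haA) with e | e | e | e
      · exact absurd (by simpa [mul_eq_one_iff_eq_inv] using e) h2
      · exfalso
        have := conj_back e
        rw [hcz h hh, mul_inv_cancel_right] at this
        exact h4 this
      all_goals simp [e]
    · rintro y (rfl | rfl)
      · exact self_mem_cls _ _
      · exact ⟨C.s, hsW, C.s_conj_a⟩
  refine ⟨W, hW, hDW, hcz, ?_, ?_, ?_, ?_⟩
  · rw [card_eq_cls W C.a, hWa, cQ, hcla, Set.ncard_pair (by simp [h1])]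
  · intro c hc
    have : C.t * c ∈ cls Q C.t := by rw [hcQ]; exact ⟨c, hc, rfl⟩
    obtain ⟨q, hq, e⟩ := this
    exact ⟨q, hq.1, ((memQ q).1 hq).2, e⟩
  · intro q hq ha ht
    rw [← hQE]
    exact ⟨(memQ q).2 ⟨hq, ha⟩, mem_cen_iff.2 (by rintro y rfl; exact ht)⟩
  · have hρ : C.ρ ∈ normalizer (E : Set Y) := by
      refine C.mem_NE (c := 1) ?_ (one_mem _) (by rw [mul_one]; exact C.ρt')
      rintro y (rfl | rfl)
      · rw [C.ρa]; exact mul_mem haA hzA
      · rw [C.ρz]; exact haA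
    have hρ1 : C.ρ ∈ normalizer (N1 : Set Y) := by
      apply mem_normalizer_of_conj
      intro k hk
      exact ⟨(normalizer (E : Set Y)).mul_mem ((normalizer (E : Set Y)).mul_mem ((normalizer (E : Set Y)).inv_mem hρ) hk.1) hρ,
        conj_mem_of_norm (hnorm hρ) hk.2⟩
    obtain ⟨k, hk, hkρ⟩ := hQ.frattini hρ1
    have hk' := mem_cen_iff.1 hk.2
    have : k⁻¹⁻¹ * C.t * k⁻¹ ∈ cls Q C.t := by rw [hcQ, ← hcl]; exact mem_cls (inv_mem hk)
    obtain ⟨q1, hq1, e1⟩ := this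
    have hr1 : q1 * (k * C.ρ) ∈ normalizer (Q : Set Y) := mul_mem (le_normalizer hq1) hkρ
    have hq1' := mem_cen_iff.1 hq1.2
    have hfix1 : ∀ y, q1 * y = y * q1 → k * y = y * k →
        (q1 * (k * C.ρ))⁻¹ * y * (q1 * (k * C.ρ)) = C.ρ⁻¹ * y * C.ρ := by
      intro y hy1 hy2
      rw [conj_conj, conj_eq_iff_comm.2 hy1, conj_conj, conj_eq_iff_comm.2 hy2]
    refine ⟨q1 * (k * C.ρ), ?_, ?_, ?_, fun w hw ha => (memQ _).1 (conj_mem_of_norm hr1 ((memQ w).2 ⟨hw, ha⟩))⟩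
    · rw [← conj_eq_iff_comm, conj_conj, e1, conj_conj]
      have : k⁻¹ * (k⁻¹⁻¹ * C.t * k⁻¹) * k = C.t := by group
      rw [this, C.ρt']
    · rw [hfix1 _ (hq1' _ (by simp)) (hk' _ (by simp)), C.ρz]
    · rw [hfix1 _ (hq1' _ (by simp)) (hk' _ (by simp)), C.ρa]

/-- commutator bookkeeping: `g t = t g c` form. -/
theorem mv {g c : Y} (ht : g⁻¹ * C.t * g = C.t * c) : C.t * g = g * C.t * c := by
  rw [mul_assoc g, ← ht]; group

theorem toCG_aux [Finite Y] : ∃ C' : CG Y, C'.toCF = C := by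
  have : Fact (Nat.Prime 2) := ⟨Nat.prime_two⟩
  obtain ⟨W, hW, hDW, hcz, cW, htr, hE, r, rt, rz, ra, hr⟩ := C.sylW
  set A := closure ({C.a, C.z} : Set Y) with hA
  have hsW : C.s ∈ W := hDW (subset_closure (by simp))
  have haW : C.a ∈ W := hDW (subset_closure (by simp))
  have htW : C.t ∈ W := hDW (subset_closure (by simp))
  have hzW : C.z ∈ W := hDW C.z_memD
  have hzA : C.z ∈ A := subset_closure (by simp)
  have haA : C.a ∈ A := subset_closure (by simp)
  have hAW : A ≤ W := (closure_le _).2 (by rintro y (rfl | rfl); exacts [haW, hzW])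
  have h1 := C.z_ne; have h2 := C.a_ne; have h3 := C.az_ne
  set Q := W ⊓ centralizer ({C.a} : Set Y) with hQd
  have memQ : ∀ q, q ∈ Q ↔ q ∈ W ∧ q * C.a = C.a * q := fun q => by rw [mem_inf, mem_cen_iff]; simp
  have hAc : ∀ q ∈ Q, ∀ y ∈ A, q * y = y * q := fun q hq y hy =>
    C.A_comm ((memQ q).1 hq).2 (hcz q hq.1) hy
  have htQ : C.t ∈ Q := (memQ _).2 ⟨htW, C.ta⟩
  have hAQ : A ≤ Q := fun y hy => (memQ _).2 ⟨hAW hy, (C.A_comm rfl C.az hy).symm⟩
  have hl : ∀ q ∈ Q, ∃ c ∈ A, q⁻¹ * C.t * q = C.t * c := fun q hq => C.NE_t (hW.le hq.1)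
  have hti := inv_eq_of_sq C.t2
  -- translations compose
  have hcomp : ∀ g h c d, h ∈ Q → c ∈ A → g⁻¹ * C.t * g = C.t * c → h⁻¹ * C.t * h = C.t * d →
      (g * h)⁻¹ * C.t * (g * h) = C.t * (d * c) := by
    intro g h c d hh hc e1 e2
    rw [conj_conj, e1, conj_mul', e2, conj_eq_iff_comm.2 (hAc h hh c hc), mul_assoc]
  have hinv : ∀ g c, g ∈ Q → c ∈ A → g⁻¹ * C.t * g = C.t * c → g⁻¹⁻¹ * C.t * g⁻¹ = C.t * c := by
    intro g c hg hc e
    have e2 := conj_back e
    have : g * (C.t * c) * g⁻¹ * c = g * C.t * g⁻¹ := by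
      rw [mul_assoc (g * _), (hAc _ (inv_mem hg) c hc), ← mul_assoc, mul_assoc g, mul_assoc C.t, C.A_sq hc, mul_one]
    rw [inv_inv, ← this, e2]
  -- elements with the same translation differ by `E`
  have hsame : ∀ g h c, g ∈ Q → h ∈ Q → c ∈ A → g⁻¹ * C.t * g = C.t * c → h⁻¹ * C.t * h = C.t * c →
      ∃ e ∈ A, h = g * e ∨ h = g * (C.t * e) := by
    intro g h c hg hh hc e1 e2
    have e3 := hcomp g⁻¹ h c c hh hc (hinv g c hg hc e1) e2
    rw [C.A_sq hc, mul_one] at e3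
    have hm : g⁻¹ * h ∈ Q := mul_mem (inv_mem hg) hh
    rcases C.memE.1 (hE _ hm.1 ((memQ _).1 hm).2 (conj_eq_iff_comm.1 e3)) with h' | h'
    · exact ⟨_, h', Or.inl (by group)⟩
    · exact ⟨_, h', Or.inr (by group)⟩
  have htt : C.t⁻¹ * C.t * C.t = C.t * 1 := by group
  -- squares lie in `A`
  have hsq : ∀ g ∈ Q, g * g ∈ A := by
    intro g hg
    obtain ⟨c, hc, e⟩ := hl g hg
    have e2 := hcomp g g c c hg hc e e
    rw [C.A_sq hc] at e2
    obtain ⟨e', he', h' | h'⟩ := hsame 1 (g * g) 1 (one_mem _) (mul_mem hg hg) (one_mem _) (by simp) e2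
    · rw [h', one_mul]; exact he'
    · -- `g` commutes with `t e'`, so `c = 1`, `g ∈ E`
      rw [one_mul] at h'
      have e3 : g⁻¹ * (C.t * e') * g = C.t * e' := by rw [← h']; group
      rw [conj_mul', e, conj_eq_iff_comm.2 (hAc g hg e' he'), mul_left_inj, mul_eq_left] at e3
      rw [e3] at e
      obtain ⟨e2', he2', h'' | h''⟩ := hsame 1 g 1 (one_mem _) hg (one_mem _) (by simp) e
      · rw [h'', one_mul]; exact mul_mem he2' he2'
      · rw [h'', one_mul, mul_assoc, ← mul_assoc e2', ← hAc _ htQ _ he2', mul_assoc, C.A_sq he2', mul_one, C.t2]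
        exact one_mem _
  have hcm : ∀ g ∈ Q, ∀ h ∈ Q, ∃ e ∈ A, h * g = g * h * e := by
    intro g hg h hh
    refine ⟨(g * h)⁻¹ * (g * h)⁻¹ * (g * (h * h) * g⁻¹) * (g * g), mul_mem (mul_mem ?_ ?_) (hsq g hg), by group⟩
    · exact hsq _ (inv_mem (mul_mem hg hh))
    · rw [hAc g hg _ (hsq h hh), mul_inv_cancel_right]; exact hsq h hh
  -- commutator change
  have hch : ∀ g h c d e, g ∈ Q → h ∈ Q → c ∈ A → d ∈ A → e ∈ A → g⁻¹ * C.t * g = C.t * c →
      h⁻¹ * C.t * h = C.t * d → h * g = g * h * e →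
      h * (g * C.t) = (g * C.t) * h * (e * d) ∧ (h * C.t) * g = g * (h * C.t) * (e * c) := by
    intro g h c d e hg hh hc hd he e1 e2 e3
    have m1 := C.mv e1
    have m2 := C.mv e2
    constructor
    · rw [← mul_assoc, e3, mul_assoc g C.t, m2]
      simp only [mul_assoc]
      rw [← hAc _ htQ e he, ← mul_assoc d, ← hAc _ (hAQ he) d hd, mul_assoc e, C.A_sq hd, mul_one]
    · rw [mul_assoc h, m1, ← mul_assoc, ← mul_assoc, e3]
      simp only [mul_assoc]
      rw [← mul_assoc e, ← hAc _ htQ e he, mul_assoc]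
  have htl : ∀ g c, c ∈ A → g⁻¹ * C.t * g = C.t * c → (g * C.t)⁻¹ * C.t * (g * C.t) = C.t * c := by
    intro g c hc e
    have := hcomp g C.t c 1 htQ hc e htt
    rwa [one_mul] at this
  have hazA : C.a * C.z ∈ A := mul_mem haA hzA
  -- a commuting pair
  obtain ⟨p, p', hp, hp', pt, pt', hpp⟩ : ∃ p p', p ∈ Q ∧ p' ∈ Q ∧ p⁻¹ * C.t * p = C.t * C.a ∧
      p'⁻¹ * C.t * p' = C.t * (C.a * C.z) ∧ p' * p = p * p' := by
    obtain ⟨g, hg, ga, gt⟩ := htr _ haA
    obtain ⟨h, hh, ha, ht⟩ := htr _ hazA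
    have hg' := (memQ g).2 ⟨hg, ga⟩
    have hh' := (memQ h).2 ⟨hh, ha⟩
    obtain ⟨e, he, ee⟩ := hcm g hg' h hh'
    obtain ⟨k1, k2⟩ := hch g h _ _ e hg' hh' haA hazA he gt ht ee
    rcases C.memA.1 he with rfl | rfl | rfl | rfl
    · exact ⟨g, h, hg', hh', gt, ht, by simpa using ee⟩
    · have k3 := (hch (g * C.t) h _ _ _ (mul_mem hg' htQ) hh' haA hazA (mul_mem he hazA) (htl _ _ haA gt) ht k1).2
      refine ⟨g * C.t, h * C.t, mul_mem hg' htQ, mul_mem hh' htQ, htl _ _ haA gt, htl _ _ hazA ht, ?_⟩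
      rw [k3, C.az, ← mul_assoc C.z, C.z2, one_mul, C.a2, mul_one]
    · refine ⟨g, h * C.t, hg', mul_mem hh' htQ, gt, htl _ _ hazA ht, ?_⟩
      rw [k2, C.a2, mul_one]
    · refine ⟨g * C.t, h, mul_mem hg' htQ, hh', htl _ _ haA gt, ht, ?_⟩
      rw [k1, C.A_sq hazA, mul_one]
  set B := closure ({C.a, C.z, p, p'} : Set Y) with hB
  have hAB : A ≤ B := closure_mono (by intro y; simp; tauto)
  have hpB : p ∈ B := subset_closure (by simp)
  have hp'B : p' ∈ B := subset_closure (by simp)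
  have hBQ : B ≤ Q := (closure_le _).2 (by rintro y (rfl | rfl | rfl | rfl); exacts [hAQ haA, hAQ hzA, hp, hp'])
  have hBc : ∀ g ∈ B, ∀ h ∈ B, g * h = h * g := by
    have k1 : B ≤ centralizer ({C.a, C.z, p, p'} : Set Y) := by
      apply (closure_le _).2
      rintro y (rfl | rfl | rfl | rfl) <;> rw [SetLike.mem_coe, mem_cen_iff] <;> rintro w (rfl | rfl | rfl | rfl) <;>
        first | rfl | exact hpp | exact hpp.symm | exact hAc _ hp _ haA | exact hAc _ hp _ hzA | exact hAc _ hp' _ haA |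
          exact hAc _ hp' _ hzA | exact (hAc _ hp _ haA).symm | exact (hAc _ hp _ hzA).symm |
          exact (hAc _ hp' _ haA).symm | exact (hAc _ hp' _ hzA).symm | exact C.az | exact C.az.symm
    intro g hg h hh
    have k2 : B ≤ centralizer ({g} : Set Y) := by
      apply (closure_le _).2
      intro y hy
      rw [SetLike.mem_coe, mem_cen_iff]
      rintro w rfl
      exact (mem_cen_iff.1 (k1 hg) y hy).symm
    exact (mem_cen_iff.1 (k2 hh) g rfl).symm
  have ppt : (p * p')⁻¹ * C.t * (p * p') = C.t * C.z := by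
    rw [hcomp p p' _ _ hp' haA pt pt', C.az, mul_assoc, C.a2, mul_one]
  have hBt : ∀ c ∈ A, ∃ β ∈ B, β⁻¹ * C.t * β = C.t * c := by
    intro c hc
    rcases C.memA.1 hc with rfl | rfl | rfl | rfl
    · exact ⟨1, one_mem _, by simp⟩
    · exact ⟨_, mul_mem hpB hp'B, ppt⟩
    · exact ⟨_, hpB, pt⟩
    · exact ⟨_, hp'B, pt'⟩
  have hdec : ∀ g c, g ∈ Q → c ∈ A → g⁻¹ * C.t * g = C.t * c →
      ∃ β ∈ B, β⁻¹ * C.t * β = C.t * c ∧ (g = β ∨ g = β * C.t) := by
    intro g c hg hc e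
    obtain ⟨β, hβ, e1⟩ := hBt c hc
    obtain ⟨e', he', h⟩ := hsame β g c (hBQ hβ) hg hc e1 e
    refine ⟨β * e', mul_mem hβ (hAB he'), ?_, ?_⟩
    · have := hcomp β e' c 1 (hAQ he') hc e1 (by rw [mul_one, conj_eq_iff_comm, hAc _ htQ _ he'])
      rwa [one_mul] at this
    · rcases h with h | h
      · exact Or.inl h
      · right; rw [h, hAc _ htQ _ he', mul_assoc]
  -- the pair lemma
  have hpair : ∀ g h c d, g ∈ Q → h ∈ Q → c ∈ A → d ∈ A → c ≠ 1 → d ≠ 1 → d * c ≠ 1 → g⁻¹ * C.t * g = C.t * c →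
      h⁻¹ * C.t * h = C.t * d → h * g = g * h → g ∈ B ∧ h ∈ B := by
    intro g h c d hg hh hc hd c1 d1 cd e1 e2 e3
    obtain ⟨β, hβ, b1, k1⟩ := hdec g c hg hc e1
    obtain ⟨γ, hγ, b2, k2⟩ := hdec h d hh hd e2
    have e0 : γ * β = β * γ * 1 := by rw [mul_one]; exact hBc _ hγ _ hβ
    obtain ⟨l1, l2⟩ := hch β γ c d 1 (hBQ hβ) (hBQ hγ) hc hd (one_mem _) b1 b2 e0
    have l3 := (hch (β * C.t) γ c d _ (mul_mem (hBQ hβ) htQ) (hBQ hγ) hc hd (mul_mem (one_mem _) hd)
      (htl _ _ hc b1) b2 l1).2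
    rcases k1 with rfl | rfl <;> rcases k2 with rfl | rfl
    · exact ⟨hβ, hγ⟩
    · rw [e3] at l2; simp [c1] at l2
    · rw [e3] at l1; simp [d1] at l1
    · rw [e3] at l3; simp [cd] at l3
  -- conjugation by elements normalizing `Q` and centralizing `t`
  have hconj : ∀ k g c, k⁻¹ * C.t * k = C.t → g⁻¹ * C.t * g = C.t * c →
      (k⁻¹ * g * k)⁻¹ * C.t * (k⁻¹ * g * k) = C.t * (k⁻¹ * c * k) := by
    intro k g c e1 e2
    calc (k⁻¹ * g * k)⁻¹ * C.t * (k⁻¹ * g * k) = k⁻¹ * (g⁻¹ * (k * C.t * k⁻¹) * g) * k := by group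
      _ = _ := by rw [conj_back e1, e2, conj_mul', e1]
  have hsi := inv_eq_of_sq C.s2
  have st : C.s⁻¹ * C.t * C.s = C.t := conj_eq_iff_comm.2 C.ts.symm
  have hsaz : C.s⁻¹ * (C.a * C.z) * C.s = C.a := by
    rw [conj_mul', C.s_conj_a, conj_eq_iff_comm.2 C.sz, mul_assoc, C.z2, mul_one]
  have hsQ : ∀ q ∈ Q, C.s⁻¹ * q * C.s ∈ Q := by
    intro q hq
    refine (memQ _).2 ⟨mul_mem (mul_mem (inv_mem hsW) hq.1) hsW, ?_⟩
    rw [← hsaz, ← conj_mul', ← conj_mul', hAc q hq _ hazA]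
  have hrQ : ∀ q ∈ Q, r⁻¹ * q * r ∈ Q := fun q hq => (memQ _).2 (hr q hq.1 ((memQ q).1 hq).2)
  have rt' : r⁻¹ * C.t * r = C.t := conj_eq_iff_comm.2 rt
  have raz : r⁻¹ * (C.a * C.z) * r = C.z := by rw [conj_mul', ra, rz, C.az, mul_assoc, C.a2, mul_one]
  have aza : C.a * C.z * C.a = C.z := by rw [C.az, mul_assoc, C.a2, mul_one]
  have s1 := hconj C.s p _ st pt
  have s2 := hconj C.s p' _ st pt'
  rw [C.s_conj_a] at s1
  rw [hsaz] at s2
  obtain ⟨hs2, hs1⟩ := hpair _ _ _ _ (hsQ _ hp') (hsQ _ hp) haA hazA h2 h3 (by rw [aza]; exact h1) s2 s1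
    (by rw [← conj_mul', ← conj_mul', hpp])
  have r1 := hconj r p _ rt' pt
  have r2 := hconj r p' _ rt' pt'
  rw [ra] at r1
  rw [raz] at r2
  obtain ⟨hr2, hr1⟩ := hpair _ _ _ _ (hrQ _ hp') (hrQ _ hp) hzA hazA h1 h3
    (by rw [mul_assoc, C.z2, mul_one]; exact h2) r2 r1 (by rw [← conj_mul', ← conj_mul', hpp])
  -- elements of `B` with the same translation differ by `A`
  have hBs : ∀ g h c, g ∈ B → h ∈ B → c ∈ A → g⁻¹ * C.t * g = C.t * c → h⁻¹ * C.t * h = C.t * c →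
      ∃ e ∈ A, h = g * e := by
    intro g h c hg hh hc e1 e2
    obtain ⟨e, he, k | k⟩ := hsame g h c (hBQ hg) (hBQ hh) hc e1 e2
    · exact ⟨e, he, k⟩
    · exfalso
      have k1 : C.t ∈ B := by
        have := mul_mem (mul_mem (inv_mem hg) hh) (inv_mem (hAB he))
        rw [k] at this; simpa [mul_assoc] using this
      have := conj_eq_iff_comm.2 (hBc _ hpB _ k1)
      rw [pt] at this
      exact h2 (by simpa using this)
  have hBsq : ∀ g h c, g ∈ B → h ∈ B → c ∈ A → g⁻¹ * C.t * g = C.t * c → h⁻¹ * C.t * h = C.t * c →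
      h * h = g * g := by
    intro g h c hg hh hc e1 e2
    obtain ⟨e, he, rfl⟩ := hBs g h c hg hh hc e1 e2
    rw [mul_assoc, ← mul_assoc e, ← hAc g (hBQ hg) e he, mul_assoc, C.A_sq he, mul_one]
  have hsB : ∀ g ∈ B, C.s⁻¹ * g * C.s ∈ B := conj_mem_closure (by
    rintro y (rfl | rfl | rfl | rfl)
    · rw [C.s_conj_a]; exact hAB hazA
    · rw [conj_eq_iff_comm.2 C.sz]; exact hAB hzA
    exacts [hs1, hs2])
  have hrB : ∀ y ∈ ({C.a, C.z, p, p'} : Set Y), r⁻¹ * y * r ∈ B := by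
    rintro y (rfl | rfl | rfl | rfl)
    · rw [ra]; exact hAB hazA
    · rw [rz]; exact hAB haA
    exacts [hr1, hr2]
  have hm : p * p = 1 ∨ p * p = C.a := by
    have hb := mul_mem hpB hp'B
    have q1 := hconj C.s _ _ st ppt
    rw [conj_eq_iff_comm.2 C.sz] at q1
    have q2 := hBsq _ _ _ hb (hsB _ hb) hzA ppt q1
    rw [← conj_mul'] at q2
    have q3 := hconj r _ _ rt' ppt
    rw [rz] at q3
    have q4 := hBsq _ _ _ (conj_mem_closure hrB _ hb) hpB haA q3 pt
    rw [← conj_mul'] at q4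
    rw [q4]
    rcases C.memA.1 (hsq _ (hBQ hb)) with e | e | e | e <;> rw [e] at q2 ⊢
    · simp
    · exact Or.inr rz
    · rw [C.s_conj_a] at q2; exact absurd (by simpa using q2) h1
    · rw [hsaz] at q2; exact absurd (by simpa using q2) h1
  obtain ⟨e, he, hpe⟩ := hBs _ _ _ hs1 hp'B hazA s1 pt'
  rw [hsi] at hpe hs1
  have hBeq : closure ({C.a, C.z, p, C.s * p * C.s} : Set Y) = B := by
    apply le_antisymm
    · apply (closure_le _).2
      rintro y (rfl | rfl | rfl | rfl)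
      exacts [hAB haA, hAB hzA, hpB, hs1]
    · apply (closure_le _).2
      have : A ≤ closure ({C.a, C.z, p, C.s * p * C.s} : Set Y) := closure_mono (by intro y; simp; tauto)
      rintro y (rfl | rfl | rfl | rfl)
      · exact this haA
      · exact this hzA
      · exact subset_closure (by simp)
      · rw [hpe]; exact mul_mem (subset_closure (by simp)) (this he)
  have hWeq : closure ({C.t, C.a, C.s, p} : Set Y) = W := by
    apply le_antisymm
    · apply (closure_le _).2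
      rintro y (rfl | rfl | rfl | rfl)
      exacts [htW, haW, hsW, hp.1]
    · set W' := closure ({C.t, C.a, C.s, p} : Set Y)
      have m1 : C.t ∈ W' := subset_closure (by simp)
      have m2 : C.a ∈ W' := subset_closure (by simp)
      have m3 : C.s ∈ W' := subset_closure (by simp)
      have m4 : p ∈ W' := subset_closure (by simp)
      have hBW : B ≤ W' := by
        rw [← hBeq]
        apply (closure_le _).2
        rintro y (rfl | rfl | rfl | rfl)
        · exact m2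
        · rw [← C.hz]; exact mul_mem (mul_mem (mul_mem m2 m3) m2) m3
        · exact m4
        · exact mul_mem (mul_mem m3 m4) m3
      have hQW : Q ≤ W' := by
        intro g hg
        obtain ⟨c, hc, e⟩ := hl g hg
        obtain ⟨β, hβ, -, rfl | rfl⟩ := hdec g c hg hc e
        · exact hBW hβ
        · exact mul_mem (hBW hβ) m1
      intro g hg
      rcases C.memA.1 (C.NE_A (hW.le hg) haA) with e | e | e | e
      · exact absurd (by simpa [mul_eq_one_iff_eq_inv] using e) h2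
      · exfalso
        have := conj_back e
        rw [hcz g hg, mul_inv_cancel_right] at this
        exact h3 (by rw [← this, C.z2])
      · exact hQW ((memQ g).2 ⟨hg, conj_eq_iff_comm.1 e⟩)
      · have : g * C.s ∈ Q := (memQ _).2 ⟨mul_mem hg hsW, conj_eq_iff_comm.1 (by rw [conj_conj, e, hsaz])⟩
        have := mul_mem (hQW this) (inv_mem m3)
        simpa using this
  exact ⟨⟨C, p, r, hAc p hp _ hzA, hAc p hp _ haA, pt, hBc _ hpB _ hs1, hm, by rw [hWeq]; exact hW.pgroup,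
    by rw [hWeq]; exact cW, Bd.of_syl hW cW.le, rt, rz, ra, by rw [hBeq]; exact mem_normalizer_closure hrB⟩, rfl⟩

end CF

end

/-- module H3Ca -/
theorem CF.toCG {Y : Type*} [Group Y] [Finite Y] (C : CF Y) : ∃ C' : CG Y, C'.toCF = C := C.toCG_aux

end Cfsg.Agent.WA.H3
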