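import Cfsg.Agent.WA.H3V

/-! S3139: the Sylow subgroup of `N(E)` in the core frame. -/

set_option autoImplicit false

namespace Cfsg.Agent.WA.H3

open Subgroup H8

variable {Y : Type*} [Group Y]

theorem conj_back {g y w : Y} (h : g⁻¹ * y * g = w) : g * w * g⁻¹ = y := by rw [← h]; group

namespace CF

variable (C : CF Y)

theorem az : C.a * C.z = C.z * C.a := by
  have h1 : C.a * C.z = C.s * C.a * C.s := by
    rw [← C.hz, ← mul_assoc, ← mul_assoc, ← mul_assoc, C.a2, one_mul]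
  have h2 : C.z = C.s * C.a * C.s * C.a := by
    rw [← inv_eq_of_sq C.z2, ← C.hz]
    simp [inv_eq_of_sq C.a2, inv_eq_of_sq C.s2, mul_assoc]
  rw [h1]; conv_rhs => rw [h2]
  rw [mul_assoc _ C.a C.a, C.a2, mul_one]

theorem sas : C.s * C.a * C.s = C.a * C.z := by
  rw [← C.hz, ← mul_assoc, ← mul_assoc, ← mul_assoc, C.a2, one_mul]

theorem sz : C.s * C.z = C.z * C.s := by
  have h1 : C.z * C.s = C.a * C.s * C.a := by
    rw [← C.hz, mul_assoc _ C.s, C.s2, mul_one]
  have h2 : C.z = C.s * C.a * C.s * C.a := by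
    rw [← inv_eq_of_sq C.z2, ← C.hz]
    simp [inv_eq_of_sq C.a2, inv_eq_of_sq C.s2, mul_assoc]
  rw [h1]; conv_lhs => rw [h2]
  rw [← mul_assoc, ← mul_assoc, ← mul_assoc, C.s2, one_mul]

theorem tz : C.t * C.z = C.z * C.t := by
  rw [← C.hz]
  have h1 : Commute C.t C.a := C.ta
  have h2 : Commute C.t C.s := C.ts
  exact (((h1.mul_right h2).mul_right h1).mul_right h2).eq

theorem ρaz : C.ρ⁻¹ * (C.a * C.z) * C.ρ = C.z := by
  rw [conj_mul', C.ρa, C.ρz, C.az, mul_assoc, C.a2, mul_one]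

theorem z_ne [Finite Y] : C.z ≠ 1 := by
  intro h
  have ha : C.a = 1 := by rw [← C.ρz, h]; simp
  have h1 := C.cardD
  have : closure ({C.t, C.a, C.s} : Set Y) ≤ closure {C.t, C.s} := by
    rw [closure_le]
    rintro y (rfl | rfl | rfl)
    · exact subset_closure (by simp)
    · rw [ha]; exact one_mem _
    · exact subset_closure (by simp)
  have h2 := card_le_of_le this
  have h3 : ((closure ({C.t, C.s} : Set Y) : Subgroup Y) : Set Y) ⊆ {1, C.s, C.t, C.t * C.s} := fun y hy => by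
    simpa using (mem_closure_two C.t2 C.s2 C.ts).1 hy
  have h4 := Set.ncard_le_ncard h3
  have h5 : ({1, C.s, C.t, C.t * C.s} : Set Y).ncard ≤ 4 :=
    (Set.ncard_insert_le _ _).trans (Nat.succ_le_succ ((Set.ncard_insert_le _ _).trans
      (Nat.succ_le_succ ((Set.ncard_insert_le _ _).trans (by simp)))))
  have h6 : ((closure ({C.t, C.s} : Set Y) : Subgroup Y) : Set Y).ncard = Nat.card (closure ({C.t, C.s} : Set Y)) := rfl
  omega

theorem a_ne [Finite Y] : C.a ≠ 1 := fun h => C.z_ne (by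
  have := C.ρz; rw [h] at this; simpa [mul_eq_one_iff_eq_inv] using this)

theorem az_ne [Finite Y] : C.a * C.z ≠ 1 := fun h => C.z_ne (by
  have := C.ρaz; rw [h] at this; simpa using this.symm)

theorem memA {y : Y} : y ∈ closure ({C.a, C.z} : Set Y) ↔ y = 1 ∨ y = C.z ∨ y = C.a ∨ y = C.a * C.z :=
  mem_closure_two C.a2 C.z2 C.az

theorem memE {y : Y} : y ∈ closure ({C.t, C.a, C.z} : Set Y) ↔
    y ∈ closure ({C.a, C.z} : Set Y) ∨ C.t⁻¹ * y ∈ closure ({C.a, C.z} : Set Y) :=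
  mem_closure_insert (by simp [C.t2]) (by
    rintro k (rfl | rfl)
    · rw [conj_eq_iff_comm.2 C.ta]; exact subset_closure (by simp)
    · rw [conj_eq_iff_comm.2 C.tz]; exact subset_closure (by simp))

theorem c_za : IsConj C.z C.a := isConj_of_eq C.ρz
theorem c_zaz : IsConj C.z (C.a * C.z) := C.c_za.trans (isConj_of_eq C.ρa)

theorem ρt' : C.ρ⁻¹ * C.t * C.ρ = C.t := conj_eq_iff_comm.2 C.ρt

/-- every element of `tA` is conjugate to `t` by an element of `C(A) ∩ N(E)`. -/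
theorem trans {c : Y} (hc : c ∈ closure ({C.a, C.z} : Set Y)) :
    ∃ g : Y, g * C.a = C.a * g ∧ g * C.z = C.z * g ∧ g⁻¹ * C.t * g = C.t * c := by
  have hb : ∀ y ∈ closure ({C.a, C.z} : Set Y), C.b⁻¹ * y * C.b = y := by
    intro y hy
    have ha := conj_eq_iff_comm.2 C.ba
    have hz := conj_eq_iff_comm.2 C.bz
    rcases C.memA.1 hy with rfl | rfl | rfl | rfl
    · simp
    · exact hz
    · exact ha
    · rw [conj_mul', ha, hz]
  have key : ∀ g : Y, g⁻¹ * C.t * g = C.t → (∀ y ∈ closure ({C.a, C.z} : Set Y), g * y * g⁻¹ ∈ closure ({C.a, C.z} : Set Y)) →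
      (g⁻¹ * C.b * g) * C.a = C.a * (g⁻¹ * C.b * g) ∧ (g⁻¹ * C.b * g) * C.z = C.z * (g⁻¹ * C.b * g) ∧
      (g⁻¹ * C.b * g)⁻¹ * C.t * (g⁻¹ * C.b * g) = C.t * (g⁻¹ * C.z * g) := by
    intro g hg hA
    have h1 : ∀ y ∈ closure ({C.a, C.z} : Set Y), (g⁻¹ * C.b * g) * y = y * (g⁻¹ * C.b * g) := by
      intro y hy
      rw [← conj_eq_iff_comm]
      have := hb _ (hA y hy)
      calc (g⁻¹ * C.b * g)⁻¹ * y * (g⁻¹ * C.b * g) = g⁻¹ * (C.b⁻¹ * (g * y * g⁻¹) * C.b) * g := by group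
        _ = y := by rw [this]; group
    refine ⟨h1 _ (subset_closure (by simp)), h1 _ (subset_closure (by simp)), ?_⟩
    have hg' : g * C.t * g⁻¹ = C.t := conj_back hg
    calc (g⁻¹ * C.b * g)⁻¹ * C.t * (g⁻¹ * C.b * g) = g⁻¹ * (C.b⁻¹ * (g * C.t * g⁻¹) * C.b) * g := by group
      _ = _ := by rw [hg', C.bt, conj_mul', hg]
  have hρ : ∀ y ∈ closure ({C.a, C.z} : Set Y), C.ρ * y * C.ρ⁻¹ ∈ closure ({C.a, C.z} : Set Y) := by
    intro y hy
    rw [C.memA] at hy ⊢
    rcases hy with rfl | rfl | rfl | rfl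
    · simp
    · right; right; right; exact conj_back C.ρaz
    · right; left; exact conj_back C.ρz
    · right; right; left; exact conj_back C.ρa
  rcases C.memA.1 hc with rfl | rfl | rfl | rfl
  · exact ⟨1, by simp⟩
  · exact ⟨C.b, C.ba, C.bz, C.bt⟩
  · have := key C.ρ C.ρt' hρ
    rw [C.ρz] at this
    exact ⟨_, this⟩
  · have := key (C.ρ * C.ρ) (by rw [conj_conj, C.ρt', C.ρt']) (fun y hy => by
      have := hρ _ (hρ y hy)
      simpa [mul_assoc] using this)
    rw [conj_conj C.ρ C.ρ C.z, C.ρz, C.ρa] at this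
    exact ⟨_, this⟩

theorem conj_t {c : Y} (hc : c ∈ closure ({C.a, C.z} : Set Y)) : IsConj C.t (C.t * c) := by
  obtain ⟨g, -, -, h⟩ := C.trans hc
  exact isConj_of_eq h

theorem conj_z {c : Y} (hc : c ∈ closure ({C.a, C.z} : Set Y)) (h1 : c ≠ 1) : IsConj C.z c := by
  rcases C.memA.1 hc with rfl | rfl | rfl | rfl
  · exact absurd rfl h1
  · exact IsConj.refl _
  · exact C.c_za
  · exact C.c_zaz

theorem t_ne [Finite Y] : C.t ≠ 1 := fun h => C.z_ne (by have := C.bt; rw [h] at this; simpa using this.symm)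

theorem t_notA [Finite Y] : C.t ∉ closure ({C.a, C.z} : Set Y) := fun h => C.n1 (C.conj_z h C.t_ne).symm

/-- `N(E)` normalizes `A` and `tA`. -/
theorem NE_A [Finite Y] {g y : Y} (hg : g ∈ normalizer ((closure ({C.t, C.a, C.z} : Set Y) : Subgroup Y) : Set Y))
    (hy : y ∈ closure ({C.a, C.z} : Set Y)) : g⁻¹ * y * g ∈ closure ({C.a, C.z} : Set Y) := by
  by_cases h1 : y = 1
  · rw [h1]; simp
  have := conj_mem_of_norm hg (C.memE.2 (Or.inl hy))
  rcases C.memE.1 this with h | h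
  · exact h
  · exfalso
    have h2 := C.conj_t h
    rw [mul_inv_cancel_left] at h2
    exact C.n1 (h2.trans ((isConj_of_eq rfl).symm.trans (C.conj_z hy h1).symm))

theorem NE_t [Finite Y] {g : Y} (hg : g ∈ normalizer ((closure ({C.t, C.a, C.z} : Set Y) : Subgroup Y) : Set Y)) :
    ∃ c ∈ closure ({C.a, C.z} : Set Y), g⁻¹ * C.t * g = C.t * c := by
  have := conj_mem_of_norm hg (subset_closure (by simp) : C.t ∈ closure ({C.t, C.a, C.z} : Set Y))
  rcases C.memE.1 this with h | h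
  · exfalso
    have h1 : g⁻¹ * C.t * g ≠ 1 := fun h => C.t_ne (by simpa [mul_eq_one_iff_eq_inv] using h)
    exact C.n1 ((isConj_of_eq rfl).trans (C.conj_z h h1).symm)
  · exact ⟨_, h, by simp⟩

theorem mem_NE [Finite Y] {g c : Y} (hA : ∀ y ∈ ({C.a, C.z} : Set Y), g⁻¹ * y * g ∈ closure ({C.a, C.z} : Set Y))
    (hc : c ∈ closure ({C.a, C.z} : Set Y)) (ht : g⁻¹ * C.t * g = C.t * c) :
    g ∈ normalizer ((closure ({C.t, C.a, C.z} : Set Y) : Subgroup Y) : Set Y) := by
  apply mem_normalizer_closure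
  rintro k (rfl | hk)
  · rw [ht, C.memE]; right; simpa using hc
  · exact C.memE.2 (Or.inl (hA k hk))

theorem ncard_tA [Finite Y] : {y | ∃ c ∈ closure ({C.a, C.z} : Set Y), y = C.t * c}.ncard = 4 := by
  have : {y | ∃ c ∈ closure ({C.a, C.z} : Set Y), y = C.t * c} = (fun c => C.t * c) '' {1, C.z, C.a, C.a * C.z} := by
    ext y; simp only [Set.mem_ofPred_eq, C.memA, Set.mem_image, Set.mem_insert_iff, Set.mem_singleton_iff]
    exact exists_congr fun c => and_congr_right fun _ => eq_comm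
  rw [this, Set.ncard_image_of_injective _ (mul_right_injective _)]
  have h1 := C.z_ne; have h2 := C.a_ne; have h3 := C.az_ne
  have h4 : C.z ≠ C.a := fun h => h3 (by rw [← h, C.z2])
  rw [Set.ncard_insert_of_notMem (by simp [h1.symm, h2.symm, h3.symm]),
    Set.ncard_insert_of_notMem (by simp [h4, h2]), Set.ncard_pair (by simp [h1])]

theorem cardA [Finite Y] : Nat.card (closure ({C.a, C.z} : Set Y)) = 4 := by
  rw [← C.ncard_tA]
  have : {y | ∃ c ∈ closure ({C.a, C.z} : Set Y), y = C.t * c} =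
      (fun c => C.t * c) '' (closure ({C.a, C.z} : Set Y) : Subgroup Y) := by
    ext y; simp only [Set.mem_ofPred_eq, Set.mem_image, SetLike.mem_coe]
    exact exists_congr fun c => and_congr_right fun _ => eq_comm
  rw [this, Set.ncard_image_of_injective _ (mul_right_injective _)]; rfl

theorem pD [Finite Y] : IsPGroup 2 (closure ({C.t, C.a, C.s} : Set Y)) := IsPGroup.of_card (n := 4) C.cardD

theorem z_memD : C.z ∈ closure ({C.t, C.a, C.s} : Set Y) := by
  rw [← C.hz]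
  have ha : C.a ∈ closure ({C.t, C.a, C.s} : Set Y) := subset_closure (by simp)
  have hs : C.s ∈ closure ({C.t, C.a, C.s} : Set Y) := subset_closure (by simp)
  exact mul_mem (mul_mem (mul_mem ha hs) ha) hs

theorem s_conj_a : C.s⁻¹ * C.a * C.s = C.a * C.z := by rw [inv_eq_of_sq C.s2, C.sas]

theorem D_le [Finite Y] : closure ({C.t, C.a, C.s} : Set Y) ≤
    normalizer ((closure ({C.t, C.a, C.z} : Set Y) : Subgroup Y) : Set Y) := by
  rw [closure_le]
  rintro y (rfl | rfl | rfl)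
  · exact le_normalizer (subset_closure (by simp))
  · exact le_normalizer (subset_closure (by simp))
  · refine C.mem_NE (c := 1) ?_ (one_mem _) (by rw [mul_one]; exact conj_eq_iff_comm.2 C.ts.symm)
    rintro k (rfl | rfl)
    · rw [C.s_conj_a, C.memA]; simp
    · rw [conj_eq_iff_comm.2 C.sz, C.memA]; simp

end CF

end Cfsg.Agent.WA.H3
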