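import Cfsg.Agent.WA.H3Cb1

/-! S3139, module H3Cb: the homocyclic case of the core lemma. -/

set_option autoImplicit false

namespace Cfsg.Agent.WA.H3.Cb

open Subgroup VM

theorem fixq : ∀ a b c d e f : Fin 4, a * a + b * c = 1 → a * b + b * d = 0 → c * a + d * c = 0 →
    c * b + d * d = 1 → e + (e * a + f * c) = 0 → f + (e * b + f * d) = 0 →
    ¬ (2 * a + 0 * c = 2 ∧ 2 * b + 0 * d = 0 ∧ 2 * a + 2 * c = 2 ∧ 2 * b + 2 * d = 2) →
    ∃ i j x y : Fin 4, T * ⟨e, f, 0, 0⟩ * ⟨i * a + j * c, i * b + j * d, 0, 0⟩ =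
      T * ⟨i, j, 0, 0⟩ * (⟨x, y, 0, 0⟩ * ⟨x, y, 0, 0⟩) := by decide +kernel

theorem nfB : ∀ i j : Fin 4, (⟨i, j, 0, 0⟩ : VM) = P ^ (i : ℕ) * Q ^ (j : ℕ) := by decide +kernel

theorem tbk : ∀ i j : Fin 4, (T * ⟨i, j, 0, 0⟩).k = 0 ∧ (T * ⟨i, j, 0, 0⟩).l ≠ 0 := by decide +kernel

variable {Y : Type*} [Group Y]

theorem cpow (g x : Y) (n : ℕ) : g⁻¹ * x ^ n * g = (g⁻¹ * x * g) ^ n := by
  have := conj_pow (i := n) (a := g⁻¹) (b := x)
  rw [inv_inv] at this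
  exact this.symm

variable [Finite Y] (C : CG Y) (h : C.p * C.p = C.a)
include h

theorem invol {X : Subgroup Y} (hX : IsPGroup 2 X) (hW : (psi C h).range ≤ X) (hN : X ≤ N2 C h)
    (htr : ∀ m : VM, m.k = 0 → m.l ≠ 0 → ∃ w ∈ X, w⁻¹ * C.t * w = psi C h m) {y : Y} (hy : y ∈ X)
    (h2 : y * y = 1) (hn : ¬ (y * C.a = C.a * y ∧ y * C.z = C.z * y)) :
    ∃ w ∈ X, w⁻¹ * C.s * w = y ∨ w⁻¹ * (C.t * C.s) * w = y := by
  have yN := hN hy
  obtain ⟨⟨a, b, _, _⟩, ⟨rfl, rfl⟩, ep⟩ := U.conj_mem yN.1 ⟨P, mem_BM.mpr (by decide), rfl⟩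
  obtain ⟨⟨c, d, _, _⟩, ⟨rfl, rfl⟩, eq⟩ := U.conj_mem yN.1 ⟨Q, mem_BM.mpr (by decide), rfl⟩
  obtain ⟨e, f, et⟩ : ∃ e f : Fin 4, psi C h (T * ⟨e, f, 0, 0⟩) = y⁻¹ * C.t * y := by
    obtain ⟨n, h1, h2, e⟩ := N2_t C h yN (m := T) (by decide) (by decide)
    rcases q_nf n h1 with e' | e'
    · exact absurd (by rw [e']) h2
    · exact ⟨_, _, by rw [← e', e, psi_T]⟩
  have cb : ∀ i j : Fin 4, y⁻¹ * psi C h ⟨i, j, 0, 0⟩ * y = psi C h ⟨i * a + j * c, i * b + j * d, 0, 0⟩ :=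
    fun i j => by rw [nfB, map_mul, map_pow, map_pow, conj_mul', cpow, cpow, ← ep, ← eq, ← lin, map_mul, map_pow, map_pow]
  have yy : ∀ w : Y, y⁻¹ * (y⁻¹ * w * y) * y = w := fun w => by rw [← conj_conj, h2]; group
  have e1 := yy (psi C h P)
  rw [← ep, cb, eqv] at e1
  have e2 := yy (psi C h Q)
  rw [← eq, cb, eqv] at e2
  have e3 := yy C.t
  rw [← et, map_mul, conj_mul', psi_T, ← et, cb, ← map_mul, ← psi_T C h, eqv, mul_assoc, mul_eq_left] at e3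
  obtain ⟨i, j, x, x', k⟩ := fixq a b c d e f (congrArg VM.i e1) (congrArg VM.j e1) (congrArg VM.i e2)
    (congrArg VM.j e2) (congrArg VM.i e3) (congrArg VM.j e3) fun H => hn ⟨by
      rw [← conj_eq_iff_comm, ← psi_A C h, A, cb, H.1, H.2.1], by
      rw [← conj_eq_iff_comm, ← psi_Z C h, Z, cb, H.2.2.1, H.2.2.2]⟩
  obtain ⟨w, wX, ew⟩ := htr _ (tbk i j).1 (tbk i j).2
  have wB := (hN wX).1
  have y'X : w * y * w⁻¹ ∈ X := mul_mem (mul_mem wX hy) (inv_mem wX)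
  have y'W : w * y * w⁻¹ ∈ (psi C h).range := by
    refine toW C h hX hW y'X (hN y'X).1 (NB_A' C h (inv_mem wB) (sq_memA C h (m := ⟨x, x', 0, 0⟩) ⟨rfl, rfl⟩)) ?_
    have k' := congrArg (psi C h) k
    rw [map_mul, map_mul (psi C h) (T * _), et, ← cb, ← ew, map_mul] at k'
    have k2 : y⁻¹ * (w⁻¹ * C.t * w) * y = y⁻¹ * C.t * y * (y⁻¹ * psi C h ⟨i, j, 0, 0⟩ * y) := by
      rw [ew, map_mul, conj_mul', psi_T]
    calc _ = w * (y⁻¹ * (w⁻¹ * C.t * w) * y) * w⁻¹ := by group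
      _ = _ := by rw [k2, k']; group
  obtain ⟨b, bW, eb⟩ := inv_W C h y'W (by rw [show w * y * w⁻¹ * (w * y * w⁻¹) = w * (y * y) * w⁻¹ by group, h2]; group)
    fun H => by
      have key : ∀ m : VM, m.k = 0 ∧ m.l = 0 → y * psi C h (m * m) = psi C h (m * m) * y := fun m hm => by
        obtain ⟨n, hn, e⟩ := U.conj_mem' wB ⟨m, hm, rfl⟩
        have e1 := H n hn
        rw [map_mul, e] at e1
        rw [map_mul]
        calc _ = w⁻¹ * (w * y * w⁻¹ * (w * psi C h m * w⁻¹ * (w * psi C h m * w⁻¹))) * w := by group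
          _ = _ := by rw [e1]; group
      refine hn ⟨?_, ?_⟩
      · have := key P (by decide)
        rwa [show P * P = A by decide, psi_A] at this
      · have := key B1 (by decide)
        rwa [show B1 * B1 = Z by decide, psi_Z] at this
  refine ⟨b * w, mul_mem (hW bW) wX, ?_⟩
  rcases eb with eb | eb
  · exact .inl (by rw [conj_conj, eb]; group)
  · exact .inr (by rw [conj_conj, eb]; group)

omit [Finite Y] in
theorem card_map (K : Subgroup VM) : Nat.card (K.map (psi C h)) = Nat.card K :=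
  card_map_of_injective (psi_inj C h)

theorem main : Bd (⊤ : Subgroup Y) 256 := by
  obtain ⟨S0, hS0, WS⟩ := H8.exists_isSylowIn_ge (pW C h) (le_top : (psi C h).range ≤ ⊤)
  by_cases hle : S0 ≤ (psi C h).range
  · exact Bd.of_syl hS0 ((card_le_of_le hle).trans (by rw [cardW]; norm_num))
  obtain ⟨g0, -, -, g0B, -, g0t⟩ := step1 C h hS0.pgroup WS hle
  have hcls := cls_N2 C h g0B g0t
  obtain ⟨X, hX, WX⟩ := H8.exists_isSylowIn_ge (pW C h) (W_N2 C h)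
  have hc : cls X C.t = psi C h '' {m | m.k = 0 ∧ m.l ≠ 0} := by
    rw [syl_cls hX (by rw [hcls]; exact ncard_tB C h), hcls]
  have htr : ∀ m : VM, m.k = 0 → m.l ≠ 0 → ∃ w ∈ X, w⁻¹ * C.t * w = psi C h m := fun m h1 h2 => by
    have : psi C h m ∈ cls X C.t := by rw [hc]; exact ⟨m, ⟨h1, h2⟩, rfl⟩
    exact this
  have cX : Nat.card X ≤ 256 := by
    have h1 : X ⊓ centralizer ({C.t} : Set Y) ≤ (centralizer ({T} : Set VM)).map (psi C h) := fun g hg => by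
      have gt := mem_centralizer_singleton_iff.mp hg.2
      obtain ⟨m, rfl⟩ := toW C h hX.pgroup WX hg.1 (hX.le hg.1).1 (one_mem _)
        (by rw [mul_one]; exact conj_eq_iff_comm.mpr gt)
      refine ⟨m, mem_centralizer_singleton_iff.mpr ?_, rfl⟩
      rw [← eqv C h, map_mul, map_mul, psi_T, gt]
    have h2 := card_le_of_le h1
    rw [card_map, card_CT] at h2
    rw [card_eq_cls X C.t, hc, ncard_tB]
    omega
  have hne : ¬ X ≤ (psi C h).range := fun H => by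
    obtain ⟨w, wX, e⟩ := htr (T * B1) (by decide) (by decide)
    obtain ⟨m, rfl⟩ := H wX
    rw [← psi_T C h, ← map_inv, ← map_mul, ← map_mul, eqv] at e
    exact not_B1 m e
  have cR : 32 ≤ Nat.card ↥(X ⊓ centralizer ({C.t * C.s} : Set Y)) := by
    obtain ⟨g, gX, gW, -, gs, gt⟩ := step1 C h hX.pgroup WX hne
    obtain ⟨w, ew⟩ : ∃ w : VM, psi C h (w⁻¹ * (T * S) * w) = g⁻¹ * (C.t * C.s) * g := by
      rw [conj_mul', conj_eq_iff_comm.mpr gs, ← psi_S C h]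
      rcases gt with e | e <;> rw [e, ← map_mul]
      · exact ⟨P, congrArg _ (by decide)⟩
      · exact ⟨P⁻¹, congrArg _ (by decide)⟩
    have h1 : (centralizer ({T * S} : Set VM)).map (psi C h) ≤ X ⊓ centralizer ({C.t * C.s} : Set Y) := by
      rintro _ ⟨m, hm, rfl⟩
      refine ⟨WX ⟨m, rfl⟩, mem_centralizer_singleton_iff.mpr ?_⟩
      rw [← psi_T C h, ← psi_S C h, ← map_mul, ← map_mul, ← map_mul, mem_centralizer_singleton_iff.mp hm]
    have h2 := U.two_mul_le h1 (g := g * (psi C h w)⁻¹) ⟨X.mul_mem gX (X.inv_mem (WX ⟨w, rfl⟩)), by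
      refine mem_centralizer_singleton_iff.mpr (conj_eq_iff_comm.mp ?_)
      rw [conj_conj, ← ew, map_mul, map_mul, map_mul, map_inv, psi_T, psi_S]; group⟩ fun H =>
      gW ((mul_mem_cancel_right (inv_mem (⟨w, rfl⟩ : psi C h w ∈ (psi C h).range))).mp (map_le_range _ _ H))
    rwa [card_map, card_CTS] at h2
  have pR : IsPGroup 2 ↥(X ⊓ centralizer ({C.t * C.s} : Set Y)) := hX.pgroup.to_le inf_le_left
  obtain ⟨S1, hS1, XS⟩ := H8.exists_isSylowIn_ge hX.pgroup (le_top : X ≤ ⊤)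
  by_cases hle1 : S1 ≤ X
  · exact Bd.of_syl hS1 ((card_le_of_le hle1).trans cX)
  exfalso
  obtain ⟨k, kS, kN, kX⟩ := U.exists_norm hS1.pgroup XS hle1
  have tsX : C.t * C.s ∈ X := WX ⟨T * S, by rw [map_mul, psi_T, psi_S]⟩
  have ts2 : C.t * C.s * (C.t * C.s) = 1 := by
    rw [mul_assoc, ← mul_assoc C.s, ← C.ts, mul_assoc, C.s2, mul_one, C.t2]
  by_cases hcom : k⁻¹ * (C.t * C.s) * k * C.a = C.a * (k⁻¹ * (C.t * C.s) * k) ∧
      k⁻¹ * (C.t * C.s) * k * C.z = C.z * (k⁻¹ * (C.t * C.s) * k)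
  · refine C.h2 _ pR inf_le_right (le_antisymm (C.bTS _ pR inf_le_right) cR) k⁻¹ ?_ fun w hw => ?_
    · have key : ∀ c ∈ X, k⁻¹ * (C.t * C.s) * k * c = c * (k⁻¹ * (C.t * C.s) * k) →
          k⁻¹⁻¹ * c * k⁻¹ ∈ X ⊓ centralizer ({C.t * C.s} : Set Y) := fun c hc e => by
        refine ⟨U.conj_mem (inv_mem kN) hc, mem_centralizer_singleton_iff.mpr ?_⟩
        calc _ = k * (c * (k⁻¹ * (C.t * C.s) * k)) * k⁻¹ := by group
          _ = _ := by rw [← e]; group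
      rw [closure_le]
      rintro _ (rfl | rfl)
      · exact key _ (WX ⟨Z, psi_Z C h⟩) hcom.2
      · exact key _ (WX ⟨A, psi_A C h⟩) hcom.1
    · have w'B := (hX.le (U.conj_mem kN hw.1)).1
      have key : ∀ c ∈ ({C.a, C.z} : Set Y), w⁻¹ * (k⁻¹⁻¹ * c * k⁻¹) * w ∈
          closure ({k⁻¹⁻¹ * C.z * k⁻¹, k⁻¹⁻¹ * C.a * k⁻¹} : Set Y) := fun c hc => by
        have := conj_mem_closure (g := k⁻¹) (K := closure ({k⁻¹⁻¹ * C.z * k⁻¹, k⁻¹⁻¹ * C.a * k⁻¹} : Set Y))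
          (S := {C.a, C.z}) (by rintro _ (rfl | rfl) <;> exact subset_closure (by simp)) _ (NB_A C h w'B c hc)
        rwa [show k⁻¹⁻¹ * ((k⁻¹ * w * k)⁻¹ * c * (k⁻¹ * w * k)) * k⁻¹ = w⁻¹ * (k⁻¹⁻¹ * c * k⁻¹) * w by group] at this
      refine mem_normalizer_closure ?_
      rintro _ (rfl | rfl)
      · exact key _ (by simp)
      · exact key _ (by simp)
  · obtain ⟨w, wX, e | e⟩ := invol C h hX.pgroup WX hX.le htr (U.conj_mem kN tsX)
      (by rw [← conj_mul', ts2]; group) hcom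
    · exact C.n3 ((isConj_of_eq rfl).trans (isConj_of_eq e).symm)
    · have h1 : k * w⁻¹ ∈ X ⊓ centralizer ({C.t * C.s} : Set Y) :=
        U.mem_of_Bd C.bTS hS1.pgroup (inf_le_left.trans XS) inf_le_right cR (mul_mem kS (inv_mem (XS wX)))
          (mem_centralizer_singleton_iff.mpr (conj_eq_iff_comm.mp (by rw [conj_conj, ← e]; group)))
      exact kX ((mul_mem_cancel_right (inv_mem wX)).mp h1.1)

end Cfsg.Agent.WA.H3.Cb

namespace Cfsg.Agent.WA.H3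

theorem CG.homo {Y : Type*} [Group Y] [Finite Y] (C : CG Y) (h : C.p * C.p = C.a) : Bd (⊤ : Subgroup Y) 256 :=
  Cb.main C h

end Cfsg.Agent.WA.H3
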