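import Cfsg.Agent.WA.H3Ca0
import Cfsg.Agent.WA.H3U5

/-! Coordinate model of `W = Z₄² ⋊ ⟨s, t⟩` for S3139 (module H3Cb, part 0). -/

set_option autoImplicit false

namespace Cfsg.Agent.WA.H3.Cb

open Subgroup

/-- model: `p^i q^j s^k t^l`. -/
@[ext] structure VM where
  i : Fin 4
  j : Fin 4
  k : Fin 2
  l : Fin 2
  deriving DecidableEq

namespace VM

def ax (k l : Fin 2) (i j : Fin 4) : Fin 4 :=
  if k = 0 then (if l = 0 then i else -i) else (if l = 0 then j else -j)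

instance : Mul VM := ⟨fun m n => ⟨m.i + ax m.k m.l n.i n.j, m.j + ax m.k m.l n.j n.i, m.k + n.k, m.l + n.l⟩⟩
instance : One VM := ⟨⟨0, 0, 0, 0⟩⟩
instance : Inv VM := ⟨fun m => ⟨-ax m.k m.l m.i m.j, -ax m.k m.l m.j m.i, m.k, m.l⟩⟩

theorem mul_def (m n : VM) :
    m * n = ⟨m.i + ax m.k m.l n.i n.j, m.j + ax m.k m.l n.j n.i, m.k + n.k, m.l + n.l⟩ := rfl

def equivProd : VM ≃ Fin 4 × Fin 4 × Fin 2 × Fin 2 where
  toFun m := (m.i, m.j, m.k, m.l)
  invFun p := ⟨p.1, p.2.1, p.2.2.1, p.2.2.2⟩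
  left_inv _ := rfl
  right_inv _ := rfl

instance : Fintype VM := Fintype.ofEquiv _ equivProd.symm

theorem card_VM : Nat.card VM = 64 := by
  rw [Nat.card_congr equivProd]; simp

theorem forall_iff {p : VM → Prop} : (∀ m, p m) ↔ ∀ i j k l, p ⟨i, j, k, l⟩ :=
  ⟨fun h _ _ _ _ => h _, fun h m => h m.i m.j m.k m.l⟩

instance decForall (p : VM → Prop) [DecidablePred p] : Decidable (∀ m, p m) :=
  decidable_of_iff (∀ i j k l, p ⟨i, j, k, l⟩) forall_iff.symm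

theorem assoc_i : ∀ (k l k' l' : Fin 2) (i' j' i'' j'' : Fin 4),
    ax k l i' j' + ax (k + k') (l + l') i'' j'' = ax k l (i' + ax k' l' i'' j'') (j' + ax k' l' j'' i'') := by
  decide +kernel

instance : Group VM where
  mul_assoc a b c := by
    refine VM.ext ?_ ?_ ?_ ?_
    · exact (add_assoc _ _ _).trans (congrArg _ (assoc_i _ _ _ _ _ _ _ _))
    · exact (add_assoc _ _ _).trans (congrArg _ (assoc_i _ _ _ _ _ _ _ _))
    · exact add_assoc _ _ _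
    · exact add_assoc _ _ _
  one_mul := by decide +kernel
  mul_one := by decide +kernel
  inv_mul_cancel := by decide +kernel

def P : VM := ⟨1, 0, 0, 0⟩
def Q : VM := ⟨0, 1, 0, 0⟩
def S : VM := ⟨0, 0, 1, 0⟩
def T : VM := ⟨0, 0, 0, 1⟩
def A : VM := ⟨2, 0, 0, 0⟩
def Z : VM := ⟨2, 2, 0, 0⟩
def B1 : VM := ⟨1, 1, 0, 0⟩

def BM : Subgroup VM where
  carrier := {m | m.k = 0 ∧ m.l = 0}
  one_mem' := ⟨rfl, rfl⟩
  mul_mem' := fun {a b} ha hb => by
    change a.k + b.k = 0 ∧ a.l + b.l = 0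
    rw [ha.1, ha.2, hb.1, hb.2]; exact ⟨rfl, rfl⟩
  inv_mem' := fun h => h

def QM : Subgroup VM where
  carrier := {m | m.k = 0}
  one_mem' := rfl
  mul_mem' := fun {a b} ha hb => by
    change a.k + b.k = 0
    rw [show a.k = 0 from ha, show b.k = 0 from hb]; rfl
  inv_mem' := fun h => h

theorem mem_BM {m : VM} : m ∈ BM ↔ m.k = 0 ∧ m.l = 0 := Iff.rfl
theorem mem_QM {m : VM} : m ∈ QM ↔ m.k = 0 := Iff.rfl

theorem card_of_mem (K : Subgroup VM) (p : VM → Prop) [DecidablePred p] (h : ∀ m, m ∈ K ↔ p m) :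
    Nat.card K = (Finset.univ.filter p).card := by
  rw [← Fintype.card_coe, ← Nat.card_eq_fintype_card]
  refine Nat.card_congr (Equiv.subtypeEquivRight fun m => ?_)
  simp [h]

theorem card_CT : Nat.card (centralizer ({T} : Set VM)) = 16 := by
  rw [card_of_mem _ (fun m => m * T = T * m) fun _ => mem_centralizer_singleton_iff]; decide +kernel

theorem card_CTS : Nat.card (centralizer ({T * S} : Set VM)) = 16 := by
  rw [card_of_mem _ (fun m => m * (T * S) = T * S * m) fun _ => mem_centralizer_singleton_iff]; decide +kernel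

theorem nf : ∀ m : VM, m = P ^ (m.i : ℕ) * Q ^ (m.j : ℕ) * S ^ (m.k : ℕ) * T ^ (m.l : ℕ) := by decide +kernel

theorem closure_top : closure ({T, A, S, P} : Set VM) = ⊤ := by
  rw [eq_top_iff]
  intro m _
  have hT : T ∈ closure ({T, A, S, P} : Set VM) := subset_closure (by simp)
  have hS : S ∈ closure ({T, A, S, P} : Set VM) := subset_closure (by simp)
  have hP : P ∈ closure ({T, A, S, P} : Set VM) := subset_closure (by simp)
  have hQ : Q ∈ closure ({T, A, S, P} : Set VM) := by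
    rw [show Q = S * P * S by decide]; exact mul_mem (mul_mem hS hP) hS
  rw [nf m]
  exact mul_mem (mul_mem (mul_mem (pow_mem hP _) (pow_mem hQ _)) (pow_mem hS _)) (pow_mem hT _)

theorem closure_B : closure ({A, Z, P, Q} : Set VM) = BM := by
  refine le_antisymm ?_ fun m hm => ?_
  · rw [closure_le]
    rintro _ (rfl | rfl | rfl | rfl) <;> exact ⟨rfl, rfl⟩
  · have hP : P ∈ closure ({A, Z, P, Q} : Set VM) := subset_closure (by simp)
    have hQ : Q ∈ closure ({A, Z, P, Q} : Set VM) := subset_closure (by simp)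
    rw [nf m, hm.1, hm.2]
    exact mul_mem (mul_mem (mul_mem (pow_mem hP _) (pow_mem hQ _)) (one_mem _)) (one_mem _)

theorem comm_B : ∀ m n : VM, m.k = 0 ∧ m.l = 0 → n.k = 0 ∧ n.l = 0 → m * n = n * m := by decide +kernel
theorem comm_mem (x y : VM) : (x⁻¹ * y⁻¹ * x * y).k = 0 ∧ (x⁻¹ * y⁻¹ * x * y).l = 0 := by
  have : ∀ a b : Fin 2, a + b + a + b = 0 := by decide
  exact ⟨this _ _, this _ _⟩
theorem char_B : ∀ m : VM, m * (P⁻¹ * S⁻¹ * P * S) = (P⁻¹ * S⁻¹ * P * S) * m →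
    m * (P⁻¹ * T⁻¹ * P * T) = (P⁻¹ * T⁻¹ * P * T) * m → m.k = 0 ∧ m.l = 0 := by decide +kernel
theorem sq_B : ∀ m : VM, m.k = 0 ∧ m.l = 0 → m * m = 1 ∨ m * m = Z ∨ m * m = A ∨ m * m = A * Z := by decide +kernel
theorem q_sq : ∀ m n : VM, m.k = 0 → n.k = 0 ∧ n.l = 0 → m * (n * n) = n * n * m := by decide +kernel
theorem inv_out : ∀ m : VM, m.k ≠ 0 → m * m = 1 → ∃ i j : Fin 4,
    (⟨i, j, 0, 0⟩ : VM)⁻¹ * S * ⟨i, j, 0, 0⟩ = m ∨ (⟨i, j, 0, 0⟩ : VM)⁻¹ * (T * S) * ⟨i, j, 0, 0⟩ = m := by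
  decide +kernel
theorem t_inv : ∀ m : VM, m.k = 0 ∧ m.l = 0 → T * m = m⁻¹ * T := by decide +kernel
theorem t_img : ∀ m : VM, m * P = P⁻¹ * m → m * S = S * m → m = T ∨ m = T * Z ∨ m = T * B1 ∨ m = T * B1 * Z := by
  decide +kernel
theorem orbits : ∀ m : VM, m.k = 0 → m.l ≠ 0 → ∃ i j : Fin 4, ∃ k : Fin 2,
    (⟨i, j, k, 0⟩ : VM)⁻¹ * T * ⟨i, j, k, 0⟩ = m ∨ (⟨i, j, k, 0⟩ : VM)⁻¹ * (T * B1) * ⟨i, j, k, 0⟩ = m ∨
    (⟨i, j, k, 0⟩ : VM)⁻¹ * (T * P) * ⟨i, j, k, 0⟩ = m := by decide +kernel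
theorem orb_P : ∀ m : VM, m.k = 0 ∧ m.l = 0 → m * m = A → ∃ i j : Fin 4,
    (⟨i, j, 0, 0⟩ : VM)⁻¹ * (T * m) * ⟨i, j, 0, 0⟩ = T * P := by decide +kernel
theorem not_B1 : ∀ w : VM, w⁻¹ * T * w ≠ T * B1 := by decide +kernel
theorem q_nf : ∀ m : VM, m.k = 0 → m = ⟨m.i, m.j, 0, 0⟩ ∨ m = T * ⟨-m.i, -m.j, 0, 0⟩ := by decide +kernel
theorem lin : ∀ a b c d i j : Fin 4, (⟨a, b, 0, 0⟩ : VM) ^ (i : ℕ) * (⟨c, d, 0, 0⟩ : VM) ^ (j : ℕ) =
    ⟨i * a + j * c, i * b + j * d, 0, 0⟩ := by decide +kernel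
theorem fixp : ∀ a b c d e f : Fin 4, a * a + b * c = 1 → a * b + b * d = 0 → c * a + d * c = 0 →
    c * b + d * d = 1 → e + (e * a + f * c) = 0 → f + (e * b + f * d) = 0 →
    ¬ (a + a = 2 ∧ b + b = 0 ∧ c + c = 0 ∧ d + d = 2) →
    ∃ i j x y : Fin 4, e + (i * a + j * c) = i + (x + x) ∧ f + (i * b + j * d) = j + (y + y) := by decide +kernel

end VM

variable {Y : Type*} [Group Y] (C : CG Y) (h : C.p * C.p = C.a)
include h

theorem p4 : C.p ^ 4 = 1 := by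
  rw [show C.p ^ 4 = C.p * C.p * (C.p * C.p) by simp only [pow_succ, pow_zero, one_mul, mul_assoc], h, C.a2]

theorem q2 : C.s * C.p * C.s * (C.s * C.p * C.s) = C.a * C.z := by
  rw [← C.sas, ← h]
  calc _ = C.s * C.p * (C.s * C.s) * C.p * C.s := by group
    _ = _ := by rw [C.s2]; group

theorem q4 : (C.s * C.p * C.s) ^ 4 = 1 := by
  rw [show (C.s * C.p * C.s) ^ 4 = C.s * C.p * C.s * (C.s * C.p * C.s) * (C.s * C.p * C.s * (C.s * C.p * C.s)) by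
    simp only [pow_succ, pow_zero, one_mul, mul_assoc], q2 C h]
  calc _ = C.a * (C.z * C.a) * C.z := by group
    _ = _ := by rw [← C.az, ← mul_assoc, C.a2, one_mul, C.z2]

theorem tp : SemiconjBy C.t C.p (C.p ^ 3) := by
  change C.t * C.p = C.p ^ 3 * C.t
  have := C.pt
  rw [mul_assoc, inv_mul_eq_iff_eq_mul] at this
  rw [this, C.ta, ← h]; simp only [pow_succ, pow_zero, one_mul, mul_assoc]

omit h in
theorem sp : SemiconjBy C.s C.p (C.s * C.p * C.s) := by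
  change C.s * C.p = C.s * C.p * C.s * C.s
  rw [mul_assoc, C.s2, mul_one]

omit h in
theorem sq : SemiconjBy C.s (C.s * C.p * C.s) C.p := by
  change C.s * (C.s * C.p * C.s) = C.p * C.s
  rw [← mul_assoc, ← mul_assoc, C.s2, one_mul]

theorem tq : SemiconjBy C.t (C.s * C.p * C.s) ((C.s * C.p * C.s) ^ 3) := by
  have h1 : SemiconjBy C.t C.s C.s := C.ts
  have h2 := (h1.mul_right (tp C h)).mul_right h1
  rwa [((sp C).pow_right 3).eq, mul_assoc _ C.s C.s, C.s2, mul_one] at h2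

omit h in
theorem neg_pow {g : Y} (h4 : g ^ 4 = 1) (i : Fin 4) : g ^ ((-i : Fin 4) : ℕ) = (g ^ 3) ^ (i : ℕ) := by
  rw [← pow_mul, pow_eq_pow_mod (3 * (i : ℕ)) h4]
  congr 1
  revert i; decide

theorem semi (k l : Fin 2) (i j : Fin 4) :
    C.s ^ (k : ℕ) * C.t ^ (l : ℕ) * (C.p ^ (i : ℕ) * (C.s * C.p * C.s) ^ (j : ℕ)) =
      C.p ^ ((VM.ax k l i j : Fin 4) : ℕ) * (C.s * C.p * C.s) ^ ((VM.ax k l j i : Fin 4) : ℕ) *
        (C.s ^ (k : ℕ) * C.t ^ (l : ℕ)) := by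
  have c : Commute C.p (C.s * C.p * C.s) := C.pp
  have ht : ∀ i j : Fin 4, SemiconjBy C.t (C.p ^ (i : ℕ) * (C.s * C.p * C.s) ^ (j : ℕ))
      (C.p ^ ((-i : Fin 4) : ℕ) * (C.s * C.p * C.s) ^ ((-j : Fin 4) : ℕ)) := fun i j => by
    rw [neg_pow (p4 C h), neg_pow (q4 C h)]
    exact ((tp C h).pow_right _).mul_right ((tq C h).pow_right _)
  have hs : ∀ i j : Fin 4, SemiconjBy C.s (C.p ^ (i : ℕ) * (C.s * C.p * C.s) ^ (j : ℕ))
      (C.p ^ (j : ℕ) * (C.s * C.p * C.s) ^ (i : ℕ)) := fun i j => by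
    rw [(c.pow_pow (j : ℕ) (i : ℕ)).eq]
    exact ((sp C).pow_right _).mul_right ((sq C).pow_right _)
  fin_cases k <;> fin_cases l
  · simp [VM.ax]
  · simpa [VM.ax] using (ht i j).eq
  · simpa [VM.ax] using (hs i j).eq
  · simpa [VM.ax] using ((hs _ _).mul_left (ht i j)).eq

/-- evaluation of the model. -/
def psi : VM →* Y := MonoidHom.mk'
  (fun m => C.p ^ (m.i : ℕ) * (C.s * C.p * C.s) ^ (m.j : ℕ) * (C.s ^ (m.k : ℕ) * C.t ^ (m.l : ℕ))) (by
    intro m n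
    have t2 : C.t ^ 2 = 1 := by rw [pow_two, C.t2]
    have s2 : C.s ^ 2 = 1 := by rw [pow_two, C.s2]
    have c : Commute C.p (C.s * C.p * C.s) := C.pp
    have cts : Commute C.t C.s := C.ts
    simp only [VM.mul_def]
    rw [Fin.val_add, Fin.val_add, Fin.val_add, Fin.val_add, ← pow_eq_pow_mod _ (p4 C h), ← pow_eq_pow_mod _ (q4 C h),
      ← pow_eq_pow_mod _ s2, ← pow_eq_pow_mod _ t2, pow_add, pow_add, pow_add, pow_add]
    have e := semi C h m.k m.l n.i n.j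
    set x := C.p ^ ((VM.ax m.k m.l n.i n.j : Fin 4) : ℕ) with hx
    have c1 : (C.s * C.p * C.s) ^ (m.j : ℕ) * x = x * (C.s * C.p * C.s) ^ (m.j : ℕ) := (c.symm.pow_pow _ _).eq
    have c2 : C.t ^ (m.l : ℕ) * C.s ^ (n.k : ℕ) = C.s ^ (n.k : ℕ) * C.t ^ (m.l : ℕ) := (cts.pow_pow _ _).eq
    calc _ = C.p ^ (m.i : ℕ) * (x * (C.s * C.p * C.s) ^ (m.j : ℕ)) *
          (C.s * C.p * C.s) ^ ((VM.ax m.k m.l n.j n.i : Fin 4) : ℕ) * C.s ^ (m.k : ℕ) *
          (C.s ^ (n.k : ℕ) * C.t ^ (m.l : ℕ)) * C.t ^ (n.l : ℕ) := by simp only [mul_assoc]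
      _ = C.p ^ (m.i : ℕ) * (C.s * C.p * C.s) ^ (m.j : ℕ) * (x *
          (C.s * C.p * C.s) ^ ((VM.ax m.k m.l n.j n.i : Fin 4) : ℕ) * (C.s ^ (m.k : ℕ) * C.t ^ (m.l : ℕ))) *
          (C.s ^ (n.k : ℕ) * C.t ^ (n.l : ℕ)) := by rw [← c1, ← c2]; simp only [mul_assoc]
      _ = _ := by rw [← e]; simp only [mul_assoc])

theorem psi_apply (m : VM) : psi C h m =
    C.p ^ (m.i : ℕ) * (C.s * C.p * C.s) ^ (m.j : ℕ) * (C.s ^ (m.k : ℕ) * C.t ^ (m.l : ℕ)) := rfl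

theorem psi_P : psi C h VM.P = C.p := by simp [psi_apply, VM.P]
theorem psi_Q : psi C h VM.Q = C.s * C.p * C.s := by simp [psi_apply, VM.Q]
theorem psi_S : psi C h VM.S = C.s := by simp [psi_apply, VM.S]
theorem psi_T : psi C h VM.T = C.t := by simp [psi_apply, VM.T]
theorem psi_A : psi C h VM.A = C.a := by rw [show VM.A = VM.P * VM.P by decide, map_mul, psi_P, h]
theorem psi_Z : psi C h VM.Z = C.z := by
  rw [show VM.Z = VM.A * VM.S * VM.A * VM.S by decide, map_mul, map_mul, map_mul, psi_A, psi_S, C.hz]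

theorem range_psi : (psi C h).range = closure ({C.t, C.a, C.s, C.p} : Set Y) := by
  rw [MonoidHom.range_eq_map, ← VM.closure_top, MonoidHom.map_closure]
  simp only [Set.image_insert_eq, Set.image_singleton, psi_T, psi_S, psi_A, psi_P]

theorem map_B : VM.BM.map (psi C h) = closure ({C.a, C.z, C.p, C.s * C.p * C.s} : Set Y) := by
  rw [← VM.closure_B, MonoidHom.map_closure]
  simp only [Set.image_insert_eq, Set.image_singleton, psi_Z, psi_Q, psi_A, psi_P]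

theorem psi_inj : Function.Injective (psi C h) := by
  have h1 : Nat.card (psi C h).range = 64 := by rw [range_psi, C.cardW]
  have h2 := (psi C h).ker.card_mul_index
  rw [index_ker, h1, VM.card_VM] at h2
  rw [← MonoidHom.ker_eq_bot_iff, ← card_eq_one]
  omega

end Cfsg.Agent.WA.H3.Cb
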