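import Cfsg.Agent.WA.H3Cb0

/-! S3139, module H3Cb, part 1: normalizer steps. -/

set_option autoImplicit false

namespace Cfsg.Agent.WA.H3.Cb

open Subgroup VM

variable {Y : Type*} [Group Y] [Finite Y] (C : CG Y) (h : C.p * C.p = C.a)
include h

omit [Finite Y] in
theorem eqv {m n : VM} : psi C h m = psi C h n ↔ m = n := (psi_inj C h).eq_iff

theorem NW_NB {g : Y} (hg : g ∈ normalizer ((psi C h).range : Set Y)) :
    g ∈ normalizer ((BM.map (psi C h) : Subgroup Y) : Set Y) := by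
  refine U.mem_norm ?_
  rintro _ ⟨b, hb, rfl⟩
  obtain ⟨m, hm⟩ := U.conj_mem hg ⟨b, rfl⟩
  have key : ∀ x y : VM, m * (x⁻¹ * y⁻¹ * x * y) = (x⁻¹ * y⁻¹ * x * y) * m := fun x y => by
    obtain ⟨x', hx⟩ := U.conj_mem' hg ⟨x, rfl⟩
    obtain ⟨y', hy⟩ := U.conj_mem' hg ⟨y, rfl⟩
    have e := congrArg (psi C h) (comm_B b _ hb (comm_mem x' y'))
    simp only [map_mul, map_inv, hx, hy] at e
    rw [← eqv C h]
    simp only [map_mul, map_inv, hm]
    calc _ = g⁻¹ * (psi C h b * ((g * psi C h x * g⁻¹)⁻¹ * (g * psi C h y * g⁻¹)⁻¹ * (g * psi C h x * g⁻¹) *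
        (g * psi C h y * g⁻¹))) * g := by group
      _ = _ := by rw [e]; group
  exact ⟨m, char_B m (key _ _) (key _ _), hm⟩

omit [Finite Y] in
theorem sq_memA {m : VM} (hm : m.k = 0 ∧ m.l = 0) : psi C h m * psi C h m ∈ closure ({C.a, C.z} : Set Y) := by
  rw [← map_mul, C.memA]
  rcases sq_B m hm with e | e | e | e <;> rw [e]
  · exact .inl (map_one _)
  · exact .inr (.inl (psi_Z C h))
  · exact .inr (.inr (.inl (psi_A C h)))
  · exact .inr (.inr (.inr (by rw [map_mul, psi_A, psi_Z])))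

omit [Finite Y] in
theorem NB_A {g : Y} (hg : g ∈ normalizer ((BM.map (psi C h) : Subgroup Y) : Set Y)) :
    ∀ y ∈ ({C.a, C.z} : Set Y), g⁻¹ * y * g ∈ closure ({C.a, C.z} : Set Y) := by
  have key : ∀ m : VM, m.k = 0 ∧ m.l = 0 → g⁻¹ * psi C h (m * m) * g ∈ closure ({C.a, C.z} : Set Y) := fun m hm => by
    obtain ⟨n, hn, e⟩ := U.conj_mem hg ⟨m, hm, rfl⟩
    rw [map_mul, conj_mul', ← e]
    exact sq_memA C h hn
  rintro _ (rfl | rfl)
  · have := key P (by decide)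
    rwa [show P * P = A by decide, psi_A] at this
  · have := key B1 (by decide)
    rwa [show B1 * B1 = Z by decide, psi_Z] at this

omit [Finite Y] in
theorem NB_A' {g y : Y} (hg : g ∈ normalizer ((BM.map (psi C h) : Subgroup Y) : Set Y))
    (hy : y ∈ closure ({C.a, C.z} : Set Y)) : g⁻¹ * y * g ∈ closure ({C.a, C.z} : Set Y) :=
  conj_mem_closure (NB_A C h hg) y hy

theorem W_NB : (psi C h).range ≤ normalizer ((BM.map (psi C h) : Subgroup Y) : Set Y) :=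
  fun _ hg => NW_NB C h (le_normalizer hg)

theorem W_NE : (psi C h).range ≤ normalizer ((closure ({C.t, C.a, C.z} : Set Y) : Subgroup Y) : Set Y) := by
  rintro _ ⟨m, rfl⟩
  have key : ∀ m : VM, ∃ i j : Fin 4, m⁻¹ * T * m = T * (⟨i, j, 0, 0⟩ * ⟨i, j, 0, 0⟩) := by decide +kernel
  obtain ⟨i, j, e⟩ := key m
  refine C.mem_NE (NB_A C h (W_NB C h ⟨m, rfl⟩)) (sq_memA C h (m := ⟨i, j, 0, 0⟩) ⟨rfl, rfl⟩) ?_
  rw [← psi_T C h, ← map_inv, ← map_mul, ← map_mul, e, map_mul, map_mul]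

omit [Finite Y] in
theorem cardW : Nat.card (psi C h).range = 64 := by rw [range_psi, C.cardW]

omit [Finite Y] in
theorem pW : IsPGroup 2 (psi C h).range := by rw [range_psi]; exact C.pW

theorem toW {X : Subgroup Y} (hX : IsPGroup 2 X) (hW : (psi C h).range ≤ X) {g c : Y} (hg : g ∈ X)
    (hB : g ∈ normalizer ((BM.map (psi C h) : Subgroup Y) : Set Y)) (hc : c ∈ closure ({C.a, C.z} : Set Y))
    (ht : g⁻¹ * C.t * g = C.t * c) : g ∈ (psi C h).range :=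
  U.mem_of_Bd C.bN hX hW (W_NE C h) (cardW C h).ge hg (C.mem_NE (NB_A C h hB) hc ht)

omit [Finite Y] in
/-- an involution of `W` not centralizing `a` is `W`-conjugate to `s` or `t s`. -/
theorem inv_W {y : Y} (hy : y ∈ (psi C h).range) (h2 : y * y = 1)
    (hn : ¬ ∀ n : VM, n.k = 0 ∧ n.l = 0 → y * psi C h (n * n) = psi C h (n * n) * y) :
    ∃ b ∈ (psi C h).range, b⁻¹ * C.s * b = y ∨ b⁻¹ * (C.t * C.s) * b = y := by
  obtain ⟨m, rfl⟩ := hy
  have hk : m.k ≠ 0 := fun e => hn fun n hn => by rw [← map_mul, ← map_mul, q_sq m n e hn]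
  have m2 : m * m = 1 := by rw [← eqv C h, map_mul, h2, map_one]
  obtain ⟨i, j, e | e⟩ := inv_out m hk m2
  · exact ⟨_, ⟨⟨i, j, 0, 0⟩, rfl⟩, .inl (by rw [← e, map_mul, map_mul, map_inv, psi_S])⟩
  · exact ⟨_, ⟨⟨i, j, 0, 0⟩, rfl⟩, .inr (by rw [← e, map_mul, map_mul, map_mul, map_inv, psi_S, psi_T])⟩

theorem step1 {X : Subgroup Y} (hX : IsPGroup 2 X) (hW : (psi C h).range ≤ X) (hne : ¬ X ≤ (psi C h).range) :
    ∃ g ∈ X, g ∉ (psi C h).range ∧ g ∈ normalizer ((BM.map (psi C h) : Subgroup Y) : Set Y) ∧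
      g * C.s = C.s * g ∧ (g⁻¹ * C.t * g = psi C h (T * B1) ∨ g⁻¹ * C.t * g = psi C h (T * B1 * Z)) := by
  obtain ⟨g, gX, gN, gW⟩ := U.exists_norm hX hW hne
  have gB := NW_NB C h gN
  have sW : C.s ∈ (psi C h).range := ⟨S, psi_S C h⟩
  obtain ⟨b, bW, e | e⟩ := inv_W C h (U.conj_mem gN sW) (by rw [← conj_mul', C.s2]; group) (fun H => by
    obtain ⟨n, hn, e⟩ := U.conj_mem gB ⟨P, mem_BM.mpr (by decide), rfl⟩
    have e1 := H n hn
    rw [map_mul, e, ← conj_mul', ← conj_mul', ← conj_mul', psi_P, h, mul_left_inj, mul_right_inj] at e1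
    have e2 := C.sas
    rw [e1, mul_assoc, C.s2, mul_one] at e2
    exact C.z_ne (by simpa using e2))
  swap
  · exact absurd ((isConj_of_eq e).trans (isConj_of_eq rfl).symm) C.n3
  have g'N : g * b⁻¹ ∈ normalizer ((psi C h).range : Set Y) := mul_mem gN (le_normalizer (inv_mem bW))
  have g'B := NW_NB C h g'N
  have g'X : g * b⁻¹ ∈ X := mul_mem gX (hW (inv_mem bW))
  have g'W : g * b⁻¹ ∉ (psi C h).range := fun H => gW ((mul_mem_cancel_right (inv_mem bW)).mp H)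
  have g's : g * b⁻¹ * C.s = C.s * (g * b⁻¹) := by
    rw [← conj_eq_iff_comm, conj_conj, ← e]; group
  generalize g * b⁻¹ = k at g'N g'B g'X g'W g's
  refine ⟨k, g'X, g'W, g'B, g's, ?_⟩
  obtain ⟨m, hm⟩ := U.conj_mem g'N (⟨T, psi_T C h⟩ : C.t ∈ (psi C h).range)
  have h1 : m * P = P⁻¹ * m := by
    obtain ⟨n, hn, e⟩ := U.conj_mem' g'B ⟨P, mem_BM.mpr (by decide), rfl⟩
    have e1 := congrArg (psi C h) (t_inv n hn)
    rw [map_mul, map_mul, map_inv, e, psi_T] at e1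
    rw [← eqv C h, map_mul, map_mul, map_inv, hm]
    calc _ = k⁻¹ * (C.t * (k * psi C h P * k⁻¹)) * k := by group
      _ = _ := by rw [e1]; group
  have h2 : m * S = S * m := by
    rw [← eqv C h, map_mul, map_mul, hm, psi_S]
    calc _ = k⁻¹ * C.t * (k * C.s) := by group
      _ = k⁻¹ * (C.s * C.t) * k := by rw [g's, ← C.ts]; group
      _ = k⁻¹ * (C.s * k) * (k⁻¹ * C.t * k) := by group
      _ = _ := by rw [← g's]; group
  rcases t_img m h1 h2 with e | e | e | e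
  · exact absurd (toW C h hX hW g'X g'B (one_mem _) (by rw [← hm, e, psi_T, mul_one])) g'W
  · exact absurd (toW C h hX hW g'X g'B (c := C.z) (subset_closure (by simp))
      (by rw [← hm, e, map_mul, psi_T, psi_Z])) g'W
  · exact .inl (by rw [← hm, e])
  · exact .inr (by rw [← hm, e])

/-- `N₂ = N(B) ∩ N(Q)`. -/
def N2 : Subgroup Y :=
  normalizer ((BM.map (psi C h) : Subgroup Y) : Set Y) ⊓ normalizer ((QM.map (psi C h) : Subgroup Y) : Set Y)

theorem mem_N2 {g : Y} (hB : g ∈ normalizer ((BM.map (psi C h) : Subgroup Y) : Set Y))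
    (ht : g⁻¹ * C.t * g ∈ QM.map (psi C h)) : g ∈ N2 C h := by
  refine ⟨hB, U.mem_norm ?_⟩
  have hBQ : BM.map (psi C h) ≤ QM.map (psi C h) := map_mono fun _ hm => hm.1
  rintro _ ⟨m, hm, rfl⟩
  rcases q_nf m hm with e | e <;> rw [e]
  · exact hBQ (U.conj_mem hB ⟨_, ⟨rfl, rfl⟩, rfl⟩)
  · rw [map_mul, conj_mul', psi_T]
    exact mul_mem ht (hBQ (U.conj_mem hB ⟨_, ⟨rfl, rfl⟩, rfl⟩))

theorem W_N2 : (psi C h).range ≤ N2 C h := by
  rintro _ ⟨m, rfl⟩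
  refine mem_N2 C h (W_NB C h ⟨m, rfl⟩) ⟨m⁻¹ * T * m, ?_, by rw [map_mul, map_mul, map_inv, psi_T]⟩
  have : ∀ a : Fin 2, a + 0 + a = 0 := by decide
  exact this m.k

omit [Finite Y] in
theorem N2_t {g : Y} (hg : g ∈ N2 C h) {m : VM} (hk : m.k = 0) (hl : m.l ≠ 0) :
    ∃ n : VM, n.k = 0 ∧ n.l ≠ 0 ∧ psi C h n = g⁻¹ * psi C h m * g := by
  obtain ⟨n, hn, e⟩ := U.conj_mem hg.2 ⟨m, hk, rfl⟩
  refine ⟨n, hn, fun e' => hl ?_, e⟩
  obtain ⟨n', hn', e2⟩ := U.conj_mem' hg.1 ⟨n, ⟨hn, e'⟩, rfl⟩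
  rw [e, show g * (g⁻¹ * psi C h m * g) * g⁻¹ = psi C h m by group, eqv] at e2
  exact e2 ▸ hn'.2

theorem cls_N2 {g : Y} (hB : g ∈ normalizer ((BM.map (psi C h) : Subgroup Y) : Set Y))
    (ht : g⁻¹ * C.t * g = psi C h (T * B1) ∨ g⁻¹ * C.t * g = psi C h (T * B1 * Z)) :
    cls (N2 C h) C.t = psi C h '' {m | m.k = 0 ∧ m.l ≠ 0} := by
  have cl : ∀ y ∈ cls (N2 C h) C.t, ∀ k ∈ N2 C h, k⁻¹ * y * k ∈ cls (N2 C h) C.t := by
    rintro _ ⟨k, hk, rfl⟩ k' hk'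
    exact ⟨k * k', mul_mem hk hk', conj_conj _ _ _⟩
  have clm : ∀ m w : VM, psi C h m ∈ cls (N2 C h) C.t → psi C h (w⁻¹ * m * w) ∈ cls (N2 C h) C.t := fun m w hm => by
    rw [map_mul, map_mul, map_inv]
    exact cl _ hm _ (W_N2 C h ⟨w, rfl⟩)
  have gN : g ∈ N2 C h := mem_N2 C h hB (by rcases ht with e | e <;> rw [e] <;> exact ⟨_, mem_QM.mpr (by decide), rfl⟩)
  have h1 : psi C h (T * B1) ∈ cls (N2 C h) C.t := by
    rcases ht with e | e
    · exact ⟨g, gN, e⟩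
    · rw [show T * B1 = B1⁻¹ * (T * B1 * Z) * B1 by decide]
      exact clm _ _ ⟨g, gN, e⟩
  have rB : C.r ∈ normalizer ((BM.map (psi C h) : Subgroup Y) : Set Y) := by rw [map_B]; exact C.rB
  have rt : C.r⁻¹ * C.t * C.r = C.t := conj_eq_iff_comm.mpr C.rt
  have rN : C.r ∈ N2 C h := mem_N2 C h rB (by rw [rt]; exact ⟨T, mem_QM.mpr (by decide), psi_T C h⟩)
  have h2 : psi C h (T * P) ∈ cls (N2 C h) C.t := by
    obtain ⟨n, hn, e⟩ := U.conj_mem rB ⟨B1, mem_BM.mpr (by decide), rfl⟩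
    have n2 : n * n = A := by
      rw [← eqv C h, map_mul, e, ← conj_mul', ← map_mul, show B1 * B1 = Z by decide, psi_Z, psi_A, C.rz]
    obtain ⟨i, j, e'⟩ := orb_P n hn n2
    rw [← e']
    refine clm _ _ ?_
    have := cl _ h1 _ rN
    rwa [map_mul, conj_mul', psi_T, rt, ← e, ← psi_T C h, ← map_mul, psi_T] at this
  refine Set.Subset.antisymm ?_ ?_
  · rintro _ ⟨k, hk, rfl⟩
    obtain ⟨n, h1, h2, e⟩ := N2_t C h hk (m := T) (by decide) (by decide)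
    exact ⟨n, ⟨h1, h2⟩, by rw [e, psi_T]⟩
  · rintro _ ⟨m, hm, rfl⟩
    obtain ⟨i, j, k, e | e | e⟩ := orbits m hm.1 hm.2 <;> rw [← e]
    · exact clm _ _ (by rw [psi_T]; exact self_mem_cls _ _)
    · exact clm _ _ h1
    · exact clm _ _ h2

omit [Finite Y] in
theorem ncard_tB : (psi C h '' {m | m.k = 0 ∧ m.l ≠ 0}).ncard = 2 ^ 4 := by
  rw [Set.ncard_image_of_injective _ (psi_inj C h),
    show {m : VM | m.k = 0 ∧ m.l ≠ 0} = (Finset.univ.filter fun m : VM => m.k = 0 ∧ m.l ≠ 0 : Finset VM) by simp,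
    Set.ncard_coe_finset]
  decide +kernel

end Cfsg.Agent.WA.H3.Cb
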