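import Cfsg.Agent.WA.H3Cc3

/-! Module H3Cc of PLAN_H3.md: the case `p² = 1`. -/

set_option autoImplicit false
set_option linter.unusedSectionVars false
set_option linter.unusedVariables false

namespace Cfsg.Agent.WA.H3

open Subgroup Cfsg.Agent.FT Cfsg.Agent.L0 Cfsg.Agent.H8 Cfsg.Agent.WA.Rw

namespace Cc.EG

variable {G : Type*} [Group G] [Finite G] {C : EG G} {Q : Subgroup G} {g k x h : G}

theorem SU.Jt (H : C.SU Q h) (hg : g ∈ 𝐍(C.P)) (hv : g * C.v ≠ C.v * g) : C.t⁻¹ * g ∈ C.J :=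
  mJ.2 ⟨mul_mem (inv_mem tN) hg, K2 (H.Vn _) (H.Vn _) (C.ti.symm ▸ C.tv) hv⟩

theorem SU.hh (H : C.SU Q h) (hg : g ∈ 𝐍(𝐍(C.P))) (hn : g ∉ 𝐍(C.P)) : h⁻¹ * g ∈ 𝐍(C.P) :=
  H.mul2 (inv_mem H.hN) hg (mt inv_mem_iff.1 H.hn) hn

theorem SU.mc2 (H : C.SU Q h) : (∀ g ∈ 𝐍(C.J), h⁻¹ * (g⁻¹ * h * g) ∈ C.J) ∧
    ∀ g ∈ 𝐍(C.J), C.t⁻¹ * (g⁻¹ * C.t * g) ∈ C.J ∨ (C.t * h)⁻¹ * (g⁻¹ * C.t * g) ∈ C.J := by
  have hK : h ∈ 𝐂[C.v] := mem_c1.2 H.hv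
  refine mcr (C.pg _) le_rfl (H.NJ H.hN) (H.NJ (le_normalizer tN))
    (mJ.2 ⟨H.mul2 H.hN H.hN H.hn H.hn, mem_c1.1 (mul_mem hK hK)⟩) (C.t2 ▸ one_mem _) H.ht
    (fun g hg e => ?_) (fun g hg e => ?_) (fun g hg e => ?_) fun g hg e => ?_
  · have h1 := H.T ((mul_mem_cancel_left (inv_mem tN)).1 (mJ.1 e).1)
    by_cases h2 : g ∈ 𝐍(C.P)
    · by_cases h3 : g * C.v = C.v * g
      · exact Or.inl (mJ.2 ⟨h2, h3⟩)
      · exact Or.inr (Or.inr (Or.inl (H.Jt h2 h3)))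
    · have h4 := H.hh h1 h2
      by_cases h3 : h⁻¹ * g * C.v = C.v * (h⁻¹ * g)
      · exact Or.inr (Or.inl (mJ.2 ⟨h4, h3⟩))
      · exact Or.inr (Or.inr (Or.inr (by rw [← H.ht, mul_inv_rev, mul_assoc]; exact H.Jt h4 h3)))
  · exact tK (H.Vn g) (mem_c1.1 ((mul_mem_cancel_left (inv_mem hK)).1 e.2))
  · have h1 := (mul_mem_cancel_left (inv_mem hK)).1 e.2
    rw [show g⁻¹ * (C.t * h) * g = g⁻¹ * C.t * g * (g⁻¹ * h * g) by group,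
      mul_mem_cancel_right (mem_c1.2 (Kc (H.Vn g) (H.Vn h) H.hv))] at h1
    exact tK (H.Vn g) (mem_c1.1 h1)
  · have hn : C.V.Normal := ⟨fun a ha g => conj_mem' (H.Vn g) ha⟩
    let π := QuotientGroup.mk' C.V
    have aJ : C.a ∈ C.J := LJ (PL C.aP)
    have c1 : Nat.card (C.J.map π) ≤ 16 * Nat.card (⊥ : Subgroup (G ⧸ C.V)) := by
      have h1 := H5.card_mul_relIndex_of_le ((C.VP.trans PL).trans LJ)
      have h2 := relIndex_ker (K := C.J) π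
      rw [QuotientGroup.ker_mk'] at h2
      rw [h2, C.cV, H.cJ] at h1
      rw [card_bot]; omega
    have := u4 (P := C.J.map π) (N := ⊥) (ζ := π g)
      (by rintro _ ⟨y, hy, rfl⟩; rw [← map_mul]; exact (QuotientGroup.eq_one_iff _).2 (H.sqJ hy)) bot_le
      (le_normalizer_map π (mem_map_of_mem π hg)) (le_normalizer_of_normal (mem_top _))
      ((C.two g).imp fun n e => by rw [← map_pow, e, map_one]) c1 _ (mem_map_of_mem π aJ)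
    rw [← map_pow, ← map_inv, ← map_inv, ← map_mul, ← map_mul, ← map_mul, mem_bot] at this
    have h1 : C.a⁻¹ * ((g ^ 4)⁻¹ * C.a * g ^ 4) ∈ C.V := (QuotientGroup.eq_one_iff _).1 this
    have h2 : (g ^ 4)⁻¹ * C.a * g ^ 4 ∈ Q := by
      have h3 : h⁻¹ * C.a * h ∈ Q := by
        have := conj_mem_cj h⁻¹ C.aP
        rwa [H.cjP (inv_mem H.hN) (mt inv_mem_iff.1 H.hn), inv_inv] at this
      convert conj_mem'' (H.nm (mJ.1 e).1) h3 using 1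
      group
    have h3 := H.infP ((mul_mem_cancel_left (inv_mem C.aP)).1 (C.VP h1)) h2
    rw [mul_mem_cancel_right h3, inv_mem_iff, ← C.fa, mV] at h1
    exact absurd h1 (by decide)

theorem SU.th (H : C.SU Q h) (hk : k ∈ 𝐍(C.J)) (hn : k ∉ 𝐍(𝐍(C.P))) : (C.t * h)⁻¹ * (k⁻¹ * C.t * k) ∈ C.J :=
  (H.mc2.2 k hk).resolve_left fun e => hn (H.T ((mul_mem_cancel_left (inv_mem tN)).1 (mJ.1 e).1))

theorem SU.sw1 (H : C.SU Q h) (hk : k ∈ 𝐍(C.J)) (hn : k ∉ 𝐍(𝐍(C.P))) (hx : x ∈ 𝐍(C.P))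
    (hv : x * C.v ≠ C.v * x) : h⁻¹ * (k⁻¹ * x * k) ∈ 𝐍(C.P) := by
  convert mul_mem (mul_mem (conj_mem'' H.hN tN) (mJ.1 (H.th hk hn)).1) (mJ.1 (conj_mem'' hk (H.Jt hx hv))).1 using 1
  group

theorem SU.sw2 (H : C.SU Q h) (hk : k ∈ 𝐍(C.J)) (hn : k ∉ 𝐍(𝐍(C.P))) (hx : x ∈ 𝐍(𝐍(C.P))) (hx' : x ∉ 𝐍(C.P))
    (hv : x * C.v ≠ C.v * x) : k⁻¹ * x * k ∈ 𝐍(C.P) := by
  have h1 := H.sw1 hk hn (H.hh hx hx') fun e =>
    hv (mem_c1.1 ((mul_mem_cancel_left (inv_mem (mem_c1.2 H.hv))).1 (mem_c1.2 e)))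
  convert mul_mem (mul_mem (H.mul2 H.hN H.hN H.hn H.hn) (conj_mem'' H.hN (mJ.1 (H.mc2.1 k hk)).1)) h1 using 1
  group

theorem SU.U2 (H : C.SU Q h) (hg : g ∈ 𝐍(C.J)) (hk : k ∈ 𝐍(C.J)) (hg' : g ∉ 𝐍(𝐍(C.P))) (hk' : k ∉ 𝐍(𝐍(C.P))) :
    g * k ∈ 𝐍(𝐍(C.P)) := by
  refine H.T ?_
  by_cases e : g⁻¹ * C.t * g ∈ 𝐍(C.P)
  · exact (hg' (H.T e)).elim
  · have h1 : g⁻¹ * C.t * g ∈ 𝐍(𝐍(C.P)) := (mul_mem_cancel_left (inv_mem (mul_mem (le_normalizer tN) H.hN))).1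
      (le_normalizer (mJ.1 (H.th hg hg')).1)
    convert H.sw2 hk hk' h1 e (tK (H.Vn g)) using 1
    group

theorem SU.Jn (H : C.SU Q h) : 𝐍(C.J) = ⊤ := by
  by_contra hn
  obtain ⟨g, h1, h2, -⟩ := grow2 C.two hn
  have tU : C.t ∈ 𝐍(C.J) := H.NJ (le_normalizer tN)
  by_cases hI : ∃ k ∈ 𝐍(C.J), k * C.v = C.v * k ∧ k * k ∈ C.J ∧ k ∉ 𝐍(𝐍(C.P))
  · obtain ⟨k, k1, k2, k3, k4⟩ := hI
    have y1 := conj_mem'' h1 tU
    have y2 := tK (H.Vn g)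
    by_cases y3 : g⁻¹ * C.t * g ∈ 𝐍(𝐍(C.P))
    · by_cases y4 : g⁻¹ * C.t * g ∈ 𝐍(C.P)
      · exact h2 (H.NJ (H.T y4))
      · refine h2 ((mul_mem_cancel_right k1).1 (H.NJ (H.T ?_)))
        convert H.sw2 k1 k4 y3 y4 y2 using 1
        group
    · have x1 := H.U2 y1 k1 y3 k4
      have x2 : g⁻¹ * C.t * g * k * C.v ≠ C.v * (g⁻¹ * C.t * g * k) := fun e =>
        y2 (mem_c1.1 ((mul_mem_cancel_right (mem_c1.2 k2)).1 (mem_c1.2 e)))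
      have x3 : k⁻¹ * (g⁻¹ * C.t * g * k) * k = (g⁻¹ * C.t * g * k)⁻¹ * (k * k) := by
        rw [mul_inv_rev, inv_eq_of_mul_eq_one_right (cj2 C.t2 g)]; group
      by_cases x4 : g⁻¹ * C.t * g * k ∈ 𝐍(C.P)
      · have := H.sw1 k1 k4 x4 x2
        rw [x3, mul_mem_cancel_right (mul_mem (inv_mem x4) (mJ.1 k3).1), inv_mem_iff] at this
        exact H.hn this
      · have := H.sw2 k1 k4 x1 x4 x2
        rw [x3, mul_mem_cancel_right (mJ.1 k3).1, inv_mem_iff] at this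
        exact x4 this
  · have VJ : C.V ≤ C.J := (C.VP.trans PL).trans LJ
    have jv : ∀ j ∈ C.J, g * j * g⁻¹ * C.v = C.v * (g * j * g⁻¹) := fun j hj => by
      simpa using Kc (H.Vn g⁻¹) (H.Vn j) (mJ.1 hj).2
    have cg : ∀ y ∈ H8.cj g C.J, g * (g⁻¹ * y * g) * g⁻¹ = y := fun y _ => by group
    have jv' : ∀ y ∈ H8.cj g C.J, y * C.v = C.v * y := fun y hy => cg y hy ▸ jv _ (mem_cj.1 hy)
    have jN : ∀ y ∈ H8.cj g C.J, y ∈ 𝐍(𝐍(C.P)) := fun y hy => by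
      by_contra e
      refine hI ⟨y, cg y hy ▸ conj_mem' h1 (le_normalizer (mem_cj.1 hy)), jv' y hy, VJ ?_, e⟩
      convert conj_mem' (H.Vn g) (H.sqJ (mem_cj.1 hy)) using 1
      group
    obtain ⟨x, x1, x2⟩ : ∃ x ∈ H8.cj g C.J, x ∉ 𝐍(C.P) := by
      by_contra e
      push Not at e
      exact h2 (mem_normalizer_of_cj_le fun y hy => mJ.2 ⟨e y hy, jv' y hy⟩)
    have c1 := cle2 (A := 𝐍(C.P)) (B := H8.cj g C.J) fun a ha b hb => H.mul2 (jN a ha) (jN b hb)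
    have c2 := cle2 (A := C.W) (B := H8.cj g C.J ⊓ 𝐍(C.P)) fun a ha b hb => C.nW2 ha.2 hb.2
    have c3 := cle2 (A := C.P) (B := H8.cj g C.J ⊓ 𝐍(C.P) ⊓ C.W) fun a ha b hb => by
      obtain ⟨x, hx, rfl⟩ := (C.WL ha.2).1 (jv' a ha.1.1)
      obtain ⟨y, hy, rfl⟩ := (C.WL hb.2).1 (jv' b hb.1.1)
      rw [← f_mul, mP, mP, mP]
      clear ha hb
      revert x y; decide +kernel
    rw [card_cj, H.cJ] at c1
    obtain ⟨y, y1, y2⟩ := ex_not_mem (A := C.V) (B := H8.cj g C.J ⊓ 𝐍(C.P) ⊓ C.W ⊓ C.P) (by rw [C.cV]; omega)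
    have y3 : y⁻¹ * (x⁻¹ * y * x) ∈ C.V := by
      convert conj_mem' (H.Vn g) (H.cmJ (mem_cj.1 y1.1.1.1) (mem_cj.1 x1)) using 1
      group
    have yP : y ∈ C.P := y1.2
    have y4 := conj_mem_cj x⁻¹ yP
    rw [H.cjP (inv_mem (jN x x1)) (mt inv_mem_iff.1 x2), inv_inv] at y4
    rw [mul_mem_cancel_right (H.infP ((mul_mem_cancel_left (inv_mem yP)).1 (C.VP y3)) y4), inv_mem_iff] at y3
    exact y2 y3

theorem main (C : EG G) : Nat.card G ≤ 512 ∧ (Nat.card (centralizer ({C.t} : Set G)) ≤ 16 → Nat.card G ≤ 256) := by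
  by_cases hn : 𝐍(C.P) = ⊤
  · have := C.cN
    rw [hn, card_top] at this
    omega
  · obtain ⟨Q, h, H⟩ := C.exists_su hn
    have c1 := cle2 (A := 𝐍(𝐍(C.P))) (B := 𝐍(C.J)) fun a ha b hb => H.U2 ha hb
    have c2 := H.cNN
    have c3 := H.c32
    rw [H.Jn, top_inf_eq, card_top] at c1
    omega

end Cc.EG

theorem CG.elem {Y : Type*} [Group Y] [Finite Y] (C : CG Y) (h : C.p * C.p = 1) :
    Bd (⊤ : Subgroup Y) 512 ∧ (Bd (centralizer ({C.t} : Set Y)) 16 → Bd (⊤ : Subgroup Y) 256) := by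
  have := Fact.mk Nat.prime_two
  obtain ⟨S, hS, hW⟩ := exists_isSylowIn_ge C.pW le_top
  have m : ∀ x ∈ ({C.t, C.a, C.s, C.p} : Set Y), x ∈ S := fun x hx => hW (subset_closure hx)
  have mt := m C.t (by simp)
  have ma := m C.a (by simp)
  have ms := m C.s (by simp)
  have mp := m C.p (by simp)
  have mz : C.z ∈ S := C.hz ▸ mul_mem (mul_mem (mul_mem ma ms) ma) ms
  have cd : ∀ H : Subgroup S, Nat.card (H.map S.subtype) = Nat.card H := fun H => card_subtype S H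
  have pg : ∀ H : Subgroup S, IsPGroup 2 (H.map S.subtype) := fun H => hS.pgroup.to_le (map_subtype_le H)
  have cT : (centralizer ({⟨C.t, mt⟩} : Set S)).map S.subtype ≤ centralizer {C.t} := by
    rintro _ ⟨x, hx, rfl⟩
    exact mem_c1.2 (congrArg Subtype.val (mem_c1.1 hx))
  have ic : ∀ {x y : S}, IsConj x y → IsConj (x : Y) y := fun h => S.subtype.map_isConj h
  let E : Cc.EG S :=
    { t := ⟨C.t, mt⟩, a := ⟨C.a, ma⟩, s := ⟨C.s, ms⟩, z := ⟨C.z, mz⟩, p := ⟨C.p, mp⟩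
      t2 := Subtype.ext C.t2, a2 := Subtype.ext C.a2, s2 := Subtype.ext C.s2, z2 := Subtype.ext C.z2
      p2 := Subtype.ext h, hz := Subtype.ext C.hz, ta := Subtype.ext C.ta, ts := Subtype.ext C.ts
      pz := Subtype.ext C.pz, pa := Subtype.ext C.pa, pt := Subtype.ext C.pt, pp := Subtype.ext C.pp
      two := hS.pgroup
      cardW := by rw [← cd, MonoidHom.map_closure, ← C.cardW]; simp [Set.image_insert_eq]
      n2 := fun e => C.n2 (ic e)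
      n3 := fun e => C.n3 (ic e)
      bE := cd _ ▸ C.bE _ (pg _) (by
        rintro _ ⟨x, hx, rfl⟩ y (rfl | rfl | rfl)
        · exact congrArg Subtype.val (hx ⟨C.t, mt⟩ (by simp))
        · exact congrArg Subtype.val (hx ⟨C.a, ma⟩ (by simp))
        · exact congrArg Subtype.val (hx ⟨C.z, mz⟩ (by simp)))
      bT := cd _ ▸ C.bT _ (pg _) cT
      h3 := fun h1 c h2 h3 => by
        have := C.h3 _ (pg _) cT ((cd _).trans h1) ⟨_, mem_c1.2 rfl, rfl⟩ ⟨⟨C.a, ma⟩, mem_c1.2 (Subtype.ext C.ta.symm), rfl⟩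
          ⟨⟨C.s, ms⟩, mem_c1.2 (Subtype.ext C.ts.symm), rfl⟩ c ⟨c, mem_c1.2 h2, rfl⟩ (by
            rintro _ ⟨r, hr, rfl⟩
            exact (h3 r (mem_c1.1 hr)).imp (congrArg Subtype.val) (congrArg Subtype.val))
        rw [← mem_map_iff_mem S.subtype_injective, MonoidHom.map_closure]
        simpa [Set.image_insert_eq] using this }
  have le : ∀ P : Subgroup Y, IsPGroup 2 P → Nat.card P ≤ Nat.card S := fun P hP => by
    obtain ⟨S', h1, h2⟩ := exists_isSylowIn_ge hP le_top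
    exact (cle h2).trans (h1.card_eq_card hS).le
  exact ⟨fun P hP _ => (le P hP).trans E.main.1,
    fun hb P hP _ => (le P hP).trans (E.main.2 (cd _ ▸ hb _ (pg _) cT))⟩

end Cfsg.Agent.WA.H3
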