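import Cfsg.Agent.WA.RwT
import Cfsg.Agent.H4.Quadratic

/-! A `2`-group with a self-centralizing four-group and no element of order `8` (tool for H3Cc). -/

set_option autoImplicit false
set_option linter.unusedSectionVars false
set_option linter.unusedVariables false

namespace Cfsg.Agent.WA.H3.Cc

open Subgroup Cfsg.Agent.FT Cfsg.Agent.L0 Cfsg.Agent.H8 Cfsg.Agent.WA.Rw

theorem grow2 {X : Type*} [Group X] [Finite X] (h2 : IsPGroup 2 X) {H : Subgroup X} (hH : H ≠ ⊤) :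
    ∃ g ∈ 𝐍(H), g ∉ H ∧ g * g ∈ H := by
  have := Fact.mk Nat.prime_two
  obtain ⟨-, g, hg, hg'⟩ := SetLike.lt_iff_le_and_exists.1
    (lt_inf_normalizer_of_pgroup (h2.to_subgroup ⊤) (lt_top_iff_ne_top.2 hH))
  obtain ⟨k, hk⟩ := h2 g
  have ex : ∃ k, g ^ 2 ^ k ∈ H := ⟨k, hk ▸ one_mem _⟩
  classical
  have h0 : Nat.find ex ≠ 0 := fun e => hg' (by simpa [e] using Nat.find_spec ex)
  obtain ⟨m, hm⟩ := Nat.exists_eq_succ_of_ne_zero h0
  refine ⟨g ^ 2 ^ m, pow_mem hg.2 _, Nat.find_min ex (by omega), ?_⟩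
  have := Nat.find_spec ex
  rwa [hm, pow_succ, pow_mul, pow_two] at this

theorem mc {X : Type*} [Group X] [Finite X] (h2 : IsPGroup 2 X) {s t : X} (s2 : s * s = 1) (t2 : t * t = 1)
    (st : s * t = t * s) (hc : ∀ x, x * t = t * x → x = 1 ∨ x = s ∨ x = t ∨ x = t * s)
    (n2 : ∀ x, x⁻¹ * t * x ≠ s) (n3 : ∀ x, x⁻¹ * (t * s) * x ≠ s) (h4 : ∀ x : X, x ^ 4 ≠ s) :
    (∀ x, x * s = s * x) ∧ ∀ x, x⁻¹ * t * x = t ∨ x⁻¹ * t * x = t * s := by
  have := Fact.mk Nat.prime_two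
  have s1 : s ≠ 1 := fun e => h4 1 (by rw [one_pow, e])
  have t1 : t ≠ 1 := fun e => n3 1 (by rw [e]; group)
  have ti : t⁻¹ = t := inv_eq_of_mul_eq_one_right t2
  have si : s⁻¹ = s := inv_eq_of_mul_eq_one_right s2
  have cm : ∀ {x y : X}, x⁻¹ * y * x = y → x * y = y * x := fun {x y} e => by
    conv_lhs => rw [← e]
    group
  have cm' : ∀ {x y : X}, x * y = y * x → x⁻¹ * y * x = y := fun {x y} e => by
    rw [mul_assoc, ← e]; group
  have c1 : ∀ {x y : X}, x⁻¹ * y * x = 1 → y = 1 := fun {x y} e => by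
    rw [show y = x * (x⁻¹ * y * x) * x⁻¹ by group, e]; group
  have hs : ∀ x, x * s = s * x := by
    have : Nontrivial X := ⟨s, 1, s1⟩
    have := h2.center_nontrivial
    obtain ⟨⟨c, hc1⟩, hc2⟩ := exists_ne (1 : center X)
    have hc3 := mem_center_iff.1 hc1
    have all : (∀ x, x * t = t * x) → ∀ x, x * s = s * x := fun h x => by
      rcases hc x (h x) with rfl | rfl | rfl | rfl
      · simp
      · rfl
      · exact st.symm
      · rw [mul_assoc, s2, ← mul_assoc, st, mul_assoc, s2]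
    rcases hc c (hc3 t).symm with rfl | rfl | rfl | rfl
    · exact (hc2 rfl).elim
    · exact hc3
    · exact all hc3
    · by_cases e : 𝐂[t] = ⊤
      · exact all fun x => mem_c1.1 (e ▸ mem_top x)
      obtain ⟨g, h1, h3, -⟩ := grow2 h2 e
      rcases hc _ (mem_c1.1 (conj_mem'' h1 (mem_c1.2 rfl))) with e | e | e | e
      · exact (t1 (c1 e)).elim
      · exact (n2 g e).elim
      · exact (h3 (mem_c1.2 (cm e))).elim
      · have e2 : g⁻¹ * t * g = g⁻¹ * (t * s) * g := e.trans (cm' (hc3 g)).symm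
        exact (s1 (by simpa using e2)).elim
  refine ⟨hs, ?_⟩
  have cs : ∀ x, x⁻¹ * s * x = s := fun x => cm' (hs x)
  have ts : ∀ x, x⁻¹ * (t * s) * x = x⁻¹ * t * x * s := fun x => by
    rw [← mul_assoc, mul_assoc _ s, ← hs x]; group
  let H : Subgroup X :=
    { carrier := {x | x⁻¹ * t * x = t ∨ x⁻¹ * t * x = t * s}
      one_mem' := Or.inl (by group)
      mul_mem' := fun {a b} ha hb => by
        have e : (a * b)⁻¹ * t * (a * b) = b⁻¹ * (a⁻¹ * t * a) * b := by group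
        simp only [Set.mem_setOf_eq, e]
        rcases ha with ha | ha <;> rw [ha]
        · exact hb
        · rw [ts]
          rcases hb with hb | hb <;> rw [hb]
          · exact Or.inr rfl
          · exact Or.inl (by rw [mul_assoc, s2, mul_one])
      inv_mem' := fun {a} ha => by
        have e : t = a * (a⁻¹ * t * a) * a⁻¹ := by group
        simp only [Set.mem_setOf_eq, inv_inv]
        rcases ha with ha | ha
        · left; rw [ha] at e; exact e.symm
        · right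
          have e2 := ts a⁻¹
          rw [ha] at e
          rw [inv_inv, ← e] at e2
          exact eq_mul_of_mul_inv_eq (by rw [si, ← e2]) }
  have mH : ∀ x, x ∈ H ↔ x⁻¹ * t * x = t ∨ x⁻¹ * t * x = t * s := fun x => Iff.rfl
  by_contra hn
  obtain ⟨h, h1, h3, h5⟩ := grow2 h2 (H := H) fun e => hn fun x => (mH x).1 (e ▸ mem_top x)
  obtain ⟨t', ht'⟩ : ∃ t', t' = h⁻¹ * t * h := ⟨_, rfl⟩
  have m1 : t' ∈ H := ht' ▸ conj_mem'' h1 (Or.inl (by group))
  have nc : t' * t ≠ t * t' := fun e => by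
    rcases hc _ e with e | e | e | e
    · exact t1 (c1 (ht' ▸ e))
    · exact n2 h (ht' ▸ e)
    · exact h3 (Or.inl (ht' ▸ e))
    · exact h3 (Or.inr (ht' ▸ e))
  have t'2 : t' * t' = 1 := by rw [ht', show h⁻¹ * t * h * (h⁻¹ * t * h) = h⁻¹ * (t * t) * h by group, t2]; group
  have t'i : t'⁻¹ = t' := inv_eq_of_mul_eq_one_right t'2
  have e1 : t' * t * t' = t * s := by
    have := (mH _).1 m1
    rw [t'i] at this
    exact this.resolve_left fun e => nc (cm (t'i.symm ▸ e))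
  have c2 : t * t' * (t * t') = s := by
    rw [show t * t' * (t * t') = t * (t' * t * t') by group, e1, ← mul_assoc, t2, one_mul]
  have hk : h⁻¹ * (h * h) * h = h * h := by group
  have tk : h⁻¹ * t' * h = (h * h)⁻¹ * t * (h * h) := by rw [ht']; group
  rcases (mH _).1 h5 with e | e
  · have key : (∀ x, x * (h * h) = h * h * x) → h * h * (h * h) = 1 → False := fun k1 k2 => by
      refine h4 (t * h) ?_
      have e2 : t * h * (t * h) = t * t' * (h * h) := by
        have e3 : h * t * h⁻¹ = t' := by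
          rw [ht', show h * t * h⁻¹ = h⁻¹ * (h * h * t) * h⁻¹ by group, ← k1]; group
        rw [← e3]; group
      rw [show (t * h) ^ 4 = t * h * (t * h) * (t * h * (t * h)) by simp only [pow_succ, pow_zero]; group, e2,
        mul_assoc (t * t'), ← mul_assoc (h * h), ← k1, mul_assoc (t * t') (h * h), k2, mul_one, c2]
    rcases hc _ (cm e) with e2 | e2 | e2 | e2
    · exact key (fun x => by rw [e2]; group) (by rw [e2, one_mul])
    · exact key (fun x => by rw [e2, hs]) (by rw [e2, s2])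
    · rw [e2, ← ht'] at hk
      exact nc (by rw [hk])
    · rw [e2, ts, ← ht'] at hk
      exact nc (by rw [mul_right_cancel hk])
  · have e2 : h * h * t' * t = t * (h * h * t') := by
      apply cm
      rw [show (h * h * t')⁻¹ * t * (h * h * t') = t'⁻¹ * ((h * h)⁻¹ * t * (h * h)) * t' by group, e, ts, t'i, e1,
        mul_assoc, s2, mul_one]
    have e3 : ∀ x, h * h * t' = x → h * h = x * t' := fun x e => by rw [← e, mul_assoc, t'2, mul_one]
    have e4 : t * s * t = t * (t * s) := by rw [mul_assoc, st]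
    have h44 : h ^ 4 = h * h * (h * h) := by simp only [pow_succ, pow_zero]; group
    rw [e] at tk
    rcases hc _ e2 with e5 | e5 | e5 | e5
    · rw [e3 _ e5, one_mul, tk] at hk
      exact nc (by rw [← hk, e4])
    · rw [e3 _ e5, show h⁻¹ * (s * t') * h = h⁻¹ * s * h * (h⁻¹ * t' * h) by group, cs, tk] at hk
      exact nc (by rw [← mul_left_cancel hk, e4])
    · exact h4 h (by rw [h44, e3 _ e5, c2])
    · refine h4 h ?_
      rw [h44, e3 _ e5, show t * s * t' * (t * s * t') = t * (s * (t' * t)) * (s * t') by group, ← hs,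
        show t * (t' * t * s) * (s * t') = t * t' * t * (s * s) * t' by group, s2, mul_one, mul_assoc, c2]

theorem mcr {G : Type*} [Group G] [Finite G] {U B : Subgroup G} {s t : G} (hU : IsPGroup 2 U) (hB : U ≤ 𝐍(B))
    (hs : s ∈ U) (ht : t ∈ U) (s2 : s * s ∈ B) (t2 : t * t ∈ B) (st : s * t = t * s)
    (hc : ∀ g ∈ U, t⁻¹ * (g⁻¹ * t * g) ∈ B → g ∈ B ∨ s⁻¹ * g ∈ B ∨ t⁻¹ * g ∈ B ∨ (t * s)⁻¹ * g ∈ B)
    (n2 : ∀ g ∈ U, s⁻¹ * (g⁻¹ * t * g) ∉ B) (n3 : ∀ g ∈ U, s⁻¹ * (g⁻¹ * (t * s) * g) ∉ B)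
    (h4 : ∀ g ∈ U, s⁻¹ * g ^ 4 ∉ B) :
    (∀ g ∈ U, s⁻¹ * (g⁻¹ * s * g) ∈ B) ∧
      ∀ g ∈ U, t⁻¹ * (g⁻¹ * t * g) ∈ B ∨ (t * s)⁻¹ * (g⁻¹ * t * g) ∈ B := by
  have hn : (B.subgroupOf U).Normal := ⟨fun b hb g => mem_subgroupOf.2 (conj_mem' (hB g.2) (mem_subgroupOf.1 hb))⟩
  let π := QuotientGroup.mk' (B.subgroupOf U)
  have hπ : Function.Surjective π := QuotientGroup.mk'_surjective _
  have eq : ∀ a b : U, π a = π b ↔ (a : G)⁻¹ * b ∈ B := fun a b => QuotientGroup.eq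
  have eq1 : ∀ a : U, π a = 1 ↔ (a : G) ∈ B := fun a => QuotientGroup.eq_one_iff a
  obtain ⟨k1, k2⟩ := mc (hU.of_surjective π hπ) (s := π ⟨s, hs⟩) (t := π ⟨t, ht⟩)
    (by rw [← map_mul, eq1]; exact s2) (by rw [← map_mul, eq1]; exact t2)
    (by rw [← map_mul, ← map_mul]; exact congrArg π (Subtype.ext st))
    (fun x e => by
      obtain ⟨g, rfl⟩ := hπ x
      have e2 : π ⟨t, ht⟩ = π (g⁻¹ * ⟨t, ht⟩ * g) := by rw [map_mul, map_mul, map_inv, mul_assoc, ← e]; group
      rw [← map_mul, eq1, eq_comm (b := π ⟨s, hs⟩), eq_comm (b := π ⟨t, ht⟩), eq_comm (a := π g), eq, eq, eq]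
      exact hc g g.2 ((eq _ _).1 e2))
    (fun x e => by
      obtain ⟨g, rfl⟩ := hπ x
      rw [← map_inv, ← map_mul, ← map_mul, eq_comm, eq] at e
      exact n2 g g.2 e)
    (fun x e => by
      obtain ⟨g, rfl⟩ := hπ x
      rw [← map_inv, ← map_mul, ← map_mul, ← map_mul, eq_comm, eq] at e
      exact n3 g g.2 e)
    (fun x e => by
      obtain ⟨g, rfl⟩ := hπ x
      rw [← map_pow, eq_comm, eq] at e
      exact h4 g g.2 e)
  refine ⟨fun g hg => (eq ⟨s, hs⟩ ((⟨g, hg⟩ : U)⁻¹ * ⟨s, hs⟩ * ⟨g, hg⟩)).1 ?_, fun g hg => ?_⟩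
  · rw [map_mul, map_mul, map_inv, mul_assoc, ← k1]; group
  · have := k2 (π ⟨g, hg⟩)
    rw [← map_inv, ← map_mul, ← map_mul, ← map_mul, eq_comm, eq, eq_comm, eq] at this
    exact this

end Cfsg.Agent.WA.H3.Cc
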