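import Cfsg.Agent.WA.H3Cc0

/-! The group `W = E₁₆ ⋊ E₄` of order `64` inside a `2`-group: coordinates (tool for H3Cc). -/

set_option autoImplicit false
set_option linter.unusedSectionVars false
set_option linter.unusedVariables false

namespace Cfsg.Agent.WA.H3.Cc

open Subgroup Cfsg.Agent.FT Cfsg.Agent.L0 Cfsg.Agent.H8 Cfsg.Agent.WA.Rw

structure EG (G : Type*) [Group G] where
  t : G
  a : G
  s : G
  z : G
  p : G
  t2 : t * t = 1
  a2 : a * a = 1
  s2 : s * s = 1
  z2 : z * z = 1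
  p2 : p * p = 1
  hz : a * s * a * s = z
  ta : t * a = a * t
  ts : t * s = s * t
  pz : p * z = z * p
  pa : p * a = a * p
  pt : p⁻¹ * t * p = t * a
  pp : p * (s * p * s) = (s * p * s) * p
  two : IsPGroup 2 G
  cardW : Nat.card (closure ({t, a, s, p} : Set G)) = 64
  n2 : ¬ IsConj t s
  n3 : ¬ IsConj (t * s) s
  bE : Nat.card (centralizer ({t, a, z} : Set G)) ≤ 8
  bT : Nat.card (centralizer ({t} : Set G)) ≤ 32
  h3 : Nat.card (centralizer ({t} : Set G)) = 32 → ∀ c, c * t = t * c →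
    (∀ r, r * t = t * r → r⁻¹ * c * r = c ∨ r⁻¹ * c * r = c * z) → c ∈ closure ({t, a * s} : Set G)

abbrev M := Bool × Bool × Bool × Bool × Bool × Bool

instance decM : DecidableEq M := inferInstance
instance finM : Fintype M := inferInstance

def mul (x y : M) : M :=
  (x.1 ^^ (y.1 ^^ (x.2.2.2.2.2 && y.2.2.1) ^^ (x.2.2.2.2.1 && (y.2.1 ^^ (x.2.2.2.2.2 && y.2.2.2.1)))),
    x.2.1 ^^ (y.2.1 ^^ (x.2.2.2.2.2 && y.2.2.2.1)), x.2.2.1 ^^ (y.2.2.1 ^^ (x.2.2.2.2.1 && y.2.2.2.1)),
    x.2.2.2.1 ^^ y.2.2.2.1, x.2.2.2.2.1 ^^ y.2.2.2.2.1, x.2.2.2.2.2 ^^ y.2.2.2.2.2)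

def one : M := (false, false, false, false, false, false)
def xz : M := (true, false, false, false, false, false)
def xa : M := (false, true, false, false, false, false)
def xv : M := (false, false, true, false, false, false)
def xp : M := (false, false, false, true, false, false)
def xs : M := (false, false, false, false, true, false)
def xt : M := (false, false, false, false, false, true)
def inv (x : M) : M := mul x (mul x x)

variable {G : Type*} [Group G]

def ev (b : Bool) (x : G) : G := if b then x else 1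

theorem ev_mul {x : G} (h : x * x = 1) (i j : Bool) : ev i x * ev j x = ev (i ^^ j) x := by
  cases i <;> cases j <;> simp [ev, h]

theorem ev_comm {x y : G} (h : Commute x y) (i j : Bool) : Commute (ev i x) (ev j y) := by
  cases i <;> cases j <;> simp [ev, h]

theorem ev_conj (g x : G) (i : Bool) : g * ev i x * g⁻¹ = ev i (g * x * g⁻¹) := by
  cases i <;> simp [ev]

namespace EG

variable (C : EG G)

def v : G := C.p * (C.s * C.p * C.s)

def fP (i j k l : Bool) : G := ev i C.z * ev j C.a * ev k C.v * ev l C.p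

def f (x : M) : G := C.fP x.1 x.2.1 x.2.2.1 x.2.2.2.1 * ev x.2.2.2.2.1 C.s * ev x.2.2.2.2.2 C.t

theorem si : C.s⁻¹ = C.s := inv_eq_of_mul_eq_one_right C.s2
theorem ti : C.t⁻¹ = C.t := inv_eq_of_mul_eq_one_right C.t2
theorem ai : C.a⁻¹ = C.a := inv_eq_of_mul_eq_one_right C.a2
theorem zi : C.z⁻¹ = C.z := inv_eq_of_mul_eq_one_right C.z2
theorem pi : C.p⁻¹ = C.p := inv_eq_of_mul_eq_one_right C.p2

theorem sas : C.s * C.a * C.s⁻¹ = C.a * C.z := by
  rw [← C.hz, C.si, show C.a * (C.a * C.s * C.a * C.s) = C.a * C.a * (C.s * C.a * C.s) by group, C.a2, one_mul]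

theorem za : Commute C.z C.a := by
  have e : C.a * C.z * (C.a * C.z) = 1 := by
    rw [← C.sas, show C.s * C.a * C.s⁻¹ * (C.s * C.a * C.s⁻¹) = C.s * (C.a * C.a) * C.s⁻¹ by group, C.a2]; group
  have := inv_eq_of_mul_eq_one_right e
  rwa [mul_inv_rev, C.ai, C.zi] at this

theorem szs : C.s * C.z * C.s⁻¹ = C.z := by
  have e : C.z = C.a * (C.s * C.a * C.s⁻¹) := by rw [C.sas, ← mul_assoc, C.a2, one_mul]
  conv_lhs => rw [e]
  rw [show C.s * (C.a * (C.s * C.a * C.s⁻¹)) * C.s⁻¹ = C.s * C.a * C.s⁻¹ * (C.s * C.s * C.a * (C.s * C.s)⁻¹) by group,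
    C.s2, C.sas, one_mul, inv_one, mul_one, mul_assoc, C.za.eq, ← mul_assoc, C.a2, one_mul]

theorem tz : Commute C.t C.z := by
  rw [← C.hz]
  exact (((show Commute _ _ from C.ta).mul_right C.ts).mul_right C.ta).mul_right C.ts

theorem sps : C.s * C.p * C.s⁻¹ = C.p * C.v := by rw [v, ← mul_assoc, C.p2, one_mul, C.si]

theorem cj_comm {x y : G} (g : G) (h : Commute x y) : Commute (g * x * g⁻¹) (g * y * g⁻¹) := h.map (MulAut.conj g)

theorem zv : Commute C.z C.v := by
  have := cj_comm C.s (show Commute _ _ from C.pz.symm)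
  rw [C.szs, C.si] at this
  exact (show Commute _ _ from C.pz.symm).mul_right this

theorem av : Commute C.a C.v := by
  have := cj_comm C.s ((show Commute _ _ from C.pa).mul_right C.pz).symm
  rw [← C.sas, show C.s * (C.s * C.a * C.s⁻¹) * C.s⁻¹ = C.s * C.s * C.a * (C.s * C.s)⁻¹ by group, C.s2, one_mul,
    inv_one, mul_one, C.si] at this
  exact (show Commute _ _ from C.pa.symm).mul_right this

theorem vp : Commute C.v C.p := (Commute.refl _).mul_left C.pp.symm

theorem v2 : C.v * C.v = 1 := by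
  rw [v, (show Commute _ _ from C.pp.symm).mul_mul_mul_comm, C.p2,
    show C.s * C.p * C.s * (C.s * C.p * C.s) = C.s * C.p * (C.s * C.s) * C.p * C.s by group, C.s2, mul_one,
    mul_assoc C.s, C.p2, mul_one, C.s2, one_mul]

theorem svs : C.s * C.v * C.s⁻¹ = C.v := by
  rw [v, C.pp, show C.s * (C.s * C.p * C.s * C.p) * C.s⁻¹ = C.s * C.s * C.p * (C.s * C.p * C.s⁻¹) by group, C.s2,
    one_mul, C.si, C.pp]

theorem tpt : C.t * C.p * C.t⁻¹ = C.p * C.a := by
  have := C.pt
  rw [C.pi] at this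
  rw [C.ti, show C.t * C.p * C.t = C.t * (C.p * C.t * C.p) * C.p⁻¹ by group, this, ← mul_assoc, C.t2, one_mul, C.pi,
    C.pa]

theorem tvt : C.t * C.v * C.t⁻¹ = C.v * C.z := by
  have e : C.t * C.s * C.t⁻¹ = C.s := by rw [C.ts]; group
  rw [v, show C.t * (C.p * (C.s * C.p * C.s)) * C.t⁻¹ = C.t * C.p * C.t⁻¹ * (C.t * C.s * C.t⁻¹ * (C.t * C.p * C.t⁻¹) *
      (C.t * C.s * C.t⁻¹)) by group, e, C.tpt,
    show C.s * (C.p * C.a) * C.s = C.s * C.p * C.s⁻¹ * (C.s * C.a * C.s⁻¹) * (C.s * C.s) by group, C.s2, mul_one,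
    C.sas, C.sps, show C.s * C.p * C.s = C.p * C.v by rw [← C.sps, C.si], ← mul_assoc C.p C.p, C.p2, one_mul,
    ← mul_assoc (C.p * C.a), ((show Commute _ _ from C.pa.symm)).mul_mul_mul_comm, C.p2, one_mul, C.av.eq,
    mul_assoc, ← mul_assoc C.a, C.a2, one_mul]

theorem fP_mul (i j k l i' j' k' l' : Bool) :
    C.fP i j k l * C.fP i' j' k' l' = C.fP (i ^^ i') (j ^^ j') (k ^^ k') (l ^^ l') := by
  have pz : Commute C.p C.z := C.pz
  have pa : Commute C.p C.a := C.pa
  simp only [fP]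
  rw [(((ev_comm pz l i').mul_right (ev_comm pa l j')).mul_right (ev_comm C.vp.symm l k')).mul_mul_mul_comm,
    ((ev_comm C.zv.symm k i').mul_right (ev_comm C.av.symm k j')).mul_mul_mul_comm,
    (ev_comm C.za.symm j i').mul_mul_mul_comm, ev_mul C.z2, ev_mul C.a2, ev_mul C.v2, ev_mul C.p2]

theorem t_fP (n i j k l : Bool) : ev n C.t * C.fP i j k l = C.fP (i ^^ (n && k)) (j ^^ (n && l)) k l * ev n C.t := by
  cases n
  · simp [ev]
  have e1 : ev i C.z * ev j C.a = C.fP i j false false := by simp [fP, ev]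
  have e2 : ev k (C.v * C.z) = C.fP k false k false := by cases k <;> simp [fP, ev, C.zv.eq]
  have e3 : ev l (C.p * C.a) = C.fP false l false l := by cases l <;> simp [fP, ev, C.pa]
  have e4 : C.t * C.z * C.t⁻¹ = C.z := by rw [C.tz.eq]; group
  have e5 : C.t * C.a * C.t⁻¹ = C.a := by rw [C.ta]; group
  refine eq_mul_of_mul_inv_eq ?_
  rw [show ev true C.t = C.t from rfl, fP, show C.t * (ev i C.z * ev j C.a * ev k C.v * ev l C.p) * C.t⁻¹ =
    C.t * ev i C.z * C.t⁻¹ * (C.t * ev j C.a * C.t⁻¹) * (C.t * ev k C.v * C.t⁻¹) * (C.t * ev l C.p * C.t⁻¹) by group]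
  simp only [ev_conj, e4, e5, C.tvt, C.tpt, e1, e2, e3, fP_mul]
  simp

theorem s_fP (n i j k l : Bool) : ev n C.s * C.fP i j k l = C.fP (i ^^ (n && j)) j (k ^^ (n && l)) l * ev n C.s := by
  cases n
  · simp [ev]
  have e1 : ev i C.z = C.fP i false false false := by simp [fP, ev]
  have e2 : ev j (C.a * C.z) = C.fP j j false false := by cases j <;> simp [fP, ev, C.za.eq]
  have e3 : ev l (C.p * C.v) = C.fP false false l l := by cases l <;> simp [fP, ev, C.vp.eq]
  have e4 : ev k C.v = C.fP false false k false := by simp [fP, ev]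
  refine eq_mul_of_mul_inv_eq ?_
  rw [show ev true C.s = C.s from rfl, fP, show C.s * (ev i C.z * ev j C.a * ev k C.v * ev l C.p) * C.s⁻¹ =
    C.s * ev i C.z * C.s⁻¹ * (C.s * ev j C.a * C.s⁻¹) * (C.s * ev k C.v * C.s⁻¹) * (C.s * ev l C.p * C.s⁻¹) by group]
  simp only [ev_conj, C.szs, C.sas, C.svs, C.sps]
  simp only [e1, e2, e3, e4, fP_mul]
  simp

theorem f_mul (x y : M) : C.f (mul x y) = C.f x * C.f y := by
  obtain ⟨i, j, k, l, m, n⟩ := x
  obtain ⟨i', j', k', l', m', n'⟩ := y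
  simp only [f, mul]
  rw [show C.fP i j k l * ev m C.s * ev n C.t * (C.fP i' j' k' l' * ev m' C.s * ev n' C.t) =
    C.fP i j k l * (ev m C.s * (ev n C.t * C.fP i' j' k' l')) * (ev m' C.s * ev n' C.t) by group, t_fP,
    ← mul_assoc (ev m C.s), s_fP, ← mul_assoc, ← mul_assoc, ← mul_assoc, fP_mul, ← ev_mul C.s2, ← ev_mul C.t2,
    mul_assoc _ (ev n C.t), (ev_comm C.ts n m').eq]
  simp only [mul_assoc]

theorem f_one : C.f one = 1 := by simp [f, fP, ev, one]
theorem fz : C.f xz = C.z := by simp [f, fP, ev, xz]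
theorem fa : C.f xa = C.a := by simp [f, fP, ev, xa]
theorem fv : C.f xv = C.v := by simp [f, fP, ev, xv]
theorem fp : C.f xp = C.p := by simp [f, fP, ev, xp]
theorem fs : C.f xs = C.s := by simp [f, fP, ev, xs]
theorem ft : C.f xt = C.t := by simp [f, fP, ev, xt]

theorem f_inv (x : M) : C.f (inv x) = (C.f x)⁻¹ := by
  refine eq_inv_of_mul_eq_one_right ?_
  rw [← f_mul, (by decide +kernel : ∀ x, mul x (inv x) = one), f_one]

/-- the subgroup given by a closed predicate on coordinates -/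
def sb (q : M → Bool) (h : q one = true ∧ ∀ x y, q x = true → q y = true → q (mul x y) = true) : Subgroup G where
  carrier := {g | ∃ x, q x = true ∧ C.f x = g}
  one_mem' := ⟨one, h.1, C.f_one⟩
  mul_mem' := by
    rintro _ _ ⟨x, hx, rfl⟩ ⟨y, hy, rfl⟩
    exact ⟨_, h.2 x y hx hy, C.f_mul x y⟩
  inv_mem' := by
    rintro _ ⟨x, hx, rfl⟩
    exact ⟨_, h.2 _ _ hx (h.2 _ _ hx hx), C.f_inv x⟩

def W : Subgroup G := C.sb (fun _ => true) (by simp)

theorem fW (x : M) : C.f x ∈ C.W := ⟨x, rfl, rfl⟩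

theorem f_inj : Function.Injective C.f := by
  have h1 : closure ({C.t, C.a, C.s, C.p} : Set G) ≤ C.W := by
    rw [closure_le]
    rintro _ (rfl | rfl | rfl | rfl)
    exacts [C.ft ▸ C.fW _, C.fa ▸ C.fW _, C.fs ▸ C.fW _, C.fp ▸ C.fW _]
  let F : M → C.W := fun x => ⟨_, C.fW x⟩
  have hF : Function.Surjective F := fun ⟨_, x, _, e⟩ => ⟨x, Subtype.ext e⟩
  have : Finite C.W := Finite.of_surjective F hF
  have h2 := Nat.card_le_card_of_injective _ (inclusion_injective h1)
  have h3 : Nat.card M = 64 := by simp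
  exact fun x y e => (hF.bijective_of_nat_card_le (by rw [h3, ← C.cardW]; exact h2)).1 (Subtype.ext e)

theorem f_eq {x y : M} : C.f x = C.f y ↔ x = y := C.f_inj.eq_iff

theorem f_mem {q h} {x : M} : C.f x ∈ C.sb q h ↔ q x = true :=
  ⟨fun ⟨_, h, e⟩ => C.f_inj e ▸ h, fun h => ⟨x, h, rfl⟩⟩

theorem card_le [Finite G] {Q : Subgroup G} (q : M → Bool) (h : ∀ g ∈ Q, ∃ x, q x = true ∧ C.f x = g) :
    Nat.card Q ≤ (Finset.univ.filter (q · = true)).card := by
  rw [← Fintype.card_subtype, ← Nat.card_eq_fintype_card]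
  choose F h1 h2 using h
  exact Nat.card_le_card_of_injective (fun g : Q => (⟨F g g.2, h1 g g.2⟩ : {x // q x = true})) fun a b e =>
    Subtype.ext (by rw [← h2 a a.2, ← h2 b b.2, show F a a.2 = F b b.2 from congrArg Subtype.val e])

theorem card_sb {q h} : Nat.card (C.sb q h) = (Finset.univ.filter (q · = true)).card := by
  rw [← Fintype.card_subtype, ← Nat.card_eq_fintype_card]
  exact (Nat.card_eq_of_bijective (fun x : {x // q x = true} => (⟨C.f x, x, x.2, rfl⟩ : C.sb q h))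
    ⟨fun x y e => Subtype.ext (C.f_inj (congrArg Subtype.val e)), fun ⟨_, x, h, e⟩ => ⟨⟨x, h⟩, Subtype.ext e⟩⟩).symm

def qP (x : M) : Bool := !x.2.2.2.2.1 && !x.2.2.2.2.2
def qL (x : M) : Bool := !x.2.2.2.2.2
def qV (x : M) : Bool := !x.2.1 && !x.2.2.2.1 && qP x
def qS (x : M) : Bool := !x.2.1 && !x.2.2.2.1 && qL x
def qA (x : M) : Bool := !x.2.2.1 && !x.2.2.2.1 && qP x
def qE (x : M) : Bool := !x.2.2.1 && !x.2.2.2.1 && !x.2.2.2.2.1
def qD (x : M) : Bool := !x.2.2.1 && !x.2.2.2.1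
def qT (x : M) : Bool := qD x && x.2.1 == x.2.2.2.2.1

def P : Subgroup G := C.sb qP (by decide +kernel)
def L : Subgroup G := C.sb qL (by decide +kernel)
def V : Subgroup G := C.sb qV (by decide +kernel)
def S : Subgroup G := C.sb qS (by decide +kernel)
def A : Subgroup G := C.sb qA (by decide +kernel)
def E : Subgroup G := C.sb qE (by decide +kernel)
def D : Subgroup G := C.sb qD (by decide +kernel)
def T : Subgroup G := C.sb qT (by decide +kernel)

theorem mP {x : M} : C.f x ∈ C.P ↔ qP x = true := C.f_mem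
theorem mL {x : M} : C.f x ∈ C.L ↔ qL x = true := C.f_mem
theorem mV {x : M} : C.f x ∈ C.V ↔ qV x = true := C.f_mem
theorem mS {x : M} : C.f x ∈ C.S ↔ qS x = true := C.f_mem
theorem mA {x : M} : C.f x ∈ C.A ↔ qA x = true := C.f_mem
theorem mE {x : M} : C.f x ∈ C.E ↔ qE x = true := C.f_mem
theorem mD {x : M} : C.f x ∈ C.D ↔ qD x = true := C.f_mem
theorem mT {x : M} : C.f x ∈ C.T ↔ qT x = true := C.f_mem

theorem cW : Nat.card C.W = 64 := C.card_sb.trans (by decide +kernel)
theorem cP : Nat.card C.P = 16 := C.card_sb.trans (by decide +kernel)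
theorem cL : Nat.card C.L = 32 := C.card_sb.trans (by decide +kernel)
theorem cV : Nat.card C.V = 4 := C.card_sb.trans (by decide +kernel)
theorem cS : Nat.card C.S = 8 := C.card_sb.trans (by decide +kernel)
theorem cE : Nat.card C.E = 8 := C.card_sb.trans (by decide +kernel)
theorem cD : Nat.card C.D = 16 := C.card_sb.trans (by decide +kernel)

end EG

end Cfsg.Agent.WA.H3.Cc
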