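import Cfsg.Agent.WA.H3T0

/-! Tools for S3139 (module H3T). -/

set_option autoImplicit false

namespace Cfsg.Agent.WA.H3

open Subgroup

section U4

variable {G : Type*} [Group G]

/-- `y ↦ y · y^ζ`. -/
def dl (ζ y : G) : G := y * (ζ⁻¹ * y * ζ)

theorem conj_mem_T {P : Subgroup G} {ζ y : G} (hζ : ζ ∈ normalizer (P : Set G)) (hy : y ∈ P) :
    ζ⁻¹ * y * ζ ∈ P := by
  have := (mem_normalizer_iff.1 (inv_mem hζ) y).1 hy
  simpa using this

theorem comm_of_sq {P : Subgroup G} (hP2 : ∀ y ∈ P, y * y = 1) {y w : G} (hy : y ∈ P) (hw : w ∈ P) :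
    y * w = w * y := by
  have h1 := hP2 _ (mul_mem hy hw)
  have h2 : y⁻¹ = y := inv_eq_of_mul_eq_one_right (hP2 y hy)
  have h3 : w⁻¹ = w := inv_eq_of_mul_eq_one_right (hP2 w hw)
  have h4 : (y * w)⁻¹ = y * w := inv_eq_of_mul_eq_one_right h1
  rw [← h4, mul_inv_rev, h2, h3]

theorem dl_mem {P : Subgroup G} {ζ y : G} (hζ : ζ ∈ normalizer (P : Set G)) (hy : y ∈ P) : dl ζ y ∈ P :=
  mul_mem hy (conj_mem_T hζ hy)

theorem dl_iter_mem {P : Subgroup G} {ζ : G} (hζ : ζ ∈ normalizer (P : Set G)) (n : ℕ) {y : G} (hy : y ∈ P) :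
    (dl ζ)^[n] y ∈ P := by
  induction n with
  | zero => exact hy
  | succ n ih => rw [Function.iterate_succ_apply']; exact dl_mem hζ ih

theorem dl_mul {P : Subgroup G} (hP2 : ∀ y ∈ P, y * y = 1) {ζ : G} (hζ : ζ ∈ normalizer (P : Set G)) {y w : G}
    (hy : y ∈ P) (hw : w ∈ P) : dl ζ (y * w) = dl ζ y * dl ζ w := by
  have h := comm_of_sq hP2 hw (conj_mem_T hζ hy)
  unfold dl
  calc y * w * (ζ⁻¹ * (y * w) * ζ) = y * (w * (ζ⁻¹ * y * ζ)) * (ζ⁻¹ * w * ζ) := by group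
    _ = _ := by rw [h]; group

theorem dl_iter_mul {P : Subgroup G} (hP2 : ∀ y ∈ P, y * y = 1) {ζ : G} (hζ : ζ ∈ normalizer (P : Set G)) (n : ℕ)
    {y w : G} (hy : y ∈ P) (hw : w ∈ P) : (dl ζ)^[n] (y * w) = (dl ζ)^[n] y * (dl ζ)^[n] w := by
  induction n with
  | zero => rfl
  | succ n ih =>
    rw [Function.iterate_succ_apply', Function.iterate_succ_apply', Function.iterate_succ_apply', ih,
      dl_mul hP2 hζ (dl_iter_mem hζ n hy) (dl_iter_mem hζ n hw)]

theorem dl_iter_one (ζ : G) (n : ℕ) : (dl ζ)^[n] 1 = 1 := by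
  induction n with
  | zero => rfl
  | succ n ih => rw [Function.iterate_succ_apply', ih]; simp [dl]

theorem dl_dl {P : Subgroup G} (hP2 : ∀ y ∈ P, y * y = 1) {ζ : G} (hζ : ζ ∈ normalizer (P : Set G)) {y : G}
    (hy : y ∈ P) : dl ζ (dl ζ y) = dl (ζ ^ 2) y := by
  have h := hP2 _ (conj_mem_T hζ hy)
  unfold dl
  calc y * (ζ⁻¹ * y * ζ) * (ζ⁻¹ * (y * (ζ⁻¹ * y * ζ)) * ζ)
      = y * ((ζ⁻¹ * y * ζ) * (ζ⁻¹ * y * ζ)) * ((ζ ^ 2)⁻¹ * y * ζ ^ 2) := by rw [pow_two]; group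
    _ = _ := by rw [h, mul_one]

theorem dl_iter_pow {P : Subgroup G} (hP2 : ∀ y ∈ P, y * y = 1) {ζ : G} (hζ : ζ ∈ normalizer (P : Set G)) (k : ℕ)
    {y : G} (hy : y ∈ P) : (dl ζ)^[2 ^ k] y = dl (ζ ^ 2 ^ k) y := by
  induction k generalizing y with
  | zero => simp
  | succ k ih =>
    rw [pow_succ, mul_two, Function.iterate_add_apply, ih hy, ih (dl_mem (pow_mem hζ _) hy),
      dl_dl hP2 (pow_mem hζ _) hy, ← pow_mul, mul_two]

/-- the terms of the ascending series. -/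
def dA {P : Subgroup G} (hP2 : ∀ y ∈ P, y * y = 1) {ζ : G} (hζ : ζ ∈ normalizer (P : Set G)) (N : Subgroup G)
    (n : ℕ) : Subgroup G where
  carrier := {y | y ∈ P ∧ (dl ζ)^[n] y ∈ N}
  one_mem' := ⟨one_mem _, by rw [dl_iter_one]; exact one_mem _⟩
  mul_mem' := fun {a b} ha hb => ⟨mul_mem ha.1 hb.1, by
    rw [dl_iter_mul hP2 hζ n ha.1 hb.1]; exact mul_mem ha.2 hb.2⟩
  inv_mem' := fun {a} ha => by
    have : a⁻¹ = a := inv_eq_of_mul_eq_one_right (hP2 a ha.1)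
    rw [this]; exact ha

theorem two_mul_card_le_of_lt [Finite G] {H K : Subgroup G} (h : H < K) : 2 * Nat.card H ≤ Nat.card K := by
  obtain ⟨m, hm⟩ := card_dvd_of_le h.le
  have hpos : 0 < Nat.card K := Nat.card_pos
  have hne : Nat.card K ≠ Nat.card H := fun e => h.ne (eq_of_le_of_card_ge h.le e.le)
  rcases m with _ | _ | m
  · omega
  · omega
  · rw [hm]; nlinarith

end U4

/-- module H3T: unipotent action on a section of order at most 16. -/
theorem u4 {G : Type*} [Group G] [Finite G] {P N : Subgroup G} {ζ : G} (hP2 : ∀ y ∈ P, y * y = 1) (hNP : N ≤ P)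
    (hζ : ζ ∈ normalizer (P : Set G)) (hζN : ζ ∈ normalizer (N : Set G)) (h2 : ∃ k : ℕ, ζ ^ 2 ^ k = 1)
    (hi : Nat.card P ≤ 16 * Nat.card N) : ∀ y ∈ P, y⁻¹ * ((ζ ^ 4)⁻¹ * y * ζ ^ 4) ∈ N := by
  have hmem : ∀ n y, y ∈ dA hP2 hζ N n ↔ y ∈ P ∧ (dl ζ)^[n] y ∈ N := fun _ _ => Iff.rfl
  have hle : ∀ n, dA hP2 hζ N n ≤ dA hP2 hζ N (n + 1) := by
    intro n y hy
    rw [hmem] at hy ⊢
    refine ⟨hy.1, ?_⟩
    rw [Function.iterate_succ_apply']
    exact dl_mem hζN hy.2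
  have hP : ∀ n, dA hP2 hζ N n ≤ P := fun n y hy => ((hmem n y).1 hy).1
  have hstep : ∀ n, dA hP2 hζ N (n + 1) ≤ dA hP2 hζ N n → dA hP2 hζ N (n + 2) ≤ dA hP2 hζ N (n + 1) := by
    intro n h y hy
    rw [hmem] at hy ⊢
    refine ⟨hy.1, ?_⟩
    have h1 : dl ζ y ∈ dA hP2 hζ N (n + 1) := (hmem _ _).2 ⟨dl_mem hζ hy.1, hy.2⟩
    exact ((hmem _ _).1 (h h1)).2
  have hstab : ∀ n, dA hP2 hζ N (n + 1) ≤ dA hP2 hζ N n → ∀ m, dA hP2 hζ N (n + m) ≤ dA hP2 hζ N n := by
    intro n h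
    have h' : ∀ m, dA hP2 hζ N (n + m + 1) ≤ dA hP2 hζ N (n + m) := by
      intro m
      induction m with
      | zero => exact h
      | succ m ih => exact hstep _ ih
    intro m
    induction m with
    | zero => exact le_rfl
    | succ m ih => exact (h' m).trans ih
  have hmono : ∀ n m, dA hP2 hζ N n ≤ dA hP2 hζ N (n + m) := by
    intro n m
    induction m with
    | zero => exact le_rfl
    | succ m ih => exact ih.trans (hle _)
  obtain ⟨k, hk⟩ := h2
  have htop : P ≤ dA hP2 hζ N (2 ^ k) := by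
    intro y hy
    rw [hmem]
    refine ⟨hy, ?_⟩
    rw [dl_iter_pow hP2 hζ k hy, hk]
    have : dl 1 y = 1 := by simpa [dl] using hP2 y hy
    rw [this]; exact one_mem _
  have hfin : ∀ n, dA hP2 hζ N (n + 1) ≤ dA hP2 hζ N n → P ≤ dA hP2 hζ N n := by
    intro n h
    exact htop.trans ((by rw [add_comm]; exact hmono _ _ : dA hP2 hζ N (2 ^ k) ≤ dA hP2 hζ N (n + 2 ^ k)).trans
      (hstab n h _))
  have h4 : P ≤ dA hP2 hζ N 4 := by
    by_contra hn
    have hlt : ∀ n, n ≤ 4 → dA hP2 hζ N n < dA hP2 hζ N (n + 1) := by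
      intro n hn4
      refine lt_of_le_not_ge (hle n) fun h => hn ?_
      obtain ⟨m, hm⟩ := Nat.exists_eq_add_of_le hn4
      rw [hm]
      exact (hfin n h).trans (hmono _ _)
    have c0 := two_mul_card_le_of_lt (hlt 0 (by norm_num))
    have c1 := two_mul_card_le_of_lt (hlt 1 (by norm_num))
    have c2 := two_mul_card_le_of_lt (hlt 2 (by norm_num))
    have c3 := two_mul_card_le_of_lt (hlt 3 (by norm_num))
    have c4 := two_mul_card_le_of_lt (hlt 4 (by norm_num))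
    have c5 := card_le_of_le (hP 5)
    have cN : Nat.card N ≤ Nat.card (dA hP2 hζ N 0) :=
      card_le_of_le fun y hy => (hmem _ _).2 ⟨hNP hy, hy⟩
    have : 0 < Nat.card N := Nat.card_pos
    norm_num at c0 c1 c2 c3 c4
    omega
  intro y hy
  have h := ((hmem _ _).1 (h4 hy)).2
  rw [show (4 : ℕ) = 2 ^ 2 from rfl, dl_iter_pow hP2 hζ 2 hy] at h
  have e : y⁻¹ = y := inv_eq_of_mul_eq_one_right (hP2 y hy)
  rw [e]
  exact h

/-- module H3T -/
theorem F2.syl {G : Type*} [Group G] [Finite G] (F : F2 G) :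
    H8.IsSylowIn 2 (closure ({F.t, F.x, F.a, F.u} : Set G)) (centralizer ({F.t} : Set G)) := by
  refine ⟨?_, IsPGroup.of_card (n := 6) F.card0, fun Q hQ hp hle => ?_⟩
  · rw [closure_le]
    rintro _ (rfl | rfl | rfl | rfl) <;> simp only [SetLike.mem_coe, mem_centralizer_singleton_iff]
    · exact F.tx.symm
    · exact F.ta.symm
    · exact F.tu.symm
  · exact (eq_of_le_of_card_ge hle (by rw [F.card0]; exact F.bT Q hp hQ)).symm

/-- module H3T: centre of `S₀`. -/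
theorem F2.cen {G : Type*} [Group G] [Finite G] (F : F2 G) {c : G} (hc : c ∈ closure ({F.t, F.x, F.a, F.u} : Set G))
    (hx : c * F.x = F.x * c) (ha : c * F.a = F.a * c) : c = 1 ∨ c = F.t ∨ c = F.z ∨ c = F.t * F.z := by
  obtain ⟨m, rfl⟩ := F.mem_S0.1 hc
  rw [← F.phi_X, ← map_mul, ← map_mul, F.phi_eq] at hx
  rw [← F.phi_A, ← map_mul, ← map_mul, F.phi_eq] at ha
  rw [← F.phi_T, ← F.phi_Z, ← map_mul, ← map_one F.phi, F.phi_eq, F.phi_eq, F.phi_eq, F.phi_eq]
  clear hc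
  revert m
  decide +kernel

/-- module H3T: second centre of `S₀`. -/
theorem F2.cen2 {G : Type*} [Group G] [Finite G] (F : F2 G) {c : G} (hc : c ∈ closure ({F.t, F.x, F.a, F.u} : Set G))
    (h : ∀ r ∈ closure ({F.t, F.x, F.a, F.u} : Set G), r⁻¹ * c * r = c ∨ r⁻¹ * c * r = c * F.z) :
    c ∈ closure ({F.t, F.u, F.x ^ 2} : Set G) ∧ (c * c = 1 → c ∈ closure ({F.t, F.u, F.z} : Set G)) := by
  obtain ⟨m, rfl⟩ := F.mem_S0.1 hc
  have hx := h _ (F.mem_S0.2 ⟨HM.X, rfl⟩)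
  have ha := h _ (F.mem_S0.2 ⟨HM.A, rfl⟩)
  rw [← F.phi_Z, ← map_inv, ← map_mul, ← map_mul, ← map_mul, F.phi_eq, F.phi_eq] at hx ha
  rw [F.phi_mem_Z2, F.phi_mem_E8, ← map_mul, ← map_one F.phi, F.phi_eq]
  clear h hc
  revert m
  decide +kernel

/-- module H3T: normal elementary abelian subgroups of `S₀`. -/
theorem F2.nea {G : Type*} [Group G] [Finite G] (F : F2 G) {D : Subgroup G} (hD : D ≤ closure ({F.t, F.x, F.a, F.u} : Set G))
    (h2 : ∀ y ∈ D, y * y = 1) (hn : closure ({F.t, F.x, F.a, F.u} : Set G) ≤ normalizer (D : Set G)) :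
    D ≤ closure ({F.t, F.u, F.z} : Set G) := by
  intro c hc
  obtain ⟨m, rfl⟩ := F.mem_S0.1 (hD hc)
  have h1 := h2 _ hc
  have h3 := h2 _ (mul_mem hc (conj_mem_T (hn (F.mem_S0.2 ⟨HM.X, rfl⟩)) hc))
  rw [← map_mul, ← map_one F.phi, F.phi_eq] at h1
  rw [← map_inv, ← map_mul, ← map_mul, ← map_mul, ← map_mul, ← map_one F.phi, F.phi_eq] at h3
  rw [F.phi_mem_E8]
  clear hc
  revert m
  decide +kernel

/-- module H3T: the two `E₁₆` of `S₀`. -/
theorem F2.e16 {G : Type*} [Group G] [Finite G] (F : F2 G) {D : Subgroup G} (hD : D ≤ closure ({F.t, F.x, F.a, F.u} : Set G))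
    (h2 : ∀ y ∈ D, y * y = 1) (hc : 16 ≤ Nat.card D) :
    D = closure ({F.t, F.u, F.a, F.z} : Set G) ∨ D = closure ({F.t, F.u, F.s, F.z} : Set G) := by
  have hmap : (D.comap F.phi).map F.phi = D := map_comap_eq_self (by rwa [F.range_phi])
  have hcard : Nat.card (D.comap F.phi) = Nat.card D := by
    conv_rhs => rw [← hmap]
    exact (card_map_of_injective F.phi_inj).symm
  rcases HM.e16 (D.comap F.phi) (fun y hy => F.phi_eq.1 (by rw [map_mul, map_one]; exact h2 _ hy))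
    (by rw [hcard]; exact hc) with h | h
  · left; rw [← hmap, h, F.map_E]
  · right; rw [← hmap, h, F.map_E']

/-- module H3T: `C₀ = C_{S₀}(u)`, membership and orders. -/
theorem F2.c0 {G : Type*} [Group G] [Finite G] (F : F2 G) :
    (∀ c ∈ closure ({F.t, F.x, F.a, F.u} : Set G), c * F.u = F.u * c ↔ c ∈ closure ({F.t, F.u, F.a, F.s} : Set G)) ∧
    Nat.card (closure ({F.t, F.u, F.a, F.s} : Set G)) = 32 ∧ Nat.card (closure ({F.t, F.u, F.a, F.z} : Set G)) = 16 ∧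
    Nat.card (closure ({F.t, F.u, F.z} : Set G)) = 8 ∧ Nat.card (closure ({F.t, F.a, F.s} : Set G)) = 16 := by
  refine ⟨fun c hc => ?_, ?_, ?_, ?_, ?_⟩
  · obtain ⟨m, rfl⟩ := F.mem_S0.1 hc
    rw [F.phi_mem_C0]
    conv_lhs => rw [← F.phi_U, ← map_mul, ← map_mul, F.phi_eq]
    clear hc
    revert m
    decide +kernel
  · rw [← F.map_C0, card_map_of_injective F.phi_inj, HM.card_of_mem _ _ HM.mem_C0]; decide +kernel
  · rw [← F.map_E, card_map_of_injective F.phi_inj, HM.card_of_mem _ _ HM.mem_E]; decide +kernel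
  · rw [← F.map_E8, card_map_of_injective F.phi_inj, HM.card_of_mem _ _ HM.mem_E8]; decide +kernel
  · rw [← F.map_D, card_map_of_injective F.phi_inj, HM.card_of_mem _ _ HM.mem_D]; decide +kernel

theorem F2.C0_le {G : Type*} [Group G] (F : F2 G) :
    closure ({F.t, F.u, F.a, F.s} : Set G) ≤ closure ({F.t, F.x, F.a, F.u} : Set G) := by
  rw [← F.map_C0, ← F.range_phi]; exact map_le_range _ _

/-- module H3T: normal form and independence in `C₀`. -/
theorem F2.nf {G : Type*} [Group G] [Finite G] (F : F2 G) :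
    (∀ c ∈ closure ({F.t, F.u, F.a, F.s} : Set G), ∃ i j k l m : Fin 2,
      c = F.t ^ (i : ℕ) * F.u ^ (j : ℕ) * F.z ^ (k : ℕ) * F.a ^ (l : ℕ) * F.s ^ (m : ℕ)) ∧
    (∀ i j k l m : Fin 2, F.t ^ (i : ℕ) * F.u ^ (j : ℕ) * F.z ^ (k : ℕ) * F.a ^ (l : ℕ) * F.s ^ (m : ℕ) = 1 →
      i = 0 ∧ j = 0 ∧ k = 0 ∧ l = 0 ∧ m = 0) := by
  have e : ∀ i j k l m : ℕ, F.t ^ i * F.u ^ j * F.z ^ k * F.a ^ l * F.s ^ m =
      F.phi (HM.T ^ i * HM.U ^ j * HM.Z ^ k * HM.A ^ l * HM.S ^ m) := by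
    intro i j k l m
    simp only [map_mul, map_pow, F.phi_T, F.phi_U, F.phi_Z, F.phi_A, F.phi_S]
  constructor
  · intro c hc
    obtain ⟨n, rfl⟩ := F.mem_S0.1 (F.C0_le hc)
    rw [F.phi_mem_C0] at hc
    simp only [e, F.phi_eq]
    revert n
    decide +kernel
  · intro i j k l m h
    rw [e, ← map_one F.phi, F.phi_eq] at h
    revert i j k l m
    decide +kernel

namespace F2

variable {G : Type*} [Group G] (F : F2 G)

/-- transport of an identity between words of the model. -/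
theorem of_model {m n : HM} {c d : G} (hc : F.phi m = c) (hd : F.phi n = d) (h : m = n) : c = d := by
  rw [← hc, ← hd, h]

theorem ne_of_model {m n : HM} {c d : G} (hc : F.phi m = c) (hd : F.phi n = d) (h : m ≠ n) : c ≠ d := by
  rw [← hc, ← hd]; exact fun e => h (F.phi_eq.1 e)

theorem s2 : F.s * F.s = 1 := by
  rw [← F.phi_S, ← map_mul, ← map_one F.phi, F.phi_eq]; decide
theorem asas : F.a * F.s * F.a * F.s = F.z := by
  rw [← F.phi_S, ← F.phi_A, ← F.phi_Z, ← map_mul, ← map_mul, ← map_mul, F.phi_eq]; decide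
theorem ts : F.t * F.s = F.s * F.t := by
  rw [← F.phi_S, ← F.phi_T, ← map_mul, ← map_mul, F.phi_eq]; decide
theorem tz : F.t * F.z = F.z * F.t := by
  rw [← F.phi_Z, ← F.phi_T, ← map_mul, ← map_mul, F.phi_eq]; decide
theorem us : F.u * F.s = F.s * F.u := by
  rw [← F.phi_S, ← F.phi_U, ← map_mul, ← map_mul, F.phi_eq]; decide
theorem uz : F.u * F.z = F.z * F.u := by
  rw [← F.phi_Z, ← F.phi_U, ← map_mul, ← map_mul, F.phi_eq]; decide
theorem az : F.a * F.z = F.z * F.a := by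
  rw [← F.phi_Z, ← F.phi_A, ← map_mul, ← map_mul, F.phi_eq]; decide
theorem sz : F.s * F.z = F.z * F.s := by
  rw [← F.phi_Z, ← F.phi_S, ← map_mul, ← map_mul, F.phi_eq]; decide
theorem xz : F.x * F.z = F.z * F.x := by
  rw [← F.phi_Z, ← F.phi_X, ← map_mul, ← map_mul, F.phi_eq]; decide
theorem u_x : F.x⁻¹ * F.u * F.x = F.u * F.z := by
  rw [← F.phi_Z, ← F.phi_X, ← F.phi_U, ← map_inv, ← map_mul, ← map_mul, ← map_mul, F.phi_eq]; decide
theorem s_x : F.x⁻¹ * F.s * F.x = F.a * F.z := by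
  rw [← F.phi_Z, ← F.phi_X, ← F.phi_S, ← F.phi_A, ← map_inv, ← map_mul, ← map_mul, ← map_mul, F.phi_eq]; decide
theorem sas : F.s * F.a * F.s = F.a * F.z := by
  rw [← F.phi_Z, ← F.phi_S, ← F.phi_A, ← map_mul, ← map_mul, ← map_mul, F.phi_eq]; decide
theorem asa : F.a * F.s * F.a = F.s * F.z := by
  rw [← F.phi_Z, ← F.phi_S, ← F.phi_A, ← map_mul, ← map_mul, ← map_mul, F.phi_eq]; decide
theorem sa_eq : F.s * F.a = F.x ^ 2 := by
  rw [← F.phi_X, ← F.phi_S, ← F.phi_A, ← map_mul, ← map_pow, F.phi_eq]; decide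
theorem t_ne : F.t ≠ 1 := F.ne_of_model F.phi_T (map_one _) (by decide)
theorem u_ne : F.u ≠ 1 := F.ne_of_model F.phi_U (map_one _) (by decide)
theorem z_ne : F.z ≠ 1 := F.ne_of_model F.phi_Z (map_one _) (by decide)
theorem a_ne : F.a ≠ 1 := F.ne_of_model F.phi_A (map_one _) (by decide)
theorem u_ne_z : F.u ≠ F.z := F.ne_of_model F.phi_U F.phi_Z (by decide)
theorem conj_tz : IsConj F.t (F.t * F.z) := isConj_iff.2 ⟨F.f⁻¹, by rw [inv_inv, F.ft]⟩

end F2

/-- module H3T: a conjugate of `t` centralizing `V₀` has centralizer of 2-part at most 32 in `C(V₀)`. -/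
theorem F3.bdc {G : Type*} [Group G] [Finite G] (F : F3 G) {c : G} (hc : IsConj F.t c) (hu : c * F.u = F.u * c)
    (hz : c * F.z = F.z * c) : Bd (centralizer ({c, F.u, F.z} : Set G)) 32 := by
  haveI : Fact (Nat.Prime 2) := ⟨Nat.prime_two⟩
  intro P hP hle
  by_contra hlt
  obtain ⟨g, hg⟩ := isConj_iff.1 hc
  have hS : H8.IsSylowIn 2 (H8.cj g (closure ({F.t, F.x, F.a, F.u} : Set G))) (centralizer ({c} : Set G)) := by
    have := F.toF2.syl.cj g
    rwa [H8.cj_centralizer_singleton, hg] at this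
  have hPc : P ≤ centralizer ({c} : Set G) := hle.trans (centralizer_le (by simp))
  have hcard : 64 ≤ Nat.card P := by
    obtain ⟨n, hn⟩ := hP.exists_card_eq
    rw [hn] at hlt ⊢
    have : 5 < n := by
      by_contra h5
      exact hlt (Nat.pow_le_pow_right (by norm_num) (Nat.le_of_not_lt h5))
    exact Nat.pow_le_pow_right (n := 2) (by norm_num) this
  have hPS : H8.IsSylowIn 2 P (centralizer ({c} : Set G)) :=
    hS.of_card_ge hP hPc (by rw [H8.card_cj, F.card0]; exact hcard)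
  obtain ⟨k, -, hk⟩ := hS.exists_cj_eq hPS
  rw [← H8.cj_mul] at hk
  have key : ∀ v : G, v * v = 1 → c * v = v * c → (∀ y ∈ P, v * y = y * v) → v ≠ 1 → ¬ IsConj F.t v →
      (k * g)⁻¹ * v * (k * g) = F.z := by
    intro v v2 hcv hvP hv1 hvt
    have hvz : IsPGroup 2 (zpowers v) := by
      refine IsPGroup.of_card_dvd_pow (n := 1) ?_
      rw [Nat.card_zpowers, pow_one]
      exact orderOf_dvd_of_pow_eq_one (by rw [pow_two, v2])
    have hvm : v ∈ P := by
      refine hPS.le_of_le_normalizer' hvz ?_ ?_ (mem_zpowers v)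
      · rw [zpowers_le, mem_centralizer_singleton_iff]; exact hcv.symm
      · rw [zpowers_le]
        refine centralizer_le_normalizer _ ?_
        rw [mem_centralizer_iff]
        intro y hy
        exact (hvP y hy).symm
    have hcomm : ∀ r ∈ closure ({F.t, F.x, F.a, F.u} : Set G),
        (k * g)⁻¹ * v * (k * g) * r = r * ((k * g)⁻¹ * v * (k * g)) := by
      intro r hr
      have h1 : (k * g) * r * (k * g)⁻¹ ∈ P := by rw [← hk]; exact H8.conj_mem_cj _ hr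
      have h2 := hvP _ h1
      calc (k * g)⁻¹ * v * (k * g) * r = (k * g)⁻¹ * (v * ((k * g) * r * (k * g)⁻¹)) * (k * g) := by group
        _ = _ := by rw [h2]; group
    have hmem : (k * g)⁻¹ * v * (k * g) ∈ closure ({F.t, F.x, F.a, F.u} : Set G) := by
      rw [← H8.mem_cj, hk]; exact hvm
    have hcj : IsConj ((k * g)⁻¹ * v * (k * g)) v := isConj_iff.2 ⟨k * g, by group⟩
    rcases F.toF2.cen hmem (hcomm _ (subset_closure (by simp))) (hcomm _ (subset_closure (by simp))) with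
      h | h | h | h
    · rw [h] at hcj; exact absurd (isConj_one_right.1 hcj) hv1
    · rw [h] at hcj; exact absurd hcj hvt
    · exact h
    · rw [h] at hcj; exact absurd (F.toF2.conj_tz.trans hcj) hvt
  have h1 := key F.u F.u2 hu (fun y hy => mem_centralizer_iff.1 (hle hy) _ (by simp)) F.toF2.u_ne F.nu
  have h2 := key F.z F.z2 hz (fun y hy => mem_centralizer_iff.1 (hle hy) _ (by simp)) F.toF2.z_ne F.nz
  apply F.toF2.u_ne_z
  have := h1.trans h2.symm
  simpa using this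

end Cfsg.Agent.WA.H3
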