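import Cfsg.Agent.WA.H3Cc1
import Cfsg.Agent.WA.H3T

/-! The normalizer of `P = E₁₆` (part of H3Cc). -/

set_option autoImplicit false
set_option linter.unusedSectionVars false
set_option linter.unusedVariables false

namespace Cfsg.Agent.WA.H3.Cc

open Subgroup Cfsg.Agent.FT Cfsg.Agent.L0 Cfsg.Agent.H8 Cfsg.Agent.WA.Rw

variable {G : Type*} [Group G] [Finite G]

theorem cm {x y : G} (e : x⁻¹ * y * x = y) : x * y = y * x := by
  conv_lhs => rw [← e]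
  group

theorem cm' {x y : G} (e : x * y = y * x) : x⁻¹ * y * x = y := by rw [mul_assoc, ← e]; group

theorem cj2 {x : G} (e : x * x = 1) (g : G) : g⁻¹ * x * g * (g⁻¹ * x * g) = 1 := by
  rw [show g⁻¹ * x * g * (g⁻¹ * x * g) = g⁻¹ * (x * x) * g by group, e]; group

theorem cjc {x y : G} (e : x * y = y * x) (g : G) : g⁻¹ * x * g * (g⁻¹ * y * g) = g⁻¹ * y * g * (g⁻¹ * x * g) := by
  rw [show g⁻¹ * x * g * (g⁻¹ * y * g) = g⁻¹ * (x * y) * g by group, e]; group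

theorem ab2 {Q : Subgroup G} (h : ∀ q ∈ Q, q * q = 1) {x y : G} (hx : x ∈ Q) (hy : y ∈ Q) : x * y = y * x := by
  have := inv_eq_of_mul_eq_one_right (h _ (mul_mem hx hy))
  rwa [mul_inv_rev, inv_eq_of_mul_eq_one_right (h _ hx), inv_eq_of_mul_eq_one_right (h _ hy), eq_comm] at this

namespace EG

variable (C : EG G)

theorem f_comm {x y : M} : C.f x * C.f y = C.f y * C.f x ↔ mul x y = mul y x := by rw [← f_mul, ← f_mul, f_eq]

theorem f_sq {x : M} : C.f x * C.f x = 1 ↔ mul x x = one := by rw [← f_mul, ← f_one C, f_eq]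

theorem f_cj (x y : M) : (C.f y)⁻¹ * C.f x * C.f y = C.f (mul (mul (inv y) x) y) := by rw [f_mul, f_mul, f_inv]

theorem sb_le {q h q' h'} (e : ∀ x, q x = true → q' x = true) : C.sb q h ≤ C.sb q' h' :=
  fun _ ⟨x, h, e'⟩ => ⟨x, e x h, e'⟩

theorem sbW {q h} : C.sb q h ≤ C.W := C.sb_le fun _ _ => rfl

theorem W_norm {q h} (e : ∀ x y, q x = true → q (mul (mul y x) (inv y)) = true) : C.W ≤ 𝐍(C.sb q h) := by
  rintro _ ⟨y, -, rfl⟩
  refine norm_of ?_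
  rintro _ ⟨x, hx, rfl⟩
  exact ⟨_, e x y hx, by rw [f_mul, f_mul, f_inv]⟩

theorem WP : C.W ≤ 𝐍(C.P) := C.W_norm (by decide +kernel)
theorem tW : C.t ∈ C.W := C.ft ▸ C.fW _
theorem sW : C.s ∈ C.W := C.fs ▸ C.fW _
theorem aP : C.a ∈ C.P := C.fa ▸ C.mP.2 rfl
theorem pP : C.p ∈ C.P := C.fp ▸ C.mP.2 rfl
theorem zV : C.z ∈ C.V := C.fz ▸ C.mV.2 rfl
theorem vV : C.v ∈ C.V := C.fv ▸ C.mV.2 rfl
theorem VP : C.V ≤ C.P := C.sb_le (by decide +kernel)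
theorem PW : C.P ≤ C.W := C.sbW
theorem P2 : ∀ y ∈ C.P, y * y = 1 := by
  rintro _ ⟨x, hx, rfl⟩
  exact C.f_sq.2 (by revert x; decide +kernel)

theorem memV {c : G} (h : c ∈ C.V) : c = 1 ∨ c = C.z ∨ c = C.v ∨ c = C.v * C.z := by
  obtain ⟨x, hx, rfl⟩ := h
  rw [← C.fz, ← C.fv, ← f_mul, ← C.f_one]
  simp only [f_eq]
  revert x; decide +kernel

include C in
theorem pg (H : Subgroup G) : IsPGroup 2 H := C.two.to_subgroup H

theorem cenE {g : G} (h1 : g * C.t = C.t * g) (h2 : g * C.a = C.a * g) (h3 : g * C.z = C.z * g) : g ∈ C.E := by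
  have : C.E ≤ centralizer ({C.t, C.a, C.z} : Set G) := by
    rintro _ ⟨x, hx, rfl⟩ y (rfl | rfl | rfl)
    · rw [← C.ft, f_comm]; revert x; decide +kernel
    · rw [← C.fa, f_comm]; revert x; decide +kernel
    · rw [← C.fz, f_comm]; revert x; decide +kernel
  rw [eq_of_cle this (C.cE ▸ C.bE)]
  rintro y (rfl | rfl | rfl)
  exacts [h1.symm, h2.symm, h3.symm]

theorem zcen {q h} (h1 : q xz = true) {y : M} (h2 : ∀ x, q x = true → mul y x = mul x y → x = one ∨ x = xz)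
    (hy : C.f y ∈ 𝐍(C.sb q h)) {g : G} (hg : g ∈ 𝐍(C.sb q h)) : g * C.z = C.z * g := by
  have := Fact.mk Nat.prime_two
  obtain ⟨⟨_, ⟨x, hx, rfl⟩, h3⟩, h4⟩ := ne_bot_iff_exists_ne_one.1 (H4.inf_centralizer_ne_bot_of_isPGroup (C.pg _) (C.pg _)
    (le_refl 𝐍(C.sb q h)) fun e => by
      have := (C.f_mem (h := h)).2 h1
      rw [e, mem_bot, ← C.f_one, f_eq] at this
      exact absurd this (by decide))
  rcases h2 x hx (C.f_comm.1 (h3 _ hy)) with rfl | rfl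
  · exact (h4 (Subtype.ext C.f_one)).elim
  · exact C.fz ▸ h3 g hg

theorem cenA {g : G} (h1 : g * C.t = C.t * g) (h2 : g ∈ 𝐍(C.A)) : g ∈ C.D := by
  have hz : g * C.z = C.z * g := C.zcen rfl (y := xs) (by decide +kernel) (C.W_norm (by decide +kernel) (C.fW _)) h2
  have ED : C.E ≤ C.D := C.sb_le (by decide +kernel)
  obtain ⟨x, hx, e⟩ := conj_mem'' h2 (show C.a ∈ C.A from C.fa ▸ C.mA.2 rfl)
  rcases (by decide +kernel : ∀ x, qA x = true → x = one ∨ x = xz ∨ x = xa ∨ x = mul (mul xs xa) (inv xs)) x hx with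
    rfl | rfl | rfl | rfl
  · rw [f_one, eq_comm, mul_assoc, inv_mul_eq_one, eq_comm, mul_eq_right, ← C.fa, ← C.f_one, f_eq] at e
    exact absurd e (by decide)
  · rw [fz, ← cm' hz, mul_left_inj, mul_right_inj, ← C.fa, ← C.fz, f_eq] at e
    exact absurd e (by decide)
  · exact ED (C.cenE h1 (cm (C.fa ▸ e.symm)) hz)
  · rw [f_mul, f_mul, f_inv, fs, fa] at e
    have sD : C.s ∈ C.D := C.fs ▸ C.mD.2 rfl
    refine (mul_mem_cancel_right sD).1 (ED (C.cenE ?_ (cm ?_) ?_))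
    · rw [mul_assoc, ← C.ts, ← mul_assoc, h1, mul_assoc]
    · rw [show (g * C.s)⁻¹ * C.a * (g * C.s) = C.s⁻¹ * (g⁻¹ * C.a * g) * C.s by group, ← e]; group
    · rw [mul_assoc, eq_mul_of_mul_inv_eq C.szs, ← mul_assoc, hz, mul_assoc]

/-- an involution of `u P` is `P`-conjugate to `u` -/
theorem invP {u : M} (hu : u = xt ∨ u = xs ∨ u = mul xt xs) {c : G} (h1 : (C.f u)⁻¹ * c ∈ C.P) (h2 : c * c = 1) :
    ∃ y ∈ C.P, y⁻¹ * C.f u * y = c := by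
  obtain ⟨x, hx, e⟩ := h1
  obtain rfl : c = C.f (mul u x) := by rw [f_mul, e]; group
  obtain ⟨y, hy, e⟩ : ∃ y, qP y = true ∧ mul (mul (inv y) u) y = mul u x := by
    rw [f_sq] at h2
    clear e
    rcases hu with rfl | rfl | rfl <;> revert x <;> decide +kernel
  exact ⟨_, C.mP.2 hy, by rw [f_cj, e]⟩

theorem n0 {g : G} (hg : g ∈ 𝐍(C.P)) (h : C.t⁻¹ * (g⁻¹ * C.t * g) ∈ C.P) : g ∈ C.W := by
  obtain ⟨y, hy, e⟩ := C.invP (Or.inl rfl) (C.ft.symm ▸ h) (cj2 C.t2 g)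
  rw [ft] at e
  have h1 : g * y⁻¹ * C.t = C.t * (g * y⁻¹) := by
    apply cm
    rw [show (g * y⁻¹)⁻¹ * C.t * (g * y⁻¹) = y * (g⁻¹ * C.t * g) * y⁻¹ by group, ← e]; group
  refine (mul_mem_cancel_right (inv_mem (C.PW hy))).1 (C.sbW (C.cenA h1 (norm_of ?_)))
  rintro _ ⟨x, hx, rfl⟩
  obtain ⟨x', hx', e⟩ := conj_mem' (mul_mem hg (inv_mem (le_normalizer hy))) (C.mP.2 (by revert x; decide +kernel : qP x = true))
  have h2 : C.f x * C.t = C.t * C.f x := by rw [← C.ft, f_comm]; clear e; revert x; decide +kernel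
  have h3 := cjc h2 (g * y⁻¹)⁻¹
  rw [inv_inv, ← e, h1, mul_inv_cancel_right, ← C.ft, f_comm] at h3
  rw [← e, mA]
  clear e
  revert x'; decide +kernel

theorem fts : C.f (mul xt xs) = C.t * C.s := by rw [f_mul, ft, fs]

theorem n1 : (∀ g ∈ 𝐍(C.P), C.s⁻¹ * (g⁻¹ * C.s * g) ∈ C.P) ∧
    ∀ g ∈ 𝐍(C.P), C.t⁻¹ * (g⁻¹ * C.t * g) ∈ C.P ∨ (C.t * C.s)⁻¹ * (g⁻¹ * C.t * g) ∈ C.P := by
  have ic : ∀ {x y g k : G}, k⁻¹ * y * k = g⁻¹ * x * g → IsConj x y := fun {x y g k} e =>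
    isConj_iff.2 ⟨k * g⁻¹, by rw [show k * g⁻¹ * x * (k * g⁻¹)⁻¹ = k * (g⁻¹ * x * g) * k⁻¹ by group, ← e]; group⟩
  refine mcr (C.pg _) le_rfl (C.WP C.sW) (C.WP C.tW) (C.s2 ▸ one_mem _) (C.t2 ▸ one_mem _) C.ts.symm
    (fun g hg h => ?_) (fun g hg h => ?_) (fun g hg h => ?_) fun g hg h => ?_
  · obtain ⟨x, -, rfl⟩ := C.n0 hg h
    rw [← C.fts, ← C.fs, ← C.ft]
    simp only [← f_inv, ← f_mul, mP]
    clear hg h
    revert x; decide +kernel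
  · obtain ⟨y, hy, e⟩ := C.invP (Or.inr (Or.inl rfl)) (C.fs.symm ▸ h) (cj2 C.t2 g)
    exact C.n2 (ic (C.fs ▸ e))
  · obtain ⟨y, hy, e⟩ := C.invP (Or.inr (Or.inl rfl)) (C.fs.symm ▸ h) (cj2 (x := C.t * C.s) (by rw [← C.fts]; exact C.f_sq.2 (by decide)) g)
    exact C.n3 (ic (C.fs ▸ e))
  · have := u4 (N := ⊥) C.P2 bot_le hg (le_normalizer_of_normal (mem_top g)) (C.two g) (by rw [C.cP]; simp) _ C.aP
    obtain ⟨x, hx, e⟩ := h
    rw [show g ^ 4 = C.f (mul xs x) by rw [f_mul, e, fs]; group, ← C.fa, f_cj, ← f_inv, ← f_mul, mem_bot, ← C.f_one,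
      f_eq] at this
    clear e
    revert x; decide +kernel

theorem nW {g : G} (hg : g ∈ 𝐍(C.P)) (h : g ∉ C.W) : (C.t * C.s)⁻¹ * (g⁻¹ * C.t * g) ∈ C.P :=
  (C.n1.2 g hg).resolve_left fun e => h (C.n0 hg e)

theorem nW2 {g k : G} (hg : g ∈ 𝐍(C.P)) (hk : k ∈ 𝐍(C.P)) (h : g ∉ C.W) (h' : k ∉ C.W) : g * k ∈ C.W := by
  refine C.n0 (mul_mem hg hk) ?_
  have := mul_mem (mul_mem (conj_mem'' (C.WP C.sW) (C.nW hk h')) (C.n1.1 k hk)) (conj_mem'' hk (C.nW hg h))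
  convert this using 1
  rw [show C.s⁻¹ * ((C.t * C.s)⁻¹ * (k⁻¹ * C.t * k)) * C.s = (C.s * C.s)⁻¹ * (C.t⁻¹ * (k⁻¹ * C.t * k) * C.s) by group,
    C.s2]
  group

theorem cN : Nat.card 𝐍(C.P) ≤ 128 := by
  have := cle2 (A := C.W) (B := 𝐍(C.P)) fun a ha b hb => C.nW2 ha hb
  rwa [inf_eq_right.2 C.WP, C.cW] at this

theorem NV : 𝐍(C.P) ≤ 𝐍(C.V) := fun g hg => norm_of (by
  rintro _ ⟨x, hx, rfl⟩
  obtain ⟨x', hx', e⟩ := conj_mem' hg (C.VP (C.mV.2 hx))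
  obtain ⟨y, hy, e'⟩ := C.n1.1 _ (inv_mem hg)
  have h2 : C.f x * C.s = C.s * C.f x := by rw [← C.fs, f_comm]; clear e; revert x; decide +kernel
  have h3 := cjc h2 g⁻¹
  rw [show g⁻¹⁻¹ * C.s * g⁻¹ = C.f (mul xs y) by rw [f_mul, e', fs]; group, inv_inv, ← e, f_comm] at h3
  rw [← e, mV]
  clear e e'
  revert x' y; decide +kernel)

theorem Vz {g : G} (hg : g ∈ 𝐍(C.V)) : g * C.z = C.z * g :=
  C.zcen rfl (y := xt) (by decide +kernel) (C.NV (C.WP (C.fW _))) hg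

theorem Vv {g : G} (hg : g ∈ 𝐍(C.V)) : g⁻¹ * C.v * g = C.v ∨ g⁻¹ * C.v * g = C.v * C.z := by
  rcases C.memV (conj_mem'' hg C.vV) with e | e | e
  · rw [mul_assoc, inv_mul_eq_one, eq_comm, mul_eq_right, ← C.fv, ← C.f_one, f_eq] at e
    exact absurd e (by decide)
  · rw [← cm' (C.Vz hg), mul_left_inj, mul_right_inj, ← C.fv, ← C.fz, f_eq] at e
    exact absurd e (by decide)
  · exact e

theorem WL {g : G} (hg : g ∈ C.W) : g * C.v = C.v * g ↔ g ∈ C.L := by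
  obtain ⟨x, -, rfl⟩ := hg
  rw [← C.fv, f_comm, mL]
  revert x; decide +kernel

theorem tv : C.t * C.v ≠ C.v * C.t := fun e => by
  have := (C.WL C.tW).1 e
  rw [← C.ft, mL] at this
  exact absurd this (by decide)

/-- an involution of `N` that does not centralize `v` is conjugate to `t` when `N ≠ W` -/
theorem invN {w y : G} (hw : w ∈ 𝐍(C.P)) (hw' : w ∉ C.W) (w2 : w * w = 1) (wv : w * C.v = C.v * w)
    (hy : y ∈ 𝐍(C.P)) (y2 : y * y = 1) (yv : y * C.v ≠ C.v * y) : ∃ n ∈ 𝐍(C.P), n⁻¹ * C.t * n = y := by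
  obtain ⟨x1, hx1, e1⟩ := C.nW hw hw'
  have e1' : w⁻¹ * C.t * w = C.f (mul (mul xt xs) x1) := by rw [f_mul, fts, e1]; group
  by_cases hW : y ∈ C.W
  · have h1 := mt (C.WL hW).2 yv
    obtain ⟨x, -, rfl⟩ := hW
    rcases (by decide +kernel : ∀ x, ¬ qL x = true → qP (mul (inv xt) x) = true ∨ qP (mul (inv (mul xt xs)) x) = true)
      x (mt C.mL.2 h1) with h | h
    · obtain ⟨k, hk, e⟩ := C.invP (Or.inl rfl) (by rwa [← f_inv, ← f_mul, mP]) y2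
      exact ⟨k, le_normalizer hk, C.ft ▸ e⟩
    · obtain ⟨k, hk, e⟩ := C.invP (Or.inr (Or.inr rfl)) (by rwa [← f_inv, ← f_mul, mP]) y2
      obtain ⟨k', hk', e'⟩ := C.invP (Or.inr (Or.inr rfl)) (C.fts.symm ▸ C.nW hw hw') (cj2 C.t2 w)
      refine ⟨w * k'⁻¹ * k, mul_mem (mul_mem hw (inv_mem (le_normalizer hk'))) (le_normalizer hk), ?_⟩
      rw [← e, show (w * k'⁻¹ * k)⁻¹ * C.t * (w * k'⁻¹ * k) = k⁻¹ * (k' * (w⁻¹ * C.t * w) * k'⁻¹) * k by group, ← e']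
      group
  · exfalso
    obtain ⟨x, -, e⟩ := C.nW2 hy hw hW hw'
    have wi : w⁻¹ = w := inv_eq_of_mul_eq_one_right w2
    have ey : y = C.f x * w := by rw [e, mul_assoc, w2, mul_one]
    have hL : ¬ qL x = true := fun h => yv (by
      rw [ey, mul_assoc, wv, ← mul_assoc, (C.WL (C.fW x)).2 (C.mL.2 h), mul_assoc])
    have e2 : w⁻¹ * C.f x * w = C.f (inv x) := by
      rw [f_inv, eq_inv_iff_mul_eq_one, ← cj2 y2 w, ey, wi]
      simp only [mul_assoc, w2, mul_one]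
    obtain ⟨x2, hx2, e3⟩ := C.n1.1 w hw
    have e3' : w⁻¹ * C.s * w = C.f (mul xs x2) := by rw [f_mul, fs, e3]; group
    rcases (by decide +kernel : ∀ x, ¬ qL x = true → qP (mul (inv xt) x) = true ∨ qP (mul (inv (mul xt xs)) x) = true)
      x hL with h | h
    · obtain ⟨x3, hx3, e4⟩ := conj_mem'' hw (C.mP.2 h)
      rw [f_mul, f_inv, ft, show w⁻¹ * (C.t⁻¹ * C.f x) * w = (w⁻¹ * C.t * w)⁻¹ * (w⁻¹ * C.f x * w) by group, e1', e2,
        ← f_inv, ← f_mul, f_eq] at e4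
      subst e4
      clear e1 e1' e e2 ey
      revert x x1; decide +kernel
    · obtain ⟨x3, hx3, e4⟩ := conj_mem'' hw (C.mP.2 h)
      rw [f_mul, f_inv, fts, show w⁻¹ * ((C.t * C.s)⁻¹ * C.f x) * w =
        (w⁻¹ * C.t * w * (w⁻¹ * C.s * w))⁻¹ * (w⁻¹ * C.f x * w) by group, e1', e2, e3', ← f_mul,
        ← f_inv, ← f_mul, f_eq] at e4
      have e5 := congrArg (fun x : M => x.2.2.2.2) e4
      simp only [qP, mul, inv, xt, xs] at h hx1 hx2 hx3 e5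
      clear e1 e1' e e2 ey e3 e3' e4 hL
      revert h hx1 hx2 hx3 e5
      generalize x.2.2.2.2 = b, x1.2.2.2.2 = b1, x2.2.2.2.2 = b2, x3.2.2.2.2 = b3
      revert b b1 b2 b3; decide +kernel

/-- a second normal `E₁₆` of `N` -/
structure OE (Q : Subgroup G) : Prop where
  le : Q ≤ 𝐍(C.P)
  nm : 𝐍(C.P) ≤ 𝐍(Q)
  sq : ∀ q ∈ Q, q * q = 1
  card : Nat.card Q = 16
  ne : Q ≠ C.P

variable {C} {Q Q' : Subgroup G}

theorem OE.noT (h : C.OE Q) {x : M} (hx : C.f x ∈ Q) : qL x = true := by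
  by_contra hL
  have h1 : ∀ q ∈ Q, q ∈ C.W := fun q hq => by
    have hN := h.le hq
    have e := cm' (ab2 h.sq hq hx)
    rcases (by decide +kernel : ∀ x, ¬ qL x = true → qP (mul (inv xt) x) = true ∨ qP (mul (inv (mul xt xs)) x) = true)
      x hL with h2 | h2
    · rw [← C.mP, f_mul, f_inv, ft] at h2
      refine C.n0 hN ?_
      have := mul_mem h2 (inv_mem (conj_mem'' hN h2))
      rw [show q⁻¹ * (C.t⁻¹ * C.f x) * q = q⁻¹ * C.t⁻¹ * q * (q⁻¹ * C.f x * q) by group, e] at this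
      convert this using 1; group
    · rw [← C.mP, f_mul, f_inv, fts] at h2
      refine C.n0 hN ?_
      have := conj_mem' (C.WP C.sW) (mul_mem (mul_mem h2 (inv_mem (conj_mem'' hN h2))) (inv_mem (C.n1.1 q hN)))
      rw [show q⁻¹ * ((C.t * C.s)⁻¹ * C.f x) * q = q⁻¹ * (C.t * C.s)⁻¹ * q * (q⁻¹ * C.f x * q) by group, e] at this
      convert this using 1; group
  have h2 := C.card_le (Q := Q) (fun y => mul y y = one ∧ mul x y = mul y x) fun q hq => by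
    obtain ⟨y, -, rfl⟩ := h1 q hq
    exact ⟨y, decide_eq_true ⟨C.f_sq.1 (h.sq _ hq), C.f_comm.1 (ab2 h.sq hx hq)⟩, rfl⟩
  rw [h.card] at h2
  have h3 := C.f_sq.1 (h.sq _ hx)
  clear h1 hx
  revert x; decide +kernel

theorem OE.inf (h : C.OE Q) : Q ⊓ C.W = C.S := by
  obtain ⟨x, h1, h2⟩ : ∃ x, C.f x ∈ Q ∧ ¬ qP x = true := by
    obtain ⟨q, hq, hq'⟩ : ∃ q ∈ Q, q ∉ C.P := by
      by_contra hn
      push Not at hn
      exact h.ne (eq_of_cle hn (by rw [h.card, C.cP]))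
    by_cases hW : q ∈ C.W
    · obtain ⟨x, -, rfl⟩ := hW
      exact ⟨x, hq, mt C.mP.2 hq'⟩
    · obtain ⟨y, hy, e⟩ := C.nW (h.le hq) hW
      refine ⟨mul xs y, ?_, by clear e; revert y; decide +kernel⟩
      have := mul_mem (conj_mem'' (h.nm (C.WP C.tW)) (inv_mem hq)) hq
      rw [f_mul, e, fs]
      convert this using 1
      rw [mul_inv_rev, mul_assoc C.s⁻¹, mul_inv_cancel_left]; group
  have h3 := cle2 (A := C.W) (B := Q) fun a ha b hb => C.nW2 (h.le ha) (h.le hb)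
  refine eq_of_cle ?_ (by rw [C.cS]; rw [h.card] at h3; omega)
  rintro _ ⟨hq, y, -, rfl⟩
  have k1 := h.noT h1
  have k2 := h.noT hq
  have k3 := C.f_sq.1 (h.sq _ h1)
  have k4 := C.f_sq.1 (h.sq _ hq)
  have k5 := C.f_comm.1 (ab2 h.sq h1 hq)
  rw [mS]
  clear h1 hq
  revert x y; decide +kernel

theorem OE.S_le (h : C.OE Q) : C.S ≤ Q := h.inf ▸ inf_le_left

theorem OE.sQ (h : C.OE Q) : C.s ∈ Q := h.S_le (C.fs ▸ C.mS.2 rfl)

theorem OE.VQ (h : C.OE Q) : C.V ≤ Q := (C.sb_le (by decide +kernel)).trans h.S_le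

theorem OE.ex (h : C.OE Q) : ∃ w ∈ Q, w ∉ C.W := by
  by_contra hn
  push Not at hn
  have := h.inf
  rw [inf_eq_left.2 hn] at this
  have h2 := h.card
  rw [this, C.cS] at h2
  omega

theorem OE.infP (h : C.OE Q) {y : G} (h1 : y ∈ C.P) (h2 : y ∈ Q) : y ∈ C.V := by
  have h3 : y ∈ C.S := h.inf ▸ ⟨h2, C.PW h1⟩
  obtain ⟨x, hx, rfl⟩ := h1
  rw [mS] at h3
  rw [mV]
  clear h2
  revert x; decide +kernel

theorem OE.uniq (h : C.OE Q) (h' : C.OE Q') : Q = Q' := by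
  obtain ⟨w, hw, hw'⟩ := h'.ex
  refine eq_of_cle (fun q hq => ?_) (by rw [h.card, h'.card])
  by_cases hW : q ∈ C.W
  · exact h'.S_le (h.inf ▸ ⟨hq, hW⟩)
  · obtain ⟨x, -, e⟩ := C.nW2 (h.le hq) (h'.le hw) hW hw'
    have k : ∀ c ∈ C.S, C.f x * c = c * C.f x := fun c hc => by
      rw [e, mul_assoc, ab2 h'.sq hw (h'.S_le hc), ← mul_assoc, ab2 h.sq hq (h.S_le hc), mul_assoc]
    have k1 := C.f_comm.1 (k _ (C.mS.2 (show qS xs = true from rfl)))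
    have k2 := C.f_comm.1 (k _ (C.mS.2 (show qS xv = true from rfl)))
    refine (mul_mem_cancel_right hw).1 (e ▸ h'.S_le (C.mS.2 ?_))
    clear e k
    revert x; decide +kernel

theorem OE.cj (h : C.OE Q) {k : G} (hk : k ∈ 𝐍(𝐍(C.P))) (hn : cj k Q ≠ C.P) : C.OE (cj k Q) :=
  ⟨cj_le_of_mem_normalizer hk h.le, by rw [← cj_normalizer, ← cj_eq_self hk]; exact cj_mono k h.nm,
    fun q hq => by simpa [mul_assoc] using cj2 (h.sq _ (mem_cj.1 hq)) k⁻¹, by rw [card_cj, h.card], hn⟩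

theorem oe_cj (C : EG G) {k : G} (hk : k ∈ 𝐍(𝐍(C.P))) (hn : k ∉ 𝐍(C.P)) : C.OE (cj k C.P) :=
  ⟨cj_le_of_mem_normalizer hk le_normalizer, by rw [← cj_normalizer, cj_eq_self hk],
    fun q hq => by simpa [mul_assoc] using cj2 (C.P2 _ (mem_cj.1 hq)) k⁻¹, by rw [card_cj, C.cP],
    mt cj_eq_self_iff.1 hn⟩

end EG

end Cfsg.Agent.WA.H3.Cc
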