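import Cfsg.Agent.WA.H3Cc2

/-! `V` is normal (part of H3Cc). -/

set_option autoImplicit false
set_option linter.unusedSectionVars false
set_option linter.unusedVariables false

namespace Cfsg.Agent.WA.H3.Cc

open Subgroup Cfsg.Agent.FT Cfsg.Agent.L0 Cfsg.Agent.H8 Cfsg.Agent.WA.Rw

variable {G : Type*} [Group G] [Finite G]

namespace EG

variable {C : EG G} {Q : Subgroup G} {g k x : G}

theorem OE.cjP (h : C.OE Q) (hk : k ∈ 𝐍(𝐍(C.P))) (hn : k ∉ 𝐍(C.P)) : H8.cj k C.P = Q := (C.oe_cj hk hn).uniq h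

theorem OE.cjQ (h : C.OE Q) (hk : k ∈ 𝐍(𝐍(C.P))) (hn : k ∉ 𝐍(C.P)) : H8.cj k Q = C.P := by
  by_contra e
  exact h.ne (cj_injective k (((h.cj hk e).uniq h).trans (h.cjP hk hn).symm))

theorem OE.mul2 (h : C.OE Q) (hg : g ∈ 𝐍(𝐍(C.P))) (hk : k ∈ 𝐍(𝐍(C.P))) (hg' : g ∉ 𝐍(C.P)) (hk' : k ∉ 𝐍(C.P)) :
    g * k ∈ 𝐍(C.P) := cj_eq_self_iff.1 (by rw [cj_mul, h.cjP hk hk', h.cjQ hg hg'])

theorem OE.NNV (h : C.OE Q) : 𝐍(𝐍(C.P)) ≤ 𝐍(C.V) := fun k hk => by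
  by_cases hn : k ∈ 𝐍(C.P)
  · exact C.NV hn
  · exact norm_of fun a ha => h.infP (h.cjQ hk hn ▸ conj_mem_cj k (h.VQ ha)) (h.cjP hk hn ▸ conj_mem_cj k (C.VP ha))

theorem Kc (hg : g ∈ 𝐍(C.V)) (hx : x ∈ 𝐍(C.V)) (h : x * C.v = C.v * x) : g⁻¹ * x * g * C.v = C.v * (g⁻¹ * x * g) := by
  have e : x * (g * C.v * g⁻¹) = g * C.v * g⁻¹ * x := by
    rcases C.Vv (inv_mem hg) with e | e <;> rw [inv_inv] at e <;> rw [e]
    · exact h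
    · rw [← mul_assoc, h, mul_assoc, C.Vz hx, mul_assoc]
  simpa [mul_assoc] using cjc e g

theorem K2 (hg : g ∈ 𝐍(C.V)) (hk : k ∈ 𝐍(C.V)) (hg' : g * C.v ≠ C.v * g) (hk' : k * C.v ≠ C.v * k) :
    g * k * C.v = C.v * (g * k) := by
  apply cm
  rw [show (g * k)⁻¹ * C.v * (g * k) = k⁻¹ * (g⁻¹ * C.v * g) * k by group, (C.Vv hg).resolve_left (mt cm hg'),
    show k⁻¹ * (C.v * C.z) * k = k⁻¹ * C.v * k * (k⁻¹ * C.z * k) by group, (C.Vv hk).resolve_left (mt cm hk'),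
    cm' (C.Vz hk), mul_assoc, C.z2, mul_one]

theorem tN : C.t ∈ 𝐍(C.P) := C.WP C.tW

theorem tK (hg : g ∈ 𝐍(C.V)) : g⁻¹ * C.t * g * C.v ≠ C.v * (g⁻¹ * C.t * g) := fun e => by
  have := Kc (inv_mem hg) (mul_mem (mul_mem (inv_mem hg) (C.NV tN)) hg) e
  exact C.tv (by simpa [mul_assoc] using this)

theorem OE.tcj (h : C.OE Q) (hg : g ∈ 𝐍(C.V)) (h1 : g⁻¹ * C.t * g ∈ 𝐍(C.P)) :
    ∃ n ∈ 𝐍(C.P), g * n⁻¹ * C.t = C.t * (g * n⁻¹) := by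
  obtain ⟨w, hw, hw'⟩ := h.ex
  obtain ⟨n, hn, e⟩ := C.invN (h.le hw) hw' (h.sq w hw) (ab2 h.sq hw (h.VQ C.vV)) h1 (cj2 C.t2 g) (tK hg)
  refine ⟨n, hn, cm ?_⟩
  rw [show (g * n⁻¹)⁻¹ * C.t * (g * n⁻¹) = n * (g⁻¹ * C.t * g) * n⁻¹ by group, ← e]; group

/-- the data when `P` is not normal -/
structure SU (C : EG G) (Q : Subgroup G) (h : G) : Prop extends C.OE Q where
  hN : h ∈ 𝐍(𝐍(C.P))
  hn : h ∉ 𝐍(C.P)
  ht : h * C.t = C.t * h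
  hv : h * C.v = C.v * h

theorem exists_su (C : EG G) (hn : 𝐍(C.P) ≠ ⊤) : ∃ Q h, C.SU Q h := by
  obtain ⟨g, h1, h2, -⟩ := grow2 C.two hn
  have h := C.oe_cj h1 h2
  obtain ⟨n, h3, e⟩ := h.tcj (h.NNV h1) (conj_mem'' h1 tN)
  have h4 : g * n⁻¹ ∈ 𝐍(𝐍(C.P)) := mul_mem h1 (inv_mem (le_normalizer h3))
  have h5 : g * n⁻¹ ∉ 𝐍(C.P) := fun e => h2 ((mul_mem_cancel_right (inv_mem h3)).1 e)
  by_cases hv : g * n⁻¹ * C.v = C.v * (g * n⁻¹)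
  · exact ⟨_, _, h, h4, h5, e, hv⟩
  · exact ⟨_, g * n⁻¹ * C.t, h, mul_mem h4 (le_normalizer tN), fun e => h5 ((mul_mem_cancel_right tN).1 e),
      by rw [e, mul_assoc, e], K2 (h.NNV h4) (C.NV tN) hv C.tv⟩

variable {h : G}

theorem DC : C.D ≤ 𝐂[C.t] := by
  rintro _ ⟨x, hx, rfl⟩
  rw [mem_c1, ← C.ft, f_comm]
  revert x; decide +kernel

theorem SU.c32 (H : C.SU Q h) : Nat.card (centralizer ({C.t} : Set G)) = 32 := by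
  have := clt DC (mem_c1.2 H.ht) fun e => H.hn (C.WP (C.sbW e))
  rw [C.cD] at this
  exact le_antisymm C.bT this

theorem SU.ct (H : C.SU Q h) (hg : g * C.t = C.t * g) : g ∈ 𝐍(𝐍(C.P)) := by
  have hD : C.D ≤ 𝐍(𝐍(C.P)) := (C.sbW.trans C.WP).trans le_normalizer
  by_cases e : g ∈ C.D
  · exact hD e
  · exact (mul_mem_cancel_right H.hN).1 (hD (idx2 DC (by rw [C.cD]; exact H.c32.le) (mem_c1.2 hg) (mem_c1.2 H.ht) e
      fun e => H.hn (C.WP (C.sbW e))))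

theorem SU.z2 (H : C.SU Q h) {c : G} (hcV : c ∈ 𝐍(C.V)) (hc : ∀ m ∈ 𝐍(C.V), m⁻¹ * c * m = c ∨ m⁻¹ * c * m = c * C.z) : c ∈ C.V := by
  have tV := C.NV (tN (C := C))
  have key : ∀ c, c * C.t = C.t * c → (∀ m ∈ 𝐍(C.V), m⁻¹ * c * m = c ∨ m⁻¹ * c * m = c * C.z) → c ∈ C.V :=
    fun c h1 hc => by
      have h2 : closure ({C.t, C.a * C.s} : Set G) ≤ C.T := by
        rw [closure_le]
        rintro _ (rfl | rfl)
        · exact C.ft ▸ C.mT.2 rfl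
        · rw [← C.fa, ← C.fs, ← f_mul]; exact C.mT.2 rfl
      obtain ⟨x, hx, rfl⟩ := h2 (C.h3 H.c32 c h1 fun r hr => hc r (H.NNV (H.ct hr)))
      have h3 := hc _ (C.NV (C.WP (C.fW xp)))
      rw [f_cj, ← C.fz, ← f_mul, f_eq, f_eq] at h3
      rw [mV]
      clear h1 hc
      revert x; decide +kernel
  rcases hc _ tV with e | e
  · exact key c (cm e).symm hc
  · have zz : C.v * C.z * (c * C.z) = C.v * c := by
      rw [C.Vz hcV, mul_assoc, ← mul_assoc C.z, C.z2, one_mul]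
    have e2 : ∀ m : G, m⁻¹ * (C.v * c) * m = m⁻¹ * C.v * m * (m⁻¹ * c * m) := fun m => by group
    refine (mul_mem_cancel_left C.vV).1 (key _ (cm ?_).symm fun m hm => ?_)
    · rw [e2, e, (C.Vv tV).resolve_left (mt cm C.tv), zz]
    · rw [e2]
      rcases C.Vv hm with e3 | e3 <;> rcases hc m hm with e4 | e4 <;> rw [e3, e4]
      · exact Or.inl rfl
      · exact Or.inr (mul_assoc _ _ _).symm
      · exact Or.inr (by rw [mul_assoc, ← C.Vz hcV, mul_assoc])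
      · exact Or.inl zz

theorem SU.Vn (H : C.SU Q h) (g : G) : g ∈ 𝐍(C.V) := by
  by_contra hn
  obtain ⟨k, h1, h2, -⟩ := grow2 C.two (H := 𝐍(C.V)) fun e => hn (e ▸ mem_top g)
  have WV : ∀ x, C.f x ∈ 𝐍(C.V) := fun x => C.NV (C.WP (C.fW x))
  have hz : k * C.z * k⁻¹ = C.z := by
    have e : ∀ m ∈ 𝐍(C.V), k * C.z * k⁻¹ * m = m * (k * C.z * k⁻¹) := fun m hm => by
      simpa [mul_assoc] using (cjc (C.Vz (conj_mem'' h1 hm)) k⁻¹).symm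
    obtain ⟨x, hx, e2⟩ := C.cenE (C.ft ▸ e _ (WV xt)) (C.fa ▸ e _ (WV xa)) (C.fz ▸ e _ (WV xz))
    have k1 := e _ (WV xs)
    have k2 := e _ (WV xp)
    have k3 : x ≠ one := fun e3 => by
      rw [e3, f_one, eq_comm, mul_inv_eq_one, mul_eq_left, ← C.fz, ← C.f_one, f_eq] at e2
      exact absurd e2 (by decide)
    rw [← e2, f_comm] at k1 k2
    rw [← e2, ← C.fz, f_eq]
    clear e2
    revert x; decide +kernel
  have hv : k * C.v * k⁻¹ ∈ C.V := H.z2 (conj_mem' h1 (le_normalizer C.vV)) fun m hm => by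
    rw [show m⁻¹ * (k * C.v * k⁻¹) * m = k * ((k⁻¹ * m * k)⁻¹ * C.v * (k⁻¹ * m * k)) * k⁻¹ by group]
    rcases C.Vv (conj_mem'' h1 hm) with e | e <;> rw [e]
    · exact Or.inl rfl
    · exact Or.inr (by rw [← hz]; nth_rw 1 [hz]; group)
  refine h2 (norm_of fun c hc => ?_)
  rcases C.memV hc with rfl | rfl | rfl | rfl
  · simp
  · exact hz.symm ▸ C.zV
  · exact hv
  · rw [show k * (C.v * C.z) * k⁻¹ = k * C.v * k⁻¹ * (k * C.z * k⁻¹) by group, hz]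
    exact mul_mem hv C.zV

theorem SU.T (H : C.SU Q h) (h1 : g⁻¹ * C.t * g ∈ 𝐍(C.P)) : g ∈ 𝐍(𝐍(C.P)) := by
  obtain ⟨n, hn, e⟩ := H.tcj (H.Vn g) h1
  exact (mul_mem_cancel_right (inv_mem (le_normalizer hn))).1 (H.ct e)

theorem SU.cNN (H : C.SU Q h) : Nat.card 𝐍(𝐍(C.P)) ≤ 256 := by
  have := cle2 (A := 𝐍(C.P)) (B := 𝐍(𝐍(C.P))) fun a ha b hb => H.mul2 ha hb
  rw [inf_eq_right.2 le_normalizer] at this
  have := C.cN
  omega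

def J (C : EG G) : Subgroup G := 𝐍(C.P) ⊓ 𝐂[C.v]

theorem mJ : g ∈ C.J ↔ g ∈ 𝐍(C.P) ∧ g * C.v = C.v * g := and_congr_right fun _ => mem_c1

theorem SU.NJ (H : C.SU Q h) : 𝐍(𝐍(C.P)) ≤ 𝐍(C.J) := fun k hk => norm_of fun a ha =>
  mJ.2 ⟨conj_mem' hk (mJ.1 ha).1, by simpa using Kc (H.Vn k⁻¹) (H.Vn a) (mJ.1 ha).2⟩

theorem LJ : C.L ≤ C.J := fun _ hx => mJ.2 ⟨C.WP (C.sbW hx), (C.WL (C.sbW hx)).2 hx⟩

theorem PL : C.P ≤ C.L := C.sb_le (by decide +kernel)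

theorem OE.QJ (H : C.OE Q) : Q ≤ C.J := fun _ hx => mJ.2 ⟨H.le hx, ab2 H.sq hx (H.VQ C.vV)⟩

theorem OE.memJ (H : C.OE Q) (hg : g ∈ C.J) : ∃ y ∈ C.P, ∃ q ∈ Q, g = y * q := by
  have key : ∀ g ∈ C.J, g ∈ C.W → ∃ y ∈ C.P, ∃ q ∈ Q, g = y * q := fun g hg hW => by
    obtain ⟨x, hx, rfl⟩ := (C.WL hW).1 (mJ.1 hg).2
    obtain ⟨y, h1, q, h2, rfl⟩ := (by decide +kernel : ∀ x, qL x = true → ∃ y, qP y = true ∧ ∃ q, qS q = true ∧ x = mul y q)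
      x hx
    exact ⟨_, C.mP.2 h1, _, H.S_le (C.mS.2 h2), C.f_mul _ _⟩
  by_cases hW : g ∈ C.W
  · exact key g hg hW
  · obtain ⟨w, hw, hw'⟩ := H.ex
    obtain ⟨y, h1, q, h2, e⟩ := key _ (mul_mem hg (H.QJ hw)) (C.nW2 (mJ.1 hg).1 (H.le hw) hW hw')
    exact ⟨y, h1, q * w⁻¹, mul_mem h2 (inv_mem hw), by rw [← mul_assoc, ← e, mul_inv_cancel_right]⟩

theorem OE.sqJ (H : C.OE Q) (hg : g ∈ C.J) : g * g ∈ C.V := by
  obtain ⟨y, h1, q, h2, rfl⟩ := H.memJ hg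
  have e1 := inv_eq_of_mul_eq_one_right (C.P2 y h1)
  have e2 := inv_eq_of_mul_eq_one_right (H.sq q h2)
  refine H.infP ?_ ?_
  · have := mul_mem h1 (conj_mem'' (H.le h2) h1)
    rwa [e2, ← mul_assoc, ← mul_assoc, mul_assoc _ y] at this
  · have := mul_mem (conj_mem'' (H.nm (le_normalizer h1)) h2) h2
    rwa [e1, mul_assoc _ y] at this

theorem SU.cmJ (H : C.SU Q h) (hg : g ∈ C.J) (hk : k ∈ C.J) : g⁻¹ * (k⁻¹ * g * k) ∈ C.V := by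
  have := mul_mem (mul_mem (inv_mem (H.sqJ hg)) (H.sqJ (mul_mem hg (inv_mem hk)))) (H.sqJ hk)
  convert this using 1
  group

theorem OE.cJ (H : C.OE Q) : Nat.card C.J = 64 := by
  obtain ⟨w, hw, hw'⟩ := H.ex
  have h1 := clt LJ (H.QJ hw) fun e => hw' (C.sbW e)
  have h2 := clt (A := C.J) inf_le_left tN fun e => C.tv (mJ.1 e).2
  have h3 := C.cN
  rw [C.cL] at h1
  omega

end EG

end Cfsg.Agent.WA.H3.Cc
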