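import Cfsg.Agent.WA.H3T
import Cfsg.Agent.WA.H3U5

/-! Module H3Cl of S3139: the climb from `C(u, z)` to the whole group. -/

set_option autoImplicit false

namespace Cfsg.Agent.WA.H3

open Subgroup U

namespace Cl

variable {G : Type*} [Group G]

section rel

variable (F : F2 G)

theorem x8 : F.x ^ 8 = 1 := by
  have := F.z2
  rw [← F.x4, ← pow_add] at this
  exact this

theorem zx : F.x * F.z = F.z * F.x := by rw [← F.x4]; group

theorem zt : F.t * F.z = F.z * F.t := by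
  rw [← F.x4]; exact (Commute.pow_right (F.tx : Commute F.t F.x) 4).eq

theorem conj_pow' {a x y : G} (a2 : a * a = 1) (h : a * x * a = y) (n : ℕ) : a * x ^ n * a = y ^ n := by
  have := conj_pow (i := n) (a := a) (b := x)
  rw [inv_eq a2, h] at this
  exact this.symm

theorem za : F.a * F.z = F.z * F.a := by
  have h := conj_pow' F.a2 F.ax 4
  have h2 : (F.x ^ 3) ^ 4 = F.x ^ 4 := by
    rw [← pow_mul, show 3 * 4 = 8 + 4 by norm_num, pow_add, x8, one_mul]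
  rw [h2, F.x4] at h
  calc F.a * F.z = F.a * F.z * F.a * F.a := by rw [mul_assoc (F.a * F.z), F.a2, mul_one]
    _ = _ := by rw [h]

theorem zu : F.u * F.z = F.z * F.u := by
  have h := conj_pow' F.u2 F.ux 4
  have h2 : (F.x ^ 5) ^ 4 = F.x ^ 4 := by
    rw [← pow_mul, show 5 * 4 = 8 + (8 + 4) by norm_num, pow_add, pow_add, x8, one_mul, one_mul]
  rw [h2, F.x4] at h
  calc F.u * F.z = F.u * F.z * F.u * F.u := by rw [mul_assoc (F.u * F.z), F.u2, mul_one]
    _ = _ := by rw [h]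

theorem ux : F.x⁻¹ * F.u * F.x = F.u * F.z := by
  have h : F.u * F.x = F.x ^ 5 * F.u := by
    rw [← F.ux, mul_assoc (F.u * F.x), F.u2, mul_one]
  rw [mul_assoc, h, zu, ← F.x4]; group

theorem xu : F.x * F.u * F.x⁻¹ = F.u * F.z := by
  have h := ux F
  have h2 : F.u = F.x * (F.u * F.z) * F.x⁻¹ := by rw [← h]; group
  have h3 : F.x * (F.u * F.z) * F.x⁻¹ = F.x * F.u * F.x⁻¹ * F.z := by
    rw [mul_assoc F.x, mul_assoc F.u, mul_assoc F.x, mul_assoc F.x, mul_assoc F.u]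
    congr 2
    rw [eq_comm, inv_mul_eq_iff_eq_mul, ← mul_assoc, zx, mul_inv_cancel_right]
  rw [h3] at h2
  calc F.x * F.u * F.x⁻¹ = F.x * F.u * F.x⁻¹ * F.z * F.z := by rw [mul_assoc _ F.z, F.z2, mul_one]
    _ = _ := by rw [← h2]

theorem s2 : F.s * F.s = 1 := by
  rw [← F.hs]
  calc F.x⁻¹ * F.a * F.x * (F.x⁻¹ * F.a * F.x) = F.x⁻¹ * (F.a * F.a) * F.x := by group
    _ = 1 := by rw [F.a2]; group

theorem conj_comm {g a b : G} (h : a * b = b * a) : (g⁻¹ * a * g) * (g⁻¹ * b * g) = (g⁻¹ * b * g) * (g⁻¹ * a * g) := by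
  calc (g⁻¹ * a * g) * (g⁻¹ * b * g) = g⁻¹ * (a * b) * g := by group
    _ = _ := by rw [h]; group

theorem tx' : F.x⁻¹ * F.t * F.x = F.t := conj_eq_iff.2 F.tx.symm
theorem zx' : F.x⁻¹ * F.z * F.x = F.z := conj_eq_iff.2 (zx F)

theorem ts : F.t * F.s = F.s * F.t := by
  have := conj_comm (g := F.x) F.ta
  rwa [tx', F.hs] at this

theorem zs : F.s * F.z = F.z * F.s := by
  have := conj_comm (g := F.x) (za F)
  rwa [zx', F.hs] at this

theorem su : F.s * F.u = F.u * F.s := by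
  have := conj_comm (g := F.x) F.au
  rw [ux, F.hs, ← mul_assoc, mul_assoc F.u, ← zs, ← mul_assoc] at this
  exact mul_right_cancel this

theorem sa : F.s * F.a = F.a * F.s * F.z := by
  have h1 : F.a * F.x = F.x ^ 3 * F.a := by
    rw [← F.ax, mul_assoc (F.a * F.x), F.a2, mul_one]
  have h2 : F.s = F.x ^ 2 * F.a := by rw [← F.hs, mul_assoc, h1]; group
  have h3 := conj_pow' F.a2 F.ax 2
  rw [h2, mul_assoc, F.a2, mul_one, ← mul_assoc, h3, ← F.x4, ← pow_mul, ← pow_add,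
    show 3 * 2 + 4 = 8 + 2 by norm_num, pow_add, x8, one_mul]

theorem tS : F.t ∈ closure ({F.t, F.x, F.a, F.u} : Set G) := subset_closure (by simp)
theorem xS : F.x ∈ closure ({F.t, F.x, F.a, F.u} : Set G) := subset_closure (by simp)
theorem aS : F.a ∈ closure ({F.t, F.x, F.a, F.u} : Set G) := subset_closure (by simp)
theorem uS : F.u ∈ closure ({F.t, F.x, F.a, F.u} : Set G) := subset_closure (by simp)
theorem zS : F.z ∈ closure ({F.t, F.x, F.a, F.u} : Set G) := F.x4 ▸ pow_mem (xS F) 4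
theorem sS : F.s ∈ closure ({F.t, F.x, F.a, F.u} : Set G) :=
  F.hs ▸ mul_mem (mul_mem (inv_mem (xS F)) (aS F)) (xS F)

theorem S0z : ∀ y ∈ closure ({F.t, F.x, F.a, F.u} : Set G), y * F.z = F.z * y := by
  have : closure ({F.t, F.x, F.a, F.u} : Set G) ≤ centralizer {F.z} := by
    rw [closure_le]
    rintro y (rfl | rfl | rfl | rfl)
    exacts [mem_cen1.2 (zt F), mem_cen1.2 (zx F), mem_cen1.2 (za F), mem_cen1.2 (zu F)]
  exact fun y hy => mem_cen1.1 (this hy)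

theorem S0t : closure ({F.t, F.x, F.a, F.u} : Set G) ≤ centralizer {F.t} := by
  rw [closure_le]
  rintro y (rfl | rfl | rfl | rfl)
  exacts [mem_cen1.2 rfl, mem_cen1.2 F.tx.symm, mem_cen1.2 F.ta.symm, mem_cen1.2 F.tu.symm]

theorem E8 {c : G} (hc : c ∈ closure ({F.t, F.u, F.z} : Set G)) : c = 1 ∨ c = F.z ∨ c = F.u ∨ c = F.u * F.z ∨
    c = F.t ∨ c = F.t * F.z ∨ c = F.t * F.u ∨ c = F.t * F.u * F.z :=
  mem_cl3 F.t2 F.u2 F.z2 F.tu (zt F) (zu F) hc

theorem tz_conj : IsConj F.t (F.t * F.z) := isConj_of F.ft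

variable [Finite G]

theorem z1 : F.z ≠ 1 := fun h => by
  have := (F.nf.2 0 0 1 0 0 (by simpa using h)).2.2.1
  simp at this

theorem u1 : F.u ≠ 1 := fun h => by
  have := (F.nf.2 0 1 0 0 0 (by simpa using h)).2.1
  simp at this

theorem uz1 : F.u * F.z ≠ 1 := fun h => by
  have := (F.nf.2 0 1 1 0 0 (by simpa using h)).2.1
  simp at this

theorem t1 : F.t ≠ 1 := fun h => by
  have := (F.nf.2 1 0 0 0 0 (by simpa using h)).1
  simp at this

theorem uz : F.u ≠ F.z := fun h => uz1 F (by rw [h, F.z2])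

theorem mul_z_ne (c : G) : c * F.z ≠ c := fun h => z1 F (by simpa using h)

end rel

section tu

variable [Finite G] (F : F3 G)

theorem E8conj {g e : G} (ht : g⁻¹ * F.t * g ∈ closure ({F.t, F.u, F.z} : Set G))
    (hu : g⁻¹ * F.u * g ∈ closure ({F.t, F.u, F.z} : Set G)) (hz : g⁻¹ * F.z * g = F.z)
    (he : e ∈ closure ({F.t, F.u, F.z} : Set G)) : g⁻¹ * e * g ∈ closure ({F.t, F.u, F.z} : Set G) := by
  refine conj_mem (mem_norm_cl ?_) he
  rintro y (rfl | rfl | rfl)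
  exacts [ht, hu, by rw [hz]; exact subset_closure (by simp)]

theorem m8t : F.t ∈ closure ({F.t, F.u, F.z} : Set G) := subset_closure (by simp)
theorem m8u : F.u ∈ closure ({F.t, F.u, F.z} : Set G) := subset_closure (by simp)
theorem m8z : F.z ∈ closure ({F.t, F.u, F.z} : Set G) := subset_closure (by simp)

/-- an element acting as `t ↦ tz`, fixing `z`, and mapping `a` into `E₈ a` centralizes `u`. -/
theorem noE {g e : G} (ht : g⁻¹ * F.t * g = F.t * F.z) (hu : g⁻¹ * F.u * g = F.u ∨ g⁻¹ * F.u * g = F.u * F.z)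
    (hz : g⁻¹ * F.z * g = F.z) (he : e ∈ closure ({F.t, F.u, F.z} : Set G)) (ha : g⁻¹ * F.a * g = e * F.a) :
    g⁻¹ * F.u * g = F.u := by
  have hle : closure ({F.t, F.u, F.z} : Set G) ≤ closure ({F.t, F.u, F.a, F.z} : Set G) :=
    closure_mono (by rintro y (rfl | rfl | rfl) <;> simp)
  refine conj_eq_iff.2 (F.NE g (mem_norm_cl ?_))
  rintro y (rfl | rfl | rfl | rfl)
  · rw [ht]; exact hle (mul_mem (m8t F) (m8z F))
  · rcases hu with hu | hu <;> rw [hu]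
    exacts [hle (m8u F), hle (mul_mem (m8u F) (m8z F))]
  · rw [ha]; exact mul_mem (hle he) (subset_closure (by simp))
  · rw [hz]; exact hle (m8z F)

theorem noE' {g e : G} (ht : g⁻¹ * F.t * g = F.t * F.z) (hu : g⁻¹ * F.u * g = F.u * F.z)
    (hz : g⁻¹ * F.z * g = F.z) (he : e ∈ closure ({F.t, F.u, F.z} : Set G)) (ha : g⁻¹ * F.s * g = e * F.s) :
    False := by
  have xt : F.x * F.t * F.x⁻¹ = F.t := by rw [← F.tx, mul_inv_cancel_right]
  have xz : F.x * F.z * F.x⁻¹ = F.z := by rw [zx, mul_inv_cancel_right]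
  have key : ∀ y : G, (F.x * g * F.x⁻¹)⁻¹ * y * (F.x * g * F.x⁻¹) = F.x * (g⁻¹ * (F.x⁻¹ * y * F.x) * g) * F.x⁻¹ := by
    intro y; group
  have hm : ∀ a b : G, F.x * (a * b) * F.x⁻¹ = (F.x * a * F.x⁻¹) * (F.x * b * F.x⁻¹) := by intro a b; group
  have hu' : (F.x * g * F.x⁻¹)⁻¹ * F.u * (F.x * g * F.x⁻¹) = F.u * F.z := by
    rw [key, ux, show g⁻¹ * (F.u * F.z) * g = (g⁻¹ * F.u * g) * (g⁻¹ * F.z * g) by group, hu, hz,
      mul_assoc F.u, F.z2, mul_one, xu]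
  have := noE F (g := F.x * g * F.x⁻¹) (e := F.x * e * F.x⁻¹) (by rw [key, tx', ht, hm, xt, xz]) (Or.inr hu')
    (by rw [key, zx', hz, xz])
    (by
      have := E8conj F (g := F.x⁻¹) (by rw [inv_inv, xt]; exact m8t F)
        (by rw [inv_inv, xu]; exact mul_mem (m8u F) (m8z F)) (by rw [inv_inv, xz]) he
      rwa [inv_inv] at this)
    (by rw [key, F.hs, ha, hm, ← F.hs]; group)
  rw [hu'] at this
  exact mul_z_ne F.toF2 _ this

theorem nfC {c : G} (hc : c ∈ closure ({F.t, F.u, F.a, F.s} : Set G)) (c2 : c * c = 1) :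
    ∃ e ∈ closure ({F.t, F.u, F.z} : Set G), c = e ∨ c = e * F.a ∨ c = e * F.s := by
  obtain ⟨i, j, k, l, m, rfl⟩ := F.nf.1 c hc
  have he : F.t ^ (i : ℕ) * F.u ^ (j : ℕ) * F.z ^ (k : ℕ) ∈ closure ({F.t, F.u, F.z} : Set G) :=
    mul_mem (mul_mem (pow_mem (m8t F) _) (pow_mem (m8u F) _)) (pow_mem (m8z F) _)
  refine ⟨_, he, ?_⟩
  generalize F.t ^ (i : ℕ) * F.u ^ (j : ℕ) * F.z ^ (k : ℕ) = e at he c2 ⊢
  fin_cases l <;> fin_cases m <;> simp
  exfalso
  simp only [Fin.mk_one, Fin.isValue, Fin.val_one, pow_one] at c2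
  have hle : closure ({F.t, F.u, F.z} : Set G) ≤ centralizer {F.a, F.s} := by
    rw [closure_le]
    rintro y (rfl | rfl | rfl)
    exacts [mem_cen2.2 ⟨F.ta, ts F.toF2⟩, mem_cen2.2 ⟨F.au.symm, (su F.toF2).symm⟩,
      mem_cen2.2 ⟨(za F.toF2).symm, (zs F.toF2).symm⟩]
  obtain ⟨ea, es⟩ := mem_cen2.1 (hle he)
  have e2 : e * e = 1 := by
    have tu := F.tu
    have tz := zt F.toF2
    have uz := zu F.toF2
    rcases E8 F.toF2 he with rfl | rfl | rfl | rfl | rfl | rfl | rfl | rfl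
    · simp
    · exact F.z2
    · exact F.u2
    · rw [← sq, Commute.mul_pow uz, sq, sq, F.u2, F.z2, one_mul]
    · exact F.t2
    · rw [← sq, Commute.mul_pow tz, sq, sq, F.t2, F.z2, one_mul]
    · rw [← sq, Commute.mul_pow tu, sq, sq, F.t2, F.u2, one_mul]
    · rw [← sq, Commute.mul_pow (Commute.mul_left tz uz), Commute.mul_pow tu, sq, sq, sq, F.t2, F.u2, F.z2,
        one_mul, one_mul]
  apply z1 F.toF2
  calc F.z = (e * e) * (F.a * F.a) * (F.s * F.s) * F.z := by rw [e2, F.a2, s2]; simp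
    _ = e * (e * F.a) * (F.a * F.s * F.z) * F.s := by
        rw [mul_assoc _ (F.s * F.s), mul_assoc F.s, zs]; simp only [mul_assoc]
    _ = e * F.a * (e * F.s) * F.a * F.s := by
        rw [← sa]
        nth_rewrite 1 [ea]
        simp only [mul_assoc]
    _ = 1 := by rw [es, ← c2]; simp only [mul_assoc]

theorem C0le : closure ({F.t, F.u, F.a, F.s} : Set G) ≤ closure ({F.t, F.x, F.a, F.u} : Set G) := by
  rw [closure_le]
  rintro y (rfl | rfl | rfl | rfl)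
  exacts [tS _, uS _, aS _, sS _]

theorem C0cen {y : G} (hy : y ∈ closure ({F.t, F.u, F.a, F.s} : Set G)) :
    y * F.t = F.t * y ∧ y * F.u = F.u * y ∧ y * F.z = F.z * y :=
  ⟨mem_cen1.1 (S0t _ (C0le F hy)), (F.c0.1 y (C0le F hy)).2 hy, S0z _ y (C0le F hy)⟩

theorem notu {g : G} (h1 : g⁻¹ * (F.t * F.u) * g = F.t * F.u) (h2 : g⁻¹ * F.z * g = F.z) :
    g⁻¹ * F.t * g ≠ F.t * F.u ∧ g⁻¹ * F.t * g ≠ F.t * F.u * F.z := by
  constructor
  · intro h
    rw [← h1] at h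
    exact u1 F.toF2 (by simpa using h)
  · intro h
    rw [← h1, ← h2, show g⁻¹ * (F.t * F.u) * g * (g⁻¹ * F.z * g) = g⁻¹ * (F.t * (F.u * F.z)) * g by group] at h
    exact uz1 F.toF2 (by simpa using h)

theorem tcl {g : G} (h : g⁻¹ * F.t * g ∈ closure ({F.t, F.u, F.z} : Set G)) :
    g⁻¹ * F.t * g = F.t ∨ g⁻¹ * F.t * g = F.t * F.z ∨ g⁻¹ * F.t * g = F.t * F.u ∨
      g⁻¹ * F.t * g = F.t * F.u * F.z := by
  rcases E8 F.toF2 h with h | h | h | h | h
  · exact absurd (isConj_one_left.1 (isConj_of h)) (t1 F.toF2)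
  · exact absurd (isConj_of h) F.nz
  · exact absurd (isConj_of h) F.nu
  · exact absurd ((isConj_of h).trans (isConj_of (ux F.toF2)).symm) F.nu
  · exact h

theorem bdTU : Bd (centralizer ({F.t * F.u, F.z} : Set G)) 64 := by
  haveI : Fact (Nat.Prime 2) := ⟨Nat.prime_two⟩
  set C0 := closure ({F.t, F.u, F.a, F.s} : Set G) with hC0
  have pC : IsPGroup 2 C0 := F.syl.pgroup.to_le (C0le F)
  have cC : Nat.card C0 = 32 := F.c0.2.1
  have tC : F.t ∈ C0 := subset_closure (by simp)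
  have aC : F.a ∈ C0 := subset_closure (by simp)
  have sC : F.s ∈ C0 := subset_closure (by simp)
  have hle : C0 ≤ centralizer ({F.t * F.u, F.z} : Set G) := fun y hy => by
    obtain ⟨h1, h2, h3⟩ := C0cen F hy
    exact mem_cen2.2 ⟨Commute.mul_right h1 h2, h3⟩
  obtain ⟨R, hR, hCR⟩ := H8.exists_isSylowIn_ge pC hle
  refine Bd_of_syl hR ?_
  have fix : ∀ g ∈ R, g⁻¹ * (F.t * F.u) * g = F.t * F.u ∧ g⁻¹ * F.z * g = F.z := fun g hg => by
    obtain ⟨h1, h2⟩ := mem_cen2.1 (hR.le hg)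
    exact ⟨conj_eq_iff.2 h1, conj_eq_iff.2 h2⟩
  have ug : ∀ g ∈ R, g⁻¹ * F.u * g = (g⁻¹ * F.t * g) * (F.t * F.u) := fun g hg => by
    rw [← (fix g hg).1, show g⁻¹ * F.t * g * (g⁻¹ * (F.t * F.u) * g) = g⁻¹ * (F.t * F.t * F.u) * g by group,
      F.t2, one_mul]
  have inC : ∀ g ∈ R, g⁻¹ * F.t * g = F.t → g ∈ C0 := fun g hg h => by
    have h2 := ug g hg
    rw [h, ← mul_assoc, F.t2, one_mul] at h2
    exact mem_of_Bd F.bU hR.pgroup hCR (fun y hy => mem_cen2.2 ⟨(C0cen F hy).1, (C0cen F hy).2.1⟩) cC.ge hg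
      (mem_cen2.2 ⟨conj_eq_iff.1 h, conj_eq_iff.1 h2⟩)
  have uz' : ∀ g ∈ R, g⁻¹ * F.t * g = F.t * F.z → g⁻¹ * F.u * g = F.u * F.z := fun g hg h => by
    rw [ug g hg, h, zt, mul_assoc, ← mul_assoc F.t, F.t2, one_mul, zu]
  -- an involution of `C₀` with class in `c ⟨z⟩` under a swapping element lies in `E₈`
  have inE : ∀ g ∈ R, g⁻¹ * F.t * g = F.t * F.z → ∀ c ∈ C0, c * c = 1 →
      (g⁻¹ * c * g = c ∨ g⁻¹ * c * g = c * F.z) → c ∈ closure ({F.t, F.u, F.z} : Set G) := by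
    intro g hg ht c hc c2 hcg
    have hu := uz' g hg ht
    have hz := (fix g hg).2
    obtain ⟨e, he, h⟩ := nfC F hc c2
    have he' := E8conj F (g := g) (ht ▸ mul_mem (m8t F) (m8z F)) (hu ▸ mul_mem (m8u F) (m8z F)) hz he
    have key : ∀ w : G, w * F.z = F.z * w → (g⁻¹ * (e * w) * g = e * w ∨ g⁻¹ * (e * w) * g = e * w * F.z) →
        ∃ e' ∈ closure ({F.t, F.u, F.z} : Set G), g⁻¹ * w * g = e' * w := by
      intro w hw h
      rcases h with h | h
      · exact ⟨(g⁻¹ * e * g)⁻¹ * e, mul_mem (inv_mem he') he, by rw [mul_assoc _ e, ← h]; group⟩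
      · exact ⟨(g⁻¹ * e * g)⁻¹ * e * F.z, mul_mem (mul_mem (inv_mem he') he) (m8z F), by
          rw [mul_assoc _ F.z, ← hw, mul_assoc _ e, ← mul_assoc e, ← h]; group⟩
    rcases h with rfl | rfl | rfl
    · exact he
    · obtain ⟨e', he', h⟩ := key _ (za _) hcg
      have := noE F ht (Or.inr hu) hz he' h
      rw [hu] at this
      exact absurd this (mul_z_ne _ _)
    · obtain ⟨e', he', h⟩ := key _ (zs _) hcg
      exact (noE' F ht hu hz he' h).elim
  have tcl' : ∀ g ∈ R, g⁻¹ * F.t * g ∈ closure ({F.t, F.u, F.z} : Set G) →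
      g⁻¹ * F.t * g = F.t ∨ g⁻¹ * F.t * g = F.t * F.z := fun g hg h => by
    obtain ⟨n1, n2⟩ := notu F (fix g hg).1 (fix g hg).2
    rcases tcl F h with h | h | h | h
    exacts [Or.inl h, Or.inr h, absurd h n1, absurd h n2]
  have tt : ∀ g : G, (g⁻¹ * F.t * g) * (g⁻¹ * F.t * g) = 1 := fun g => by
    rw [show (g⁻¹ * F.t * g) * (g⁻¹ * F.t * g) = g⁻¹ * (F.t * F.t) * g by group, F.t2]; group
  set N := R ⊓ normalizer (C0 : Set G) with hN
  have clN : ∀ g ∈ N, g⁻¹ * F.t * g = F.t ∨ g⁻¹ * F.t * g = F.t * F.z := fun g hg => by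
    refine tcl' g hg.1 ?_
    have hc := conj_mem hg.2 tC
    obtain ⟨e, he, h⟩ := nfC F hc (tt g)
    have cm : ∀ w ∈ C0, (g⁻¹ * F.t * g) * w = w * (g⁻¹ * F.t * g) := fun w hw => by
      have := conj_comm (g := g) (C0cen F (conj_mem' hg.2 hw)).1
      simpa [mul_assoc] using this.symm
    have hle : closure ({F.t, F.u, F.z} : Set G) ≤ centralizer {F.a, F.s} := by
      rw [closure_le]
      rintro y (rfl | rfl | rfl)
      exacts [mem_cen2.2 ⟨F.ta, ts F.toF2⟩, mem_cen2.2 ⟨F.au.symm, (su F.toF2).symm⟩,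
        mem_cen2.2 ⟨(za F.toF2).symm, (zs F.toF2).symm⟩]
    obtain ⟨ea, es⟩ := mem_cen2.1 (hle he)
    rcases h with h | h | h
    · exact h ▸ he
    · have := cm _ sC
      rw [h, ← mul_assoc, ← es, mul_assoc, mul_assoc, sa, mul_left_cancel_iff] at this
      exact absurd this.symm (mul_z_ne _ _)
    · have := cm _ aC
      rw [h, ← mul_assoc, ← ea, mul_assoc, mul_assoc, sa, mul_left_cancel_iff] at this
      exact absurd this (mul_z_ne _ _)
  have cN : Nat.card N ≤ 64 := by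
    refine (cls2 N F.t _ clN).trans ?_
    have : N ⊓ centralizer {F.t} ≤ C0 := fun g hg => inC g hg.1.1 (conj_eq_iff.2 (mem_cen1.1 hg.2))
    have := card_le_of_le this
    omega
  have CN : C0 ≤ N := le_inf hCR le_normalizer
  by_cases hRN : R ≤ N
  · exact (card_le_of_le hRN).trans cN
  exfalso
  obtain ⟨h, hh, hn, hh'⟩ := exists_norm hR.pgroup inf_le_left hRN
  obtain ⟨g, hg, hgn, hg'⟩ := exists_norm hR.pgroup hCR (fun h => hRN (h.trans CN))
  have hgN : g ∈ N := ⟨hg, hgn⟩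
  have gt : g⁻¹ * F.t * g = F.t * F.z := (clN g hgN).resolve_left fun h => hg' (inC g hg h)
  have hc : h⁻¹ * F.t * h ∈ N := conj_mem hn (CN tC)
  have clc : ∀ w ∈ N, w⁻¹ * (h⁻¹ * F.t * h) * w = h⁻¹ * F.t * h ∨
      w⁻¹ * (h⁻¹ * F.t * h) * w = h⁻¹ * F.t * h * F.z := fun w hw => by
    have e : w⁻¹ * (h⁻¹ * F.t * h) * w = h⁻¹ * ((h * w * h⁻¹)⁻¹ * F.t * (h * w * h⁻¹)) * h := by group
    rw [e]
    rcases clN _ (conj_mem' hn hw) with h1 | h1 <;> rw [h1]
    · exact Or.inl rfl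
    · right; rw [show h⁻¹ * (F.t * F.z) * h = h⁻¹ * F.t * h * (h⁻¹ * F.z * h) by group, (fix h hh).2]
  by_cases hc0 : h⁻¹ * F.t * h ∈ C0
  · rcases tcl' h hh (inE g hg gt _ hc0 (tt h) (clc g hgN)) with h1 | h1
    · exact hh' (CN (inC h hh h1))
    · have : h * g⁻¹ ∈ C0 := inC _ (mul_mem hh (inv_mem hg)) (by
        rw [show (h * g⁻¹)⁻¹ * F.t * (h * g⁻¹) = g * (h⁻¹ * F.t * h) * g⁻¹ by group, h1, ← gt]; group)
      have h3 := mul_mem (CN this) hgN
      rw [inv_mul_cancel_right] at h3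
      exact hh' h3
  · set c := h⁻¹ * F.t * h with hcdef
    have ct : c⁻¹ * F.t * c = F.t * F.z := (clN c hc).resolve_left fun h => hc0 (inC c hc.1 h)
    have cu := uz' c hc.1 ct
    have cz := (fix c hc.1).2
    have c2 : c * c = 1 := tt h
    clear_value c
    have ca : ∃ e ∈ closure ({F.t, F.u, F.z} : Set G), c⁻¹ * F.a * c = e * F.a := by
      rcases clc _ (CN aC) with h1 | h1
      · exact ⟨1, one_mem _, by rw [one_mul]; exact conj_eq_iff.2 (conj_eq_iff.1 h1).symm⟩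
      · refine ⟨F.z, m8z F, ?_⟩
        rw [inv_eq F.a2] at h1
        rw [inv_eq c2]
        calc c * F.a * c = F.a * (F.a * c * F.a) * c := by
              rw [← mul_assoc, ← mul_assoc, F.a2, one_mul]
          _ = F.a * (c * (F.z * c)) := by rw [h1]; simp only [mul_assoc]
          _ = _ := by rw [← conj_eq_iff.1 cz, ← mul_assoc c, c2, one_mul, za]
    obtain ⟨e, he, ca⟩ := ca
    have := noE F ct (Or.inr cu) cz he ca
    rw [cu] at this
    exact mul_z_ne _ _ this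

theorem small {c : G} (hc : c = F.t ∨ c = F.t * F.z ∨ c = F.t * F.u ∨ c = F.t * F.u * F.z) {P : Subgroup G}
    (hP : IsPGroup 2 P) (h1 : ∀ y ∈ P, y * c = c * y) (h2 : ∀ y ∈ P, y * F.z = F.z * y) : Nat.card P ≤ 64 := by
  have cc : ∀ {g y d : G}, y * (g⁻¹ * d * g) = (g⁻¹ * d * g) * y → (g * y * g⁻¹) * d = d * (g * y * g⁻¹) := by
    intro g y d h
    calc (g * y * g⁻¹) * d = g * (y * (g⁻¹ * d * g)) * g⁻¹ := by group
      _ = _ := by rw [h]; group
  rcases hc with rfl | rfl | rfl | rfl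
  · exact F.bT P hP fun y hy => mem_cen1.2 (h1 y hy)
  · exact Bd_conj F.bT hP F.f fun y hy => mem_cen1.2 (cc (by rw [F.ft]; exact h1 y hy))
  · exact bdTU F P hP fun y hy => mem_cen2.2 ⟨h1 y hy, h2 y hy⟩
  · refine Bd_conj (bdTU F) hP F.x fun y hy => mem_cen2.2 ⟨cc ?_, cc ?_⟩
    · rw [show F.x⁻¹ * (F.t * F.u) * F.x = (F.x⁻¹ * F.t * F.x) * (F.x⁻¹ * F.u * F.x) by group, tx', ux,
        ← mul_assoc F.t F.u]
      exact h1 y hy
    · rw [zx']; exact h2 y hy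

theorem exists_S : ∃ S : Subgroup G, H8.IsSylowIn 2 S ⊤ ∧ closure ({F.t, F.x, F.a, F.u} : Set G) ≤ S ∧
    128 ≤ Nat.card ↥(S ⊓ centralizer {F.u}) ∧ ∀ y ∈ S, y * F.z = F.z * y := by
  haveI : Fact (Nat.Prime 2) := ⟨Nat.prime_two⟩
  have mu : F.u ∈ closure ({F.u, F.z} : Set G) := subset_closure (by simp)
  have mz : F.z ∈ closure ({F.u, F.z} : Set G) := subset_closure (by simp)
  have h0 : closure ({F.t, F.x, F.a, F.u} : Set G) ≤
      normalizer ((closure ({F.u, F.z} : Set G) : Subgroup G) : Set G) := by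
    rw [closure_le]
    rintro y (rfl | rfl | rfl | rfl) <;> refine mem_norm_cl ?_ <;> rintro w (rfl | rfl)
    · rw [conj_eq_iff.2 F.tu]; exact mu
    · rw [conj_eq_iff.2 (zt _)]; exact mz
    · rw [ux]; exact mul_mem mu mz
    · rw [zx']; exact mz
    · rw [conj_eq_iff.2 F.au]; exact mu
    · rw [conj_eq_iff.2 (za _)]; exact mz
    · rw [conj_eq_iff.2 rfl]; exact mu
    · rw [conj_eq_iff.2 (zu _)]; exact mz
  obtain ⟨W, hW, hW0⟩ := H8.exists_isSylowIn_ge F.syl.pgroup h0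
  obtain ⟨S, hS, hWS⟩ := H8.exists_isSylowIn_ge hW.pgroup (le_top (a := W))
  have hc : centralizer ({F.u, F.z} : Set G) = centralizer ((closure ({F.u, F.z} : Set G) : Subgroup G) : Set G) :=
    (centralizer_closure _).symm
  have hV := hW.inf_of_le_normalizer (N := centralizer ((closure ({F.u, F.z} : Set G) : Subgroup G) : Set G))
    (fun g hg => H8.cj_eq_self_iff.1 (by rw [H8.cj_centralizer, H8.cj_eq_self hg]))
  rw [inf_eq_right.2 (centralizer_le_normalizer _), ← hc] at hV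
  obtain ⟨P, hP, hPc, hP128⟩ := F.big
  have h128 : 128 ≤ Nat.card ↥(S ⊓ centralizer {F.u}) := by
    refine hP128.trans ((Bd_of_syl hV le_rfl P hP hPc).trans (card_le_of_le ?_))
    exact fun y hy => ⟨hWS hy.1, mem_cen1.2 (mem_cen2.1 hy.2).1⟩
  have hS0 := hW0.trans hWS
  refine ⟨S, hS, hS0, h128, ?_⟩
  obtain ⟨c, hc, hc1, hcc⟩ := exists_central hS.pgroup (hS0 (tS _)) (t1 _)
  have big : ¬ Nat.card S ≤ 64 := by
    have := card_le_of_le (inf_le_left : S ⊓ centralizer {F.u} ≤ S)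
    omega
  have hc0 : c ∈ closure ({F.t, F.x, F.a, F.u} : Set G) :=
    mem_of_Bd F.bT hS.pgroup hS0 (S0t _) F.card0.ge hc (mem_cen1.2 (hcc _ (hS0 (tS _))).symm)
  rcases F.cen hc0 (hcc _ (hS0 (xS _))).symm (hcc _ (hS0 (aS _))).symm with rfl | rfl | rfl | rfl
  · exact absurd rfl hc1
  · exact absurd (F.bT S hS.pgroup fun y hy => mem_cen1.2 (hcc y hy)) big
  · exact hcc
  · refine absurd (Bd_conj F.bT hS.pgroup F.f fun y hy => mem_cen1.2 ?_) big
    calc F.f * y * F.f⁻¹ * F.t = F.f * (y * (F.f⁻¹ * F.t * F.f)) * F.f⁻¹ := by group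
      _ = F.f * ((F.f⁻¹ * F.t * F.f) * y) * F.f⁻¹ := by rw [F.ft, hcc y hy]
      _ = _ := by group

omit [Finite G] in
theorem cls_conj {N : Subgroup G} {g c z : G} (hg : g ∈ normalizer (N : Set G)) (hz : g⁻¹ * z * g = z)
    (h : ∀ w ∈ N, w⁻¹ * c * w = c ∨ w⁻¹ * c * w = c * z) :
    ∀ w ∈ N, w⁻¹ * (g⁻¹ * c * g) * w = g⁻¹ * c * g ∨ w⁻¹ * (g⁻¹ * c * g) * w = g⁻¹ * c * g * z := fun w hw => by
  rw [show w⁻¹ * (g⁻¹ * c * g) * w = g⁻¹ * ((g * w * g⁻¹)⁻¹ * c * (g * w * g⁻¹)) * g by group]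
  rcases h _ (conj_mem' hg hw) with h1 | h1 <;> rw [h1]
  · exact Or.inl rfl
  · right; rw [show g⁻¹ * (c * z) * g = g⁻¹ * c * g * (g⁻¹ * z * g) by group, hz]

omit [Finite G] in
theorem cls_mul {w c d z : G} (z2 : z * z = 1) (hd : d * z = z * d)
    (h1 : w⁻¹ * c * w = c ∨ w⁻¹ * c * w = c * z) (h2 : w⁻¹ * d * w = d ∨ w⁻¹ * d * w = d * z) :
    w⁻¹ * (c * d) * w = c * d ∨ w⁻¹ * (c * d) * w = c * d * z := by
  rw [show w⁻¹ * (c * d) * w = (w⁻¹ * c * w) * (w⁻¹ * d * w) by group]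
  rcases h1 with h1 | h1 <;> rcases h2 with h2 | h2 <;> rw [h1, h2]
  · exact Or.inl rfl
  · right; rw [mul_assoc]
  · right; rw [mul_assoc, ← hd, mul_assoc]
  · left; rw [mul_assoc, ← mul_assoc z, ← hd, mul_assoc d, z2, mul_one]

omit [Finite G] in
theorem cls_swap {a c z : G} (a2 : a * a = 1) (c2 : c * c = 1) (az : a * z = z * a) (cz : c * z = z * c)
    (h : a⁻¹ * c * a = c ∨ a⁻¹ * c * a = c * z) : c⁻¹ * a * c = a ∨ c⁻¹ * a * c = a * z := by
  rcases h with h | h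
  · exact Or.inl (conj_eq_iff.2 (conj_eq_iff.1 h).symm)
  · right
    rw [inv_eq a2] at h
    rw [inv_eq c2]
    calc c * a * c = a * (a * c * a) * c := by rw [← mul_assoc, ← mul_assoc, a2, one_mul]
      _ = a * (c * (z * c)) := by rw [h]; simp only [mul_assoc]
      _ = _ := by rw [← cz, ← mul_assoc c, c2, one_mul]

omit [Finite G] in
theorem sq_conj {a : G} (a2 : a * a = 1) (g : G) : (g⁻¹ * a * g) * (g⁻¹ * a * g) = 1 := by
  rw [show (g⁻¹ * a * g) * (g⁻¹ * a * g) = g⁻¹ * (a * a) * g by group, a2]; group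

omit [Finite G] in
theorem elem3 {a b c : G} (a2 : a * a = 1) (b2 : b * b = 1) (c2 : c * c = 1) (ab : a * b = b * a)
    (ac : a * c = c * a) (bc : b * c = c * b) : ∀ y ∈ closure ({a, b, c} : Set G), y * y = 1 := by
  intro y hy
  rcases mem_cl3 a2 b2 c2 ab ac bc hy with rfl | rfl | rfl | rfl | rfl | rfl | rfl | rfl
  · simp
  · exact c2
  · exact b2
  · rw [← sq, Commute.mul_pow bc, sq, sq, b2, c2, one_mul]
  · exact a2
  · rw [← sq, Commute.mul_pow ac, sq, sq, a2, c2, one_mul]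
  · rw [← sq, Commute.mul_pow ab, sq, sq, a2, b2, one_mul]
  · rw [← sq, Commute.mul_pow (Commute.mul_left ac bc), Commute.mul_pow ab, sq, sq, sq, a2, b2, c2,
      one_mul, one_mul]

theorem top (h : Bd (centralizer ({F.u, F.z} : Set G)) 512) {S : Subgroup G} (hS : H8.IsSylowIn 2 S ⊤)
    (hS0 : closure ({F.t, F.x, F.a, F.u} : Set G) ≤ S) (h128 : 128 ≤ Nat.card ↥(S ⊓ centralizer {F.u}))
    (Sz : ∀ y ∈ S, y * F.z = F.z * y) :
    Nat.card S ≤ 1024 ∨ (Nat.card S ≤ 2048 ∧ ∃ v ∈ S, v * v = 1 ∧ v ≠ 1 ∧ v ≠ F.z ∧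
      (∀ g ∈ S, g⁻¹ * v * g = v ∨ g⁻¹ * v * g = v * F.z) ∧ F.t * v ≠ v * F.t) := by
  classical
  have Sz' : ∀ y ∈ S, y⁻¹ * F.z * y = F.z := fun y hy => conj_eq_iff.2 (Sz y hy)
  have inS0 : ∀ g ∈ S, g * F.t = F.t * g → g ∈ closure ({F.t, F.x, F.a, F.u} : Set G) := fun g hg h =>
    mem_of_Bd F.bT hS.pgroup hS0 (S0t _) F.card0.ge hg (mem_cen1.2 h)
  set CU := S ⊓ centralizer {F.u} with hCU
  have cCU : Nat.card CU ≤ 512 :=
    h _ hS.pgroup.to_inf_left fun y hy => mem_cen2.2 ⟨mem_cen1.1 hy.2, Sz y hy.1⟩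
  have mu : F.u ∈ closure ({F.u, F.z} : Set G) := subset_closure (by simp)
  have mz : F.z ∈ closure ({F.u, F.z} : Set G) := subset_closure (by simp)
  set W := S ⊓ normalizer ((closure ({F.u, F.z} : Set G) : Subgroup G) : Set G) with hWdef
  have hW : ∀ g ∈ S, g ∈ W ↔ (g⁻¹ * F.u * g = F.u ∨ g⁻¹ * F.u * g = F.u * F.z) := fun g hg => by
    constructor
    · intro hw
      rcases mem_cl2 F.u2 F.z2 (zu _) (conj_mem hw.2 mu) with h1 | h1 | h1
      · exact absurd (isConj_one_left.1 (isConj_of h1)) (u1 _)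
      · rw [← Sz' g hg] at h1
        exact absurd (by simpa using h1) (uz F.toF2)
      · exact h1
    · intro h1
      refine ⟨hg, mem_norm_cl ?_⟩
      rintro y (rfl | rfl)
      · rcases h1 with h1 | h1 <;> rw [h1]
        exacts [mu, mul_mem mu mz]
      · rw [Sz' g hg]; exact mz
  have clW : ∀ g ∈ W, g⁻¹ * F.u * g = F.u ∨ g⁻¹ * F.u * g = F.u * F.z := fun g hg => (hW g hg.1).1 hg
  have CW : CU ≤ W := fun g hg => (hW g hg.1).2 (Or.inl (conj_eq_iff.2 (mem_cen1.1 hg.2)))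
  have xW : F.x ∈ W := (hW _ (hS0 (xS _))).2 (Or.inr (ux _))
  have S0W : closure ({F.t, F.x, F.a, F.u} : Set G) ≤ W := by
    rw [closure_le]
    rintro y (rfl | rfl | rfl | rfl)
    · exact CW ⟨hS0 (tS _), mem_cen1.2 F.tu⟩
    · exact xW
    · exact CW ⟨hS0 (aS _), mem_cen1.2 F.au⟩
    · exact CW ⟨hS0 (uS _), mem_cen1.2 rfl⟩
  have c1 : 2 * Nat.card CU ≤ Nat.card W := two_mul_le CW xW fun hx => by
    have := conj_eq_iff.2 (mem_cen1.1 hx.2)
    rw [ux] at this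
    exact mul_z_ne _ _ this
  have c2 : Nat.card W ≤ 2 * Nat.card CU :=
    (cls2 W F.u _ clW).trans (Nat.mul_le_mul_left _ (card_le_of_le (inf_le_inf_right _ inf_le_left)))
  have pW : IsPGroup 2 W := hS.pgroup.to_inf_left
  have L1 : ∀ c ∈ S, c * c = 1 → c * F.t = F.t * c → (∀ w ∈ W, w⁻¹ * c * w = c ∨ w⁻¹ * c * w = c * F.z) →
      c = 1 ∨ c = F.z ∨ c = F.u ∨ c = F.u * F.z := by
    intro c hc cc ct hcl
    have := (F.cen2 (inS0 c hc ct) fun r hr => hcl r (S0W hr)).2 cc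
    rcases E8 _ this with h1 | h1 | h1 | h1 | h1
    · simp [h1]
    · simp [h1]
    · simp [h1]
    · simp [h1]
    · exfalso
      have h2 := cls2 W c _ hcl
      have h3 := small F h1 (P := W ⊓ centralizer {c}) pW.to_inf_left (fun y hy => mem_cen1.1 hy.2)
        (fun y hy => Sz y hy.1.1)
      omega
  by_cases hSW : S ≤ W
  · left
    have := card_le_of_le hSW
    omega
  right
  obtain ⟨g1, hg1, hg1n, hg1W⟩ := exists_norm hS.pgroup inf_le_left hSW
  set N := S ⊓ normalizer (W : Set G) with hN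
  have WN : W ≤ N := le_inf inf_le_left le_normalizer
  have uW : F.u ∈ W := S0W (uS _)
  have L2 : ∀ g ∈ N, g ∉ W → (g⁻¹ * F.u * g)⁻¹ * F.t * (g⁻¹ * F.u * g) = F.t * F.z ∧
      (g⁻¹ * F.u * g) * F.u = F.u * (g⁻¹ * F.u * g) := by
    intro g hg hgW
    have cl := cls_conj hg.2 (Sz' g hg.1) clW
    have c2 := sq_conj F.u2 g
    have cW := conj_mem hg.2 uW
    have hne : g⁻¹ * F.u * g = 1 ∨ g⁻¹ * F.u * g = F.z ∨ g⁻¹ * F.u * g = F.u ∨ g⁻¹ * F.u * g = F.u * F.z →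
        False := by
      rintro (h1 | h1 | h1)
      · exact absurd (isConj_one_left.1 (isConj_of h1)) (u1 _)
      · rw [← Sz' g hg.1] at h1
        exact absurd (by simpa using h1) (uz F.toF2)
      · exact hgW ((hW g hg.1).2 h1)
    generalize g⁻¹ * F.u * g = c at cl c2 cW hne
    have cz := Sz c cW.1
    have ct : c⁻¹ * F.t * c = F.t * F.z :=
      (cls_swap F.t2 c2 (zt _) cz (cl _ (S0W (tS _)))).resolve_left fun h1 =>
        hne (L1 c cW.1 c2 (conj_eq_iff.1 h1) cl)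
    refine ⟨ct, conj_eq_iff.1 ?_⟩
    rcases cls_swap F.a2 c2 (za _) cz (cl _ (S0W (aS _))) with h1 | h1
    · exact noE F ct (clW c cW) (Sz' c cW.1) (one_mem _) (by rw [h1, one_mul])
    · exact noE F ct (clW c cW) (Sz' c cW.1) (m8z F) (by rw [h1, za])
  have hg1N : g1 ∈ N := ⟨hg1, hg1n⟩
  obtain ⟨u1t, u1u⟩ := L2 g1 hg1N hg1W
  have u12 := sq_conj F.u2 g1
  have u1W := conj_mem hg1n uW
  have clu1 := cls_conj hg1n (Sz' g1 hg1) clW
  set u1 := g1⁻¹ * F.u * g1 with hu1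
  have u1z := Sz u1 u1W.1
  have L3 : ∀ g ∈ N, g⁻¹ * F.u * g ∈ ({F.u, F.u * F.z, u1, F.z * u1, F.u * u1, F.u * F.z * u1} : Finset G) := by
    intro g hg
    by_cases hgW : g ∈ W
    · rcases clW g hgW with h1 | h1 <;> simp [h1]
    obtain ⟨ct, -⟩ := L2 g hg hgW
    have cW := conj_mem hg.2 uW
    have cl := cls_conj hg.2 (Sz' g hg.1) clW
    have c2 := sq_conj F.u2 g
    have cm : (g⁻¹ * F.u * g) * u1 = u1 * (g⁻¹ * F.u * g) := by
      by_cases h2 : g * g1⁻¹ ∈ W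
      · have e : g⁻¹ * F.u * g = g1⁻¹ * ((g * g1⁻¹)⁻¹ * F.u * (g * g1⁻¹)) * g1 := by group
        rw [e]
        rcases clW _ h2 with h1 | h1 <;> rw [h1]
        exact conj_comm (by rw [mul_assoc, ← zu])
      · have := conj_comm (g := g1) (L2 _ (mul_mem hg (inv_mem hg1N)) h2).2
        rwa [show g1⁻¹ * ((g * g1⁻¹)⁻¹ * F.u * (g * g1⁻¹)) * g1 = g⁻¹ * F.u * g by group] at this
    generalize g⁻¹ * F.u * g = c at ct cW cl c2 cm
    have e : c = c * u1 * u1 := by rw [mul_assoc, u12, mul_one]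
    have := L1 (c * u1) (mul_mem cW.1 u1W.1)
      (by rw [← sq, Commute.mul_pow cm, sq, sq, c2, u12, one_mul])
      (conj_eq_iff.1 (by
        rw [show (c * u1)⁻¹ * F.t * (c * u1) = u1⁻¹ * (c⁻¹ * F.t * c) * u1 by group, ct,
          show u1⁻¹ * (F.t * F.z) * u1 = (u1⁻¹ * F.t * u1) * (u1⁻¹ * F.z * u1) by group, u1t, Sz' _ u1W.1,
          mul_assoc, F.z2, mul_one]))
      (fun w hw => cls_mul F.z2 u1z (cl w hw) (clu1 w hw))
    rw [e]
    rcases this with h1 | h1 | h1 | h1 <;> simp [h1]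
  have c3 : Nat.card N ≤ 4 * Nat.card CU := by
    refine (cls_pow (k := 2) hS.pgroup.to_inf_left F.u _ L3 ?_).trans
      (Nat.mul_le_mul_left _ (card_le_of_le (inf_le_inf_right _ inf_le_left)))
    exact lt_of_le_of_lt Finset.card_le_six (by norm_num)
  have c4 : 2 * Nat.card W ≤ Nat.card N := two_mul_le WN hg1N hg1W
  have ix : ∀ a ∈ N, a ∉ W → ∀ b ∈ N, b ∉ W → a * b ∈ W := fun a ha ha' b hb hb' =>
    idx2 WN (by omega) ha ha' hb hb'
  have L4 : ∀ g ∈ N, g ∉ W → (g⁻¹ * F.u * g = u1 ∨ g⁻¹ * F.u * g = u1 * F.z) ∧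
      (g⁻¹ * u1 * g = F.u ∨ g⁻¹ * u1 * g = F.u * F.z) := by
    intro g hg hgW
    constructor
    · have e : g⁻¹ * F.u * g = g1⁻¹ * ((g * g1⁻¹)⁻¹ * F.u * (g * g1⁻¹)) * g1 := by group
      rw [e]
      rcases clW _ (ix g hg hgW _ (inv_mem hg1N) (fun h => hg1W (inv_mem_iff.1 h))) with h1 | h1 <;> rw [h1]
      · exact Or.inl rfl
      · right; rw [show g1⁻¹ * (F.u * F.z) * g1 = u1 * (g1⁻¹ * F.z * g1) by rw [hu1]; group, Sz' g1 hg1]
    · rw [show g⁻¹ * u1 * g = (g1 * g)⁻¹ * F.u * (g1 * g) by rw [hu1]; group]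
      exact clW _ (ix _ hg1N hg1W g hg hgW)
  have clv : ∀ g ∈ N, g⁻¹ * (F.u * u1) * g = F.u * u1 ∨ g⁻¹ * (F.u * u1) * g = F.u * u1 * F.z := by
    intro g hg
    by_cases hgW : g ∈ W
    · exact cls_mul F.z2 u1z (clW g hgW) (clu1 g hgW)
    obtain ⟨h1, h2⟩ := L4 g hg hgW
    rw [show g⁻¹ * (F.u * u1) * g = (g⁻¹ * F.u * g) * (g⁻¹ * u1 * g) by group, ← u1u]
    rcases h1 with h1 | h1 <;> rcases h2 with h2 | h2 <;> rw [h1, h2]
    · exact Or.inl rfl
    · right; rw [mul_assoc u1]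
    · right; rw [mul_assoc u1, ← zu, mul_assoc u1]
    · left; rw [mul_assoc u1, ← mul_assoc F.z, ← zu, mul_assoc F.u, F.z2, mul_one]
  have vt : F.t * (F.u * u1) ≠ F.u * u1 * F.t := fun h1 => by
    have h2 := conj_eq_iff.2 h1.symm
    rw [show (F.u * u1)⁻¹ * F.t * (F.u * u1) = u1⁻¹ * (F.u⁻¹ * F.t * F.u) * u1 by group,
      conj_eq_iff.2 F.tu.symm, u1t] at h2
    exact mul_z_ne _ _ h2
  have v1 : F.u * u1 ≠ 1 := fun h1 => vt (by rw [h1]; simp)
  have vz : F.u * u1 ≠ F.z := fun h1 => vt (by rw [h1, zt])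
  have v2 : F.u * u1 * (F.u * u1) = 1 := by rw [← sq, Commute.mul_pow u1u.symm, sq, sq, F.u2, u12, one_mul]
  suffices hSN : S ≤ N by
    have := card_le_of_le hSN
    exact ⟨by omega, F.u * u1, mul_mem uW.1 u1W.1, v2, v1, vz, fun g hg => clv g (hSN hg), vt⟩
  by_contra hSN
  obtain ⟨k, hk, hkn, hkN⟩ := exists_norm hS.pgroup inf_le_left hSN
  have tN : k * F.t * k⁻¹ ∈ N := conj_mem' hkn (WN (S0W (tS _)))
  set D := closure ({F.u, u1, F.z} : Set G) with hD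
  have Du : F.u ∈ D := subset_closure (by simp)
  have Du1 : u1 ∈ D := subset_closure (by simp)
  have Dz : F.z ∈ D := subset_closure (by simp)
  have ND : N ≤ normalizer (D : Set G) := fun g hg => by
    refine mem_norm_cl ?_
    by_cases hgW : g ∈ W
    · rintro y (rfl | rfl | rfl)
      · rcases clW g hgW with h1 | h1 <;> rw [h1]
        exacts [Du, mul_mem Du Dz]
      · rcases clu1 g hgW with h1 | h1 <;> rw [h1]
        exacts [Du1, mul_mem Du1 Dz]
      · rw [Sz' g hg.1]; exact Dz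
    · rintro y (rfl | rfl | rfl)
      · rcases (L4 g hg hgW).1 with h1 | h1 <;> rw [h1]
        exacts [Du1, mul_mem Du1 Dz]
      · rcases (L4 g hg hgW).2 with h1 | h1 <;> rw [h1]
        exacts [Du, mul_mem Du Dz]
      · rw [Sz' g hg.1]; exact Dz
  have De := elem3 F.u2 u12 F.z2 u1u.symm (zu _) u1z
  have hnea := F.nea (D := H8.cj k⁻¹ D ⊓ closure ({F.t, F.x, F.a, F.u} : Set G)) inf_le_right
    (fun y hy => by
      have h1 := De _ (H8.mem_cj.1 hy.1)
      have : k * (y * y) * k⁻¹ = 1 := by rw [← h1]; group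
      simpa using this)
    (inf_le_norm ((S0W.trans WN).trans (H8.le_normalizer_cj ND (inv_mem hkn))) le_normalizer)
  have key : ∀ c0 ∈ D, c0 ∈ N → c0 ≠ 1 → c0 ≠ F.z → (k * F.t * k⁻¹)⁻¹ * c0 * (k * F.t * k⁻¹) = c0 →
      Nat.card N ≤ 4 * Nat.card ↥(N ⊓ centralizer {c0}) → k⁻¹ * c0 * k = F.u ∨ k⁻¹ * c0 * k = F.u * F.z := by
    intro c0 hD0 hN0 h1 hz ht hc
    have hcS : k⁻¹ * c0 * k ∈ S := (conj_mem hkn hN0).1
    have hct : k⁻¹ * c0 * k * F.t = F.t * (k⁻¹ * c0 * k) := by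
      have := conj_comm (g := k) (conj_eq_iff.1 ht)
      simpa [mul_assoc] using this.symm
    rcases E8 _ (hnea ⟨H8.mem_cj.2 (by simpa [mul_assoc] using hD0), inS0 _ hcS hct⟩) with h2 | h2 | h2 | h2 | h2
    · exact absurd (isConj_one_left.1 (isConj_of h2)) h1
    · rw [← Sz' k hk] at h2
      exact absurd (by simpa using h2) hz
    · exact Or.inl h2
    · exact Or.inr h2
    · exfalso
      have h3 := small F h2 (P := H8.cj k⁻¹ (N ⊓ centralizer {c0}))
        (H8.pgroup_cj hS.pgroup.to_inf_left.to_inf_left _)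
        (fun y hy => by
          have := conj_comm (g := k) (mem_cen1.1 (H8.mem_cj.1 hy).2)
          simpa [mul_assoc] using this)
        (fun y hy => by
          have := conj_mem hkn (H8.mem_cj.1 hy).1
          exact Sz y (by simpa [mul_assoc] using this.1))
      rw [H8.card_cj] at h3
      omega
  have cl4 : ∀ c0, (∀ g ∈ N, g⁻¹ * c0 * g ∈ ({F.u, F.u * F.z, u1, u1 * F.z} : Finset G)) →
      Nat.card N ≤ 4 * Nat.card ↥(N ⊓ centralizer {c0}) := fun c0 hc =>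
    (cls_le N c0 _ hc).trans (Nat.mul_le_mul_right _ Finset.card_le_four)
  have caseU : (k * F.t * k⁻¹)⁻¹ * F.u * (k * F.t * k⁻¹) = F.u → False := fun ht =>
    hkN (WN ((hW k hk).2 (key _ Du (WN uW) (Cl.u1 _) (uz _) ht (cl4 _ fun g hg => by
      by_cases hgW : g ∈ W
      · rcases clW g hgW with h1 | h1 <;> simp [h1]
      · rcases (L4 g hg hgW).1 with h1 | h1 <;> simp [h1]))))
  have caseU1 : (k * F.t * k⁻¹)⁻¹ * u1 * (k * F.t * k⁻¹) = u1 → False := fun ht => by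
    have h1 := key _ Du1 (WN u1W) (fun h => Cl.u1 _ (isConj_one_left.1 (isConj_of h)))
      (fun h => by
        rw [hu1, ← Sz' g1 hg1] at h
        exact uz F.toF2 (by simpa using h)) ht (cl4 _ fun g hg => by
      by_cases hgW : g ∈ W
      · rcases clu1 g hgW with h1 | h1 <;> simp [h1]
      · rcases (L4 g hg hgW).2 with h1 | h1 <;> simp [h1])
    rw [show k⁻¹ * u1 * k = (g1 * k)⁻¹ * F.u * (g1 * k) by rw [hu1]; group] at h1
    have h2 := mul_mem (inv_mem hg1N) (WN ((hW _ (mul_mem hg1 hk)).2 h1))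
    rw [inv_mul_cancel_left] at h2
    exact hkN h2
  have caseV : (k * F.t * k⁻¹)⁻¹ * (F.u * u1) * (k * F.t * k⁻¹) = F.u * u1 → False := fun ht => by
    have h1 := key _ (mul_mem Du Du1) (WN (mul_mem uW u1W)) v1 vz ht
      ((cls2 N _ _ clv).trans (Nat.mul_le_mul_right _ (by norm_num)))
    have h2 := cls_conj hkn (Sz' k hk) clv g1 hg1N
    apply hg1W
    rw [hW g1 hg1]
    rcases h1 with h1 | h1 <;> rw [h1] at h2
    · exact h2
    · rw [show g1⁻¹ * (F.u * F.z) * g1 = g1⁻¹ * F.u * g1 * (g1⁻¹ * F.z * g1) by group, Sz' g1 hg1] at h2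
      exact h2.imp mul_right_cancel mul_right_cancel
  have t'2 : k * F.t * k⁻¹ * (k * F.t * k⁻¹) = 1 := by simpa using sq_conj F.t2 k⁻¹
  generalize k * F.t * k⁻¹ = t' at tN caseU caseU1 caseV t'2
  apply caseV
  rw [show t'⁻¹ * (F.u * u1) * t' = (t'⁻¹ * F.u * t') * (t'⁻¹ * u1 * t') by group]
  by_cases htW : t' ∈ W
  · rw [(clW _ htW).resolve_left caseU, (clu1 _ htW).resolve_left caseU1, mul_assoc, ← mul_assoc F.z, ← u1z,
      mul_assoc u1, F.z2, mul_one]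
  · have e : ∀ y : G, t'⁻¹ * (t'⁻¹ * y * t') * t' = y := fun y => by
      rw [show t'⁻¹ * (t'⁻¹ * y * t') * t' = (t' * t')⁻¹ * y * (t' * t') by group, t'2]; simp
    rcases (L4 _ tN htW).1 with h1 | h1
    · have h2 : t'⁻¹ * u1 * t' = F.u := by rw [← h1, e]
      rw [h1, h2, u1u]
    · have h2 : t'⁻¹ * u1 * t' * F.z = F.u := by
        rw [← e F.u, h1]
        nth_rewrite 1 [← Sz' t' tN.1]
        group
      have h3 : t'⁻¹ * u1 * t' = F.u * F.z := by rw [← h2, mul_assoc _ F.z, F.z2, mul_one]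
      rw [h1, h3, mul_assoc, ← mul_assoc F.z, ← zu, mul_assoc F.u, F.z2, mul_one, u1u]

theorem transfer (h : Bd (centralizer ({F.u, F.z} : Set G)) 512) {S : Subgroup G} (hS : H8.IsSylowIn 2 S ⊤)
    (hS0 : closure ({F.t, F.x, F.a, F.u} : Set G) ≤ S) (Sz : ∀ y ∈ S, y * F.z = F.z * y) {v : G} (hv : v ∈ S)
    (v2 : v * v = 1) (v1 : v ≠ 1) (vz : v ≠ F.z) (clv : ∀ g ∈ S, g⁻¹ * v * g = v ∨ g⁻¹ * v * g = v * F.z)
    (vt : F.t * v ≠ v * F.t) (hG : ∀ K : Subgroup G, K.index ≠ 2) : Nat.card S ≤ 1024 := by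
  by_contra hbig
  have c1 := cls2 S v _ clv
  set M := S ⊓ centralizer {v} with hM
  obtain ⟨y, hyM, hyS⟩ := H7.thompson_extremal hG (odd_index hS) (M := M) inf_le_left
    (relIndex_two inf_le_left c1 (hS0 (tS _)) fun h => vt (mem_cen1.1 h.2)) F.t2 F.syl.pgroup
    (fun x hx => mem_cen1.1 (S0t _ hx))
  have cc : ∀ {g w d : G}, w * (g⁻¹ * d * g) = (g⁻¹ * d * g) * w → (g * w * g⁻¹) * d = d * (g * w * g⁻¹) := by
    intro g w d h
    calc (g * w * g⁻¹) * d = g * (w * (g⁻¹ * d * g)) * g⁻¹ := by group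
      _ = _ := by rw [h]; group
  have back : ∀ c ∈ S, c * (y⁻¹ * F.t * y) = (y⁻¹ * F.t * y) * c →
      y * c * y⁻¹ ∈ closure ({F.t, F.x, F.a, F.u} : Set G) := fun c hc hct =>
    mem_of_Bd F.bT (H8.pgroup_cj hS.pgroup y) (fun x hx => H8.mem_cj.2 (hyS x hx)) (S0t _) F.card0.ge
      (H8.conj_mem_cj y hc) (mem_cen1.2 (cc hct))
  have zS' := hS0 (zS F.toF2)
  have z' := back _ zS' (Sz _ hyM.1).symm
  have v' := back _ hv (mem_cen1.1 hyM.2).symm
  have mv : v ∈ closure ({v, F.z} : Set G) := subset_closure (by simp)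
  have mz : F.z ∈ closure ({v, F.z} : Set G) := subset_closure (by simp)
  have SN : S ≤ normalizer ((closure ({v, F.z} : Set G) : Subgroup G) : Set G) := fun g hg => by
    refine mem_norm_cl ?_
    rintro w (rfl | rfl)
    · rcases clv g hg with h1 | h1 <;> rw [h1]
      exacts [mv, mul_mem mv mz]
    · rw [conj_eq_iff.2 (Sz g hg)]; exact mz
  have hnea := F.nea (D := H8.cj y (closure ({v, F.z} : Set G)))
    (by
      rw [H8.cj_le_iff, closure_le]
      rintro w (rfl | rfl)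
      · exact H8.mem_cj.2 (by simpa using v')
      · exact H8.mem_cj.2 (by simpa using z'))
    (fun w hw => by
      have h1 : (y⁻¹ * w * y) * (y⁻¹ * w * y) = 1 := by
        rcases mem_cl2 v2 F.z2 (Sz v hv) (H8.mem_cj.1 hw) with h | h | h | h <;> rw [h]
        · simp
        · exact F.z2
        · exact v2
        · rw [← sq, Commute.mul_pow (Sz v hv), sq, sq, v2, F.z2, one_mul]
      have : y⁻¹ * (w * w) * y = 1 := by rw [← h1]; group
      exact isConj_one_left.1 (isConj_of this))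
    (by
      rw [← H8.cj_normalizer]
      exact fun x hx => H8.mem_cj.2 (SN (hyS x hx)))
  have z8 := hnea (H8.conj_mem_cj y mz)
  have v8 := hnea (H8.conj_mem_cj y mv)
  have pM : IsPGroup 2 (H8.cj y M) := H8.pgroup_cj hS.pgroup.to_inf_left y
  have cM : 512 < Nat.card (H8.cj y M) := by rw [H8.card_cj]; omega
  let cen : G → Prop := fun c => ∀ w ∈ H8.cj y M, w * c = c * w
  have cmul : ∀ {c d : G}, cen c → cen d → cen (c * d) := fun hc hd w hw => Commute.mul_right (hc w hw) (hd w hw)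
  have cz' : cen (y * F.z * y⁻¹) := fun w hw => by
    have := conj_comm (g := y⁻¹) (Sz _ (H8.mem_cj.1 hw).1)
    simpa [mul_assoc] using this
  have cv' : cen (y * v * y⁻¹) := fun w hw => by
    have := conj_comm (g := y⁻¹) (mem_cen1.1 (H8.mem_cj.1 hw).2)
    simpa [mul_assoc] using this
  have nt : ¬ cen F.t := fun hc => by
    have := F.bT _ pM fun w hw => mem_cen1.2 (hc w hw)
    omega
  have ntz : ¬ cen (F.t * F.z) := fun hc => by
    have := Bd_conj F.bT pM F.f fun w hw => mem_cen1.2 (cc (by rw [F.ft]; exact hc w hw))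
    omega
  have A : ∀ c ∈ closure ({F.t, F.z} : Set G), c ≠ 1 → cen c → cen F.z := fun c hc c1 hcc => by
    rcases mem_cl2 F.t2 F.z2 (zt _) hc with rfl | rfl | rfl | rfl
    exacts [absurd rfl c1, hcc, absurd hcc nt, absurd hcc ntz]
  have mt : F.t ∈ closure ({F.t, F.z} : Set G) := subset_closure (by simp)
  have mz' : F.z ∈ closure ({F.t, F.z} : Set G) := subset_closure (by simp)
  have split : ∀ c ∈ closure ({F.t, F.u, F.z} : Set G), c ∈ closure ({F.t, F.z} : Set G) ∨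
      ∃ e ∈ closure ({F.t, F.z} : Set G), c = F.u * e ∧ c = e * F.u := fun c hc => by
    rcases E8 _ hc with rfl | rfl | rfl | rfl | rfl | rfl | rfl | rfl
    · exact Or.inl (one_mem _)
    · exact Or.inl mz'
    · exact Or.inr ⟨1, one_mem _, by simp, by simp⟩
    · exact Or.inr ⟨_, mz', rfl, zu _⟩
    · exact Or.inl mt
    · exact Or.inl (mul_mem mt mz')
    · exact Or.inr ⟨_, mt, F.tu, rfl⟩
    · exact Or.inr ⟨_, mul_mem mt mz', by rw [F.tu, mul_assoc], by rw [mul_assoc, zu, mul_assoc]⟩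
  have z1' : y * F.z * y⁻¹ ≠ 1 := fun h => z1 F.toF2 (by simpa using h)
  have v1' : y * v * y⁻¹ ≠ 1 := fun h => v1 (by simpa using h)
  have zv1 : y * F.z * y⁻¹ * (y * v * y⁻¹) ≠ 1 := fun h => vz (by
    have : y * (F.z * v) * y⁻¹ = 1 := by rw [← h]; group
    have h2 : F.z * v = 1 := by simpa using this
    rw [← inv_eq F.z2, inv_mul_eq_one] at h2
    exact h2.symm)
  have cz : cen F.z := by
    rcases split _ z8 with h1 | ⟨e1, he1, -, h1⟩
    · exact A _ h1 z1' cz'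
    rcases split _ v8 with h2 | ⟨e2, he2, h2, -⟩
    · exact A _ h2 v1' cv'
    refine A _ ?_ zv1 (cmul cz' cv')
    rw [h1, h2, mul_assoc, ← mul_assoc F.u, F.u2, one_mul]
    exact mul_mem he1 he2
  have fin : ∀ c ∈ closure ({F.t, F.u, F.z} : Set G), c ≠ 1 → c ≠ F.z → ¬ cen c := fun c hc c1 cz0 hcc => by
    rcases E8 _ hc with h1 | h1 | h1 | h1 | h1
    · exact c1 h1
    · exact cz0 h1
    · have := h _ pM fun w hw => mem_cen2.2 ⟨h1 ▸ hcc w hw, cz w hw⟩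
      omega
    · have h2 := cmul hcc cz
      rw [h1, mul_assoc, F.z2, mul_one] at h2
      have := h _ pM fun w hw => mem_cen2.2 ⟨h2 w hw, cz w hw⟩
      omega
    · have := small F h1 pM hcc cz
      omega
  by_cases hz : y * F.z * y⁻¹ = F.z
  · refine fin _ v8 v1' (fun h1 => vz ?_) cv'
    rw [← hz] at h1
    simpa using h1
  · exact fin _ z8 z1' hz cz'

end tu

end Cl

/-- module H3Cl -/
theorem F3.climb {G : Type*} [Group G] [Finite G] (F : F3 G) (h : Bd (centralizer ({F.u, F.z} : Set G)) 512) :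
    Bd (⊤ : Subgroup G) 2048 ∧ ((∀ K : Subgroup G, K.index ≠ 2) → Bd (⊤ : Subgroup G) 1024) := by
  obtain ⟨S, hS, hS0, h128, Sz⟩ := Cl.exists_S F
  rcases Cl.top F h hS hS0 h128 Sz with h1 | ⟨h1, v, hv, v2, v1, vz, clv, vt⟩
  · exact ⟨Bd_of_syl hS (by omega), fun _ => Bd_of_syl hS h1⟩
  · exact ⟨Bd_of_syl hS h1, fun hG => Bd_of_syl hS (Cl.transfer F h hS hS0 Sz hv v2 v1 vz clv vt hG)⟩

end Cfsg.Agent.WA.H3
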