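import Cfsg.Agent.WA.H3De3
import Cfsg.Agent.WA.H3T

/-! Module H3De of S3139: type delta. -/

set_option autoImplicit false
set_option maxRecDepth 100000

namespace Cfsg.Agent.WA.H3

open Subgroup

namespace De

variable {G : Type*} [Group G] (F : F4 G)

theorem τz : F.τ * F.z = F.z * F.τ := by
  have a : Commute F.τ F.a := F.τa
  have s : Commute F.τ F.s := F.τs
  rw [← F.asas]
  exact (((a.mul_right s).mul_right a).mul_right s).eq

theorem cx {q r : G} (h : F.τ * q = q * F.τ) (e : cg F.x q = r) : F.σ * r = r * F.σ := by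
  have := congrArg (cg F.x) h
  rwa [cg_mul, cg_mul, e, show cg F.x F.τ = F.σ from F.hσ] at this

theorem xz' : cg F.x F.z = F.z := cg_iff.2 F.xz
theorem xt' : cg F.x F.t = F.t := cg_iff.2 F.tx.symm
theorem σz : Commute F.σ F.z := cx F (τz F) (xz' F)
theorem σs : Commute F.σ F.s := cx F F.τa F.hs
theorem σa : Commute F.σ F.a := by
  have h : Commute F.σ (F.a * F.z) := cx F F.τs F.s_x
  simpa [mul_assoc, F.z2] using h.mul_right (σz F)
theorem σu : Commute F.σ F.u := by
  have h : Commute F.σ (F.u * F.z) := cx F F.τu F.u_x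
  simpa [mul_assoc, F.z2] using h.mul_right (σz F)
theorem σ2 : F.σ * F.σ = 1 := by
  have := congrArg (cg F.x) F.τ2
  rwa [cg_mul, cg_one, show cg F.x F.τ = F.σ from F.hσ] at this
theorem tτ : F.t * F.τ = F.τ * F.t * F.u := by
  rw [mul_assoc, ← F.τt]; group
theorem tσ : F.t * F.σ = F.σ * F.t * (F.u * F.z) := by
  have := congrArg (cg F.x) (tτ F)
  rwa [cg_mul, cg_mul, cg_mul, xt' F, show cg F.x F.τ = F.σ from F.hσ, show cg F.x F.u = _ from F.u_x] at this

/-- a pair `y, q` with `y² = q`, inverted by `t`, may be replaced by `y q`. -/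
structure Gd (y q : G) : Prop where
  sq : y * y = q
  q2 : q * q = 1
  py : F.p * y = y * F.p
  sy : F.s * y = y * F.s
  ty : F.t * y = y ^ 3 * F.t

theorem Gd.cube {y q : G} (h : Gd F y q) : Gd F (y * q) q := by
  have e : y * q = y ^ 3 := by rw [← h.sq]; simp only [pow_succ, pow_zero, one_mul, mul_assoc]
  have c : Commute y q := by rw [← h.sq]; exact (Commute.refl y).mul_right (Commute.refl y)
  refine ⟨?_, h.q2, ?_, ?_, ?_⟩
  · rw [mul_assoc, ← mul_assoc q, ← c.eq, mul_assoc, h.q2, mul_one, h.sq]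
  · rw [e]; exact (Commute.pow_right h.py 3).eq
  · rw [e]; exact (Commute.pow_right h.sy 3).eq
  · rw [e]; exact (SemiconjBy.pow_right h.ty 3).eq

theorem gd1 (h : F.De) : Gd F (F.τ * F.t) F.u := by
  have sq : F.τ * F.t * (F.τ * F.t) = F.u := by
    rw [mul_assoc, ← mul_assoc F.t, tτ F, ← mul_assoc, ← mul_assoc, ← mul_assoc, F.τ2, one_mul, F.tu, mul_assoc,
      F.t2, mul_one]
  refine ⟨sq, F.u2, h.2.2.1, ?_, ?_⟩
  · rw [← mul_assoc, ← F.τs, mul_assoc, ← F.ts, mul_assoc]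
  · rw [pow_succ, pow_two, sq, mul_assoc, mul_assoc, F.t2, mul_one, ← mul_assoc, tτ F, mul_assoc, mul_assoc,
      ← F.tu, ← mul_assoc F.t, F.t2, one_mul, F.τu]

theorem gd2 (h : F.De) : Gd F (F.σ * F.t) (F.u * F.z) := by
  have c : Commute F.t (F.u * F.z) := Commute.mul_right F.tu F.tz
  have sq : F.σ * F.t * (F.σ * F.t) = F.u * F.z := by
    rw [mul_assoc, ← mul_assoc F.t, tσ F, mul_assoc (F.σ * F.t), ← c.eq, mul_assoc F.σ, ← mul_assoc F.t, F.t2, one_mul,
      ← mul_assoc, σ2 F, one_mul]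
  refine ⟨sq, ?_, h.2.2.2, ?_, ?_⟩
  · rw [mul_assoc, ← mul_assoc F.z, ← F.uz, mul_assoc, F.z2, mul_one, F.u2]
  · rw [← mul_assoc, ← (σs F).eq, mul_assoc, ← F.ts, mul_assoc]
  · rw [pow_succ, pow_two, sq, mul_assoc, mul_assoc, mul_assoc, F.t2, mul_one, ← mul_assoc, tσ F, mul_assoc,
      ← c.eq, mul_assoc, ← mul_assoc F.t, F.t2, one_mul, ((σu F).mul_right (σz F)).eq, mul_assoc]

theorem y12 (h : F.De) : Commute (F.τ * F.t) (F.σ * F.t) := by
  have c : Commute F.t (F.u * F.z) := Commute.mul_right F.tu F.tz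
  show _ = _
  rw [mul_assoc, ← mul_assoc F.t, tσ F, mul_assoc (F.σ * F.t), ← c.eq, mul_assoc F.σ, ← mul_assoc F.t, F.t2, one_mul,
    mul_assoc F.σ, ← mul_assoc F.t, tτ F, mul_assoc (F.τ * F.t), ← F.tu, mul_assoc F.τ, ← mul_assoc F.t, F.t2, one_mul,
    ← mul_assoc, h.1, F.uz, mul_assoc, ← mul_assoc F.z, F.z2, one_mul, mul_assoc]

theorem τσ : F.τ * F.σ = (F.τ * F.t) * (F.σ * F.t * (F.u * F.z)) := by
  rw [← tσ F, mul_assoc, ← mul_assoc F.t, F.t2, one_mul]

end De

open De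

theorem De.exists_rel {G : Type*} [Group G] [Finite G] (F : F4 G) (h : F.De) :
    ∃ y w : G, De.Rel F.p y w F.s F.t ∧ y * y = F.u ∧ w * w = F.u * F.z ∧
      (y = F.τ * F.t ∨ y = F.τ * F.t * F.u) ∧ (w = F.σ * F.t ∨ w = F.σ * F.t * (F.u * F.z)) := by
  have g1 := gd1 F h
  have g2 := gd2 F h
  have p2 : F.p * F.p = F.a := h.2.1
  have c12 := y12 F h
  have cu1 : Commute (F.τ * F.t) F.u := Commute.mul_left F.τu F.tu
  have cz1 : Commute (F.τ * F.t) F.z := Commute.mul_left (τz F) F.tz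
  have cu2 : Commute (F.σ * F.t) F.u := Commute.mul_left (σu F) F.tu
  have cz2 : Commute (F.σ * F.t) F.z := Commute.mul_left (σz F) F.tz
  have ca1 : Commute (F.τ * F.t) F.a := Commute.mul_left F.τa F.ta
  have ca2 : Commute (F.σ * F.t) F.a := Commute.mul_left (σa F) F.ta
  have uz : Commute F.u F.z := F.uz
  have mk : ∀ y w : G, Gd F y F.u → Gd F w (F.u * F.z) → Commute y w → Commute y F.a → Commute w F.a →
      F.s * F.p * F.s = F.p * (y * w * F.a) → De.Rel F.p y w F.s F.t := fun y w a b c d e hs => by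
    refine ⟨a.py, b.py, c, ?_, ?_, ?_, F.s2, F.t2, F.ts.symm, ?_, a.sy, b.sy, ?_, a.ty, b.ty⟩
    · rw [show F.p ^ 4 = F.p * F.p * (F.p * F.p) by simp only [pow_succ, pow_zero, one_mul, mul_assoc], p2, F.a2]
    · rw [show y ^ 4 = y * y * (y * y) by simp only [pow_succ, pow_zero, one_mul, mul_assoc], a.sq, a.q2]
    · rw [show w ^ 4 = w * w * (w * w) by simp only [pow_succ, pow_zero, one_mul, mul_assoc], b.sq, b.q2]
    · rw [show F.s * F.p = F.s * F.p * F.s * F.s by rw [mul_assoc, F.s2, mul_one], hs, (d.mul_left e).eq, ← p2]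
      simp only [pow_succ, pow_zero, one_mul, mul_assoc]
    · rw [show F.p ^ 3 = F.p * (F.p * F.p) by simp only [pow_succ, pow_zero, one_mul, mul_assoc], p2, mul_assoc, ← F.ta, ← F.pt]
      simp only [mul_assoc, mul_inv_cancel_left]
  obtain ⟨v, hv, hs⟩ := F.ps
  rw [mul_assoc F.p, mul_assoc F.p, τσ F] at hs
  generalize F.τ * F.t = y at *
  generalize F.σ * F.t = w at *
  have bad : ∀ v : G, Commute v F.s → Commute v y → Commute v w → Commute v F.u → Commute v F.z → v * v = 1 →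
      F.s * F.p * F.s ≠ F.p * (y * (w * (F.u * F.z)) * v) := fun v a b c d e v2 hs => by
    have sy : Commute F.s y := g1.sy
    have sw : Commute F.s w := g2.sy
    have su : Commute F.s F.u := F.us.symm
    have sz : Commute F.s F.z := F.sz
    have cs : Commute F.s (y * (w * (F.u * F.z)) * v) := (sy.mul_right (sw.mul_right (su.mul_right sz))).mul_right a.symm
    have e1 : F.p = F.p * ((y * (w * (F.u * F.z)) * v) * (y * (w * (F.u * F.z)) * v)) := by
      rw [← mul_assoc, ← hs, mul_assoc, cs.eq, ← mul_assoc, mul_assoc F.s, ← hs, ← mul_assoc, ← mul_assoc, F.s2,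
        one_mul, mul_assoc, F.s2, mul_one]
    have c1 : Commute (y * (w * (F.u * F.z))) v := (b.mul_right (c.mul_right (d.mul_right e))).symm
    have c2 : Commute y (w * (F.u * F.z)) := c12.mul_right (cu1.mul_right cz1)
    rw [← pow_two, c1.mul_pow, c2.mul_pow, pow_two, pow_two, pow_two, v2, g1.sq, g2.cube.sq, mul_one, ← mul_assoc F.u,
      F.u2, one_mul] at e1
    exact F.z_ne (by simpa using e1)
  have us : Commute F.u F.s := F.us
  have zs : Commute F.z F.s := F.sz.symm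
  rcases U.mem_cl3 F.u2 F.z2 F.a2 F.uz F.au.symm F.az.symm hv with rfl | rfl | rfl | rfl | rfl | rfl | rfl | rfl
  · exact absurd hs (bad _ (by simp) (by simp) (by simp) (by simp) (by simp) (by simp))
  · refine ⟨y, w * (F.u * F.z), mk _ _ g1 g2.cube (c12.mul_right (cu1.mul_right cz1)) ca1
      (ca2.mul_left (Commute.mul_left F.au.symm F.az.symm)) hs, g1.sq, g2.cube.sq, Or.inl rfl, Or.inr rfl⟩
  · exact absurd hs (bad _ zs cz1.symm cz2.symm uz.symm (Commute.refl _) F.z2)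
  · refine ⟨y * F.u, w, mk _ _ g1.cube g2 (c12.mul_left cu2.symm) (ca1.mul_left F.au.symm) ca2 ?_, g1.cube.sq, g2.sq,
      Or.inr rfl, Or.inl rfl⟩
    rw [hs]
    simp only [mul_assoc]
    rw [← mul_assoc F.z, F.z2, one_mul, ← mul_assoc w, cu2.eq, mul_assoc]
  · exact absurd hs (bad _ us cu1.symm cu2.symm (Commute.refl _) uz F.u2)
  · refine ⟨y * F.u, w * (F.u * F.z), mk _ _ g1.cube g2.cube
      ((c12.mul_left cu2.symm).mul_right ((cu1.mul_left (Commute.refl _)).mul_right (cz1.mul_left uz)))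
      (ca1.mul_left F.au.symm) (ca2.mul_left (Commute.mul_left F.au.symm F.az.symm)) ?_, g1.cube.sq, g2.cube.sq,
      Or.inr rfl, Or.inr rfl⟩
    rw [hs]
    simp only [mul_assoc]
    rw [← mul_assoc F.z, ← uz.eq, ← mul_assoc F.u w, ← cu2.eq]
    simp only [mul_assoc]
  · exact absurd hs (bad _ (us.mul_left zs) (cu1.mul_right cz1).symm (cu2.mul_right cz2).symm
      ((Commute.refl _).mul_left uz.symm) (uz.mul_left (Commute.refl _)) g2.q2)
  · refine ⟨y, w, mk _ _ g1 g2 c12 ca1 ca2 ?_, g1.sq, g2.sq, Or.inl rfl, Or.inl rfl⟩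
    rw [hs, mul_assoc y, mul_assoc w, ← mul_assoc (F.u * F.z), g2.q2, one_mul, mul_assoc]

/-- module H3De -/
theorem F4.delta {G : Type*} [Group G] [Finite G] (F : F4 G) (h : F.De) :
    Bd (centralizer ({F.u, F.z} : Set G)) 512 := by
  obtain ⟨y, w, R, y2, w2, hy, hw⟩ := De.exists_rel F h
  have f2 : ff F.p y w F.s F.t 2 = F.a := by rw [Rel.ff2, pow_two, h.2.1]
  have f8 : ff F.p y w F.s F.t 8 = F.u := by rw [Rel.ff8, pow_two, y2]
  have f40 : ff F.p y w F.s F.t 40 = F.z := by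
    rw [Rel.ff40, pow_two, pow_two, y2, w2, ← mul_assoc, F.u2, one_mul]
  have f192 : ff F.p y w F.s F.t 192 = F.t * F.s := by
    rw [← k_c.2.2.2.2.2.1, R.ff_mul, Rel.ff128, Rel.ff64]
  have mt : F.t ∈ R.W := ⟨128, by norm_num, Rel.ff128⟩
  have ms : F.s ∈ R.W := ⟨64, by norm_num, Rel.ff64⟩
  have mp : F.p ∈ R.W := ⟨1, by norm_num, Rel.ff1⟩
  have my : y ∈ R.W := ⟨4, by norm_num, Rel.ff4⟩
  have mw : w ∈ R.W := ⟨16, by norm_num, Rel.ff16⟩
  have ma : F.a ∈ R.W := ⟨2, by norm_num, f2⟩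
  have mu' : F.u ∈ R.W := ⟨8, by norm_num, f8⟩
  have mz : F.z ∈ R.W := ⟨40, by norm_num, f40⟩
  have eW : closure ({F.t, F.u, F.a, F.s, F.τ, F.σ, F.p} : Set G) = R.W := by
    set K := closure ({F.t, F.u, F.a, F.s, F.τ, F.σ, F.p} : Set G)
    have kt : F.t ∈ K := subset_closure (by simp)
    have ku : F.u ∈ K := subset_closure (by simp)
    have ka : F.a ∈ K := subset_closure (by simp)
    have ks : F.s ∈ K := subset_closure (by simp)
    have kz : F.z ∈ K := F.asas ▸ mul_mem (mul_mem (mul_mem ka ks) ka) ks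
    have k1 : F.τ * F.t ∈ K := mul_mem (subset_closure (by simp)) kt
    have k2 : F.σ * F.t ∈ K := mul_mem (subset_closure (by simp)) kt
    refine le_antisymm ((closure_le _).2 ?_) (R.W_le (subset_closure (by simp)) ?_ ?_ ks kt)
    · rintro _ (rfl | rfl | rfl | rfl | rfl | rfl | rfl)
      exacts [mt, mu', ma, ms, by
        rcases hy with rfl | rfl
        · simpa using mul_mem my (inv_mem mt)
        · simpa using mul_mem (mul_mem my (inv_mem mu')) (inv_mem mt), by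
        rcases hw with rfl | rfl
        · simpa using mul_mem mw (inv_mem mt)
        · have := mul_mem (mul_mem mw (inv_mem (mul_mem mu' mz))) (inv_mem mt)
          rwa [mul_inv_cancel_right, mul_inv_cancel_right] at this, mp]
    · rcases hy with rfl | rfl
      exacts [k1, mul_mem k1 ku]
    · rcases hw with rfl | rfl
      exacts [k2, mul_mem k2 (mul_mem ku kz)]
  have hc : Nat.card R.W = 256 := eW ▸ F.cardW
  have hW : IsPGroup 2 R.W := eW ▸ F.pW
  have e8 : R.Eg F.u 0 0 0 := ⟨8, k_e.2.2.1, f8⟩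
  have e40 : R.Eg F.z 0 0 0 := ⟨40, k_e.2.2.2.1, f40⟩
  have ey : R.Eg y 1 0 0 := ⟨4, by decide, Rel.ff4⟩
  have ew : R.Eg w 0 1 0 := ⟨16, by decide, Rel.ff16⟩
  have e1 : R.Eg (F.τ * F.t) 1 0 0 := by
    rcases hy with rfl | rfl
    · exact ey
    · have := ey.mul e8
      rwa [mul_assoc _ F.u F.u, F.u2, mul_one] at this
  have e2 : R.Eg (F.σ * F.t) 0 1 0 := by
    rcases hw with rfl | rfl
    · exact ew
    · have := ew.mul (e8.mul e40)
      rwa [mul_assoc _ (F.u * F.z) (F.u * F.z), (gd2 F h).q2, mul_one] at this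
  have x1 : cg F.x (F.τ * F.t) = F.σ * F.t := by rw [cg_mul, xt' F, show cg F.x F.τ = F.σ from F.hσ]
  have x2 : cg F.x (F.σ * F.t) = F.τ * F.t := by
    rw [← x1, ← cg_cg, ← pow_two, ← F.sa_eq]
    exact cg_iff.2 (Commute.mul_left (Commute.mul_right F.τs.symm F.ts.symm) (Commute.mul_right F.τa.symm F.ta.symm))
  have xu : cg F.x F.u = F.u * F.z := F.u_x
  have := R.top hc hW (x := F.x) (by
      rw [f192, f8, f40]
      refine F.toF3.bdc ?_ (Commute.mul_left F.tu F.us.symm) (Commute.mul_left F.tz F.sz)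
      refine U.isConj_of (g := F.p * F.x) ?_
      show cg _ _ = _
      rw [cg_cg, show cg F.p F.t = _ from F.pt, cg_mul, xt' F, show cg F.x F.a = F.s from F.hs])
    (by rw [f8, f2, f40]; exact F.bN) (by rw [f8, f2, f40]; exact F.NE)
    (fun X hX hWX g hg h1 h2 => by
      have c0 : closure ({F.t, F.u, F.a, F.s} : Set G) ≤ R.W :=
        (closure_le _).2 (by rintro _ (rfl | rfl | rfl | rfl); exacts [mt, mu', ma, ms])
      rw [f8] at h2
      refine c0 (U.mem_of_Bd F.bU hX (c0.trans hWX) ((closure_le _).2 ?_) F.toF2.c0.2.1.ge hg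
        (U.mem_cen2.2 ⟨cg_iff.1 h1, cg_iff.1 h2⟩))
      rintro _ (rfl | rfl | rfl | rfl)
      exacts [U.mem_cen2.2 ⟨rfl, F.tu⟩, U.mem_cen2.2 ⟨F.tu.symm, rfl⟩, U.mem_cen2.2 ⟨F.ta.symm, F.au⟩,
        U.mem_cen2.2 ⟨F.ts.symm, F.us.symm⟩])
    (by rw [f8, f40, xu]) (by rw [f40, xz' F]) (xt' F) (by rw [f2, f40]; exact F.s_x)
    (by
      rcases hy with rfl | rfl
      · rw [x1]; exact e2
      · rw [cg_mul, x1, xu]; exact e2.mul (e8.mul e40))
    (by
      rcases hw with rfl | rfl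
      · rw [x2]; exact e1
      · rw [cg_mul, x2, cg_mul, xu, xz' F]; exact e1.mul ((e8.mul e40).mul e40))
  rw [f8, f40] at this
  exact fun P h1 h2 => (this P h1 h2).trans (by norm_num)

end Cfsg.Agent.WA.H3
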