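import Cfsg.Agent.WA.H3Def

/-! Coordinates for the group `Z₄³ ⋊ ⟨s, t⟩` of order 256 (type delta of S3139). -/

set_option autoImplicit false
set_option synthInstance.maxSize 8192
set_option maxRecDepth 100000

namespace Cfsg.Agent.WA.H3.De

open Subgroup

variable {G : Type*} [Group G]

structure Rel (p y w s t : G) : Prop where
  py : p * y = y * p
  pw : p * w = w * p
  yw : y * w = w * y
  p4 : p ^ 4 = 1
  y4 : y ^ 4 = 1
  w4 : w ^ 4 = 1
  s2 : s * s = 1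
  t2 : t * t = 1
  st : s * t = t * s
  sp : s * p = p ^ 3 * y * w * s
  sy : s * y = y * s
  sw : s * w = w * s
  tp : t * p = p ^ 3 * t
  ty : t * y = y ^ 3 * t
  tw : t * w = w ^ 3 * t

def enc (i j k l m : ℕ) : ℕ := i % 4 + 4 * (j % 4) + 16 * (k % 4) + 64 * (l % 2) + 128 * (m % 2)

def mu (x y : ℕ) : ℕ :=
  enc (x % 4 + (1 + 2 * (x / 64 % 2)) * ((1 + 2 * (x / 128 % 2)) * (y % 4)))
    (x / 4 % 4 + (x / 64 % 2 * ((1 + 2 * (x / 128 % 2)) * (y % 4)) + (1 + 2 * (x / 128 % 2)) * (y / 4 % 4)))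
    (x / 16 % 4 + (x / 64 % 2 * ((1 + 2 * (x / 128 % 2)) * (y % 4)) + (1 + 2 * (x / 128 % 2)) * (y / 16 % 4)))
    (x / 64 % 2 + y / 64 % 2) (x / 128 % 2 + y / 128 % 2)

theorem mu_lt (x y : ℕ) : mu x y < 256 := by unfold mu enc; omega

def pi (p y w : G) (i j k : ℕ) : G := p ^ i * y ^ j * w ^ k

def ff (p y w s t : G) (n : ℕ) : G :=
  pi p y w (n % 4) (n / 4 % 4) (n / 16 % 4) * s ^ (n / 64 % 2) * t ^ (n / 128 % 2)

theorem pow_mod' {g : G} {n : ℕ} (h : g ^ n = 1) (i : ℕ) : g ^ (i % n) = g ^ i := by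
  conv_rhs => rw [← Nat.div_add_mod i n, pow_add, pow_mul, h, one_pow, one_mul]

namespace Rel

variable {p y w s t : G} (R : Rel p y w s t)
include R

theorem pi_add (i j k i' j' k' : ℕ) :
    pi p y w i j k * pi p y w i' j' k' = pi p y w (i + i') (j + j') (k + k') := by
  have a : Commute p y := R.py
  have b : Commute p w := R.pw
  have c : Commute y w := R.yw
  simp only [pi, pow_add, mul_assoc]
  congr 1
  rw [← mul_assoc (w ^ k), ← (b.pow_pow i' k).eq, mul_assoc, ← mul_assoc (y ^ j), ← (a.pow_pow i' j).eq, mul_assoc]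
  congr 2
  rw [← mul_assoc, ← (c.pow_pow j' k).eq, mul_assoc]

theorem s_pi (i j k : ℕ) : s * pi p y w i j k = pi p y w (3 * i) (i + j) (i + k) * s := by
  have a : Commute p y := R.py
  have b : Commute p w := R.pw
  have c : Commute y w := R.yw
  have h1 : SemiconjBy s (p ^ i) ((p ^ 3 * y * w) ^ i) := SemiconjBy.pow_right R.sp i
  have h2 : SemiconjBy s (y ^ j) (y ^ j) := SemiconjBy.pow_right R.sy j
  have h3 : SemiconjBy s (w ^ k) (w ^ k) := SemiconjBy.pow_right R.sw k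
  have e : (p ^ 3 * y * w) ^ i = pi p y w (3 * i) i i := by
    rw [((b.pow_left 3).mul_left c).mul_pow, (a.pow_left 3).mul_pow, ← pow_mul, pi]
  have := ((h1.mul_right h2).mul_right h3).eq
  rw [e] at this
  rw [pi, this, ← add_zero (3 * i), ← R.pi_add, add_zero]
  simp only [pi, pow_zero, one_mul, mul_assoc]

theorem t_pi (i j k : ℕ) : t * pi p y w i j k = pi p y w (3 * i) (3 * j) (3 * k) * t := by
  have h1 : SemiconjBy t (p ^ i) ((p ^ 3) ^ i) := SemiconjBy.pow_right R.tp i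
  have h2 : SemiconjBy t (y ^ j) ((y ^ 3) ^ j) := SemiconjBy.pow_right R.ty j
  have h3 : SemiconjBy t (w ^ k) ((w ^ 3) ^ k) := SemiconjBy.pow_right R.tw k
  have := ((h1.mul_right h2).mul_right h3).eq
  simp only [← pow_mul] at this
  exact this

theorem ff_enc (i j k l m : ℕ) : ff p y w s t (enc i j k l m) = pi p y w i j k * s ^ l * t ^ m := by
  have e1 : enc i j k l m % 4 = i % 4 := by unfold enc; omega
  have e2 : enc i j k l m / 4 % 4 = j % 4 := by unfold enc; omega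
  have e3 : enc i j k l m / 16 % 4 = k % 4 := by unfold enc; omega
  have e4 : enc i j k l m / 64 % 2 = l % 2 := by unfold enc; omega
  have e5 : enc i j k l m / 128 % 2 = m % 2 := by unfold enc; omega
  rw [ff, e1, e2, e3, e4, e5, pi, pi, pow_mod' R.p4, pow_mod' R.y4, pow_mod' R.w4,
    pow_mod' (by rw [pow_two, R.s2]), pow_mod' (by rw [pow_two, R.t2])]

theorem act (l m i j k : ℕ) (hl : l < 2) (hm : m < 2) : s ^ l * t ^ m * pi p y w i j k =
    pi p y w ((1 + 2 * l) * ((1 + 2 * m) * i)) (l * ((1 + 2 * m) * i) + (1 + 2 * m) * j)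
      (l * ((1 + 2 * m) * i) + (1 + 2 * m) * k) * s ^ l * t ^ m := by
  have h1 : t ^ m * pi p y w i j k = pi p y w ((1 + 2 * m) * i) ((1 + 2 * m) * j) ((1 + 2 * m) * k) * t ^ m := by
    interval_cases m
    · simp
    · simpa using R.t_pi i j k
  rw [mul_assoc, h1, ← mul_assoc]
  congr 1
  interval_cases l
  · simp
  · simpa using R.s_pi _ _ _

theorem ff_mul (a b : ℕ) : ff p y w s t (mu a b) = ff p y w s t a * ff p y w s t b := by
  have c : Commute s t := R.st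
  rw [mu, R.ff_enc, ← R.pi_add, ff, ff, pow_add, pow_add]
  have := R.act (a / 64 % 2) (a / 128 % 2) (b % 4) (b / 4 % 4) (b / 16 % 4) (by omega) (by omega)
  calc _ = pi p y w (a % 4) (a / 4 % 4) (a / 16 % 4) * (pi p y w _ _ _ * s ^ (a / 64 % 2) * t ^ (a / 128 % 2)) *
        s ^ (b / 64 % 2) * t ^ (b / 128 % 2) := by
          simp only [mul_assoc]
          congr 3
          rw [← mul_assoc, ← mul_assoc, (c.pow_pow _ _).eq]
    _ = _ := by rw [← this]; simp only [mul_assoc]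

omit R in
theorem ff0 : ff p y w s t 0 = 1 := by simp [ff, pi]
omit R in
theorem ff1 : ff p y w s t 1 = p := by simp [ff, pi]
omit R in
theorem ff2 : ff p y w s t 2 = p ^ 2 := by simp [ff, pi]
omit R in
theorem ff4 : ff p y w s t 4 = y := by simp [ff, pi]
omit R in
theorem ff8 : ff p y w s t 8 = y ^ 2 := by simp [ff, pi]
omit R in
theorem ff16 : ff p y w s t 16 = w := by simp [ff, pi]
omit R in
theorem ff32 : ff p y w s t 32 = w ^ 2 := by simp [ff, pi]
omit R in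
theorem ff40 : ff p y w s t 40 = y ^ 2 * w ^ 2 := by simp [ff, pi]
omit R in
theorem ff64 : ff p y w s t 64 = s := by simp [ff, pi]
omit R in
theorem ff128 : ff p y w s t 128 = t := by simp [ff, pi]

omit R in
theorem inv_code : ∀ a < 256, ∃ b < 256, mu a b = 0 := by decide +kernel

/-- the subgroup of coded elements -/
def W : Subgroup G where
  carrier := {g | ∃ c < 256, ff p y w s t c = g}
  one_mem' := ⟨0, by norm_num, ff0⟩
  mul_mem' := by
    rintro _ _ ⟨a, -, rfl⟩ ⟨b, -, rfl⟩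
    exact ⟨mu a b, mu_lt a b, R.ff_mul a b⟩
  inv_mem' := by
    rintro _ ⟨a, ha, rfl⟩
    obtain ⟨b, hb, e⟩ := inv_code a ha
    refine ⟨b, hb, eq_inv_of_mul_eq_one_right ?_⟩
    rw [← R.ff_mul, e, ff0]

theorem mem_W {g : G} : g ∈ R.W ↔ ∃ c < 256, ff p y w s t c = g := Iff.rfl

theorem W_le {K : Subgroup G} (hp : p ∈ K) (hy : y ∈ K) (hw : w ∈ K) (hs : s ∈ K) (ht : t ∈ K) : R.W ≤ K := by
  rintro _ ⟨c, -, rfl⟩
  exact K.mul_mem (K.mul_mem (K.mul_mem (K.mul_mem (K.pow_mem hp _) (K.pow_mem hy _)) (K.pow_mem hw _))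
    (K.pow_mem hs _)) (K.pow_mem ht _)

theorem inj (h : Nat.card R.W = 256) {a b : ℕ} (ha : a < 256) (hb : b < 256)
    (e : ff p y w s t a = ff p y w s t b) : a = b := by
  let φ : Fin 256 → R.W := fun c => ⟨ff p y w s t c, c, c.2, rfl⟩
  have hs : Function.Surjective φ := by
    rintro ⟨_, c, hc, rfl⟩
    exact ⟨⟨c, hc⟩, rfl⟩
  have hb' : Function.Bijective φ := by
    refine (Nat.bijective_iff_surjective_and_card φ).2 ⟨hs, ?_⟩
    rw [h]; simp
  have := hb'.1 (a₁ := ⟨a, ha⟩) (a₂ := ⟨b, hb⟩) (Subtype.ext e)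
  exact congrArg Fin.val this

end Rel

/-! code facts -/

def v1 (c : ℕ) : Prop := c = 4 ∨ c = 12 ∨ c = 36 ∨ c = 44
def v2 (c : ℕ) : Prop := c = 16 ∨ c = 24 ∨ c = 48 ∨ c = 56
instance v1dec (c : ℕ) : Decidable (v1 c) := by unfold v1; infer_instance
instance v2dec (c : ℕ) : Decidable (v2 c) := by unfold v2; infer_instance

theorem k_y : ∀ c < 256, mu c c = 8 → mu c 1 = mu 1 c ∨ mu c 1 = mu 1 (mu c 8) →
    mu c 64 = mu 64 c ∨ mu c 64 = mu 64 (mu c 8) → mu c 128 = mu 128 c ∨ mu c 128 = mu 128 (mu c 8) →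
    mu c 16 = mu 16 c ∨ mu c 16 = mu 16 (mu c 8) → v1 c := by decide +kernel

theorem k_w : ∀ c < 256, mu c c = 32 → mu c 1 = mu 1 c ∨ mu c 1 = mu 1 (mu c 32) →
    mu c 64 = mu 64 c ∨ mu c 64 = mu 64 (mu c 32) → mu c 128 = mu 128 c ∨ mu c 128 = mu 128 (mu c 32) →
    mu c 4 = mu 4 c ∨ mu c 4 = mu 4 (mu c 32) → v2 c := by decide +kernel

theorem k_M : ∀ c < 256, v1 c → ∀ d < 256, mu c d = mu d c → d < 128 := by decide +kernel

theorem k_ps : ∀ c < 128, ∀ d < 128, mu (mu c c) d ≠ mu d (mu c c) →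
    c < 64 ∧ c % 2 = 1 ∧ 64 ≤ d ∧ mu (mu c c) d = mu (mu d (mu c c)) 40 := by decide +kernel

theorem k_t : ∀ c < 64, c % 2 = 1 → ∀ d < 256, mu c (mu d c) = d → d / 64 = 2 := by decide +kernel

theorem k_s : ∀ d < 128, 64 ≤ d → mu d d = 0 → ∃ b < 64, mu d b = mu b 64 ∨ mu d b = mu b 72 := by
  decide +kernel

theorem k_ts : ∀ d < 256, d / 64 = 2 → mu d 64 = mu 64 d ∨ mu d 72 = mu 72 d → d % 4 = 0 := by
  decide +kernel

/-- `El c b₁ b₂ m`: even `p`-exponent, no `s`, parities `b₁, b₂`, `t`-exponent `m`. -/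
def El (c b1 b2 m : ℕ) : Prop := c < 256 ∧ c % 2 = 0 ∧ c / 64 % 2 = 0 ∧ c / 4 % 2 = b1 ∧ c / 16 % 2 = b2 ∧ c / 128 = m
instance Eldec (c b1 b2 m : ℕ) : Decidable (El c b1 b2 m) := by unfold El; infer_instance

theorem k_mul : ∀ c < 256, c % 2 = 0 → c / 64 % 2 = 0 → ∀ d < 256, d % 2 = 0 → d / 64 % 2 = 0 →
    El (mu c d) ((c / 4 % 2 + d / 4 % 2) % 2) ((c / 16 % 2 + d / 16 % 2) % 2) ((c / 128 + d / 128) % 2) := by
  decide +kernel

theorem k_sq : ∀ c < 64, El (mu c c) 0 0 0 := by decide +kernel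

theorem k_00 : ∀ d < 256, El d 0 0 1 → d % 4 = 0 → ∃ b < 64, mu d b = mu b 128 := by decide +kernel

theorem k_11 : ∀ d < 256, El d 1 1 1 → d % 4 = 0 → (∃ b < 64, mu (mu d 64) b = mu b 192) ∧
    ∃ b < 64, mu (mu d 72) b = mu b 192 := by decide +kernel

theorem k_W : ∀ b < 256, ∃ d < 256, mu 128 b = mu b d ∧ El d 0 0 1 := by decide +kernel

theorem k_cnt : ((Finset.range 256).filter fun c => mu c 192 = mu 192 c).card = 32 := by decide +kernel

theorem k_V : ∀ c < 256, mu c 8 = mu 8 c ∧ mu c 40 = mu 40 c := by decide +kernel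

theorem k_E : ∀ b ∈ [1, 4, 16, 64, 128], ∀ c < 256, c % 2 = 0 → c / 64 % 2 = 0 → ∃ d < 256, mu c b = mu b d ∧
    (c < 128 → c / 4 % 2 = 0 → c / 16 % 2 = 0 → El d 0 0 0) ∧
    (128 ≤ c → El d (c / 4 % 2) (c / 16 % 2) 1) := by decide +kernel

theorem k_F : ∀ d < 256, El d (d / 4 % 2) (d / 16 % 2) 1 → ∀ c < 256, El c (d / 4 % 2) (d / 16 % 2) 1 →
    ∃ e < 256, El e 0 0 0 ∧ c = mu e d := by decide +kernel

theorem k_F0 : ∀ c < 256, El c 0 0 0 → c = 0 ∨ c = 2 ∨ c = 8 ∨ c = mu 2 8 ∨ c = 40 ∨ c = mu 2 40 ∨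
    c = mu 8 40 ∨ c = mu 2 (mu 8 40) := by decide +kernel

end Cfsg.Agent.WA.H3.De
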