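import Cfsg.Agent.WA.H3De1

/-! Action of `N(W) ∩ C(u)` on the coded group (type delta of S3139). -/

set_option autoImplicit false
set_option synthInstance.maxSize 8192
set_option maxRecDepth 100000

namespace Cfsg.Agent.WA.H3.De

open Subgroup

variable {G : Type*} [Group G]

def cg (g x : G) : G := g⁻¹ * x * g

theorem cg_mul (g x y : G) : cg g (x * y) = cg g x * cg g y := by unfold cg; group
theorem cg_one (g : G) : cg g 1 = 1 := by unfold cg; group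
theorem cg_cg (g h x : G) : cg (g * h) x = cg h (cg g x) := by unfold cg; group
theorem cg_pow (g x : G) (n : ℕ) : cg g (x ^ n) = cg g x ^ n := by
  induction n with
  | zero => simp [cg_one]
  | succ n ih => rw [pow_succ, cg_mul, ih, pow_succ]
theorem cg_inj {g x y : G} (h : cg g x = cg g y) : x = y := by
  unfold cg at h; exact mul_left_cancel (mul_right_cancel h)
theorem cg_of {g x y : G} (h : x * g = g * y) : cg g x = y := by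
  unfold cg; rw [mul_assoc, h]; group
theorem cg_iff {g x : G} : cg g x = x ↔ g * x = x * g := by
  unfold cg
  refine ⟨fun h => ?_, fun h => by rw [mul_assoc, ← h]; group⟩
  calc g * x = g * (g⁻¹ * x * g) := by rw [h]
    _ = x * g := by group
theorem cg_mem {K : Subgroup G} {g x : G} (hg : g ∈ normalizer (K : Set G)) (hx : x ∈ K) : cg g x ∈ K := by
  have := (mem_normalizer_iff.1 (inv_mem hg) x).1 hx
  simpa [cg] using this
theorem cg_surj {K : Subgroup G} {g x : G} (hg : g ∈ normalizer (K : Set G)) (hx : x ∈ K) :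
    ∃ y ∈ K, cg g y = x := ⟨cg g⁻¹ x, cg_mem (inv_mem hg) hx, by unfold cg; group⟩

theorem k_y0 : ∀ d < 256, (mu 4 d = mu d 4 ∨ mu 4 d = mu d (mu 4 8)) ∧
    (mu 16 d = mu d 16 ∨ mu 16 d = mu d (mu 16 32)) := by decide +kernel

theorem k_c : mu 4 4 = 8 ∧ mu 16 16 = 32 ∧ mu 1 1 = 2 ∧ mu 8 40 = 32 ∧ mu 64 8 = 72 ∧ mu 128 64 = 192 ∧
    mu 2 64 ≠ mu 64 2 ∧ mu 2 64 = mu (mu 64 2) 40 := by decide +kernel

theorem k_v : ∀ c < 256, (v1 c → El c 1 0 0) ∧ (v2 c → El c 0 1 0) := by decide +kernel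

namespace Rel

variable {p y w s t : G} (R : Rel p y w s t) (hc : Nat.card R.W = 256)

local notation "𝐟" => ff p y w s t

theorem fW {c : ℕ} (h : c < 256) : 𝐟 c ∈ R.W := ⟨c, h, rfl⟩

include hc

theorem mu_eq {a b c d : ℕ} (e : 𝐟 a * 𝐟 b = 𝐟 c * 𝐟 d) : mu a b = mu c d :=
  R.inj hc (mu_lt _ _) (mu_lt _ _) (by rw [R.ff_mul, R.ff_mul, e])

theorem side {g : G} (hg : g ∈ normalizer (R.W : Set G)) {a v c : ℕ} (hv : cg g (𝐟 v) = 𝐟 v)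
    (ha : cg g (𝐟 a) = 𝐟 c) (h : ∀ d < 256, mu a d = mu d a ∨ mu a d = mu d (mu a v)) {q : ℕ} (hq : q < 256) :
    mu c q = mu q c ∨ mu c q = mu q (mu c v) := by
  obtain ⟨_, ⟨d, hd, rfl⟩, e⟩ := cg_surj hg (R.fW hq)
  rcases h d hd with h | h
  · left
    have := congrArg (fun n => cg g (𝐟 n)) h
    simp only [R.ff_mul, cg_mul, e, ha] at this
    exact R.mu_eq hc this
  · right
    have := congrArg (fun n => cg g (𝐟 n)) h
    simp only [R.ff_mul, cg_mul, e, ha, hv] at this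
    exact R.mu_eq hc (by rw [this, R.ff_mul])

theorem img {g : G} (hg : g ∈ normalizer (R.W : Set G)) (hu : cg g (𝐟 8) = 𝐟 8) :
    cg g (𝐟 40) = 𝐟 40 ∧ (∃ c < 256, v1 c ∧ cg g (𝐟 4) = 𝐟 c) ∧ (∃ c < 256, v2 c ∧ cg g (𝐟 16) = 𝐟 c) ∧
    (∃ c < 64, cg g (𝐟 1) = 𝐟 c) ∧ (∃ c < 128, 64 ≤ c ∧ mu c c = 0 ∧ cg g (𝐟 64) = 𝐟 c) ∧
    ∃ c < 256, c / 64 = 2 ∧ cg g (𝐟 128) = 𝐟 c := by
  have cd : ∀ a < 256, ∃ c < 256, cg g (𝐟 a) = 𝐟 c := fun a ha => by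
    obtain ⟨c, h1, h2⟩ := cg_mem hg (R.fW ha)
    exact ⟨c, h1, h2.symm⟩
  have tr : ∀ {a b c d a' b' c' d' : ℕ}, mu a b = mu c d → cg g (𝐟 a) = 𝐟 a' → cg g (𝐟 b) = 𝐟 b' →
      cg g (𝐟 c) = 𝐟 c' → cg g (𝐟 d) = 𝐟 d' → mu a' b' = mu c' d' := fun h h1 h2 h3 h4 => by
    have := congrArg (fun n => cg g (𝐟 n)) h
    simp only [R.ff_mul, cg_mul, h1, h2, h3, h4] at this
    exact R.mu_eq hc this
  have mm : ∀ {a b a' b' : ℕ}, cg g (𝐟 a) = 𝐟 a' → cg g (𝐟 b) = 𝐟 b' → cg g (𝐟 (mu a b)) = 𝐟 (mu a' b') :=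
    fun h1 h2 => by rw [R.ff_mul, R.ff_mul, cg_mul, h1, h2]
  obtain ⟨k1, k2, k3, k4, k5, k6, k7, k8⟩ := k_c
  obtain ⟨cy, ly, ey⟩ := cd 4 (by norm_num)
  obtain ⟨cw, lw, ew⟩ := cd 16 (by norm_num)
  obtain ⟨cp, lp, ep⟩ := cd 1 (by norm_num)
  obtain ⟨cs, ls, es⟩ := cd 64 (by norm_num)
  obtain ⟨ct, lt, et⟩ := cd 128 (by norm_num)
  have s1 := fun q hq => R.side hc hg hu ey (fun d hd => (k_y0 d hd).1) (q := q) hq
  have hy : v1 cy := by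
    refine k_y cy ly ?_ (s1 _ (by norm_num)) (s1 _ (by norm_num)) (s1 _ (by norm_num)) (s1 _ (by norm_num))
    have := mm ey ey
    rw [k1, hu] at this
    exact (R.inj hc (by norm_num) (mu_lt _ _) this).symm
  have lp' := k_M cy ly hy cp lp (tr (a := 4) (b := 1) (c := 1) (d := 4) (by decide +kernel) ey ep ep ey)
  have ls' := k_M cy ly hy cs ls (tr (a := 4) (b := 64) (c := 64) (d := 4) (by decide +kernel) ey es es ey)
  have ea := mm ep ep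
  rw [k3] at ea
  have ne : mu (mu cp cp) cs ≠ mu cs (mu cp cp) := fun h => k7 (R.mu_eq hc (cg_inj (g := g) (by
    rw [cg_mul, cg_mul, ea, es, ← R.ff_mul, ← R.ff_mul, h])))
  obtain ⟨p1, p2, p3, p4⟩ := k_ps cp lp' cs ls' ne
  have hz : cg g (𝐟 40) = 𝐟 40 := by
    have a := congrArg (fun n => cg g (𝐟 n)) k8
    have b := congrArg (fun n => 𝐟 n) p4
    simp only [R.ff_mul, cg_mul, ea, es] at a b
    rw [a] at b
    exact mul_left_cancel b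
  have h32 : cg g (𝐟 32) = 𝐟 32 := by rw [← k4]; exact mm hu hz
  have s2 := fun q hq => R.side hc hg h32 ew (fun d hd => (k_y0 d hd).2) (q := q) hq
  have hw : v2 cw := by
    refine k_w cw lw ?_ (s2 _ (by norm_num)) (s2 _ (by norm_num)) (s2 _ (by norm_num)) (s2 _ (by norm_num))
    have := mm ew ew
    rw [k2, h32] at this
    exact (R.inj hc (by norm_num) (mu_lt _ _) this).symm
  refine ⟨hz, ⟨cy, ly, hy, ey⟩, ⟨cw, lw, hw, ew⟩, ⟨cp, p1, ep⟩, ⟨cs, ls', p3, ?_, es⟩, ct, lt, ?_, et⟩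
  · have := mm es es
    rw [show mu 64 64 = 0 by decide +kernel, ff0, cg_one, ← ff0 (p := p) (y := y) (w := w) (s := s) (t := t)] at this
    exact (R.inj hc (by norm_num) (mu_lt _ _) this).symm
  · refine k_t cp p1 p2 ct lt ?_
    have := mm ep (mm et ep)
    rw [show mu 1 (mu 128 1) = 128 by decide +kernel, et] at this
    exact (R.inj hc lt (mu_lt _ _) this).symm

omit hc

/-- `g` is coded with parities. -/
def Eg (_ : Rel p y w s t) (g : G) (b1 b2 m : ℕ) : Prop := ∃ c, El c b1 b2 m ∧ 𝐟 c = g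

theorem Eg.mul {R : Rel p y w s t} {g h : G} {b1 b2 m c1 c2 n : ℕ} (a : R.Eg g b1 b2 m) (b : R.Eg h c1 c2 n) :
    R.Eg (g * h) ((b1 + c1) % 2) ((b2 + c2) % 2) ((m + n) % 2) := by
  obtain ⟨c, ⟨a1, a2, a3, rfl, rfl, rfl⟩, rfl⟩ := a
  obtain ⟨d, ⟨b1, b2, b3, rfl, rfl, rfl⟩, rfl⟩ := b
  exact ⟨mu c d, k_mul c a1 a2 a3 d b1 b2 b3, R.ff_mul _ _⟩

theorem Eg.pow {R : Rel p y w s t} {g : G} {b1 b2 : ℕ} (a : R.Eg g b1 b2 0) (n : ℕ) :
    R.Eg (g ^ n) (n * b1 % 2) (n * b2 % 2) 0 := by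
  induction n with
  | zero => exact ⟨0, by simp only [zero_mul]; decide, by rw [ff0, pow_zero]⟩
  | succ n ih =>
    have := ih.mul a
    rw [← pow_succ] at this
    convert this using 1 <;> simp [add_mul]

theorem Eg.uniq {R : Rel p y w s t} (hc : Nat.card R.W = 256) {g : G} {b1 b2 m c1 c2 n : ℕ} (a : R.Eg g b1 b2 m)
    (b : R.Eg g c1 c2 n) : b1 = c1 ∧ b2 = c2 ∧ m = n := by
  obtain ⟨c, ⟨a1, -, -, rfl, rfl, rfl⟩, e⟩ := a
  obtain ⟨d, ⟨b1, -, -, rfl, rfl, rfl⟩, e'⟩ := b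
  obtain rfl := R.inj hc a1 b1 (e.trans e'.symm)
  exact ⟨rfl, rfl, rfl⟩

/-- transport of parities by a map given on generators -/
theorem Eg.trans {R : Rel p y w s t} {h g : G} {b1 b2 c1 c2 d1 d2 e1 e2 : ℕ} (a : R.Eg g b1 b2 1)
    (hp : R.Eg (cg h (p ^ 2)) 0 0 0) (hy : R.Eg (cg h y) d1 d2 0) (hw : R.Eg (cg h w) e1 e2 0)
    (ht : R.Eg (cg h t) c1 c2 1) :
    R.Eg (cg h g) ((b1 * d1 + b2 * e1 + c1) % 2) ((b1 * d2 + b2 * e2 + c2) % 2) 1 := by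
  obtain ⟨c, ⟨a1, a2, a3, rfl, rfl, a6⟩, rfl⟩ := a
  have e : 𝐟 c = (p ^ 2) ^ (c % 4 / 2) * y ^ (c / 4 % 4) * w ^ (c / 16 % 4) * t := by
    rw [ff, pi, a3, show c / 128 % 2 = 1 by omega, ← pow_mul, show 2 * (c % 4 / 2) = c % 4 by omega]
    simp
  rw [e, cg_mul, cg_mul, cg_mul, cg_pow, cg_pow h y, cg_pow h w]
  have := (((hp.pow (c % 4 / 2)).mul (hy.pow (c / 4 % 4))).mul (hw.pow (c / 16 % 4))).mul ht
  convert this using 1
  · have h1 : c / 4 % 4 % 2 = c / 4 % 2 := by omega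
    have h2 : c / 16 % 4 % 2 = c / 16 % 2 := by omega
    simp only [mul_zero, Nat.zero_mod, zero_add, Nat.mod_mod, Nat.add_mod_mod, Nat.mod_add_mod]
    rw [Nat.add_mod, Nat.add_mod (_ * d1), Nat.mul_mod _ d1, Nat.mul_mod _ e1, Nat.add_mod (_ * d1 + _),
      Nat.add_mod (c / 4 % 4 * d1), Nat.mul_mod (c / 4 % 4), Nat.mul_mod (c / 16 % 4), h1, h2]
    simp
  · have h1 : c / 4 % 4 % 2 = c / 4 % 2 := by omega
    have h2 : c / 16 % 4 % 2 = c / 16 % 2 := by omega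
    simp only [mul_zero, Nat.zero_mod, zero_add, Nat.mod_mod, Nat.add_mod_mod, Nat.mod_add_mod]
    rw [Nat.add_mod, Nat.add_mod (_ * d2), Nat.mul_mod _ d2, Nat.mul_mod _ e2, Nat.add_mod (_ * d2 + _),
      Nat.add_mod (c / 4 % 4 * d2), Nat.mul_mod (c / 4 % 4), Nat.mul_mod (c / 16 % 4), h1, h2]
    simp

include hc

theorem ty_mul {h g : G} (hh : h ∈ normalizer (R.W : Set G)) (hu : cg h (𝐟 8) = 𝐟 8) {b1 b2 c1 c2 : ℕ}
    (a : R.Eg (cg g t) b1 b2 1) (b : R.Eg (cg h t) c1 c2 1) :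
    R.Eg (cg (g * h) t) ((b1 + c1) % 2) ((b2 + c2) % 2) 1 := by
  obtain ⟨-, ⟨cy, ly, hy, ey⟩, ⟨cw, lw, hw, ew⟩, ⟨cp, lp, ep⟩, -⟩ := R.img hc hh hu
  rw [ff4] at ey
  rw [ff16] at ew
  rw [ff1] at ep
  have := a.trans (h := h) ⟨mu cp cp, k_sq cp lp, by rw [R.ff_mul, pow_two, cg_mul, ep]⟩
    ⟨cy, (k_v cy ly).1 hy, ey.symm⟩ ⟨cw, (k_v cw lw).2 hw, ew.symm⟩ b
  rw [cg_cg]
  simpa using this

omit hc in
theorem ty_W {g : G} (hg : g ∈ R.W) : R.Eg (cg g t) 0 0 1 := by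
  obtain ⟨b, hb, rfl⟩ := hg
  obtain ⟨d, -, e, h⟩ := k_W b hb
  refine ⟨d, h, (cg_of ?_).symm⟩
  have := congrArg (fun n => 𝐟 n) e
  simpa only [R.ff_mul, ff128] using this

omit hc in
theorem fixV {g : G} (hg : g ∈ R.W) : cg g (𝐟 8) = 𝐟 8 ∧ cg g (𝐟 40) = 𝐟 40 := by
  obtain ⟨b, hb, rfl⟩ := hg
  exact ⟨cg_iff.2 (by rw [← R.ff_mul, ← R.ff_mul, (k_V b hb).1]),
    cg_iff.2 (by rw [← R.ff_mul, ← R.ff_mul, (k_V b hb).2])⟩

/-- adjusting by an element of `P` -/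
theorem adj {g : G} (hg : g ∈ normalizer (R.W : Set G)) (hu : cg g (𝐟 8) = 𝐟 8) :
    ∃ β ∈ R.W, (cg (g * β) s = 𝐟 64 ∨ cg (g * β) s = 𝐟 72) ∧
      ∃ c, c % 4 = 0 ∧ El c (c / 4 % 2) (c / 16 % 2) 1 ∧ 𝐟 c = cg (g * β) t := by
  obtain ⟨-, -, -, -, ⟨cs, l1, l2, l3, es⟩, -⟩ := R.img hc hg hu
  obtain ⟨b, hb, h⟩ := k_s cs l1 l2 l3
  have hβ : 𝐟 b ∈ R.W := R.fW (by omega)
  have h1 : cg (g * 𝐟 b) s = 𝐟 64 ∨ cg (g * 𝐟 b) s = 𝐟 72 := by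
    rw [ff64] at es
    rw [cg_cg, es]
    exact h.imp (fun h => cg_of (by rw [← R.ff_mul, h, R.ff_mul])) fun h => cg_of (by rw [← R.ff_mul, h, R.ff_mul])
  refine ⟨𝐟 b, hβ, h1, ?_⟩
  obtain ⟨-, -, -, -, -, c, lc, hc2, ec⟩ := R.img hc (mul_mem hg (le_normalizer hβ))
    (by rw [cg_cg, hu, (R.fixV hβ).1])
  rw [ff128] at ec
  have st := congrArg (cg (g * 𝐟 b)) R.st
  rw [cg_mul, cg_mul, ec] at st
  have : c % 4 = 0 := k_ts c lc hc2 (h1.imp (fun h => R.mu_eq hc (by rw [← h, st])) fun h => R.mu_eq hc (by rw [← h, st]))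
  exact ⟨c, this, ⟨lc, by omega, by omega, rfl, rfl, by omega⟩, ec.symm⟩

end Rel

end Cfsg.Agent.WA.H3.De
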