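import Cfsg.Agent.WA.H3De2
import Cfsg.Agent.WA.H3U
import Cfsg.Agent.WA.H3U5

/-! The two fusion lemmas and the Sylow argument (type delta of S3139). -/

set_option autoImplicit false
set_option synthInstance.maxSize 8192
set_option maxRecDepth 100000

namespace Cfsg.Agent.WA.H3.De

open Subgroup

variable {G : Type*} [Group G] [Finite G]

instance factTwoDe : Fact (Nat.Prime 2) := ⟨Nat.prime_two⟩

theorem k_inv : ∀ c < 256, El c 0 0 0 ∨ El c (c / 4 % 2) (c / 16 % 2) 1 → mu c c = 0 := by decide +kernel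

theorem k_e : El 0 0 0 0 ∧ El 2 0 0 0 ∧ El 8 0 0 0 ∧ El 40 0 0 0 ∧ El 128 0 0 1 := by decide +kernel

namespace Rel

variable {p y w s t : G} (R : Rel p y w s t) (hc : Nat.card R.W = 256)

local notation "𝐟" => ff p y w s t

include hc

theorem card_ts : 32 ≤ Nat.card ↥(R.W ⊓ centralizer ({𝐟 192} : Set G)) := by
  classical
  rw [← k_cnt, ← Nat.card_eq_finsetCard]
  refine Nat.card_le_card_of_injective (fun c => ⟨𝐟 c.1, R.fW (by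
    have := c.2; simp only [Finset.mem_filter, Finset.mem_range] at this; exact this.1), by
    have := c.2
    simp only [Finset.mem_filter, Finset.mem_range] at this
    exact U.mem_cen1.2 (by rw [← R.ff_mul, ← R.ff_mul, this.2])⟩) fun c d e => ?_
  have h1 := c.2
  have h2 := d.2
  simp only [Finset.mem_filter, Finset.mem_range] at h1 h2
  exact Subtype.ext (R.inj hc h1.1 h2.1 (congrArg Subtype.val e))

theorem noA (hW : IsPGroup 2 R.W) (hbd : Bd (centralizer ({𝐟 192, 𝐟 8, 𝐟 40} : Set G)) 32) {g : G}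
    (hg : g ∈ normalizer (R.W : Set G)) (hu : cg g (𝐟 8) = 𝐟 8) (h : R.Eg (cg g t) 1 1 1) : False := by
  obtain ⟨β, hβ, hs, c, c4, hE, ec⟩ := R.adj hc hg hu
  have a1 := R.ty_mul hc (le_normalizer hβ) (R.fixV hβ).1 h (R.ty_W hβ)
  obtain ⟨e1, e2, -⟩ := Eg.uniq hc ⟨c, hE, ec⟩ a1
  rw [e1, e2] at hE
  have : ∃ b < 64, cg (g * β * 𝐟 b) (𝐟 192) = 𝐟 192 := by
    have e : cg (g * β) (𝐟 192) = 𝐟 c * cg (g * β) s := by
      rw [← k_c.2.2.2.2.2.1, R.ff_mul, ff128, ff64, cg_mul, ec]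
    rcases hs with hs | hs
    · obtain ⟨b, hb, h⟩ := (k_11 c hE.1 hE c4).1
      exact ⟨b, hb, by rw [cg_cg, e, hs]; exact cg_of (by rw [← R.ff_mul, ← R.ff_mul, h, R.ff_mul])⟩
    · obtain ⟨b, hb, h⟩ := (k_11 c hE.1 hE c4).2
      exact ⟨b, hb, by rw [cg_cg, e, hs]; exact cg_of (by rw [← R.ff_mul, ← R.ff_mul, h, R.ff_mul])⟩
  obtain ⟨b, hb, hts⟩ := this
  have hb' : 𝐟 b ∈ R.W := R.fW (by omega)
  have a2 := R.ty_mul hc (le_normalizer hb') (R.fixV hb').1 a1 (R.ty_W hb')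
  set k := g * β * 𝐟 b with hk
  have kN : k ∈ normalizer (R.W : Set G) := mul_mem (mul_mem hg (le_normalizer hβ)) (le_normalizer hb')
  have ku : cg k (𝐟 8) = 𝐟 8 := by rw [hk, cg_cg, cg_cg, hu, (R.fixV hβ).1, (R.fixV hb').1]
  have kz := (R.img hc kN ku).1
  have kC : k ∈ centralizer ({𝐟 192, 𝐟 8, 𝐟 40} : Set G) := U.mem_cen3.2 ⟨cg_iff.1 hts, cg_iff.1 ku, cg_iff.1 kz⟩
  have od : ∀ n : ℕ, R.Eg (cg (k ^ (2 * n + 1)) t) 1 1 1 := fun n => by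
    induction n with
    | zero => simpa using a2
    | succ n ih =>
      have := R.ty_mul hc kN ku (R.ty_mul hc kN ku ih a2) a2
      rwa [← pow_succ, ← pow_succ] at this
  obtain ⟨j, m, ⟨n, rfl⟩, e⟩ := Nat.exists_eq_two_pow_mul_odd (orderOf_pos k).ne'
  have h3 : k ^ (2 * n + 1) ∉ R.W := fun h => by
    have := (Eg.uniq hc (od n) (R.ty_W h)).1
    omega
  have p3 : IsPGroup 2 (zpowers (k ^ (2 * n + 1))) := by
    refine IsPGroup.of_card (n := (orderOf (k ^ (2 * n + 1))).factorization 2) ?_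
    have : orderOf (k ^ (2 * n + 1)) ∣ 2 ^ j := orderOf_dvd_of_pow_eq_one (by
      rw [← pow_mul, mul_comm, ← e, pow_orderOf_eq_one])
    obtain ⟨i, -, ei⟩ := (Nat.dvd_prime_pow Nat.prime_two).1 this
    rw [Nat.card_zpowers, ei, Nat.Prime.factorization_pow Nat.prime_two]
    simp
  have nn : zpowers (k ^ (2 * n + 1)) ≤ normalizer ((R.W ⊓ centralizer ({𝐟 192} : Set G) : Subgroup G) : Set G) := by
    refine U.inf_le_norm (zpowers_le.2 (pow_mem kN _)) (le_trans ?_ le_normalizer)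
    exact zpowers_le.2 (pow_mem (U.mem_cen1.2 (cg_iff.1 hts)) _)
  have p4 : IsPGroup 2 ↥((R.W ⊓ centralizer ({𝐟 192} : Set G)) ⊔ zpowers (k ^ (2 * n + 1))) := by
    rw [sup_comm]
    exact IsPGroup.to_sup_of_normal_right' p3 (hW.to_inf_left) nn
  have := hbd _ p4 (sup_le (fun x hx => U.mem_cen3.2 ⟨U.mem_cen1.1 hx.2, cg_iff.1 (R.fixV hx.1).1,
    cg_iff.1 (R.fixV hx.1).2⟩) (zpowers_le.2 (pow_mem kC _)))
  have h5 := U.two_mul_le (le_sup_left (a := R.W ⊓ centralizer ({𝐟 192} : Set G)) (b := zpowers (k ^ (2 * n + 1))))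
    (mem_sup_right (mem_zpowers _)) (fun h => h3 h.1)
  have := R.card_ts hc
  omega

omit hc [Finite G] in
theorem E2_sub {g : G} {b1 b2 : ℕ} (hu : cg g (𝐟 8) = 𝐟 8) (hz : cg g (𝐟 40) = 𝐟 40)
    (ha : R.Eg (cg g (𝐟 2)) 0 0 0) (ht : R.Eg (cg g t) b1 b2 1) {e : G}
    (he : e ∈ closure ({t, 𝐟 8, 𝐟 2, 𝐟 40} : Set G)) : R.Eg (cg g e) 0 0 0 ∨ R.Eg (cg g e) b1 b2 1 := by
  have hb : b1 < 2 ∧ b2 < 2 := by
    obtain ⟨c, ⟨-, -, -, rfl, rfl, -⟩, -⟩ := ht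
    omega
  induction he using closure_induction with
  | mem x hx =>
    simp only [Set.mem_insert_iff, Set.mem_singleton_iff] at hx
    rcases hx with rfl | rfl | rfl | rfl
    · exact Or.inr ht
    · exact Or.inl ⟨8, k_e.2.2.1, hu.symm⟩
    · exact Or.inl ha
    · exact Or.inl ⟨40, k_e.2.2.2.1, hz.symm⟩
  | one => exact Or.inl ⟨0, k_e.1, by rw [ff0, cg_one]⟩
  | mul x y _ _ h1 h2 =>
    rw [cg_mul]
    rcases h1 with h1 | h1 <;> rcases h2 with h2 | h2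
    · exact Or.inl (h1.mul h2)
    · exact Or.inr (by convert h1.mul h2 using 1 <;> omega)
    · exact Or.inr (by convert h1.mul h2 using 1 <;> omega)
    · exact Or.inl (by convert h1.mul h2 using 1 <;> omega)
  | inv x _ h =>
    have : cg g x * cg g x = 1 := by
      rcases h with ⟨c, h, e⟩ | ⟨c, h, e⟩
      · rw [← e, ← R.ff_mul, k_inv c h.1 (Or.inl h), ff0]
      · rw [← e, ← R.ff_mul, k_inv c h.1 (Or.inr (by obtain ⟨a, b, c, rfl, rfl, d⟩ := h; exact ⟨a, b, c, rfl, rfl, d⟩)), ff0]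
    rw [← cg_mul, ← cg_one g] at this
    rwa [U.inv_eq (cg_inj this)]

omit hc in
theorem normE2 {g : G} {b1 b2 : ℕ} (hu : cg g (𝐟 8) = 𝐟 8) (hz : cg g (𝐟 40) = 𝐟 40)
    (ha : ∃ v ∈ closure ({𝐟 8, 𝐟 40} : Set G), R.Eg v 0 0 0 ∧ cg g (𝐟 2) = 𝐟 2 * v) (ht : R.Eg (cg g t) b1 b2 1) :
    R.W ≤ normalizer ((H8.cj g⁻¹ (closure ({t, 𝐟 8, 𝐟 2, 𝐟 40} : Set G)) : Subgroup G) : Set G) := by
  obtain ⟨v, hv, hv', ha⟩ := ha
  set E2 := H8.cj g⁻¹ (closure ({t, 𝐟 8, 𝐟 2, 𝐟 40} : Set G)) with hE2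
  have m : ∀ e ∈ closure ({t, 𝐟 8, 𝐟 2, 𝐟 40} : Set G), cg g e ∈ E2 := fun e he => by
    have := H8.conj_mem_cj g⁻¹ he
    rwa [inv_inv] at this
  have m8 : 𝐟 8 ∈ E2 := hu ▸ m _ (subset_closure (by simp))
  have m40 : 𝐟 40 ∈ E2 := hz ▸ m _ (subset_closure (by simp))
  have m2 : 𝐟 2 ∈ E2 := by
    have h1 := m (𝐟 2) (subset_closure (by simp))
    have h2 : v ∈ E2 := (closure_le _).2 (by rintro _ (rfl | rfl); exacts [m8, m40]) hv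
    rw [ha] at h1
    simpa using mul_mem h1 (inv_mem h2)
  have i0 : ∀ x, R.Eg x 0 0 0 → x ∈ E2 := by
    rintro _ ⟨c, h, rfl⟩
    rcases k_F0 c h.1 h with rfl | rfl | rfl | rfl | rfl | rfl | rfl | rfl <;> try rw [R.ff_mul]
    · rw [ff0]; exact one_mem _
    · exact m2
    · exact m8
    · exact mul_mem m2 m8
    · exact m40
    · exact mul_mem m2 m40
    · exact mul_mem m8 m40
    · rw [R.ff_mul]; exact mul_mem m2 (mul_mem m8 m40)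
  have i1 : ∀ x, R.Eg x b1 b2 1 → x ∈ E2 := by
    rintro _ ⟨c, h, rfl⟩
    obtain ⟨d, ⟨a1, a2, a3, rfl, rfl, a6⟩, ed⟩ := ht
    obtain ⟨e, -, he, rfl⟩ := k_F d a1 ⟨a1, a2, a3, rfl, rfl, a6⟩ c h.1 h
    rw [R.ff_mul, ed]
    exact mul_mem (i0 _ ⟨e, he, rfl⟩) (m _ (subset_closure (by simp)))
  have gen : ∀ b ∈ [1, 4, 16, 64, 128], 𝐟 b ∈ normalizer (E2 : Set G) := fun b hb => U.mem_norm fun x hx => by
    have hx' : cg g⁻¹ x ∈ closure ({t, 𝐟 8, 𝐟 2, 𝐟 40} : Set G) := H8.mem_cj.1 hx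
    have := R.E2_sub hu hz (by rw [ha]; exact Eg.mul ⟨2, k_e.2.1, rfl⟩ hv') ht hx'
    rw [← cg_cg, inv_mul_cancel, show cg 1 x = x by simp [cg]] at this
    rcases this with ⟨c, h, rfl⟩ | ⟨c, h, rfl⟩
    · obtain ⟨d, -, e, h1, -⟩ := k_E b hb c h.1 h.2.1 h.2.2.1
      have : cg (𝐟 b) (𝐟 c) = 𝐟 d := cg_of (by rw [← R.ff_mul, e, R.ff_mul])
      exact i0 _ ⟨d, h1 (by have := h.2.2.2.2.2; omega) h.2.2.2.1 h.2.2.2.2.1, this.symm⟩
    · obtain ⟨d, -, e, -, h1⟩ := k_E b hb c h.1 h.2.1 h.2.2.1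
      have : cg (𝐟 b) (𝐟 c) = 𝐟 d := cg_of (by rw [← R.ff_mul, e, R.ff_mul])
      have h2 := h1 (by have := h.2.2.2.2.2; omega)
      rw [h.2.2.2.1, h.2.2.2.2.1] at h2
      exact i1 _ ⟨d, h2, this.symm⟩
  refine R.W_le ?_ ?_ ?_ ?_ ?_
  · simpa only [ff1] using gen 1 (by simp)
  · simpa only [ff4] using gen 4 (by simp)
  · simpa only [ff16] using gen 16 (by simp)
  · simpa only [ff64] using gen 64 (by simp)
  · simpa only [ff128] using gen 128 (by simp)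

theorem exC (hW : IsPGroup 2 R.W)
    (bN : Bd (normalizer ((closure ({t, 𝐟 8, 𝐟 2, 𝐟 40} : Set G) : Subgroup G) : Set G)) 256)
    (NE : ∀ g ∈ normalizer ((closure ({t, 𝐟 8, 𝐟 2, 𝐟 40} : Set G) : Subgroup G) : Set G), g * 𝐟 8 = 𝐟 8 * g)
    {g : G} {b1 b2 : ℕ} (hu : cg g (𝐟 8) = 𝐟 8) (hz : cg g (𝐟 40) = 𝐟 40)
    (ha : ∃ v ∈ closure ({𝐟 8, 𝐟 40} : Set G), R.Eg v 0 0 0 ∧ cg g (𝐟 2) = 𝐟 2 * v) (ht : R.Eg (cg g t) b1 b2 1) :
    ∃ h ∈ normalizer (R.W : Set G), cg h (𝐟 8) = 𝐟 8 ∧ R.Eg (cg h t) b1 b2 1 := by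
  have c1 : ∀ x : G, cg 1 x = x := fun x => by simp [cg]
  have n0 := R.normE2 (g := 1) (c1 _) (c1 _) ⟨1, one_mem _, ⟨0, k_e.1, ff0⟩, by rw [c1, mul_one]⟩
    ⟨128, k_e.2.2.2.2, by rw [c1, ff128]⟩
  rw [inv_one, H8.cj_one] at n0
  have n1 := R.normE2 hu hz ha ht
  rw [← H8.cj_normalizer] at n1
  have s0 := (bN.syl hW n0 hc.ge).cj g⁻¹
  have s1 := (bN.cj g⁻¹).syl hW n1 hc.ge
  obtain ⟨k, hk, e⟩ := s0.exists_cj_eq s1
  rw [← H8.cj_mul, H8.cj_eq_self_iff] at e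
  have hn := inv_mem (H8.mem_cj.1 hk)
  have e2 : (k * g⁻¹)⁻¹ = (g⁻¹⁻¹ * k * g⁻¹)⁻¹ * g := by group
  have hu' : cg (k * g⁻¹)⁻¹ (𝐟 8) = 𝐟 8 := by rw [e2, cg_cg, cg_iff.2 (NE _ hn), hu]
  refine ⟨_, inv_mem e, hu', ?_⟩
  obtain ⟨v, -, hv', ha⟩ := ha
  have := R.E2_sub hu hz (by rw [ha]; exact Eg.mul ⟨2, k_e.2.1, rfl⟩ hv') ht
    (cg_mem hn (subset_closure (k := {t, 𝐟 8, 𝐟 2, 𝐟 40}) (Set.mem_insert _ _)))
  rw [← cg_cg, ← e2] at this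
  rcases this with ⟨c, h, ec⟩ | h
  · obtain ⟨-, -, -, -, -, d, ld, hd, ed⟩ := R.img hc (inv_mem e) hu'
    rw [ff128] at ed
    have := R.inj hc h.1 ld (ec.trans ed)
    have := h.2.2.2.2.2
    omega
  · exact h

theorem top (hW : IsPGroup 2 R.W) (hbd : Bd (centralizer ({𝐟 192, 𝐟 8, 𝐟 40} : Set G)) 32)
    (bN : Bd (normalizer ((closure ({t, 𝐟 8, 𝐟 2, 𝐟 40} : Set G) : Subgroup G) : Set G)) 256)
    (NE : ∀ g ∈ normalizer ((closure ({t, 𝐟 8, 𝐟 2, 𝐟 40} : Set G) : Subgroup G) : Set G), g * 𝐟 8 = 𝐟 8 * g)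
    (hU : ∀ X : Subgroup G, IsPGroup 2 X → R.W ≤ X → ∀ g ∈ X, cg g t = t → cg g (𝐟 8) = 𝐟 8 → g ∈ R.W)
    {x : G} (xu : cg x (𝐟 8) = 𝐟 8 * 𝐟 40) (xz : cg x (𝐟 40) = 𝐟 40) (xt : cg x t = t)
    (xs : cg x s = 𝐟 2 * 𝐟 40) (xy : R.Eg (cg x y) 0 1 0) (xw : R.Eg (cg x w) 1 0 0) :
    Bd (centralizer ({𝐟 8, 𝐟 40} : Set G)) 256 := by
  have WC : R.W ≤ centralizer ({𝐟 8, 𝐟 40} : Set G) := fun g hg =>
    U.mem_cen2.2 ⟨cg_iff.1 (R.fixV hg).1, cg_iff.1 (R.fixV hg).2⟩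
  obtain ⟨S, hS, hWS⟩ := H8.exists_isSylowIn_ge hW WC
  refine Bd.of_syl hS (hc ▸ card_le_of_le ?_)
  by_contra hne
  obtain ⟨g, hgS, hg, hgW⟩ := U.exists_norm hS.pgroup hWS hne
  have hu : cg g (𝐟 8) = 𝐟 8 := cg_iff.2 (U.mem_cen2.1 (hS.le hgS)).1
  obtain ⟨β, hβ, hs, c, c4, hE, ec⟩ := R.adj hc hg hu
  have N1 : g * β ∈ normalizer (R.W : Set G) := mul_mem hg (le_normalizer hβ)
  have u1 : cg (g * β) (𝐟 8) = 𝐟 8 := by rw [cg_cg, hu, (R.fixV hβ).1]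
  have z1 := (R.img hc N1 u1).1
  have z2 : 𝐟 40 * 𝐟 40 = 1 := by rw [← R.ff_mul, show mu 40 40 = 0 by decide +kernel, ff0]
  have i1 : ∀ {a b : G}, cg x a = b → cg x⁻¹ b = a := fun h => by rw [← h, ← cg_cg, mul_inv_cancel]; simp [cg]
  have key : ∃ h ∈ normalizer (R.W : Set G), cg h (𝐟 8) = 𝐟 8 ∧ R.Eg (cg h t) (c / 16 % 2) (c / 4 % 2) 1 := by
    have xu' : cg x⁻¹ (𝐟 8) = 𝐟 8 * 𝐟 40 := i1 (by rw [cg_mul, xu, xz, mul_assoc, z2, mul_one])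
    have xa' : cg x⁻¹ (𝐟 2) = s * 𝐟 40 := i1 (by rw [cg_mul, xs, xz, mul_assoc, z2, mul_one])
    refine R.exC hc hW bN NE (g := x⁻¹ * (g * β) * x) ?_ ?_ ?_ ?_
    · rw [cg_cg, cg_cg, xu', cg_mul, u1, z1, cg_mul, xu, xz, mul_assoc, z2, mul_one]
    · rw [cg_cg, cg_cg, i1 xz, z1, xz]
    · rw [cg_cg, cg_cg, xa', cg_mul, z1, cg_mul, xz]
      rcases hs with hs | hs
      · refine ⟨1, one_mem _, ⟨0, k_e.1, ff0⟩, ?_⟩
        rw [hs, ff64, xs, mul_assoc, z2]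
      · refine ⟨𝐟 8 * 𝐟 40, mul_mem (subset_closure (by simp)) (subset_closure (by simp)),
          Eg.mul ⟨8, k_e.2.2.1, rfl⟩ ⟨40, k_e.2.2.2.1, rfl⟩, ?_⟩
        rw [hs, ← k_c.2.2.2.2.1, R.ff_mul, ff64, cg_mul, xs, xu]
        simp only [← R.ff_mul]
        exact congrArg _ (by decide +kernel)
    · rw [cg_cg, cg_cg, i1 xt, ← ec]
      have e : 𝐟 c = y ^ (c / 4 % 4) * w ^ (c / 16 % 4) * t := by
        rw [ff, pi, c4, hE.2.2.1, show c / 128 % 2 = 1 by have := hE.2.2.2.2.2; omega]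
        simp
      rw [e, cg_mul, cg_mul, cg_pow, cg_pow, xt]
      convert ((xy.pow (c / 4 % 4)).mul (xw.pow (c / 16 % 4))).mul ⟨128, k_e.2.2.2.2, ff128⟩ using 1 <;> omega
  obtain ⟨h, hN, hu', hh⟩ := key
  have a3 := R.ty_mul hc hN hu' (g := g * β) ⟨c, hE, ec⟩ hh
  rcases Nat.mod_two_eq_zero_or_one (c / 4) with j | j <;> rcases Nat.mod_two_eq_zero_or_one (c / 16) with k | k <;>
    rw [j, k] at hE a3
  · obtain ⟨b, hb, e⟩ := k_00 c hE.1 hE c4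
    have hb' : 𝐟 b ∈ R.W := R.fW (by omega)
    have := hU S hS.pgroup hWS (g * β * 𝐟 b) (mul_mem (mul_mem hgS (hWS hβ)) (hWS hb'))
      (by
        rw [cg_cg, ← ec]
        refine cg_of ?_
        have := congrArg (fun n => 𝐟 n) e
        simpa only [R.ff_mul, ff128] using this)
      (by rw [cg_cg, u1, (R.fixV hb').1])
    exact hgW (by simpa using mul_mem (mul_mem this (inv_mem hb')) (inv_mem hβ))
  · exact R.noA hc hW hbd (mul_mem N1 hN) (by rw [cg_cg, u1, hu']) a3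
  · exact R.noA hc hW hbd (mul_mem N1 hN) (by rw [cg_cg, u1, hu']) a3
  · exact R.noA hc hW hbd N1 u1 ⟨c, hE, ec⟩

end Rel

end Cfsg.Agent.WA.H3.De
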