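import Cfsg.Agent.WA.H3O0

/-! The three types in case 2 of S3139. -/

set_option autoImplicit false

namespace Cfsg.Agent.WA.H3

open Subgroup OV

namespace F2

section

variable {G : Type*} [Group G] (F : F2 G)

theorem swap_S0 : closure ({F.t, F.x, F.a, F.t * F.u} : Set G) = closure ({F.t, F.x, F.a, F.u} : Set G) := by
  apply le_antisymm <;> rw [closure_le] <;> rintro _ (rfl | rfl | rfl | rfl)
  · exact subset_closure (by simp)
  · exact subset_closure (by simp)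
  · exact subset_closure (by simp)
  · exact mul_mem (subset_closure (by simp)) (subset_closure (by simp))
  · exact subset_closure (by simp)
  · exact subset_closure (by simp)
  · exact subset_closure (by simp)
  · have : F.u = F.t * (F.t * F.u) := by rw [← mul_assoc, F.t2, one_mul]
    have h : F.t * (F.t * F.u) ∈ closure ({F.t, F.x, F.a, F.t * F.u} : Set G) :=
      mul_mem (subset_closure (by simp)) (subset_closure (by simp))
    rwa [← this] at h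

theorem swap_E : closure ({F.t, F.t * F.u, F.a, F.z} : Set G) = closure ({F.t, F.u, F.a, F.z} : Set G) := by
  apply le_antisymm <;> rw [closure_le] <;> rintro _ (rfl | rfl | rfl | rfl)
  · exact subset_closure (by simp)
  · exact mul_mem (subset_closure (by simp)) (subset_closure (by simp))
  · exact subset_closure (by simp)
  · exact subset_closure (by simp)
  · exact subset_closure (by simp)
  · have : F.u = F.t * (F.t * F.u) := by rw [← mul_assoc, F.t2, one_mul]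
    have h : F.t * (F.t * F.u) ∈ closure ({F.t, F.t * F.u, F.a, F.z} : Set G) :=
      mul_mem (subset_closure (by simp)) (subset_closure (by simp))
    rwa [← this] at h
  · exact subset_closure (by simp)
  · exact subset_closure (by simp)

/-- the frame with `u` replaced by `t u`. -/
def swap : F2 G where
  t := F.t
  x := F.x
  a := F.a
  u := F.t * F.u
  z := F.z
  s := F.s
  ρ := F.ρ
  f := F.f
  x4 := F.x4
  hs := F.hs
  t2 := F.t2
  a2 := F.a2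
  u2 := by rw [← F.ev_T, ← F.ev_U, ← F.ev_add]; exact F.ev_sq _
  z2 := F.z2
  ax := F.ax
  ux := by
    rw [← F.phi_T, ← F.phi_U, ← F.phi_X, ← map_pow, ← map_mul, ← map_mul, ← map_mul, F.phi_eq]; decide
  au := by rw [← F.ev_T, ← F.ev_U, ← F.ev_A, ← F.ev_add]; exact F.ev_comm _ _
  tx := F.tx
  ta := F.ta
  tu := by rw [← F.ev_T, ← F.ev_U, ← F.ev_add]; exact F.ev_comm _ _
  card0 := by rw [F.swap_S0, F.card0]
  bT := F.bT
  bU := F.bU.mono (by
    intro g hg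
    rw [mem_cen_iff] at hg ⊢
    have h1 := hg F.t (by simp)
    have h2 := hg (F.t * F.u) (by simp)
    rintro _ (rfl | rfl)
    · exact h1
    · rw [← mul_assoc, h1, mul_assoc, mul_assoc] at h2
      exact mul_left_cancel h2)
  bA := F.bA
  ρt := F.ρt
  ρu := by rw [← mul_assoc, F.ρt, mul_assoc, F.ρu, mul_assoc]
  ρz := F.ρz
  ρa := F.ρa
  nz := F.nz
  fN := by rw [F.swap_S0]; exact F.fN
  ft := F.ft
  f2 := by rw [F.swap_S0]; exact F.f2
  act := fun h ht hn => by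
    rw [F.swap_E] at hn
    obtain ⟨h1, h2⟩ := F.act h ht hn
    exact ⟨by rw [← mul_assoc, ht, mul_assoc, h1, mul_assoc], h2⟩
  fus := by
    obtain ⟨k, hk1, hk⟩ := F.fus
    exact ⟨k, hk1, by rw [mul_assoc F.t, conj_mul', hk, conj_eq_iff_comm.2 hk1]⟩

variable {F}

theorem Act.mk' {g : G} {L : OV → OV} (hg : F.Act g L) {c1 c2 c3 c4 : OV} (h1 : L T = c1) (h2 : L U = c2)
    (h3 : L A = c3) (h4 : L Z = c4) : F.Act g (lin c1 c2 c3 c4) :=
  act_of (by rw [← F.ev_T, hg, h1]) (by rw [← F.ev_U, hg, h2]) (by rw [← F.ev_A, hg, h3]) (by rw [← F.ev_Z, hg, h4])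

theorem Act.inv {g : G} {L M : OV → OV} (hg : F.Act g L) (h : ∀ v, L (M v) = v) : F.Act g⁻¹ M := fun v => by
  conv_lhs => rw [← h v, ← hg]
  group

variable (F)

theorem act_rhoi : F.Act F.ρ⁻¹ (fun v => R (R v)) := F.act_rho.inv (by decide)

variable [Finite G]

theorem exists_tau (nu : ¬ IsConj F.t F.u) (h : IsConj F.t (F.t * F.u)) : ∃ τ, F.Act τ (lin (T + U) U A Z) := by
  have e : F.ev (T + U) = F.t * F.u := by rw [F.ev_add, F.ev_T, F.ev_U]
  obtain ⟨n, hn, hnt⟩ := F.exists_norm_conj (e ▸ F.ev_mem _) h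
  obtain ⟨c1, c2, c3, c4, hN⟩ := exists_act hn
  have h1 : c1 = T + U := F.ev_eq.1 (by rw [e, ← hnt, ← F.ev_T, hN, lin_T])
  subst h1
  obtain ⟨h2, h3, h4⟩ := hN.act F.act_rho (by rw [lin_T]; decide)
  rw [lin_U] at h2
  rw [lin_A] at h3
  rw [lin_Z] at h4
  have h5 : c2 ≠ T := fun h5 => nu (by
    have := hN.conj U
    rw [lin_U, h5, F.ev_U, F.ev_T] at this
    exact this.symm)
  have h6 : ∀ v, lin (T + U) c2 c3 c4 v = lin (T + U) c2 c3 c4 0 → v = 0 := fun v hv => hN.inj hv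
  have key : ∀ c2 : OV, R c2 = c2 → c2 ≠ T → ∀ c3 c4 : OV,
      (∀ v, lin (T + U) c2 c3 c4 v = lin (T + U) c2 c3 c4 0 → v = 0) →
      (∃ w : OV, w.t = false ∧ w.u = false ∧ R c3 = lin (T + U) c2 c3 c4 w) →
      (∃ w : OV, w.t = false ∧ w.u = false ∧ R c4 = lin (T + U) c2 c3 c4 w) →
      c2 = U ∧ ((c3 = A ∧ c4 = Z) ∨ (R c3 = A ∧ R c4 = Z) ∨ (R (R c3) = A ∧ R (R c4) = Z) ∨
        (S c3 = A ∧ S c4 = Z) ∨ (S (R c3) = A ∧ S (R c4) = Z) ∨ (S (R (R c3)) = A ∧ S (R (R c4)) = Z)) := by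
    decide +kernel
  obtain ⟨rfl, h7⟩ := key c2 h2 h5 c3 c4 h6 h3 h4
  rcases h7 with ⟨rfl, rfl⟩ | ⟨h7, h8⟩ | ⟨h7, h8⟩ | ⟨h7, h8⟩ | ⟨h7, h8⟩ | ⟨h7, h8⟩
  · exact ⟨n, hN⟩
  · exact ⟨_, (hN.mul F.act_rho).mk' (by rw [lin_T]; decide) (by rw [lin_U]; decide) (by rw [lin_A, h7])
      (by rw [lin_Z, h8])⟩
  · exact ⟨_, ((hN.mul F.act_rho).mul F.act_rho).mk' (by rw [lin_T]; decide) (by rw [lin_U]; decide)
      (by rw [lin_A, h7]) (by rw [lin_Z, h8])⟩
  · exact ⟨_, (hN.mul F.act_s).mk' (by rw [lin_T]; decide) (by rw [lin_U]; decide) (by rw [lin_A, h7])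
      (by rw [lin_Z, h8])⟩
  · exact ⟨_, ((hN.mul F.act_rho).mul F.act_s).mk' (by rw [lin_T]; decide) (by rw [lin_U]; decide)
      (by rw [lin_A, h7]) (by rw [lin_Z, h8])⟩
  · exact ⟨_, (((hN.mul F.act_rho).mul F.act_rho).mul F.act_s).mk' (by rw [lin_T]; decide) (by rw [lin_U]; decide)
      (by rw [lin_A, h7]) (by rw [lin_Z, h8])⟩

theorem NE_of (nu : ¬ IsConj F.t F.u) {y0 : G} {L0 : OV → OV} (h0 : F.Act y0 L0) (h0t : L0 T = T + Z)
    (h0u : L0 U = U) : ∀ g ∈ F.NN, g * F.u = F.u * g := by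
  let P : OV → Prop := fun v => ∃ y M, F.Act y M ∧ M T = v ∧ M U = U
  have hP : ∀ v h H, P v → F.Act h H → H U = U → P (H v) := by
    rintro _ h H ⟨y, M, hy, rfl, h2⟩ hh hU
    exact ⟨_, _, hy.mul hh, rfl, by rw [h2, hU]⟩
  have p0 : P T := ⟨1, _, act_one, rfl, rfl⟩
  have p1 : P (T + Z) := ⟨_, _, h0, h0t, h0u⟩
  have pA : ∀ v : OV, v.t = true → v.u = false → P v := by
    intro v h1 h2
    have key : ∀ v : OV, v.t = true → v.u = false → v = T ∨ v = T + Z ∨ v = R (T + Z) ∨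
        v = R (R (T + Z)) := by decide
    rcases key v h1 h2 with rfl | rfl | rfl | rfl
    · exact p0
    · exact p1
    · exact hP _ _ _ p1 F.act_rho (by decide)
    · exact hP _ _ _ (hP _ _ _ p1 F.act_rho (by decide)) F.act_rho (by decide)
  intro g hg
  obtain ⟨c1, c2, c3, c4, hN⟩ := exists_act hg
  have hc : IsConj F.t (F.ev c1) := by
    have := hN.conj T
    rwa [lin_T, F.ev_T] at this
  have h1 := F.t_of_conj nu hc
  have h2 : P c1 := by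
    cases h2 : c1.u
    · exact pA _ h1 h2
    · obtain ⟨τ, hτ⟩ := F.exists_tau nu (hc.trans (F.conj_tu h1 h2).symm)
      have key : ∀ v : OV, v.t = true → v.u = true →
          (v + U).t = true ∧ (v + U).u = false ∧ lin (T + U) U A Z (v + U) = v := by decide
      obtain ⟨k1, k2, k3⟩ := key c1 h1 h2
      exact k3 ▸ hP _ _ _ (pA _ k1 k2) hτ (by decide)
  obtain ⟨y, M, hy, hyt, hyu⟩ := h2
  have h3 : g⁻¹ * F.t * g = y⁻¹ * F.t * y := by rw [← F.ev_T, hN, hy, lin_T, hyt]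
  have h4 : g * y⁻¹ * F.t = F.t * (g * y⁻¹) := conj_eq_iff_comm.1 (by rw [conj_conj, h3]; group)
  have h5 := (F.act _ h4 (mul_mem hg (inv_mem hy.norm))).1
  have h6 : y * F.u = F.u * y := F.ev_U ▸ hy.comm hyu
  calc g * F.u = g * y⁻¹ * (y * F.u) := by group
    _ = g * y⁻¹ * F.u * y := by rw [h6]; group
    _ = _ := by rw [h5]; group

theorem C0_le_M : closure ({F.t, F.u, F.a, F.s} : Set G) ≤
    (F.NN ⊓ centralizer ({F.u, F.z} : Set G)) ⊓ centralizer ({F.t} : Set G) := by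
  rw [closure_le]
  rintro _ (rfl | rfl | rfl | rfl) <;> refine ⟨⟨?_, mem_cen_iff.2 ?_⟩, mem_centralizer_singleton_iff.2 ?_⟩
  · exact le_normalizer (subset_closure (by simp))
  · rintro _ (rfl | rfl)
    exacts [F.tu, F.tz]
  · rfl
  · exact le_normalizer (subset_closure (by simp))
  · rintro _ (rfl | rfl)
    exacts [rfl, F.uz]
  · exact F.tu.symm
  · exact le_normalizer (subset_closure (by simp))
  · rintro _ (rfl | rfl)
    exacts [F.au, F.az]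
  · exact F.ta.symm
  · exact F.act_s.norm
  · rintro _ (rfl | rfl)
    exacts [F.us.symm, F.sz]
  · exact F.ts.symm

theorem big_of (nu : ¬ IsConj F.t F.u) (k1 k2 : OV) (hc : Nat.card (closure ({F.ev k1, F.ev k2} : Set G)) = 4)
    (h1 : ∀ v : OV, v.t = true → ∃ y L, F.Act y L ∧ L U = U ∧ L Z = Z ∧ L v = v + k1)
    (h2 : ∀ v : OV, v.t = true → ∃ y L, F.Act y L ∧ L U = U ∧ L Z = Z ∧ L v = v + k2) :
    ∃ P : Subgroup G, IsPGroup 2 P ∧ P ≤ centralizer ({F.u, F.z} : Set G) ∧ 128 ≤ Nat.card P := by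
  set M := F.NN ⊓ centralizer ({F.u, F.z} : Set G) with hM
  have step : ∀ k : OV, (∀ v : OV, v.t = true → ∃ y L, F.Act y L ∧ L U = U ∧ L Z = Z ∧ L v = v + k) →
      ∀ c ∈ cls M F.t, c * F.ev k ∈ cls M F.t := by
    rintro k hk _ ⟨h, hh, rfl⟩
    obtain ⟨v, hv⟩ := F.exists_ev (conj_mem_of_norm hh.1 (F.ev_T ▸ F.ev_mem T))
    obtain ⟨y, L, hy, e1, e2, e3⟩ := hk v (F.t_of_conj nu (isConj_of_eq hv.symm))
    refine ⟨h * y, mul_mem hh ⟨hy.norm, mem_cen_iff.2 ?_⟩, ?_⟩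
    · rintro _ (rfl | rfl)
      exacts [F.ev_U ▸ hy.comm e1, F.ev_Z ▸ hy.comm e2]
    · rw [conj_conj, ← hv, hy, e3, F.ev_add]
  have d4 : 4 ∣ (cls M F.t).ncard := by
    rw [← hc]
    refine card_dvd_ncard _ _ fun c hc k hk => ?_
    rcases (mem_closure_two (F.ev_sq _) (F.ev_sq _) (F.ev_comm _ _)).1 hk with rfl | rfl | rfl | rfl
    · simpa using hc
    · exact step _ h2 _ hc
    · exact step _ h1 _ hc
    · rw [← mul_assoc]; exact step _ h2 _ (step _ h1 _ hc)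
  have d32 : 32 ∣ Nat.card ↥(M ⊓ centralizer ({F.t} : Set G)) := by
    rw [← F.c0.2.1]; exact card_dvd_of_le F.C0_le_M
  have d : 2 ^ 7 ∣ Nat.card M := by
    rw [card_eq_cls M F.t]
    exact (show 2 ^ 7 = 32 * 4 from rfl) ▸ Nat.mul_dvd_mul d32 d4
  obtain ⟨P, hP, hle, hcard⟩ := exists_two_of_dvd d
  exact ⟨P, hP, hle.trans inf_le_right, hcard⟩

theorem card_A : Nat.card (closure ({F.ev A, F.ev Z} : Set G)) = 4 := by
  rw [F.ev_A, F.ev_Z, ← F.map_A, card_map_of_injective F.phi_inj, HM.card_of_mem _ _ HM.mem_A]; decide +kernel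

theorem card_V0 : Nat.card (closure ({F.ev U, F.ev Z} : Set G)) = 4 := by
  rw [F.ev_U, F.ev_Z, ← F.map_V0, card_map_of_injective F.phi_inj, HM.card_of_mem _ _ HM.mem_V0]; decide +kernel

theorem tau_facts {τ : G} (h : F.Act τ (lin (T + U) U A Z)) :
    τ * F.z = F.z * τ ∧ τ * F.a = F.a * τ ∧ τ * F.u = F.u * τ ∧ τ⁻¹ * F.t * τ = F.t * F.u :=
  ⟨F.ev_Z ▸ h.comm (lin_Z ..), F.ev_A ▸ h.comm (lin_A ..), F.ev_U ▸ h.comm (lin_U ..),
    by rw [← F.ev_T, h, lin_T, F.ev_add, F.ev_U]⟩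

theorem caseI {b : G} (ht : b⁻¹ * F.t * b = F.t * F.z) (hz : b⁻¹ * F.z * b = F.z) (hu : b⁻¹ * F.u * b = F.u)
    (ha : b⁻¹ * F.a * b = F.a) :
    ∃ F' : F3 G, (F'.Hb ∧ ¬ IsConj F'.t (F'.t * F'.u)) ∨ (F'.Hb ∧ F'.Hτ) ∨ (F'.Hτ ∧ F'.Hq) := by
  have hB : F.Act b (lin (T + Z) U A Z) :=
    act_of (by rw [ht, F.ev_add, F.ev_T, F.ev_Z]) (by rw [hu, F.ev_U]) (by rw [ha, F.ev_A]) (by rw [hz, F.ev_Z])
  have hB2 : F.Act (F.ρ⁻¹ * b * F.ρ) (lin (T + A) U A Z) :=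
    ((F.act_rhoi.mul hB).mul F.act_rho).mk' (by decide) (by decide) (by decide) (by decide)
  have nu : ¬ IsConj F.t F.u := by
    intro h
    obtain ⟨n, hn, hnt⟩ := F.exists_norm_conj (F.ev_U ▸ F.ev_mem U) h
    obtain ⟨c1, c2, c3, c4, hN⟩ := exists_act hn
    have h1 : c1 = U := F.ev_eq.1 (by rw [F.ev_U, ← hnt, ← F.ev_T, hN, lin_T])
    subst h1
    obtain ⟨h2, h3, h4⟩ := hN.act hB (by rw [lin_T]; decide)
    obtain ⟨-, h5, h6⟩ := hN.act hB2 (by rw [lin_T]; decide)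
    rw [lin_U] at h2
    rw [lin_A] at h3 h5
    rw [lin_Z] at h4 h6
    have h7 : ∀ v, lin U c2 c3 c4 v = lin U c2 c3 c4 0 → v = 0 := fun v hv => hN.inj hv
    have key : ∀ c2 : OV, lin (T + Z) U A Z c2 = c2 → ∀ c3 c4 : OV,
        (∀ v, lin U c2 c3 c4 v = lin U c2 c3 c4 0 → v = 0) →
        (∃ w : OV, w.t = false ∧ w.u = false ∧ lin (T + Z) U A Z c3 = lin U c2 c3 c4 w) →
        (∃ w : OV, w.t = false ∧ w.u = false ∧ lin (T + Z) U A Z c4 = lin U c2 c3 c4 w) →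
        (∃ w : OV, w.t = false ∧ w.u = false ∧ lin (T + A) U A Z c3 = lin U c2 c3 c4 w) →
        ¬ (∃ w : OV, w.t = false ∧ w.u = false ∧ lin (T + A) U A Z c4 = lin U c2 c3 c4 w) := by
      decide +kernel
    exact key c2 h2 c3 c4 h7 h3 h4 h5 h6
  have hbig := F.big_of nu A Z F.card_A
    (fun v hv => ⟨_, _, hB2, by decide, by decide, by revert v; decide⟩)
    (fun v hv => ⟨_, _, hB, by decide, by decide, by revert v; decide⟩)
  let F' : F3 G := { F with nu := nu, NE := F.NE_of nu hB (by decide) (by decide), big := hbig }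
  have Hb : F'.Hb := ⟨b, conj_eq_iff_comm.1 hz, conj_eq_iff_comm.1 ha, conj_eq_iff_comm.1 hu, ht⟩
  by_cases h : IsConj F.t (F.t * F.u)
  · obtain ⟨τ, hτ⟩ := F.exists_tau nu h
    exact ⟨F', Or.inr (Or.inl ⟨Hb, τ, F.tau_facts hτ⟩)⟩
  · exact ⟨F', Or.inl ⟨Hb, h⟩⟩

theorem caseII {q : G} (ht : q⁻¹ * F.t * q = F.t * F.z) (hz : q⁻¹ * F.z * q = F.z)
    (hu : q⁻¹ * F.u * q = F.u ∨ q⁻¹ * F.u * q = F.u * F.z) (ha : q⁻¹ * F.a * q = F.a * F.u) :
    ∃ F' : F3 G, (F'.Hb ∧ ¬ IsConj F'.t (F'.t * F'.u)) ∨ (F'.Hb ∧ F'.Hτ) ∨ (F'.Hτ ∧ F'.Hq) := by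
  have nu : ¬ IsConj F.t F.u := fun h => F.nz (by
    have h1 := F.conj_u (v := A + U) (by decide) (by decide)
    rw [F.ev_add, F.ev_A, F.ev_U] at h1
    exact ((h.trans h1).trans (isConj_of_eq ha).symm).trans (isConj_of_eq F.ρz).symm)
  have htu : IsConj F.t (F.t * F.u) := by
    have h1 := F.conj_t (v := T + A) (by decide) (by decide)
    have h2 := F.conj_tu (v := (T + Z) + (A + U)) (by decide) (by decide)
    rw [F.ev_add, F.ev_T, F.ev_A] at h1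
    rw [F.ev_add, F.ev_add, F.ev_add, F.ev_T, F.ev_A, F.ev_U, F.ev_Z, ← ht, ← ha, ← conj_mul'] at h2
    exact (h1.trans (isConj_of_eq rfl)).trans h2.symm
  obtain ⟨τ, hτ⟩ := F.exists_tau nu htu
  rcases hu with hu | hu
  · have hQ : F.Act q (lin (T + Z) U (A + U) Z) :=
      act_of (by rw [ht, F.ev_add, F.ev_T, F.ev_Z]) (by rw [hu, F.ev_U]) (by rw [ha, F.ev_add, F.ev_A, F.ev_U])
        (by rw [hz, F.ev_Z])
    have hbig := F.big_of nu U Z F.card_V0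
      (fun v hv => ⟨_, _, hτ, by decide, by decide, by revert v; decide⟩)
      (fun v hv => by
        cases hva : v.a
        · exact ⟨_, _, hQ, by decide, by decide, by revert v; decide⟩
        · exact ⟨_, _, hQ.mul hτ, by decide, by decide, by revert v; decide⟩)
    let F' : F3 G := { F with nu := nu, NE := F.NE_of nu hQ (by decide) (by decide), big := hbig }
    exact ⟨F', Or.inr (Or.inr ⟨⟨τ, F.tau_facts hτ⟩, q, conj_eq_iff_comm.1 hz, ha, conj_eq_iff_comm.1 hu, ht⟩)⟩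
  · have hQ : F.Act q (lin (T + Z) (U + Z) (A + U) Z) :=
      act_of (by rw [ht, F.ev_add, F.ev_T, F.ev_Z]) (by rw [hu, F.ev_add, F.ev_U, F.ev_Z])
        (by rw [ha, F.ev_add, F.ev_A, F.ev_U]) (by rw [hz, F.ev_Z])
    have := (((((hQ.mul hτ).mul hQ).mul hτ).mul hQ).act1 (by decide)).1
    exact absurd this (by decide)

theorem exists_f0 : ∃ f ∈ F.NN, f ∈ normalizer ((closure ({F.t, F.x, F.a, F.u} : Set G) : Subgroup G) : Set G) ∧
    f⁻¹ * F.t * f = F.t * F.z ∧ f * f ∈ closure ({F.t, F.x, F.a, F.u} : Set G) := by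
  have hx : F.x ∈ closure ({F.t, F.x, F.a, F.u} : Set G) := subset_closure (by simp)
  have h1 : H8.cj F.f F.EE ≤ closure ({F.t, F.x, F.a, F.u} : Set G) := H8.cj_le_of_mem_normalizer F.fN F.E_le
  have h2 : ∀ y ∈ H8.cj F.f F.EE, y * y = 1 := fun y hy => by
    have := F.E_sq (H8.mem_cj.1 hy)
    rw [← conj_mul'] at this
    calc y * y = F.f * (F.f⁻¹ * (y * y) * F.f) * F.f⁻¹ := by group
      _ = 1 := by rw [this]; group
  rcases F.e16 h1 h2 (by rw [H8.card_cj, F.c0.2.2.1]) with h3 | h3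
  · exact ⟨F.f, H8.cj_eq_self_iff.1 h3, F.fN, F.ft, F.f2⟩
  · refine ⟨F.x * F.f, H8.cj_eq_self_iff.1 (by rw [H8.cj_mul, h3, F.cj_x]), mul_mem (le_normalizer hx) F.fN, ?_, ?_⟩
    · rw [conj_conj, conj_eq_iff_comm.2 F.tx.symm, F.ft]
    · have := mul_mem (mul_mem hx (conj_mem_of_norm' F.fN hx)) F.f2
      have e : F.x * F.f * (F.x * F.f) = F.x * (F.f * F.x * F.f⁻¹) * (F.f * F.f) := by group
      rwa [e]

theorem exists_g : ∃ g : G, g⁻¹ * F.t * g = F.t * F.z ∧ g⁻¹ * F.z * g = F.z ∧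
    (g⁻¹ * F.u * g = F.u ∨ g⁻¹ * F.u * g = F.u * F.z) ∧
    (g⁻¹ * F.a * g = F.a ∨ g⁻¹ * F.a * g = F.a * F.u ∨ g⁻¹ * F.a * g = F.a * (F.t * F.u)) := by
  obtain ⟨f, hfE, hfS, hft, hff⟩ := F.exists_f0
  obtain ⟨c1, c2, c3, c4, hN⟩ := exists_act hfE
  have h1 : c1 = T + Z := F.ev_eq.1 (by rw [F.ev_add, F.ev_T, F.ev_Z, ← hft, ← F.ev_T, hN, lin_T])
  subst h1
  have h2 := (hN.mul hN).fix (v := T) (by rw [F.ev_T]; exact mem_centralizer_singleton_iff.1 (F.syl.1 hff))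
  have h3 := ((hN.mul hN).act1 h2).1
  simp only [lin_T, lin_U] at h2 h3
  have h4 : c4 = Z := by
    have key : ∀ c4 : OV, (T + Z) + 0 + 0 + c4 = T → c4 = Z := by decide
    exact key c4 h2
  subst h4
  have hfz : f⁻¹ * F.z * f = F.z := by rw [← F.ev_Z, hN, lin_Z]
  have hu : F.u ∈ closure ({F.t, F.x, F.a, F.u} : Set G) := subset_closure (by simp)
  have h5 : c2.a = false := by
    have e : f⁻¹ * F.u * f = F.ev c2 := by rw [← F.ev_U, hN, lin_U]
    rw [← F.ev_mem_E8, ← e]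
    refine (F.cen2 (conj_mem_of_norm hfS hu) fun r hr => ?_).2 (by rw [← conj_mul', F.u2]; group)
    obtain ⟨m, hm⟩ := F.mem_S0.1 (conj_mem_of_norm' hfS hr)
    have key : ∀ m : HM, m⁻¹ * HM.U * m = HM.U ∨ m⁻¹ * HM.U * m = HM.U * HM.Z := by decide +kernel
    have e2 : r⁻¹ * (f⁻¹ * F.u * f) * r = f⁻¹ * F.phi (m⁻¹ * HM.U * m) * f := by
      rw [map_mul, map_mul, map_inv, hm, F.phi_U]; group
    rw [e2]
    rcases key m with h | h <;> rw [h]
    · left; rw [F.phi_U]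
    · right; rw [map_mul, F.phi_U, F.phi_Z, conj_mul', hfz]
  have h6 : ¬ (c3.t = true ∧ c3.u = false) := fun h => F.nz (by
    have := hN.conj A
    rw [lin_A, F.ev_A] at this
    exact ((F.conj_t h.1 h.2).trans this.symm).trans (isConj_of_eq F.ρz).symm)
  have h7 : ∀ v, lin (T + Z) c2 c3 Z v = lin (T + Z) c2 c3 Z 0 → v = 0 := fun v hv => hN.inj hv
  have key : ∀ c2 c3 : OV, c2.a = false → ¬ (c3.t = true ∧ c3.u = false) → lin (T + Z) c2 c3 Z c2 = U →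
      (∀ v, lin (T + Z) c2 c3 Z v = lin (T + Z) c2 c3 Z 0 → v = 0) →
      (c2 = U ∨ c2 = U + Z) ∧ S c2 = c2 ∧ ((c3 = A ∨ c3 = A + U ∨ c3 = A + (T + U)) ∨
        (S c3 = A ∨ S c3 = A + U ∨ S c3 = A + (T + U))) := by decide +kernel
  obtain ⟨k1, k2, k3⟩ := key c2 c3 h5 h6 h3 h7
  have fin : ∀ (g : G) (c3 : OV), F.Act g (lin (T + Z) c2 c3 Z) → (c3 = A ∨ c3 = A + U ∨ c3 = A + (T + U)) →
      ∃ g : G, g⁻¹ * F.t * g = F.t * F.z ∧ g⁻¹ * F.z * g = F.z ∧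
        (g⁻¹ * F.u * g = F.u ∨ g⁻¹ * F.u * g = F.u * F.z) ∧
        (g⁻¹ * F.a * g = F.a ∨ g⁻¹ * F.a * g = F.a * F.u ∨ g⁻¹ * F.a * g = F.a * (F.t * F.u)) := by
    intro g c3 hg hc
    refine ⟨g, ?_, ?_, ?_, ?_⟩
    · rw [← F.ev_T, hg, lin_T, F.ev_add, F.ev_Z]
    · rw [← F.ev_Z, hg, lin_Z]
    · rw [← F.ev_U, hg, lin_U, ← F.ev_Z, ← F.ev_add, F.ev_eq, F.ev_eq]; exact k1
    · rw [← F.ev_A, hg, lin_A, ← F.ev_U, ← F.ev_T, ← F.ev_add, ← F.ev_add, ← F.ev_add, F.ev_eq, F.ev_eq, F.ev_eq]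
      exact hc
  rcases k3 with k3 | k3
  · exact fin f c3 hN k3
  · exact fin (f * F.s) (S c3) ((hN.mul F.act_s).mk' (by rw [lin_T]; decide) (by rw [lin_U, k2]) (by rw [lin_A])
      (by rw [lin_Z]; decide)) k3

end

end F2

/-- module H3Orb -/
theorem F2.types {G : Type*} [Group G] [Finite G] (F : F2 G) :
    ∃ F' : F3 G, (F'.Hb ∧ ¬ IsConj F'.t (F'.t * F'.u)) ∨ (F'.Hb ∧ F'.Hτ) ∨ (F'.Hτ ∧ F'.Hq) := by
  obtain ⟨g, ht, hz, hu, ha⟩ := F.exists_g
  have e1 : F.t * F.z * (F.u * F.z) = F.t * F.u := by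
    rw [← F.ev_T, ← F.ev_U, ← F.ev_Z, ← F.ev_add, ← F.ev_add, ← F.ev_add, ← F.ev_add, F.ev_eq]; decide
  have e2 : F.t * F.z * F.u = F.t * F.u * F.z := by
    rw [mul_assoc, mul_assoc, F.uz]
  rcases ha with ha | ha | ha
  · rcases hu with hu | hu
    · exact F.caseI ht hz hu ha
    · exact F.swap.caseI ht hz (show g⁻¹ * (F.t * F.u) * g = F.t * F.u by rw [conj_mul', ht, hu, e1]) ha
  · exact F.caseII ht hz hu ha
  · refine F.swap.caseII ht hz ?_ ha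
    rcases hu with hu | hu
    · exact Or.inr (show g⁻¹ * (F.t * F.u) * g = F.t * F.u * F.z by rw [conj_mul', ht, hu, e2])
    · exact Or.inl (show g⁻¹ * (F.t * F.u) * g = F.t * F.u by rw [conj_mul', ht, hu, e1])

end Cfsg.Agent.WA.H3
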