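import Cfsg.Agent.WA.H3A
import Cfsg.Agent.WA.H3B
import Cfsg.Agent.WA.H3C
import Cfsg.Agent.WA.H3Cl
import Cfsg.Agent.WA.H3De
import Cfsg.Agent.WA.H3Al
import Cfsg.Agent.WA.H3Orb
import Cfsg.Agent.WA.H3Ca
import Cfsg.Agent.WA.H3Cb
import Cfsg.Agent.WA.H3Cc
import Cfsg.Agent.H6.Transfer
import Cfsg.Agent.H7.FStar

/-! Assembly for S3139. -/

set_option autoImplicit false

namespace Cfsg.Agent.WA.H3

open Subgroup
open scoped commutatorElement

universe w

theorem CF.bd {Y : Type w} [Group Y] [Finite Y] (C : CF Y) :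
    Bd (⊤ : Subgroup Y) 512 ∧ (Bd (centralizer ({C.t} : Set Y)) 16 → Bd (⊤ : Subgroup Y) 256) := by
  obtain ⟨C', rfl⟩ := C.toCG
  rcases C'.p2 with h | h
  · exact C'.elem h
  · have := C'.homo h
    exact ⟨fun P hP hle => (this P hP hle).trans (by norm_num), fun _ => this⟩

theorem F2.bd {G : Type w} [Group G] [Finite G] (F : F2 G) :
    Bd (⊤ : Subgroup G) 2048 ∧ ((∀ K : Subgroup G, K.index ≠ 2) → Bd (⊤ : Subgroup G) 1024) := by
  obtain ⟨F', h⟩ := F.types
  refine F'.climb ?_
  rcases h with ⟨h1, h2⟩ | ⟨h1, h2⟩ | ⟨h1, h2⟩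
  · exact F'.typeA h1 h2 fun Y _ _ C => C.bd.2
  · obtain ⟨F'', rfl, h3 | h3⟩ := F'.typeB h1 h2
    · exact F''.alpha h3
    · exact F''.delta h3
  · exact F'.typeC h1 h2

theorem not_dvd_of_bd {G : Type w} [Group G] [Finite G] {X : Subgroup G} (h : Bd X 1024) :
    ¬ 2 ^ 11 ∣ Nat.card X := fun hd => by
  obtain ⟨P, hP, hle, hc⟩ := exists_two_of_dvd hd
  have := h P hP hle
  omega

theorem finish {G : Type w} [Group G] [Finite G] {X : Subgroup G} (hX : commutator X = ⊤)
    (h : Bd (⊤ : Subgroup G) 1024 ∨ Nonempty (CF G) ∨ Nonempty (F2 G)) : ¬ 2 ^ 11 ∣ Nat.card X := by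
  rcases h with h | ⟨⟨C⟩⟩ | ⟨⟨F⟩⟩
  · exact not_dvd_of_bd (h.mono le_top)
  · exact not_dvd_of_bd fun P hP _ => (C.bd.1 P hP le_top).trans (by norm_num)
  · by_cases hK : ∀ K : Subgroup G, K.index ≠ 2
    · exact not_dvd_of_bd ((F.bd.2 hK).mono le_top)
    · push Not at hK
      obtain ⟨K, hK⟩ := hK
      have hXK : X ≤ K := by
        have h1 : (K.subgroupOf X).index ∣ 2 := by
          have hn : K.Normal := normal_of_index_eq_two hK
          have := relIndex_dvd_index_of_normal K X
          rwa [hK] at this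
        have h2 := H6.index_ne_two_of_perfect hX (K.subgroupOf X)
        rcases (Nat.dvd_prime Nat.prime_two).1 h1 with h3 | h3
        · exact subgroupOf_eq_top.1 (index_eq_one.1 h3)
        · exact absurd h3 h2
      intro hd
      have h1 : 2 ^ 12 ∣ Nat.card (⊤ : Subgroup G) := by
        have h2 : 2 ^ 11 ∣ Nat.card K := hd.trans (card_dvd_of_le hXK)
        have h3 := K.card_mul_index
        rw [hK] at h3
        rw [Subgroup.card_top, ← h3, pow_succ]
        exact Nat.mul_dvd_mul_right h2 2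
      obtain ⟨P, hP, hle, hc⟩ := exists_two_of_dvd h1
      have := F.bd.1 P hP hle
      omega

theorem simple_facts {G : Type w} [Group G] [Finite G]
    (hF : IsSimpleGroup ↥(Cfsg.generalizedFittingSubgroup G))
    (hF' : ¬ IsMulCommutative ↥(Cfsg.generalizedFittingSubgroup G)) :
    commutator ↥(Cfsg.generalizedFittingSubgroup G) = ⊤ ∧ center G = ⊥ ∧
      (Odd (Nat.card ↥(Cfsg.generalizedFittingSubgroup G)) ∨ Cfsg.oddCore G = ⊥) := by
  set X := Cfsg.generalizedFittingSubgroup G with hX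
  have hn : X.Normal := H7.fstar_normal
  have hC : centralizer (X : Set G) = ⊥ := by
    have h1 : centralizer (X : Set G) ≤ X := H7.centralizer_fstar_le
    rcases hF.eq_bot_or_eq_top_of_normal (center X) inferInstance with h | h
    · rw [eq_bot_iff]
      intro c hc
      have : (⟨c, h1 hc⟩ : X) ∈ center X := mem_center_iff.2 fun y => Subtype.ext (hc y y.2)
      rw [h, mem_bot] at this
      exact mem_bot.2 (congrArg Subtype.val this)
    · exact absurd ⟨⟨fun a b => (mem_center_iff.1 (h ▸ mem_top b : b ∈ center X) a)⟩⟩ hF'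
  refine ⟨?_, ?_, ?_⟩
  · rcases hF.eq_bot_or_eq_top_of_normal (commutator X) inferInstance with h | h
    · refine absurd ⟨⟨fun a b => ?_⟩⟩ hF'
      have : ⁅a, b⁆ ∈ commutator X := commutator_mem_commutator (mem_top a) (mem_top b)
      rw [h, mem_bot, commutatorElement_eq_one_iff_mul_comm] at this
      exact this
    · exact h
  · rw [eq_bot_iff, ← hC]
    exact center_le_centralizer _
  · have hO : (Cfsg.oddCore G).Normal := inferInstance
    rcases hF.eq_bot_or_eq_top_of_normal ((Cfsg.oddCore G).subgroupOf X) inferInstance with h | h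
    · right
      rw [eq_bot_iff, ← hC]
      intro o ho y hy
      have h1 : Disjoint X (Cfsg.oddCore G) := (subgroupOf_eq_bot.1 h).symm
      exact (Subgroup.commute_of_normal_of_disjoint X _ hn hO h1 y o hy ho).eq
    · left
      have h1 : X ≤ Cfsg.oddCore G := subgroupOf_eq_top.1 h
      have h2 : (Nat.card (Cfsg.oddCore G)).Coprime 2 := L0.card_pPrimeCore_coprime
      exact Nat.coprime_two_right.1 (Nat.Coprime.coprime_dvd_left (card_dvd_of_le h1) h2)

end Cfsg.Agent.WA.H3
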