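import Cfsg.Agent.WA.H3T
import Cfsg.Agent.WA.H3U
import Cfsg.Agent.WA.H3V

/-! Coordinates on `E = ⟨t, u, a, z⟩` for S3139. -/

set_option autoImplicit false

namespace Cfsg.Agent.WA.H3

open Subgroup

/-- coordinates on `E`. -/
structure OV where
  t : Bool
  u : Bool
  a : Bool
  z : Bool
  deriving DecidableEq

namespace OV

instance : Add OV := ⟨fun v w => ⟨xor v.t w.t, xor v.u w.u, xor v.a w.a, xor v.z w.z⟩⟩
instance : Zero OV := ⟨⟨false, false, false, false⟩⟩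

theorem forall_iff {p : OV → Prop} : (∀ m, p m) ↔ ∀ e i j k, p ⟨e, i, j, k⟩ :=
  ⟨fun h _ _ _ _ => h _, fun h m => h m.t m.u m.a m.z⟩

instance decForall (p : OV → Prop) [DecidablePred p] : Decidable (∀ m, p m) :=
  decidable_of_iff (∀ e i j k, p ⟨e, i, j, k⟩) forall_iff.symm

theorem exists_iff {p : OV → Prop} : (∃ m, p m) ↔ ∃ e i j k, p ⟨e, i, j, k⟩ :=
  ⟨fun ⟨m, h⟩ => ⟨m.t, m.u, m.a, m.z, h⟩, fun ⟨_, _, _, _, h⟩ => ⟨_, h⟩⟩

instance decExists (p : OV → Prop) [DecidablePred p] : Decidable (∃ m, p m) :=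
  decidable_of_iff (∃ e i j k, p ⟨e, i, j, k⟩) exists_iff.symm

/-- basis vector. -/
def T : OV := ⟨true, false, false, false⟩
/-- basis vector. -/
def U : OV := ⟨false, true, false, false⟩
/-- basis vector. -/
def A : OV := ⟨false, false, true, false⟩
/-- basis vector. -/
def Z : OV := ⟨false, false, false, true⟩

/-- scalar multiple. -/
def sm (b : Bool) (v : OV) : OV := if b then v else 0

/-- linear map with given images of the basis. -/
def lin (c1 c2 c3 c4 v : OV) : OV := sm v.t c1 + sm v.u c2 + sm v.a c3 + sm v.z c4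

/-- embedding in the model. -/
def toHM (v : OV) : HM :=
  ⟨if v.t then 1 else 0, if v.z then 4 else 0, if v.a then 1 else 0, if v.u then 1 else 0⟩

/-- action of `ρ`. -/
def R : OV → OV := lin T U (A + Z) A
/-- action of `s`. -/
def S : OV → OV := lin T U (A + Z) Z

theorem lin_T (c1 c2 c3 c4 : OV) : lin c1 c2 c3 c4 T = c1 := by
  cases c1; simp [lin, sm, T, HAdd.hAdd, Add.add, OfNat.ofNat, Zero.zero]
theorem lin_U (c1 c2 c3 c4 : OV) : lin c1 c2 c3 c4 U = c2 := by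
  cases c2; simp [lin, sm, U, HAdd.hAdd, Add.add, OfNat.ofNat, Zero.zero]
theorem lin_A (c1 c2 c3 c4 : OV) : lin c1 c2 c3 c4 A = c3 := by
  cases c3; simp [lin, sm, A, HAdd.hAdd, Add.add, OfNat.ofNat, Zero.zero]
theorem lin_Z (c1 c2 c3 c4 : OV) : lin c1 c2 c3 c4 Z = c4 := by
  cases c4; simp [lin, sm, Z, HAdd.hAdd, Add.add, OfNat.ofNat, Zero.zero]

end OV

namespace F2

variable {G : Type*} [Group G] (F : F2 G)

/-- the subgroup `E`. -/
abbrev EE : Subgroup G := closure ({F.t, F.u, F.a, F.z} : Set G)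

/-- its normalizer. -/
abbrev NN : Subgroup G := normalizer (F.EE : Set G)

/-- evaluation of coordinates. -/
def ev (v : OV) : G := F.phi v.toHM

theorem ev_add (v w : OV) : F.ev (v + w) = F.ev v * F.ev w := by
  rw [ev, ev, ev, ← map_mul, F.phi_eq]
  revert v w
  decide +kernel

theorem ev_eq {v w : OV} : F.ev v = F.ev w ↔ v = w := by
  rw [ev, ev, F.phi_eq]
  revert v w
  decide +kernel

theorem ev_zero : F.ev 0 = 1 := by rw [ev, ← map_one F.phi, F.phi_eq]; decide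
theorem ev_T : F.ev OV.T = F.t := by rw [ev, ← F.phi_T, F.phi_eq]; decide
theorem ev_U : F.ev OV.U = F.u := by rw [ev, ← F.phi_U, F.phi_eq]; decide
theorem ev_A : F.ev OV.A = F.a := by rw [ev, ← F.phi_A, F.phi_eq]; decide
theorem ev_Z : F.ev OV.Z = F.z := by rw [ev, ← F.phi_Z, F.phi_eq]; decide

theorem ev_mem (v : OV) : F.ev v ∈ F.EE := by
  rw [ev, F.phi_mem_E]
  revert v
  decide +kernel

theorem E_le : F.EE ≤ closure ({F.t, F.x, F.a, F.u} : Set G) := by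
  rw [EE, ← F.map_E, ← F.range_phi]; exact map_le_range _ _

theorem exists_ev {c : G} (hc : c ∈ F.EE) : ∃ v, F.ev v = c := by
  obtain ⟨m, rfl⟩ := F.mem_S0.1 (F.E_le hc)
  rw [F.phi_mem_E] at hc
  simp only [ev, F.phi_eq]
  revert m
  decide +kernel

theorem ev_mem_A {v : OV} : F.ev v ∈ closure ({F.a, F.z} : Set G) ↔ v.t = false ∧ v.u = false := by
  rw [ev, F.phi_mem_A]
  revert v
  decide +kernel

theorem ev_mem_E8 {v : OV} : F.ev v ∈ closure ({F.t, F.u, F.z} : Set G) ↔ v.a = false := by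
  rw [ev, F.phi_mem_E8]
  revert v
  decide +kernel

theorem ev_mem_V0 {v : OV} : F.ev v ∈ closure ({F.u, F.z} : Set G) ↔ v.t = false ∧ v.a = false := by
  rw [ev, F.phi_mem_V0]
  revert v
  decide +kernel

theorem A_le : closure ({F.a, F.z} : Set G) ≤ F.EE := closure_mono (by
  rintro _ (rfl | rfl) <;> simp)

theorem ev_sq (v : OV) : F.ev v * F.ev v = 1 := by
  rw [← F.ev_add, ← F.ev_zero, F.ev_eq]
  revert v
  decide

theorem E_sq {c : G} (hc : c ∈ F.EE) : c * c = 1 := by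
  obtain ⟨v, rfl⟩ := F.exists_ev hc
  exact F.ev_sq v

theorem ev_comm (v w : OV) : F.ev v * F.ev w = F.ev w * F.ev v := by
  rw [← F.ev_add, ← F.ev_add, F.ev_eq]
  revert v w
  decide

/-- `g` acts on `E` by `L`. -/
def Act (g : G) (L : OV → OV) : Prop := ∀ v, g⁻¹ * F.ev v * g = F.ev (L v)

variable {F}

theorem act_of {g : G} {c1 c2 c3 c4 : OV} (h1 : g⁻¹ * F.t * g = F.ev c1) (h2 : g⁻¹ * F.u * g = F.ev c2)
    (h3 : g⁻¹ * F.a * g = F.ev c3) (h4 : g⁻¹ * F.z * g = F.ev c4) : F.Act g (OV.lin c1 c2 c3 c4) := by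
  have hs : ∀ (b : Bool) (w c : OV), g⁻¹ * F.ev w * g = F.ev c →
      g⁻¹ * F.ev (OV.sm b w) * g = F.ev (OV.sm b c) := by
    intro b w c h
    cases b
    · simp [OV.sm, F.ev_zero]
    · simpa [OV.sm] using h
  intro v
  have e : ∀ v : OV, v = OV.lin OV.T OV.U OV.A OV.Z v := by decide
  conv_lhs => rw [e v]
  simp only [OV.lin, F.ev_add, conj_mul']
  rw [hs _ _ _ (F.ev_T ▸ h1), hs _ _ _ (F.ev_U ▸ h2), hs _ _ _ (F.ev_A ▸ h3), hs _ _ _ (F.ev_Z ▸ h4)]

theorem Act.mul {g h : G} {L M : OV → OV} (hg : F.Act g L) (hh : F.Act h M) : F.Act (g * h) (fun v => M (L v)) :=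
  fun v => by rw [conj_conj, hg, hh]

theorem Act.inj {g : G} {L : OV → OV} (hg : F.Act g L) {v w : OV} (h : L v = L w) : v = w := by
  have := (hg v).trans (h ▸ (hg w).symm)
  exact F.ev_eq.1 (by simpa using this)

theorem Act.conj {g : G} {L : OV → OV} (hg : F.Act g L) (v : OV) : IsConj (F.ev v) (F.ev (L v)) :=
  isConj_of_eq (hg v)

theorem Act.comm {g : G} {L : OV → OV} (hg : F.Act g L) {v : OV} (h : L v = v) : g * F.ev v = F.ev v * g :=
  conj_eq_iff_comm.1 (by rw [hg, h])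

theorem Act.fix {g : G} {L : OV → OV} (hg : F.Act g L) {v : OV} (h : g * F.ev v = F.ev v * g) : L v = v :=
  F.ev_eq.1 (by rw [← hg, conj_eq_iff_comm.2 h])

theorem Act.norm [Finite G] {g : G} {L : OV → OV} (hg : F.Act g L) : g ∈ F.NN :=
  mem_normalizer_of_conj fun k hk => by
    obtain ⟨v, rfl⟩ := F.exists_ev hk
    rw [hg]; exact F.ev_mem _

theorem exists_act {g : G} (hg : g ∈ F.NN) : ∃ c1 c2 c3 c4, F.Act g (OV.lin c1 c2 c3 c4) := by
  obtain ⟨c1, h1⟩ := F.exists_ev (conj_mem_of_norm hg (F.ev_T ▸ F.ev_mem OV.T))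
  obtain ⟨c2, h2⟩ := F.exists_ev (conj_mem_of_norm hg (F.ev_U ▸ F.ev_mem OV.U))
  obtain ⟨c3, h3⟩ := F.exists_ev (conj_mem_of_norm hg (F.ev_A ▸ F.ev_mem OV.A))
  obtain ⟨c4, h4⟩ := F.exists_ev (conj_mem_of_norm hg (F.ev_Z ▸ F.ev_mem OV.Z))
  exact ⟨c1, c2, c3, c4, act_of h1.symm h2.symm h3.symm h4.symm⟩

/-- the hypothesis `act` transported by `n`. -/
theorem Act.act [Finite G] {n g : G} {N L : OV → OV} (hn : F.Act n N) (hg : F.Act g L) (h : L (N OV.T) = N OV.T) :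
    L (N OV.U) = N OV.U ∧ (∃ w : OV, w.t = false ∧ w.u = false ∧ L (N OV.A) = N w) ∧
      (∃ w : OV, w.t = false ∧ w.u = false ∧ L (N OV.Z) = N w) := by
  have key : ∀ v w : OV, (n * g * n⁻¹)⁻¹ * F.ev v * (n * g * n⁻¹) = F.ev w ↔ L (N v) = N w := by
    intro v w
    rw [← F.ev_eq, ← hg, ← hn, ← hn]
    constructor
    · intro h; rw [← h]; group
    · intro h
      calc _ = n * (g⁻¹ * (n⁻¹ * F.ev v * n) * g) * n⁻¹ := by group
        _ = _ := by rw [h]; group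
  have h1 : n * g * n⁻¹ * F.t = F.t * (n * g * n⁻¹) := conj_eq_iff_comm.1 (F.ev_T ▸ (key _ _).2 h)
  obtain ⟨h2, h3⟩ := F.act _ h1 (mul_mem (mul_mem hn.norm hg.norm) (inv_mem hn.norm))
  refine ⟨(key _ _).1 (F.ev_U ▸ conj_eq_iff_comm.2 h2), ?_, ?_⟩
  · have := conj_mem_of_norm h3 (subset_closure (by simp) : F.a ∈ closure ({F.a, F.z} : Set G))
    obtain ⟨w, hw⟩ := F.exists_ev (F.A_le this)
    rw [← hw, F.ev_mem_A] at this
    exact ⟨w, this.1, this.2, (key _ _).1 (F.ev_A ▸ hw.symm)⟩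
  · have := conj_mem_of_norm h3 (subset_closure (by simp) : F.z ∈ closure ({F.a, F.z} : Set G))
    obtain ⟨w, hw⟩ := F.exists_ev (F.A_le this)
    rw [← hw, F.ev_mem_A] at this
    exact ⟨w, this.1, this.2, (key _ _).1 (F.ev_Z ▸ hw.symm)⟩

theorem act_one : F.Act 1 (fun v => v) := fun v => by simp

theorem Act.act1 [Finite G] {g : G} {L : OV → OV} (hg : F.Act g L) (h : L OV.T = OV.T) :
    L OV.U = OV.U ∧ ((L OV.A).t = false ∧ (L OV.A).u = false) ∧ ((L OV.Z).t = false ∧ (L OV.Z).u = false) := by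
  obtain ⟨h1, ⟨w, h2, h3, h4⟩, ⟨w', h5, h6, h7⟩⟩ := act_one.act hg h
  refine ⟨h1, ?_, ?_⟩
  · rw [h4]; exact ⟨h2, h3⟩
  · rw [h7]; exact ⟨h5, h6⟩

variable (F)

theorem act_rho : F.Act F.ρ OV.R :=
  act_of (by rw [F.ev_T, conj_eq_iff_comm, F.ρt]) (by rw [F.ev_U, conj_eq_iff_comm, F.ρu])
    (by rw [F.ev_add, F.ev_A, F.ev_Z, F.ρa]) (by rw [F.ev_A, F.ρz])

theorem act_s : F.Act F.s OV.S :=
  act_of (by rw [F.ev_T, conj_eq_iff_comm, F.ts]) (by rw [F.ev_U, conj_eq_iff_comm, F.us])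
    (by rw [F.ev_add, F.ev_A, F.ev_Z, inv_eq_of_sq F.s2, F.sas]) (by rw [F.ev_Z, conj_eq_iff_comm, F.sz])

theorem conj_t {v : OV} (h1 : v.t = true) (h2 : v.u = false) : IsConj F.t (F.ev v) := by
  have key : ∀ v : OV, v.t = true → v.u = false → v = OV.T ∨ v = OV.T + OV.Z ∨ v = OV.R (OV.T + OV.Z) ∨
      v = OV.R (OV.R (OV.T + OV.Z)) := by decide
  have h0 : IsConj F.t (F.ev (OV.T + OV.Z)) := by rw [F.ev_add, F.ev_T, F.ev_Z]; exact F.conj_tz
  rcases key v h1 h2 with rfl | rfl | rfl | rfl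
  · rw [F.ev_T]
  · exact h0
  · exact h0.trans (F.act_rho.conj _)
  · exact (h0.trans (F.act_rho.conj _)).trans (F.act_rho.conj _)

theorem conj_u {v : OV} (h1 : v.t = false) (h2 : v.u = true) : IsConj F.u (F.ev v) := by
  have key : ∀ v : OV, v.t = false → v.u = true → v = OV.U ∨ v = OV.U + OV.A ∨ v = OV.R (OV.U + OV.A) ∨
      v = OV.R (OV.R (OV.U + OV.A)) := by decide
  have h0 : IsConj F.u (F.ev (OV.U + OV.A)) := by
    obtain ⟨k, _, hk⟩ := F.fus
    rw [F.ev_add, F.ev_U, F.ev_A]; exact (isConj_of_eq hk).symm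
  rcases key v h1 h2 with rfl | rfl | rfl | rfl
  · rw [F.ev_U]
  · exact h0
  · exact h0.trans (F.act_rho.conj _)
  · exact (h0.trans (F.act_rho.conj _)).trans (F.act_rho.conj _)

theorem conj_tu {v : OV} (h1 : v.t = true) (h2 : v.u = true) : IsConj (F.t * F.u) (F.ev v) := by
  have key : ∀ v : OV, v.t = true → v.u = true → v = OV.T + OV.U ∨ v = OV.T + (OV.U + OV.A) ∨
      v = OV.R (OV.T + (OV.U + OV.A)) ∨ v = OV.R (OV.R (OV.T + (OV.U + OV.A))) := by decide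
  have h0 : IsConj (F.t * F.u) (F.ev (OV.T + (OV.U + OV.A))) := by
    obtain ⟨k, hk1, hk⟩ := F.fus
    rw [F.ev_add, F.ev_add, F.ev_T, F.ev_U, F.ev_A]
    refine (isConj_of_eq (g := k) ?_).symm
    rw [conj_mul', hk, conj_eq_iff_comm.2 hk1]
  rcases key v h1 h2 with rfl | rfl | rfl | rfl
  · rw [F.ev_add, F.ev_T, F.ev_U]
  · exact h0
  · exact h0.trans (F.act_rho.conj _)
  · exact (h0.trans (F.act_rho.conj _)).trans (F.act_rho.conj _)

theorem conj_z {v : OV} (h1 : v.t = false) (h2 : v.u = false) (h3 : v ≠ 0) : IsConj F.z (F.ev v) := by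
  have key : ∀ v : OV, v.t = false → v.u = false → v ≠ 0 → v = OV.Z ∨ v = OV.R OV.Z ∨
      v = OV.R (OV.R OV.Z) := by decide
  have h0 : IsConj F.z (F.ev OV.Z) := by rw [F.ev_Z]
  rcases key v h1 h2 h3 with rfl | rfl | rfl
  · exact h0
  · exact h0.trans (F.act_rho.conj _)
  · exact (h0.trans (F.act_rho.conj _)).trans (F.act_rho.conj _)

/-- conjugates of `t` in `E` lie outside `F`. -/
theorem t_of_conj (nu : ¬ IsConj F.t F.u) {v : OV} (h : IsConj F.t (F.ev v)) : v.t = true := by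
  by_contra h1
  have h1 : v.t = false := by simpa using h1
  cases h2 : v.u
  · by_cases h3 : v = 0
    · rw [h3, F.ev_zero, isConj_one_left] at h
      exact F.t_ne h
    · exact F.nz (h.trans (F.conj_z h1 h2 h3).symm)
  · exact nu (h.trans (F.conj_u h1 h2).symm)

theorem cj_x : H8.cj F.x (closure ({F.t, F.u, F.s, F.z} : Set G)) = F.EE := by
  ext y
  rw [H8.mem_cj]
  have hx : F.x ∈ closure ({F.t, F.x, F.a, F.u} : Set G) := subset_closure (by simp)
  have key : ∀ m : HM, (HM.X⁻¹ * m * HM.X).i.val % 4 = 2 * (HM.X⁻¹ * m * HM.X).j.val ↔ m.i.val % 4 = 0 := by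
    decide +kernel
  have h0 : y ∈ closure ({F.t, F.x, F.a, F.u} : Set G) →
      (F.x⁻¹ * y * F.x ∈ closure ({F.t, F.u, F.s, F.z} : Set G) ↔ y ∈ F.EE) := fun hy => by
    obtain ⟨m, rfl⟩ := F.mem_S0.1 hy
    rw [← F.phi_X, ← map_inv, ← map_mul, ← map_mul, F.phi_mem_E', F.phi_mem_E, key]
  constructor
  · intro h
    have h1 : F.x⁻¹ * y * F.x ∈ closure ({F.t, F.x, F.a, F.u} : Set G) := by
      rw [← F.map_E'] at h
      rw [← F.range_phi]
      exact map_le_range _ _ h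
    have h2 := mul_mem (mul_mem hx h1) (inv_mem hx)
    exact (h0 (by simpa [mul_assoc] using h2)).1 h
  · intro h
    exact (h0 (F.E_le h)).2 h

/-- `N(E)` controls fusion to `t` in `E`. -/
theorem exists_norm_conj [Finite G] {c : G} (hc : c ∈ F.EE) (h : IsConj F.t c) : ∃ n ∈ F.NN, n⁻¹ * F.t * n = c := by
  haveI : Fact (Nat.Prime 2) := ⟨Nat.prime_two⟩
  obtain ⟨g, hg⟩ := exists_of_isConj h
  have hE : IsPGroup 2 F.EE := IsPGroup.of_card (n := 4) F.c0.2.2.1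
  have hle : H8.cj g F.EE ≤ centralizer ({F.t} : Set G) := by
    intro y hy
    rw [H8.mem_cj] at hy
    rw [mem_centralizer_singleton_iff]
    have := comm_of_sq (fun y hy => F.E_sq hy) hy hc
    rw [← hg] at this
    calc y * F.t = g * (g⁻¹ * y * g * (g⁻¹ * F.t * g)) * g⁻¹ := by group
      _ = _ := by rw [this]; group
  obtain ⟨Q, hQ, hDQ⟩ := H8.exists_isSylowIn_ge (H8.pgroup_cj hE g) hle
  obtain ⟨k, hk, hkQ⟩ := hQ.exists_cj_eq F.syl
  rw [mem_centralizer_singleton_iff] at hk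
  have h1 : H8.cj (k * g) F.EE ≤ closure ({F.t, F.x, F.a, F.u} : Set G) := by
    rw [H8.cj_mul, ← hkQ]; exact H8.cj_mono _ hDQ
  have h2 : ∀ y ∈ H8.cj (k * g) F.EE, y * y = 1 := fun y hy => by
    have := F.E_sq (H8.mem_cj.1 hy)
    rw [← conj_mul'] at this
    calc y * y = (k * g) * ((k * g)⁻¹ * (y * y) * (k * g)) * (k * g)⁻¹ := by group
      _ = 1 := by rw [this]; group
  have hkt : k⁻¹ * F.t * k = F.t := conj_eq_iff_comm.2 hk
  rcases F.e16 h1 h2 (by rw [H8.card_cj, F.c0.2.2.1]) with h3 | h3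
  · exact ⟨k * g, H8.cj_eq_self_iff.1 h3, by rw [conj_conj, hkt, hg]⟩
  · refine ⟨F.x * (k * g), H8.cj_eq_self_iff.1 (by rw [H8.cj_mul, h3, F.cj_x]), ?_⟩
    rw [conj_conj, conj_eq_iff_comm.2 F.tx.symm, conj_conj, hkt, hg]

end F2

theorem card_dvd_ncard {G : Type*} [Group G] (K : Subgroup G) (O : Set G) (h : ∀ y ∈ O, ∀ k ∈ K, y * k ∈ O) :
    Nat.card K ∣ O.ncard := by
  have e : O = QuotientGroup.mk ⁻¹' ((QuotientGroup.mk : G → G ⧸ K) '' O) := by
    ext y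
    constructor
    · intro hy; exact ⟨y, hy, rfl⟩
    · rintro ⟨w, hw, e⟩
      have := h w hw _ (QuotientGroup.eq.1 e)
      simpa using this
  rw [← Nat.card_coe_set_eq, e, QuotientGroup.card_preimage_mk]
  exact dvd_mul_right _ _

end Cfsg.Agent.WA.H3
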