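import Cfsg.Agent.WA.H3Rc
import Cfsg.Agent.WA.H3V

/-! The frame `F2` in the reduction of S3139. -/

set_option autoImplicit false
set_option linter.unusedSectionVars false

namespace Cfsg.Agent.WA.H3

open Subgroup H8 Hy

variable {G : Type*} [Group G] [Finite G] {Γ : Type*} [Group Γ] [Finite Γ] {h : Hy G Γ}

namespace Rf

variable (S : St h) (hR : ∀ r ∈ S.T, h.ph r = 1 → r = 1 ∨ r = h.t) {w f g : G}
include hR

theorem decT (hw : w ∈ S.T) (pw : h.ph w ∉ h.G0) (hg : g ∈ S.T) : ∃ d ∈ S.D, ∃ r, (∀ y ∈ h.H, y * r = r * y) ∧ r * r = 1 ∧ (r = 1 ∨ r = h.t) ∧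
    ((h.ph g ∈ h.G0 ∧ g = d * r) ∨ (h.ph g ∉ h.G0 ∧ g = d * w * r)) := by
  have k : ∀ r ∈ S.T, h.ph r = 1 → (∀ y ∈ h.H, y * r = r * y) ∧ r * r = 1 := fun r hr e => by
    rcases hR r hr e with rfl | rfl
    exacts [by simp, ⟨fun y hy => mem_H.1 hy, h.t2⟩]
  by_cases e : h.ph g ∈ h.G0
  · obtain ⟨d, hd, r, hr, e1, e2⟩ := S.dec hg e
    exact ⟨d, hd, r, (k r hr e1).1, (k r hr e1).2, hR r hr e1, Or.inl ⟨e, e2⟩⟩
  · obtain ⟨d, hd, r, hr, e1, e2⟩ := S.dec (mul_mem hg (inv_mem hw)) (by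
      rw [ph_mul (S.TH hg) (inv_mem (S.TH hw)), ph_inv (S.TH hw), h.mul0, inv_mem_iff]; exact iff_of_false e pw)
    exact ⟨d, hd, r, (k r hr e1).1, (k r hr e1).2, hR r hr e1, Or.inr ⟨e, by
      rw [mul_assoc, (k r hr e1).1 w (S.TH hw), ← mul_assoc, ← e2, inv_mul_cancel_right]⟩⟩

theorem bK {P : Subgroup G} (hP : IsPGroup 2 P) (le : P ≤ h.H) : Nat.card P ≤ 2 * Nat.card (h.im P) := by
  have n : h.H ≤ normalizer ((h.pre ⊥ : Subgroup G) : Set G) := fun g hg => mem_normalizer_of_conj fun k hk =>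
    mem_K.2 ⟨mul_mem (mul_mem (inv_mem hg) (mem_K.1 hk).1) hg, by rw [ph_cj (mem_K.1 hk).1 hg, (mem_K.1 hk).2]; group⟩
  have := Fact.mk Nat.prime_two
  rw [card_im le]
  exact Nat.mul_le_mul_right _ (Bd.of_syl (S.syl.inf_of_le_normalizer n) ((card_le_of_le (H := S.T ⊓ h.pre ⊥) fun r hr => (mem_inv_iff h.t2).2
    (hR r hr.1 (mem_K.1 hr.2).2)).trans (card_inv h.t2 h.t1).le) _ hP.to_inf_left (inf_le_inf_right _ le))

theorem nwt (hw : w ∈ S.T) (pw : h.ph w = h.u) (w2 : w * w = 1) (hg : g ∈ h.H) : g⁻¹ * w * g ≠ w * h.t := fun e => by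
  have := Fact.mk Nat.prime_two
  obtain ⟨k, m, ⟨j, rfl⟩, hm⟩ := Nat.exists_eq_two_pow_mul_odd (orderOf_pos g).ne'
  have c : Commute (g ^ 2) w := conj_eq_iff_comm.1 (by rw [pow_two, conj_conj, e, conj_mul', e, t_cj hg, mul_assoc, h.t2, mul_one])
  have e' : (g ^ (2 * j + 1))⁻¹ * w * g ^ (2 * j + 1) = w * h.t := by rw [pow_succ, conj_conj, pow_mul, conj_eq_iff_comm.2 (c.pow_left j), e]
  have g2 : (g ^ (2 * j + 1)) ^ 2 ^ k = 1 := by rw [← pow_mul, mul_comm, ← hm, pow_orderOf_eq_one]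
  have gH := pow_mem hg (2 * j + 1)
  generalize g ^ (2 * j + 1) = g at *
  have VT : closure {h.t, w} ≤ S.T := (closure_le _).2 (by rintro _ (rfl | rfl); exacts [S.t_T, hw])
  have m1 : h.t ∈ closure {h.t, w} := subset_closure (by simp)
  have m2 : w ∈ closure {h.t, w} := subset_closure (by simp)
  obtain ⟨P, hP, le⟩ := exists_isSylowIn_ge ((S.syl.pgroup.to_le VT).to_sup_of_normal_left' (H9.isPGroup_zpowers ⟨k, g2⟩)
    (zpowers_le.2 (mem_normalizer_closure (by rintro _ (rfl | rfl); exacts [(t_cj gH).symm ▸ m1, e' ▸ mul_mem m2 m1]))))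
    (sup_le (VT.trans S.syl.le) (zpowers_le.2 gH))
  obtain ⟨c, hc, ec⟩ := hP.exists_cj_eq S.syl
  have pw' : h.ph w ∉ h.G0 := pw ▸ h.u0
  have d : ∀ y ∈ P, ∃ v ∈ S.D ⊔ zpowers w, ∃ r, (∀ y ∈ h.H, Commute y r) ∧ c * y * c⁻¹ = v * r := fun y hy => by
    obtain ⟨d, hd, r, r1, -, -, k⟩ := decT S hR hw pw' (ec.le (conj_mem_cj c hy))
    rcases k with k | k
    exacts [⟨d, mem_sup_left hd, r, r1, k.2⟩, ⟨_, mul_mem (mem_sup_left hd) (mem_sup_right (mem_zpowers w)), r, r1, k.2⟩]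
  obtain ⟨v, hv, r, r1, e1⟩ := d w (le (mem_sup_left m2))
  obtain ⟨v', hv', r', r2, e2⟩ := d g (le (mem_sup_right (mem_zpowers g)))
  have T0 : S.D ⊔ zpowers w ≤ h.H := (sup_le S.D_T (zpowers_le.2 hw)).trans S.syl.le
  have : h.t = v⁻¹ * (v'⁻¹ * v * v') := by
    calc _ = (c * w * c⁻¹)⁻¹ * (c * (w * h.t) * c⁻¹) := by rw [← mul_assoc c, mul_assoc _ h.t, ← mem_H.1 (inv_mem hc)]; group
      _ = (v * r)⁻¹ * ((v' * r')⁻¹ * (v * r) * (v' * r')) := by rw [← e1, ← e2, ← e']; group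
      _ = r⁻¹ * (v⁻¹ * (r'⁻¹ * (v'⁻¹ * (c * w * c⁻¹) * v') * r')) := by rw [e1]; group
      _ = r⁻¹ * (v⁻¹ * (v'⁻¹ * v * (r * v'))) := by
        rw [conj_eq_iff_comm.2 (r2 _ (mul_mem (mul_mem (inv_mem (T0 hv')) (mul_mem (mul_mem hc (S.TH hw)) (inv_mem hc))) (T0 hv'))).symm, e1]; group
      _ = _ := by
        rw [← r1 v' (T0 hv'), ← mul_assoc _ v', ← mul_assoc v⁻¹, r1 _ (T0 (mul_mem (inv_mem hv) (mul_mem (mul_mem (inv_mem hv') hv) hv')))]; group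
  rcases two_sup (mem_normalizer_of_conj fun d hd => S.mem_D (mul_mem (mul_mem (inv_mem hw) (S.D_T hd)) hw) (LL_cj (S.TH hw) (S.D_L hd)))
    (w2 ▸ one_mem _) (this ▸ mul_mem (inv_mem hv) (mul_mem (mul_mem (inv_mem hv') hv) hv')) with k | ⟨d, hd, k⟩
  · exact t_LL (S.D_L k)
  · have := ph_mul (S.TH (S.D_T hd)) (S.TH hw)
    rw [← k, ph_t, pw] at this
    exact h.u0 ((mul_mem_cancel_left (ph_LL (S.D_L hd))).1 (this ▸ one_mem _))

end Rf

open Rf in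
theorem N2.toF2 (N : N2 h) {w : G} (hw : w ∈ N.T) (e : h.ph w = h.u) : Nonempty (F2 G) := by
  have w2 := N.split w hw e
  have wH := N.TH hw
  have zD := pow_mem N.x_D 4
  have zH := pow_mem N.xH 4
  obtain ⟨ρ, hρ, r1, r2, r3⟩ := N.exists_ρ hw w2 (Or.inr e)
  have m : ∀ {y}, y ∈ ({h.t, N.x, N.a, w} : Set G) → y ∈ closure {h.t, N.x, N.a, w} := fun k => subset_closure k
  have eT : closure {h.t, N.x, N.a, w} = N.T := le_antisymm ((closure_le _).2 (by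
    rintro _ (rfl | rfl | rfl | rfl); exacts [N.t_T, N.xT, N.aT, hw])) fun g hg => by
    obtain ⟨d, hd, r, -, -, hr, k⟩ := decT N.toSt N.R hw (e ▸ h.u0) hg
    replace hd := closure_mono (k := {h.t, N.x, N.a, w}) (by rintro _ (rfl | rfl) <;> simp) hd
    replace hr : r ∈ closure {h.t, N.x, N.a, w} := by rcases hr with rfl | rfl; exacts [one_mem _, m (by simp)]
    rcases k with k | k <;> rw [k.2]
    exacts [mul_mem hd hr, mul_mem (mul_mem hd (m (by simp))) hr]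
  have cT : Nat.card N.T = 64 := by
    rw [card_im (h := h) N.syl.le, show N.T ⊓ h.pre ⊥ = zpowers h.t from le_antisymm (fun r hr => (mem_inv_iff h.t2).2 (N.R r hr.1 (mem_K.1 hr.2).2))
      (zpowers_le.2 ⟨N.t_T, mem_K.2 ⟨t_H, ph_t⟩⟩), card_inv h.t2 h.t1, show h.im N.T = h.Hol from le_antisymm (fun y hy => by
        obtain ⟨p, hp, rfl⟩ := (mem_im N.syl.le).1 hy
        exact N.im_le p hp) (sup_le (fun y hy => (N.D_surj hy).elim fun d k => (mem_im N.syl.le).2 ⟨d, N.D_T k.1, k.2⟩)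
          (zpowers_le.2 ((mem_im N.syl.le).2 ⟨w, hw, e⟩))), h.card_Hol]
  have aw := N.cj_eq hw N.aT N.aL N.aT N.aL (by rw [e, N.pha, h.au])
  have cH : ∀ {P : Subgroup G} {S : Set G}, P ≤ centralizer (insert h.t S) → P ≤ h.H := fun le => le.trans (centralizer_le (by simp))
  have im : ∀ {P : Subgroup G} {S : Set G}, P ≤ centralizer (insert h.t S) → ∀ y ∈ S, y ∈ h.H → ∀ g ∈ h.im P, g * h.ph y = h.ph y * g :=
    fun le y hy yH g hg => by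
      obtain ⟨p, hp, rfl⟩ := (mem_im (cH le)).1 hg
      exact ph_comm (cH le hp) yH (le hp y (Or.inr hy)).symm
  refine ⟨⟨h.t, N.x, N.a, w, N.x ^ 4, _, ρ, N.f, rfl, rfl, h.t2, N.sd.a2, w2, N.sd.z2, N.sd.ax, ?_, aw, (mem_H.1 N.xH).symm,
    (mem_H.1 N.aH).symm, (mem_H.1 wH).symm, eT ▸ cT, Bd.of_syl N.syl cT.le, fun P hP le => (bK N.toSt N.R hP (cH le)).trans
      (Nat.mul_le_mul_left 2 (h.bd_u _ (pg_im hP) fun g hg => mem_centralizer_singleton_iff.2 (e ▸ im le w rfl wH g hg))),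
    fun P hP le => (bK N.toSt N.R hP (cH le)).trans (Nat.mul_le_mul_left 2 ((card_le_of_le fun g hg => h.cA'
      (N.ph_xp 4 ▸ im le _ (by simp) zH g hg) (N.pha ▸ im le _ (by simp) N.aH g hg)).trans h.card_F.le)),
    mem_H.1 (LL_le hρ), r1, r2, r3, N.nz, eT ▸ N.fN, N.ft, eT ▸ N.f2, fun g hg hn => ?_, ?_⟩⟩
  · rw [mul_assoc, N.cj_eq hw N.xT N.xL (pow_mem N.xT 5) (pow_mem N.xL 5) (by
      rw [e, N.phx, N.ph_xp, ← h.ux, ← mul_assoc, ← mul_assoc, h.u2, one_mul]), ← mul_assoc, w2, one_mul]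
  · replace hg : g ∈ h.H := mem_H.2 hg
    have le : closure {h.t, w, N.a, N.x ^ 4} ≤ N.T ⊓ h.pre h.F := (closure_le _).2 (by
      rintro _ (rfl | rfl | rfl | rfl)
      exacts [⟨N.t_T, mem_pre.2 ⟨t_H, by rw [ph_t]; exact one_mem _⟩⟩, ⟨hw, mem_pre.2 ⟨wH, e ▸ mem_sup_right (mem_zpowers _)⟩⟩,
        ⟨N.aT, mem_pre.2 ⟨N.aH, N.pha ▸ mem_sup_left (h.mem_A.2 (by simp))⟩⟩,
        ⟨pow_mem N.xT 4, mem_pre.2 ⟨zH, N.ph_xp 4 ▸ mem_sup_left (h.mem_A.2 (by simp))⟩⟩])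
    have k : ∀ y ∈ closure {h.t, w, N.a, N.x ^ 4}, y ∈ h.LL → h.ph (g⁻¹ * y * g) ∈ h.A ∧ g⁻¹ * y * g ∈ closure {N.a, N.x ^ 4} := fun y hy hl => by
      have m1 := le (conj_mem_of_norm hn hy)
      have m2 := LL_cj hg hl
      have m3 := h.F_A (mem_pre.1 m1.2).2 (ph_LL m2)
      have q := fun d (hd : d ∈ N.D) => N.eqD m1.1 m2 (N.D_T hd) (N.D_L hd)
      refine ⟨m3, (mem_closure_two N.sd.a2 N.sd.z2 N.sd.za.symm).2 ?_⟩
      exact (h.mem_A.1 m3).imp (fun e => q _ (one_mem _) (e.trans ph_one.symm)) (Or.imp (fun e => q _ zD (e.trans (N.ph_xp 4).symm))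
        (Or.imp (fun e => q _ N.a_D (e.trans N.pha.symm)) fun e => q _ (mul_mem N.a_D zD) (e.trans (N.ph_ax 4).symm)))
    have ka := k _ (subset_closure (by simp)) N.aL
    have kz := k _ (subset_closure (by simp)) (N.D_L zD)
    refine ⟨conj_eq_iff_comm.1 ?_, mem_normalizer_closure (by rintro _ (rfl | rfl); exacts [ka.2, kz.2])⟩
    rw [ph_cj N.aH hg, N.pha] at ka
    rw [ph_cj zH hg, N.ph_xp] at kz
    have m1 := (le (conj_mem_of_norm hn (subset_closure (show w ∈ _ by simp)))).1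
    rcases N.R _ (mul_mem (inv_mem hw) m1) (by
      rw [ph_mul (inv_mem wH) (N.TH m1), ph_inv wH, ph_cj wH hg, e, conj_eq_iff_comm.2 (h.nA kz.1 ka.1), inv_mul_cancel]) with k | k
    exacts [(inv_mul_eq_one.1 k).symm, (nwt N.toSt N.R hw e w2 hg (inv_mul_eq_iff_eq_mul.1 k)).elim]
  · have wa : w * N.a * (w * N.a) = 1 := by rw [mul_assoc, ← mul_assoc N.a, aw, mul_assoc w, N.sd.a2, mul_one, w2]
    have mH := mul_mem wH N.aH
    have nG : h.ph (w * N.a) ∉ h.G0 := by rw [ph_mul wH N.aH, e, N.pha, mul_mem_cancel_right h.a0]; exact h.u0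
    obtain ⟨c, hc, ec⟩ := h.out _ nG (by rw [← ph_mul mH mH, wa, ph_one])
    obtain ⟨l, hl, rfl⟩ := LL_surj hc
    obtain ⟨k, hk, -, h1⟩ := lift (P := zpowers (w * N.a)) (P' := zpowers w) (N.syl.pgroup.to_le (zpowers_le.2 (mul_mem hw N.aT)))
      (zpowers_le.2 mH) hl fun p hp => by
        rcases (mem_inv_iff wa).1 hp with rfl | rfl
        · exact ⟨1, one_mem _, by simp⟩
        have m1 : w * (l⁻¹ * (w * N.a) * l)⁻¹ ∈ h.LL := by
          have := mul_mem (LL_cj (inv_mem wH) (mul_mem (inv_mem hl) (inv_mem N.aL))) hl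
          rwa [show w⁻¹⁻¹ * (l⁻¹ * N.a⁻¹) * w⁻¹ * l = w * (l⁻¹ * (w * N.a) * l)⁻¹ by group] at this
        have m2 := mul_mem (mul_mem (inv_mem (LL_le hl)) mH) (LL_le hl)
        exact ⟨w, mem_zpowers w, m1, mem_K.2 ⟨LL_le m1, by rw [ph_mul wH (inv_mem m2), ph_inv m2, ph_cj mH (LL_le hl), ec, e, mul_inv_cancel]⟩⟩
    exact ⟨k, mem_H.1 (LL_le hk), ((mem_inv_iff w2).1 (h1 _ (mem_zpowers _))).resolve_left
      (cj_ne_one fun e => nG (by rw [e, ph_one]; exact one_mem _))⟩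

end Cfsg.Agent.WA.H3
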