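import Cfsg.Agent.WA.H3Rd
import Cfsg.Agent.WA.H3Rf2
import Cfsg.Agent.H7.ZStar

/-! The reduction step of S3139. -/

set_option autoImplicit false

namespace Cfsg.Agent.WA.H3

open Subgroup H8
open scoped commutatorElement

variable {G : Type*} [Group G] [Finite G] {Γ : Type*} [Group Γ] [Finite Γ]

theorem Hy.reduce (h : Hy G Γ) (hO : Cfsg.oddCore G = ⊥) (hZ : center G = ⊥) :
    Bd (⊤ : Subgroup G) 1024 ∨ Nonempty (CF G) ∨ Nonempty (F2 G) := by
  have := Fact.mk Nat.prime_two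
  have hb : ¬ h.Big := fun hb => by
    refine h.t1 (mem_bot.1 (hZ ▸ mem_center_iff.2 fun g => ?_))
    have h1 := H7.zstar_commute h.t2 (fun g hg => by
      by_contra hne
      exact Hy.not_big (g := g⁻¹) (by rw [inv_inv]; exact Hy.mem_H.2 hg.symm) (by rwa [inv_inv]) hb) g
    rw [show pPrimeCore 2 G = ⊥ from hO, mem_bot, commutatorElement_eq_one_iff_mul_comm] at h1
    exact h1.symm
  obtain ⟨S, -⟩ := h.exists_St IsPGroup.of_bot bot_le
  by_cases hS : 2 ∣ S.T.relIndex ⊤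
  · obtain ⟨N⟩ := S.exists_N2 hS
    by_cases h0 : ∀ g ∈ h.H, h.ph g ∈ h.G0
    · exact Or.inr (Or.inl (N.toCF h0))
    · refine Or.inr (Or.inr ?_)
      by_contra hc
      refine h0 fun g hg => ?_
      obtain ⟨k, hk, hodd⟩ := H9.exists_coprime_pow_pElement (p := 2) g
      obtain ⟨m, hm, hT⟩ := Hy.exists_cj_T N.toSt (pow_mem hg k) hodd
      have h1 : h.ph (m⁻¹ * g ^ k * m) ∈ h.G0 := by
        by_contra h1
        obtain ⟨y, hy, e⟩ := (h.mem_Hol (N.im_le _ hT)).resolve_left fun e => h1 (h.D_le e)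
        obtain ⟨d, hd, rfl⟩ := N.toSt.D_surj hy
        have hdT := N.toSt.D_T hd
        exact hc (N.toF2 (mul_mem (inv_mem hdT) hT) (by
          rw [Hy.ph_mul (inv_mem (N.toSt.TH hdT)) (N.toSt.TH hT), Hy.ph_inv (N.toSt.TH hdT), e, inv_mul_cancel_left]))
      rw [Hy.ph_cj (pow_mem hg k) hm, h.cj0, Hy.ph_pow hg] at h1
      obtain ⟨j, rfl⟩ : Odd k := Nat.odd_iff.2 (by omega)
      rwa [pow_succ, two_mul, pow_add, h.mul0, iff_true_left (h.sq0 _)] at h1
  · exact Or.inl (Bd.of_syl (IsSylowIn.of_not_dvd_relIndex le_top S.syl.pgroup hS) ((S.card_T hb).trans (by norm_num)))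

end Cfsg.Agent.WA.H3
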