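import Cfsg.Agent.WA.H3Def

/-! Data for the reduction step of S3139. -/

set_option autoImplicit false

namespace Cfsg.Agent.WA.H3

open Subgroup

/-- facts about `Γ = Aut L₃(3)`, `G0 = Inn`; `⟨x, a, u⟩ = Hol(Z₈)`, `z = x⁴`. -/
structure GD (Γ : Type*) [Group Γ] where
  G0 : Subgroup Γ
  x : Γ
  a : Γ
  u : Γ
  ρ : Γ
  σ : Γ
  card : Nat.card Γ = 11232
  idx : G0.index = 2
  x0 : x ∈ G0
  a0 : a ∈ G0
  ρ0 : ρ ∈ G0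
  σ0 : σ ∈ G0
  u0 : u ∉ G0
  x8 : x ^ 8 = 1
  x4 : x ^ 4 ≠ 1
  a2 : a * a = 1
  u2 : u * u = 1
  ax : a * x * a = x ^ 3
  ux : u * x * u = x ^ 5
  au : a * u = u * a
  ρu : ρ * u = u * ρ
  ρz : ρ⁻¹ * x ^ 4 * ρ = a
  ρa : ρ⁻¹ * a * ρ = a * x ^ 4
  σx : σ⁻¹ * x ^ 2 * σ = a * x
  e16 : ∀ g : Γ, g ^ 16 = 1 → g ^ 8 = 1
  out : ∀ g : Γ, g ∉ G0 → g * g = 1 → ∃ h ∈ G0, h⁻¹ * g * h = u
  cA : ∀ g : Γ, g * x ^ 4 = x ^ 4 * g → g * a = a * g → g ∈ closure ({u, x ^ 4, a} : Set Γ)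
  cQ : ∀ g : Γ, g * x ^ 2 = x ^ 2 * g → g * (a * x) = (a * x) * g →
    g = 1 ∨ g = x ^ 4 ∨ g = u * x ^ 2 ∨ g = u * x ^ 6
  sq : ∀ d ∈ G0, d * d = x ^ 4 → d ∈ closure ({x ^ 2, a * x} : Set Γ)

/-- the hypotheses of S3139 in coordinates: `φ : C(t) → Γ` with kernel `K = C(L / O(L))`. -/
structure Hy (G : Type*) [Group G] (Γ : Type*) [Group Γ] extends GD Γ where
  t : G
  t2 : t * t = 1
  t1 : t ≠ 1
  φ : centralizer ({t} : Set G) →* Γ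
  L : Subgroup (centralizer ({t} : Set G))
  Ln : L.Normal
  φL : L.map φ = G0
  odd : ∀ l ∈ L, φ l = 1 → Odd (orderOf l)
  φt : ∀ h : centralizer ({t} : Set G), (h : G) = t → φ h = 1
  cyc : ∀ P : Subgroup (centralizer ({t} : Set G)), IsPGroup 2 P → P ≤ φ.ker → IsCyclic P

end Cfsg.Agent.WA.H3
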