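import Cfsg.Agent.WA.H3RDef
import Cfsg.Agent.WA.H3U
import Cfsg.Agent.H5.PBasic
import Cfsg.Agent.H9.Fusion

/-! Semidihedral groups of order 16 and the facts on `Γ` used in the reduction of S3139. -/

set_option autoImplicit false
set_option linter.unusedSectionVars false

namespace Cfsg.Agent.WA.H3

open Subgroup H8

section gen

variable {X : Type*} [Group X] [Finite X]

theorem two_sup {W : Subgroup X} {s y : X} (hn : s ∈ normalizer (W : Set X)) (s2 : s * s ∈ W)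
    (hx : y ∈ W ⊔ zpowers s) : y ∈ W ∨ ∃ w ∈ W, y = w * s := by
  obtain ⟨w, hw, k, rfl⟩ := (H5.mem_sup_zpowers hn).1 hx
  have := fun j : ℤ => mul_mem hw (zpow_mem s2 j)
  rcases Int.even_or_odd' k with ⟨j, rfl | rfl⟩
  · exact Or.inl (by rw [zpow_mul, zpow_two]; exact this j)
  · exact Or.inr ⟨_, this j, by rw [zpow_add_one, zpow_mul, zpow_two, mul_assoc]⟩

theorem card_two {W : Subgroup X} {s : X} (hn : s ∈ normalizer (W : Set X)) (s2 : s * s ∈ W) (hs : s ∉ W) :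
    Nat.card (W ⊔ zpowers s : Subgroup X) = 2 * Nat.card W := by
  rw [← H9.card_mul_relIndex (le_sup_left : W ≤ W ⊔ zpowers s), mul_comm,
    H9.relIndex_eq_two_of (mem_sup_right (mem_zpowers s)) hs fun g hg h => ?_]
  rcases two_sup hn s2 hg with e | ⟨w, hw, rfl⟩
  · exact absurd e h
  · rw [mul_assoc]; exact mul_mem hw s2

theorem norm_of_comm {W : Subgroup X} {s : X} (h : ∀ w ∈ W, s * w = w * s) : s ∈ normalizer (W : Set X) :=
  H9.mem_normalizer_of_conj_mem fun w hw => by rwa [h w hw, mul_inv_cancel_right]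

theorem card_inv {s : X} (s2 : s * s = 1) (s1 : s ≠ 1) : Nat.card (zpowers s) = 2 := by
  have := Fact.mk Nat.prime_two
  rw [Nat.card_zpowers, orderOf_eq_prime ((pow_two s).trans s2) s1]

theorem mem_inv_iff {s y : X} (s2 : s * s = 1) : y ∈ zpowers s ↔ y = 1 ∨ y = s := by
  refine ⟨fun h => ?_, ?_⟩
  · rw [← bot_sup_eq (zpowers s)] at h
    rcases two_sup (norm_of_comm fun w hw => by rw [mem_bot.1 hw, mul_one, one_mul]) (s2 ▸ one_mem _) h with h | ⟨w, hw, rfl⟩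
    · exact Or.inl h
    · exact Or.inr (by rw [mem_bot.1 hw, one_mul])
  · rintro (rfl | rfl)
    exacts [one_mem _, mem_zpowers _]

theorem pg_card {P : Subgroup X} {n : ℕ} (h : Nat.card P = 2 ^ n) : IsPGroup 2 P := IsPGroup.of_card h

theorem bd_of_card {M : Subgroup X} {k m : ℕ} (h : Nat.card M = 2 ^ k * m) (hm : m % 2 = 1) : Bd M (2 ^ k) := by
  have := Fact.mk Nat.prime_two
  intro P hP hPM
  obtain ⟨n, hn⟩ := IsPGroup.iff_card.1 hP
  have h1 := card_dvd_of_le hPM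
  rw [hn, h] at h1
  rw [hn]
  exact Nat.le_of_dvd (by positivity) (Nat.Coprime.dvd_of_dvd_mul_right
    (Nat.Coprime.pow_left _ ((Nat.Prime.coprime_iff_not_dvd Nat.prime_two).2 (by omega))) h1)

/-- relations of the semidihedral group of order 16 -/
structure SD (x a : X) : Prop where
  x8 : x ^ 8 = 1
  x4 : x ^ 4 ≠ 1
  a2 : a * a = 1
  ax : a * x * a = x ^ 3

namespace SD

variable {x a : X} (h : SD x a)
include h

theorem ord : orderOf x = 8 :=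
  have := Fact.mk Nat.prime_two
  orderOf_eq_prime_pow (p := 2) (n := 2) h.x4 h.x8

theorem pow_eq {i j : ℕ} : x ^ i = x ^ j ↔ i % 8 = j % 8 := by
  rw [pow_eq_pow_iff_modEq, h.ord]; rfl

theorem pow_one' {i : ℕ} : x ^ i = 1 ↔ i % 8 = 0 := by rw [← pow_zero x, h.pow_eq]

theorem ainv : a⁻¹ = a := inv_eq_of_mul_eq_one_right h.a2

theorem xa (n : ℕ) : x ^ n * a = a * x ^ (3 * n) := by
  have h1 : a * x ^ n * a⁻¹ = x ^ (3 * n) := by rw [← conj_pow, h.ainv, h.ax, pow_mul]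
  rw [← h1, h.ainv, ← mul_assoc, ← mul_assoc, h.a2, one_mul]

theorem xa' (n : ℕ) (y : X) : x ^ n * (a * y) = a * (x ^ (3 * n) * y) := by
  rw [← mul_assoc, h.xa, mul_assoc]

theorem aa (y : X) : a * (a * y) = y := by rw [← mul_assoc, h.a2, one_mul]

theorem xinv : x⁻¹ = x ^ 7 := inv_eq_of_mul_eq_one_right (by rw [← pow_succ', h.x8])

theorem pinv (n : ℕ) : (x ^ n)⁻¹ = x ^ (7 * n) := by rw [← inv_pow, h.xinv, pow_mul]

theorem mm (i j : ℕ) : a * x ^ i * (a * x ^ j) = x ^ (3 * i + j) := by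
  rw [mul_assoc, h.xa', h.aa, pow_add]

theorem a_ne (i j : ℕ) : a * x ^ i ≠ x ^ j := fun e => by
  have h1 : a = x ^ (j + 7 * i) := by rw [pow_add, ← h.pinv, ← e, mul_inv_cancel_right]
  have h2 := h.xa 1
  rw [h1, ← pow_add, ← pow_add, h.pow_eq] at h2
  omega

theorem z2 : x ^ 4 * x ^ 4 = 1 := by rw [← pow_add, h.x8]

theorem za : x ^ 4 * a = a * x ^ 4 := by rw [h.xa, mul_left_cancel_iff, h.pow_eq]

theorem nf {d : X} : d ∈ closure ({x, a} : Set X) ↔ ∃ i : ℕ, d = x ^ i ∨ d = a * x ^ i := by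
  have hx : x ∈ closure ({x, a} : Set X) := subset_closure (by simp)
  have ha : a ∈ closure ({x, a} : Set X) := subset_closure (by simp)
  refine ⟨fun hd => ?_, ?_⟩
  · induction hd using closure_induction with
    | mem y hy =>
      rcases hy with rfl | rfl
      exacts [⟨1, Or.inl (pow_one _).symm⟩, ⟨0, Or.inr (by simp)⟩]
    | one => exact ⟨0, Or.inl (pow_zero _).symm⟩
    | mul y z _ _ hy hz =>
      obtain ⟨i, rfl | rfl⟩ := hy <;> obtain ⟨j, rfl | rfl⟩ := hz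
      · exact ⟨i + j, Or.inl (pow_add _ _ _).symm⟩
      · exact ⟨3 * i + j, Or.inr (by rw [h.xa', pow_add])⟩
      · exact ⟨i + j, Or.inr (by rw [mul_assoc, pow_add])⟩
      · exact ⟨3 * i + j, Or.inl (h.mm _ _)⟩
    | inv y _ hy =>
      obtain ⟨i, rfl | rfl⟩ := hy
      · exact ⟨7 * i, Or.inl (h.pinv _)⟩
      · exact ⟨3 * (7 * i), Or.inr (by rw [mul_inv_rev, h.pinv, h.ainv, h.xa])⟩
  · rintro ⟨i, rfl | rfl⟩
    exacts [pow_mem hx i, mul_mem ha (pow_mem hx i)]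

theorem card_D : Nat.card (closure ({x, a} : Set X)) = 16 := by
  have e : closure ({x, a} : Set X) = zpowers x ⊔ zpowers a := by
    rw [Set.insert_eq, Subgroup.closure_union, ← zpowers_eq_closure, ← zpowers_eq_closure]
  rw [e, card_two ?_ (h.a2 ▸ one_mem _) ?_, Nat.card_zpowers, h.ord]
  · refine H9.mem_normalizer_of_conj_mem ?_
    rintro _ ⟨k, rfl⟩
    show a * x ^ k * a⁻¹ ∈ _
    rw [← conj_zpow, h.ainv, h.ax]
    exact zpow_mem (pow_mem (mem_zpowers x) 3) k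
  · intro ha
    obtain ⟨k, e⟩ := (mem_powers_iff_mem_zpowers.2 ha : ∃ k : ℕ, x ^ k = a)
    exact h.a_ne 0 k (by rw [pow_zero, mul_one]; exact e.symm)

theorem inv {d : X} (hd : d ∈ closure ({x, a} : Set X)) (h2 : d * d = 1) :
    d = 1 ∨ d = x ^ 4 ∨ ∃ i, d = a * x ^ (2 * i) := by
  obtain ⟨i, rfl | rfl⟩ := h.nf.1 hd
  · rw [← pow_add, h.pow_one'] at h2
    rw [h.pow_one', h.pow_eq]
    omega
  · rw [h.mm, h.pow_one'] at h2
    exact Or.inr (Or.inr ⟨i / 2, by congr 2; omega⟩)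

theorem conj_a (m : ℕ) : (x ^ m)⁻¹ * (a * x ^ (2 * m)) * x ^ m = a := by
  rw [mul_assoc, mul_assoc, ← pow_add, show 2 * m + m = 3 * m by ring, ← h.xa, inv_mul_cancel_left]

theorem z_comm {d : X} (hd : d ∈ closure ({x, a} : Set X)) : x ^ 4 * d = d * x ^ 4 := by
  obtain ⟨i, rfl | rfl⟩ := h.nf.1 hd
  · rw [← pow_add, ← pow_add, add_comm]
  · rw [← mul_assoc, h.za, mul_assoc, mul_assoc, ← pow_add, ← pow_add, add_comm]

theorem s_eq : x⁻¹ * a * x = a * x ^ 6 := by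
  rw [h.xinv, h.xa, mul_assoc, ← pow_succ, mul_left_cancel_iff, h.pow_eq]

theorem as_eq : a * (x⁻¹ * a * x) = x ^ 6 := by rw [h.s_eq, h.aa]

/-- no normal four-group -/
theorem no4 {V : Subgroup X} (hV : V ≤ closure ({x, a} : Set X)) (h2 : ∀ v ∈ V, v * v = 1)
    (hn : ∀ v ∈ V, x⁻¹ * v * x ∈ V) {v : X} (hv : v ∈ V) : v = 1 ∨ v = x ^ 4 := by
  rcases h.inv (hV hv) (h2 v hv) with e | e | ⟨i, rfl⟩
  exacts [Or.inl e, Or.inr e, by
    have h3 := h2 _ (mul_mem hv (hn _ hv))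
    rw [h.xinv, h.xa', ← pow_add, mul_assoc a (x ^ (3 * 7 + 2 * i)), ← pow_succ, h.mm, ← pow_add, h.pow_one'] at h3
    omega]

/-- the second centre -/
theorem z2c {c w : X} (hc : c ∈ closure ({x, a} : Set X)) (hw : w * w = 1)
    (h1 : x⁻¹ * c * x = c ∨ x⁻¹ * c * x = c * w) (h2 : a⁻¹ * c * a = c ∨ a⁻¹ * c * a = c * w) :
    ∃ m, c = x ^ (2 * m) := by
  obtain ⟨i, rfl | rfl⟩ := h.nf.1 hc
  · rw [h.ainv, mul_assoc, h.xa, h.aa] at h2
    refine ⟨i / 2, ?_⟩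
    rcases h2 with e | e
    · rw [h.pow_eq] at e ⊢; omega
    · rw [show 3 * i = i + 2 * i by ring, pow_add, mul_left_cancel_iff] at e
      rw [← e, ← pow_add, h.pow_one'] at hw
      rw [h.pow_eq]; omega
  · exfalso
    rw [h.xinv, h.xa', ← pow_add, mul_assoc a, ← pow_succ, mul_left_cancel_iff, mul_assoc, mul_left_cancel_iff] at h1
    rcases h1 with e | e
    · rw [h.pow_eq] at e; omega
    · rw [show 3 * 7 + i + 1 = i + 22 by ring, pow_add, mul_left_cancel_iff] at e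
      rw [← e, ← pow_add, h.pow_one'] at hw
      omega

end SD

end gen

variable {Γ : Type*} [Group Γ] [Finite Γ]

namespace GD

variable (d : GD Γ)

theorem sd : SD d.x d.a := ⟨d.x8, d.x4, d.a2, d.ax⟩

/-- the semidihedral Sylow subgroup of `G0` -/
def D : Subgroup Γ := closure {d.x, d.a}

/-- the holomorph of `Z₈` -/
def Hol : Subgroup Γ := d.D ⊔ zpowers d.u

/-- the four-group -/
def A : Subgroup Γ := zpowers (d.x ^ 4) ⊔ zpowers d.a

theorem x_D : d.x ∈ d.D := subset_closure (by simp)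
theorem a_D : d.a ∈ d.D := subset_closure (by simp)
theorem D_le : d.D ≤ d.G0 := (closure_le _).2 (by rintro _ (rfl | rfl); exacts [d.x0, d.a0])
theorem uinv : d.u⁻¹ = d.u := inv_eq_of_mul_eq_one_right d.u2
theorem uxp (n : ℕ) : d.u * d.x ^ n * d.u = d.x ^ (5 * n) := by
  have : d.u * d.x ^ n * d.u⁻¹ = d.x ^ (5 * n) := by rw [← conj_pow, d.uinv, d.ux, pow_mul]
  rwa [d.uinv] at this
theorem ux2 (m : ℕ) : d.u * d.x ^ (2 * m) = d.x ^ (2 * m) * d.u := by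
  have := d.uxp (2 * m)
  rw [show d.x ^ (5 * (2 * m)) = d.x ^ (2 * m) from d.sd.pow_eq.2 (by omega)] at this
  calc _ = d.u * d.x ^ (2 * m) * d.u * d.u := by rw [mul_assoc _ d.u, d.u2, mul_one]
    _ = _ := by rw [this]

theorem u_norm : d.u ∈ normalizer (d.D : Set Γ) := H9.mem_normalizer_of_conj_mem fun y hy => by
  obtain ⟨i, rfl | rfl⟩ := d.sd.nf.1 hy
  · rw [d.uinv, d.uxp]; exact pow_mem d.x_D _
  · rw [d.uinv, ← mul_assoc, ← d.au, mul_assoc d.a, mul_assoc d.a, d.uxp]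
    exact mul_mem d.a_D (pow_mem d.x_D _)

theorem card_D : Nat.card d.D = 16 := d.sd.card_D
theorem card_Hol : Nat.card d.Hol = 32 := by
  rw [Hol, card_two d.u_norm (d.u2 ▸ one_mem _) fun h => d.u0 (d.D_le h), d.card_D]
theorem pg_D : IsPGroup 2 d.D := pg_card (n := 4) d.card_D
theorem pg_Hol : IsPGroup 2 d.Hol := pg_card (n := 5) d.card_Hol
theorem mem_Hol {y : Γ} (h : y ∈ d.Hol) : y ∈ d.D ∨ ∃ w ∈ d.D, y = w * d.u :=
  two_sup d.u_norm (d.u2 ▸ one_mem _) h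
theorem u_Hol : d.u ∈ d.Hol := mem_sup_right (mem_zpowers _)
theorem D_Hol : d.D ≤ d.Hol := le_sup_left
theorem mem_D {y : Γ} (h : y ∈ d.Hol) (h0 : y ∈ d.G0) : y ∈ d.D := by
  rcases d.mem_Hol h with h | ⟨w, hw, rfl⟩
  · exact h
  · exact absurd ((mul_mem_cancel_left (d.D_le hw)).1 h0) d.u0

include d in
theorem bd_top : Bd (⊤ : Subgroup Γ) 32 := bd_of_card (k := 5) (m := 351) (by rw [card_top, d.card]; rfl) rfl
theorem card_G0 : Nat.card d.G0 = 5616 := by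
  have := d.G0.card_mul_index
  rw [d.idx, d.card] at this
  omega
theorem bd_G0 : Bd d.G0 16 := bd_of_card (k := 4) (m := 351) d.card_G0 rfl
theorem syl_Hol : IsSylowIn 2 d.Hol ⊤ := d.bd_top.syl d.pg_Hol le_top d.card_Hol.ge
theorem syl_D : IsSylowIn 2 d.D d.G0 := d.bd_G0.syl d.pg_D d.D_le d.card_D.ge
theorem normal : d.G0.Normal := normal_of_index_eq_two d.idx
theorem mul0 {a b : Γ} : a * b ∈ d.G0 ↔ (a ∈ d.G0 ↔ b ∈ d.G0) := mul_mem_iff_of_index_two d.idx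
theorem sq0 (a : Γ) : a * a ∈ d.G0 := d.mul0.2 Iff.rfl
theorem cj0 {a : Γ} (g : Γ) : g⁻¹ * a * g ∈ d.G0 ↔ a ∈ d.G0 := by
  rw [d.mul0, d.mul0, inv_mem_iff]; tauto
theorem cm0 (a b : Γ) : a⁻¹ * (b⁻¹ * a * b) ∈ d.G0 := by rw [d.mul0, d.cj0, inv_mem_iff]

theorem a1 : d.a ≠ 1 := fun e => d.sd.a_ne 0 0 (by rw [e]; simp)
theorem az : d.a ≠ d.x ^ 4 := fun e => d.sd.a_ne 0 4 (by rw [← e]; simp)
theorem a_norm : d.a ∈ normalizer ((zpowers (d.x ^ 4) : Subgroup Γ) : Set Γ) := norm_of_comm fun w hw => by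
  rcases (mem_inv_iff d.sd.z2).1 hw with rfl | rfl
  exacts [by simp, d.sd.za.symm]
theorem card_A : Nat.card d.A = 4 := by
  rw [A, card_two d.a_norm (d.a2 ▸ one_mem _) fun h => ?_, card_inv d.sd.z2 d.x4]
  rcases (mem_inv_iff d.sd.z2).1 h with e | e
  exacts [d.a1 e, d.az e]
theorem mem_A {y : Γ} : y ∈ d.A ↔ y = 1 ∨ y = d.x ^ 4 ∨ y = d.a ∨ y = d.a * d.x ^ 4 := by
  refine ⟨fun h => ?_, ?_⟩
  · rcases two_sup d.a_norm (d.a2 ▸ one_mem _) h with h | ⟨w, hw, rfl⟩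
    · rcases (mem_inv_iff d.sd.z2).1 h with e | e <;> simp [e]
    · rcases (mem_inv_iff d.sd.z2).1 hw with rfl | rfl
      · simp
      · simp [d.sd.za]
  · have h1 : d.x ^ 4 ∈ d.A := mem_sup_left (mem_zpowers _)
    have h2 : d.a ∈ d.A := mem_sup_right (mem_zpowers _)
    rintro (rfl | rfl | rfl | rfl)
    exacts [one_mem _, h1, h2, mul_mem h2 h1]
theorem A_le : d.A ≤ d.G0 := sup_le (zpowers_le.2 (pow_mem d.x0 4)) (zpowers_le.2 d.a0)
theorem uA {y : Γ} (h : y ∈ d.A) : d.u * y = y * d.u := by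
  have h1 : Commute d.u (d.x ^ 4) := d.ux2 2
  have h2 : Commute d.u d.a := d.au.symm
  rcases d.mem_A.1 h with rfl | rfl | rfl | rfl
  exacts [by simp, h1, h2, h2.mul_right h1]

/-- the elementary group of order eight -/
def F : Subgroup Γ := d.A ⊔ zpowers d.u

theorem card_F : Nat.card d.F = 8 := by
  rw [F, card_two (norm_of_comm fun w hw => d.uA hw) (d.u2 ▸ one_mem _) fun h => d.u0 (d.A_le h), d.card_A]
theorem cA' {g : Γ} (h1 : g * d.x ^ 4 = d.x ^ 4 * g) (h2 : g * d.a = d.a * g) : g ∈ d.F :=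
  (closure_le d.F).2 (by
    rintro _ (rfl | rfl | rfl)
    exacts [mem_sup_right (mem_zpowers _), mem_sup_left (mem_sup_left (mem_zpowers _)),
      mem_sup_left (mem_sup_right (mem_zpowers _))]) (d.cA g h1 h2)
theorem mem_F {y : Γ} (h : y ∈ d.F) : y ∈ d.A ∨ ∃ w ∈ d.A, y = w * d.u :=
  two_sup (norm_of_comm fun _ hw => d.uA hw) (d.u2 ▸ one_mem _) h
theorem F_A {y : Γ} (h : y ∈ d.F) (h0 : y ∈ d.G0) : y ∈ d.A := by
  rcases d.mem_F h with h | ⟨w, hw, rfl⟩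
  · exact h
  · exact absurd ((mul_mem_cancel_left (d.A_le hw)).1 h0) d.u0
theorem uF {y : Γ} (h : y ∈ d.F) : y * d.u = d.u * y := by
  rcases d.mem_F h with h | ⟨w, hw, rfl⟩
  · exact (d.uA h).symm
  · rw [← mul_assoc, d.uA hw]

theorem ux_ne (m : ℕ) : d.u * d.x ^ m * d.x ≠ d.x * (d.u * d.x ^ m) := fun e => by
  have h1 : d.x * d.u = d.u * d.x ^ 5 := by rw [← d.ux, ← mul_assoc, ← mul_assoc, d.u2, one_mul]
  rw [← mul_assoc, h1, mul_assoc, mul_assoc, ← pow_succ, ← pow_add, mul_left_cancel_iff, d.sd.pow_eq] at e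
  omega

theorem cD {g : Γ} (h1 : g * d.x = d.x * g) (h2 : g * d.a = d.a * g) : g = 1 ∨ g = d.x ^ 4 := by
  have h1' : Commute g d.x := h1
  rcases d.cQ g (h1'.pow_right 2) ((show Commute g d.a from h2).mul_right h1') with e | e | rfl | rfl
  exacts [Or.inl e, Or.inr e, absurd h1 (d.ux_ne _), absurd h1 (d.ux_ne _)]

theorem bd_u : Bd (centralizer {d.u}) 16 := by
  have := Fact.mk Nat.prime_two
  intro P hP hPu
  have hu : d.u ∈ normalizer (P : Set Γ) := norm_of_comm fun w hw => (mem_centralizer_singleton_iff.1 (hPu hw)).symm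
  by_contra hc
  obtain ⟨n, hn⟩ := IsPGroup.iff_card.1 hP
  have h32 : 32 ≤ Nat.card P := by
    rw [hn] at hc ⊢
    exact Nat.pow_le_pow_right (n := 2) two_pos (i := 5) (by
      by_contra h
      exact hc (Nat.pow_le_pow_right (n := 2) two_pos (j := 4) (by omega)))
  have hS := d.bd_top.syl hP le_top h32
  obtain ⟨g, -, hg⟩ := hS.exists_cj_eq d.syl_Hol
  have key : ∀ y ∈ d.Hol, g * d.u * g⁻¹ * y = y * (g * d.u * g⁻¹) := fun y hy => by
    rw [← hg, mem_cj] at hy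
    have := mem_centralizer_singleton_iff.1 (hPu hy)
    calc g * d.u * g⁻¹ * y = g * (d.u * (g⁻¹ * y * g)) * g⁻¹ := by group
      _ = _ := by rw [← this]; group
  have h0 : g * d.u * g⁻¹ ∈ d.G0 := by
    rcases d.cD (key _ (d.D_Hol d.x_D)) (key _ (d.D_Hol d.a_D)) with e | e <;> rw [e]
    exacts [one_mem _, pow_mem d.x0 4]
  exact d.u0 ((d.cj0 g⁻¹).1 (by rwa [inv_inv]))

theorem nA {g : Γ} (hz : g⁻¹ * d.x ^ 4 * g ∈ d.A) (ha : g⁻¹ * d.a * g ∈ d.A) : g * d.u = d.u * g := by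
  have adj : ∀ g w : Γ, w * d.u = d.u * w → g * w * d.u = d.u * (g * w) → g * d.u = d.u * g := fun g w h1 h2 => by
    rw [mul_assoc, h1, ← mul_assoc, ← mul_assoc] at h2; exact mul_right_cancel h2
  have cm : ∀ g w y : Γ, (g * w)⁻¹ * y * (g * w) = w⁻¹ * (g⁻¹ * y * g) * w := fun g w y => by group
  have s1 : ∀ g : Γ, g⁻¹ * d.x ^ 4 * g = d.x ^ 4 → g⁻¹ * d.a * g = d.a → g * d.u = d.u * g := fun g h1 h2 =>
    d.uF (d.cA' (by rw [mul_assoc, inv_mul_eq_iff_eq_mul] at h1; exact h1.symm)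
      (by rw [mul_assoc, inv_mul_eq_iff_eq_mul] at h2; exact h2.symm))
  have s2 : ∀ g : Γ, g⁻¹ * d.x ^ 4 * g = d.x ^ 4 → g⁻¹ * d.a * g ∈ d.A → g * d.u = d.u * g := fun g h1 h2 => by
    rcases d.mem_A.1 h2 with e | e | e | e
    · exact absurd (by simpa [mul_eq_one_iff_eq_inv] using e) d.a1
    · exact absurd (by simpa using e.trans h1.symm) d.az
    · exact s1 g h1 e
    · refine adj g (d.x ^ 2) (d.ux2 1).symm (s1 _ ?_ ?_) <;> rw [cm]
      · rw [h1, mul_assoc, ← pow_add, add_comm, pow_add, inv_mul_cancel_left]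
      · rw [e, d.sd.pinv, d.sd.xa', mul_assoc, ← pow_add, ← pow_add, mul_eq_left, d.sd.pow_one']
  have r3 : d.ρ⁻¹ * (d.a * d.x ^ 4) * d.ρ = d.x ^ 4 := by
    rw [show d.ρ⁻¹ * (d.a * d.x ^ 4) * d.ρ = d.ρ⁻¹ * d.a * d.ρ * (d.ρ⁻¹ * d.x ^ 4 * d.ρ) by group, d.ρa, d.ρz,
      mul_assoc, d.sd.za, d.sd.aa]
  have rA : ∀ y ∈ d.A, d.ρ⁻¹ * y * d.ρ ∈ d.A := fun y hy => by
    rw [d.mem_A]
    rcases d.mem_A.1 hy with rfl | rfl | rfl | rfl
    exacts [by simp, by simp [d.ρz], by simp [d.ρa], by simp [r3]]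
  rcases d.mem_A.1 hz with e | e | e | e
  · exact absurd (by simpa [mul_eq_one_iff_eq_inv] using e) d.x4
  · exact s2 g e ha
  · exact adj g _ d.ρu (adj _ _ d.ρu (s2 _ (by rw [cm, cm, e, d.ρa, r3]) (by rw [cm, cm]; exact rA _ (rA _ ha))))
  · exact adj g _ d.ρu (s2 _ (by rw [cm, e, r3]) (by rw [cm]; exact rA _ ha))

/-- transport of a Sylow subgroup of `G0` -/
theorem exists_cj {P : Subgroup Γ} (hP : IsPGroup 2 P) (hle : P ≤ d.G0) (hc : 16 ≤ Nat.card P) :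
    ∃ g, ∀ y, y ∈ P ↔ g⁻¹ * y * g ∈ d.D :=
  have := Fact.mk Nat.prime_two
  let ⟨g, _, hg⟩ := d.syl_D.exists_cj_eq (d.bd_G0.syl hP hle hc)
  ⟨g, fun _ => by rw [← hg, mem_cj]⟩

theorem no4 {P V : Subgroup Γ} (hP : IsPGroup 2 P) (hle : P ≤ d.G0) (hc : 16 ≤ Nat.card P) (hV : V ≤ P)
    (hn : P ≤ normalizer (V : Set Γ)) (h2 : ∀ v ∈ V, v * v = 1) {v w : Γ} (hv : v ∈ V) (hw : w ∈ V)
    (v1 : v ≠ 1) (w1 : w ≠ 1) : v = w := by
  obtain ⟨g, hg⟩ := d.exists_cj hP hle hc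
  have key : ∀ v ∈ V, v ≠ 1 → g⁻¹ * v * g = d.x ^ 4 := fun v hv v1 => by
    refine (d.sd.no4 (V := cj g⁻¹ V) (fun y hy => ?_) (fun y hy => ?_) (fun y hy => ?_)
      (mem_cj.2 (by simpa [mul_assoc] using hv))).resolve_left fun e => v1 (by simpa [mul_eq_one_iff_eq_inv] using e)
    · have := (hg _).1 (hV (mem_cj.1 hy))
      simpa [mul_assoc, D] using this
    · have := h2 _ (mem_cj.1 hy)
      rw [inv_inv, conj_mul, mul_inv_eq_one, mul_eq_left] at this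
      exact this
    · have h1 : g * d.x * g⁻¹ ∈ P := (hg _).2 (by simpa [mul_assoc] using d.x_D)
      have := H9.conj_mem_of_mem_normalizer' (hn h1) (mem_cj.1 hy)
      rw [mem_cj]
      simpa [mul_assoc] using this
  simpa using (key v hv v1).trans (key w hw w1).symm

theorem h3 {P : Subgroup Γ} (hP : IsPGroup 2 P) (hle : P ≤ d.G0) (hc : 16 ≤ Nat.card P) (ha : d.a ∈ P)
    (hs : d.x⁻¹ * d.a * d.x ∈ P) {c : Γ} (hcP : c ∈ P)
    (h : ∀ r ∈ P, r⁻¹ * c * r = c ∨ r⁻¹ * c * r = c * d.x ^ 4) : ∃ m : ℕ, c = (d.x ^ 6) ^ m := by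
  obtain ⟨g, hg⟩ := d.exists_cj hP hle hc
  have cm : ∀ y y' : Γ, g⁻¹ * y * g * (g⁻¹ * y' * g) = g⁻¹ * (y * y') * g := fun y y' => by group
  have tr : ∀ y ∈ d.D, y⁻¹ * (g⁻¹ * c * g) * y = g⁻¹ * c * g ∨
      y⁻¹ * (g⁻¹ * c * g) * y = g⁻¹ * c * g * (g⁻¹ * d.x ^ 4 * g) := fun y hy => by
    have e : y⁻¹ * (g⁻¹ * c * g) * y = g⁻¹ * ((g * y * g⁻¹)⁻¹ * c * (g * y * g⁻¹)) * g := by group
    rcases h (g * y * g⁻¹) ((hg _).2 (by simpa [mul_assoc] using hy)) with h | h <;> rw [e, h]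
    exacts [Or.inl rfl, Or.inr (cm _ _).symm]
  obtain ⟨m, hm⟩ := d.sd.z2c ((hg c).1 hcP) (by rw [cm, d.sd.z2]; simp) (tr _ d.x_D) (tr _ d.a_D)
  have e6 : g⁻¹ * d.a * g * (g⁻¹ * (d.x⁻¹ * d.a * d.x) * g) = g⁻¹ * d.x ^ 6 * g := by rw [cm, d.sd.as_eq]
  have n6 : g⁻¹ * d.x ^ 6 * g * (g⁻¹ * d.x ^ 6 * g) ≠ 1 := fun e => by
    rw [cm, ← pow_add, mul_assoc, inv_mul_eq_one, eq_comm, mul_eq_right, d.sd.pow_one'] at e
    omega
  have s2 : d.x⁻¹ * d.a * d.x * (d.x⁻¹ * d.a * d.x) = 1 := by rw [d.sd.s_eq, d.sd.mm, d.sd.pow_one']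
  have ha2 : g⁻¹ * d.a * g * (g⁻¹ * d.a * g) = 1 := by rw [cm, d.a2]; simp
  have hs2 : g⁻¹ * (d.x⁻¹ * d.a * d.x) * g * (g⁻¹ * (d.x⁻¹ * d.a * d.x) * g) = 1 := by rw [cm, s2]; simp
  have ha' := (hg _).1 ha
  have hs' := (hg _).1 hs
  rw [← e6] at n6
  generalize g⁻¹ * d.a * g = a' at *
  generalize g⁻¹ * (d.x⁻¹ * d.a * d.x) * g = s' at *
  have nc : a' * s' ≠ s' * a' := fun e => n6 (by
    rw [mul_assoc, ← mul_assoc s', ← e, mul_assoc, hs2, mul_one, ha2])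
  obtain ⟨i, rfl⟩ := ((d.sd.inv ha' ha2).resolve_left fun e => nc (by simp [e])).resolve_left
    fun e => nc (by rw [e, d.sd.z_comm hs'])
  obtain ⟨j, rfl⟩ := ((d.sd.inv hs' hs2).resolve_left fun e => nc (by simp [e])).resolve_left
    fun e => nc (by rw [e, d.sd.z_comm ha'])
  rw [d.sd.mm] at e6 n6
  rw [← pow_add, Ne, d.sd.pow_one'] at n6
  refine ⟨m * (3 * (2 * i) + 2 * j) / 2, ?_⟩
  have e7 : g⁻¹ * c * g = (g⁻¹ * d.x ^ 6 * g) ^ (m * (3 * (2 * i) + 2 * j) / 2) := by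
    rw [← e6, hm, ← pow_mul, d.sd.pow_eq]
    have : m * (3 * (2 * i) + 2 * j) / 2 = m * (3 * i + j) := by
      rw [show m * (3 * (2 * i) + 2 * j) = m * (3 * i + j) * 2 by ring, Nat.mul_div_cancel _ two_pos]
    rw [this]
    obtain ⟨k, hk⟩ : ∃ k, 3 * i + j = 2 * k + 1 := ⟨(3 * i + j) / 2, by omega⟩
    rw [show 3 * (2 * i) + 2 * j = 2 * (3 * i + j) by ring, hk,
      show 2 * (2 * k + 1) * (m * (2 * k + 1)) = 2 * m + 8 * (m * (k * k + k)) by ring]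
    omega
  have e8 : (g⁻¹ * d.x ^ 6 * g⁻¹⁻¹) ^ (m * (3 * (2 * i) + 2 * j) / 2) = _ := conj_pow
  rw [inv_inv] at e8
  rw [e8] at e7
  simpa using e7

theorem uQ {q : Γ} (h0 : q ∈ d.G0) (hq : q * q = d.x ^ 4) : d.u * d.x ^ 2 * q = q * (d.u * d.x ^ 2) := by
  refine mem_centralizer_singleton_iff.1 ((closure_le (centralizer {d.u * d.x ^ 2})).2 ?_ (d.sq q h0 hq)) |>.symm
  rintro _ (rfl | rfl) <;> rw [SetLike.mem_coe, mem_centralizer_singleton_iff]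
  · rw [← mul_assoc, ← d.ux2 1, mul_assoc]
  · have h1 : d.x * d.u = d.u * d.x ^ 5 := by rw [← d.ux, ← mul_assoc, ← mul_assoc, d.u2, one_mul]
    rw [mul_assoc, ← mul_assoc d.x, h1, ← mul_assoc, ← mul_assoc, d.au, mul_assoc d.u, mul_assoc d.u, mul_assoc d.u,
      d.sd.xa', mul_assoc, ← pow_add, ← pow_succ]

end GD

end Cfsg.Agent.WA.H3
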