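import Cfsg.Agent.WA.H3Ra
import Cfsg.Agent.H8.Coprime

/-! The map `φ` and the Sylow set-up in the reduction of S3139. -/

set_option autoImplicit false
set_option linter.unusedSectionVars false

namespace Cfsg.Agent.WA.H3

open Subgroup H8

variable {G : Type*} [Group G] [Finite G] {Γ : Type*} [Group Γ] [Finite Γ]

namespace Hy

variable (h : Hy G Γ)

/-- the centralizer -/
def H : Subgroup G := centralizer {h.t}

open Classical in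
/-- `φ` as a function on `G` -/
noncomputable def ph (g : G) : Γ := if hg : g ∈ centralizer ({h.t} : Set G) then h.φ ⟨g, hg⟩ else 1

/-- the component -/
def LL : Subgroup G := h.L.map (centralizer ({h.t} : Set G)).subtype

/-- preimage -/
def pre (Y : Subgroup Γ) : Subgroup G := (Y.comap h.φ).map (centralizer ({h.t} : Set G)).subtype

/-- image -/
def im (P : Subgroup G) : Subgroup Γ := (P.subgroupOf (centralizer ({h.t} : Set G))).map h.φ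

variable {h}

theorem mem_H {g : G} : g ∈ h.H ↔ g * h.t = h.t * g := mem_centralizer_singleton_iff
theorem ph_coe (g : centralizer ({h.t} : Set G)) : h.ph g = h.φ g := dif_pos g.2
theorem ph_mul {a b : G} (ha : a ∈ h.H) (hb : b ∈ h.H) : h.ph (a * b) = h.ph a * h.ph b :=
  (ph_coe (⟨a, ha⟩ * ⟨b, hb⟩)).trans ((map_mul _ _ _).trans (by rw [← ph_coe, ← ph_coe]))
theorem ph_one : h.ph 1 = 1 := (ph_coe 1).trans (map_one _)
theorem ph_inv {a : G} (ha : a ∈ h.H) : h.ph a⁻¹ = (h.ph a)⁻¹ :=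
  (ph_coe (⟨a, ha⟩⁻¹)).trans ((map_inv _ _).trans (by rw [← ph_coe]))
theorem ph_pow {a : G} (ha : a ∈ h.H) (n : ℕ) : h.ph (a ^ n) = h.ph a ^ n :=
  (ph_coe (⟨a, ha⟩ ^ n)).trans ((map_pow _ _ _).trans (by rw [← ph_coe]))
theorem ph_cj {a g : G} (ha : a ∈ h.H) (hg : g ∈ h.H) : h.ph (g⁻¹ * a * g) = (h.ph g)⁻¹ * h.ph a * h.ph g := by
  rw [ph_mul (mul_mem (inv_mem hg) ha) hg, ph_mul (inv_mem hg) ha, ph_inv hg]
theorem ph_comm {a b : G} (ha : a ∈ h.H) (hb : b ∈ h.H) (e : a * b = b * a) : h.ph a * h.ph b = h.ph b * h.ph a := by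
  rw [← ph_mul ha hb, e, ph_mul hb ha]
theorem t_H : h.t ∈ h.H := mem_H.2 rfl
theorem ph_t : h.ph h.t = 1 := (ph_coe ⟨_, t_H⟩).trans (h.φt _ rfl)
theorem tinv : h.t⁻¹ = h.t := inv_eq_of_mul_eq_one_right h.t2
theorem t_cj {g : G} (hg : g ∈ h.H) : g⁻¹ * h.t * g = h.t := by rw [mul_assoc, ← mem_H.1 hg, inv_mul_cancel_left]

theorem LL_le : h.LL ≤ h.H := map_subtype_le _
theorem LL_cj {g l : G} (hg : g ∈ h.H) (hl : l ∈ h.LL) : g⁻¹ * l * g ∈ h.LL := by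
  obtain ⟨l, hl, rfl⟩ := hl
  exact ⟨_, h.Ln.conj_mem' l hl ⟨g, hg⟩, rfl⟩
theorem LL_norm : h.H ≤ normalizer (h.LL : Set G) := fun g hg =>
  H9.mem_normalizer_of_conj_mem fun l hl => by simpa using LL_cj (inv_mem hg) hl
theorem ph_LL {l : G} (hl : l ∈ h.LL) : h.ph l ∈ h.G0 := by
  obtain ⟨l, hl, rfl⟩ := hl
  rw [← h.φL]; exact ⟨l, hl, (ph_coe l).symm⟩
theorem LL_surj {y : Γ} (hy : y ∈ h.G0) : ∃ l ∈ h.LL, h.ph l = y := by
  rw [← h.φL] at hy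
  obtain ⟨l, hl, rfl⟩ := hy
  exact ⟨l, ⟨l, hl, rfl⟩, ph_coe l⟩
theorem LL_odd {l : G} (hl : l ∈ h.LL) (e : h.ph l = 1) : Odd (orderOf l) := by
  obtain ⟨l, hl, rfl⟩ := hl
  have := h.odd l hl ((ph_coe l).symm.trans e)
  rwa [← Subgroup.orderOf_coe] at this
theorem eq_one {l : G} (hl : l ∈ h.LL) (e : h.ph l = 1) (h2 : ∃ k, l ^ 2 ^ k = 1) : l = 1 := by
  obtain ⟨k, hk⟩ := h2
  rw [← orderOf_eq_one_iff]
  exact Nat.Coprime.eq_one_of_dvd (Nat.Coprime.pow_right k (LL_odd hl e).coprime_two_right) (orderOf_dvd_of_pow_eq_one hk)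
theorem t_LL : h.t ∉ h.LL := fun hl => h.t1 (eq_one hl ph_t ⟨1, (pow_two _).trans h.t2⟩)

theorem mem_pre {Y : Subgroup Γ} {g : G} : g ∈ h.pre Y ↔ g ∈ h.H ∧ h.ph g ∈ Y :=
  ⟨fun ⟨y, hy, e⟩ => e ▸ ⟨y.2, (ph_coe y).symm ▸ hy⟩, fun ⟨h1, h2⟩ => ⟨⟨g, h1⟩, (ph_coe ⟨g, h1⟩ ▸ h2 :), rfl⟩⟩
theorem mem_K {g : G} : g ∈ h.pre ⊥ ↔ g ∈ h.H ∧ h.ph g = 1 := mem_pre
theorem pre_le (Y : Subgroup Γ) : h.pre Y ≤ h.H := map_subtype_le _
theorem mem_im {P : Subgroup G} (hP : P ≤ h.H) {y : Γ} : y ∈ h.im P ↔ ∃ p ∈ P, h.ph p = y :=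
  ⟨fun ⟨p, hp, e⟩ => ⟨p, hp, (ph_coe p).trans e⟩, fun ⟨p, hp, e⟩ => ⟨⟨p, hP hp⟩, hp, (ph_coe ⟨p, hP hp⟩).symm.trans e⟩⟩
theorem pg_im {P : Subgroup G} (hP : IsPGroup 2 P) : IsPGroup 2 (h.im P) := (pgroup_subgroupOf hP _).map _

theorem card_im {P : Subgroup G} (hP : P ≤ h.H) : Nat.card P = Nat.card ↥(P ⊓ h.pre ⊥) * Nat.card (h.im P) := by
  let r : P →* Γ := h.φ.comp (inclusion hP)
  have h1 : r.range = h.im P := by
    ext y
    rw [mem_im hP]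
    exact ⟨fun ⟨p, e⟩ => ⟨p, p.2, (ph_coe (h := h) ⟨p.1, hP p.2⟩).trans e⟩, fun ⟨p, hp, e⟩ => ⟨⟨p, hp⟩, (ph_coe ⟨p, hP hp⟩).symm.trans e⟩⟩
  have h2 : r.ker = (h.pre ⊥).subgroupOf P := by
    ext p
    rw [mem_subgroupOf, mem_K, show h.ph p = _ from ph_coe (h := h) ⟨p.1, hP p.2⟩]
    exact ⟨fun e => ⟨hP p.2, e⟩, fun e => e.2⟩
  rw [← h1, ← index_ker, ← r.ker.card_mul_index, h2, ← inf_subgroupOf_left,
    Nat.card_congr (subgroupOfEquivOfLe inf_le_left).toEquiv]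

theorem syl_im {P M : Subgroup G} (hP : IsSylowIn 2 P M) (hM : M ≤ h.H) : IsSylowIn 2 (h.im P) (h.im M) := by
  have := Fact.mk Nat.prime_two
  refine IsSylowIn.map (IsSylowIn.of_not_dvd_relIndex (comap_mono hP.le) (pgroup_subgroupOf hP.pgroup _) ?_) _
  exact (relIndex_subgroupOf (H := P) hM).symm ▸ hP.not_dvd_relIndex

theorem cyc' {P : Subgroup G} (hP : IsPGroup 2 P) (hK : P ≤ h.pre ⊥) : IsCyclic P := by
  have : IsCyclic (P.subgroupOf h.H) := h.cyc (P.subgroupOf _) (pgroup_subgroupOf hP _) fun p hp => (ph_coe p).symm.trans (mem_K.1 (hK hp)).2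
  exact isCyclic_of_surjective _ (subgroupOfEquivOfLe (hK.trans (pre_le _))).surjective

/-- `t` is the only involution of the kernel -/
theorem inv_K {k : G} (hk : k ∈ h.H) (e : h.ph k = 1) (k2 : k * k = 1) : k = 1 ∨ k = h.t := by
  have hn : k ∈ normalizer ((zpowers h.t : Subgroup G) : Set G) := norm_of_comm fun w hw => by
    rcases (mem_inv_iff h.t2).1 hw with rfl | rfl
    exacts [by simp, mem_H.1 hk]
  by_contra hc
  have hk1 : k ∉ zpowers h.t := fun hk => hc ((mem_inv_iff h.t2).1 hk)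
  have h4 := card_two hn (k2 ▸ one_mem _) hk1
  rw [card_inv h.t2 h.t1] at h4
  have := cyc' (h := h) (pg_card (n := 2) h4) (sup_le (zpowers_le.2 (mem_K.2 ⟨t_H, ph_t⟩)) (zpowers_le.2 (mem_K.2 ⟨hk, e⟩)))
  obtain ⟨g, hg⟩ := this.exists_ofOrder_eq_natCard
  have h5 : (g : G) * g = 1 := by
    rcases two_sup hn (k2 ▸ one_mem _) g.2 with e | ⟨w, hw, e⟩
    · rcases (mem_inv_iff h.t2).1 e with e | e <;> rw [e]
      exacts [mul_one _, h.t2]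
    · rw [e]
      rcases (mem_inv_iff h.t2).1 hw with rfl | rfl
      · rw [one_mul, k2]
      · rw [mul_assoc, ← mul_assoc k, mem_H.1 hk, mul_assoc, k2, mul_one, h.t2]
  have := orderOf_dvd_of_pow_eq_one (show g ^ 2 = 1 from Subtype.ext ((pow_two _).trans h5))
  rw [hg, h4] at this
  omega

/-- lifting of conjugacy along the odd kernel -/
theorem lift {P P' : Subgroup G} (hP : IsPGroup 2 P) (hPH : P ≤ h.H) {l : G} (hl : l ∈ h.LL)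
    (hf : ∀ p ∈ P, ∃ p' ∈ P', p' * (l⁻¹ * p * l)⁻¹ ∈ h.LL ⊓ h.pre ⊥) :
    ∃ l' ∈ h.LL, h.ph l' = h.ph l ∧ ∀ p ∈ P, l'⁻¹ * p * l' ∈ P' := by
  have := Fact.mk Nat.prime_two
  have hc : CopAct (cj l⁻¹ P) (h.LL ⊓ h.pre ⊥) := by
    refine ⟨fun g hg => H9.mem_normalizer_of_conj_mem fun o ho => ?_, ?_, Or.inl ?_⟩
    · have hg : g ∈ h.H := cj_le_of_mem (inv_mem (LL_le hl)) hPH hg
      have h1 := ph_cj (LL_le ho.1) (inv_mem hg)
      rw [(mem_K.1 ho.2).2, mul_one, inv_mul_cancel, inv_inv] at h1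
      exact ⟨by simpa using LL_cj (inv_mem hg) ho.1, mem_K.2 ⟨mul_mem (mul_mem hg (LL_le ho.1)) (inv_mem hg), h1⟩⟩
    · obtain ⟨n, hn⟩ := IsPGroup.iff_card.1 (pgroup_cj hP l⁻¹)
      rw [hn]
      refine Nat.Coprime.pow_left _ ((Nat.Prime.coprime_iff_not_dvd Nat.prime_two).2 fun hd => ?_)
      obtain ⟨o, ho⟩ := exists_prime_orderOf_dvd_card' 2 hd
      have := LL_odd o.2.1 (mem_K.1 o.2.2).2
      rw [Subgroup.orderOf_coe, ho] at this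
      exact absurd this (by decide)
    · have := (pgroup_cj hP l⁻¹).isNilpotent
      infer_instance
  obtain ⟨k, hk, h1⟩ := hc.exists_conj_mem (H := P') fun a ha => by
    obtain ⟨p', hp', h2⟩ := hf _ (mem_cj.1 ha)
    exact ⟨_, h2, by simpa [mul_assoc] using hp'⟩
  refine ⟨l * k, mul_mem hl hk.1, by rw [ph_mul (LL_le hl) (LL_le hk.1), (mem_K.1 hk.2).2, mul_one], fun p hp => ?_⟩
  have := h1 (l⁻¹ * p * l) (mem_cj.2 (by simpa [mul_assoc] using hp))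
  simpa [mul_assoc] using this

end Hy

/-- a Sylow `2`-subgroup of `C(t)` in standard position -/
structure St (h : Hy G Γ) where
  T : Subgroup G
  x : G
  a : G
  syl : IsSylowIn 2 T h.H
  im_le : ∀ g ∈ T, h.ph g ∈ h.Hol
  xT : x ∈ T
  aT : a ∈ T
  xL : x ∈ h.LL
  aL : a ∈ h.LL
  phx : h.ph x = h.x
  pha : h.ph a = h.a

theorem Hy.exists_St (h : Hy G Γ) {U : Subgroup G} (hU : IsPGroup 2 U) (hle : U ≤ h.pre h.Hol) :
    ∃ S : St h, U ≤ S.T := by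
  have := Fact.mk Nat.prime_two
  obtain ⟨T, hT, hUT⟩ := exists_isSylowIn_ge hU hle
  have h1 : ¬ 2 ∣ (h.pre h.Hol).relIndex h.H := by
    have hr : h.G0 ≤ h.φ.range := h.φL ▸ map_le_range _ _
    have hn : (⊤ : Subgroup Γ) ≤ normalizer (h.φ.range : Set Γ) := fun g _ => H9.mem_normalizer_of_conj_mem fun y hy => by
      have := mul_mem hy (hr (h.toGD.cm0 y g⁻¹))
      simpa using this
    have h2 := (h.syl_Hol.inf_of_le_normalizer hn).not_dvd_relIndex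
    rw [top_inf_eq, inf_relIndex_right, ← index_comap] at h2
    rwa [Hy.pre, Hy.H, relIndex, subgroupOf, comap_map_eq_self_of_injective (subtype_injective _)]
  have hTH : IsSylowIn 2 T h.H := by
    refine IsSylowIn.of_not_dvd_relIndex (hT.le.trans (Hy.pre_le _)) hT.pgroup fun hd => ?_
    rw [← relIndex_mul_relIndex T _ _ hT.le (Hy.pre_le _)] at hd
    exact ((Nat.Prime.dvd_mul Nat.prime_two).1 hd).elim hT.not_dvd_relIndex h1
  have h3 := Hy.syl_im (hT.inf_of_le_normalizer ((Hy.pre_le _).trans Hy.LL_norm)) (inf_le_right.trans Hy.LL_le)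
  have h4 : h.im (h.pre h.Hol ⊓ h.LL) = h.im (T ⊓ h.LL) := h3.max _ le_rfl (h.pg_Hol.to_le fun y hy => by
    obtain ⟨p, hp, rfl⟩ := (Hy.mem_im (inf_le_right.trans Hy.LL_le)).1 hy
    exact (Hy.mem_pre.1 hp.1).2) h3.le
  have key : ∀ y ∈ h.D, ∃ p ∈ T ⊓ h.LL, h.ph p = y := fun y hy => by
    obtain ⟨l, hl, rfl⟩ := Hy.LL_surj (h.D_le hy)
    rw [← Hy.mem_im (inf_le_right.trans Hy.LL_le), ← h4, Hy.mem_im (inf_le_right.trans Hy.LL_le)]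
    exact ⟨l, ⟨Hy.mem_pre.2 ⟨Hy.LL_le hl, h.D_Hol hy⟩, hl⟩, rfl⟩
  obtain ⟨x, hx, ex⟩ := key _ h.x_D
  obtain ⟨a, ha, ea⟩ := key _ h.a_D
  exact ⟨⟨T, x, a, hTH, fun g hg => (Hy.mem_pre.1 (hT.le hg)).2, hx.1, ha.1, hx.2, ha.2, ex, ea⟩, hUT⟩

namespace St

open Hy

variable {h : Hy G Γ} (S : St h)

theorem TH {g : G} (hg : g ∈ S.T) : g ∈ h.H := S.syl.le hg
theorem xH : S.x ∈ h.H := S.TH S.xT
theorem aH : S.a ∈ h.H := S.TH S.aT
theorem two {g : G} (hg : g ∈ S.T) : ∃ k, g ^ 2 ^ k = 1 := H9.exists_pow_eq_one_of_mem S.syl.pgroup hg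
theorem eqD {d d' : G} (hd : d ∈ S.T) (hl : d ∈ h.LL) (hd' : d' ∈ S.T) (hl' : d' ∈ h.LL) (e : h.ph d = h.ph d') :
    d = d' :=
  mul_inv_eq_one.1 (eq_one (mul_mem hl (inv_mem hl')) (by
    rw [ph_mul (S.TH hd) (inv_mem (S.TH hd')), ph_inv (S.TH hd'), e, mul_inv_cancel]) (S.two (mul_mem hd (inv_mem hd'))))
theorem ph_xp (n : ℕ) : h.ph (S.x ^ n) = h.x ^ n := by rw [ph_pow S.xH, S.phx]
theorem ph_ax (n : ℕ) : h.ph (S.a * S.x ^ n) = h.a * h.x ^ n := by rw [ph_mul S.aH (pow_mem S.xH n), S.ph_xp, S.pha]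
theorem t_T : h.t ∈ S.T :=
  have := Fact.mk Nat.prime_two
  S.syl.le_of_le_normalizer' (H9.isPGroup_zpowers ⟨1, (pow_two _).trans h.t2⟩) (zpowers_le.2 t_H)
    (zpowers_le.2 (norm_of_comm fun _ hw => (mem_H.1 (S.TH hw)).symm)) (mem_zpowers _)

/-- conjugation of an element of `D` by an element of `T` is read off in `Γ` -/
theorem cj_eq {g d d' : G} (hg : g ∈ S.T) (hd : d ∈ S.T) (hl : d ∈ h.LL) (hd' : d' ∈ S.T) (hl' : d' ∈ h.LL)
    (e : h.ph d * h.ph g = h.ph g * h.ph d') : d * g = g * d' := by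
  rw [← inv_mul_eq_iff_eq_mul, ← mul_assoc]
  refine S.eqD (mul_mem (mul_mem (inv_mem hg) hd) hg) (LL_cj (S.TH hg) hl) hd' hl' ?_
  rw [ph_cj (S.TH hd) (S.TH hg), mul_assoc, e, inv_mul_cancel_left]

theorem sd : SD S.x S.a := by
  refine ⟨?_, fun e => h.x4 ?_, ?_, ?_⟩
  · exact S.eqD (pow_mem S.xT 8) (pow_mem S.xL 8) (one_mem _) (one_mem _) (by rw [S.ph_xp, h.x8, ph_one])
  · rw [← S.ph_xp, e, ph_one]
  · exact S.eqD (mul_mem S.aT S.aT) (mul_mem S.aL S.aL) (one_mem _) (one_mem _) (by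
      rw [ph_mul S.aH S.aH, S.pha, h.a2, ph_one])
  · exact S.eqD (mul_mem (mul_mem S.aT S.xT) S.aT) (mul_mem (mul_mem S.aL S.xL) S.aL) (pow_mem S.xT 3) (pow_mem S.xL 3) (by
      rw [ph_mul (mul_mem S.aH S.xH) S.aH, ph_mul S.aH S.xH, S.pha, S.phx, S.ph_xp, h.ax])

/-- the semidihedral group `T ⊓ L` -/
def D : Subgroup G := closure {S.x, S.a}

theorem D_T : S.D ≤ S.T := (closure_le _).2 (by rintro _ (rfl | rfl); exacts [S.xT, S.aT])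
theorem D_L : S.D ≤ h.LL := (closure_le _).2 (by rintro _ (rfl | rfl); exacts [S.xL, S.aL])
theorem x_D : S.x ∈ S.D := subset_closure (by simp)
theorem a_D : S.a ∈ S.D := subset_closure (by simp)
theorem D_surj {y : Γ} (hy : y ∈ h.D) : ∃ d ∈ S.D, h.ph d = y := by
  obtain ⟨i, rfl | rfl⟩ := h.sd.nf.1 hy
  exacts [⟨_, pow_mem S.x_D i, S.ph_xp i⟩, ⟨_, mul_mem S.a_D (pow_mem S.x_D i), S.ph_ax i⟩]

theorem dec {g : G} (hg : g ∈ S.T) (h0 : h.ph g ∈ h.G0) : ∃ d ∈ S.D, ∃ r ∈ S.T, h.ph r = 1 ∧ g = d * r := by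
  obtain ⟨d, hd, e⟩ := S.D_surj (h.mem_D (S.im_le g hg) h0)
  refine ⟨d, hd, d⁻¹ * g, mul_mem (inv_mem (S.D_T hd)) hg, ?_, (mul_inv_cancel_left _ _).symm⟩
  rw [ph_mul (inv_mem (S.TH (S.D_T hd))) (S.TH hg), ph_inv (S.TH (S.D_T hd)), e, inv_mul_cancel]

theorem comm_R {r d : G} (hr : r ∈ S.T) (e : h.ph r = 1) (hd : d ∈ S.D) : d * r = r * d :=
  S.cj_eq hr (S.D_T hd) (S.D_L hd) (S.D_T hd) (S.D_L hd) (by rw [e, mul_one, one_mul])

theorem comm_RR {r r' : G} (hr : r ∈ S.T) (e : h.ph r = 1) (hr' : r' ∈ S.T) (e' : h.ph r' = 1) : r * r' = r' * r := by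
  have := cyc' (h := h) (P := S.T ⊓ h.pre ⊥) S.syl.pgroup.to_inf_left inf_le_right
  exact congrArg Subtype.val (IsCyclic.commGroup.mul_comm (⟨r, hr, mem_K.2 ⟨S.TH hr, e⟩⟩ : ↥(S.T ⊓ h.pre ⊥))
    ⟨r', hr', mem_K.2 ⟨S.TH hr', e'⟩⟩)

/-- `R` centralizes the inner part of `T` -/
theorem comm_R0 {r g : G} (hr : r ∈ S.T) (e : h.ph r = 1) (hg : g ∈ S.T) (h0 : h.ph g ∈ h.G0) : g * r = r * g := by
  obtain ⟨d, hd, r', hr', e', rfl⟩ := S.dec hg h0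
  rw [mul_assoc, S.comm_RR hr' e' hr e, ← mul_assoc, S.comm_R hr e hd, mul_assoc]

theorem mem_D {g : G} (hg : g ∈ S.T) (hl : g ∈ h.LL) : g ∈ S.D := by
  obtain ⟨d, hd, e⟩ := S.D_surj (h.mem_D (S.im_le g hg) (ph_LL hl))
  rwa [← S.eqD (S.D_T hd) (S.D_L hd) hg hl e]

theorem exists_σ : ∃ σ ∈ h.LL, σ⁻¹ * S.x ^ 2 * σ = S.a * S.x := by
  obtain ⟨l, hl, e⟩ := LL_surj h.σ0
  have hax : S.a * S.x ∈ S.D := mul_mem S.a_D S.x_D
  have pax : h.ph (S.a * S.x) = h.a * h.x := by simpa using S.ph_ax 1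
  obtain ⟨σ, hσ, e', h1⟩ := lift (P := zpowers (S.x ^ 2)) (P' := S.D) (H9.isPGroup_zpowers (S.two (pow_mem S.xT 2)))
    (zpowers_le.2 (pow_mem S.xH 2)) hl (by
      rintro _ ⟨k, rfl⟩
      have h2 : (S.x ^ 2) ^ k ∈ h.LL := zpow_mem (pow_mem S.xL 2) k
      have h3 := LL_cj (LL_le hl) h2
      have h4 : (S.a * S.x) ^ k ∈ h.LL := S.D_L (zpow_mem hax k)
      refine ⟨(S.a * S.x) ^ k, zpow_mem hax k, mem_inf.2 ⟨mul_mem h4 (inv_mem h3), mem_K.2 ⟨LL_le (mul_mem h4 (inv_mem h3)), ?_⟩⟩⟩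
      have h5 : ∀ y ∈ h.H, h.ph (y ^ k) = h.ph y ^ k := fun y hy =>
        (ph_coe (⟨y, hy⟩ ^ k)).trans ((map_zpow _ _ _).trans (by rw [← ph_coe]))
      rw [ph_mul (LL_le h4) (inv_mem (LL_le h3)), ph_inv (LL_le h3), ph_cj (LL_le h2) (LL_le hl), h5 _ (S.TH (S.D_T hax)),
        h5 _ (pow_mem S.xH 2), pax, S.ph_xp, e, ← h.σx, mul_inv_eq_one]
      simpa using (conj_zpow (a := h.σ⁻¹) (b := h.x ^ 2) (i := k)))
  have h6 := h1 _ (mem_zpowers _)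
  exact ⟨σ, hσ, S.eqD (S.D_T h6) (S.D_L h6) (S.D_T hax) (S.D_L hax) (by
    rw [ph_cj (pow_mem S.xH 2) (LL_le hσ), e', e, S.ph_xp, h.σx, pax])⟩

/-- the element of order three acting on `A`, centralizing a given lift `w` of `1` or `u` -/
theorem exists_ρ {w : G} (hw : w ∈ S.T) (w2 : w * w = 1) (e : h.ph w = 1 ∨ h.ph w = h.u) :
    ∃ ρ ∈ h.LL, ρ * w = w * ρ ∧ ρ⁻¹ * S.x ^ 4 * ρ = S.a ∧ ρ⁻¹ * S.a * ρ = S.a * S.x ^ 4 := by
  obtain ⟨l, hl, el⟩ := LL_surj h.ρ0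
  have hρw : h.ρ * h.ph w = h.ph w * h.ρ := by
    rcases e with e | e <;> rw [e]
    exacts [by simp, h.ρu]
  have zD : S.x ^ 4 ∈ S.D := pow_mem S.x_D 4
  have azD := mul_mem S.a_D zD
  let P : Subgroup G := closure {S.x ^ 4, S.a, w}
  let P' : Subgroup G := S.D ⊔ zpowers w
  have hPT : P ≤ S.T := (closure_le _).2 (by rintro _ (rfl | rfl | rfl); exacts [pow_mem S.xT 4, S.aT, hw])
  have hP'T : P' ≤ S.T := sup_le S.D_T (zpowers_le.2 hw)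
  have wn : w ∈ normalizer (S.D : Set G) := H9.mem_normalizer_of_conj_mem fun d hd =>
    S.mem_D (mul_mem (mul_mem hw (S.D_T hd)) (inv_mem hw)) (by simpa using LL_cj (inv_mem (S.TH hw)) (S.D_L hd))
  have On : h.H ≤ normalizer ((h.LL ⊓ h.pre ⊥ : Subgroup G) : Set G) := fun g hg =>
    H9.mem_normalizer_of_conj_mem fun o ho => by
      have h1 := ph_cj (LL_le ho.1) (inv_mem hg)
      rw [(mem_K.1 ho.2).2, mul_one, inv_mul_cancel, inv_inv] at h1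
      exact ⟨by simpa using LL_cj (inv_mem hg) ho.1, mem_K.2 ⟨mul_mem (mul_mem hg (LL_le ho.1)) (inv_mem hg), h1⟩⟩
  have key : ∀ p p' : G, p ∈ S.T → p' ∈ P' → p' * (l⁻¹ * p * l)⁻¹ ∈ h.LL → h.ph p' = h.ρ⁻¹ * h.ph p * h.ρ →
      l⁻¹ * p * l ∈ (h.LL ⊓ h.pre ⊥) ⊔ P' := fun p p' hp hp' h1 h2 => by
    have h3 := mul_mem (mul_mem (inv_mem (LL_le hl)) (S.TH hp)) (LL_le hl)
    have h4 : p' * (l⁻¹ * p * l)⁻¹ ∈ h.LL ⊓ h.pre ⊥ := ⟨h1, mem_K.2 ⟨LL_le h1, by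
      rw [ph_mul (S.TH (hP'T hp')) (inv_mem h3), ph_inv h3, ph_cj (S.TH hp) (LL_le hl), el, h2, mul_inv_cancel]⟩⟩
    have := mul_mem (mem_sup_left (T := P') (inv_mem h4)) (mem_sup_right (S := h.LL ⊓ h.pre ⊥) hp')
    simpa using this
  obtain ⟨ρ, hρ, e', h1⟩ := lift (P := P) (P' := P') (S.syl.pgroup.to_le hPT) (hPT.trans S.syl.le) hl (by
    have : P ≤ cj l ((h.LL ⊓ h.pre ⊥) ⊔ P') := (closure_le _).2 (by
      rintro _ (rfl | rfl | rfl) <;> rw [SetLike.mem_coe, mem_cj]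
      · exact key _ S.a (pow_mem S.xT 4) (mem_sup_left S.a_D)
          (mul_mem S.aL (inv_mem (LL_cj (LL_le hl) (S.D_L zD)))) (by rw [S.pha, S.ph_xp, h.ρz])
      · exact key _ _ S.aT (mem_sup_left azD)
          (mul_mem (S.D_L azD) (inv_mem (LL_cj (LL_le hl) S.aL))) (by rw [S.pha, S.ph_ax, h.ρa])
      · refine key _ _ hw (mem_sup_right (mem_zpowers _)) ?_ (by rw [mul_assoc, ← hρw, inv_mul_cancel_left])
        have := mul_mem (LL_cj (inv_mem (S.TH hw)) (inv_mem hl)) hl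
        simpa [mul_assoc] using this)
    intro p hp
    obtain ⟨o, ho, p', hp', e⟩ := (H9.mem_sup_of_le_normalizer' ((hP'T.trans S.syl.le).trans On)).1 (mem_cj.1 (this hp))
    exact ⟨p', hp', by rw [← e]; simpa using inv_mem ho⟩)
  have fin : ∀ d ∈ P, d ∈ h.LL → ∀ d' ∈ S.D, h.ph d' = h.ρ⁻¹ * h.ph d * h.ρ → ρ⁻¹ * d * ρ = d' := fun d hd hdl d' hd' e =>
    S.eqD (hP'T (h1 d hd)) (LL_cj (LL_le hρ) hdl) (S.D_T hd') (S.D_L hd') (by
      rw [ph_cj (LL_le hdl) (LL_le hρ), e', el, e])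
  refine ⟨ρ, hρ, ?_, fin _ (subset_closure (by simp)) (S.D_L zD) _ S.a_D (by rw [S.pha, S.ph_xp, h.ρz]),
    fin _ (subset_closure (by simp)) S.aL _ azD (by rw [S.pha, S.ph_ax, h.ρa])⟩
  have h2 := hP'T (h1 w (subset_closure (by simp)))
  have h3 : w⁻¹ * (ρ⁻¹ * w * ρ) ∈ h.LL := by
    have := mul_mem (LL_cj (S.TH hw) (inv_mem hρ)) hρ
    simpa [mul_assoc] using this
  have h4 := S.eqD (mul_mem (inv_mem hw) h2) h3 (one_mem _) (one_mem _) (by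
    rw [ph_mul (inv_mem (S.TH hw)) (S.TH h2), ph_inv (S.TH hw), ph_cj (S.TH hw) (LL_le hρ), e', el, mul_assoc _ (h.ph w),
      ← hρw, ph_one]; simp)
  rw [inv_mul_eq_one, mul_assoc, eq_inv_mul_iff_mul_eq] at h4
  exact h4

end St

end Cfsg.Agent.WA.H3
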