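import Cfsg.Agent.WA.H3Rb

/-! The kernel of `φ` is small; the case that `t` is not `2`-central. -/

set_option autoImplicit false
set_option linter.unusedSectionVars false

namespace Cfsg.Agent.WA.H3

open Subgroup H8

variable {G : Type*} [Group G] [Finite G] {Γ : Type*} [Group Γ] [Finite Γ]

theorem cj_pow (g y : G) (n : ℕ) : (g⁻¹ * y * g) ^ n = g⁻¹ * y ^ n * g := by
  simpa using (conj_pow (a := g⁻¹) (b := y) (i := n))

theorem cj_mul' (g y y' : G) : g⁻¹ * y * g * (g⁻¹ * y' * g) = g⁻¹ * (y * y') * g := by group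

theorem cj_comm {g y y' : G} (e : y * y' = y' * y) : g⁻¹ * y * g * (g⁻¹ * y' * g) = g⁻¹ * y' * g * (g⁻¹ * y * g) := by
  rw [cj_mul', cj_mul', e]

theorem cj_inj {g y y' : G} (e : g⁻¹ * y * g = g⁻¹ * y' * g) : y = y' := by simpa using e

theorem cj_ne_one {g y : G} (e : y ≠ 1) : g⁻¹ * y * g ≠ 1 := fun h => e (cj_inj (g := g) (by simpa using h))

namespace Hy

variable {h : Hy G Γ}

/-- an element of order 16 in the kernel -/
def Big (h : Hy G Γ) : Prop := ∃ y ∈ h.H, h.ph y = 1 ∧ y ^ 16 = 1 ∧ y ^ 8 ≠ 1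

theorem pow8 {y : G} (hy : y ∈ h.H) (h16 : y ^ 16 = 1) (h8 : y ^ 8 ≠ 1) : y ^ 8 = h.t :=
  (inv_K (pow_mem hy 8) (by rw [ph_pow hy, h.e16 _ (by rw [← ph_pow hy, h16, ph_one])])
    (by rw [← pow_add, h16])).resolve_left h8

theorem exists_cj_T (S : St h) {y : G} (hy : y ∈ h.H) (h2 : ∃ k, y ^ 2 ^ k = 1) : ∃ k ∈ h.H, k⁻¹ * y * k ∈ S.T :=
  have := Fact.mk Nat.prime_two
  let ⟨k, hk, e⟩ := H9.exists_conj_mem_of_not_dvd_relIndex (H9.isPGroup_zpowers h2) (zpowers_le.2 hy)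
    S.syl.not_dvd_relIndex
  ⟨k, hk, e _ (mem_zpowers _)⟩

theorem big_out (hb : h.Big) {g : G} (hu : g⁻¹ * h.t * g ∈ h.H) (h0 : h.ph (g⁻¹ * h.t * g) ∈ h.G0) :
    g⁻¹ * h.t * g = h.t := by
  obtain ⟨S, -⟩ := h.exists_St IsPGroup.of_bot bot_le
  obtain ⟨y, hy, e, h16, h8⟩ := hb
  obtain ⟨k, hk, hT⟩ := exists_cj_T S hy ⟨4, h16⟩
  obtain ⟨m, hm, hT'⟩ := exists_cj_T S hu ⟨1, by rw [cj_pow, pow_one, pow_two, h.t2]; simp⟩
  have h1 := S.comm_R0 hT (by rw [ph_cj hy hk, e]; simp) hT' (by rw [ph_cj hu hm]; exact (h.cj0 _).2 h0)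
  have e1 : m⁻¹ * (g⁻¹ * h.t * g) * m = (g * m)⁻¹ * h.t * (g * m) := by group
  rw [e1] at h1
  have h16' : (k⁻¹ * y * k) ^ 16 = 1 := by rw [cj_pow, h16]; simp
  have h8' : (k⁻¹ * y * k) ^ 8 ≠ 1 := by rw [cj_pow]; exact cj_ne_one h8
  have h2 := pow8 (S.TH hT) h16' h8'
  generalize k⁻¹ * y * k = y' at *
  have h3 : (g * m)⁻¹⁻¹ * y' * (g * m)⁻¹ ∈ h.H := mem_H.2 (by
    have := cj_comm (g := (g * m)⁻¹) h1
    simpa [mul_assoc] using this.symm)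
  have h4 := pow8 h3 (by rw [cj_pow, h16']; simp) (by rw [cj_pow]; exact cj_ne_one h8')
  rw [cj_pow, h2] at h4
  refine cj_inj (g := m) ?_
  rw [e1, t_cj hm]
  nth_rewrite 1 [← h4]
  group

theorem not_big {g : G} (hu : g⁻¹ * h.t * g ∈ h.H) (hne : g⁻¹ * h.t * g ≠ h.t) : ¬ h.Big := fun hb => by
  have u2 : ∀ g : G, g⁻¹ * h.t * g * (g⁻¹ * h.t * g) = 1 := fun g => by rw [cj_mul', h.t2]; simp
  obtain ⟨k, hk, e⟩ := h.out _ (fun h0 => hne (big_out hb hu h0)) (by rw [← ph_mul hu hu, u2, ph_one])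
  obtain ⟨l, hl, rfl⟩ := LL_surj hk
  rw [← ph_cj hu (LL_le hl)] at e
  have hu1 := mul_mem (mul_mem (inv_mem (LL_le hl)) hu) (LL_le hl)
  have e1 : l⁻¹ * (g⁻¹ * h.t * g) * l = (g * l)⁻¹ * h.t * (g * l) := by group
  rw [e1] at e hu1
  generalize g * l = n at *
  have := Fact.mk Nat.prime_two
  obtain ⟨S, hS⟩ := h.exists_St (H9.isPGroup_zpowers ⟨1, (pow_two _).trans (u2 n)⟩)
    (zpowers_le.2 (mem_pre.2 ⟨hu1, e ▸ h.u_Hol⟩))
  have hT := hS (mem_zpowers _)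
  obtain ⟨ρ, hρ, h1, -, h3⟩ := S.exists_ρ hT (u2 n) (Or.inr e)
  have h4 := S.cj_eq hT S.xT S.xL (pow_mem S.xT 5) (pow_mem S.xL 5) (by
    rw [e, S.phx, S.ph_xp, ← h.ux, ← mul_assoc, ← mul_assoc, h.u2, one_mul])
  have h5 := S.cj_eq hT S.aT S.aL S.aT S.aL (by rw [e, S.pha, h.au])
  have cH : ∀ c : G, c * (n⁻¹ * h.t * n) = n⁻¹ * h.t * n * c → n⁻¹⁻¹ * c * n⁻¹ ∈ h.H := fun c hc => mem_H.2 (by
    have := cj_comm (g := n⁻¹) hc
    simpa [mul_assoc] using this)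
  have h6 : (n * S.x⁻¹ * n⁻¹)⁻¹ * h.t * (n * S.x⁻¹ * n⁻¹) =
      h.t * ((n⁻¹⁻¹ * S.a * n⁻¹)⁻¹ * ((n⁻¹⁻¹ * ρ * n⁻¹)⁻¹ * (n⁻¹⁻¹ * S.a * n⁻¹) * (n⁻¹⁻¹ * ρ * n⁻¹))) := by
    calc _ = n * (S.x * (n⁻¹ * h.t * n) * S.x⁻¹) * n⁻¹ := by group
      _ = h.t * (n * (S.a⁻¹ * (S.a * S.x ^ 4)) * n⁻¹) := by rw [h4]; group
      _ = _ := by rw [← h3]; group
  have ha := cH _ h5
  have hr := cH _ h1
  have hc := mul_mem (inv_mem ha) (mul_mem (mul_mem (inv_mem hr) ha) hr)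
  have h7 := big_out hb (h6 ▸ mul_mem t_H hc) (by
    rw [h6, ph_mul t_H hc, ph_t, one_mul, ph_mul (inv_mem ha) (mul_mem (mul_mem (inv_mem hr) ha) hr), ph_inv ha, ph_cj ha hr]
    exact h.cm0 _ _)
  rw [h6, mul_eq_left] at h7
  refine S.sd.x4 (cj_inj (g := n⁻¹) ?_)
  rw [mul_one, inv_mul_cancel, ← h7, ← inv_mul_cancel_left S.a (S.x ^ 4), ← h3]
  group

end Hy

namespace St

open Hy

variable {h : Hy G Γ} (S : St h)

theorem card_T (hb : ¬ h.Big) : Nat.card S.T ≤ 256 := by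
  have := Fact.mk Nat.prime_two
  have h1 := h.bd_top _ (pg_im (h := h) S.syl.pgroup) le_top
  have hp : IsPGroup 2 ↥(S.T ⊓ h.pre ⊥) := S.syl.pgroup.to_inf_left
  obtain ⟨n, hn⟩ := IsPGroup.iff_card.1 hp
  have h2 : n ≤ 3 := by
    by_contra hc
    obtain ⟨m, rfl⟩ : ∃ m, n = m + 4 := ⟨n - 4, by omega⟩
    obtain ⟨g, hg⟩ := (cyc' hp inf_le_right).exists_ofOrder_eq_natCard
    rw [hn, ← Subgroup.orderOf_coe] at hg
    refine hb ⟨g ^ 2 ^ m, pow_mem (S.TH g.2.1) _, by rw [ph_pow (S.TH g.2.1), (mem_K.1 g.2.2).2, one_pow], ?_, fun e => ?_⟩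
    · rw [← pow_mul, ← orderOf_dvd_iff_pow_eq_one, hg, pow_add]; rfl
    · rw [← pow_mul, ← orderOf_dvd_iff_pow_eq_one, hg, pow_add] at e
      have := Nat.dvd_of_mul_dvd_mul_left (by positivity) e
      omega
  rw [card_im S.syl.le, hn]
  exact (Nat.mul_le_mul (Nat.pow_le_pow_right two_pos h2) h1).trans (by norm_num)

theorem z_T {g : G} (hg : g ∈ S.T) : S.x ^ 4 * g = g * S.x ^ 4 := by
  refine S.cj_eq hg (pow_mem S.xT 4) (pow_mem S.xL 4) (pow_mem S.xT 4) (pow_mem S.xL 4) ?_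
  rw [S.ph_xp]
  rcases h.mem_Hol (S.im_le g hg) with e | ⟨w, hw, e⟩
  · exact h.sd.z_comm e
  · rw [e, ← mul_assoc, h.sd.z_comm hw, mul_assoc, mul_assoc, h.ux2 2]

theorem of_ph {c : G} (hc : c ∈ S.T) (e : h.ph c = 1 ∨ h.ph c = h.x ^ 4) :
    ∃ r ∈ S.T, h.ph r = 1 ∧ (c = r ∨ c = r * S.x ^ 4) := by
  rcases e with e | e
  · exact ⟨c, hc, e, Or.inl rfl⟩
  · exact ⟨c * S.x ^ 4, mul_mem hc (pow_mem S.xT 4), by rw [ph_mul (S.TH hc) (pow_mem S.xH 4), e, S.ph_xp, h.sd.z2],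
      Or.inr (by rw [mul_assoc, S.sd.z2, mul_one])⟩

theorem cen {c : G} (hc : c ∈ S.T) (hcen : ∀ g ∈ S.T, c * g = g * c) (c2 : c * c = 1) (c1 : c ≠ 1) :
    c = h.t ∨ c = S.x ^ 4 ∨ c = h.t * S.x ^ 4 := by
  obtain ⟨r, hr, e, h1⟩ := S.of_ph hc (h.cD (S.phx ▸ ph_comm (S.TH hc) S.xH (hcen _ S.xT))
    (S.pha ▸ ph_comm (S.TH hc) S.aH (hcen _ S.aT)))
  have r2 : r * r = 1 := by
    rcases h1 with rfl | rfl
    · exact c2
    · rwa [mul_assoc, ← mul_assoc (S.x ^ 4), S.z_T hr, mul_assoc, S.sd.z2, mul_one] at c2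
  rcases inv_K (S.TH hr) e r2 with rfl | rfl <;> rcases h1 with rfl | rfl <;> simp_all

variable {F : G} (hF : F ∈ normalizer (S.T : Set G))
include hF

theorem cjT {g : G} (hg : g ∈ S.T) : F⁻¹ * g * F ∈ S.T := H9.conj_mem_of_mem_normalizer' hF hg

theorem cen_cj {c : G} (hcen : ∀ g ∈ S.T, c * g = g * c) : ∀ g ∈ S.T, F⁻¹ * c * F * g = g * (F⁻¹ * c * F) := fun g hg => by
  have := cj_comm (g := F) (hcen _ (S.cjT (inv_mem hF) hg))
  simpa [mul_assoc] using this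

theorem cj_inv {c : G} (hc : c ∈ S.T) (hcen : ∀ g ∈ S.T, c * g = g * c) (c2 : c * c = 1) (c1 : c ≠ 1) :
    F⁻¹ * c * F = h.t ∨ F⁻¹ * c * F = S.x ^ 4 ∨ F⁻¹ * c * F = h.t * S.x ^ 4 :=
  S.cen (S.cjT hF hc) (S.cen_cj hF hcen) (by rw [cj_mul', c2]; simp) (cj_ne_one c1)

theorem cj_H {c : G} (hc : c ∈ h.H) (hz : c * S.x ^ 4 = S.x ^ 4 * c) : F⁻¹ * c * F ∈ h.H := by
  have h1 : c * (F⁻¹⁻¹ * h.t * F⁻¹) = F⁻¹⁻¹ * h.t * F⁻¹ * c := by
    rcases S.cj_inv (inv_mem hF) S.t_T (fun g hg => (mem_H.1 (S.TH hg)).symm) h.t2 h.t1 with e | e | e <;> rw [e]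
    exacts [mem_H.1 hc, hz, (show Commute c h.t from mem_H.1 hc).mul_right hz]
  have := cj_comm (g := F) h1
  exact mem_H.2 (by simpa [mul_assoc] using this)

theorem q1 : h.ph (F⁻¹ * S.x ^ 2 * F) ∈ h.G0 := by
  have := S.TH (S.cjT hF S.xT)
  rw [pow_two, ← cj_mul', ph_mul this this]
  exact h.sq0 _

theorem q2 : h.ph (F⁻¹ * (S.a * S.x) * F) ∈ h.G0 := by
  obtain ⟨σ, hσ, e⟩ := S.exists_σ
  have h1 : σ⁻¹ * S.x ^ 4 * σ = S.x ^ 4 := by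
    rw [show S.x ^ 4 = (S.x ^ 2) ^ 2 by rw [← pow_mul], ← cj_pow, e, pow_two, ← pow_mul]
    simpa using S.sd.mm 1 1
  have h2 := S.cj_H hF (c := σ⁻¹ * S.x * σ) (LL_le (LL_cj (LL_le hσ) S.xL)) (by
    rw [← h1]; exact cj_comm (by rw [← pow_succ, ← pow_succ']))
  rw [← e, pow_two, ← cj_mul' σ, ← cj_mul' F, ph_mul h2 h2]
  exact h.sq0 _

theorem fz : F⁻¹ * S.x ^ 4 * F = S.x ^ 4 := by
  have hq := S.cjT hF (pow_mem S.xT 2)
  have hq' := S.cjT hF (mul_mem S.aT S.xT)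
  obtain ⟨d, hd, r, hr, e, e'⟩ := S.dec hq' (S.q2 hF)
  have h1 : F⁻¹ * S.x ^ 4 * F = (F⁻¹ * S.x ^ 2 * F)⁻¹ * ((d * r)⁻¹ * (F⁻¹ * S.x ^ 2 * F) * (d * r)) := by
    have : S.x ^ 4 = (S.x ^ 2)⁻¹ * ((S.a * S.x)⁻¹ * S.x ^ 2 * (S.a * S.x)) := by
      rw [mul_assoc, S.sd.xa', mul_inv_rev, S.sd.ainv, mul_assoc, S.sd.aa, S.sd.pinv, S.sd.xinv, ← pow_succ, ← pow_add,
        ← pow_add, S.sd.pow_eq]
    rw [← e', this]; group
  have hdT := S.D_T hd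
  have h2 := S.comm_R0 hr e (mul_mem (mul_mem (inv_mem hdT) hq) hdT) (by
    rw [ph_cj (S.TH hq) (S.TH hdT)]; exact (h.cj0 _).2 (S.q1 hF))
  have h3 : F⁻¹ * S.x ^ 4 * F ∈ h.LL := by
    generalize F⁻¹ * S.x ^ 2 * F = q at *
    rw [h1, show (d * r)⁻¹ * q * (d * r) = r⁻¹ * (d⁻¹ * q * d * r) by group, h2, inv_mul_cancel_left,
      show q⁻¹ * (d⁻¹ * q * d) = q⁻¹ * d⁻¹ * q * d by group]
    exact mul_mem (LL_cj (S.TH hq) (inv_mem (S.D_L hd))) (S.D_L hd)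
  rcases S.cj_inv hF (pow_mem S.xT 4) (fun g hg => S.z_T hg) S.sd.z2 S.sd.x4 with e | e | e
  · exact absurd (e ▸ h3) t_LL
  · exact e
  · exact absurd ((mul_mem_cancel_right (pow_mem S.xL 4)).1 (e ▸ h3)) t_LL

theorem cQ' {y : G} (hy : y ∈ S.T) (hc : ∀ q ∈ S.T, h.ph q ∈ h.G0 → q * q = S.x ^ 4 → y * q = q * y) :
    h.ph (F⁻¹ * y * F) = 1 ∨ h.ph (F⁻¹ * y * F) = h.x ^ 4 ∨ h.ph (F⁻¹ * y * F) = h.u * h.x ^ 2 ∨
      h.ph (F⁻¹ * y * F) = h.u * h.x ^ 6 := by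
  have key : ∀ q ∈ S.T, h.ph (F⁻¹⁻¹ * q * F⁻¹) ∈ h.G0 → q * q = S.x ^ 4 →
      h.ph (F⁻¹ * y * F) * h.ph q = h.ph q * h.ph (F⁻¹ * y * F) := fun q hq h0 h2 => by
    have := cj_comm (g := F) (hc _ (S.cjT (inv_mem hF) hq) h0 (by rw [cj_mul', h2, S.fz (inv_mem hF)]))
    exact ph_comm (S.TH (S.cjT hF hy)) (S.TH hq) (by simpa [mul_assoc] using this)
  have h1 := key _ (pow_mem S.xT 2) (S.q1 (inv_mem hF)) (by rw [← pow_add])
  have h2 := key _ (mul_mem S.aT S.xT) (S.q2 (inv_mem hF)) (by simpa using S.sd.mm 1 1)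
  rw [S.ph_xp] at h1
  rw [ph_mul S.aH S.xH, S.pha, S.phx] at h2
  exact h.cQ _ h1 h2

end St

/-- the case that `t` is not `2`-central -/
structure N2 (h : Hy G Γ) extends St h where
  f : G
  fN : f ∈ normalizer (T : Set G)
  f2 : f * f ∈ T
  ft : f⁻¹ * h.t * f = h.t * x ^ 4
  R : ∀ r ∈ T, h.ph r = 1 → r = 1 ∨ r = h.t
  nz : ¬ IsConj h.t (x ^ 4)
  split : ∀ w ∈ T, h.ph w = h.u → w * w = 1

open Hy in
theorem St.exists_N2 {h : Hy G Γ} (S : St h) (hS : 2 ∣ S.T.relIndex ⊤) : Nonempty (N2 h) := by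
  have := Fact.mk Nat.prime_two
  obtain ⟨f, -, fT, fN, f2⟩ := H9.exists_mem_normalizer_of_dvd_relIndex S.syl.pgroup le_top hS
  rw [pow_two] at f2
  have c2 := card_two fN f2 fT
  obtain ⟨n, hn⟩ := IsPGroup.iff_card.1 S.syl.pgroup
  have pg : IsPGroup 2 (S.T ⊔ zpowers f : Subgroup G) := pg_card (n := n + 1) (by rw [c2, hn, pow_succ'])
  have bd : Bd h.H (Nat.card S.T) := Bd.of_syl S.syl le_rfl
  have pos : 0 < Nat.card S.T := Nat.card_pos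
  have fH : f ∉ h.H := fun hf => by
    have := bd _ pg (sup_le S.syl.le (zpowers_le.2 hf))
    omega
  have fz := S.fz fN
  have ft : f⁻¹ * h.t * f = h.t * S.x ^ 4 := by
    rcases S.cj_inv fN S.t_T (fun g hg => (mem_H.1 (S.TH hg)).symm) h.t2 h.t1 with e | e | e
    · exact absurd (mem_H.2 (by rw [mul_assoc, inv_mul_eq_iff_eq_mul] at e; exact e.symm)) fH
    · exact absurd (cj_inj (e.trans fz.symm) ▸ pow_mem S.xL 4) t_LL
    · exact e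
  have phz : h.ph (h.t * S.x ^ 4) = h.x ^ 4 := by rw [ph_mul t_H (pow_mem S.xH 4), ph_t, one_mul, S.ph_xp]
  have usq : ∀ m, h.u * h.x ^ (2 * m) * (h.u * h.x ^ (2 * m)) = h.x ^ (4 * m) := fun m => by
    rw [mul_assoc, ← mul_assoc (h.x ^ _), ← h.ux2, mul_assoc, ← mul_assoc, h.u2, one_mul, ← pow_add]; congr 1; ring
  have hR : ∀ r ∈ S.T, h.ph r = 1 → r = 1 ∨ r = h.t := fun r hr e => by
    by_contra hc
    have r2 : r * r ≠ 1 := fun r2 => hc (inv_K (S.TH hr) e r2)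
    obtain ⟨k, k1, k2⟩ := H9.exists_pow_ne_one_pow_eq_one (p := 2) r2 (S.two (mul_mem hr hr))
    have hy : r ^ 2 ^ k ∈ S.T := pow_mem hr _
    have ey : h.ph (r ^ 2 ^ k) = 1 := by rw [ph_pow (S.TH hr), e, one_pow]
    have y2 : r ^ 2 ^ k * r ^ 2 ^ k = h.t := by
      rw [← (Commute.refl r).mul_pow]
      refine (inv_K (pow_mem (S.TH (mul_mem hr hr)) _) ?_ ?_).resolve_left k1
      · rw [ph_pow (S.TH (mul_mem hr hr)), ph_mul (S.TH hr) (S.TH hr), e, one_mul, one_pow]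
      · rw [← pow_two]; exact k2
    generalize r ^ 2 ^ k = y at *
    have hy' := S.cjT fN hy
    have h1 : h.ph (f⁻¹ * y * f) * h.ph (f⁻¹ * y * f) = h.x ^ 4 := by
      rw [← ph_mul (S.TH hy') (S.TH hy'), cj_mul', y2, ft, phz]
    obtain ⟨m, hm⟩ : ∃ m, h.ph (f⁻¹ * y * f) = h.u * h.x ^ m := by
      rcases S.cQ' fN hy fun q hq h0 _ => (S.comm_R0 hy ey hq h0).symm with e | e | e | e
      · exact absurd (by rw [← h1, e, one_mul]) h.x4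
      · exact absurd (by rw [← h1, e, h.sd.z2]) h.x4
      exacts [⟨_, e⟩, ⟨_, e⟩]
    have cm : y * (f⁻¹ * y * f) = f⁻¹ * y * f * y := by
      by_contra hne
      have hcT := mul_mem (inv_mem hy) (mul_mem (mul_mem (inv_mem hy') hy) hy')
      have c1 : y⁻¹ * ((f⁻¹ * y * f)⁻¹ * y * (f⁻¹ * y * f)) ≠ 1 := fun e => hne (by
        rw [inv_mul_eq_one, mul_assoc, eq_inv_mul_iff_mul_eq] at e; exact e.symm)
      have p1 : h.ph (y⁻¹ * ((f⁻¹ * y * f)⁻¹ * y * (f⁻¹ * y * f))) = 1 := by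
        rw [ph_mul (inv_mem (S.TH hy)) (S.TH (mul_mem (mul_mem (inv_mem hy') hy) hy')), ph_inv (S.TH hy),
          ph_cj (S.TH hy) (S.TH hy'), ey]; simp
      have hy'' := S.cjT (inv_mem fN) hy
      have p2 : h.ph (f⁻¹⁻¹ * (y⁻¹ * ((f⁻¹ * y * f)⁻¹ * y * (f⁻¹ * y * f))) * f⁻¹) = 1 := by
        rw [show f⁻¹⁻¹ * (y⁻¹ * ((f⁻¹ * y * f)⁻¹ * y * (f⁻¹ * y * f))) * f⁻¹ =
          (f⁻¹⁻¹ * y * f⁻¹)⁻¹ * y⁻¹ * (f⁻¹⁻¹ * y * f⁻¹) * y by group,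
          ph_mul (S.TH (mul_mem (mul_mem (inv_mem hy'') (inv_mem hy)) hy'')) (S.TH hy),
          ph_cj (inv_mem (S.TH hy)) (S.TH hy''), ph_inv (S.TH hy), ey]; simp
      generalize y⁻¹ * ((f⁻¹ * y * f)⁻¹ * y * (f⁻¹ * y * f)) = c at *
      obtain ⟨j, j1, j2⟩ := H9.exists_pow_ne_one_pow_eq_one (p := 2) c1 (S.two hcT)
      have e1 := (inv_K (pow_mem (S.TH hcT) (2 ^ j)) (by rw [ph_pow (S.TH hcT), p1, one_pow])
        (by rw [← pow_two]; exact j2)).resolve_left j1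
      have hc' := S.TH (S.cjT (inv_mem fN) hcT)
      have e2 := (inv_K (pow_mem hc' (2 ^ j)) (by rw [ph_pow hc', p2, one_pow])
        (by rw [cj_pow, cj_mul', e1, h.t2]; simp)).resolve_left (by rw [cj_pow]; exact cj_ne_one j1)
      rw [cj_pow, e1] at e2
      exact fH (mem_H.2 (by rw [inv_inv, mul_inv_eq_iff_eq_mul] at e2; exact e2))
    have cen : ∀ g ∈ S.T, y * g = g * y := fun g hg => by
      by_cases h0 : h.ph g ∈ h.G0
      · exact (S.comm_R0 hy ey hg h0).symm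
      · have := S.comm_R0 hy ey (mul_mem hg hy') (by
          rw [ph_mul (S.TH hg) (S.TH hy'), hm, h.mul0, h.mul0]
          exact iff_of_false h0 fun e => h.u0 (e.2 (pow_mem h.x0 m)))
        rw [mul_assoc, ← cm, ← mul_assoc g, ← mul_assoc y g] at this
        exact (mul_right_cancel this).symm
    have := ph_comm (S.TH hy') S.xH (S.cen_cj fN cen _ S.xT)
    rw [hm, S.phx] at this
    exact h.ux_ne m this
  refine ⟨⟨S, f, fN, f2, ft, hR, fun hc => ?_, fun w hw e => ?_⟩⟩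
  · obtain ⟨g, hg⟩ := isConj_iff.1 hc
    have h1 : cj g⁻¹ (S.T ⊔ zpowers f) ≤ h.H := by
      rw [cj_le_iff, inv_inv, Hy.H, cj_centralizer_singleton, hg]
      refine sup_le (fun y hy => mem_centralizer_singleton_iff.2 (S.z_T hy).symm)
        (zpowers_le.2 (mem_centralizer_singleton_iff.2 ?_))
      rw [mul_assoc, inv_mul_eq_iff_eq_mul] at fz
      exact fz.symm
    have := bd _ (pgroup_cj pg _) h1
    rw [card_cj] at this
    omega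
  · refine (hR _ (mul_mem hw hw) (by rw [ph_mul (S.TH hw) (S.TH hw), e, h.u2])).resolve_right fun w2 => ?_
    have wx := S.cj_eq hw (pow_mem S.xT 2) (pow_mem S.xL 2) (pow_mem S.xT 2) (pow_mem S.xL 2) (by
      rw [e, S.ph_xp]; exact (h.ux2 1).symm)
    have hy := mul_mem hw (pow_mem S.xT 2)
    have ey : h.ph (w * S.x ^ 2) = h.u * h.x ^ 2 := by rw [ph_mul (S.TH hw) (pow_mem S.xH 2), e, S.ph_xp]
    have y2 : w * S.x ^ 2 * (w * S.x ^ 2) = h.t * S.x ^ 4 := by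
      rw [mul_assoc, ← mul_assoc (S.x ^ 2), wx, mul_assoc, ← mul_assoc, w2, ← pow_add]
    generalize w * S.x ^ 2 = y at *
    have hy' := S.cjT fN hy
    have y2' : f⁻¹ * y * f * (f⁻¹ * y * f) = h.t := by
      rw [cj_mul', y2, ← cj_mul', ft, fz, mul_assoc, S.sd.z2, mul_one]
    have h1 : h.ph (f⁻¹ * y * f) * h.ph (f⁻¹ * y * f) = 1 := by rw [← ph_mul (S.TH hy') (S.TH hy'), y2', ph_t]
    have h2 : h.ph (f⁻¹ * y * f) = 1 ∨ h.ph (f⁻¹ * y * f) = h.x ^ 4 := by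
      refine (S.cQ' fN hy fun q hq h0 q2 => ?_).elim Or.inl fun e => e.elim Or.inr fun e => ?_
      swap
      · rcases e with e | e
        · rw [e, usq 1, h.sd.pow_one'] at h1; omega
        · rw [e, usq 3, h.sd.pow_one'] at h1; omega
      · obtain ⟨d, hd, r, hr, er, rfl⟩ := S.dec hq h0
        have hdT := S.D_T hd
        have h3 := h.uQ h0 (by rw [← ph_mul (S.TH hq) (S.TH hq), q2, S.ph_xp])
        rw [ph_mul (S.TH hdT) (S.TH hr), er, mul_one, ← ey] at h3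
        have h4 : Commute y d := (S.cj_eq hy hdT (S.D_L hd) hdT (S.D_L hd) h3.symm).symm
        refine h4.mul_right ?_
        rcases hR r hr er with rfl | rfl
        exacts [Commute.one_right _, mem_H.1 (S.TH hy)]
    obtain ⟨r, hr, er, h3⟩ := S.of_ph hy' h2
    have r2 : r * r = 1 := by
      rcases hR r hr er with rfl | rfl
      exacts [mul_one _, h.t2]
    refine h.t1 (y2'.symm.trans ?_)
    rcases h3 with e | e <;> rw [e]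
    · exact r2
    · rw [mul_assoc, ← mul_assoc (S.x ^ 4), S.z_T hr, mul_assoc, S.sd.z2, mul_one, r2]

end Cfsg.Agent.WA.H3
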