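import Cfsg.Agent.WA.H3Rc
import Cfsg.Agent.WA.H3U5

/-! The frame `CF` in the reduction of S3139. -/

set_option autoImplicit false
set_option linter.unusedSectionVars false

namespace Cfsg.Agent.WA.H3

open Subgroup H8

variable {G : Type*} [Group G] [Finite G] {Γ : Type*} [Group Γ] [Finite Γ]

theorem bd_card {X : Type*} [Group X] [Finite X] {Y : Subgroup X} {n : ℕ} (h : Nat.card Y ≤ n) : Bd Y n :=
  fun _ _ hP => (card_le_of_le hP).trans h

namespace N2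

open Hy

variable {h : Hy G Γ} (N : N2 h)
include N

theorem K2 {k : G} (hk : k ∈ h.H) (e : h.ph k = 1) (h2 : ∃ n, k ^ 2 ^ n = 1) : k = 1 ∨ k = h.t := by
  obtain ⟨g, hg, hT⟩ := exists_cj_T N.toSt hk h2
  rcases N.R _ hT (by rw [ph_cj hk hg, e]; simp) with e | e
  · exact Or.inl (cj_inj (g := g) (by simpa using e))
  · exact Or.inr (cj_inj (e.trans (t_cj hg).symm))

theorem card_le {P : Subgroup G} (hP : IsPGroup 2 P) (hH : P ≤ h.H) : Nat.card P ≤ 2 * Nat.card (h.im P) := by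
  rw [card_im hH, ← card_inv h.t2 h.t1]
  exact Nat.mul_le_mul_right _ (card_le_of_le fun k hk => (mem_inv_iff h.t2).2
    (N.K2 (hH hk.1) (mem_K.1 hk.2).2 (H9.exists_pow_eq_one_of_mem hP hk.1)))

theorem bd {M : Subgroup G} {Y : Subgroup Γ} {n : ℕ} (hY : Bd Y n) (hM : ∀ g ∈ M, g ∈ h.H ∧ h.ph g ∈ Y) :
    Bd M (2 * n) := fun P hP hPM =>
  (N.card_le hP fun g hg => (hM g (hPM hg)).1).trans (Nat.mul_le_mul_left _ (hY _ (pg_im hP) fun y hy => by
    obtain ⟨p, hp, rfl⟩ := (mem_im fun g hg => (hM g (hPM hg)).1).1 hy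
    exact (hM p (hPM hp)).2))

theorem fz : N.f⁻¹ * N.x ^ 4 * N.f = N.x ^ 4 := N.toSt.fz N.fN

theorem toCF (h0 : ∀ g ∈ h.H, h.ph g ∈ h.G0) : Nonempty (CF G) := by
  have sd := N.toSt.sd
  obtain ⟨ρ, hρ, -, ρz, ρa⟩ := N.toSt.exists_ρ (one_mem _) (mul_one 1) (Or.inl ph_one)
  have tc : ∀ g ∈ h.H, h.t * g = g * h.t := fun g hg => (mem_H.1 hg).symm
  have xH := N.toSt.xH
  have aH := N.toSt.aH
  have sH : N.x⁻¹ * N.a * N.x ∈ h.H := mul_mem (mul_mem (inv_mem xH) aH) xH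
  have s2 : N.x⁻¹ * N.a * N.x * (N.x⁻¹ * N.a * N.x) = 1 := by rw [cj_mul', sd.a2]; simp
  have k1 : (N.f * ρ)⁻¹ * h.t * (N.f * ρ) = h.t * N.a := by
    rw [← ρz, ← t_cj (LL_le hρ), cj_mul', t_cj (LL_le hρ), ← N.ft]; group
  have k2 : (N.f * ρ * N.x)⁻¹ * h.t * (N.f * ρ * N.x) = h.t * (N.x⁻¹ * N.a * N.x) := by
    rw [← t_cj xH, cj_mul', t_cj xH, ← k1]; group
  have za : IsConj (N.x ^ 4) N.a := U.isConj_of ρz
  have zs : IsConj (N.x ^ 4) (N.x⁻¹ * N.a * N.x) := za.trans (U.isConj_of rfl)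
  have tts : IsConj h.t (h.t * (N.x⁻¹ * N.a * N.x)) := U.isConj_of k2
  obtain ⟨b, bz, ba, bt⟩ : ∃ b : G, b⁻¹ * N.x ^ 4 * b = N.x ^ 4 ∧ b⁻¹ * N.a * b = N.a ∧
      b⁻¹ * h.t * b = h.t * N.x ^ 4 := by
    have hT := N.toSt.cjT N.fN N.aT
    obtain ⟨d, hd, r, hr, er, e⟩ := N.toSt.dec hT (h0 _ (N.toSt.TH hT))
    have rc : ∀ g ∈ N.T, r * g = g * r := fun g hg => by
      rcases N.R r hr er with rfl | rfl
      exacts [by simp, tc _ (N.toSt.TH hg)]
    have r2 : r * r = 1 := by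
      rcases N.R r hr er with rfl | rfl
      exacts [mul_one _, h.t2]
    have d2 : d * d = 1 := by
      have : d * r * (d * r) = 1 := by rw [← e, cj_mul', sd.a2]; simp
      rwa [mul_assoc, ← mul_assoc r, rc _ (N.toSt.D_T hd), mul_assoc, r2, mul_one] at this
    have nc : ¬ ∀ g ∈ N.T, d * g = g * d := fun hc => by
      have h1 := N.toSt.cen_cj (inv_mem N.fN) (c := d * r) (fun g hg => by
        rw [mul_assoc, rc g hg, ← mul_assoc, hc g hg, mul_assoc]) _ N.xT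
      rw [← e, show N.f⁻¹⁻¹ * (N.f⁻¹ * N.a * N.f) * N.f⁻¹ = N.a by group] at h1
      have h2 := sd.xa 1
      rw [pow_one, ← h1, mul_left_cancel_iff, ← pow_one N.x, ← pow_mul, sd.pow_eq] at h2
      omega
    obtain ⟨i, rfl⟩ := ((sd.inv hd d2).resolve_left fun e => nc (by simp [e])).resolve_left
      fun e => nc fun g hg => by rw [e, N.toSt.z_T hg]
    have hx := pow_mem N.xT i
    have h1 : (N.f * N.x ^ i)⁻¹ * N.a * (N.f * N.x ^ i) = N.a * r := by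
      calc _ = (N.x ^ i)⁻¹ * (N.f⁻¹ * N.a * N.f) * N.x ^ i := by group
        _ = (N.x ^ i)⁻¹ * (N.a * N.x ^ (2 * i)) * (r * N.x ^ i) := by rw [e]; group
        _ = _ := by rw [rc _ hx, ← mul_assoc, sd.conj_a]
    refine ⟨N.f * N.x ^ i, ?_, ?_, ?_⟩
    · calc _ = (N.x ^ i)⁻¹ * (N.f⁻¹ * N.x ^ 4 * N.f) * N.x ^ i := by group
        _ = _ := by rw [N.fz]; group
    · rcases N.R r hr er with rfl | rfl
      · rw [h1, mul_one]
      · exact absurd ((U.isConj_of k1).trans ((tc _ aH).symm ▸ (U.isConj_of h1).symm.trans za.symm)) N.nz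
    · calc _ = (N.x ^ i)⁻¹ * (N.f⁻¹ * h.t * N.f) * N.x ^ i := by group
        _ = (N.x ^ i)⁻¹ * h.t * N.x ^ i * N.x ^ 4 := by rw [N.ft]; group
        _ = _ := by rw [t_cj (N.toSt.TH hx)]
  have bT : Bd (centralizer {h.t}) 32 := N.bd h.bd_G0 fun g hg => ⟨hg, h0 g hg⟩
  have phs : h.ph (N.x⁻¹ * N.a * N.x) = h.x⁻¹ * h.a * h.x := by rw [ph_cj aH xH, N.phx, N.pha]
  refine ⟨{
    t := h.t, a := N.a, s := N.x⁻¹ * N.a * N.x, z := N.x ^ 4, ρ := ρ, b := b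
    t2 := h.t2, a2 := sd.a2, s2 := s2, z2 := sd.z2
    hz := by rw [mul_assoc (N.a * _), sd.as_eq, ← pow_add, sd.pow_eq]
    ta := tc _ aH, ts := tc _ sH
    cardD := ?_
    ρt := mem_H.1 (LL_le hρ), ρz := ρz, ρa := ρa
    bz := U.conj_eq_iff.1 bz, ba := U.conj_eq_iff.1 ba, bt := bt
    n1 := N.nz
    n2 := fun e => N.nz (e.trans zs.symm)
    n3 := fun e => N.nz ((tts.trans e).trans zs.symm)
    n4 := fun e => N.nz (tts.trans e)
    bE := N.bd (bd_card h.card_A.le) fun g hg => ?_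
    bT := bT
    h3 := fun R hR hH c32 _ ha hs c hc hcj => ?_
    bTS := ?_
    h2 := fun R hR hH c32 y hV hn => ?_ }⟩
  · have an : N.a ∈ normalizer ((zpowers (N.x ^ 2) : Subgroup G) : Set G) := H9.mem_normalizer_of_conj_mem (by
      rintro _ ⟨k, rfl⟩
      show N.a * (N.x ^ 2) ^ k * N.a⁻¹ ∈ _
      rw [← conj_zpow, sd.ainv, mul_assoc, sd.xa, sd.aa, mul_comm 3 2, pow_mul]
      exact zpow_mem (pow_mem (mem_zpowers _) 3) k)
    have c8 := card_two an (sd.a2 ▸ one_mem _) fun ha => by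
      obtain ⟨k, e⟩ := (mem_powers_iff_mem_zpowers.2 ha : ∃ k : ℕ, (N.x ^ 2) ^ k = N.a)
      exact sd.a_ne 0 (2 * k) (by rw [pow_zero, mul_one, pow_mul]; exact e.symm)
    have hL : zpowers (N.x ^ 2) ⊔ zpowers N.a ≤ h.LL := sup_le (zpowers_le.2 (pow_mem N.xL 2)) (zpowers_le.2 N.aL)
    have c16 := card_two (norm_of_comm fun w hw => tc w (LL_le (hL hw))) (h.t2 ▸ one_mem _) fun ht => t_LL (hL ht)
    rw [c8, Nat.card_zpowers, orderOf_pow, sd.ord] at c16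
    refine Eq.trans ?_ c16
    congr 2
    refine le_antisymm ((closure_le _).2 ?_) (sup_le (sup_le (zpowers_le.2 ?_) (zpowers_le.2 ?_)) (zpowers_le.2 ?_))
    · rintro _ (rfl | rfl | rfl)
      · exact mem_sup_right (mem_zpowers _)
      · exact mem_sup_left (mem_sup_right (mem_zpowers _))
      · rw [sd.s_eq, show 6 = 2 * 3 from rfl, pow_mul]
        exact mem_sup_left (mul_mem (mem_sup_right (mem_zpowers _)) (mem_sup_left (pow_mem (mem_zpowers _) 3)))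
    · rw [show N.x ^ 2 = (N.a * (N.x⁻¹ * N.a * N.x)) ^ 3 by rw [sd.as_eq, ← pow_mul, sd.pow_eq]]
      exact pow_mem (mul_mem (subset_closure (by simp)) (subset_closure (by simp))) 3
    · exact subset_closure (by simp)
    · exact subset_closure (by simp)
  · obtain ⟨h1, h2, h3⟩ := U.mem_cen3.1 hg
    have hH := mem_H.2 h1
    exact ⟨hH, h.F_A (h.cA' (N.toSt.ph_xp 4 ▸ ph_comm hH (pow_mem xH 4) h3) (N.pha ▸ ph_comm hH aH h2)) (h0 g hH)⟩
  · have h1 := N.card_le hR hH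
    obtain ⟨m, hm⟩ := h.h3 (pg_im hR) (fun y hy => by obtain ⟨p, hp, rfl⟩ := (mem_im hH).1 hy; exact h0 p (hH hp))
      (by omega) ((mem_im hH).2 ⟨_, ha, N.pha⟩) ((mem_im hH).2 ⟨_, hs, phs⟩) ((mem_im hH).2 ⟨_, hc, rfl⟩) fun y hy => by
        obtain ⟨r, hr, rfl⟩ := (mem_im hH).1 hy
        rw [← ph_cj (hH hc) (hH hr), ← N.toSt.ph_xp, ← ph_mul (hH hc) (pow_mem xH 4)]
        exact (hcj r hr).imp (congrArg _) (congrArg _)
    have h2 : (N.x ^ 6) ^ m ∈ R := pow_mem (sd.as_eq ▸ mul_mem ha hs) m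
    have h3 : (N.x ^ 6) ^ m ∈ closure {h.t, N.a * (N.x⁻¹ * N.a * N.x)} :=
      pow_mem (subset_closure (by simp [sd.as_eq])) m
    have h4 := mul_mem hc (inv_mem h2)
    rw [← mul_mem_cancel_right (inv_mem h3)]
    rcases N.K2 (hH h4) (by rw [ph_mul (hH hc) (inv_mem (hH h2)), ph_inv (hH h2), ph_pow (pow_mem xH 6), N.toSt.ph_xp, hm,
      mul_inv_cancel]) (H9.exists_pow_eq_one_of_mem hR h4) with e | e <;> rw [e]
    exacts [one_mem _, subset_closure (by simp)]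
  · have := bT.cj (N.f * ρ * N.x)⁻¹
    rwa [cj_centralizer_singleton, inv_inv, k2] at this
  · generalize N.f * ρ * N.x = k at k2
    have hH' : cj k R ≤ h.H := by
      rw [cj_le_iff, Hy.H, cj_centralizer_singleton, inv_inv, k2]; exact hH
    have h1 := N.card_le (pgroup_cj hR k) hH'
    rw [card_cj] at h1
    have hV' := (cj_mono k hV).trans hH'
    have y2 : ∀ g : G, g * g = 1 → y⁻¹ * g * y * (y⁻¹ * g * y) = 1 := fun g e => by rw [cj_mul', e]; simp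
    have V2 : ∀ v ∈ closure {y⁻¹ * N.x ^ 4 * y, y⁻¹ * N.a * y}, v * v = 1 := fun v hv => by
      rcases U.mem_cl2 (y2 _ sd.z2) (y2 _ sd.a2) (cj_comm sd.za) hv with rfl | rfl | rfl | rfl
      exacts [mul_one _, y2 _ sd.a2, y2 _ sd.z2, by rw [cj_mul']; exact y2 _ (by rw [sd.za, sd.mm, sd.pow_one'])]
    have m1 := conj_mem_cj k (subset_closure (by simp) : y⁻¹ * N.x ^ 4 * y ∈ closure {y⁻¹ * N.x ^ 4 * y, y⁻¹ * N.a * y})
    have m2 := conj_mem_cj k (subset_closure (by simp) : y⁻¹ * N.a * y ∈ closure {y⁻¹ * N.x ^ 4 * y, y⁻¹ * N.a * y})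
    have ne : ∀ g : G, IsConj (N.x ^ 4) g → k * (y⁻¹ * g * y) * k⁻¹ ∈ h.H → h.ph (k * (y⁻¹ * g * y) * k⁻¹) ≠ 1 :=
      fun g hg hm e => by
        have h2 : IsConj (N.x ^ 4) (k * (y⁻¹ * g * y) * k⁻¹) := (hg.trans (U.isConj_of rfl)).trans (isConj_iff.2 ⟨k, rfl⟩)
        obtain ⟨c, hc⟩ := isConj_iff.1 h2
        rcases inv_K hm e (by rw [← hc, conj_mul, sd.z2]; simp) with e | e
        · exact sd.x4 (isConj_one_left.1 (e ▸ h2))
        · exact N.nz (e ▸ h2.symm)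
    have := h.no4 (V := h.im (cj k (closure {y⁻¹ * N.x ^ 4 * y, y⁻¹ * N.a * y}))) (pg_im (pgroup_cj hR k))
      (fun y hy => by obtain ⟨p, hp, rfl⟩ := (mem_im hH').1 hy; exact h0 p (hH' hp)) (by omega)
      (map_mono (comap_mono (cj_mono k hV))) (fun r hr => U.mem_norm fun v hv => by
        replace hr := (mem_im hH').1 hr
        replace hv := (mem_im hV').1 hv
        obtain ⟨r, hr, rfl⟩ := hr
        obtain ⟨v, hv, rfl⟩ := hv
        refine (mem_im hV').2 ⟨_, ?_, ph_cj (hV' hv) (hH' hr)⟩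
        have := U.conj_mem (hn (mem_cj.1 hr)) (mem_cj.1 hv)
        rw [mem_cj]
        simpa [mul_assoc] using this)
      (fun v hv => by
        replace hv := (mem_im hV').1 hv
        obtain ⟨v, hv, rfl⟩ := hv
        have := V2 _ (mem_cj.1 hv)
        rw [cj_mul'] at this
        rw [← ph_mul (hV' hv) (hV' hv), cj_inj (g := k) (y := v * v) (y' := 1) (by simpa using this), ph_one])
      ((mem_im hV').2 ⟨_, m1, rfl⟩) ((mem_im hV').2 ⟨_, m2, rfl⟩) (ne _ (IsConj.refl _) (hV' m1)) (ne _ za (hV' m2))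
    refine ne (N.a * N.x ^ 4) (za.trans (U.isConj_of ρa)) ?_ ?_
    · have := mul_mem (hV' m2) (hV' m1)
      rwa [conj_mul, cj_mul'] at this
    · rw [← cj_mul', ← conj_mul, ph_mul (hV' m2) (hV' m1), this, ← ph_mul (hV' m2) (hV' m2), conj_mul, y2 _ sd.a2, mul_one,
        mul_inv_cancel, ph_one]

end N2

end Cfsg.Agent.WA.H3
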