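import Cfsg.Agent.H7.PComp
import Cfsg.Agent.H9.Fusion
import Cfsg.Agent.H6.Count

/-! A `2`-component whose centralizer modulo core has cyclic Sylow `2`-subgroups is normal. -/

set_option autoImplicit false

namespace Cfsg.Agent.WA.H3

open Subgroup H7
open scoped commutatorElement

theorem normal_of_cyc {H : Type*} [Group H] [Finite H] (L : Subgroup H) (hL : Cfsg.IsPComponent 2 L)
    (hc : ∀ P : Subgroup H, IsPGroup 2 P →
      (∀ g ∈ P, ∀ l ∈ L, ∃ o ∈ Cfsg.oddCore L, g * l * g⁻¹ = l * o) → IsCyclic P) : L.Normal := by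
  have h1 := pCompOf_top_iff.mpr hL
  rw [← normalizer_eq_top_iff, eq_top_iff]
  intro h _
  rw [← H8.cj_eq_self_iff]
  by_contra hne
  have h2 : PCompOf 2 (H8.cj h L) ⊤ := h1.conj (by rw [normalizer_eq_top]; trivial)
  have h3 := (h1.comm_le_opp_of_ne h2 (Ne.symm hne)).trans inf_le_left
  obtain ⟨S⟩ : Nonempty (Sylow 2 (H8.cj h L)) := inferInstance
  have h4 : IsCyclic ((S : Subgroup (H8.cj h L)).map (H8.cj h L).subtype) := by
    refine hc _ (S.isPGroup'.map _) fun g hg l hl => ?_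
    obtain ⟨o, ho, e⟩ := h3 (commutator_mem_commutator (inv_mem hl) (map_subtype_le _ hg))
    refine ⟨o, ho, ?_⟩
    have e' : (o : H) = ⁅l⁻¹, g⁆ := e
    rw [e', commutatorElement_def]
    group
  have h5 : IsCyclic (S : Subgroup (H8.cj h L)) :=
    (MulEquiv.isCyclic (equivMapOfInjective _ _ (H8.cj h L).subtype_injective)).mpr h4
  refine H6.not_hasNormalPComplement_of_perfect ?_ h2.dvd_card (H9.hasNormalPComplement_two_of_isCyclic S h5)
  exact (PQS.top_iff.mpr h2.pqs).perfect

end Cfsg.Agent.WA.H3
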