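import Cfsg.Agent.WA.H3Def
import Mathlib.Tactic.DeriveFintype

/-! Coordinate model of `S₀ = ⟨t⟩ × Hol(Z₈)` for S3139 (module H3T, part 0). -/

set_option autoImplicit false

namespace Cfsg.Agent.WA.H3

open Subgroup

/-- model of `⟨t⟩ × Hol(Z₈)`: `t^e x^i a^j u^k`. -/
@[ext] structure HM where
  e : Fin 2
  i : Fin 8
  j : Fin 2
  k : Fin 2
  deriving DecidableEq

namespace HM

/-- the multiplier of `a^j u^k` on `⟨x⟩`. -/
def mf (j k : Fin 2) : Fin 8 := if j = 0 then (if k = 0 then 1 else 5) else (if k = 0 then 3 else 7)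

instance : Mul HM := ⟨fun m n => ⟨m.e + n.e, m.i + mf m.j m.k * n.i, m.j + n.j, m.k + n.k⟩⟩
instance : One HM := ⟨⟨0, 0, 0, 0⟩⟩
instance : Inv HM := ⟨fun m => ⟨m.e, -(mf m.j m.k * m.i), m.j, m.k⟩⟩

theorem mul_def (m n : HM) : m * n = ⟨m.e + n.e, m.i + mf m.j m.k * n.i, m.j + n.j, m.k + n.k⟩ := rfl

/-- coordinates. -/
def equivProd : HM ≃ Fin 2 × Fin 8 × Fin 2 × Fin 2 where
  toFun m := (m.e, m.i, m.j, m.k)
  invFun p := ⟨p.1, p.2.1, p.2.2.1, p.2.2.2⟩
  left_inv _ := rfl
  right_inv _ := rfl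

instance : Fintype HM := Fintype.ofEquiv _ equivProd.symm

theorem card_HM : Nat.card HM = 64 := by
  rw [Nat.card_congr equivProd]; simp

theorem forall_iff {p : HM → Prop} : (∀ m, p m) ↔ ∀ e i j k, p ⟨e, i, j, k⟩ :=
  ⟨fun h _ _ _ _ => h _, fun h m => h m.e m.i m.j m.k⟩

instance decForall (p : HM → Prop) [DecidablePred p] : Decidable (∀ m, p m) :=
  decidable_of_iff (∀ e i j k, p ⟨e, i, j, k⟩) forall_iff.symm

theorem assoc_i : ∀ (j k j' k' : Fin 2) (i i' i'' : Fin 8),
    i + mf j k * i' + mf (j + j') (k + k') * i'' = i + mf j k * (i' + mf j' k' * i'') := by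
  decide +kernel

instance : Group HM where
  mul_assoc a b c := by
    refine HM.ext ?_ ?_ ?_ ?_
    · exact add_assoc _ _ _
    · exact assoc_i _ _ _ _ _ _ _
    · exact add_assoc _ _ _
    · exact add_assoc _ _ _
  one_mul := by decide +kernel
  mul_one := by decide +kernel
  inv_mul_cancel := by decide +kernel

/-- generators of the model. -/
def T : HM := ⟨1, 0, 0, 0⟩
/-- generators of the model. -/
def X : HM := ⟨0, 1, 0, 0⟩
/-- generators of the model. -/
def A : HM := ⟨0, 0, 1, 0⟩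
/-- generators of the model. -/
def U : HM := ⟨0, 0, 0, 1⟩
/-- generators of the model. -/
def Z : HM := ⟨0, 4, 0, 0⟩
/-- generators of the model. -/
def S : HM := ⟨0, 2, 1, 0⟩

/-- a subgroup of the model cut out by a decidable predicate. -/
def sub (p : HM → Prop) (h1 : p 1) (hm : ∀ m n, p m → p n → p (m * n)) (hi : ∀ m, p m → p m⁻¹) :
    Subgroup HM where
  carrier := {m | p m}
  one_mem' := h1
  mul_mem' := fun {a b} ha hb => hm a b ha hb
  inv_mem' := fun {a} ha => hi a ha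

theorem card_of_mem (K : Subgroup HM) (p : HM → Prop) [DecidablePred p] (h : ∀ m, m ∈ K ↔ p m) :
    Nat.card K = (Finset.univ.filter p).card := by
  rw [← Fintype.card_coe, ← Nat.card_eq_fintype_card]
  refine Nat.card_congr (Equiv.subtypeEquivRight fun m => ?_)
  simp [h]

theorem card_le_of_mem (K : Subgroup HM) (p : HM → Prop) [DecidablePred p] (h : ∀ m, m ∈ K → p m) :
    Nat.card K ≤ (Finset.univ.filter p).card := by
  classical
  rw [card_of_mem K (fun m => m ∈ K) (fun _ => Iff.rfl)]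
  refine Finset.card_le_card fun m hm => ?_
  simp only [Finset.mem_filter, Finset.mem_univ, true_and] at hm ⊢
  exact h m hm

theorem mem_C0 (m : HM) : m ∈ closure ({T, U, A, S} : Set HM) ↔ m.i.val % 2 = 0 := by
  constructor
  · intro h
    have : closure ({T, U, A, S} : Set HM) ≤ sub (fun m => m.i.val % 2 = 0) (by decide) (by decide +kernel)
        (by decide +kernel) := by
      rw [closure_le]
      rintro _ (rfl | rfl | rfl | rfl) <;> (show _ % 2 = 0; decide)
    exact this h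
  · intro h
    have key : ∀ m : HM, m.i.val % 2 = 0 → ∃ i j l : Fin 2, ∃ k : Fin 4,
        m = T ^ (i : ℕ) * U ^ (j : ℕ) * (A * S) ^ (k : ℕ) * A ^ (l : ℕ) := by decide +kernel
    obtain ⟨i, j, l, k, rfl⟩ := key m h
    have hT : T ∈ closure ({T, U, A, S} : Set HM) := subset_closure (by simp)
    have hU : U ∈ closure ({T, U, A, S} : Set HM) := subset_closure (by simp)
    have hA : A ∈ closure ({T, U, A, S} : Set HM) := subset_closure (by simp)
    have hS : S ∈ closure ({T, U, A, S} : Set HM) := subset_closure (by simp)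
    exact mul_mem (mul_mem (mul_mem (pow_mem hT _) (pow_mem hU _)) (pow_mem (mul_mem hA hS) _)) (pow_mem hA _)

theorem mem_D (m : HM) : m ∈ closure ({T, A, S} : Set HM) ↔ m.i.val % 2 = 0 ∧ m.k = 0 := by
  constructor
  · intro h
    have : closure ({T, A, S} : Set HM) ≤ sub (fun m => m.i.val % 2 = 0 ∧ m.k = 0) (by decide) (by decide +kernel)
        (by decide +kernel) := by
      rw [closure_le]
      rintro _ (rfl | rfl | rfl) <;> (show _ % 2 = 0 ∧ _; decide)
    exact this h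
  · intro h
    have key : ∀ m : HM, (m.i.val % 2 = 0 ∧ m.k = 0) → ∃ i l : Fin 2, ∃ k : Fin 4,
        m = T ^ (i : ℕ) * (A * S) ^ (k : ℕ) * A ^ (l : ℕ) := by decide +kernel
    obtain ⟨i, l, k, rfl⟩ := key m h
    have hT : T ∈ closure ({T, A, S} : Set HM) := subset_closure (by simp)
    have hA : A ∈ closure ({T, A, S} : Set HM) := subset_closure (by simp)
    have hS : S ∈ closure ({T, A, S} : Set HM) := subset_closure (by simp)
    exact mul_mem (mul_mem (pow_mem hT _) (pow_mem (mul_mem hA hS) _)) (pow_mem hA _)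

theorem mem_E (m : HM) : m ∈ closure ({T, U, A, Z} : Set HM) ↔ m.i.val % 4 = 0 := by
  constructor
  · intro h
    have : closure ({T, U, A, Z} : Set HM) ≤ sub (fun m => m.i.val % 4 = 0) (by decide) (by decide +kernel)
        (by decide +kernel) := by
      rw [closure_le]
      rintro _ (rfl | rfl | rfl | rfl) <;> (show _ % 4 = 0; decide)
    exact this h
  · intro h
    have key : ∀ m : HM, m.i.val % 4 = 0 → ∃ i j k l : Fin 2,
        m = T ^ (i : ℕ) * U ^ (j : ℕ) * Z ^ (k : ℕ) * A ^ (l : ℕ) := by decide +kernel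
    obtain ⟨i, j, k, l, rfl⟩ := key m h
    have hT : T ∈ closure ({T, U, A, Z} : Set HM) := subset_closure (by simp)
    have hU : U ∈ closure ({T, U, A, Z} : Set HM) := subset_closure (by simp)
    have hA : A ∈ closure ({T, U, A, Z} : Set HM) := subset_closure (by simp)
    have hZ : Z ∈ closure ({T, U, A, Z} : Set HM) := subset_closure (by simp)
    exact mul_mem (mul_mem (mul_mem (pow_mem hT _) (pow_mem hU _)) (pow_mem hZ _)) (pow_mem hA _)

theorem mem_E' (m : HM) : m ∈ closure ({T, U, S, Z} : Set HM) ↔ m.i.val % 4 = 2 * m.j.val := by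
  constructor
  · intro h
    have : closure ({T, U, S, Z} : Set HM) ≤ sub (fun m => m.i.val % 4 = 2 * m.j.val) (by decide)
        (by decide +kernel) (by decide +kernel) := by
      rw [closure_le]
      rintro _ (rfl | rfl | rfl | rfl) <;> (show _ % 4 = 2 * _; decide)
    exact this h
  · intro h
    have key : ∀ m : HM, m.i.val % 4 = 2 * m.j.val → ∃ i j k l : Fin 2,
        m = T ^ (i : ℕ) * U ^ (j : ℕ) * Z ^ (k : ℕ) * S ^ (l : ℕ) := by decide +kernel
    obtain ⟨i, j, k, l, rfl⟩ := key m h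
    have hT : T ∈ closure ({T, U, S, Z} : Set HM) := subset_closure (by simp)
    have hU : U ∈ closure ({T, U, S, Z} : Set HM) := subset_closure (by simp)
    have hS : S ∈ closure ({T, U, S, Z} : Set HM) := subset_closure (by simp)
    have hZ : Z ∈ closure ({T, U, S, Z} : Set HM) := subset_closure (by simp)
    exact mul_mem (mul_mem (mul_mem (pow_mem hT _) (pow_mem hU _)) (pow_mem hZ _)) (pow_mem hS _)

theorem mem_E8 (m : HM) : m ∈ closure ({T, U, Z} : Set HM) ↔ m.i.val % 4 = 0 ∧ m.j = 0 := by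
  constructor
  · intro h
    have : closure ({T, U, Z} : Set HM) ≤ sub (fun m => m.i.val % 4 = 0 ∧ m.j = 0) (by decide)
        (by decide +kernel) (by decide +kernel) := by
      rw [closure_le]
      rintro _ (rfl | rfl | rfl) <;> (show _ % 4 = 0 ∧ _; decide)
    exact this h
  · intro h
    have key : ∀ m : HM, (m.i.val % 4 = 0 ∧ m.j = 0) → ∃ i j k : Fin 2,
        m = T ^ (i : ℕ) * U ^ (j : ℕ) * Z ^ (k : ℕ) := by decide +kernel
    obtain ⟨i, j, k, rfl⟩ := key m h
    have hT : T ∈ closure ({T, U, Z} : Set HM) := subset_closure (by simp)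
    have hU : U ∈ closure ({T, U, Z} : Set HM) := subset_closure (by simp)
    have hZ : Z ∈ closure ({T, U, Z} : Set HM) := subset_closure (by simp)
    exact mul_mem (mul_mem (pow_mem hT _) (pow_mem hU _)) (pow_mem hZ _)

theorem mem_Z2 (m : HM) : m ∈ closure ({T, U, X ^ 2} : Set HM) ↔ m.i.val % 2 = 0 ∧ m.j = 0 := by
  constructor
  · intro h
    have : closure ({T, U, X ^ 2} : Set HM) ≤ sub (fun m => m.i.val % 2 = 0 ∧ m.j = 0) (by decide)
        (by decide +kernel) (by decide +kernel) := by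
      rw [closure_le]
      rintro _ (rfl | rfl | rfl) <;> (show _ % 2 = 0 ∧ _; decide)
    exact this h
  · intro h
    have key : ∀ m : HM, (m.i.val % 2 = 0 ∧ m.j = 0) → ∃ i j : Fin 2, ∃ k : Fin 4,
        m = T ^ (i : ℕ) * U ^ (j : ℕ) * (X ^ 2) ^ (k : ℕ) := by decide +kernel
    obtain ⟨i, j, k, rfl⟩ := key m h
    have hT : T ∈ closure ({T, U, X ^ 2} : Set HM) := subset_closure (by simp)
    have hU : U ∈ closure ({T, U, X ^ 2} : Set HM) := subset_closure (by simp)
    have hZ : X ^ 2 ∈ closure ({T, U, X ^ 2} : Set HM) := subset_closure (by simp)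
    exact mul_mem (mul_mem (pow_mem hT _) (pow_mem hU _)) (pow_mem hZ _)

theorem mem_V0 (m : HM) : m ∈ closure ({U, Z} : Set HM) ↔ m.i.val % 4 = 0 ∧ m.j = 0 ∧ m.e = 0 := by
  constructor
  · intro h
    have : closure ({U, Z} : Set HM) ≤ sub (fun m => m.i.val % 4 = 0 ∧ m.j = 0 ∧ m.e = 0) (by decide)
        (by decide +kernel) (by decide +kernel) := by
      rw [closure_le]
      rintro _ (rfl | rfl) <;> (show _ % 4 = 0 ∧ _; decide)
    exact this h
  · intro h
    have key : ∀ m : HM, (m.i.val % 4 = 0 ∧ m.j = 0 ∧ m.e = 0) → ∃ j k : Fin 2,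
        m = U ^ (j : ℕ) * Z ^ (k : ℕ) := by decide +kernel
    obtain ⟨j, k, rfl⟩ := key m h
    have hU : U ∈ closure ({U, Z} : Set HM) := subset_closure (by simp)
    have hZ : Z ∈ closure ({U, Z} : Set HM) := subset_closure (by simp)
    exact mul_mem (pow_mem hU _) (pow_mem hZ _)

theorem mem_F (m : HM) : m ∈ closure ({U, Z, A} : Set HM) ↔ m.i.val % 4 = 0 ∧ m.e = 0 := by
  constructor
  · intro h
    have : closure ({U, Z, A} : Set HM) ≤ sub (fun m => m.i.val % 4 = 0 ∧ m.e = 0) (by decide)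
        (by decide +kernel) (by decide +kernel) := by
      rw [closure_le]
      rintro _ (rfl | rfl | rfl) <;> (show _ % 4 = 0 ∧ _; decide)
    exact this h
  · intro h
    have key : ∀ m : HM, (m.i.val % 4 = 0 ∧ m.e = 0) → ∃ j k l : Fin 2,
        m = U ^ (j : ℕ) * Z ^ (k : ℕ) * A ^ (l : ℕ) := by decide +kernel
    obtain ⟨j, k, l, rfl⟩ := key m h
    have hU : U ∈ closure ({U, Z, A} : Set HM) := subset_closure (by simp)
    have hZ : Z ∈ closure ({U, Z, A} : Set HM) := subset_closure (by simp)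
    have hA : A ∈ closure ({U, Z, A} : Set HM) := subset_closure (by simp)
    exact mul_mem (mul_mem (pow_mem hU _) (pow_mem hZ _)) (pow_mem hA _)

theorem mem_A (m : HM) : m ∈ closure ({A, Z} : Set HM) ↔ m.i.val % 4 = 0 ∧ m.k = 0 ∧ m.e = 0 := by
  constructor
  · intro h
    have : closure ({A, Z} : Set HM) ≤ sub (fun m => m.i.val % 4 = 0 ∧ m.k = 0 ∧ m.e = 0) (by decide)
        (by decide +kernel) (by decide +kernel) := by
      rw [closure_le]
      rintro _ (rfl | rfl) <;> (show _ % 4 = 0 ∧ _; decide)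
    exact this h
  · intro h
    have key : ∀ m : HM, (m.i.val % 4 = 0 ∧ m.k = 0 ∧ m.e = 0) → ∃ j k : Fin 2,
        m = A ^ (j : ℕ) * Z ^ (k : ℕ) := by decide +kernel
    obtain ⟨j, k, rfl⟩ := key m h
    have hA : A ∈ closure ({A, Z} : Set HM) := subset_closure (by simp)
    have hZ : Z ∈ closure ({A, Z} : Set HM) := subset_closure (by simp)
    exact mul_mem (pow_mem hA _) (pow_mem hZ _)

theorem closure_top : closure ({T, X, A, U} : Set HM) = ⊤ := by
  rw [eq_top_iff]
  intro m _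
  have key : ∀ m : HM, m = T ^ (m.e : ℕ) * X ^ (m.i : ℕ) * A ^ (m.j : ℕ) * U ^ (m.k : ℕ) := by decide +kernel
  have hT : T ∈ closure ({T, X, A, U} : Set HM) := subset_closure (by simp)
  have hX : X ∈ closure ({T, X, A, U} : Set HM) := subset_closure (by simp)
  have hA : A ∈ closure ({T, X, A, U} : Set HM) := subset_closure (by simp)
  have hU : U ∈ closure ({T, X, A, U} : Set HM) := subset_closure (by simp)
  rw [key m]
  exact mul_mem (mul_mem (mul_mem (pow_mem hT _) (pow_mem hX _)) (pow_mem hA _)) (pow_mem hU _)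

theorem e16 (D : Subgroup HM) (h2 : ∀ y ∈ D, y * y = 1) (hc : 16 ≤ Nat.card D) :
    D = closure ({T, U, A, Z} : Set HM) ∨ D = closure ({T, U, S, Z} : Set HM) := by
  have hE : Nat.card (closure ({T, U, A, Z} : Set HM)) = 16 := by
    rw [card_of_mem _ _ mem_E]; decide +kernel
  have hE' : Nat.card (closure ({T, U, S, Z} : Set HM)) = 16 := by
    rw [card_of_mem _ _ mem_E']; decide +kernel
  have hev : ∀ y ∈ D, y.i.val % 2 = 0 := by
    intro y hy
    by_contra hodd
    have h1 := card_le_of_mem D (fun m => m * m = 1 ∧ (m * y) * (m * y) = 1)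
      (fun m hm => ⟨h2 m hm, h2 _ (mul_mem hm hy)⟩)
    have key : ∀ y : HM, y * y = 1 → ¬ y.i.val % 2 = 0 →
        (Finset.univ.filter (fun m : HM => m * m = 1 ∧ (m * y) * (m * y) = 1)).card ≤ 8 := by decide +kernel
    have := key y (h2 y hy) hodd
    omega
  by_cases hA : ∀ y ∈ D, y.i.val % 4 = 0
  · left
    exact eq_of_le_of_card_ge (fun y hy => (mem_E y).2 (hA y hy)) (by rw [hE]; exact hc)
  · right
    push Not at hA
    obtain ⟨y, hy, hy4⟩ := hA
    have key : ∀ y m : HM, y * y = 1 → y.i.val % 2 = 0 → y.i.val % 4 ≠ 0 → m * m = 1 → m.i.val % 2 = 0 →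
        (m * y) * (m * y) = 1 → m.i.val % 4 = 2 * m.j.val := by decide +kernel
    exact eq_of_le_of_card_ge
      (fun m hm => (mem_E' m).2 (key y m (h2 y hy) (hev y hy) hy4 (h2 m hm) (hev m hm) (h2 _ (mul_mem hm hy))))
      (by rw [hE']; exact hc)

end HM

namespace F2

variable {G : Type*} [Group G] (F : F2 G)

theorem x8 : F.x ^ 8 = 1 := by
  rw [show (8 : ℕ) = 4 + 4 from rfl, pow_add, F.x4, F.z2]

theorem semi (j k : Fin 2) :
    SemiconjBy (F.a ^ (j : ℕ) * F.u ^ (k : ℕ)) F.x (F.x ^ ((HM.mf j k : Fin 8) : ℕ)) := by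
  have ha : SemiconjBy F.a F.x (F.x ^ 3) := by
    show F.a * F.x = F.x ^ 3 * F.a
    rw [← F.ax, mul_assoc, F.a2, mul_one]
  have hu : SemiconjBy F.u F.x (F.x ^ 5) := by
    show F.u * F.x = F.x ^ 5 * F.u
    rw [← F.ux, mul_assoc, F.u2, mul_one]
  have hau : SemiconjBy (F.a * F.u) F.x (F.x ^ 7) := by
    have h := (ha.pow_right 5).mul_left hu
    rwa [← pow_mul, show 3 * 5 = 8 + 7 from rfl, pow_add, F.x8, one_mul] at h
  fin_cases j <;> fin_cases k
  · simp [HM.mf]
  · simpa [HM.mf] using hu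
  · simpa [HM.mf] using ha
  · simpa [HM.mf] using hau

/-- the evaluation map from the model. -/
def phi : HM →* G := MonoidHom.mk'
  (fun m => F.t ^ (m.e : ℕ) * F.x ^ (m.i : ℕ) * F.a ^ (m.j : ℕ) * F.u ^ (m.k : ℕ)) (by
    intro m n
    have t2 : F.t ^ 2 = 1 := by rw [pow_two, F.t2]
    have a2 : F.a ^ 2 = 1 := by rw [pow_two, F.a2]
    have u2 : F.u ^ 2 = 1 := by rw [pow_two, F.u2]
    have ctx : Commute F.t F.x := F.tx
    have cta : Commute F.t F.a := F.ta
    have ctu : Commute F.t F.u := F.tu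
    have cau : Commute F.a F.u := F.au
    have h1 : F.x ^ ((m.i + HM.mf m.j m.k * n.i : Fin 8) : ℕ) =
        F.x ^ (m.i : ℕ) * (F.x ^ ((HM.mf m.j m.k : Fin 8) : ℕ)) ^ (n.i : ℕ) := by
      rw [Fin.val_add, ← pow_eq_pow_mod _ F.x8, pow_add, Fin.val_mul, ← pow_eq_pow_mod _ F.x8, pow_mul]
    have h2 := ((F.semi m.j m.k).pow_right (n.i : ℕ)).eq
    simp only [HM.mul_def]
    rw [h1, Fin.val_add, Fin.val_add, Fin.val_add, ← pow_eq_pow_mod _ t2, ← pow_eq_pow_mod _ a2,
      ← pow_eq_pow_mod _ u2, pow_add, pow_add, pow_add]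
    have c1 : Commute (F.t ^ (n.e : ℕ)) (F.x ^ (m.i : ℕ) * F.a ^ (m.j : ℕ) * F.u ^ (m.k : ℕ)) :=
      ((ctx.pow_pow _ _).mul_right (cta.pow_pow _ _)).mul_right (ctu.pow_pow _ _)
    have c2 : Commute (F.a ^ (n.j : ℕ)) (F.u ^ (m.k : ℕ)) := cau.pow_pow _ _
    calc _ = F.t ^ (m.e : ℕ) * F.t ^ (n.e : ℕ) * F.x ^ (m.i : ℕ) *
          ((F.x ^ ((HM.mf m.j m.k : Fin 8) : ℕ)) ^ (n.i : ℕ) * (F.a ^ (m.j : ℕ) * F.u ^ (m.k : ℕ))) *
          F.a ^ (n.j : ℕ) * F.u ^ (n.k : ℕ) := by
          simp only [mul_assoc]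
          rw [← mul_assoc (F.a ^ (n.j : ℕ)), c2.eq, mul_assoc]
      _ = F.t ^ (m.e : ℕ) * (F.t ^ (n.e : ℕ) * (F.x ^ (m.i : ℕ) * F.a ^ (m.j : ℕ) * F.u ^ (m.k : ℕ))) *
          F.x ^ (n.i : ℕ) * F.a ^ (n.j : ℕ) * F.u ^ (n.k : ℕ) := by
          rw [← h2]; simp only [mul_assoc]
      _ = _ := by rw [c1.eq]; simp only [mul_assoc])

theorem phi_apply (m : HM) :
    F.phi m = F.t ^ (m.e : ℕ) * F.x ^ (m.i : ℕ) * F.a ^ (m.j : ℕ) * F.u ^ (m.k : ℕ) := rfl

theorem phi_T : F.phi HM.T = F.t := by simp [phi_apply, HM.T]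
theorem phi_X : F.phi HM.X = F.x := by simp [phi_apply, HM.X]
theorem phi_A : F.phi HM.A = F.a := by simp [phi_apply, HM.A]
theorem phi_U : F.phi HM.U = F.u := by simp [phi_apply, HM.U]
theorem phi_Z : F.phi HM.Z = F.z := by
  rw [show HM.Z = HM.X ^ 4 by decide, map_pow, phi_X, F.x4]
theorem phi_S : F.phi HM.S = F.s := by
  rw [show HM.S = HM.X⁻¹ * HM.A * HM.X by decide, map_mul, map_mul, map_inv, phi_X, phi_A, F.hs]

theorem range_phi : F.phi.range = closure ({F.t, F.x, F.a, F.u} : Set G) := by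
  rw [MonoidHom.range_eq_map, ← HM.closure_top, MonoidHom.map_closure]
  simp only [Set.image_insert_eq, Set.image_singleton, phi_T, phi_X, phi_A, phi_U]

theorem phi_inj : Function.Injective F.phi := by
  have h1 : Nat.card F.phi.range = 64 := by rw [range_phi, F.card0]
  have h2 := F.phi.ker.card_mul_index
  rw [index_ker, h1, HM.card_HM] at h2
  rw [← MonoidHom.ker_eq_bot_iff, ← card_eq_one]
  omega

theorem mem_S0 {c : G} : c ∈ closure ({F.t, F.x, F.a, F.u} : Set G) ↔ ∃ m, F.phi m = c := by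
  rw [← range_phi]; rfl

theorem phi_eq {m n : HM} : F.phi m = F.phi n ↔ m = n := F.phi_inj.eq_iff

theorem phi_mem {K : Subgroup HM} {m : HM} : F.phi m ∈ K.map F.phi ↔ m ∈ K :=
  mem_map_iff_mem F.phi_inj

theorem map_C0 : (closure ({HM.T, HM.U, HM.A, HM.S} : Set HM)).map F.phi = closure ({F.t, F.u, F.a, F.s} : Set G) := by
  rw [MonoidHom.map_closure]
  simp only [Set.image_insert_eq, Set.image_singleton, phi_T, phi_S, phi_A, phi_U]

theorem map_D : (closure ({HM.T, HM.A, HM.S} : Set HM)).map F.phi = closure ({F.t, F.a, F.s} : Set G) := by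
  rw [MonoidHom.map_closure]
  simp only [Set.image_insert_eq, Set.image_singleton, phi_T, phi_S, phi_A]

theorem map_E : (closure ({HM.T, HM.U, HM.A, HM.Z} : Set HM)).map F.phi = closure ({F.t, F.u, F.a, F.z} : Set G) := by
  rw [MonoidHom.map_closure]
  simp only [Set.image_insert_eq, Set.image_singleton, phi_T, phi_Z, phi_A, phi_U]

theorem map_E' : (closure ({HM.T, HM.U, HM.S, HM.Z} : Set HM)).map F.phi = closure ({F.t, F.u, F.s, F.z} : Set G) := by
  rw [MonoidHom.map_closure]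
  simp only [Set.image_insert_eq, Set.image_singleton, phi_T, phi_Z, phi_S, phi_U]

theorem map_E8 : (closure ({HM.T, HM.U, HM.Z} : Set HM)).map F.phi = closure ({F.t, F.u, F.z} : Set G) := by
  rw [MonoidHom.map_closure]
  simp only [Set.image_insert_eq, Set.image_singleton, phi_T, phi_Z, phi_U]

theorem map_Z2 : (closure ({HM.T, HM.U, HM.X ^ 2} : Set HM)).map F.phi = closure ({F.t, F.u, F.x ^ 2} : Set G) := by
  rw [MonoidHom.map_closure]
  simp only [Set.image_insert_eq, Set.image_singleton, phi_T, map_pow, phi_X, phi_U]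

theorem map_V0 : (closure ({HM.U, HM.Z} : Set HM)).map F.phi = closure ({F.u, F.z} : Set G) := by
  rw [MonoidHom.map_closure]
  simp only [Set.image_insert_eq, Set.image_singleton, phi_Z, phi_U]

theorem map_F : (closure ({HM.U, HM.Z, HM.A} : Set HM)).map F.phi = closure ({F.u, F.z, F.a} : Set G) := by
  rw [MonoidHom.map_closure]
  simp only [Set.image_insert_eq, Set.image_singleton, phi_Z, phi_U, phi_A]

theorem map_A : (closure ({HM.A, HM.Z} : Set HM)).map F.phi = closure ({F.a, F.z} : Set G) := by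
  rw [MonoidHom.map_closure]
  simp only [Set.image_insert_eq, Set.image_singleton, phi_Z, phi_A]

theorem phi_mem_C0 (m : HM) : F.phi m ∈ closure ({F.t, F.u, F.a, F.s} : Set G) ↔ m.i.val % 2 = 0 := by
  rw [← map_C0, phi_mem, HM.mem_C0]
theorem phi_mem_D (m : HM) : F.phi m ∈ closure ({F.t, F.a, F.s} : Set G) ↔ m.i.val % 2 = 0 ∧ m.k = 0 := by
  rw [← map_D, phi_mem, HM.mem_D]
theorem phi_mem_E (m : HM) : F.phi m ∈ closure ({F.t, F.u, F.a, F.z} : Set G) ↔ m.i.val % 4 = 0 := by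
  rw [← map_E, phi_mem, HM.mem_E]
theorem phi_mem_E' (m : HM) : F.phi m ∈ closure ({F.t, F.u, F.s, F.z} : Set G) ↔ m.i.val % 4 = 2 * m.j.val := by
  rw [← map_E', phi_mem, HM.mem_E']
theorem phi_mem_E8 (m : HM) : F.phi m ∈ closure ({F.t, F.u, F.z} : Set G) ↔ m.i.val % 4 = 0 ∧ m.j = 0 := by
  rw [← map_E8, phi_mem, HM.mem_E8]
theorem phi_mem_Z2 (m : HM) : F.phi m ∈ closure ({F.t, F.u, F.x ^ 2} : Set G) ↔ m.i.val % 2 = 0 ∧ m.j = 0 := by
  rw [← map_Z2, phi_mem, HM.mem_Z2]
theorem phi_mem_V0 (m : HM) : F.phi m ∈ closure ({F.u, F.z} : Set G) ↔ m.i.val % 4 = 0 ∧ m.j = 0 ∧ m.e = 0 := by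
  rw [← map_V0, phi_mem, HM.mem_V0]
theorem phi_mem_F (m : HM) : F.phi m ∈ closure ({F.u, F.z, F.a} : Set G) ↔ m.i.val % 4 = 0 ∧ m.e = 0 := by
  rw [← map_F, phi_mem, HM.mem_F]
theorem phi_mem_A (m : HM) : F.phi m ∈ closure ({F.a, F.z} : Set G) ↔ m.i.val % 4 = 0 ∧ m.k = 0 ∧ m.e = 0 := by
  rw [← map_A, phi_mem, HM.mem_A]

end F2

end Cfsg.Agent.WA.H3
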