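import Cfsg.Agent.WA.HwDef

/-! Groups with a self-centralizing element of order three. -/

set_option autoImplicit false
set_option linter.unusedSectionVars false

namespace Cfsg.Agent.WA.Hw

open Subgroup Cfsg.Agent.FT Cfsg.Agent.L0 Cfsg.Agent.H8
open Cfsg.Agent.H9.F3 (SC Iv Gd)
open Cfsg.Agent.H2.Hw (Fp)

universe u

namespace A

variable {Y : Type u} [Group Y] [Finite Y] {w : Y}

local instance fact3 : Fact (Nat.Prime 3) := ⟨Nat.prime_three⟩
local instance fact2 : Fact (Nat.Prime 2) := ⟨Nat.prime_two⟩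
local instance fact7 : Fact (Nat.Prime 7) := ⟨by norm_num⟩

theorem nil_of_iv {L : Subgroup Y} (h : SC w) (hL : Iv w L) : Group.IsNilpotent L := by
  have f : Fp w L := ⟨fun y hy => hL.cj hy, h.cube, fun y hy e => h.eq_one hL hy e.symm⟩
  refine isNilpotent_of_commutator_le_centralizer (commutator_le.2 fun b hb a ha => ?_)
  exact mem_centralizer_iff.2 fun c hc => (f.cls2 ha hb hc).eq

theorem out_of {L : Subgroup Y} (h : SC w) (hL : ¬ 3 ∣ Nat.card L) : w ∉ L := fun e =>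
  hL (h.order ▸ L.orderOf_dvd_natCard e)

theorem ex_ord {H : Subgroup Y} {q : ℕ} (hq : q.Prime) (h : q ∣ Nat.card H) : ∃ k ∈ H, orderOf k = q := by
  haveI := Fact.mk hq
  obtain ⟨k, hk⟩ := exists_prime_orderOf_dvd_card' q h
  exact ⟨k, k.2, by rw [orderOf_coe, hk]⟩

theorem iv_core (h : SC w) : Iv w (pPrimeCore 3 Y) :=
  ⟨by rw [normalizer_eq_top]; trivial, out_of h not_dvd_card_pPrimeCore⟩

theorem cj_order (h : SC w) (g : Y) : 3 ∣ orderOf (g * w * g⁻¹) := by rw [(h.conj g).order]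

/-- the facts on a nonabelian simple group -/
theorem simple_facts [IsSimpleGroup Y] (hG : ¬ IsMulCommutative Y) (h : SC w) :
    ∃ x, x * w * x⁻¹ = w⁻¹ ∧ (∀ t, t * t = 1 → t ≠ 1 → IsConj x t) ∧ ∃ u, Gd w u := by
  have hp := H6.perfect_of_simple hG
  obtain ⟨x, hx⟩ : ∃ x, x * w * x⁻¹ = w⁻¹ := by_contra fun e =>
    H6.not_hasNormalPComplement_of_perfect hp (h.order ▸ orderOf_dvd_natCard w) (h.hnc fun x a => e ⟨x, a⟩)
  obtain ⟨d, a, c⟩ := H9.F3.exists_ch h (isConj_iff.mpr ⟨x, hx⟩)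
  have xx := h.inverter_sq hx
  have x1 := h.inverter_ne hx
  have ad := c.ne inferInstance x xx x1
  refine ⟨x, hx, fun t a b => h.isConj_of_ne c hx a (c.ne inferInstance t a b) ad, by_contra fun e => ?_⟩
  refine h.small hx (fun u a => e ⟨u, a⟩) ?_
  rcases H9.F3.three_main hG h with e | e <;> rw [e] <;> decide

/-- trivial `3'`-core -/
theorem core_bot (h : SC w) (h0 : pPrimeCore 3 Y = ⊥) : Nat.card Y = 3 ∨ Nat.card Y = 6 ∨
    (IsSimpleGroup Y ∧ ¬ IsMulCommutative Y) := by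
  set K := normalClosure ({w} : Set Y) with hK
  have wK : w ∈ K := subset_normalClosure rfl
  have hs : IsSimpleGroup K := by
    haveI : Nontrivial K := ⟨⟨⟨w, wK⟩, 1, fun e => h.ne (congrArg Subtype.val e)⟩⟩
    refine ⟨fun M hM => or_iff_not_imp_left.2 fun M0 => ?_⟩
    have h3 : 3 ∣ Nat.card M := by
      by_contra h3
      have sn : (M.map K.subtype).IsSubnormal := hM.isSubnormal.trans' (Normal.isSubnormal inferInstance)
      have := le_pPrimeCore_of_isSubnormal (p := 3) sn (by rwa [card_map_of_injective K.subtype_injective])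
      rw [h0, le_bot_iff, map_eq_bot_iff_of_injective _ K.subtype_injective] at this
      exact M0 this
    obtain ⟨x, xM, x3⟩ := ex_ord Nat.prime_three h3
    have all : ∀ y : K, 3 ∣ orderOf y → y ∈ M := fun y hy => by
      obtain ⟨g, -, hg⟩ := ((h.sub wK).of_dvd (x := x) (by rw [x3])).conj_of_dvd (mem_top x) (mem_top y) hy
      have : g * y * g⁻¹ ∈ M := by rcases hg with e | e <;> rw [e] <;> simp [xM]
      simpa [mul_assoc] using hM.conj_mem _ this g⁻¹
    rw [eq_top_iff]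
    intro k _
    have : K ≤ M.map K.subtype := by
      refine (closure_le _).2 fun y hy => ?_
      obtain ⟨a, rfl, c⟩ := Group.mem_conjugatesOfSet_iff.1 hy
      obtain ⟨g, rfl⟩ := isConj_iff.1 c
      have m : g * a * g⁻¹ ∈ K := Normal.conj_mem inferInstance _ wK g
      exact ⟨⟨_, m⟩, all _ (by rw [← orderOf_coe]; exact cj_order h g), rfl⟩
    obtain ⟨m, hm, e⟩ := this k.2
    rwa [← Subtype.ext e]
  have fr : ∀ g : Y, ∃ k ∈ K, k * g * w * (k * g)⁻¹ = w ∨ k * g * w * (k * g)⁻¹ = w⁻¹ := fun g => by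
    obtain ⟨k, hk, e⟩ := h.conj_of_dvd wK (Normal.conj_mem inferInstance _ wK g) (cj_order h g)
    exact ⟨k, hk, by simpa only [mul_inv_rev, mul_assoc] using e⟩
  have cen : ∀ g : Y, g * w * g⁻¹ = w → g ∈ zpowers w := fun g e =>
    h.mem_zp.2 (h.cen g (mul_inv_eq_iff_eq_mul.1 e))
  by_cases hc : IsMulCommutative K
  · have KZ : ∀ k ∈ K, k ∈ zpowers w := fun k hk => cen k (by
      rw [mul_inv_eq_iff_eq_mul]
      exact congrArg Subtype.val (hc.is_comm.comm (⟨k, hk⟩ : K) ⟨w, wK⟩))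
    by_cases hx : ∃ x, x * w * x⁻¹ = w⁻¹
    · obtain ⟨x, hx⟩ := hx
      have xZ : x ∉ zpowers w := fun e => h.ne_inv (by
        obtain ⟨i, rfl⟩ := e
        rw [← hx]; simp only; group)
      have : (zpowers w).index = 2 := by
        refine index_eq_two_iff_exists_notMem_and'.2 ⟨x, xZ, fun b => ?_⟩
        obtain ⟨k, hk, e⟩ := fr b
        rcases e with e | e
        · exact Or.inr ((mul_mem_cancel_left (KZ k hk)).1 (cen _ e))
        · obtain ⟨i, rfl⟩ := KZ k hk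
          refine Or.inl (cen _ ?_)
          have e' : b * w * b⁻¹ = w⁻¹ := by
            calc _ = (w ^ i)⁻¹ * (w ^ i * b * w * (w ^ i * b)⁻¹) * w ^ i := by group
              _ = _ := by rw [show w ^ i * b * w * (w ^ i * b)⁻¹ = w⁻¹ from e]; group
          calc _ = x * (b * w * b⁻¹) * x⁻¹ := by group
            _ = _ := by rw [e', h.inverter_inv hx]
      right; left
      rw [← (zpowers w).card_mul_index, this, Nat.card_zpowers, h.order]
    · left
      have : zpowers w = ⊤ := eq_top_iff.2 fun g _ => by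
        obtain ⟨k, hk, e⟩ := fr g
        exact (mul_mem_cancel_left (KZ k hk)).1 (cen _ (e.resolve_right fun e => hx ⟨_, e⟩))
      rw [← card_top, ← this, Nat.card_zpowers, h.order]
  · obtain ⟨x, hx, -⟩ := simple_facts hc (h.sub wK)
    have hx' : (x : Y) * w * (x : Y)⁻¹ = w⁻¹ := congrArg Subtype.val hx
    have KT : K = ⊤ := eq_top_iff.2 fun g _ => by
      obtain ⟨k, hk, e⟩ := fr g
      refine (mul_mem_cancel_left hk).1 ?_
      rcases e with e | e
      · exact zpowers_le.2 wK (cen _ e)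
      · rcases h.inverter hx' e with e | e | e <;> rw [e]
        exacts [x.2, mul_mem x.2 wK, mul_mem x.2 (inv_mem wK)]
    have e : K ≃* Y := (MulEquiv.subgroupCongr KT).trans topEquiv
    refine Or.inr (Or.inr ⟨e.symm.isSimpleGroup, fun hY => hc ⟨⟨fun a b => Subtype.ext (hY.is_comm.comm _ _)⟩⟩⟩)

/-- the quotient by the `3'`-core -/
theorem sc_quo (h : SC w) : SC (QuotientGroup.mk' (pPrimeCore 3 Y) w) :=
  h.map _ (QuotientGroup.mk'_surjective _) fun e =>
    (iv_core h).out ((QuotientGroup.eq_one_iff w).1 e)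

theorem iv_comap (h : SC w) {p : ℕ} [hp : Fact p.Prime] (p3 : p ≠ 3)
    {V : Subgroup (Y ⧸ pPrimeCore 3 Y)} (hV : IsPGroup p V) (hw : QuotientGroup.mk' (pPrimeCore 3 Y) w ∈ 𝐍(V)) :
    Iv w (V.comap (QuotientGroup.mk' (pPrimeCore 3 Y))) := by
  refine ⟨?_, out_of h (not_dvd_card_comap _ (by rw [QuotientGroup.ker_mk']; exact not_dvd_card_pPrimeCore)
    fun e => ?_)⟩
  · exact mem_normalizer_iff.2 fun y => by
      simpa only [mem_comap, map_mul, map_inv] using mem_normalizer_iff.1 hw (QuotientGroup.mk' _ y)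
  · obtain ⟨k, hk⟩ := hV.exists_card_eq
    rw [hk] at e
    exact p3 ((Nat.prime_dvd_prime_iff_eq Nat.prime_three hp.out).1 (Nat.prime_three.dvd_of_dvd_pow e)).symm

theorem kill (h : SC w) (hs : IsSimpleGroup (Y ⧸ pPrimeCore 3 Y)) {p : ℕ} [hp : Fact p.Prime] (p3 : p ≠ 3)
    {V : Subgroup (Y ⧸ pPrimeCore 3 Y)} (hV : IsPGroup p V) (V0 : V ≠ ⊥)
    (hw : QuotientGroup.mk' (pPrimeCore 3 Y) w ∈ 𝐍(V)) : IsPGroup p (pPrimeCore 3 Y) := by
  set N := pPrimeCore 3 Y with hN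
  set f := QuotientGroup.mk' N with hf
  have fs : Function.Surjective f := QuotientGroup.mk'_surjective _
  have iL : Iv w (V.comap f) := iv_comap h p3 hV hw
  haveI := nil_of_iv h iL
  haveI := nil_of_iv h (iv_core h)
  have NL : N ≤ V.comap f := fun y hy => by
    rw [mem_comap, show f y = 1 from (QuotientGroup.eq_one_iff y).2 hy]; exact one_mem _
  set R := (pPrimeCore p N).map N.subtype with hR
  haveI : R.Normal := map_pPrimeCore_normal N
  have Rp : ¬ p ∣ Nat.card R := not_dvd_card_map_pPrimeCore N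
  obtain ⟨P, hP⟩ := exists_isSylowIn p (V.comap f)
  have PC : P ≤ 𝐂(R) := by
    obtain ⟨k, hk⟩ := hP.pgroup.exists_card_eq
    refine commutator_eq_bot_iff_le_centralizer.1 (commutator_eq_bot_of_le_isNilpotent_of_coprime hP.le
      ((map_subtype_le _).trans NL) ?_)
    rw [hk]
    exact Nat.Coprime.pow_left k ((Nat.Prime.coprime_iff_not_dvd hp.out).2 Rp)
  have PV : P.map f = V := by
    have := hP.map f
    rw [map_comap_eq_self_of_surjective fs] at this
    exact (this.max V le_rfl hV this.le).symm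
  have CT : (𝐂(R)).map f = ⊤ := by
    refine (IsSimpleGroup.eq_bot_or_eq_top_of_normal _ (Normal.map inferInstance f fs)).resolve_left fun e => V0 ?_
    rw [← PV, eq_bot_iff, ← e]
    exact map_mono PC
  have C3 : 3 ∣ Nat.card 𝐂(R) := by
    refine Dvd.dvd.trans ?_ (card_map_dvd _ f)
    rw [CT, card_top, ← (sc_quo h).order]
    exact orderOf_dvd_natCard _
  obtain ⟨y, yC, y3⟩ := ex_ord Nat.prime_three C3
  have hy : SC y := h.of_dvd (by rw [y3])
  have R0 : R = ⊥ := eq_bot_iff.2 fun r hr =>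
    hy.eq_one (iv_core hy) (map_subtype_le _ hr) (mem_centralizer_iff.1 yC r hr)
  have := pCore_sup_pPrimeCore_of_isNilpotent (G := N) p
  rw [map_pPrimeCore_eq_bot_iff.1 R0, sup_bot_eq] at this
  exact (pCore_isPGroup (p := p) (G := N)).of_equiv ((MulEquiv.subgroupCongr this).trans topEquiv)

theorem exists_V [IsSimpleGroup Y] (hG : ¬ IsMulCommutative Y) (h : SC w) :
    ∃ V : Subgroup Y, IsPGroup 2 V ∧ V ≠ ⊥ ∧ w ∈ 𝐍(V) := by
  obtain ⟨-, -, -, u, hu⟩ := simple_facts hG h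
  refine ⟨_, (h.two_of_gd hu).1, fun e => hu.ne ?_, (h.two_of_gd hu).2⟩
  exact mem_bot.1 (e ▸ mem_sup_left (mem_zpowers u))

theorem seven (h : Nat.card Y = 168) :
    ∃ (V : Subgroup Y) (y : Y), IsPGroup 7 V ∧ V ≠ ⊥ ∧ orderOf y = 3 ∧ y ∈ 𝐍(V) := by
  obtain ⟨P⟩ : Nonempty (Sylow 7 Y) := inferInstance
  have h1 := card_sylow_modEq_one 7 Y
  rw [P.card_eq_index_normalizer] at h1
  have h2 := (𝐍((P : Subgroup Y))).card_mul_index
  rw [h] at h2
  have h3 : 3 ∣ Nat.card 𝐍((P : Subgroup Y)) := by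
    refine (Nat.Prime.dvd_mul Nat.prime_three).1 (h2 ▸ (by decide : 3 ∣ 168)) |>.resolve_right fun e => ?_
    have := Nat.le_of_dvd (by norm_num) (Dvd.intro_left _ h2)
    have h4 := Dvd.intro_left _ h2
    generalize (𝐍((P : Subgroup Y))).index = n at *
    obtain ⟨m, rfl⟩ := e
    have : m ≤ 56 := by omega
    unfold Nat.ModEq at h1
    interval_cases m <;> simp_all
  obtain ⟨y, hy, y3⟩ := ex_ord Nat.prime_three h3
  exact ⟨P, y, P.2, P.ne_bot_of_dvd_card (by rw [h]; decide), y3, hy⟩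

theorem syl_of_iv {L : Subgroup Y} (h : SC w) (hL : Iv w L) (ho : ¬ 2 ∣ L.index) :
    ∃ V, IsSylowIn 2 V ⊤ ∧ w ∈ 𝐍(V) := by
  haveI := nil_of_iv h hL
  obtain ⟨V, hV⟩ := exists_isSylowIn 2 L
  have e : Op 2 L = V := hV.max _ (map_subtype_le _) (map_pCore_isPGroup L) fun v hv =>
    ⟨⟨v, hV.le hv⟩, le_pCore_of_isNilpotent (hV.pgroup.comap_subtype (K := L)) hv, rfl⟩
  refine ⟨V, .of_not_dvd_relIndex le_top hV.pgroup ?_, e ▸ normalizer_le_normalizer_map_pCore L hL.nm⟩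
  rw [relIndex_top_right, ← relIndex_mul_index hV.le, Nat.prime_two.dvd_mul, not_or]
  exact ⟨hV.not_dvd_relIndex, ho⟩

theorem syl60 (h : SC w) (hs : IsSimpleGroup (Y ⧸ pPrimeCore 3 Y)) (e : (pPrimeCore 3 Y).index = 60) :
    ∃ V, IsSylowIn 2 V ⊤ ∧ w ∈ 𝐍(V) := by
  have e' : Nat.card (Y ⧸ pPrimeCore 3 Y) = 60 := e
  obtain ⟨-, hc⟩ := ((core_bot (sc_quo h) pPrimeCore_quotient_pPrimeCore).resolve_left
    (by omega)).resolve_left (by omega)
  obtain ⟨V, V2, V0, hV⟩ := exists_V hc (sc_quo h)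
  refine syl_of_iv h (iv_comap h (by norm_num) V2 hV) ?_
  rw [index_comap_of_surjective _ (QuotientGroup.mk'_surjective _)]
  have h1 := (sc_quo h).card_mod ((sc_quo h).iv V2 hV)
  have h2 := V.card_mul_index
  obtain ⟨k, hk⟩ := V2.exists_card_eq
  rw [e', hk] at h2
  rw [hk] at h1
  rcases k with _ | _ | k
  · exact absurd (card_eq_one.1 hk) V0
  · omega
  · rintro ⟨m, hm⟩
    rw [hm, pow_succ, pow_succ] at h2
    generalize 2 ^ k = n at h2
    have : 8 * (n * m) = 60 := by rw [← h2]; ring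
    omega

theorem inverter6 (h : SC w) (e : (pPrimeCore 3 Y).index = 6) : ∃ s, s * w * s⁻¹ = w⁻¹ := by
  by_contra hn
  obtain ⟨P, K, hK, c⟩ := h.hnc fun x a => hn ⟨x, a⟩
  obtain ⟨k, hk⟩ := P.2.exists_card_eq
  have := index_dvd_of_le (le_pPrimeCore' (p := 3) hK (c.index_eq_card ▸ P.not_dvd_index))
  rw [e, c.symm.index_eq_card, hk] at this
  exact absurd (Nat.prime_two.dvd_of_dvd_pow (Dvd.dvd.trans (by decide) this)) (by decide)

theorem four168 [IsSimpleGroup Y] (hG : ¬ IsMulCommutative Y) (h : SC w) (e : Nat.card Y = 168) :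
    ∃ (y : Y) (k : ℕ), y ^ 2 ^ k = 1 ∧ y * y ≠ 1 := by
  by_contra hn
  obtain ⟨-, -, -, u, hu⟩ := simple_facts hG h
  obtain ⟨V2, hV⟩ := h.two_of_gd hu
  have uV := mem_sup_left (T := zpowers (w * u * w⁻¹)) (mem_zpowers u)
  have h1 := h.card_mod (h.iv_cz (h.iv V2 hV) uV hu.ne)
  obtain ⟨T, hT, VT⟩ := exists_isSylowIn_ge V2 le_top
  have T2 : ∀ t ∈ T, t * t = 1 := fun t ht => by_contra fun a => by
    obtain ⟨k, hk⟩ := hT.pgroup ⟨t, ht⟩
    exact hn ⟨t, k, congrArg Subtype.val hk, a⟩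
  have h2 := card_dvd_of_le (show T ≤ GW.Cz u ⊓ GW.Cz (w * u * w⁻¹) from fun t ht =>
    ⟨mem_centralizer_singleton_iff.2 (GS.comm_of_sq T2 ht (VT uV)),
      mem_centralizer_singleton_iff.2 (GS.comm_of_sq T2 ht (VT (mem_sup_right (mem_zpowers _))))⟩)
  have h3 := card_subgroup_dvd_card (GW.Cz u ⊓ GW.Cz (w * u * w⁻¹))
  have h4 := hT.not_dvd_relIndex
  have h5 := T.card_mul_index
  obtain ⟨k, hk⟩ := hT.pgroup.exists_card_eq
  rw [relIndex_top_right] at h4
  rw [e] at h3 h5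
  have h8 : 8 ∣ Nat.card T :=
    (Nat.Coprime.pow_left 3 ((Nat.Prime.coprime_iff_not_dvd Nat.prime_two).2 h4)).dvd_of_dvd_mul_right
      (h5 ▸ by decide)
  obtain ⟨m, hm⟩ := h8.trans h2
  rw [hm] at h1 h3
  have : m ≤ 21 := by have := Nat.le_of_dvd (by norm_num) h3; omega
  interval_cases m <;> simp_all

end A

open A in
/-- groups with a self-centralizing element of order three -/
theorem sc3 {Y : Type u} [Group Y] [Finite Y] {w : Y} (h : H9.F3.SC w) :
    Group.IsNilpotent (pPrimeCore 3 Y) ∧ ((pPrimeCore 3 Y).index = 3 ∨ (pPrimeCore 3 Y).index = 6 ∨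
      (IsSimpleGroup (Y ⧸ pPrimeCore 3 Y) ∧ (((pPrimeCore 3 Y).index = 60 ∧ IsPGroup 2 (pPrimeCore 3 Y)) ∨
        ((pPrimeCore 3 Y).index = 168 ∧ pPrimeCore 3 Y = ⊥)))) := by
  haveI : Fact (Nat.Prime 3) := ⟨Nat.prime_three⟩
  haveI : Fact (Nat.Prime 2) := ⟨Nat.prime_two⟩
  haveI : Fact (Nat.Prime 7) := ⟨by norm_num⟩
  refine ⟨nil_of_iv h (iv_core h), ?_⟩
  rcases core_bot (sc_quo h) pPrimeCore_quotient_pPrimeCore with e | e | ⟨hs, hc⟩
  · exact Or.inl e
  · exact Or.inr (Or.inl e)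
  obtain ⟨V, V2, V0, hV⟩ := exists_V hc (sc_quo h)
  have k2 := kill h hs (by norm_num) V2 V0 hV
  refine Or.inr (Or.inr ⟨hs, (H9.F3.three_main hc (sc_quo h)).imp (⟨·, k2⟩) fun e => ⟨e, ?_⟩⟩)
  obtain ⟨W, y, W7, W0, y3, hy⟩ := seven e
  obtain ⟨y, rfl⟩ := QuotientGroup.mk'_surjective _ y
  have k7 := kill (h.of_dvd (y3 ▸ orderOf_map_dvd _ y)) hs (by norm_num) W7 W0 hy
  exact disjoint_self.1 (IsPGroup.disjoint_of_ne 2 7 (by norm_num) _ _ k2 k7)

end Cfsg.Agent.WA.Hw
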