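import Cfsg.Agent.WA.HwB1

/-! The case that `x` normalizes a Sylow subgroup. -/

set_option autoImplicit false
set_option linter.unusedSectionVars false

namespace Cfsg.Agent.WA.Hw

open Subgroup Cfsg.Agent.FT Cfsg.Agent.L0 Cfsg.Agent.H8 Cfsg.Agent.WA.Rw
open Cfsg.Agent.BS (Invo)
open Cfsg.Agent.H2.SC (omZ mem_omZ omZ_le le_cent_omZ omZ_ne_bot norm_omZ cj_omZ)
open Cfsg.Agent.H9.F3 (SC)
open scoped commutatorElement

universe u

variable {G : Type u} [Group G] [Finite G] {z x s a w y : G} {S V L D B : Subgroup G}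

theorem pow_comm_aux {X : Type*} [Group X] {a s : X} {n : ℕ} (h1 : Commute a ⁅a, s⁆) (h2 : Commute s ⁅a, s⁆)
    (hn : s ^ n = 1) : a ^ n * s = s * a ^ n := by
  have e : a * s * a⁻¹ = ⁅a, s⁆ * s := by rw [commutatorElement_def]; group
  have c : ⁅a, s⁆ ^ n = 1 := by
    have := congrArg (· ^ n) e
    simp only [conj_pow, h2.symm.mul_pow, hn, mul_one, mul_inv_cancel] at this
    exact this.symm
  have : ∀ k : ℕ, a ^ k * s = ⁅a, s⁆ ^ k * s * a ^ k := fun k => by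
    induction k with
    | zero => simp
    | succ k ih =>
      calc a ^ (k + 1) * s = a * (a ^ k * s) := by rw [pow_succ']; group
        _ = a * ⁅a, s⁆ ^ k * s * a ^ k := by rw [ih]; group
        _ = ⁅a, s⁆ ^ k * (a * s * a⁻¹) * (a * a ^ k) := by rw [(h1.pow_right k).eq]; group
        _ = _ := by rw [e, pow_succ, pow_succ']; group
  rw [this, c, one_mul]

theorem FM.pow_comm (h : FM w L D) (ha : a ∈ L) (hs : s ∈ L) {n : ℕ} (hn : s ^ n ∈ D) : ⁅a ^ n, s⁆ ∈ D := by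
  have := pow_comm_aux (h.fp.cls2 (h.im hs) (h.im ha) (h.im ha)) (h.fp.cls2 (h.im hs) (h.im ha) (h.im hs))
    (by rw [← map_pow]; exact qp_one.2 hn)
  rw [← map_pow] at this
  exact qp_comm.1 this

theorem odd_pow_mem (hS : IsSylowIn 2 S ⊤) (ha : a ∈ 𝐍(S)) : ∃ m, a ^ (2 * m + 1) ∈ S := by
  obtain ⟨k, m, ⟨j, rfl⟩, e⟩ := Nat.exists_eq_two_pow_mul_odd (orderOf_pos a).ne'
  refine ⟨j, hS.le_of_le_normalizer' ?_ le_top (zpowers_le.2 (pow_mem ha _)) (mem_zpowers _)⟩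
  rintro ⟨_, i, rfl⟩
  refine ⟨k, Subtype.ext ?_⟩
  simp only [SubgroupClass.coe_pow, OneMemClass.coe_one]
  rw [← zpow_natCast, ← zpow_mul, mul_comm i, zpow_mul, zpow_natCast, ← pow_mul, mul_comm, ← e, pow_orderOf_eq_one,
    one_zpow]

theorem pow_gcd_mem {m n : ℕ} (h1 : a ^ m ∈ B) (h2 : a ^ n ∈ B) : a ^ m.gcd n ∈ B := by
  rw [← zpow_natCast, Nat.gcd_eq_gcd_ab, zpow_add, zpow_mul, zpow_mul, zpow_natCast, zpow_natCast]
  exact mul_mem (zpow_mem h1 _) (zpow_mem h2 _)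

theorem odd_inv {X : Type*} [Group X] {a w : X} (h : a * w * a⁻¹ = w⁻¹) (m : ℕ) :
    a ^ (2 * m + 1) * w * (a ^ (2 * m + 1))⁻¹ = w⁻¹ := by
  have c : Commute (a ^ 2) w := by
    have : a * w⁻¹ * a⁻¹ = w := by rw [← conj_inv, h, inv_inv]
    calc a ^ 2 * w = a * (a * w * a⁻¹) * a⁻¹ * a ^ 2 := by rw [pow_two]; group
      _ = _ := by rw [h, this]
  rw [pow_succ', pow_mul, mul_assoc a, (c.pow_left m).eq, ← h]
  group

theorem Hyp.sc (h : Hyp z x) (hV : ∀ e ∈ V, e * e = 1) (zV : z ∈ V) (hx : x ∈ 𝐍(V)) : SC (qp V ⟨x, hx⟩) := by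
  have pg : IsPGroup 2 V := H9.isPGroup_of_pow_eq_one fun a ha => by rw [pow_two]; exact hV a ha
  have hz : V ≤ 𝐂[z] := fun e he => mem_c1.2 (BS.comm_of_sq hV he zV)
  have c3 : qp V ⟨x, hx⟩ * qp V ⟨x, hx⟩ * qp V ⟨x, hx⟩ = 1 := by
    rw [← map_mul, ← map_mul, qp_one]
    exact (show x * x * x ∈ V from h.cube ▸ one_mem _)
  refine SC.of_card (fun e => ?_) c3 ?_
  · have := hV x (qp_one.1 e)
    rw [h.sq, inv_eq_one] at this
    simpa [this] using h.x3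
  · refine (cle (B := zpowers (qp V ⟨x, hx⟩)) fun g hg => ?_).trans ?_
    · obtain ⟨g, rfl⟩ := qp_surj g
      have hv := qp_comm.1 (mem_c1.1 hg)
      have e : (g : G) * x * (g : G)⁻¹ = ⁅(g : G), x⁆ * x := by rw [commutatorElement_def]; group
      set v := ⁅(g : G), x⁆
      have v1 := conj_mem' hx hv
      have xx : x⁻¹ * x⁻¹ = x := by rw [← mul_inv_rev, h.sq, inv_inv]
      have r : v * (x * v * x⁻¹) * (x⁻¹ * v * x) = 1 := by
        calc _ = v * x * v * (x⁻¹ * x⁻¹) * v * x := by group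
          _ = v * x * (v * x) * (v * x) := by rw [xx]; group
          _ = g * (x * x * x) * (g : G)⁻¹ := by rw [← e]; group
          _ = 1 := by rw [h.cube]; group
      have r2 : x * v * x⁻¹ * (x⁻¹ * v * x) = v := by
        rw [mul_assoc v] at r
        rw [eq_inv_of_mul_eq_one_right r, inv_eq_of_mul_eq_one_left (hV v hv)]
      have cx : x * v * x⁻¹ * g * x = x * (x * v * x⁻¹ * g) := by
        calc _ = x * v * x⁻¹ * (g * x * (g : G)⁻¹) * g := by group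
          _ = x * v * x⁻¹ * (x * v * x⁻¹ * (x⁻¹ * v * x)) * x * g := by rw [e, r2]; group
          _ = x * v * x⁻¹ * (x * v * x⁻¹) * (x⁻¹ * v * (x * x) * g) := by group
          _ = x * x * v * x⁻¹ * g := by rw [hV _ v1, one_mul, h.sq]
          _ = _ := by group
      have kN : x * v * x⁻¹ * g ∈ 𝐍(V) := mul_mem (le_normalizer v1) g.2
      have gk : qp V g = qp V ⟨_, kN⟩ := by
        rw [show (⟨_, kN⟩ : 𝐍(V)) = ⟨_, le_normalizer v1⟩ * g from rfl, map_mul, (qp_one (y := ⟨_, le_normalizer v1⟩)).2 v1, one_mul]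
      set k := x * v * x⁻¹ * g
      have kz : k * z = z * k := by
        have := (h.fix pg hz (conj_mem' kN zV) (by
          calc k * z * k⁻¹ * x = k * z * k⁻¹ * (x * k) * k⁻¹ := by group
            _ = k * (z * x) * k⁻¹ := by rw [← cx]; group
            _ = k * x * z * k⁻¹ := by rw [h.comm]; group
            _ = _ := by rw [cx]; group)).resolve_left (h.iz.conj k).2
        rw [← mul_inv_eq_iff_eq_mul, this]
      obtain ⟨i, hi⟩ := h.cent k kz cx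
      refine ⟨i, ?_⟩
      simp only at hi ⊢
      rw [gk, show (⟨k, kN⟩ : 𝐍(V)) = (⟨z, le_normalizer zV⟩ * ⟨x, hx⟩) ^ i from Subtype.ext hi.symm, map_zpow,
        map_mul, (qp_one (y := ⟨_, le_normalizer zV⟩)).2 zV, one_mul]
    · rw [Nat.card_zpowers]
      exact Nat.le_of_dvd (by norm_num) (orderOf_dvd_of_pow_eq_one (by rw [pow_three', c3]))

theorem Hyp.exL (h : Hyp z x) (hS : IsSylowIn 2 S ⊤) (hz : S ≤ 𝐂[z]) (hx : x ∈ 𝐍(S)) :
    ∃ L, FM x L (omZ S) ∧ S ≤ L ∧ L ≤ 𝐍(S) ∧ ∀ n ∈ 𝐍(S), ∃ k ∈ L, ∃ p ∈ zpowers x, n = p * k := by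
  have zV : z ∈ omZ S := ⟨h.zS hS hz, h.iz.1, fun s hs => mem_c1.1 (hz hs)⟩
  have nV := norm_omZ S
  have sc := h.sc (V := omZ S) (fun e he => he.2.1) zV (nV hx)
  obtain ⟨K, k1, k2, k3, k4⟩ := sc.nr (H := (𝐍(S).subgroupOf 𝐍(omZ S)).map (qp (omZ S)))
    ⟨⟨x, nV hx⟩, hx, rfl⟩ (by
      rintro _ ⟨n, hn, rfl⟩ e
      obtain ⟨m, hm⟩ := odd_pow_mem hS (show (n : G) ∈ 𝐍(S) from hn)
      have e2 := odd_inv e m
      rw [← map_pow, ← map_inv, ← map_mul, ← map_mul, ← mul_eq_one_iff_eq_inv, ← map_mul, qp_one] at e2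
      have e3 : (n : G) ^ (2 * m + 1) * x * ((n : G) ^ (2 * m + 1))⁻¹ * x ∈ S := omZ_le S e2
      have e4 := comm_mem_l hx hm
      have : x ∈ S := by
        have := mul_mem (inv_mem e4) e3
        rw [commutatorElement_def, show ((n : G) ^ (2 * m + 1) * x * ((n : G) ^ (2 * m + 1))⁻¹ * x⁻¹)⁻¹ *
          ((n : G) ^ (2 * m + 1) * x * ((n : G) ^ (2 * m + 1))⁻¹ * x) = x * x by group, h.sq] at this
        exact inv_mem_iff.1 this
      have x3 := h.x3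
      rcases h.fix hS.pgroup hz this rfl with e | e <;> rw [e] at x3
      · simp at x3
      · rw [h.z2] at x3; omega)
  have mk : ∀ y : 𝐍(omZ S), qp (omZ S) y ∈ K → (y : G) ∈ (K.comap (qp (omZ S))).map 𝐍(omZ S).subtype :=
    fun y hy => ⟨y, hy, rfl⟩
  refine ⟨(K.comap (qp (omZ S))).map 𝐍(omZ S).subtype, ⟨map_subtype_le _, nV hx, ?_, h.cube ▸ one_mem _, ?_⟩,
    fun s hs => mk ⟨s, nV (le_normalizer hs)⟩ (k3 _ ⟨_, le_normalizer hs, rfl⟩ (H9.F3.not_three_dvd ?_)), ?_,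
    fun n hn => ?_⟩
  · rintro _ ⟨y, hy, rfl⟩
    exact mk (⟨x, nV hx⟩ * y * ⟨x, nV hx⟩⁻¹) (by simpa using k2.cj hy)
  · rintro _ ⟨y, hy, rfl⟩ e
    exact qp_one.1 (sc.eq_one k2 hy (qp_comm.2 e).symm)
  · obtain ⟨k, hk⟩ := hS.pgroup ⟨s, hs⟩
    refine ⟨k, ?_⟩
    rw [← map_pow, qp_one]
    exact (show s ^ 2 ^ k ∈ omZ S from (show s ^ 2 ^ k = 1 from congrArg Subtype.val hk) ▸ one_mem _)
  · rintro _ ⟨y, hy, rfl⟩
    obtain ⟨n, hn, e⟩ := k1 hy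
    have : ((n⁻¹ * y : 𝐍(omZ S)) : G) ∈ omZ S := qp_one.1 (by rw [map_mul, map_inv, e, inv_mul_cancel])
    exact (mul_mem_cancel_left (inv_mem (show (n : G) ∈ 𝐍(S) from hn))).1 (le_normalizer (omZ_le S this))
  · obtain ⟨k, hk, _, ⟨i, rfl⟩, e⟩ := k4 _ ⟨⟨n, nV hn⟩, hn, rfl⟩
    refine ⟨(x ^ i)⁻¹ * n, mk ((⟨x, nV hx⟩ ^ i)⁻¹ * ⟨n, nV hn⟩) ?_, x ^ i, ⟨i, rfl⟩, by group⟩
    simp only at e
    rw [map_mul, map_inv, map_zpow, e, inv_mul_cancel_left]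
    exact hk

/-- the kernel of the trace of `y` on `V` -/
def kr (V : Subgroup G) (hV : ∀ e ∈ V, e * e = 1) (y : G) (hy : y ∈ 𝐍(V)) : Subgroup G where
  carrier := {v | v ∈ V ∧ v * (y * v * y⁻¹) * (y * (y * v * y⁻¹) * y⁻¹) = 1}
  one_mem' := ⟨one_mem _, by group⟩
  mul_mem' {a b} ha hb := ⟨mul_mem ha.1 hb.1, by
    have b1 := conj_mem' hy hb.1
    have a1 := conj_mem' hy ha.1
    have a2 := conj_mem' hy a1
    calc _ = a * (b * (y * a * y⁻¹)) * ((y * b * y⁻¹) * (y * (y * a * y⁻¹) * y⁻¹)) * (y * (y * b * y⁻¹) * y⁻¹) := by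
          group
      _ = a * (y * a * y⁻¹) * (b * (y * (y * a * y⁻¹) * y⁻¹)) * (y * b * y⁻¹) * (y * (y * b * y⁻¹) * y⁻¹) := by
          rw [BS.comm_of_sq hV hb.1 a1, BS.comm_of_sq hV b1 a2]; group
      _ = a * (y * a * y⁻¹) * (y * (y * a * y⁻¹) * y⁻¹) * (b * (y * b * y⁻¹) * (y * (y * b * y⁻¹) * y⁻¹)) := by
          rw [BS.comm_of_sq hV hb.1 a2]; group
      _ = 1 := by rw [ha.2, hb.2, mul_one]⟩
  inv_mem' {a} ha := by rwa [inv_eq_of_mul_eq_one_left (hV a ha.1)]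

theorem Hyp.half (h : Hyp z x) (hV : ∀ e ∈ V, e * e = 1) (zV : z ∈ V) (hy : y ∈ 𝐍(V))
    (e : ∀ v ∈ V, y * v * y⁻¹ = x * v * x⁻¹) (hB : B ≤ V) : #|B| ≤ 2 * #|(B ⊓ kr V hV y hy : Subgroup G)| := by
  have pg : IsPGroup 2 V := H9.isPGroup_of_pow_eq_one fun a ha => by rw [pow_two]; exact hV a ha
  have hz : V ≤ 𝐂[z] := fun e he => mem_c1.2 (BS.comm_of_sq hV he zV)
  have tr : ∀ v ∈ V, v ∉ kr V hV y hy → v * (y * v * y⁻¹) * (y * (y * v * y⁻¹) * y⁻¹) = z := fun v hv hn => by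
    have a1 := conj_mem' hy hv
    have a2 := conj_mem' hy a1
    refine (h.fix pg hz (mul_mem (mul_mem hv a1) a2) ?_).resolve_left fun e => hn ⟨hv, e⟩
    rw [e _ a1] at a2 ⊢
    rw [e _ hv] at a1 a2 ⊢
    calc _ = x * (x⁻¹ * v * x * (v * (x * v * x⁻¹))) := by group
      _ = x * (x * (x * v * x⁻¹) * x⁻¹ * (v * (x * v * x⁻¹))) := by
        rw [show x * (x * v * x⁻¹) * x⁻¹ = x * x * v * (x * x)⁻¹ by group, h.sq, inv_inv]
      _ = _ := by rw [BS.comm_of_sq hV a2 (mul_mem hv a1)]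
  refine cle2 fun a ha b hb a0 b0 => ⟨mul_mem (hB ha) (hB hb), ?_⟩
  have b1 := conj_mem' hy (hB hb)
  have a1 := conj_mem' hy (hB ha)
  have a2 := conj_mem' hy a1
  calc _ = a * (b * (y * a * y⁻¹)) * ((y * b * y⁻¹) * (y * (y * a * y⁻¹) * y⁻¹)) * (y * (y * b * y⁻¹) * y⁻¹) := by
        group
    _ = a * (y * a * y⁻¹) * (b * (y * (y * a * y⁻¹) * y⁻¹)) * (y * b * y⁻¹) * (y * (y * b * y⁻¹) * y⁻¹) := by
        rw [BS.comm_of_sq hV (hB hb) a1, BS.comm_of_sq hV b1 a2]; group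
    _ = a * (y * a * y⁻¹) * (y * (y * a * y⁻¹) * y⁻¹) * (b * (y * b * y⁻¹) * (y * (y * b * y⁻¹) * y⁻¹)) := by
        rw [BS.comm_of_sq hV (hB hb) a2]; group
    _ = 1 := by rw [tr a (hB ha) a0, tr b (hB hb) b0, h.iz.1]

theorem det_aux {M : Type*} [CommGroup M] (h2 : ∀ e : M, e * e = 1) {v p q ap aq bq cq : M} (e1 : v * p * q = 1)
    (e2 : v * ap * cq = 1) (e3 : ap * aq * p * bq = 1) : q * cq * (bq * aq) = 1 := by
  calc _ = v * v * (p * p) * (ap * ap) * (q * cq * (bq * aq)) := by rw [h2 v, h2 p, h2 ap]; simp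
    _ = v * p * q * (v * ap * cq) * (ap * aq * p * bq) := by ac_rfl
    _ = 1 := by rw [e1, e2, e3]; simp

theorem Hyp.caseB1 [IsSimpleGroup G] (h : Hyp z x) (hS : IsSylowIn 2 S ⊤) (hz : S ≤ 𝐂[z]) (hx : x ∈ 𝐍(S))
    (hZ : ¬ omZ S ≤ zpowers z) : #|S| = 8 ∧ ∀ g ∈ S, g * g = 1 := by
  haveI : Fact (Nat.Prime 2) := ⟨Nat.prime_two⟩
  obtain ⟨L, f, SL, LN, dec⟩ := h.exL hS hz hx
  have zV : z ∈ omZ S := ⟨h.zS hS hz, h.iz.1, fun s hs => mem_c1.1 (hz hs)⟩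
  have nV := norm_omZ S
  have SC := le_cent_omZ S
  have hV : ∀ e ∈ omZ S, e * e = 1 := fun e he => he.2.1
  have VS := omZ_le S
  have cV : ∀ e ∈ omZ S, e ∈ 𝐂(S) := fun e he => mem_cH.2 he.2.2
  have mV : ∀ d ∈ S, d * d = 1 → (∀ s ∈ S, s * d = d * s) → d ∈ omZ S := fun d a b c => ⟨a, b, c⟩
  set V := omZ S
  have tr : ∀ v ∈ V, v ≠ 1 → ∃ c ∈ L, v = c⁻¹ * z * c := fun v hv v1 => by
    obtain ⟨g, rfl⟩ := isConj_iff.1 (h.one z v h.z2 (Invo.orderOf_eq ⟨hV v hv, v1⟩))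
    obtain ⟨n, hn, e⟩ := B01.burnside_fusion_in hS (mem_top g) (cV z zV) (cV _ hv)
    obtain ⟨k, hk, p, hp, e2⟩ := dec _ (inv_mem hn.2)
    refine ⟨k, hk, ?_⟩
    rw [← e, ← inv_inv n, e2]
    calc _ = k⁻¹ * (p⁻¹ * (z * p)) * k := by group
      _ = _ := by rw [← mem_c1.1 (zpowers_le.2 h.xz hp)]; group
  have nC : 𝐍(V) ≤ 𝐍(𝐂(V)) := fun g hg => by
    rw [← cj_eq_self_iff, cj_centralizer, cj_eq_self hg]
  set A := L ⊓ Rw.cmod 𝐂(V) L
  have fpf : ∀ a ∈ A, a ∉ 𝐂(V) → ∀ v ∈ V, a * v = v * a → v = 1 := fun a ha a0 v hv e => by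
    by_contra v1
    refine a0 (mem_cH.2 fun w hw => ?_)
    by_cases w1 : w = 1
    · simp [w1]
    obtain ⟨c, hc, e1⟩ := tr v hv v1
    obtain ⟨d, hd, e2⟩ := tr w hw w1
    have k := mem_cH.1 (ha.2.2 _ (mul_mem (inv_mem hc) hd)) v hv
    have e3 : w = (c⁻¹ * d)⁻¹ * v * (c⁻¹ * d) := by rw [e1, e2]; group
    set t := c⁻¹ * d
    rw [e3]
    calc _ = t⁻¹ * (v * ⁅t, a⁆) * a * t := by rw [commutatorElement_def]; group
      _ = t⁻¹ * ⁅t, a⁆ * (v * a) * t := by rw [k]; group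
      _ = _ := by rw [← e, commutatorElement_def]; group
  obtain ⟨a, ha, a0⟩ : ∃ a ∈ A, a ∉ 𝐂(V) := by
    obtain ⟨v, hv, vz⟩ := SetLike.not_le_iff_exists.1 hZ
    obtain ⟨c, hc, e⟩ := tr v hv fun e => vz (e ▸ one_mem _)
    have c0 : c ∉ 𝐂(V) := fun k => vz (by rw [e, mul_assoc, mem_cH.1 k z zV, inv_mul_cancel_left]; exact mem_zpowers z)
    by_cases hb : ∀ b ∈ L, ⁅b, c⁆ ∈ 𝐂(V)
    · exact ⟨c, ⟨hc, nC (f.nD hc), hb⟩, c0⟩
    · push Not at hb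
      obtain ⟨b, hb, b0⟩ := hb
      have m : ⁅b, c⁆ ∈ L := comm_mem_r (le_normalizer hb) hc
      exact ⟨_, ⟨m, nC (f.nD m), fun t ht => SC (VS (f.cls hc hb ht))⟩, b0⟩
  have xA : x ∈ 𝐍(A) := norm_of fun a ha => ⟨f.cj a ha.1, nC (f.nD (f.cj a ha.1)), fun t ht => by
    rw [show ⁅t, x * a * x⁻¹⁆ = x * ⁅x⁻¹ * t * x, a⁆ * x⁻¹ by simp only [commutatorElement_def]; group]
    exact conj_mem' (nC f.wD) (ha.2.2 _ (conj_mem'' (norm_of f.cj) ht))⟩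
  have SV : S ≤ V := by
    obtain ⟨k, hk⟩ := two_pow hS.pgroup le_rfl
    have b0 : a ^ #|S| ∉ 𝐂(V) := fun e => a0 (by
      obtain ⟨m, hm⟩ := odd_pow_mem hS (LN ha.1)
      have := pow_gcd_mem (SC hm) e
      rwa [hk, (Nat.coprime_two_right.2 ⟨m, rfl⟩).pow_right k, pow_one] at this)
    have hb := pow_mem ha #|S|
    set b := a ^ #|S|
    have dec : ∀ s ∈ S, ∃ e ∈ V, e⁻¹ * s ∈ S ⊓ 𝐂[b] := fun s hs => by
      have hv := f.pow_comm ha.1 (SL hs) (n := #|S|) (by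
        rw [show s ^ #|S| = 1 from congrArg Subtype.val (pow_card_eq_one' (x := (⟨s, hs⟩ : S)))]; exact one_mem _)
      obtain ⟨⟨e, he⟩, e1⟩ := Finite.surjective_of_injective
        (f := fun e : V => (⟨⁅b, e⁆, comm_mem_r (f.nD hb.1) e.2⟩ : V)) (fun e e' k => by
          have k1 : ⁅b, (e : G)⁆ = ⁅b, (e' : G)⁆ := congrArg Subtype.val k
          have := fpf b hb b0 _ (V.mul_mem (V.inv_mem e'.2) e.2) (by
            calc b * ((e' : G)⁻¹ * e) = (e' : G)⁻¹ * ⁅b, (e' : G)⁆⁻¹ * ⁅b, (e : G)⁆ * e * b := by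
                  simp only [commutatorElement_def]; group
              _ = _ := by rw [k1]; group)
          exact Subtype.ext (inv_mul_eq_one.1 this).symm) ⟨_, hv⟩
      have k1 : ⁅b, e⁆ = ⁅b, s⁆ := congrArg Subtype.val e1
      refine ⟨e, he, S.mul_mem (S.inv_mem (VS he)) hs, mem_c1.2 (Eq.symm ?_)⟩
      calc b * (e⁻¹ * s) = e⁻¹ * ⁅b, e⁆⁻¹ * ⁅b, s⁆ * s * b := by simp only [commutatorElement_def]; group
        _ = _ := by rw [k1]; group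
    have : S ⊓ 𝐂[b] = ⊥ := by
      by_contra hn
      obtain ⟨⟨d, hd⟩, d1⟩ := ne_bot_iff_exists_ne_one.1 (omZ_ne_bot (hS.pgroup.to_le inf_le_left) hn)
      refine d1 (Subtype.ext (fpf b hb b0 d (mV d hd.1.1 hd.2.1 fun s hs => ?_) (mem_c1.1 hd.1.2).symm))
      obtain ⟨e, he, k⟩ := dec s hs
      calc s * d = e * (e⁻¹ * s * d) := by group
        _ = e * d * (e⁻¹ * s) := by rw [hd.2.2 _ k]; group
        _ = _ := by rw [← mem_cH.1 (cV e he) d hd.1.1]; group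
    intro s hs
    obtain ⟨e, he, k⟩ := dec s hs
    rw [this, mem_bot, inv_mul_eq_one] at k
    exact k ▸ he
  have eS : S = V := le_antisymm SV VS
  refine ⟨le_antisymm ?_ ?_, fun g hg => hV g (SV hg)⟩
  · have hf : ∀ a (ha : a ∈ L), ∀ B, B ≤ V → #|B| ≤ 2 * #|(B ⊓ kr V hV (a * x) (mul_mem (f.nD ha) f.wD) : Subgroup G)| :=
      fun a ha B hB => by
      obtain ⟨g, hg, e⟩ := f.surj ha
      refine (h.conj g⁻¹).half hV (conj_mem' (inv_mem (f.nD hg)) zV) _ (fun v hv => ?_) hB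
      rw [inv_inv]
      calc _ = g⁻¹ * x * g * ((g⁻¹ * x * g)⁻¹ * (a * x) * v) * (a * x)⁻¹ := by group
        _ = _ := by rw [BS.comm_of_sq hV e hv]; group
    have i1 := h.half hV zV f.wD (fun _ _ => rfl) le_rfl
    have i2 := hf a ha.1 (V ⊓ kr V hV x f.wD) inf_le_left
    have i3 := hf a⁻¹ (inv_mem ha.1) _ (inf_le_left.trans inf_le_left :
      V ⊓ kr V hV x f.wD ⊓ kr V hV (a * x) (mul_mem (f.nD ha.1) f.wD) ≤ V)
    rw [(eq_bot_iff_forall (V ⊓ _ ⊓ _ ⊓ _)).2 ?_, card_bot] at i3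
    · rw [eS]; omega
    rintro v ⟨⟨⟨hv, -, e1⟩, -, e2⟩, -, e3⟩
    have hb := conj_mem' xA ha
    have b0 : x * a * x⁻¹ ∉ 𝐂(V) := fun e => a0 (by simpa [mul_assoc] using conj_mem'' (nC f.wD) e)
    have c0 : a * (x * a * x⁻¹) ∉ 𝐂(V) := fun e => a0 (by
      simpa [mul_assoc] using conj_mem' (nC f.wD) ((mul_mem_cancel_left e).1 (SC (VS (f.rel ha.1)))))
    have hp := conj_mem' f.wD hv
    have hq := conj_mem' f.wD hp
    rw [show a * x * v * (a * x)⁻¹ = a * (x * v * x⁻¹) * a⁻¹ by group,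
      show a * x * (a * (x * v * x⁻¹) * a⁻¹) * (a * x)⁻¹ =
        a * (x * a * x⁻¹) * (x * (x * v * x⁻¹) * x⁻¹) * (a * (x * a * x⁻¹))⁻¹ by group] at e2
    have e4 : a * (x * v * x⁻¹) * a⁻¹ * (a * (x * (x * v * x⁻¹) * x⁻¹) * a⁻¹) * (x * v * x⁻¹) *
        ((x * a * x⁻¹)⁻¹ * (x * (x * v * x⁻¹) * x⁻¹) * (x * a * x⁻¹)) = 1 := by
      have : v = x * v * x⁻¹ * (x * (x * v * x⁻¹) * x⁻¹) := by
        rw [mul_assoc v] at e1
        rw [eq_inv_of_mul_eq_one_right e1, inv_eq_of_mul_eq_one_left (hV v hv)]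
      calc _ = a * (x * v * x⁻¹ * (x * (x * v * x⁻¹) * x⁻¹) * (a⁻¹ * x * v * (a⁻¹ * x)⁻¹) *
            (a⁻¹ * x * (a⁻¹ * x * v * (a⁻¹ * x)⁻¹) * (a⁻¹ * x)⁻¹)) * a⁻¹ := by group
        _ = 1 := by rw [← this, e3]; group
    have q1 : x * (x * v * x⁻¹) * x⁻¹ = 1 → v = 1 := fun e => by simpa using e
    set p := x * v * x⁻¹
    set q := x * p * x⁻¹
    set b := x * a * x⁻¹
    have aN := f.nD ha.1
    have bN := f.nD hb.1
    letI : CommGroup V := { (inferInstance : Group V) with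
      mul_comm := fun e e' => Subtype.ext (BS.comm_of_sq hV e.2 e'.2) }
    have k : q * (a * b * q * (a * b)⁻¹) * (b⁻¹ * q * b * (a * q * a⁻¹)) = 1 := congrArg Subtype.val
      (det_aux (M := V) (fun e => Subtype.ext (hV e e.2)) (v := ⟨v, hv⟩) (p := ⟨p, hp⟩) (q := ⟨q, hq⟩)
        (ap := ⟨_, conj_mem' aN hp⟩) (aq := ⟨_, conj_mem' aN hq⟩) (bq := ⟨_, conj_mem'' bN hq⟩)
        (cq := ⟨_, conj_mem' (mul_mem aN bN) hq⟩) (Subtype.ext e1) (Subtype.ext e2) (Subtype.ext e4))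
    have hr := mul_mem hq (conj_mem' (mul_mem aN bN) hq)
    have ab := mem_cH.1 (ha.2.2 b⁻¹ (inv_mem hb.1)) _ (conj_mem' aN hq)
    have k2 : b⁻¹ * q * b * (a * q * a⁻¹) = b⁻¹ * (q * (a * b * q * (a * b)⁻¹)) * b := by
      calc _ = b⁻¹ * q * b * ⁅b⁻¹, a⁆ * ⁅b⁻¹, a⁆⁻¹ * (a * q * a⁻¹ * ⁅b⁻¹, a⁆) * ⁅b⁻¹, a⁆⁻¹ := by group
        _ = b⁻¹ * q * b * ⁅b⁻¹, a⁆ * (a * q * a⁻¹) * ⁅b⁻¹, a⁆⁻¹ := by rw [ab]; group
        _ = _ := by rw [commutatorElement_def]; group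
    rw [k2] at k
    have r1 := fpf b hb b0 _ hr (by
      set r := q * (a * b * q * (a * b)⁻¹)
      have : b⁻¹ * r * b = r := by rw [eq_inv_of_mul_eq_one_right k, inv_eq_of_mul_eq_one_left (hV r hr)]
      calc b * r = b * (b⁻¹ * r * b) := by rw [this]
        _ = _ := by group)
    exact q1 (fpf _ (mul_mem ha hb) c0 q hq (by
      rw [← mul_inv_eq_iff_eq_mul, eq_inv_of_mul_eq_one_right r1, inv_eq_of_mul_eq_one_left (hV q hq)]))
  · obtain ⟨v, hv, vz⟩ := SetLike.not_le_iff_exists.1 hZ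
    exact h.eight hS.pgroup hz hx (VS zV) (VS hv) vz

theorem Hyp.caseB {G : Type u} [Group G] [Finite G] [IsSimpleGroup G] {z x : G} {S : Subgroup G} (h : Hyp z x) (hS : IsSylowIn 2 S ⊤) (hz : S ≤ 𝐂[z]) (hx : x ∈ 𝐍(S)) :
    #|S| = 8 ∧ ∀ g ∈ S, g * g = 1 :=
  h.caseB1 hS hz hx (h.caseB2 hS hz hx)

end Cfsg.Agent.WA.Hw
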