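import Cfsg.Agent.WA.HwF

/-! The case that `x` normalizes a Sylow subgroup with cyclic centre. -/

set_option autoImplicit false
set_option linter.unusedSectionVars false

namespace Cfsg.Agent.WA.Hw

open Subgroup Cfsg.Agent.FT Cfsg.Agent.L0 Cfsg.Agent.H8 Cfsg.Agent.WA.Rw
open Cfsg.Agent.BS (Invo)
open Cfsg.Agent.H2.SC (omZ mem_omZ omZ_le le_cent_omZ omZ_ne_bot norm_omZ cj_omZ)
open scoped commutatorElement

universe u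

variable {G : Type u} [Group G] [Finite G] {z x s : G} {S V : Subgroup G}

theorem sqb (hV : ∀ e ∈ V, e * e = 1) (hs : s ∈ 𝐍(V)) (h2 : s * s ∈ 𝐂(V)) :
    #|V| ≤ #|(V ⊓ 𝐂[s] : Subgroup G)| * #|(V ⊓ 𝐂[s] : Subgroup G)| := cnt_c fun y hy => by
  refine ⟨comm_mem_l hs hy, mem_c1.2 ?_⟩
  have i : y⁻¹ = y := inv_eq_of_mul_eq_one_left (hV y hy)
  have c := BS.comm_of_sq hV hy (conj_mem' hs hy)
  rw [commutatorElement_def, i]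
  calc y * s * y * s⁻¹ * s = y * (s * y * s⁻¹) * s := by group
    _ = s * (y * s⁻¹ * y * s) := by rw [c]; group
    _ = s * (y * s * ((s * s)⁻¹ * y * (s * s)) * s⁻¹) := by group
    _ = _ := by rw [mul_assoc (s * s)⁻¹, mem_cH.1 h2 y hy]; group

theorem Hyp.zS (h : Hyp z x) (hS : IsSylowIn 2 S ⊤) (hz : S ≤ 𝐂[z]) : z ∈ S :=
  hS.le_of_le_normalizer h.iz.pgroup_zpowers le_top (fun _ a => cz_norm (hz a)) (mem_zpowers z)

theorem Hyp.other [IsSimpleGroup G] (h : Hyp z x) (hS : IsSylowIn 2 S ⊤) : ∃ u ∈ S, u * u = 1 ∧ u ∉ zpowers z := by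
  by_contra hn
  push Not at hn
  rcases (H7.Isolated.of_sylow hS.toSylowTop h.iz.1 fun g hg =>
    ((mem_z h.iz).1 (hn _ hg (h.iz.conj g).1)).resolve_left (h.iz.conj g).2).eq_one_or_comm with e | e
  exacts [h.iz.2 e, h.nab e]

theorem Hyp.cmN (h : Hyp z x) (hS : IsPGroup 2 S) (hz : S ≤ 𝐂[z]) (hx : x ∈ 𝐍(S)) {v : G} (hv : v ∈ S) :
    x ∈ 𝐍((S ⊓ Rw.cmod (zpowers z) {v} : Subgroup G)) := norm_of fun t ht => by
  have f := h.fm hS hz hx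
  refine ⟨f.cj t ht.1, mem_cmod_single.2 ⟨f.nD (f.cj t ht.1), ?_⟩⟩
  rw [← commutatorElement_inv]
  exact inv_mem (f.cz ht.1 hv (by rw [← commutatorElement_inv]; exact inv_mem (mem_cmod_single.1 ht.2).2))

theorem Hyp.caseB2 [IsSimpleGroup G] (h : Hyp z x) (hS : IsSylowIn 2 S ⊤) (hz : S ≤ 𝐂[z]) (hx : x ∈ 𝐍(S))
    (hZ : omZ S ≤ zpowers z) : False := by
  haveI : Fact (Nat.Prime 2) := ⟨Nat.prime_two⟩
  have zS := h.zS hS hz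
  have iz := h.iz
  obtain ⟨u0, a1, a2, a3⟩ := h.other hS
  obtain ⟨u, hu, u2, uz, uc⟩ := h.q8 hS.pgroup hz hx a1 a2 a3
  have iu : Invo u := ⟨u2, fun e => uz (e ▸ one_mem _)⟩
  have zu : z ∉ zpowers u := fun e => uz (((mem_z iu).1 e).resolve_left iz.2 ▸ mem_zpowers z)
  have hv : x * u * x⁻¹ ∈ S := conj_mem' hx hu
  have vc : ∀ s ∈ S, ⁅s, x * u * x⁻¹⁆ ∈ zpowers z := fun s hs => by
    rw [show ⁅s, x * u * x⁻¹⁆ = x * ⁅x⁻¹ * s * x, u⁆ * x⁻¹ by simp only [commutatorElement_def]; group]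
    exact conj_mem' (cz_norm h.xz) (uc _ (conj_mem'' hx hs))
  have xD := h.normD hS.pgroup hz hx hu
  have uv := h.ucomm hS.pgroup hz hx hu u2
  have v2 := GS.G0.sq_conj u2 x
  set v := x * u * x⁻¹
  have c1 : #|S| ≤ 2 * #|(S ⊓ 𝐂[u] : Subgroup G)| := iz.card_zpowers ▸ cnt_c uc
  have c2 : #|(S ⊓ 𝐂[u] : Subgroup G)| ≤ 2 * #|(S ⊓ 𝐂[u] ⊓ 𝐂[v] : Subgroup G)| :=
    iz.card_zpowers ▸ cnt_c fun s hs => vc s hs.1
  obtain ⟨r, hr, ru⟩ : ∃ r ∈ S, r ∉ 𝐂[u] := by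
    by_contra hn
    push Not at hn
    exact uz (hZ ⟨hu, u2, fun s hs => mem_c1.1 (hn s hs)⟩)
  have z0 : z ∈ S ⊓ 𝐂[u] := ⟨zS, mem_c1.2 (mem_c1.1 (hz hu)).symm⟩
  have zD : z ∈ S ⊓ 𝐂[u] ⊓ 𝐂[v] := ⟨z0, mem_c1.2 (mem_c1.1 (hz hv)).symm⟩
  have p0 := cpos (S ⊓ 𝐂[u] ⊓ 𝐂[v])
  obtain ⟨s, hs, sv⟩ : ∃ s ∈ S ⊓ 𝐂[u], s ∉ 𝐂[v] := by
    by_contra hn
    push Not at hn
    have e : S ⊓ 𝐂[u] ⊓ 𝐂[v] = S ⊓ 𝐂[u] := inf_eq_left.2 hn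
    rw [e] at xD p0
    exact ru ((h.four hS.pgroup hz inf_le_left xD hx z0 (by omega)).ge hr).2
  have svz : ⁅s, v⁆ = z := ((mem_z iz).1 (vc s hs.1)).resolve_left fun e => sv (mem_c1.2 (comm1.1 e))
  -- the Sylow subgroup of `C(u)`
  obtain ⟨g, hg, hT⟩ : ∃ g, g * z * g⁻¹ = u ∧ S ⊓ 𝐂[u] ≤ cj g S := by
    obtain ⟨g, hg⟩ := isConj_iff.1 (h.one z u h.z2 iu.orderOf_eq)
    obtain ⟨T, hT, le⟩ := exists_isSylowIn_ge (hS.pgroup.to_le inf_le_left) (inf_le_right : S ⊓ 𝐂[u] ≤ 𝐂[u])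
    have : IsSylowIn 2 (cj g S) 𝐂[u] := (hS.cj_of_mem_normalizer (le_normalizer (mem_top g))).of_le
      (by rw [← hg, ← cj_centralizer_singleton]; exact cj_mono g hz) le_top
    obtain ⟨k, hk, e⟩ := this.exists_cj_eq hT
    refine ⟨k * g, ?_, by rw [cj_mul, e]; exact le⟩
    calc _ = k * (g * z * g⁻¹) * k⁻¹ := by group
      _ = u := by rw [hg, mem_c1.1 hk]; group
  have h' := h.conj g
  have Tz : cj g S ≤ 𝐂[g * z * g⁻¹] := by rw [← cj_centralizer_singleton]; exact cj_mono g hz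
  have Tx : g * x * g⁻¹ ∈ 𝐍(cj g S) := by rw [← cj_normalizer]; exact conj_mem_cj g hx
  have T2 := pgroup_cj hS.pgroup g
  have cT := card_cj g S
  rw [hg] at h' Tz
  set T := cj g S
  set y := g * x * g⁻¹
  have uT : u ∈ T := hT ⟨hu, mem_c1.2 rfl⟩
  have vT : v ∈ T := hT ⟨hv, mem_c1.2 uv.symm⟩
  have cm : ∀ t ∈ T, ∀ e, t ∈ 𝐂[e] → t ∈ T ⊓ Rw.cmod (zpowers u) {e} := fun t ht e he =>
    ⟨ht, mem_cmod_single.2 ⟨cz_norm (Tz ht), by rw [comm1.2 (mem_c1.1 he).symm]; exact one_mem _⟩⟩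
  have eD : S ⊓ 𝐂[u] ⊓ 𝐂[v] = T ⊓ Rw.cmod (zpowers u) {v} := by
    refine eq_of_cle (fun d hd => cm d (hT hd.1) v hd.2) ?_
    by_contra hc
    have := h'.four T2 Tz inf_le_left (h'.cmN T2 Tz Tx vT) Tx (cm u uT v (mem_c1.2 uv)) (by omega)
    have := (mem_cmod_single.1 (this.ge (hT hs)).2).2
    rw [← commutatorElement_inv, svz] at this
    exact zu ((inv_mem_iff).1 this)
  have yD : y ∈ 𝐍((S ⊓ 𝐂[u] ⊓ 𝐂[v] : Subgroup G)) := eD ▸ h'.cmN T2 Tz Tx vT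
  have zT : T ⊓ Rw.cmod (zpowers u) {z} = T := by
    have := cle (show S ⊓ 𝐂[u] ≤ T ⊓ Rw.cmod (zpowers u) {z} from fun d hd => cm d (hT hd) z (hz hd.1))
    have := cpos (S ⊓ 𝐂[u])
    exact h'.four T2 Tz inf_le_left (h'.cmN T2 Tz Tx (hT z0)) Tx (cm u uT z (hz hu)) (by omega)
  set D := S ⊓ 𝐂[u] ⊓ 𝐂[v] with hD
  have VT : omZ D ≤ T := (omZ_le _).trans (inf_le_left.trans hT)
  have uV : u ∈ omZ D := ⟨⟨⟨hu, mem_c1.2 rfl⟩, mem_c1.2 uv⟩, u2, fun s hs => mem_c1.1 hs.1.2⟩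
  have vV : v ∈ omZ D := ⟨⟨⟨hv, mem_c1.2 uv.symm⟩, mem_c1.2 rfl⟩, v2, fun s hs => mem_c1.1 hs.2⟩
  have zV : z ∈ omZ D := ⟨zD, iz.1, fun s hs => mem_c1.1 (hz hs.1.1)⟩
  have b1 : #|omZ (S ⊓ 𝐂[u])| ≤ 2 * 2 := by
    have r0 : r ∉ S ⊓ 𝐂[u] := fun e => ru e.2
    have := cle (show omZ (S ⊓ 𝐂[u]) ⊓ 𝐂[r] ≤ zpowers z from fun e he => hZ ⟨he.1.1.1, he.1.2.1, fun t ht => by
      by_cases t0 : t ∈ S ⊓ 𝐂[u]
      · exact he.1.2.2 t t0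
      · obtain ⟨c, hc, rfl⟩ := idx2' inf_le_left c1 hr ht r0 t0
        rw [mul_assoc, he.1.2.2 c hc, ← mul_assoc, ← mem_c1.1 he.2, mul_assoc]⟩)
    rw [iz.card_zpowers] at this
    exact (sqb (fun e he => (mem_omZ.1 he).2.1) (norm_omZ _ (H9.F3.le_nm_of_card inf_le_left c1 hr))
      (le_cent_omZ _ (idx2 inf_le_left c1 hr hr r0 r0))).trans (Nat.mul_le_mul this this)
  have b2 : #|omZ D| ≤ 2 * 2 * (2 * 2) := by
    have r0 : s ∉ D := fun e => sv e.2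
    have := (cle (show omZ D ⊓ 𝐂[s] ≤ omZ (S ⊓ 𝐂[u]) from fun e he => ⟨he.1.1.1, he.1.2.1, fun t ht => by
      by_cases t0 : t ∈ D
      · exact he.1.2.2 t t0
      · obtain ⟨c, hc, rfl⟩ := idx2' inf_le_left c2 hs ht r0 t0
        rw [mul_assoc, he.1.2.2 c hc, ← mul_assoc, ← mem_c1.1 he.2, mul_assoc]⟩)).trans b1
    exact (sqb (fun e he => (mem_omZ.1 he).2.1) (norm_omZ _ (H9.F3.le_nm_of_card inf_le_left c2 hs))
      (le_cent_omZ _ (idx2 inf_le_left c2 hs hs r0 r0))).trans (Nat.mul_le_mul this this)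
  have yE : y ∈ 𝐍((omZ D ⊓ Rw.cmod (zpowers u) T : Subgroup G)) := norm_of fun e he => by
    have m := conj_mem' (norm_omZ _ yD) he.1
    refine ⟨m, cz_norm (Tz (VT m)), fun t ht => ?_⟩
    rw [show ⁅t, y * e * y⁻¹⁆ = y * ⁅y⁻¹ * t * y, e⁆ * y⁻¹ by simp only [commutatorElement_def]; group]
    exact conj_mem' (cz_norm h'.xz) (he.2.2 _ (conj_mem'' Tx ht))
  have uE : u ∈ omZ D ⊓ Rw.cmod (zpowers u) T :=
    ⟨uV, cz_norm (Tz uT), fun t ht => by rw [comm1.2 (mem_c1.1 (Tz ht))]; exact one_mem _⟩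
  have zE : z ∈ omZ D ⊓ Rw.cmod (zpowers u) T := ⟨zV, cz_norm (Tz (VT zV)), fun t ht => by
    rw [← commutatorElement_inv]; exact inv_mem (mem_cmod_single.1 (zT.ge ht).2).2⟩
  have e8 := h'.eight (T2.to_le (inf_le_left.trans VT)) ((inf_le_left.trans VT).trans Tz) yE uE zE zu
  have := (h'.four (T2.to_le VT) (VT.trans Tz) inf_le_left yE (norm_omZ _ yD) uE (by omega)).ge vV
  exact zu (svz ▸ this.2.2 s (hT hs))

end Cfsg.Agent.WA.Hw
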