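import Cfsg.Agent.WA.HwF

/-! Basic facts on the configuration `T3` of the Hayden-Winter theorem. -/

set_option autoImplicit false
set_option linter.unusedSectionVars false
set_option linter.unusedVariables false

namespace Cfsg.Agent.WA.Hw

open Subgroup Cfsg.Agent.FT Cfsg.Agent.L0 Cfsg.Agent.H8 Cfsg.Agent.WA.Rw
open Cfsg.Agent.BS (Invo)
open Cfsg.Agent.H2.SC (omZ mem_omZ omZ_le le_cent_omZ omZ_ne_bot norm_omZ cj_omZ)
open scoped commutatorElement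

universe u

variable {G : Type u} [Group G] [Finite G] {z x s u a b c g q k : G} {Q O S : Subgroup G}

theorem kmul_r (a b c : G) : ⁅a, b * c⁆ = ⁅a, b⁆ * (b * ⁅a, c⁆ * b⁻¹) := by
  simp only [commutatorElement_def]; group

theorem kmul_l (a b c : G) : ⁅a * b, c⁆ = a * ⁅b, c⁆ * a⁻¹ * ⁅a, c⁆ := by
  simp only [commutatorElement_def]; group

theorem kconj (a b : G) : a * b * a⁻¹ = ⁅a, b⁆ * b := by
  simp only [commutatorElement_def]; group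

namespace T3

variable (h : T3 z x s Q O)
include h

theorem kiz : Invo z := h.hyp.iz

theorem kxN : x ∈ 𝐍(Q) := h.HQ h.hyp.xz

theorem ksN : s ∈ 𝐍(Q) := h.HQ h.sH

theorem kfm : FM x Q (zpowers z) := h.hyp.fm h.Q2 h.QH h.kxN

theorem kzQ : zpowers z ≤ Q := zpowers_le.2 h.zQ

theorem kx2 {P : Subgroup G} (hP : IsPGroup 2 P) : x ∉ P := fun hx => by
  obtain ⟨k, hk⟩ := hP ⟨x, hx⟩
  have a : orderOf x ∣ 2 ^ k := orderOf_dvd_of_pow_eq_one (congrArg Subtype.val hk)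
  rw [h.hyp.x3] at a
  exact absurd (Nat.prime_three.dvd_of_dvd_pow a) (by norm_num)

theorem ksx : ⁅s, x⁆ = x := by
  rw [commutatorElement_def, h.sx, ← mul_inv_rev, h.hyp.sq, inv_inv]

theorem ksx' : s * x⁻¹ * s⁻¹ = x := by
  rw [show s * x⁻¹ * s⁻¹ = (s * x * s⁻¹)⁻¹ by group, h.sx, inv_inv]

theorem ksQ : s ∉ Q := fun hs => h.kx2 h.Q2 (h.ksx ▸ comm_mem_l h.kxN hs)

theorem kmemS : g ∈ Q ⊔ zpowers s ↔ g ∈ Q ∨ ∃ q ∈ Q, q * s = g := by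
  constructor
  · intro hg
    rw [sup_comm, mem_sup' (zpowers_le.2 h.ksN)] at hg
    obtain ⟨a, ⟨i, rfl⟩, b, hb, rfl⟩ := hg
    have ss : (s * s) ^ (i / 2) ∈ Q := zpow_mem (h.kzQ h.ss) _
    have e : s ^ i = (s * s) ^ (i / 2) * s ^ (i % 2) := by
      rw [← zpow_two, ← zpow_mul, ← zpow_add, Int.mul_ediv_add_emod]
    simp only
    rw [e]
    rcases Int.emod_two_eq_zero_or_one i with e2 | e2 <;> rw [e2]
    · exact Or.inl (by rw [zpow_zero, mul_one]; exact mul_mem ss hb)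
    · exact Or.inr ⟨_, mul_mem ss (conj_mem' h.ksN hb), by rw [zpow_one]; group⟩
  · rintro (hg | ⟨q, hq, rfl⟩)
    · exact mem_sup_left hg
    · exact mul_mem (mem_sup_left hq) (mem_sup_right (mem_zpowers s))

theorem ksS : s ∈ Q ⊔ zpowers s := mem_sup_right (mem_zpowers s)

theorem kSH : Q ⊔ zpowers s ≤ 𝐂[z] := sup_le h.QH (zpowers_le.2 h.sH)

theorem kSN : Q ⊔ zpowers s ≤ 𝐍(Q) := h.kSH.trans h.HQ

theorem kcS : #|(Q ⊔ zpowers s : Subgroup G)| = 2 * #|Q| := by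
  refine le_antisymm ?_ (clt le_sup_left h.ksS h.ksQ)
  have := cle2 (A := Q) (B := Q ⊔ zpowers s) (fun a ha b hb a1 b1 => by
    obtain ⟨p, hp, rfl⟩ := (h.kmemS.1 ha).resolve_left a1
    obtain ⟨q, hq, rfl⟩ := (h.kmemS.1 hb).resolve_left b1
    rw [show p * s * (q * s) = p * (s * q * s⁻¹) * (s * s) by group]
    exact mul_mem (mul_mem hp (conj_mem' h.ksN hq)) (h.kzQ h.ss))
  rwa [inf_eq_right.2 le_sup_left] at this

theorem kS2 : IsPGroup 2 (Q ⊔ zpowers s : Subgroup G) := by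
  obtain ⟨k, hk⟩ := two_pow h.Q2 le_rfl
  exact IsPGroup.of_card (n := k + 1) (by rw [h.kcS, hk, pow_succ'])

/-- the elements with `⁅s, a⁆ ∈ ⟨z⟩` are inverted by `s` -/
theorem kinv (ha : a ∈ Q) (h1 : ⁅s, a⁆ ∈ zpowers z) (h2 : a * a ∈ zpowers z)
    (h3 : ⁅a, (x * a * x⁻¹)⁻¹⁆ ∈ zpowers z) : a * ⁅s, x * a * x⁻¹⁆ ∈ zpowers z := by
  have r := h.kfm.rel ha
  have j2 : x * a * x⁻¹ * (x * a * x⁻¹) ∈ zpowers z := by
    rw [show x * a * x⁻¹ * (x * a * x⁻¹) = x * (a * a) * x⁻¹ by group]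
    exact conj_mem' (cz_norm h.hyp.xz) h2
  have e1 : s * (x * a * x⁻¹) * s⁻¹ = x⁻¹ * ⁅s, a⁆ * x * (x⁻¹ * a * x) := by
    calc _ = (s * x * s⁻¹) * (s * a * s⁻¹) * (s * x⁻¹ * s⁻¹) := by group
      _ = _ := by rw [h.sx, h.ksx', kconj s a]; group
  have jH : x * a * x⁻¹ ∈ 𝐂[z] := h.QH (conj_mem' h.kxN ha)
  have n1 := cz_norm jH
  have n2 := cz_norm (h.QH ha)
  have m1 := conj_mem'' (cz_norm h.hyp.xz) h1
  set j := x * a * x⁻¹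
  set t := x⁻¹ * a * x
  rw [commutatorElement_def, e1, show a * (x⁻¹ * ⁅s, a⁆ * x * t * j⁻¹) = a * (x⁻¹ * ⁅s, a⁆ * x) * a⁻¹ *
    ⁅a, j⁻¹⁆ * (j⁻¹ * (a * j * t) * j) * (j * j)⁻¹ by simp only [commutatorElement_def]; group]
  exact mul_mem (mul_mem (mul_mem (conj_mem' n2 m1) h3) (conj_mem'' n1 r)) (inv_mem j2)

theorem kinv' (ha : a ∈ Q) (h1 : ⁅s, a⁆ ∈ zpowers z) (h2 : a * a ∈ zpowers z)
    (h3 : ⁅a, (x * a * x⁻¹)⁻¹⁆ ∈ zpowers z) : s * a * s⁻¹ = a⁻¹ := by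
  have e := h.kinv ha h1 h2 h3
  have jH : x * a * x⁻¹ ∈ 𝐂[z] := h.QH (conj_mem' h.kxN ha)
  have e1 : s * ⁅s, x * a * x⁻¹⁆ * s⁻¹ = ⁅s, x * a * x⁻¹⁆⁻¹ := by
    calc _ = (s * s) * (x * a * x⁻¹) * (s * s)⁻¹ * (s * (x * a * x⁻¹)⁻¹ * s⁻¹) := by
          simp only [commutatorElement_def]; group
      _ = _ := by rw [← zc h.ss jH]; simp only [commutatorElement_def]; group
  have e2 : a * ⁅s, x * a * x⁻¹⁆ * (a * ⁅s, x * a * x⁻¹⁆) = 1 := by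
    rcases (mem_z h.kiz).1 e with e | e <;> rw [e]
    exacts [mul_one 1, h.kiz.1]
  have c1 := zc e h.sH
  have c2 := zc e (h.QH ha)
  set c := ⁅s, x * a * x⁻¹⁆
  calc s * a * s⁻¹ = s * (a * c) * s⁻¹ * (s * c * s⁻¹)⁻¹ := by group
    _ = a * c * (a⁻¹ * (a * c)) := by rw [c1, e1]; group
    _ = a⁻¹ * (a * (a * c)) * (a⁻¹ * (a * c)) := by group
    _ = a⁻¹ * (a * c * (a * c)) := by rw [c2]; group
    _ = a⁻¹ := by rw [e2, mul_one]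

theorem kS_comm (h1 : ∀ q ∈ Q, ⁅q, a⁆ ∈ zpowers z) (h2 : ⁅s, a⁆ ∈ zpowers z) (hg : g ∈ Q ⊔ zpowers s) :
    ⁅g, a⁆ ∈ zpowers z := by
  rcases h.kmemS.1 hg with hg | ⟨q, hq, rfl⟩
  · exact h1 g hg
  · rw [kmul_l]; exact mul_mem (conj_mem' (cz_norm (h.QH hq)) h2) (h1 q hq)

end T3

namespace T3

variable (h : T3 z x s Q ⊥)
include h

theorem kcH : #|𝐂[z]| = 6 * #|Q| := by rw [h.card, card_bot, mul_one]

theorem ksylH : IsSylowIn 2 (Q ⊔ zpowers s) 𝐂[z] := by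
  refine IsSylowIn.of_not_dvd_relIndex h.kSH h.kS2 ?_
  have e := H9.card_mul_relIndex h.kSH
  rw [h.kcS, h.kcH, show 6 * #|Q| = 2 * #|Q| * 3 by ring] at e
  rw [Nat.eq_of_mul_eq_mul_left (by have := cpos Q; omega) e]
  norm_num

theorem kconjz (hc : Invo c) : ∃ g, g * z * g⁻¹ = c := isConj_iff.1 (h.hyp.one z c h.hyp.z2 hc.orderOf_eq)

theorem ksyl : IsSylowIn 2 (Q ⊔ zpowers s) ⊤ := by
  obtain ⟨T, hT, hST⟩ := exists_isSylowIn_ge h.kS2 (le_top (a := Q ⊔ zpowers s))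
  obtain ⟨t, ht, t1⟩ := ((omZ T).bot_or_exists_ne_one).resolve_left (omZ_ne_bot hT.pgroup fun e => h.kiz.2 (by
    have := hST (mem_sup_left h.zQ); rwa [e] at this))
  obtain ⟨g, rfl⟩ := h.kconjz ⟨ht.2.1, t1⟩
  obtain ⟨R, hR, hTR⟩ := exists_isSylowIn_ge (pgroup_cj hT.pgroup g⁻¹) (K := 𝐂[z]) (by
    rw [cj_le_iff, inv_inv, cj_centralizer_singleton]
    exact fun t' ht' => mem_c1.2 (ht.2.2 t' ht'))
  refine hT.of_card_ge h.kS2 le_top ?_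
  rw [← hR.card_eq_card h.ksylH, ← card_cj g⁻¹ T]
  exact cle hTR

theorem knorm (hg : g ∈ 𝐂[z]) (hn : g ∈ 𝐍((Q ⊔ zpowers s : Subgroup G))) : g ∈ Q ⊔ zpowers s := by
  by_contra hc
  have l1 : Q ⊔ zpowers s ≤ 𝐂[z] ⊓ 𝐍((Q ⊔ zpowers s : Subgroup G)) := le_inf h.kSH le_normalizer
  have c1 := clt l1 ⟨hg, hn⟩ hc
  obtain ⟨m, c2⟩ := card_dvd_of_le (inf_le_left (a := 𝐂[z]) (b := 𝐍((Q ⊔ zpowers s : Subgroup G))))
  have p := cpos Q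
  obtain ⟨n, c3⟩ := card_dvd_of_le l1
  have e : 𝐂[z] ⊓ 𝐍((Q ⊔ zpowers s : Subgroup G)) = 𝐂[z] := by
    refine eq_of_cle inf_le_left ?_
    rw [c3, h.kcS] at c1 c2 ⊢
    rw [h.kcH] at c2 ⊢
    have e1 : n * m = 3 := Nat.eq_of_mul_eq_mul_left (show 0 < 2 * #|Q| by omega) (by rw [← mul_assoc, ← c2]; ring)
    have e2 : 2 ≤ n := by nlinarith
    have e3 : n = 3 := by
      rcases (Nat.prime_three.eq_one_or_self_of_dvd n ⟨m, e1.symm⟩) with e | e <;> omega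
    rw [e3]; omega
  have xN : x ∈ 𝐍((Q ⊔ zpowers s : Subgroup G)) := (e.ge h.hyp.xz).2
  exact h.kx2 h.kS2 (h.ksx ▸ comm_mem_l xN h.ksS)

theorem kdec (hg : g ∈ 𝐂[z]) : ∃ y ∈ zpowers x, y⁻¹ * g ∈ Q ⊔ zpowers s := by
  have n1 : zpowers x ≤ 𝐍(Q) := zpowers_le.2 h.kxN
  have c1 := csup n1
  have i1 : zpowers x ⊓ Q = ⊥ := by
    haveI : Fact (Nat.Prime 3) := ⟨Nat.prime_three⟩
    exact (IsPGroup.disjoint_of_ne 3 2 (by norm_num) _ _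
      (IsPGroup.of_card (n := 1) (by rw [Nat.card_zpowers, h.hyp.x3]; rfl)) h.Q2).eq_bot
  rw [i1, card_bot, mul_one, Nat.card_zpowers, h.hyp.x3] at c1
  have l1 : zpowers x ⊔ Q ≤ 𝐂[z] := sup_le (zpowers_le.2 h.hyp.xz) h.QH
  have dec : ∀ g ∈ zpowers x ⊔ Q, ∃ y ∈ zpowers x, y⁻¹ * g ∈ Q := fun g hg => by
    obtain ⟨a, ha, b, hb, rfl⟩ := (mem_sup' n1).1 hg
    exact ⟨a, ha, by rwa [inv_mul_cancel_left]⟩
  have sK : s ∉ zpowers x ⊔ Q := fun hs => by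
    obtain ⟨y, hy, e⟩ := dec s hs
    have := comm_mem_l h.kxN e
    have c : y⁻¹ * x = x * y⁻¹ := by
      obtain ⟨i, rfl⟩ := hy
      exact ((Commute.refl x).zpow_left i).inv_left.eq
    rw [kmul_l, h.ksx, comm1.2 c, mul_one, c] at this
    exact h.kx2 h.Q2 (by simpa using this)
  by_cases hK : g ∈ zpowers x ⊔ Q
  · obtain ⟨y, hy, e⟩ := dec g hK
    exact ⟨y, hy, mem_sup_left e⟩
  · obtain ⟨y, hy, e⟩ := dec _ (idx2 l1 (by rw [c1, h.kcH]; omega) hg h.sH hK sK)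
    exact ⟨y, hy, by
      rw [show y⁻¹ * g = y⁻¹ * (g * s) * s⁻¹ by group]
      exact mul_mem (mem_sup_left e) (inv_mem h.ksS)⟩

theorem kcC (hc : Invo c) : #|𝐂[c]| = 6 * #|Q| := by
  obtain ⟨g, rfl⟩ := h.kconjz hc
  rw [← cj_centralizer_singleton, card_cj, h.kcH]

theorem kfus (hc : Invo c) (hS : Q ⊔ zpowers s ≤ 𝐂[c]) :
    ∃ n ∈ 𝐍((Q ⊔ zpowers s : Subgroup G)), n * z * n⁻¹ = c := by
  obtain ⟨g, rfl⟩ := h.kconjz hc
  obtain ⟨n, hn, e⟩ := B01.burnside_fusion_in h.ksyl (mem_top g) (le_centralizer_singleton_iff.1 h.kSH)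
    (le_centralizer_singleton_iff.1 hS)
  exact ⟨n, hn.2, e⟩

theorem knorm' (hc : Invo c) (hS : Q ⊔ zpowers s ≤ 𝐂[c]) (hg : g ∈ 𝐂[c])
    (hn : g ∈ 𝐍((Q ⊔ zpowers s : Subgroup G))) : g ∈ Q ⊔ zpowers s := by
  obtain ⟨n, h1, rfl⟩ := h.kfus hc hS
  have := conj_mem' h1 (h.knorm (g := n⁻¹ * g * n) (mem_c1.2 (by
    calc _ = n⁻¹ * (g * (n * z * n⁻¹)) * n := by group
      _ = _ := by rw [mem_c1.1 hg]; group)) (mul_mem (mul_mem (inv_mem h1) hn) h1))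
  rwa [show n * (n⁻¹ * g * n) * n⁻¹ = g by group] at this

end T3

end Cfsg.Agent.WA.Hw
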