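import Cfsg.Agent.WA.HwC0

/-! Module C1 of the Hayden-Winter theorem: the centre of `Q`. -/

set_option autoImplicit false
set_option linter.unusedSectionVars false
set_option linter.unusedVariables false

namespace Cfsg.Agent.WA.Hw

open Subgroup Cfsg.Agent.FT Cfsg.Agent.L0 Cfsg.Agent.H8 Cfsg.Agent.WA.Rw
open Cfsg.Agent.BS (Invo)
open Cfsg.Agent.H2.SC (omZ mem_omZ omZ_le le_cent_omZ omZ_ne_bot norm_omZ cj_omZ)
open scoped commutatorElement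

universe u

section
variable {G : Type u} [Group G] [Finite G] {z x s u a b c g q k v w : G} {Q O S : Subgroup G}

theorem kodd {P : Subgroup G} (hP : IsSylowIn 2 P ⊤) (hg : g ∈ 𝐍(P)) (g1 : g ∉ P) :
    ∃ k ∈ 𝐍(P), k ∉ P ∧ (orderOf k).Prime ∧ orderOf k ≠ 2 := by
  obtain ⟨r, r1, r2, r3⟩ : ∃ r : ℕ, r.Prime ∧ r ∣ #|𝐍(P)| ∧ r ≠ 2 := by
    by_contra hn
    push Not at hn
    have := Nat.eq_prime_pow_of_unique_prime_dvd (p := 2) (cpos 𝐍(P)).ne' fun {d} d1 d2 => hn d d1 d2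
    exact g1 (hP.max _ le_top (IsPGroup.of_card this) le_normalizer ▸ hg)
  haveI := Fact.mk r1
  obtain ⟨k, hk⟩ := exists_prime_orderOf_dvd_card' r r2
  rw [← Subgroup.orderOf_coe] at hk
  refine ⟨k, k.2, fun e => ?_, hk ▸ r1, hk ▸ r3⟩
  obtain ⟨i, hi⟩ := hP.pgroup ⟨k, e⟩
  have a : orderOf (k : G) ∣ 2 ^ i := orderOf_dvd_of_pow_eq_one (congrArg Subtype.val hi)
  rw [hk] at a
  exact r3 ((Nat.prime_dvd_prime_iff_eq r1 Nat.prime_two).1 (r1.dvd_of_dvd_pow a))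

namespace T3

variable (h : T3 z x s Q ⊥)
include h

theorem kcV (hv : v ∈ omZ Q) : ⁅s, v⁆ ∈ omZ Q := comm_mem_r (norm_omZ Q h.ksN) hv

theorem kF1 (hg : g ∈ Q ⊔ zpowers s) (g1 : g ∉ Q) (hv : v ∈ omZ Q) : ⁅g, v⁆ = ⁅s, v⁆ := by
  obtain ⟨q, hq, rfl⟩ := (h.kmemS.1 hg).resolve_left g1
  rw [kmul_l, (h.kcV hv).2.2 q hq, comm1.2 (hv.2.2 q hq), mul_one, mul_inv_cancel_right]

theorem kcZ (hv : v ∈ omZ Q) : ⁅s, v⁆ ∈ omZ Q ⊓ 𝐂[s] := by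
  refine ⟨h.kcV hv, mem_c1.2 ?_⟩
  have e : s * ⁅s, v⁆ * s⁻¹ = ⁅s, v⁆⁻¹ := by
    calc _ = (s * s) * v * (s * s)⁻¹ * (s * v⁻¹ * s⁻¹) := by simp only [commutatorElement_def]; group
      _ = _ := by rw [← zc h.ss (h.QH hv.1)]; simp only [commutatorElement_def]; group
  rw [inv_eq_of_mul_eq_one_left (h.kcV hv).2.1] at e
  exact (mul_inv_eq_iff_eq_mul.1 e).symm

theorem kZS (hc : c ∈ omZ Q ⊓ 𝐂[s]) : Q ⊔ zpowers s ≤ 𝐂[c] :=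
  sup_le (fun q hq => mem_c1.2 (hc.1.2.2 q hq)) (zpowers_le.2 (mem_c1.2 (mem_c1.1 hc.2).symm))

theorem kzZ : z ∈ omZ Q ⊓ 𝐂[s] :=
  ⟨⟨h.zQ, h.kiz.1, fun q hq => mem_c1.1 (h.QH hq)⟩, mem_c1.2 (mem_c1.1 h.sH).symm⟩

theorem kVs (hw : w ∈ omZ Q) (wz : w ∉ zpowers z) : ∃ b ∈ omZ Q, ⁅s, b⁆ ≠ 1 := by
  by_contra hn
  push Not at hn
  have sC : s ∈ 𝐂(omZ Q) := mem_cH.2 fun a ha => (comm1.1 (hn a ha)).symm
  have xN : x ∈ 𝐍(𝐂(omZ Q)) := cj_eq_self_iff.1 (by rw [cj_centralizer, cj_eq_self (norm_omZ Q h.kxN)])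
  have := comm_mem_l xN sC
  rw [h.ksx] at this
  exact wz ((mem_z h.kiz).2 (h.hyp.fix h.Q2 h.QH hw.1 (mem_cH.1 this w hw)))

theorem kZN (hb : b ∈ omZ Q) (b1 : ⁅s, b⁆ ≠ 1) (hk : k ∈ 𝐍((Q ⊔ zpowers s : Subgroup G)))
    (hc : c ∈ omZ Q ⊓ 𝐂[s]) : k * c * k⁻¹ ∈ omZ Q ⊓ 𝐂[s] := by
  have m : k * c * k⁻¹ ∈ Q ⊔ zpowers s := conj_mem' hk (mem_sup_left hc.1.1)
  have l : Q ⊔ zpowers s ≤ 𝐂[k * c * k⁻¹] := by
    rw [← cj_centralizer_singleton, ← cj_eq_self hk]; exact cj_mono k (h.kZS hc)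
  have mQ : k * c * k⁻¹ ∈ Q := by
    by_contra e
    exact b1 ((h.kF1 m e hb).symm.trans (comm1.2 (mem_c1.1 (l (mem_sup_left hb.1))).symm))
  exact ⟨⟨mQ, GS.G0.sq_conj hc.1.2.1 k, fun q hq => mem_c1.1 (l (mem_sup_left hq))⟩,
    mem_c1.2 (mem_c1.1 (l h.ksS)).symm⟩

theorem kB (hb : b ∈ omZ Q) (b1 : ⁅s, b⁆ ≠ 1) (hk : k ∈ 𝐍((Q ⊔ zpowers s : Subgroup G)))
    (k1 : k ∉ Q ⊔ zpowers s) (ha : a ∈ omZ Q) : k * a * k⁻¹ ∈ Q := by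
  by_contra a1
  have aS : a ∈ Q ⊔ zpowers s := mem_sup_left ha.1
  have e1 := h.kF1 (conj_mem' hk aS) a1 ha
  have c1 : ⁅s, a⁆ ≠ 1 := fun e => a1 (h.kZN hb b1 hk ⟨ha, mem_c1.2 (comm1.1 e).symm⟩).1.1
  have e2 : k * ⁅k⁻¹ * a * k, a⁆ * k⁻¹ = ⁅k * a * k⁻¹, a⁆⁻¹ := by simp only [commutatorElement_def]; group
  have a2 : k⁻¹ * a * k ∉ Q := fun e => c1 (by
    rw [comm1.2 (ha.2.2 _ e), e1, mul_one, mul_inv_cancel] at e2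
    exact inv_eq_one.1 e2.symm)
  rw [h.kF1 (conj_mem'' hk aS) a2 ha, e1, inv_eq_of_mul_eq_one_left (h.kcV ha).2.1] at e2
  exact k1 (h.knorm' ⟨(h.kcV ha).2.1, c1⟩ (h.kZS (h.kcZ ha)) (mem_c1.2 (mul_inv_eq_iff_eq_mul.1 e2)) hk)

theorem kA (hb : b ∈ omZ Q) (b1 : ⁅s, b⁆ ≠ 1) (hk : k ∈ 𝐍((Q ⊔ zpowers s : Subgroup G)))
    (k1 : k ∉ Q ⊔ zpowers s) (k2 : k ∉ 𝐍(Q)) : k * ⁅s, b⁆ * k⁻¹ = z := by
  by_contra cz
  have aQ := h.kB hb b1 hk k1 hb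
  have e : ∀ q, ⁅q, k * b * k⁻¹⁆ = k * ⁅k⁻¹ * q * k, b⁆ * k⁻¹ := fun q => by
    simp only [commutatorElement_def]; group
  have xN : x ∈ 𝐍((Q ⊓ cj k Q : Subgroup G)) := norm_of fun q hq => by
    have m := conj_mem' h.kxN hq.1
    refine ⟨m, ?_⟩
    by_contra n
    have := h.kfm.cz hq.1 aQ (by
      rw [e, comm1.2 (hb.2.2 _ (mem_cj.1 hq.2)), mul_one, mul_inv_cancel]; exact one_mem _)
    rw [e, h.kF1 (conj_mem'' hk (mem_sup_left m)) (fun e => n (mem_cj.2 e)) hb] at this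
    rcases (mem_z h.kiz).1 this with e | e
    · exact b1 (by simpa [mul_inv_eq_one] using e)
    · exact cz e
  have zQ : z ∈ Q ⊓ cj k Q := ⟨h.zQ, mem_cj.2 (by simpa using (h.kZN hb b1 (inv_mem hk) h.kzZ).1.1)⟩
  have l : cj k Q ≤ Q ⊔ zpowers s := cj_le_of_mem_normalizer hk le_sup_left
  have c1 := cle2 (A := cj k Q) (B := Q) fun a ha b hb a1 b1 =>
    idx2 l (by rw [card_cj, h.kcS]) (mem_sup_left ha) (mem_sup_left hb) a1 b1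
  have := h.hyp.four h.Q2 h.QH inf_le_left xN h.kxN zQ (by have := cpos (Q ⊓ cj k Q); omega)
  refine k2 ((inv_mem_iff).1 (norm_of fun a ha => ?_))
  rw [inv_inv]
  exact mem_cj.1 (this.ge ha).2

theorem kN (hb : b ∈ omZ Q) (b1 : ⁅s, b⁆ ≠ 1) (hk : k ∈ 𝐍((Q ⊔ zpowers s : Subgroup G)))
    (k1 : k ∉ Q ⊔ zpowers s) (k2 : k ∈ 𝐍(Q)) (k3 : (orderOf k).Prime) : False := by
  obtain ⟨Y, hY⟩ : ∃ Y : Subgroup G, ∀ c, c ∈ Y ↔ ∃ v ∈ omZ Q, ⁅s, v⁆ = c :=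
    ⟨{ carrier := {c | ∃ v ∈ omZ Q, ⁅s, v⁆ = c}
       mul_mem' := by
        rintro _ _ ⟨v, hv, rfl⟩ ⟨w, hw, rfl⟩
        exact ⟨v * w, mul_mem hv hw, by rw [kmul_r, (h.kcV hw).2.2 v hv.1, mul_inv_cancel_right]⟩
       one_mem' := ⟨1, one_mem _, by simp⟩
       inv_mem' := by
        rintro _ ⟨v, hv, rfl⟩
        exact ⟨v, hv, (inv_eq_of_mul_eq_one_left (h.kcV hv).2.1).symm⟩ }, fun _ => Iff.rfl⟩
  have YZ : Y ≤ omZ Q ⊓ 𝐂[s] := fun c hc => by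
    obtain ⟨v, hv, rfl⟩ := (hY c).1 hc
    exact h.kcZ hv
  have xV : ∀ v ∈ omZ Q, x * v * x⁻¹ ∈ omZ Q := fun v hv => conj_mem' (norm_omZ Q h.kxN) hv
  have h3 : ∀ v ∈ omZ Q, ⁅v, (x * v * x⁻¹)⁻¹⁆ ∈ zpowers z := fun v hv => by
    rw [comm1.2 ((inv_mem (xV v hv)).2.2 v hv.1)]; exact one_mem _
  have zY : z ∉ Y := fun e => by
    obtain ⟨v, hv, e⟩ := (hY z).1 e
    have := h.kinv' hv.1 (e ▸ mem_zpowers z) (hv.2.1 ▸ one_mem _) (h3 v hv)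
    rw [commutatorElement_def, this, ← mul_inv_rev, hv.2.1, inv_one] at e
    exact h.kiz.2 e.symm
  have key : ∀ a ∈ omZ Q ⊓ 𝐂[s], a ∉ Y → a * z ∈ Y := fun a ha a1 => by
    have := h.kinv ha.1.1 (by rw [comm1.2 (mem_c1.1 ha.2).symm]; exact one_mem _) (ha.1.2.1 ▸ one_mem _) (h3 a ha.1)
    have m : ⁅s, x * a * x⁻¹⁆ ∈ Y := (hY _).2 ⟨_, xV a ha.1, rfl⟩
    rcases (mem_z h.kiz).1 this with e | e
    · exact absurd (by rw [eq_inv_of_mul_eq_one_left e]; exact inv_mem m) a1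
    · rw [← e, ← mul_assoc, ha.1.2.1, one_mul]; exact m
  have c1 := cle2 (A := Y) (B := omZ Q ⊓ 𝐂[s]) fun a ha b hb a1 b1 => by
    have := mul_mem (key a ha a1) (key b hb b1)
    rwa [mem_c1.1 (h.QH hb.1.1), show a * z * (z * b) = a * (z * z) * b by group, h.kiz.1, mul_one] at this
  rw [inf_eq_right.2 YZ] at c1
  have c2 := clt YZ h.kzZ zY
  haveI := Fact.mk k3
  have pg : IsPGroup (orderOf k) (zpowers k) := IsPGroup.of_card (n := 1) (by rw [Nat.card_zpowers, pow_one])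
  have bot : ∀ X : Subgroup G, X ≤ omZ Q ⊓ 𝐂[s] → X ⊓ 𝐂(zpowers k) = ⊥ := fun X hX => by
    refine eq_bot_iff.2 fun c hc => ?_
    by_contra c1
    exact k1 (h.knorm' ⟨(hX hc.1).1.2.1, c1⟩ (h.kZS (hX hc.1)) (mem_c1.2 (mem_cH.1 hc.2 k (mem_zpowers k))) hk)
  have m1 := card_modEq_card_cent pg (K := omZ Q ⊓ 𝐂[s]) (zpowers_le.2 (norm_of fun c hc => h.kZN hb b1 hk hc))
  have m2 := card_modEq_card_cent pg (K := Y) (zpowers_le.2 (norm_of fun c hc => by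
    obtain ⟨v, hv, rfl⟩ := (hY c).1 hc
    have m := conj_mem' (norm_omZ Q k2) hv
    refine (hY _).2 ⟨_, m, ?_⟩
    rw [conj_comm, h.kF1 (conj_mem' hk h.ksS) (fun e => h.ksQ (by simpa [mul_assoc] using conj_mem'' k2 e)) m]))
  rw [bot _ le_rfl, card_bot, le_antisymm c1 c2] at m1
  rw [bot _ YZ, card_bot] at m2
  have := (m1.symm.trans (m2.mul_left 2))
  exact k3.one_lt.ne' (Nat.dvd_one.1 ((Nat.modEq_iff_dvd' (by norm_num)).1 this))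

end T3
end

variable {G : Type u} [Group G] [Finite G] [IsSimpleGroup G] {z x s u : G} {Q O S : Subgroup G}

theorem T3.center (h : T3 z x s Q ⊥) : ∀ g ∈ Q, Q ≤ 𝐂[g] → g ∈ zpowers z := by
  intro g hg hc
  by_contra gz
  have xN : x ∈ 𝐍((Q ⊓ 𝐂(Q) : Subgroup G)) := cj_eq_self_iff.1 (by rw [cj_inf, cj_centralizer, cj_eq_self h.kxN])
  obtain ⟨w, hw, wz, w2⟩ := h.hyp.exW (h.Q2.to_le inf_le_left) (inf_le_left.trans h.QH) xN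
    ⟨hg, le_centralizer_singleton_iff.1 hc⟩ gz
  have wc := mem_cH.1 hw.1.2
  have wV : w ∈ omZ Q := by
    refine ⟨hw.1.1, ((mem_z h.kiz).1 w2).resolve_right fun e => h.kiz.2 ?_, wc⟩
    have r := h.kfm.rel hw.1.1
    have jc := mem_cH.1 (conj_mem' xN hw.1).2 _ (conj_mem'' h.kxN hw.1.1)
    have j2 : x * w * x⁻¹ * (x * w * x⁻¹) = z := by
      rw [show x * w * x⁻¹ * (x * w * x⁻¹) = x * (w * w) * x⁻¹ by group, e, ← h.hyp.comm, mul_inv_cancel_right]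
    have k2 : x⁻¹ * w * x * (x⁻¹ * w * x) = z := by
      rw [show x⁻¹ * w * x * (x⁻¹ * w * x) = x⁻¹ * (w * w * x) by group, e, h.hyp.comm, inv_mul_cancel_left]
    have r2 : w * (x * w * x⁻¹) * (x⁻¹ * w * x) * (w * (x * w * x⁻¹) * (x⁻¹ * w * x)) = 1 := by
      rcases (mem_z h.kiz).1 r with e | e <;> rw [e]
      exacts [mul_one 1, h.kiz.1]
    have c1 := wc _ (mul_mem (conj_mem' h.kxN hw.1.1) (conj_mem'' h.kxN hw.1.1))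
    set j := x * w * x⁻¹
    set t := x⁻¹ * w * x
    calc z = w * w * (j * j) * (t * t) := by rw [e, j2, k2, h.kiz.1, one_mul]
      _ = w * (w * (j * t)) * t⁻¹ * (j * t) * t := by group
      _ = w * (j * t * w) * t⁻¹ * (t * j) * t := by rw [c1, jc]
      _ = 1 := by rw [← r2]; group
  obtain ⟨b, hb, b1⟩ := h.kVs wV wz
  obtain ⟨c, hc, cz⟩ : ∃ c ∈ omZ Q ⊓ 𝐂[s], c ∉ zpowers z := by
    refine ex_not_mem ?_
    have c1 := cnt_c' (Y := omZ Q) (L := omZ Q ⊓ 𝐂[s]) (e := s) fun y hy => h.kcZ hy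
    have c2 := h.hyp.eight (h.Q2.to_le (omZ_le Q)) ((omZ_le Q).trans h.QH) (norm_omZ Q h.kxN) h.kzZ.1 wV wz
    rw [h.kiz.card_zpowers]
    nlinarith
  obtain ⟨n, hn, e⟩ := h.kfus ⟨hc.1.2.1, fun e => cz (e ▸ one_mem _)⟩ (h.kZS hc)
  obtain ⟨k, hk, k1, k3, k4⟩ := kodd h.ksyl hn fun m => cz (by
    rw [← e, mem_c1.1 (h.kSH m), mul_inv_cancel_right]; exact mem_zpowers z)
  by_cases k2 : k ∈ 𝐍(Q)
  · exact h.kN hb b1 hk k1 k2 k3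
  have e1 := h.kA hb b1 hk k1 k2
  have e2 := h.kA hb b1 (inv_mem hk) (fun e => k1 (inv_mem_iff.1 e)) fun e => k2 (inv_mem_iff.1 e)
  have m := h.knorm (g := k ^ 2) (mem_c1.2 (by
    calc k ^ 2 * z = k ^ 2 * (k⁻¹ * ⁅s, b⁆ * k⁻¹⁻¹) := by rw [e2]
      _ = k * ⁅s, b⁆ * k⁻¹ * k ^ 2 := by group
      _ = _ := by rw [e1])) (pow_mem hk 2)
  exact k1 (zpowers_le.2 m (mem_zpowers_pow_iff.2 ((Nat.coprime_primes Nat.prime_two k3).2 k4.symm)))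

end Cfsg.Agent.WA.Hw
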