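import Cfsg.Agent.WA.HwC0

/-! Module C2 of the Hayden-Winter theorem: a normal four-subgroup. -/

set_option autoImplicit false
set_option linter.unusedSectionVars false
set_option linter.unusedVariables false

namespace Cfsg.Agent.WA.Hw

open Subgroup Cfsg.Agent.FT Cfsg.Agent.L0 Cfsg.Agent.H8 Cfsg.Agent.WA.Rw
open Cfsg.Agent.BS (Invo)
open Cfsg.Agent.H2.SC (omZ mem_omZ omZ_le le_cent_omZ omZ_ne_bot norm_omZ cj_omZ)
open scoped commutatorElement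

universe u

variable {G : Type u} [Group G] [Finite G] [IsSimpleGroup G] {z x s u : G} {Q O S : Subgroup G}

theorem T3.four (h : T3 z x s Q ⊥) (hu : u ∈ Q) (u2 : u * u = 1) (u1 : u ≠ 1) (uz : u ≠ z) :
    ∃ v ∈ Q, v * v = 1 ∧ v ≠ 1 ∧ v ≠ z ∧ ∀ g ∈ Q ⊔ zpowers s, g * v * g⁻¹ = v ∨ g * v * g⁻¹ = v * z := by
  have iz := h.kiz
  obtain ⟨w, hw, w2, wz, wc⟩ := h.hyp.q8 h.Q2 h.QH h.kxN hu u2 fun e => by
    rcases (mem_z iz).1 e with e | e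
    exacts [u1 e, uz e]
  have fin : ∀ v ∈ Q ⊓ Rw.cmod (zpowers z) Q, v * v = 1 → v ∉ zpowers z → ⁅s, v⁆ ∈ zpowers z →
      ∃ v ∈ Q, v * v = 1 ∧ v ≠ 1 ∧ v ≠ z ∧ ∀ g ∈ Q ⊔ zpowers s, g * v * g⁻¹ = v ∨ g * v * g⁻¹ = v * z :=
    fun v hv v2 vz sv => ⟨v, hv.1, v2, fun e => vz (e ▸ one_mem _), fun e => vz (e ▸ mem_zpowers z), fun g hg => by
      rw [kconj]
      rcases (mem_z iz).1 (h.kS_comm hv.2.2 sv hg) with e | e <;> rw [e]
      · exact Or.inl (one_mul v)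
      · exact Or.inr (mem_c1.1 (h.QH hv.1)).symm⟩
  have nW : ∀ g ∈ 𝐂[z], ∀ v ∈ Q ⊓ Rw.cmod (zpowers z) Q, g * v * g⁻¹ ∈ Q ⊓ Rw.cmod (zpowers z) Q := fun g hg v hv =>
    ⟨conj_mem' (h.HQ hg) hv.1, conj_mem' (norm_cmod ⟨cz_norm hg, h.HQ hg⟩) hv.2⟩
  have fin2 : ∀ v ∈ Q ⊓ Rw.cmod (zpowers z) Q, v * v = 1 → v ∉ zpowers z → ⁅v, s * v * s⁻¹⁆ = 1 →
      ∃ v ∈ Q, v * v = 1 ∧ v ≠ 1 ∧ v ≠ z ∧ ∀ g ∈ Q ⊔ zpowers s, g * v * g⁻¹ = v ∨ g * v * g⁻¹ = v * z :=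
    fun v hv v2 vz c => by
    have c := comm1.1 c
    have t2 := GS.G0.sq_conj v2 s
    have e : s * (s * v * s⁻¹) * s⁻¹ = v := by
      rw [show s * (s * v * s⁻¹) * s⁻¹ = s * s * v * (s * s)⁻¹ by group, ← zc h.ss (h.QH hv.1),
        mul_inv_cancel_right]
    by_cases hz : v * (s * v * s⁻¹) ∈ zpowers z
    · refine fin v hv v2 vz ?_
      rwa [commutatorElement_def, inv_eq_of_mul_eq_one_left v2, ← c]
    · refine fin _ (mul_mem hv (nW s h.sH v hv)) ?_ hz ?_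
      · calc _ = v * (s * v * s⁻¹ * v) * (s * v * s⁻¹) := by group
          _ = v * v * (s * v * s⁻¹ * (s * v * s⁻¹)) := by rw [← c]; group
          _ = 1 := by rw [v2, t2, mul_one]
      · rw [commutatorElement_def, show s * (v * (s * v * s⁻¹)) * s⁻¹ = s * v * s⁻¹ * (s * (s * v * s⁻¹) * s⁻¹) by group,
          e, ← c, mul_inv_cancel]
        exact one_mem _
  have wW : w ∈ Q ⊓ Rw.cmod (zpowers z) Q := ⟨hw, cz_norm (h.QH hw), wc⟩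
  have xH := h.hyp.xz
  have jW := nW x xH w wW
  have kW := nW x⁻¹ (inv_mem xH) w wW
  have nz : ∀ g ∈ 𝐂[z], g * w * g⁻¹ ∉ zpowers z := fun g hg e => wz (by
    have := conj_mem'' (cz_norm hg) e
    rwa [show g⁻¹ * (g * w * g⁻¹) * g = w by group] at this)
  have tW := nW s h.sH w wW
  have cz : ∀ g ∈ 𝐂[z], ∀ c, g * c * g⁻¹ = z → c = z := fun g hg c e => by
    calc c = g⁻¹ * (g * c * g⁻¹ * g) := by group
      _ = z := by rw [e, ← mem_c1.1 hg]; group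
  by_contra hn
  have b0 : ⁅w, s * w * s⁻¹⁆ = z :=
    ((mem_z iz).1 (tW.2.2 w hw)).resolve_left fun e => hn (fin2 w wW w2 wz e)
  have b1 : ⁅x⁻¹ * w * x, s * w * s⁻¹⁆ = z := by
    have := ((mem_z iz).1 ((nW s h.sH _ jW).2.2 _ jW.1)).resolve_left fun e =>
      hn (fin2 _ jW (GS.G0.sq_conj w2 x) (nz x xH) e)
    refine cz x⁻¹ (inv_mem xH) _ ?_
    rw [← this, conj_comm]
    congr 1
    · calc _ = x⁻¹ * x⁻¹ * w * (x * x) := by group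
        _ = _ := by rw [← mul_inv_rev, h.hyp.sq, inv_inv]
    · calc _ = x⁻¹ * (s * w * s⁻¹) * x := by group
        _ = (s * x * s⁻¹) * (s * w * s⁻¹) * (s * x⁻¹ * s⁻¹) := by rw [h.sx, h.ksx']
        _ = _ := by group
  have b2 : ⁅x * w * x⁻¹, s * w * s⁻¹⁆ = z := by
    have := ((mem_z iz).1 ((nW s h.sH _ kW).2.2 _ kW.1)).resolve_left fun e =>
      hn (fin2 _ kW (GS.G0.sq_conj w2 x⁻¹) (nz x⁻¹ (inv_mem xH)) e)
    refine cz x xH _ ?_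
    rw [← this, conj_comm]
    congr 1
    · calc _ = x * x * w * (x * x)⁻¹ := by group
        _ = _ := by rw [h.hyp.sq]
    · calc _ = (s * x⁻¹ * s⁻¹) * (s * w * s⁻¹) * (s * x * s⁻¹) := by rw [h.sx, h.ksx']
        _ = _ := by group
  have r := zc (h.kfm.rel hw) (h.QH tW.1)
  have := comm1.2 r.symm
  rw [kmul_l, b1, kmul_l w, b0, b2, mem_c1.1 (h.QH hw), mem_c1.1 (h.QH (mul_mem hw jW.1)), mul_inv_cancel_right,
    mul_inv_cancel_right, iz.1, mul_one] at this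
  exact iz.2 this

end Cfsg.Agent.WA.Hw
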