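import Cfsg.Agent.WA.HwC3b
import Cfsg.Agent.WA.HwA1
import Cfsg.Agent.WA.HwC0
import Cfsg.Agent.FT.P03a

/-! The order of `Q` when it contains a four-subgroup normal in a Sylow subgroup. -/

set_option autoImplicit false
set_option linter.unusedSectionVars false

namespace Cfsg.Agent.WA.Hw

open Subgroup Cfsg.Agent.FT Cfsg.Agent.L0 Cfsg.Agent.H8 Cfsg.Agent.WA.Rw
open Cfsg.Agent.BS (Invo)
open scoped commutatorElement

universe u

variable {G : Type u} [Group G] [Finite G] {z x s u : G} {Q R L T : Subgroup G}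

namespace C3

theorem zp3 {Y : Type*} [Group Y] {w : Y} (h : w * w * w = 1) (i : ℤ) : w ^ i = 1 ∨ w ^ i = w ∨ w ^ i = w⁻¹ := by
  have e := eq_inv_of_mul_eq_one_left h
  induction i using Int.induction_on with
  | zero => simp
  | succ n ih => rw [zpow_add_one]; rcases ih with a | a | a <;> simp [a, e]
  | pred n ih => rw [zpow_sub_one]; rcases ih with a | a | a <;> simp [a, ← mul_inv_rev, e]

theorem sc (h : Hyp z x) (hR : IsPGroup 2 R) (hz : R ≤ 𝐂[z]) (hx : x ∈ 𝐍(R)) (zR : z ∈ R) :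
    H9.F3.SC (qp R ⟨x, hx⟩) := by
  have c : qp R ⟨x, hx⟩ * qp R ⟨x, hx⟩ * qp R ⟨x, hx⟩ = 1 := by
    rw [← map_mul, ← map_mul, qp_one]
    exact (h.cube.symm ▸ one_mem R : x * x * x ∈ R)
  refine ⟨fun e => not_mem2 h hR (qp_one.1 e), c, fun g e => ?_⟩
  obtain ⟨g, rfl⟩ := qp_surj g
  obtain ⟨k, hk, m⟩ := (h.fm hR hz hx).surj (qp_comm.1 e)
  have e1 : k * g * x = x * (k * g) := by
    rw [show (k⁻¹ * x * k)⁻¹ * (⁅(g : G), x⁆ * x) = (k⁻¹ * x * k)⁻¹ * (g * x * (g : G)⁻¹) by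
      simp only [commutatorElement_def]; group] at m
    rcases (mem_z h.iz).1 m with a | a <;> rw [inv_mul_eq_iff_eq_mul] at a
    · calc _ = k * (g * x * (g : G)⁻¹) * g := by group
        _ = _ := by rw [a]; group
    · have cz : Commute (k⁻¹ * x * k) z := mem_c1.1 (mul_mem (mul_mem (inv_mem (hz hk)) h.xz) (hz hk))
      have := congrArg (· ^ 3) a
      simp only [cz.mul_pow, conj_pow, pow_three' x, pow_three' z, h.cube, h.iz.1] at this
      rw [show k⁻¹ * x * k = k⁻¹ * x * k⁻¹⁻¹ by group, conj_pow, pow_three', h.cube] at this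
      exact absurd (by simpa using this.symm) h.iz.2
  have kg : k * g ∈ 𝐍(R) := mul_mem (le_normalizer hk) g.2
  have e2 := (h.fix hR hz (conj_mem' kg zR) (by
    calc _ = k * g * z * (k * g)⁻¹ * (x * (k * g)) * (k * g)⁻¹ := by group
      _ = k * g * (z * x) * (k * g)⁻¹ := by rw [← e1]; group
      _ = _ := by rw [h.comm, ← mul_assoc, e1]; group)).resolve_left (H2.CI.conj_ne_one h.iz.2)
  obtain ⟨i, hi⟩ := h.cent _ (mul_inv_eq_iff_eq_mul.1 e2) e1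
  have : g = (⟨k, le_normalizer hk⟩ : 𝐍(R))⁻¹ * (⟨z, le_normalizer zR⟩ * ⟨x, hx⟩) ^ i :=
    Subtype.ext (eq_inv_mul_of_mul_eq hi.symm)
  rw [this, map_mul, map_inv, map_zpow, map_mul, qp_one.2 hk, qp_one.2 zR, inv_one, one_mul, one_mul]
  exact zp3 c i

theorem fin (h : T3 z x s Q ⊥) (hL : S3 L (Q ⊔ zpowers s) T) (QT : ¬ Q ≤ T) (zR : z ∈ R) (RQ : R ≤ Q)
    (h1 : 𝐂[z] ≤ 𝐍(R)) (h2 : L ≤ 𝐍(R)) : #|Q| = 32 := by
  haveI := Fact.mk Nat.prime_two
  haveI := Fact.mk Nat.prime_three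
  haveI := Fact.mk (by norm_num : Nat.Prime 7)
  obtain ⟨hH, pS⟩ := s3 h
  obtain ⟨R, -, hm⟩ := Finite.exists_le_maximal
    (p := fun R : Subgroup G => z ∈ R ∧ IsPGroup 2 R ∧ 𝐂[z] ≤ 𝐍(R) ∧ L ≤ 𝐍(R)) ⟨zR, h.Q2.to_le RQ, h1, h2⟩
  obtain ⟨zR, pR, h1, h2⟩ := hm.prop
  have RS := h.ksyl.le_of_le_normalizer pR le_top (hH.SM.trans h1)
  have xR := h1 h.hyp.xz
  have RQ : R ≤ Q := fun a ha => hH.inf h.hyp.xz (not_mem2 h.hyp pS) (RS ha) (RS (conj_mem'' xR ha))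
  obtain ⟨l, hl, l1⟩ := hL.ex
  have c4 : 4 * #|R| ≤ #|Q| := not_lt.1 fun e => QT fun a ha => by
    rw [← h.hyp.four h.Q2 h.QH RQ xR (h.HQ h.hyp.xz) zR e] at ha
    exact hL.inf hl l1 (RS ha) (RS (conj_mem'' (h2 hl) ha))
  have ck : #|(qp R).ker| = #|R| := by
    rw [qp, QuotientGroup.ker_mk']
    exact Nat.card_congr (subgroupOfEquivOfLe le_normalizer).toEquiv
  have nm : ∀ (V : Subgroup _) (g : 𝐍(R)), qp R g ∈ 𝐍(V) → (g : G) ∈ 𝐍((V.comap (qp R)).map (𝐍(R)).subtype) :=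
    fun V g hg => le_normalizer_map _ ⟨g, mem_normalizer_iff.2 fun y => by
      simpa only [mem_comap, map_mul, map_inv] using mem_normalizer_iff.1 hg (qp R y), rfl⟩
  have hs := sc h.hyp pR (RQ.trans h.QH) xR zR
  obtain ⟨nil, hi⟩ := sc3 hs
  obtain ⟨a, ha⟩ := h.Q2.exists_card_eq
  obtain ⟨b, hb⟩ := pR.exists_card_eq
  have cY := card_comap_of_surjective (qp R) qp_surj ⊤
  rw [comap_top, card_top, card_top, ck, hb, mul_comm] at cY
  have dS := card_dvd_of_le (hH.SM.trans h1)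
  rw [hH.cS, ha, cY] at dS
  have ba : b + 2 ≤ a := (Nat.pow_le_pow_iff_right one_lt_two).1 (by rw [pow_add, ← ha, ← hb]; omega)
  have odd : ¬ 2 ∣ #|pPrimeCore 3 (𝐍(R) ⧸ R.subgroupOf 𝐍(R))| := by
    set N := pPrimeCore 3 (𝐍(R) ⧸ R.subgroupOf 𝐍(R))
    obtain ⟨V, hV⟩ := exists_isSylowIn 2 N
    have e : Op 2 N = V := hV.max _ (map_subtype_le _) (map_pCore_isPGroup N) fun v hv =>
      ⟨⟨v, hV.le hv⟩, le_pCore_of_isNilpotent (hV.pgroup.comap_subtype (K := N)) hv, rfl⟩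
    have n : ∀ g ∈ 𝐍(R), g ∈ 𝐍((V.comap (qp R)).map (𝐍(R)).subtype) := fun g hg =>
      nm V ⟨g, hg⟩ (e ▸ normalizer_le_normalizer_map_pCore N ((normalizer_eq_top N).ge (mem_top _)))
    have le : R ≤ (V.comap (qp R)).map (𝐍(R)).subtype := fun r hr =>
      ⟨⟨r, le_normalizer hr⟩, by rw [SetLike.mem_coe, mem_comap, qp_one.2 hr]; exact one_mem V, rfl⟩
    have := hm.le_of_ge ⟨le zR, (hV.pgroup.comap_of_ker_isPGroup _ (.of_card (ck.trans hb))).map _, fun g hg => n g (h1 hg),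
      fun g hg => n g (h2 hg)⟩ le
    have V0 : V = ⊥ := eq_bot_iff.2 fun v hv => by
      obtain ⟨v, rfl⟩ := qp_surj v
      exact qp_one.2 (this ⟨v, hv, rfl⟩)
    simpa [V0] using hV.not_dvd_relIndex
  have cN := (pPrimeCore 3 (𝐍(R) ⧸ R.subgroupOf 𝐍(R))).card_mul_index
  have d8 : 8 ∣ (pPrimeCore 3 (𝐍(R) ⧸ R.subgroupOf 𝐍(R))).index := by
    refine (Nat.Coprime.pow_left 3 ((Nat.Prime.coprime_iff_not_dvd Nat.prime_two).2 odd)).dvd_of_dvd_mul_left ?_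
    rw [cN]
    refine Nat.dvd_of_mul_dvd_mul_right (pow_pos two_pos b) (dvd_trans ?_ dS)
    rw [← pow_add, ← pow_succ']
    exact pow_dvd_pow 2 (by omega)
  have c168 : Nat.card (𝐍(R) ⧸ R.subgroupOf 𝐍(R)) = 168 := by
    rcases hi with e | e | ⟨-, ⟨e, -⟩ | ⟨e, e'⟩⟩
    any_goals omega
    rw [← cN, e, e', card_bot]
  have ab : a ≤ b + 2 := by
    rw [c168, show 168 = 21 * 2 ^ 3 from rfl, mul_assoc, ← pow_add, ← pow_succ'] at dS
    have := (Nat.pow_dvd_pow_iff_le_right one_lt_two).1 ((Nat.Coprime.pow_left _ (by norm_num)).dvd_of_dvd_mul_left dS)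
    omega
  obtain ⟨V, y, V7, V0, y3, hy⟩ := A.seven c168
  have sy : ∀ y : 𝐍(R) ⧸ R.subgroupOf 𝐍(R), orderOf y = 3 → IsSylowIn 3 (zpowers y) ⊤ := fun y y3 =>
    .of_not_dvd_relIndex le_top (.of_card (n := 1) (by rw [Nat.card_zpowers, y3, pow_one])) (by
      have := (zpowers y).card_mul_index
      rw [Nat.card_zpowers, y3, c168] at this
      rw [relIndex_top_right]; omega)
  obtain ⟨k, -, hk⟩ := (sy y y3).exists_cj_eq (sy _ (orderOf_eq_prime (by rw [pow_three', hs.cube]) hs.ne))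
  have xK := nm (cj k V) ⟨x, xR⟩ (by
    rw [← cj_normalizer]
    exact cj_mono k (zpowers_le.2 hy) (hk.ge (mem_zpowers _)))
  obtain ⟨j, hj⟩ := V7.exists_card_eq
  have cK : #|((cj k V).comap (qp R)).map (𝐍(R)).subtype| = 2 ^ b * 7 ^ j := by
    rw [card_map_of_injective (𝐍(R)).subtype_injective, card_comap_of_surjective _ qp_surj, card_cj, hj, ck, hb]
  have cx : #|zpowers x| = 3 := by rw [Nat.card_zpowers, h.hyp.x3]
  obtain ⟨P, hP, xP⟩ := CopAct.exists_invariant_sylow 7 ⟨zpowers_le.2 xK, by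
    rw [cx, cK]; exact (Nat.Coprime.pow_right _ (by norm_num)).mul_right (Nat.Coprime.pow_right _ (by norm_num)),
    Or.inl inferInstance⟩
  have PR : P ≤ 𝐍(R) := hP.le.trans (map_subtype_le _)
  obtain ⟨i, hi⟩ := hP.pgroup.exists_card_eq
  have P0 : P ≠ ⊥ := fun e => hP.not_dvd_relIndex (by
    rw [e, relIndex_bot_left, cK]
    exact (dvd_pow_self 7 fun e => V0 (card_eq_one.1 (by rw [hj, e, pow_zero]))).mul_left _)
  have n7 : ∀ v : G, Invo v → ∀ g ∈ P, g * v = v * g → g = 1 := fun v hv g hg e => by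
    have h3 := orderOf_dvd_natCard _ (mem_c1.2 e)
    have h4 := orderOf_dvd_natCard _ hg
    rw [h.kcC hv, ha] at h3
    rw [hi] at h4
    exact orderOf_eq_one_iff.1 (Nat.eq_one_of_dvd_coprimes (Nat.Coprime.pow_left _ ((by norm_num : Nat.Coprime 7 6).mul_right
      (Nat.Coprime.pow_right _ (by norm_num)))) h4 h3)
  have reg : P ⊓ 𝐂[x] = ⊥ := eq_bot_iff.2 fun g hg => n7 z h.hyp.iz g hg.1 (mul_inv_eq_iff_eq_mul.1
    ((h.hyp.fix pR (RQ.trans h.QH) (conj_mem' (PR hg.1) zR) (by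
      calc _ = g * z * g⁻¹ * (x * g) * g⁻¹ := by group
        _ = g * (z * x) * g⁻¹ := by rw [← mem_c1.1 hg.2]; group
        _ = _ := by rw [h.hyp.comm, ← mul_assoc, mem_c1.1 hg.2]; group)).resolve_left (H2.CI.conj_ne_one h.hyp.iz.2)))
  have sd : IsSdp P (zpowers x) (P ⊔ zpowers x) := ⟨rfl, xP, le_bot_iff.1 (reg ▸ inf_le_inf_left P (zpowers_le.2 (mem_c1.2 rfl)))⟩
  have := (Frobenius_Wielandt_fixpoint (M := R) ⟨sd, P0, fun e => by simp [e] at cx, fun y ⟨n, hn⟩ y1 => by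
      rcases zp3 h.hyp.cube n with e | e | e <;> rw [← hn] at y1 ⊢ <;> simp only [e] at y1 ⊢
      exacts [absurd rfl y1, reg, reg ▸ congrArg _ (by ext; simp only [mem_c1]; exact Commute.inv_right_iff)]⟩
    (have := hP.pgroup.isNilpotent; inferInstance) (sup_le PR (zpowers_le.2 xR)) (by
      rw [sd.card, hb, hi, cx]
      exact Nat.Coprime.pow_left _ ((Nat.Coprime.pow_right _ (by norm_num)).mul_right (by norm_num)))
    (have := pR.isNilpotent; inferInstance)).2.2 (by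
      by_contra e
      obtain ⟨v, hv, v2, -⟩ := H5.exists_mem_centralizer_of_isPGroup (pR.to_le (inf_le_left : R ⊓ 𝐂(P) ≤ R))
        (pR.to_le (inf_le_left : R ⊓ 𝐂(P) ≤ R)) le_normalizer e
      exact P0 (eq_bot_iff.2 fun g hg => n7 v ⟨by rw [← pow_two, ← v2, pow_orderOf_eq_one], fun e => by simp [e] at v2⟩
        g hg (hv.2 g hg)))
  rw [show R ⊓ 𝐂(zpowers x) = zpowers z from le_antisymm (fun g hg => (mem_z h.hyp.iz).2 (h.hyp.fix pR (RQ.trans h.QH) hg.1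
    (hg.2 x (mem_zpowers x)).symm)) (zpowers_le.2 ⟨zR, by rw [centralizer_zpowers]; exact mem_c1.2 h.hyp.comm⟩),
    h.hyp.iz.card_zpowers, cx] at this
  rw [ha, show a = b + 2 by omega, pow_add, ← hb, this]
  rfl

end C3

theorem T3.card32 [IsSimpleGroup G] (h : T3 z x s Q ⊥) (hZ : ∀ g ∈ Q, Q ≤ 𝐂[g] → g ∈ zpowers z) (hu : u ∈ Q) (u2 : u * u = 1)
    (u1 : u ≠ 1) (uz : u ≠ z) (hn : ∀ g ∈ Q ⊔ zpowers s, g * u * g⁻¹ = u ∨ g * u * g⁻¹ = u * z) : #|Q| = 32 := by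
  have a := C3.am h hZ hu u2 u1 uz hn
  by_cases hX : C3.ncl 𝐍((zpowers z ⊔ zpowers u : Subgroup G)) (zpowers z ⊔ zpowers u ⊔ zpowers (x * u * x⁻¹)) ≤ Q
  · obtain ⟨R, h1, h2, h3, h4⟩ := a.common hX
    exact C3.fin h a.hL a.QT h1 h2 h3 h4
  refine le_antisymm (a.small hX) (not_lt.1 fun e => a.QT ?_)
  have WQ := a.WQ.trans inf_le_left
  have := h.hyp.eight (h.Q2.to_le WQ) (WQ.trans h.QH) (a.HW a.xH) (a.UW a.zU) (a.UW a.uU) fun e => ((mem_z h.hyp.iz).1 e).elim u1 uz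
  exact (h.hyp.four h.Q2 h.QH WQ (a.HW a.xH) (h.HQ a.xH) (a.UW a.zU) (by omega)).ge.trans a.WT

end Cfsg.Agent.WA.Hw
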