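import Cfsg.Agent.WA.HwF

/-! An amalgam of two groups of shape `2-group . S₃`. -/

set_option autoImplicit false
set_option linter.unusedSectionVars false

namespace Cfsg.Agent.WA.Hw.C3

open Subgroup Cfsg.Agent.FT Cfsg.Agent.L0 Cfsg.Agent.H8 Cfsg.Agent.WA.Rw
open Cfsg.Agent.BS (Invo)
open scoped commutatorElement

universe u

variable {G : Type u} [Group G] [Finite G] {a b c g l r z x u w : G} {M S K A B N H L Q T U W : Subgroup G}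

/-- `M / K` is symmetric of degree three with `S / K` of order two -/
structure S3 (M S K : Subgroup G) : Prop where
  KS : K ≤ S
  SM : S ≤ M
  MK : M ≤ 𝐍(K)
  cS : #|S| = 2 * #|K|
  cM : #|M| = 3 * #|S|
  nn : ¬ M ≤ 𝐍(S)

namespace S3

variable (h : S3 M S K)
include h

theorem max (h1 : S ≤ N) (ha : a ∈ M) (a1 : a ∉ S) (aN : a ∈ N) : M ≤ N := by
  have le : S ≤ M ⊓ N := le_inf h.SM h1
  obtain ⟨k, hk⟩ := card_dvd_of_le le
  have d := card_dvd_of_le (inf_le_left : M ⊓ N ≤ M)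
  rw [h.cM, hk, mul_comm 3] at d
  rcases (Nat.dvd_prime Nat.prime_three).1 (Nat.dvd_of_mul_dvd_mul_left (cpos S) d) with rfl | rfl
  · exact absurd ((eq_of_cle le (by omega)).ge ⟨ha, aN⟩) a1
  · exact inf_eq_left.1 (eq_of_cle inf_le_left (by rw [h.cM, hk]; omega))

theorem conj (hg : g ∈ M) : S3 M (cj g S) K :=
  ⟨cj_eq_self (h.MK hg) ▸ cj_mono g h.KS, cj_le_of_mem hg h.SM, h.MK, by rw [card_cj, h.cS], by rw [card_cj, h.cM],
    fun e => h.nn (by rwa [← cj_normalizer, ← cj_eq_self (le_normalizer hg : g ∈ 𝐍(M)), cj_le_cj_iff] at e)⟩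

theorem inf (hg : g ∈ M) (g1 : g ∉ S) (ha : a ∈ S) (hb : g⁻¹ * a * g ∈ S) : a ∈ K := by
  by_contra hn
  have le : K ≤ S ⊓ cj g S := le_inf h.KS (h.conj hg).KS
  have := clt le ⟨ha, mem_cj.2 hb⟩ hn
  have e := eq_of_cle (inf_le_right : S ⊓ cj g S ≤ cj g S) (by rw [card_cj, h.cS]; exact this)
  exact h.nn (h.max le_normalizer hg g1 (mem_normalizer_of_cj_le (inf_eq_right.1 e)))

theorem cos (ha : a ∈ M) (a1 : a ∉ S) (hr : r ∈ S) (r1 : r ∉ K) (hg : g ∈ M) :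
    g ∈ S ∨ a⁻¹ * g ∈ S ∨ (r * a)⁻¹ * g ∈ S := by
  by_contra hn
  push Not at hn
  have c : (S.subgroupOf M).index = 3 := by
    have := relIndex_mul_card_of_le h.SM
    rw [h.cM] at this
    exact Nat.eq_of_mul_eq_mul_right (cpos S) this
  have ne : ∀ {p q : M}, (p : G)⁻¹ * q ∉ S → (p : M ⧸ S.subgroupOf M) ≠ q := fun hh e =>
    hh (mem_subgroupOf.1 (QuotientGroup.eq.1 e))
  have := Set.ncard_le_card ({((1 : M) : M ⧸ S.subgroupOf M), ((⟨a, ha⟩ : M) : M ⧸ S.subgroupOf M),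
    ((⟨r * a, mul_mem (h.SM hr) ha⟩ : M) : M ⧸ S.subgroupOf M), ((⟨g, hg⟩ : M) : M ⧸ S.subgroupOf M)} : Set _)
  rw [← index_eq_card, c, Set.ncard_insert_of_notMem, Set.ncard_insert_of_notMem, Set.ncard_pair (ne hn.2.2)] at this
  · omega
  · rintro (e | e)
    exacts [ne (fun e => r1 (h.inf ha a1 hr (by simpa only [mul_assoc] using e))) e, ne hn.2.1 e]
  · rintro (e | e | e)
    exacts [ne (by simpa using a1) e, ne (by simpa [mul_mem_cancel_left hr] using a1) e, ne (by simpa using hn.1) e]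

theorem push (SA : S ≤ 𝐍(A)) (hl : l ∈ M) (l1 : l ∉ S) (ha : a ∈ S) (a1 : a ∉ K)
    (hc : ∀ b ∈ cj l A, ⁅a, b⁆ ∈ cj l A) : M ≤ 𝐍(A) := by
  have := (h.conj hl).max (N := 𝐍(cj l A)) (cj_normalizer l A ▸ cj_mono l SA) (h.SM ha)
    (fun e => a1 (h.inf hl l1 ha (mem_cj.1 e))) (norm_of fun b hb => by
      simpa [commutatorElement_def] using mul_mem (hc b hb) hb)
  rwa [← cj_normalizer, ← cj_eq_self (le_normalizer hl : l ∈ 𝐍(M)), cj_le_cj_iff] at this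

theorem ex : ∃ l ∈ M, l ∉ S := ex_not_mem (by have := cpos S; rw [h.cM]; omega)

end S3

/-- the subgroup generated by the conjugates -/
def ncl (M K : Subgroup G) : Subgroup G := ⨆ g : M, cj g K

theorem ncl_le (h : ∀ g ∈ M, cj g K ≤ A) : ncl M K ≤ A := iSup_le fun g => h g g.2
theorem le_ncl (hg : g ∈ M) : cj g K ≤ ncl M K := le_iSup (fun g : M => cj (g : G) K) ⟨g, hg⟩
theorem le_ncl' : K ≤ ncl M K := (cj_one K).ge.trans (le_ncl (one_mem M))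
theorem nm_ncl : M ≤ 𝐍(ncl M K) := fun m hm =>
  mem_normalizer_of_cj_le (cj_le_iff.2 (ncl_le fun g hg => cj_le_iff.1 (cj_mul m g K ▸ le_ncl (mul_mem hm hg))))

/-- the intersection of the conjugates -/
def cor (M K : Subgroup G) : Subgroup G := ⨅ g : M, cj g K

theorem mem_cor : a ∈ cor M K ↔ ∀ g ∈ M, g⁻¹ * a * g ∈ K := by simp only [cor, mem_iInf, mem_cj, Subtype.forall]
theorem nm_cor : M ≤ 𝐍(cor M K) := fun m hm => norm_of fun a ha => mem_cor.2 fun g hg => by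
  simpa [mul_assoc] using mem_cor.1 ha (m⁻¹ * g) (mul_mem (inv_mem hm) hg)
theorem le_cor (h1 : M ≤ 𝐍(A)) (h2 : A ≤ K) : A ≤ cor M K := fun _ ha => mem_cor.2 fun _ hg => h2 (conj_mem'' (h1 hg) ha)
theorem cor_le : cor M K ≤ K := fun a ha => by simpa using mem_cor.1 ha 1 (one_mem M)

theorem cjc (g a b : G) : ⁅a, b⁆ = g * ⁅g⁻¹ * a * g, g⁻¹ * b * g⁆ * g⁻¹ := by simp only [commutatorElement_def]; group

theorem cinv (h : ⁅a, b⁆ ∈ A) : ⁅b, a⁆ ∈ A := by rw [← commutatorElement_inv]; exact inv_mem h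

theorem nm_cmod (h1 : g ∈ 𝐍(A)) (h2 : g ∈ 𝐍(B)) : g ∈ 𝐍(Rw.cmod A B) := norm_of fun a ha =>
  ⟨conj_mem' (le_normalizer h1) ha.1, fun b hb => by
    rw [cjc g, show g⁻¹ * (g * a * g⁻¹) * g = a by group]
    exact conj_mem' h1 (ha.2 _ (conj_mem'' h2 hb))⟩

/-- the amalgam -/
structure Am (z x u w : G) (H L S Q T U W : Subgroup G) : Prop where
  hyp : Hyp z x
  Q2 : IsPGroup 2 Q
  hH : S3 H S Q
  hL : S3 L S T
  Hz : H ≤ 𝐂[z]
  xH : x ∈ H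
  xS : x ∉ S
  zU : z ∈ U
  uU : u ∈ U
  LU : L ≤ 𝐍(U)
  cU : #|U| ≤ 4
  eW : W = U ⊔ zpowers w
  w2 : w * w = 1
  WQ : W ≤ Q ⊓ Rw.cmod (zpowers z) Q
  WS : W ≤ Rw.cmod U S
  HW : H ≤ 𝐍(W)
  ab : W ≤ 𝐂(W)
  LH : ∀ l ∈ L, l * z * l⁻¹ ∈ zpowers z → l ∈ S
  Ul : ∀ g ∈ H, ∀ v ∈ U, v ∉ zpowers z → g * v * g⁻¹ ∈ U → g ∈ S
  F4 : ∀ g ∈ S, g * w = w * g → g ∈ Q
  eT : ∀ g ∈ S, g * u = u * g → g ∈ T
  QT : ¬ Q ≤ T
  fq : ∀ a ∈ S, a ∉ Q → ∀ q ∈ Q, ⁅a, q⁆ ∈ zpowers z → ⁅x * a * x⁻¹, q⁆ ∈ zpowers z → q ∈ zpowers z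

namespace Am

variable (h : Am z x u w H L S Q T U W)
include h

theorem UW : U ≤ W := h.eW ▸ le_sup_left
theorem wW : w ∈ W := h.eW ▸ mem_sup_right (mem_zpowers w)
theorem ZU : zpowers z ≤ U := zpowers_le.2 h.zU
theorem QH : Q ≤ H := h.hH.KS.trans h.hH.SM
theorem WT : W ≤ T := fun g hg => h.eT g (h.hH.KS (h.WQ hg).1) (h.ab hg u (h.UW h.uU)).symm
theorem XT : ncl L W ≤ T := ncl_le fun _ hl => cj_le_of_mem_normalizer (h.hL.MK hl) h.WT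

theorem XU (ha : a ∈ ncl L W) (hb : b ∈ T) : ⁅b, a⁆ ∈ U :=
  ((ncl_le fun _ hl => cj_le_of_mem_normalizer (nm_cmod (h.LU hl) (h.hL.MK hl))
    fun g hg => ⟨(h.WS hg).1, fun t ht => (h.WS hg).2 t (h.hL.KS ht)⟩ : ncl L W ≤ Rw.cmod U T) ha).2 b hb

theorem cQ : #|Q| ≤ 2 * #|(Q ⊓ T : Subgroup G)| :=
  cle2 fun _ ha _ hb a1 b1 => idx2 h.hL.KS h.hL.cS.le (h.hH.KS ha) (h.hH.KS hb) a1 b1

theorem small (hX : ¬ ncl L W ≤ Q) : #|Q| ≤ 32 := by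
  obtain ⟨a, ha, a1⟩ := SetLike.not_le_iff_exists.1 hX
  have h1 := cnt_m (e := a) (Y := Q ⊓ T) h.ZU (fun g hg => cz_norm (h.Hz (h.QH hg.1))) fun y hy => cinv (h.XU ha hy.2)
  have h2 := cle (inf_le_inf_right (Rw.cmod (zpowers z) {a}) (inf_le_left : Q ⊓ T ≤ Q))
  have h3 := cnt (Y := Q ⊓ Rw.cmod (zpowers z) {a}) (D := cj x (Q ⊓ Rw.cmod (zpowers z) {a})) (L := Q)
    (K := cj x (Q ⊓ Rw.cmod (zpowers z) {a})) id (cj_le_of_mem_normalizer (h.hH.MK h.xH) inf_le_left) (fun _ e => e.1)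
    fun _ _ _ _ e => e
  have h4 := cle (A := Q ⊓ Rw.cmod (zpowers z) {a} ⊓ cj x (Q ⊓ Rw.cmod (zpowers z) {a})) fun q hq =>
    h.fq a (h.hL.KS (h.XT ha)) a1 q hq.1.1 (hq.1.2.2 a rfl) (by
      rw [cjc x, show x⁻¹ * (x * a * x⁻¹) * x = a by group]
      exact conj_mem' (cz_norm h.hyp.xz) ((mem_cj.1 hq.2).2.2 a rfl))
  have h5 := h.cQ
  have h6 := h.cU
  have h7 := cpos Q
  rw [h.hyp.iz.card_zpowers] at h1 h4
  rw [card_cj] at h3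
  generalize #|(Q ⊓ Rw.cmod (zpowers z) {a} : Subgroup G)| = n at *
  have h8 : #|Q| ≤ 4 * n := by nlinarith
  have h9 : n * n ≤ #|Q| * 2 := by nlinarith
  nlinarith

theorem common (hX : ncl L W ≤ Q) : ∃ R, z ∈ R ∧ R ≤ Q ∧ H ≤ 𝐍(R) ∧ L ≤ 𝐍(R) := by
  by_contra hno
  replace hno : ∀ R, z ∈ R → R ≤ Q → H ≤ 𝐍(R) → L ≤ 𝐍(R) → False := fun R a b c d => hno ⟨R, a, b, c, d⟩
  have iz := h.hyp.iz
  have SH := h.hH.SM
  have SL := h.hL.SM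
  have XD : ncl L W ≤ cor L Q := le_cor nm_ncl hX
  have WD : W ≤ cor L Q := le_ncl'.trans XD
  have HZ : H ≤ 𝐍((Q ⊓ Rw.cmod (zpowers z) Q : Subgroup G)) := fun g hg =>
    inf_normalizer_le_normalizer_inf ⟨h.hH.MK hg, nm_cmod (cz_norm (h.Hz hg)) (h.hH.MK hg)⟩
  have K : ∀ g a b : G, g⁻¹ * a * g ∈ Q ⊓ Rw.cmod (zpowers z) Q → g⁻¹ * b * g ∈ Q → ⁅b, a⁆ = 1 ∨ ⁅b, a⁆ = g * z * g⁻¹ :=
    fun g a b ha hb => by
      rcases (mem_z iz).1 (ha.2.2 _ hb) with e | e <;> rw [cjc g, e] <;> simp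
  have A : ncl L W ≤ 𝐂(W) := ncl_le fun l hl a ha b hb => by
    by_cases e : l ∈ S
    · exact h.ab (cj_le_of_mem_normalizer (h.HW (SH e)) le_rfl ha) b hb
    refine comm1.1 ((K l a b (h.WQ (mem_cj.1 ha)) (mem_cor.1 (WD hb) l hl)).resolve_right fun e' => e (h.LH l hl ?_))
    exact e' ▸ cinv ((h.WQ hb).2.2 a (hX (le_ncl hl ha)))
  have A' : ∀ g ∈ H, ∀ a ∈ ncl L W, g * a * g⁻¹ ∈ Q ⊓ T := fun g hg a ha => by
    have m := conj_mem' (h.hH.MK hg) (hX ha)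
    exact ⟨m, h.eT _ (h.hH.KS m) ((conj_mem' (H7.normalizer_le_normalizer_centralizer W (h.HW hg)) (A ha)) u
      (h.UW h.uU)).symm⟩
  obtain ⟨r, rQ, rx, rT⟩ : ∃ r ∈ Q, x⁻¹ * r⁻¹ * x ∈ T ∧ r ∉ T := by
    by_contra hn
    push Not at hn
    have xn : x ∈ 𝐍((Q ⊓ T : Subgroup G)) := norm_of fun a ha => by
      have m := conj_mem' (h.hH.MK h.xH) ha.1
      exact ⟨m, (inv_mem_iff (H := T)).1 (hn _ (inv_mem m) (by simpa [mul_assoc] using (ha.2 : a ∈ T)))⟩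
    have := h.hyp.four h.Q2 (h.QH.trans h.Hz) inf_le_left xn (h.hH.MK h.xH) ⟨(h.WQ (h.UW h.zU)).1, h.WT (h.UW h.zU)⟩
      (by have := h.cQ; have := cpos (Q ⊓ T); omega)
    exact h.QT (inf_eq_left.1 this)
  have Bx : cj x (ncl L W) ≤ cor L Q := cj_le_iff.2 (ncl_le fun l hl => cj_le_iff.1 (by
    by_cases e : l ∈ S
    · rwa [cj_eq_self (h.HW (SH e)), cj_eq_self (h.HW h.xH)]
    rw [h.eW, cj_sup, cj_eq_self (h.LU hl), cj_sup]
    refine sup_le ((cj_le_of_mem_normalizer (h.HW h.xH) h.UW).trans WD) ?_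
    rw [← cj_mul, cj, MonoidHom.map_zpowers, zpowers_le]
    have aX : l * w * l⁻¹ ∈ ncl L W := le_ncl hl (conj_mem_cj l h.wW)
    have m := A' x h.xH _ aX
    have c := h.hyp.ucomm h.Q2 (h.QH.trans h.Hz) (h.hH.MK h.xH) (hX aX) (by
      rw [show l * w * l⁻¹ * (l * w * l⁻¹) = l * (w * w) * l⁻¹ by group, h.w2]; simp)
    have m1 : l⁻¹ * (x * (l * w * l⁻¹) * x⁻¹) * l ∈ Q := h.F4 _ (h.hL.KS (conj_mem'' (h.hL.MK hl) m.2)) (by
      calc _ = l⁻¹ * (x * (l * w * l⁻¹) * x⁻¹ * (l * w * l⁻¹)) * l := by group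
        _ = _ := by rw [← c]; group)
    have m2 : ⁅r⁻¹, x * (l * w * l⁻¹) * x⁻¹⁆ ∈ W := by
      rw [cjc x, show x⁻¹ * (x * (l * w * l⁻¹) * x⁻¹) * x = l * w * l⁻¹ by group]
      exact conj_mem' (h.HW h.xH) (h.UW (h.XU aX rx))
    change x * l * w * (x * l)⁻¹ ∈ _
    rw [show x * l * w * (x * l)⁻¹ = x * (l * w * l⁻¹) * x⁻¹ by group]
    generalize x * (l * w * l⁻¹) * x⁻¹ = g at *
    refine mem_cor.2 fun k hk => ?_
    rcases h.hL.cos hl e (h.hH.KS rQ) rT hk with e' | e' | e'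
    · exact conj_mem'' (h.hH.MK (SH e')) m.1
    · simpa [mul_assoc] using conj_mem'' (h.hH.MK (SH e')) m1
    · simpa [commutatorElement_def, mul_assoc] using
        conj_mem'' (h.hH.MK (SH e')) (mul_mem (mem_cor.1 (WD m2) l hl) m1)))
  have B : ∀ g ∈ H, cj g (ncl L W) ≤ cor L Q := fun g hg => by
    obtain ⟨s, hs, s1⟩ : ∃ s ∈ S, s ∉ Q := ex_not_mem (by have := cpos Q; rw [h.hH.cS]; omega)
    rcases h.hH.cos h.xH h.xS hs s1 hg with e | e | e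
    · rwa [cj_eq_self (nm_ncl (SL e))]
    · rwa [show g = x * (x⁻¹ * g) by group, cj_mul, cj_eq_self (nm_ncl (SL e))]
    · rw [show g = s * (x * ((s * x)⁻¹ * g)) by group, cj_mul, cj_mul, cj_eq_self (nm_ncl (SL e))]
      exact cj_le_of_mem_normalizer (nm_cor (SL hs)) Bx
  obtain ⟨l0, hl0, l1⟩ := h.hL.ex
  have C : Q ⊓ Rw.cmod (zpowers z) Q ≤ T := fun a ha => by
    by_contra a1
    refine hno W (h.UW h.zU) (h.WQ.trans inf_le_left) h.HW (h.hL.push (SH.trans h.HW) hl0 l1 (h.hH.KS ha.1) a1 fun b hb => ?_)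
    exact cj_mono l0 h.UW ((cj_eq_self (h.LU hl0)).ge (h.ZU (cinv (ha.2.2 b (hX (le_ncl hl0 hb))))))
  have zl : ∀ l ∈ L, l * z * l⁻¹ ∈ U := fun l hl => conj_mem' (h.LU hl) h.zU
  have D : ncl L (Q ⊓ Rw.cmod (zpowers z) Q) ≤ Q := ncl_le fun l hl a ha => by
    by_contra a1
    refine hno (ncl L W) (le_ncl' (h.UW h.zU)) hX (h.hH.push (SL.trans nm_ncl) h.xH h.xS
      (h.hL.KS (cj_le_of_mem_normalizer (h.hL.MK hl) C ha)) a1 fun b hb => cinv ?_) nm_ncl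
    rcases K l a b (mem_cj.1 ha) (mem_cor.1 (Bx hb) l hl) with e | e <;> rw [e]
    · exact one_mem _
    · exact cj_mono x le_ncl' ((cj_eq_self (h.HW h.xH)).ge (h.UW (zl l hl)))
  have D' := le_cor nm_ncl D
  have E : ncl H (ncl L (Q ⊓ Rw.cmod (zpowers z) Q)) ≤ cor L Q := ncl_le fun g hg => by
    by_cases e : g ∈ S
    · rwa [cj_eq_self (nm_ncl (SL e))]
    refine cj_le_iff.2 (ncl_le fun l hl => cj_le_iff.1 ?_)
    by_cases e' : l ∈ S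
    · rw [cj_eq_self (HZ (SH e')), cj_eq_self (HZ hg)]
      exact le_ncl'.trans D'
    intro a ha
    have aQ : a ∈ Q := cj_le_of_mem_normalizer (h.hH.MK hg) ((le_ncl hl).trans D) ha
    rw [← cj_mul] at ha
    have c : ∀ b ∈ ncl L W, ⁅b, a⁆ ∈ U → b * a = a * b := fun b hb m => by
      refine comm1.1 ((K (g * l) a b (mem_cj.1 ha) ?_).resolve_right fun e1 => e (h.Ul g hg _ (zl l hl)
        (fun e2 => e' (h.LH l hl e2)) ?_))
      · simpa [mul_assoc] using mem_cor.1 (B _ (inv_mem hg) (conj_mem_cj g⁻¹ hb)) l hl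
      · simpa [e1, mul_assoc] using m
    have aT := h.eT a (h.hH.KS aQ) (c u (le_ncl' (h.UW h.uU)) (h.ZU (cinv ((h.WQ (h.UW h.uU)).2.2 a aQ)))).symm
    refine mem_cor.2 fun k hk => h.F4 _ (h.hL.KS (conj_mem'' (h.hL.MK hk) aT)) ?_
    have bX : k * w * k⁻¹ ∈ ncl L W := le_ncl hk (conj_mem_cj k h.wW)
    calc _ = k⁻¹ * (a * (k * w * k⁻¹)) * k := by group
      _ = _ := by rw [← c _ bX (cinv (h.XU bX aT))]; group
  refine hno _ (le_ncl' (le_ncl' (h.WQ (h.UW h.zU)))) (E.trans cor_le) nm_ncl (h.hL.max (SH.trans nm_ncl)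
    (conj_mem' (le_normalizer hl0) (SL (h.hH.KS rQ))) (fun e => rT (h.hL.inf (inv_mem hl0) (mt inv_mem_iff.1 l1)
      (h.hH.KS rQ) (by rwa [inv_inv]))) (norm_of fun b hb => ?_))
  have bQ := mem_cor.1 (E hb) l0 hl0
  have m : ⁅r, l0⁻¹ * b * l0⁆ ∈ Q := comm_mem_r (le_normalizer rQ) bQ
  have := conj_mem_cj l0 (show _ ∈ Q ⊓ Rw.cmod (zpowers z) Q from ⟨m, cz_norm (h.Hz (h.QH m)), fun q hq =>
    (h.hyp.fm h.Q2 (h.QH.trans h.Hz) (h.hH.MK h.xH)).cls bQ rQ hq⟩)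
  simpa [commutatorElement_def, mul_assoc] using mul_mem (le_ncl' (le_ncl hl0 this)) hb

end Am

end Cfsg.Agent.WA.Hw.C3
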