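import Cfsg.Agent.WA.HwC3a
import Cfsg.Agent.H2.CIT3

/-! The amalgam of `C(z)` and the normalizer of a four-subgroup. -/

set_option autoImplicit false
set_option linter.unusedSectionVars false

namespace Cfsg.Agent.WA.Hw.C3

open Subgroup Cfsg.Agent.FT Cfsg.Agent.L0 Cfsg.Agent.H8 Cfsg.Agent.WA.Rw
open Cfsg.Agent.BS (Invo)
open scoped commutatorElement

universe u

variable {G : Type u} [Group G] [Finite G] {g z x s u : G} {P Q : Subgroup G}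

theorem not_mem2 (h : Hyp z x) (hP : IsPGroup 2 P) : x ∉ P := fun e => by
  obtain ⟨k, hk⟩ := hP.exists_card_eq
  have := orderOf_dvd_natCard _ e
  rw [h.x3, hk] at this
  exact absurd (Nat.prime_three.dvd_of_dvd_pow this) (by norm_num)

theorem s3 (h : T3 z x s Q ⊥) : S3 𝐂[z] (Q ⊔ zpowers s) Q ∧ IsPGroup 2 ↥(Q ⊔ zpowers s) := by
  have e : ⁅x, s⁆ = x⁻¹ := by
    rw [show ⁅x, s⁆ = x * (s * x * s⁻¹)⁻¹ by simp only [commutatorElement_def]; group, h.sx, inv_inv, h.hyp.sq]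
  have c := H2.CI.card_sup_zp (h.HQ h.sH) (fun hs => not_mem2 h.hyp h.Q2 (inv_mem_iff.1 (e ▸ comm_mem_r (h.HQ h.hyp.xz) hs)))
    (zpowers_le.2 h.zQ h.ss)
  obtain ⟨k, hk⟩ := h.Q2.exists_card_eq
  have p : IsPGroup 2 ↥(Q ⊔ zpowers s) := IsPGroup.of_card (n := k + 1) (by rw [c, hk, pow_succ'])
  exact ⟨⟨le_sup_left, sup_le h.QH (zpowers_le.2 h.sH), h.HQ, c, by rw [h.card, c, card_bot]; ring, fun n =>
    not_mem2 h.hyp p (inv_mem_iff.1 (e ▸ comm_mem_r (n h.hyp.xz) (mem_sup_right (mem_zpowers s))))⟩, p⟩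

theorem am (h : T3 z x s Q ⊥) (hZ : ∀ g ∈ Q, Q ≤ 𝐂[g] → g ∈ zpowers z) (hu : u ∈ Q) (u2 : u * u = 1)
    (u1 : u ≠ 1) (uz : u ≠ z) (hn : ∀ g ∈ Q ⊔ zpowers s, g * u * g⁻¹ = u ∨ g * u * g⁻¹ = u * z) :
    Am z x u (x * u * x⁻¹) 𝐂[z] 𝐍((zpowers z ⊔ zpowers u : Subgroup G)) (Q ⊔ zpowers s) Q
      𝐂((zpowers z ⊔ zpowers u : Subgroup G)) (zpowers z ⊔ zpowers u) (zpowers z ⊔ zpowers u ⊔ zpowers (x * u * x⁻¹)) := by
  haveI := Fact.mk Nat.prime_two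
  obtain ⟨hH, pS⟩ := s3 h
  have sS : s ∈ Q ⊔ zpowers s := mem_sup_right (mem_zpowers s)
  have iz := h.hyp.iz
  have f := h.hyp.fm h.Q2 h.QH (h.HQ h.hyp.xz)
  have xS := not_mem2 h.hyp pS
  have uZ : u ∉ zpowers z := fun e => ((mem_z iz).1 e).elim u1 uz
  have zu : u * z = z * u := mem_c1.1 (h.QH hu)
  have zU : z ∈ zpowers z ⊔ zpowers u := mem_sup_left (mem_zpowers z)
  have uU : u ∈ zpowers z ⊔ zpowers u := mem_sup_right (mem_zpowers u)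
  have mU : ∀ v ∈ zpowers z ⊔ zpowers u, v ∈ zpowers z ∨ v = u ∨ v = u * z := fun v hv => by
    rw [sup_comm] at hv
    obtain ⟨a, ha, b, hb, rfl⟩ := (mem_sup' (zpowers_le.2 (cz_norm (h.QH hu)))).1 hv
    rcases mem_z' u2 ha with rfl | rfl
    · exact Or.inl (by rwa [one_mul])
    · rcases mem_z' iz.1 hb with rfl | rfl <;> simp
  have nU : ∀ g : G, g * z * g⁻¹ ∈ zpowers z ⊔ zpowers u → g * u * g⁻¹ ∈ zpowers z ⊔ zpowers u →
      cj g (zpowers z ⊔ zpowers u) ≤ zpowers z ⊔ zpowers u := fun g a b => by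
    rw [cj_sup, cj, cj, MonoidHom.map_zpowers, MonoidHom.map_zpowers]
    exact sup_le (zpowers_le.2 a) (zpowers_le.2 b)
  have cU : ∀ g : G, g ∈ 𝐂((zpowers z ⊔ zpowers u : Subgroup G)) ↔ g * z = z * g ∧ g * u = u * g := fun g =>
    ⟨fun e => ⟨(e z zU).symm, (e u uU).symm⟩, fun e v hv => mem_c1.1 (sup_le (zpowers_le.2 (mem_c1.2 e.1.symm))
      (zpowers_le.2 (mem_c1.2 e.2.symm)) hv)⟩
  have c4 : #|(zpowers z ⊔ zpowers u : Subgroup G)| = 4 := by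
    rw [H2.CI.card_sup_zp (cz_norm (h.QH hu)) uZ (u2 ▸ one_mem _), iz.card_zpowers]
  have UQ : zpowers z ⊔ zpowers u ≤ Q := sup_le (zpowers_le.2 h.zQ) (zpowers_le.2 hu)
  set U := zpowers z ⊔ zpowers u
  set S := Q ⊔ zpowers s
  have fz : ∀ g ∈ 𝐂[z], g * z * g⁻¹ = z := fun g hg => mul_inv_eq_iff_eq_mul.2 (mem_c1.1 hg)
  have SU : S ≤ 𝐍(U) := fun g hg => mem_normalizer_of_cj_le (nU g ((fz g (hH.SM hg)).symm ▸ zU) (by
    rcases hn g hg with e | e <;> rw [e]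
    exacts [uU, mul_mem uU zU]))
  have cm : ∀ g : G, g * u * g⁻¹ = u ∨ g * u * g⁻¹ = u * z → ⁅u, g⁆ ∈ zpowers z := fun g e => cinv (by
    rcases e with e | e <;> rw [commutatorElement_def, e]
    · simp
    · simp [zu])
  have HU : ∀ g ∈ 𝐂[z], ⁅u, g⁆ ∈ zpowers z → g ∈ S := fun g hg e => by
    by_contra g1
    have := hH.max (N := Rw.cmod (zpowers z) {u}) (fun a ha => mem_cmod_single.2 ⟨cz_norm (hH.SM ha), cm a (hn a ha)⟩) hg g1
      (mem_cmod_single.2 ⟨cz_norm hg, e⟩) h.hyp.xz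
    exact uZ (f.fpf u hu (cinv (mem_cmod_single.1 this).2))
  have Ul : ∀ g ∈ 𝐂[z], ∀ v ∈ U, v ∉ zpowers z → g * v * g⁻¹ ∈ U → g ∈ S := fun g hg v hv v1 e => by
    have e1 := (mU _ e).resolve_left fun e => v1 (by simpa [mul_assoc] using conj_mem'' (cz_norm hg) e)
    refine HU g hg (cm g ?_)
    rcases (mU v hv).resolve_left v1 with rfl | rfl
    · exact e1
    · rw [show g * (u * z) * g⁻¹ = g * u * g⁻¹ * (g * z * g⁻¹) by group, fz g hg] at e1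
      exact e1.symm.imp mul_right_cancel fun e => mul_right_cancel (e.trans (by rw [mul_assoc, iz.1, mul_one]))
  have TS : 𝐂(U) ≤ S := fun g hg => HU g (mem_c1.2 ((cU g).1 hg).1) (by rw [comm1.2 ((cU g).1 hg).2.symm]; exact one_mem _)
  have eT : ∀ g ∈ S, g * u = u * g → g ∈ 𝐂(U) := fun g hg e => (cU g).2 ⟨mem_c1.1 (hH.SM hg), e⟩
  obtain ⟨r, rQ, rT⟩ : ∃ r ∈ Q, r ∉ 𝐂(U) := SetLike.not_le_iff_exists.1 fun e => uZ (hZ u hu fun g hg =>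
    mem_c1.2 ((cU g).1 (e hg)).2)
  have mv : ∀ g ∈ S, g ∉ 𝐂(U) → g * u * g⁻¹ = u * z := fun g hg g1 =>
    (hn g hg).resolve_left fun e => g1 (eT g hg (mul_inv_eq_iff_eq_mul.1 e))
  have rS := hH.KS rQ
  have ru := mv r rS rT
  have cS : #|S| = 2 * #|𝐂(U)| := by
    have := cle2 (B := S) (A := 𝐂(U)) fun a ha b hb a1 b1 => eT _ (mul_mem ha hb) (mul_inv_eq_iff_eq_mul.1 (by
      calc _ = a * (b * u * b⁻¹) * a⁻¹ := by group
        _ = a * u * a⁻¹ * (a * z * a⁻¹) := by rw [mv b hb b1]; group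
        _ = u := by rw [mv a ha a1, fz a (hH.SM ha), mul_assoc, iz.1, mul_one]))
    rw [inf_eq_right.2 TS] at this
    exact le_antisymm this (clt TS rS rT)
  have cQ : ∀ c ∈ S, 𝐂(U) ≤ 𝐂[c] → r * c * r⁻¹ = c → c ∈ zpowers z := fun c hc h1 h2 => by
    have Sc : S ≤ 𝐂[c] := fun g hg => by
      by_cases e : g ∈ 𝐂(U)
      · exact h1 e
      · obtain ⟨d, hd, rfl⟩ := idx2' TS cS.le rS hg rT e
        exact mul_mem (mem_c1.2 (mul_inv_eq_iff_eq_mul.1 h2)) (h1 hd)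
    refine hZ c (hH.inf h.hyp.xz xS hc (HU _ (conj_mem'' (le_normalizer h.hyp.xz) (hH.SM hc)) ?_)) (hH.KS.trans Sc)
    rw [cjc x⁻¹, inv_inv, show x * (x⁻¹ * c * x) * x⁻¹ = c by group, comm1.2 (mem_c1.1 (Sc (hH.KS (f.cj u hu))))]
    simp
  obtain ⟨t, tU, tz⟩ : ∃ t ∈ 𝐍(U), t * z * t⁻¹ = u * z := by
    have Tu : 𝐂(U) ≤ 𝐂[u] := fun g hg => mem_c1.2 ((cU g).1 hg).2
    obtain ⟨P, hP, hle⟩ := exists_isSylowIn_ge (pS.to_le TS) Tu
    have lt : 𝐂(U) < P := lt_of_le_of_ne hle fun e => by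
      have h1 := hP.not_dvd_relIndex
      have h2 := relIndex_mul_card_of_le hP.le
      rw [← H6.card_centralizer_eq_of_isConj (h.hyp.one z u h.hyp.z2 (orderOf_eq_prime (by rwa [pow_two]) u1)), hH.cM, cS,
        e, ← mul_assoc] at h2
      rw [Nat.eq_of_mul_eq_mul_right (cpos P) h2] at h1
      omega
    obtain ⟨t, ht, t1⟩ := SetLike.exists_of_lt (lt_inf_normalizer_of_pgroup hP.pgroup lt)
    have tu : t * u * t⁻¹ = u := mul_inv_eq_iff_eq_mul.2 (mem_c1.1 (hP.le ht.1))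
    have zT : z ∈ 𝐂(U) ⊓ 𝐂(𝐂(U)) := ⟨(cU z).2 ⟨rfl, zu.symm⟩, fun g hg => ((cU g).1 hg).1⟩
    have nn : ∀ g ∈ 𝐍(𝐂(U)), g ∈ 𝐍((𝐂(U) ⊓ 𝐂(𝐂(U)) : Subgroup G)) := fun g hg =>
      inf_normalizer_le_normalizer_inf ⟨hg, H7.normalizer_le_normalizer_centralizer _ hg⟩
    have vT := conj_mem' (nn t ht.2) zT
    have v2 := GS.G0.sq_conj iz.1 t
    have vz : t * z * t⁻¹ ∉ zpowers z := fun e => ((mem_z iz).1 e).elim (H2.CI.conj_ne_one iz.2) fun e =>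
      t1 ((cU t).2 ⟨mul_inv_eq_iff_eq_mul.1 e, mul_inv_eq_iff_eq_mul.1 tu⟩)
    have vu : t * z * t⁻¹ ≠ u := fun e => uz (by rw [← tu] at e; simpa using e.symm)
    have vU : t * z * t⁻¹ ∈ U := by
      generalize t * z * t⁻¹ = v at *
      have v'T := conj_mem' (nn r (H7.normalizer_le_normalizer_centralizer _ (SU rS))) vT
      have cc : ∀ a ∈ 𝐂(U) ⊓ 𝐂(𝐂(U)), 𝐂(U) ≤ 𝐂[a] := fun a ha g hg => mem_c1.2 (ha.2 g hg)
      have := cQ _ (TS (mul_mem vT v'T).1) (cc _ (mul_mem vT v'T)) (by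
        calc _ = r * v * r⁻¹ * (r * r * v * (r * r)⁻¹) := by group
          _ = _ := by rw [vT.2 _ (idx2 TS cS.le rS rS rT rT), mul_inv_cancel_right, vT.2 _ v'T.1])
      have e : r * v * r⁻¹ = v * (v * (r * v * r⁻¹)) := by rw [← mul_assoc v, v2, one_mul]
      rcases (mem_z iz).1 this with e' | e' <;> rw [e'] at e
      · exact absurd (cQ v (TS vT.1) (cc v vT) (by rw [e, mul_one])) vz
      · have uT : u ∈ 𝐂(U) ⊓ 𝐂(𝐂(U)) := ⟨(cU u).2 ⟨zu, rfl⟩, fun g hg => ((cU g).1 hg).2⟩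
        have := cQ _ (TS (mul_mem vT uT).1) (cc _ (mul_mem vT uT)) (by
          calc _ = r * v * r⁻¹ * (r * u * r⁻¹) := by group
            _ = v * (z * z) * u := by rw [e, ru, zu]; group
            _ = _ := by rw [iz.1, mul_one])
        simpa using mul_mem (le_sup_left (b := zpowers u) this) (inv_mem uU)
    exact ⟨t, mem_normalizer_of_cj_le (nU t vU (tu.symm ▸ uU)), ((mU _ vU).resolve_left vz).resolve_left vu⟩
  have LH : ∀ l ∈ 𝐍(U), l ∈ 𝐂[z] → l ∈ S := fun l hl e => Ul l e u uU uZ (conj_mem' hl uU)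
  have cL : #|𝐍(U)| = 3 * #|S| := by
    have o := H2.CI.card_orbit 𝐍(U) z
    rw [show 𝐍(U) ⊓ H2.CI.Ce z = S from le_antisymm (fun l hl => LH l hl.1 hl.2) (le_inf SU hH.SM),
      show {y | ∃ g ∈ 𝐍(U), g * z * g⁻¹ = y} = {z, u, u * z} from Set.ext fun y => ⟨?_, ?_⟩,
      Set.ncard_eq_three.2 ⟨_, _, _, uz.symm, fun e => u1 (by simpa using e), fun e => iz.2 (by simpa using e), rfl⟩] at o
    · rw [o, mul_comm]
    · rintro ⟨g, hg, rfl⟩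
      exact (mU _ (conj_mem' hg zU)).imp_left fun e => ((mem_z iz).1 e).resolve_left (H2.CI.conj_ne_one iz.2)
    · rintro (rfl | rfl | rfl)
      · exact ⟨1, one_mem _, by simp⟩
      · refine ⟨r * t, mul_mem (SU rS) tU, ?_⟩
        calc _ = r * (t * z * t⁻¹) * r⁻¹ := by group
          _ = r * y * r⁻¹ * (r * z * r⁻¹) := by rw [tz]; group
          _ = y := by rw [ru, fz r (hH.SM rS), mul_assoc, iz.1, mul_one]
      · exact ⟨t, tU, tz⟩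
  have wQ := f.cj u hu
  have w2 := GS.G0.sq_conj u2 x
  have wT : x * u * x⁻¹ ∈ 𝐂(U) := eT _ (hH.KS wQ) (h.hyp.ucomm h.Q2 h.QH (h.HQ h.hyp.xz) hu u2).symm
  have wU : x * u * x⁻¹ ∉ U := fun e => xS (Ul x h.hyp.xz u uU uZ e)
  have c8 := H2.CI.card_sup_zp (c_le_n wT) wU (w2 ▸ one_mem _)
  have wW : x * u * x⁻¹ ∈ U ⊔ zpowers (x * u * x⁻¹) := mem_sup_right (mem_zpowers _)
  have uZ2 : u ∈ Q ⊓ Rw.cmod (zpowers z) Q := ⟨hu, cz_norm (h.QH hu), fun g hg => cinv (cm g (hn g (hH.KS hg)))⟩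
  have WQ : U ⊔ zpowers (x * u * x⁻¹) ≤ Q ⊓ Rw.cmod (zpowers z) Q := sup_le (sup_le (zpowers_le.2 ⟨h.zQ, cz_norm (h.QH h.zQ),
    fun g hg => by rw [comm1.2 (mem_c1.1 (h.QH hg))]; exact one_mem _⟩) (zpowers_le.2 uZ2)) (zpowers_le.2 (conj_mem'
      (inf_normalizer_le_normalizer_inf ⟨h.HQ h.hyp.xz, nm_cmod f.wD (h.HQ h.hyp.xz)⟩) uZ2))
  have ab : U ⊔ zpowers (x * u * x⁻¹) ≤ 𝐂((U ⊔ zpowers (x * u * x⁻¹) : Subgroup G)) := by
    have : ∀ a ∈ 𝐂(U), a * (x * u * x⁻¹) = x * u * x⁻¹ * a → a ∈ 𝐂((U ⊔ zpowers (x * u * x⁻¹) : Subgroup G)) :=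
      fun a ha e b hb => mem_c1.1 (sup_le (fun g hg => mem_c1.2 (ha g hg)) (zpowers_le.2 (mem_c1.2 e.symm)) hb)
    exact sup_le (sup_le (zpowers_le.2 (this z ((cU z).2 ⟨rfl, zu.symm⟩) (wT z zU)))
      (zpowers_le.2 (this u ((cU u).2 ⟨zu, rfl⟩) (wT u uU)))) (zpowers_le.2 (this _ wT rfl))
  have kW : x⁻¹ * u * x ∈ U ⊔ zpowers (x * u * x⁻¹) :=
    (mul_mem_cancel_left (mul_mem (mem_sup_left uU) wW)).1 (mem_sup_left (mem_sup_left (f.rel hu)))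
  have nW : ∀ g : G, cj g U ≤ U ⊔ zpowers (x * u * x⁻¹) → g * (x * u * x⁻¹) * g⁻¹ ∈ U ⊔ zpowers (x * u * x⁻¹) →
      g ∈ 𝐍((U ⊔ zpowers (x * u * x⁻¹) : Subgroup G)) := fun g a b => mem_normalizer_of_cj_le (by
    rw [cj_sup, cj, cj, MonoidHom.map_zpowers]
    exact sup_le a (zpowers_le.2 b))
  have SW : S ≤ 𝐍((U ⊔ zpowers (x * u * x⁻¹) : Subgroup G)) := sup_le (fun g hg => norm_of fun b hb => by
      simpa [commutatorElement_def] using mul_mem (mem_sup_left (mem_sup_left ((WQ hb).2.2 g hg))) hb)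
    (zpowers_le.2 (nW s ((cj_eq_self (SU sS)).le.trans le_sup_left) (by
      rw [show s * (x * u * x⁻¹) * s⁻¹ = s * x * s⁻¹ * (s * u * s⁻¹) * (s * x * s⁻¹)⁻¹ by group, h.sx, inv_inv]
      rcases hn s sS with e | e <;> rw [e]
      · exact kW
      · rw [show x⁻¹ * (u * z) * x = x⁻¹ * u * x * (x⁻¹ * (z * x)) by group, h.hyp.comm, inv_mul_cancel_left]
        exact mul_mem kW (mem_sup_left zU))))
  refine ⟨h.hyp, h.Q2, hH, ⟨TS, SU, H7.normalizer_le_normalizer_centralizer _, cS, cL, fun n => rT (eT r rS ?_)⟩, le_rfl,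
    h.hyp.xz, xS, zU, uU, le_rfl, c4.le, rfl, w2, WQ, sup_le (fun g hg => ⟨le_normalizer hg, fun a ha => comm_mem_r (SU ha) hg⟩)
      (zpowers_le.2 ⟨c_le_n wT, fun g hg => idx2 le_sup_left c8.le (conj_mem' (SW hg) wW) (inv_mem wW) (fun e => wU (by
        simpa [mul_assoc] using conj_mem'' (SU hg) e)) (mt inv_mem_iff.1 wU)⟩), hH.max SW h.hyp.xz xS (nW x ?_ ?_), ab,
    fun l hl e => LH l hl (mem_c1.2 (mul_inv_eq_iff_eq_mul.1 (((mem_z iz).1 e).resolve_left (H2.CI.conj_ne_one iz.2)))), Ul,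
    fun g hg e => hH.inf h.hyp.xz xS hg (HU _ (conj_mem'' (le_normalizer h.hyp.xz) (hH.SM hg)) ?_), eT, fun e => rT (e rQ),
    fun a ha a1 q hq h1 h2 => ?_⟩
  · have := mem_c1.1 (hH.SM (conj_mem'' (n tU) rS))
    have e : r * (u * z) = u * z * r := by
      calc _ = t * (t⁻¹ * r * t * z) * t⁻¹ := by rw [← tz]; group
        _ = _ := by rw [this, ← tz]; group
    rw [mul_assoc u, ← mem_c1.1 (hH.SM rS), ← mul_assoc, ← mul_assoc] at e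
    exact mul_right_cancel e
  · rw [cj_sup, cj, cj, MonoidHom.map_zpowers, MonoidHom.map_zpowers]
    exact sup_le (zpowers_le.2 ((fz x h.hyp.xz).symm ▸ mem_sup_left zU : x * z * x⁻¹ ∈ _)) le_sup_right
  · rwa [show x * (x * u * x⁻¹) * x⁻¹ = x * x * u * (x * x)⁻¹ by group, h.hyp.sq, inv_inv]
  · rw [cjc x⁻¹, inv_inv, show x * (x⁻¹ * g * x) * x⁻¹ = g by group, comm1.2 e.symm]
    simp
  · have s1 : s ∉ Q := fun e => a1 (sup_le le_rfl (zpowers_le.2 e) ha)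
    obtain ⟨c, hc, rfl⟩ := idx2' hH.KS hH.cS.le sS ha s1 a1
    obtain ⟨g, hg, e⟩ := f.surj (conj_mem' (h.HQ h.sH) (comm_mem_l (h.HQ h.hyp.xz) hc))
    have m : ∀ b ∈ 𝐂[z], ⁅b, q⁆ ∈ zpowers z → b ∈ Rw.cmod (zpowers z) {q} := fun b hb e =>
      mem_cmod_single.2 ⟨cz_norm hb, cinv e⟩
    have m1 := mul_mem (m _ (hH.SM ha) h1) (inv_mem (m _ (conj_mem' (le_normalizer h.hyp.xz) (hH.SM ha)) h2))
    have m2 := m _ (zpowers_le.2 (mem_c1.2 rfl) e) (by rw [comm1.2 (zc e (h.QH hq)).symm]; exact one_mem _)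
    rw [show s * c * (x * (s * c) * x⁻¹)⁻¹ = s * ⁅c, x⁆ * s⁻¹ * (s * x * s⁻¹ * x⁻¹) by simp only [commutatorElement_def]; group,
      h.sx, ← mul_inv_rev, h.hyp.sq, inv_inv] at m1
    have m3 := (mem_cmod_single.1 (inv_mem_iff.1 ((mul_mem_cancel_right m1).1 m2))).2
    have := f.fpf _ (conj_mem' (le_normalizer hg) hq) (cinv (by
      rw [cjc g, show g⁻¹ * (g * q * g⁻¹) * g = q by group]
      exact conj_mem' (cz_norm (h.QH hg)) m3))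
    simpa [mul_assoc] using conj_mem'' (cz_norm (h.QH hg)) this

end Cfsg.Agent.WA.Hw.C3
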