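import Cfsg.Agent.WA.HwC4a

/-! Module C4 of the Hayden-Winter theorem: `Q` does not have order 32. -/

set_option autoImplicit false
set_option linter.unusedSectionVars false
set_option linter.unusedVariables false

namespace Cfsg.Agent.WA.Hw

open Subgroup Cfsg.Agent.FT Cfsg.Agent.L0 Cfsg.Agent.H8 Cfsg.Agent.WA.Rw
open Cfsg.Agent.BS (Invo)
open Cfsg.Agent.H2.SC (omZ mem_omZ omZ_le le_cent_omZ omZ_ne_bot norm_omZ cj_omZ)
open scoped commutatorElement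

universe u

section
variable {G : Type u} [Group G] [Finite G] {z x s u a b c e g q k v w : G} {Q O S B E : Subgroup G}

/-- a self-normalizing elementary abelian Sylow subgroup of `N(E)/E` -/
theorem kfive (hS : IsSylowIn 2 S ⊤) (ES : E ≤ S) (SN : S ≤ 𝐍(E)) (self : ∀ g ∈ 𝐍(S), g ∈ S)
    (sq : ∀ a ∈ S, a * a ∈ E) (c4 : 2 * #|E| < #|S|) (five : 5 ∣ #|𝐍(E)|) :
    ∃ t ∈ S, t ∉ E ∧ ∃ f ∈ 𝐍(E), ⁅f, t⁆ ∈ E ∧ f * f ∉ E ∧ ∃ k, f ^ 5 ^ k ∈ E := by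
  haveI : Fact (Nat.Prime 5) := ⟨Nat.prime_five⟩
  have s1 : IsSylowIn 2 (S.subgroupOf 𝐍(E)) ⊤ := isSylowIn_top (hS.of_le SN le_top).toSylow
  have s2 := s1.map (qp E)
  rw [map_top_of_surjective _ qp_surj] at s2
  set T := (S.subgroupOf 𝐍(E)).map (qp E) with hT
  have T2 : ∀ a ∈ T, a * a = 1 := by
    rintro _ ⟨a, ha, rfl⟩
    rw [← map_mul, qp_one]; exact sq a ha
  have ab : ∀ a ∈ T, ∀ b ∈ T, a * b = b * a := fun a ha b hb => by
    rw [← inv_eq_of_mul_eq_one_left (T2 _ (mul_mem ha hb)), mul_inv_rev, inv_eq_of_mul_eq_one_left (T2 a ha),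
      inv_eq_of_mul_eq_one_left (T2 b hb)]
  have back : ∀ g : 𝐍(E), qp E g ∈ T → (g : G) ∈ S := by
    rintro g ⟨a, ha, e⟩
    have : (a⁻¹ * g : 𝐍(E)).1 ∈ E := qp_one.1 (by rw [map_mul, map_inv, e, inv_mul_cancel])
    exact (mul_mem_cancel_left (inv_mem ha)).1 (ES this)
  have sd := Burnside_normal_complement s2 (fun n hn => by
    obtain ⟨n, rfl⟩ := qp_surj n
    have : (n : G) ∈ S := self n (norm_of fun a ha => back (n * ⟨a, SN ha⟩ * n⁻¹) (by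
      rw [map_mul, map_mul, map_inv]; exact conj_mem' hn.2 ⟨_, ha, rfl⟩))
    exact mem_cH.2 fun a ha => ab a ha _ ⟨n, this, rfl⟩)
  have nd := B01.not_dvd_Opp (p := 2) (⊤ : Subgroup (𝐍(E) ⧸ E.subgroupOf 𝐍(E)))
  have ca : CopAct T (Opp 2 ⊤) := CopAct.of_pgroup s2.pgroup nd sd.norm
  obtain ⟨P, hP, TP⟩ := ca.exists_invariant_sylow 5
  have P1 : P ≠ ⊥ := hP.ne_bot (by
    have c1 := csup sd.norm
    rw [sup_comm, sd.sup, inf_comm, sd.inf, card_bot, mul_one, card_top] at c1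
    have c2 := card_eq_card_quotient_mul_card_subgroup (E.subgroupOf 𝐍(E))
    rw [c1, Nat.card_congr (subgroupOfEquivOfLe (ES.trans SN)).toEquiv] at c2
    obtain ⟨i, hi⟩ := two_pow s2.pgroup le_rfl
    obtain ⟨j, hj⟩ := two_pow hS.pgroup ES
    rw [c2, hi, hj] at five
    have n5 : ∀ i, ¬ 5 ∣ 2 ^ i := fun i e => absurd (Nat.prime_five.dvd_of_dvd_pow e) (by norm_num)
    exact ((Nat.prime_five.dvd_mul.1 ((Nat.prime_five.dvd_mul.1 five).resolve_right (n5 j))).resolve_left (n5 i)))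
  have nc : ¬ IsCyclic T := fun hc => by
    obtain ⟨γ, hγ⟩ := hc.exists_generator
    have one : ∀ a (ha : a ∈ S), a ∉ E → qp E ⟨a, SN ha⟩ = γ := fun a ha a1 => by
      obtain ⟨i, hi⟩ := hγ ⟨_, ⟨⟨a, SN ha⟩, ha, rfl⟩⟩
      exact (mem_z' (T2 _ γ.2) ⟨i, congrArg Subtype.val hi⟩).resolve_left fun e => a1 (qp_one.1 e)
    have := cle2 (A := E) (B := S) fun a ha b hb a1 b1 =>
      qp_one.1 (show qp E (⟨a, SN ha⟩ * ⟨b, SN hb⟩) = 1 by rw [map_mul, one a ha a1, one b hb b1, T2 _ γ.2])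
    rw [inf_eq_right.2 ES] at this
    omega
  by_contra hn
  refine P1 (eq_bot_iff.2 ((ca.mono_right hP.le TP).le_of_not_isCyclic ⟨⟨fun a b => Subtype.ext (ab _ a.2 _ b.2)⟩⟩ nc ?_))
  rintro _ ⟨t, ht, rfl⟩ t1 φ hφ
  obtain ⟨f, rfl⟩ := qp_surj φ
  by_contra f1
  obtain ⟨k, hk⟩ := hP.pgroup ⟨_, hφ.1⟩
  have hk' : qp E f ^ 5 ^ k = 1 := congrArg Subtype.val hk
  refine hn ⟨t, ht, fun e => t1 (qp_one.2 e), f, f.2, qp_comm.1 (mem_c1.1 hφ.2), fun e => f1 ?_, k,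
    qp_one.1 (show qp E (f ^ 5 ^ k) = 1 by rw [map_pow, hk'])⟩
  have e2 : qp E f ^ 2 = 1 := by rw [pow_two, ← map_mul]; exact qp_one.2 e
  exact orderOf_eq_one_iff.1 (Nat.eq_one_of_dvd_coprimes (Nat.Coprime.pow_right k (by norm_num))
    (orderOf_dvd_of_pow_eq_one e2) (orderOf_dvd_of_pow_eq_one hk'))

/-- the abelian subgroup of order 16 -/
def KE (z s : G) (Q : Subgroup G) : Subgroup G := (Q ⊔ zpowers s) ⊓ 𝐂(KA z s Q)

namespace K4

variable (h : K4 z x s Q)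
include h

theorem sE : s ∈ KE z s Q := ⟨h.t.ksS, mem_cH.2 fun a ha => by
  have := h.invA ha
  rw [inv_eq_of_mul_eq_one_left (h.elemA ha)] at this
  exact (mul_inv_eq_iff_eq_mul.1 this).symm⟩

theorem AE : KA z s Q ≤ KE z s Q := fun a ha => ⟨mem_sup_left ha.1, h.abA ha⟩

theorem EQ (he : e ∈ KE z s Q) (hq : e ∈ Q) : e ∈ KA z s Q := h.maxab h.AQ h.abA h.cA.ge hq he.2

theorem memE (he : e ∈ KE z s Q) : e ∈ KA z s Q ∨ ∃ a ∈ KA z s Q, a * s = e := by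
  rcases h.t.kmemS.1 he.1 with m | ⟨q, hq, rfl⟩
  · exact Or.inl (h.EQ he m)
  · exact Or.inr ⟨q, h.EQ ((mul_mem_cancel_right h.sE).1 he) hq, rfl⟩

theorem half (hB : B ≤ Q ⊔ zpowers s) : #|B| ≤ 2 * #|(B ⊓ Q : Subgroup G)| :=
  cle2 fun a ha b hb a1 b1 => idx2 le_sup_left h.t.kcS.le (hB ha) (hB hb) a1 b1

theorem cE : #|KE z s Q| = 16 := by
  have c1 := clt h.AE h.sE fun e => h.t.ksQ e.1
  have c2 := h.half (B := KE z s Q) inf_le_left
  have c3 := cle (A := KE z s Q ⊓ Q) (B := KA z s Q) fun e he => h.EQ he.1 he.2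
  rw [h.cA] at c1 c3
  omega

theorem abE : KE z s Q ≤ 𝐂(KE z s Q) := fun e he => mem_cH.2 fun d hd => by
  have l : KA z s Q ≤ 𝐂[e] := fun a ha => mem_c1.2 (mem_cH.1 he.2 a ha)
  rcases h.memE hd with m | ⟨a, ha, rfl⟩
  · exact mem_c1.1 (l m)
  · refine mem_c1.1 (mul_mem (l ha) (mem_c1.2 ?_))
    rcases h.memE he with m | ⟨b, hb, rfl⟩
    · exact (mem_cH.1 h.sE.2 e m).symm
    · rw [← mul_assoc, mem_cH.1 h.sE.2 b hb]

theorem uniq (hB : B ≤ Q ⊔ zpowers s) (ab : B ≤ 𝐂(B)) (c : 16 ≤ #|B|) : B = KE z s Q := by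
  have c1 := h.half hB
  have c2 := h.ab8 (B := B ⊓ Q) inf_le_right fun a ha => mem_cH.2 fun b hb => mem_cH.1 (ab ha.1) b hb.1
  obtain ⟨t, ht, t1⟩ := ex_not_mem (A := B ⊓ Q) (B := B) (by omega)
  obtain ⟨q, hq, rfl⟩ := (h.t.kmemS.1 (hB ht)).resolve_left fun e => t1 ⟨ht, e⟩
  have e : B ⊓ Q = KA z s Q := eq_of_cle (fun b hb => h.memA' hq hb.2 (mem_cH.1 (ab hb.1) _ ht))
    (by rw [h.cA]; omega)
  refine eq_of_cle (fun b hb => ⟨hB hb, mem_cH.2 fun a ha => mem_cH.1 (ab hb) a (e.ge ha).1⟩) (by rw [h.cE]; exact c)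

theorem nE (hg : cj g (KE z s Q) ≤ Q ⊔ zpowers s) : g ∈ 𝐍(KE z s Q) :=
  cj_eq_self_iff.1 (h.uniq hg (by rw [← cj_centralizer]; exact cj_mono g h.abE) (by rw [card_cj, h.cE]))

theorem trans (he : e ∈ KE z s Q) (ie : Invo e) : ∃ n ∈ 𝐍(KE z s Q), n * z * n⁻¹ = e := by
  obtain ⟨R, hR, l⟩ := exists_isSylowIn_ge (h.t.kS2.to_le (inf_le_left : KE z s Q ≤ _)) (K := 𝐂[e])
    fun d hd => mem_c1.2 (mem_cH.1 (h.abE he) d hd)
  obtain ⟨g, e1, rfl⟩ := h.syl64 ie hR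
  exact ⟨g, inv_mem_iff.1 (h.nE (by rwa [cj_le_iff, inv_inv])), e1⟩

theorem elemE (he : e ∈ KE z s Q) : e * e = 1 := by
  have sq : ∀ d ∈ KE z s Q, d * d = 1 ∨ d * d = s * s := fun d hd => by
    rcases h.memE hd with m | ⟨a, ha, rfl⟩
    · exact Or.inl (h.elemA m)
    · right
      calc _ = a * (s * a) * s := by group
        _ = a * a * (s * s) := by rw [← mem_cH.1 h.sE.2 a ha]; group
        _ = _ := by rw [h.elemA ha, one_mul]
  refine (sq e he).elim id fun e1 => e1.trans (((mem_z h.t.kiz).1 h.t.ss).resolve_right fun e2 => ?_)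
  obtain ⟨a, ha, az⟩ := ex_not_mem (A := zpowers z) (B := KA z s Q) (by rw [h.cz, h.cA]; norm_num)
  have a1 : a ≠ 1 := fun e => az (e ▸ one_mem _)
  obtain ⟨n, hn, e3⟩ := h.trans (h.AE ha) ⟨h.elemA ha, a1⟩
  have := sq _ (conj_mem' hn h.sE)
  rw [show n * s * n⁻¹ * (n * s * n⁻¹) = n * (s * s) * n⁻¹ by group, e2, e3] at this
  rcases this with e | e
  exacts [a1 e, az (e ▸ mem_zpowers z)]

theorem self (hg : g ∈ 𝐍((Q ⊔ zpowers s : Subgroup G))) : g ∈ Q ⊔ zpowers s := by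
  have t := h.t
  have l : Q ⊔ zpowers s ≤ 𝐂[g * z * g⁻¹] := by
    rw [← cj_centralizer_singleton, ← cj_eq_self hg]; exact cj_mono g t.kSH
  refine t.knorm (mem_c1.2 (mul_inv_eq_iff_eq_mul.1 (((mem_z t.kiz).1 ?_).resolve_left (t.kiz.conj g).2))) hg
  rcases t.kmemS.1 (conj_mem' hg (mem_sup_left t.zQ)) with m | ⟨q, hq, e⟩
  · exact h.Z _ m (le_sup_left.trans l)
  · have := cle (A := Q) (B := KA z s Q) fun a ha => h.memA' hq ha (by
      rw [e]; exact (mem_c1.1 (l (mem_sup_left ha))).symm)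
    rw [h.c, h.cA] at this
    omega

theorem five : 5 ∣ #|𝐍(KE z s Q)| := by
  have zE : z ∈ KE z s Q := h.AE (h.zA (mem_zpowers z))
  have c := H6.ncard_cl_mul_card_centralizer (⟨z, le_normalizer zE⟩ : 𝐍(KE z s Q))
  have e : Subtype.val '' H6.cl (⟨z, le_normalizer zE⟩ : 𝐍(KE z s Q)) = (KE z s Q : Set G) \ {1} := by
    ext e
    constructor
    · rintro ⟨e, he, rfl⟩
      obtain ⟨n, rfl⟩ := H6.mem_cl_iff.1 he
      exact ⟨conj_mem' n.2 zE, (h.t.kiz.conj n).2⟩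
    · rintro ⟨he, e1⟩
      obtain ⟨n, hn, rfl⟩ := h.trans he ⟨h.elemE he, e1⟩
      exact ⟨_, H6.conj_mem_cl _ ⟨n, hn⟩, rfl⟩
  rw [← Set.ncard_image_of_injective _ Subtype.val_injective, e, Set.ncard_diff_singleton_of_mem (one_mem _),
    H6.ncard_subgroup, h.cE] at c
  exact c ▸ Dvd.dvd.mul_right (by norm_num) _

theorem fin : False := by
  have t := h.t
  haveI : Fact (Nat.Prime 5) := ⟨Nat.prime_five⟩
  have zE : z ∈ KE z s Q := h.AE (h.zA (mem_zpowers z))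
  obtain ⟨r, hr, r1, f, hf, c, f1, k, hk⟩ := kfive (E := KE z s Q) t.ksyl inf_le_left
    (fun g hg => h.nE (cj_le_of_mem hg inf_le_left)) (fun g => h.self) (fun a ha => by
      rcases t.kmemS.1 ha with m | ⟨q, hq, rfl⟩
      · exact h.AE (h.zA (h.sq m))
      · rw [show q * s * (q * s) = ⁅q, ⁅s, q⁆⁆ * ⁅s, q⁆ * (q * q) * (s * s) by simp only [commutatorElement_def]; group]
        exact h.AE (mul_mem (mul_mem (mul_mem (h.zA (h.comm hq (h.comA hq).1)) (h.comA hq)) (h.zA (h.sq hq)))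
          (h.zA t.ss))) (by rw [h.cE, t.kcS, h.c]; norm_num) h.five
  have o : (f * f) ^ 5 ^ k = 1 := by rw [(Commute.refl f).mul_pow, h.elemE hk]
  have pg : IsPGroup 5 (zpowers (f * f)) := by
    obtain ⟨i, -, hi⟩ := (Nat.dvd_prime_pow Nat.prime_five).1 (orderOf_dvd_of_pow_eq_one o)
    exact IsPGroup.of_card (by rw [Nat.card_zpowers, hi])
  have fN : f ∈ 𝐍((KE z s Q ⊓ 𝐂[r] : Subgroup G)) := inv_mem_iff.1 (norm_of fun e he => by
    refine ⟨conj_mem' (inv_mem hf) he.1, mem_c1.2 ?_⟩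
    calc _ = f⁻¹ * (e * ⁅f, r⁆ * r) * f := by simp only [commutatorElement_def]; group
      _ = f⁻¹ * (⁅f, r⁆ * (e * r)) * f := by rw [mem_cH.1 (h.abE c) e he.1, mul_assoc _ e]
      _ = _ := by rw [mem_c1.1 he.2]; simp only [commutatorElement_def]; group)
  have m := card_modEq_card_cent pg (zpowers_le.2 (mul_mem fN fN))
  have b : KE z s Q ⊓ 𝐂[r] ⊓ 𝐂(zpowers (f * f)) = ⊥ := eq_bot_iff.2 fun e he => by
    by_contra e1
    have d := card_dvd_of_le (zpowers_le.2 (mem_c1.2 (mem_cH.1 he.2 _ (mem_zpowers _))) : zpowers (f * f) ≤ 𝐂[e])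
    rw [t.kcC ⟨h.elemE he.1.1, e1⟩, h.c] at d
    rcases pg.card_eq_or_dvd with e | e
    · exact f1 (by rw [Nat.card_zpowers, orderOf_eq_one_iff] at e; exact e ▸ one_mem _)
    · exact absurd (e.trans d) (by norm_num)
  rw [b, card_bot] at m
  have c1 := cle (A := zpowers z) (B := KE z s Q ⊓ 𝐂[r]) (zpowers_le.2 ⟨zE, mem_c1.2 (mem_c1.1 (t.kSH hr)).symm⟩)
  obtain ⟨e, he, e1⟩ : ∃ e ∈ KE z s Q, e ∉ KE z s Q ⊓ 𝐂[r] := by
    by_contra hn
    push Not at hn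
    exact r1 ⟨hr, mem_cH.2 fun a ha => mem_c1.1 (hn a (h.AE ha)).2⟩
  have c2 := clt inf_le_left he e1
  have d := card_dvd_of_le (inf_le_left (a := KE z s Q) (b := 𝐂[r]))
  rw [h.cE] at c2 d
  rw [h.cz] at c1
  generalize #|(KE z s Q ⊓ 𝐂[r] : Subgroup G)| = n at m c1 c2 d
  have : n ≤ 8 := by omega
  unfold Nat.ModEq at m
  interval_cases n <;> omega

end K4
end

variable {G : Type u} [Group G] [Finite G] [IsSimpleGroup G] {z x s u : G} {Q O S : Subgroup G}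

theorem T3.not32 (h : T3 z x s Q ⊥) (hZ : ∀ g ∈ Q, Q ≤ 𝐂[g] → g ∈ zpowers z) (h32 : #|Q| = 32) : False :=
  K4.fin ⟨h, hZ, h32⟩

end Cfsg.Agent.WA.Hw
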