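import Cfsg.Agent.WA.HwC0

/-! Module C4 of the Hayden-Winter theorem, first part: the structure of `Q` of order 32. -/

set_option autoImplicit false
set_option linter.unusedSectionVars false
set_option linter.unusedVariables false

namespace Cfsg.Agent.WA.Hw

open Subgroup Cfsg.Agent.FT Cfsg.Agent.L0 Cfsg.Agent.H8 Cfsg.Agent.WA.Rw
open Cfsg.Agent.BS (Invo)
open Cfsg.Agent.H2.SC (omZ mem_omZ omZ_le le_cent_omZ omZ_ne_bot norm_omZ cj_omZ)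
open scoped commutatorElement

universe u

variable {G : Type u} [Group G] [Finite G] {z x s u a b c g q k v w : G} {Q O S B : Subgroup G}

/-- hypotheses of module C4 -/
structure K4 (z x s : G) (Q : Subgroup G) : Prop where
  t : T3 z x s Q ⊥
  Z : ∀ g ∈ Q, Q ≤ 𝐂[g] → g ∈ zpowers z
  c : #|Q| = 32

/-- the fixed points of `s` on `Q` modulo `z` -/
def KA (z s : G) (Q : Subgroup G) : Subgroup G := Q ⊓ Rw.cmod (zpowers z) {s}

namespace K4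

variable (h : K4 z x s Q)
include h

theorem cz : #|zpowers z| = 2 := h.t.kiz.card_zpowers

theorem comm (ha : a ∈ Q) (hb : b ∈ Q) : ⁅a, b⁆ ∈ zpowers z := by
  have t := h.t
  obtain ⟨y, hy, yz⟩ := ex_not_mem (A := zpowers z) (B := Q) (by rw [h.cz, h.c]; norm_num)
  obtain ⟨i, hi, i1, -⟩ := t.hyp.exW t.Q2 t.QH t.kxN hy yz
  have zW : z ∈ Q ⊓ Rw.cmod (zpowers z) Q := ⟨t.zQ, cz_norm (t.QH t.zQ), fun q hq => by
    rw [comm1.2 (mem_c1.1 (t.QH hq))]; exact one_mem _⟩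
  have c8 := t.hyp.eight (t.Q2.to_le inf_le_left) (inf_le_left.trans t.QH)
    (le_normalizer_inf (A := zpowers x) (zpowers_le.2 t.kxN) (zpowers_le.2 (norm_cmod ⟨cz_norm t.hyp.xz, t.kxN⟩))
      (mem_zpowers x)) zW hi i1
  have sym : ∀ p q : G, ⁅p, q⁆ ∈ zpowers z → ⁅q, p⁆ ∈ zpowers z := fun p q e => by
    rw [← commutatorElement_inv]; exact inv_mem e
  by_cases hW : b ∈ Q ⊓ Rw.cmod (zpowers z) Q
  · exact hW.2.2 a ha
  have l : Q ⊓ Rw.cmod (zpowers z) Q ≤ Q ⊓ Rw.cmod (zpowers z) {b} :=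
    inf_le_inf_left _ (cmod_anti (Set.singleton_subset_iff.2 hb))
  have c1 := clt l ⟨hb, mem_cmod_single.2 ⟨cz_norm (t.QH hb), by simp⟩⟩ hW
  have := t.hyp.four t.Q2 t.QH (inf_le_left (b := Rw.cmod (zpowers z) {b})) (norm_of fun q hq => by
    have m := conj_mem' t.kxN hq.1
    exact ⟨m, mem_cmod_single.2 ⟨cz_norm (t.QH m), sym _ _ (t.kfm.cz hq.1 hb (sym _ _ (mem_cmod_single.1 hq.2).2))⟩⟩)
    t.kxN (l zW) (by rw [h.c]; omega)
  exact sym _ _ (mem_cmod_single.1 (this.ge ha).2).2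

theorem sq (ha : a ∈ Q) : a * a ∈ zpowers z := by
  refine h.Z _ (mul_mem ha ha) fun q hq => mem_c1.2 (comm1.1 ?_)
  rw [kmul_r, zc (h.comm hq ha) (h.t.QH ha), mul_inv_cancel_right]
  rcases (mem_z h.t.kiz).1 (h.comm hq ha) with e | e <;> rw [e]
  exacts [mul_one 1, h.t.kiz.1]

theorem ab8 (hB : B ≤ Q) (ab : B ≤ 𝐂(B)) : #|B| ≤ 8 := by
  by_contra hc
  have c1 := le_of_lt_pow h.t.Q2 hB (k := 3) (by omega)
  have cz := h.cz
  by_cases hQ : Q ≤ B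
  · have := cle (A := Q) (B := zpowers z) fun q hq => h.Z q hq fun p hp => mem_c1.2 (mem_cH.1 (ab (hQ hq)) p (hQ hp))
    rw [h.c] at this; omega
  obtain ⟨y, hy, yB⟩ := SetLike.not_le_iff_exists.1 hQ
  have c2 := cnt_c (Y := B) (L := zpowers z) (e := y) fun b hb => h.comm (hB hb) hy
  have c3 := cle (A := B ⊓ 𝐂[y]) (B := zpowers z) fun b hb => h.Z b (hB hb.1) fun p hp => by
    have l : B ≤ 𝐂[b] := fun c hc => mem_c1.2 (mem_cH.1 (ab hb.1) c hc)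
    by_cases hp' : p ∈ B
    · exact l hp'
    · obtain ⟨c, hc, rfl⟩ := idx2' hB (by rw [h.c]; omega) hy hp yB hp'
      exact mul_mem (mem_c1.2 (mem_c1.1 hb.2).symm) (l hc)
  rw [cz] at c2 c3; omega

theorem maxab (hB : B ≤ Q) (ab : B ≤ 𝐂(B)) (c8 : 8 ≤ #|B|) (hg : g ∈ Q) (gc : g ∈ 𝐂(B)) : g ∈ B := by
  have l : B ≤ Q ⊓ (𝐂(B) ⊓ 𝐂[g]) ⊓ 𝐂((𝐂(B) ⊓ 𝐂[g] : Subgroup G)) := fun b hb =>
    ⟨⟨hB hb, ab hb, mem_c1.2 (mem_cH.1 gc b hb)⟩, mem_cH.2 fun d hd => (mem_cH.1 hd.1 b hb).symm⟩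
  have := h.ab8 (B := Q ⊓ (𝐂(B) ⊓ 𝐂[g]) ⊓ 𝐂((𝐂(B) ⊓ 𝐂[g] : Subgroup G))) (inf_le_left.trans inf_le_left)
    fun p hp => mem_cH.2 fun d hd => mem_cH.1 hp.2 d hd.1.2
  rw [eq_of_cle l (this.trans c8)]
  exact ⟨⟨hg, gc, mem_c1.2 rfl⟩, mem_cH.2 fun d hd => mem_c1.1 hd.2⟩

theorem memA : a ∈ KA z s Q ↔ a ∈ Q ∧ ⁅s, a⁆ ∈ zpowers z :=
  ⟨fun ha => ⟨ha.1, (mem_cmod_single.1 ha.2).2⟩, fun ha => ⟨ha.1, mem_cmod_single.2 ⟨cz_norm (h.t.QH ha.1), ha.2⟩⟩⟩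

theorem AQ : KA z s Q ≤ Q := inf_le_left

theorem zA : zpowers z ≤ KA z s Q := zpowers_le.2 (h.memA.2 ⟨h.t.zQ, by
  rw [comm1.2 (mem_c1.1 h.t.sH)]; exact one_mem _⟩)

theorem invA (ha : a ∈ KA z s Q) : s * a * s⁻¹ = a⁻¹ :=
  h.t.kinv' ha.1 (h.memA.1 ha).2 (h.sq ha.1) (h.comm ha.1 (inv_mem (conj_mem' h.t.kxN ha.1)))

theorem abA : KA z s Q ≤ 𝐂(KA z s Q) := fun a ha => mem_cH.2 fun b hb => by
  have := h.invA (mul_mem ha hb)
  rw [show s * (a * b) * s⁻¹ = s * a * s⁻¹ * (s * b * s⁻¹) by group, h.invA ha, h.invA hb, ← mul_inv_rev] at this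
  exact inv_injective this

theorem comA (ha : a ∈ Q) : ⁅s, a⁆ ∈ KA z s Q := by
  have m := comm_mem_r h.t.ksN ha
  refine h.memA.2 ⟨m, ?_⟩
  have e : s * ⁅s, a⁆ * s⁻¹ = ⁅s, a⁆⁻¹ := by
    calc _ = (s * s) * a * (s * s)⁻¹ * (s * a⁻¹ * s⁻¹) := by simp only [commutatorElement_def]; group
      _ = _ := by rw [← zc h.t.ss (h.t.QH ha)]; simp only [commutatorElement_def]; group
  rw [commutatorElement_def s, e, ← mul_inv_rev]
  exact inv_mem (h.sq m)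

theorem cA : #|KA z s Q| = 8 := by
  refine le_antisymm (h.ab8 h.AQ h.abA) ?_
  have := cnt_m (Y := Q) (e := s) h.zA (fun q hq => cz_norm (h.t.QH hq)) fun y hy => h.comA hy
  rw [h.c, h.cz] at this
  change 32 * 2 ≤ #|KA z s Q| * #|KA z s Q| at this
  nlinarith

theorem memA' (hq : q ∈ Q) (ha : a ∈ Q) (hc : q * s * a = a * (q * s)) : a ∈ KA z s Q := by
  refine h.memA.2 ⟨ha, ?_⟩
  have := comm1.2 hc
  rw [kmul_l, mul_eq_one_iff_eq_inv] at this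
  have m := conj_mem'' (cz_norm (h.t.QH hq)) (this ▸ inv_mem (h.comm hq ha))
  rwa [show q⁻¹ * (q * ⁅s, a⁆ * q⁻¹) * q = ⁅s, a⁆ by group] at m

theorem syl64 (hc : Invo c) {R : Subgroup G} (hR : IsSylowIn 2 R 𝐂[c]) :
    ∃ g, g * z * g⁻¹ = c ∧ cj g (Q ⊔ zpowers s) = R := by
  obtain ⟨g, rfl⟩ := h.t.kconjz hc
  have := h.t.ksylH.cj g
  rw [cj_centralizer_singleton] at this
  obtain ⟨k, hk, e⟩ := this.exists_cj_eq hR
  refine ⟨k * g, ?_, by rw [cj_mul, e]⟩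
  calc _ = k * (g * z * g⁻¹) * k⁻¹ := by group
    _ = _ := by rw [mem_c1.1 hk, mul_inv_cancel_right]

theorem toA (hu : u ∈ Q) (u2 : u * u = 1) (uz : u ∉ zpowers z) : ∃ y ∈ zpowers x, y⁻¹ * u * y ∈ KA z s Q := by
  have t := h.t
  have iu : Invo u := ⟨u2, fun e => uz (e ▸ one_mem _)⟩
  have c1 := cnt_c (Y := Q) (L := zpowers z) (e := u) fun b hb => h.comm hb hu
  rw [h.c, h.cz] at c1
  obtain ⟨a, ha, b, hb, ab⟩ : ∃ a ∈ Q ⊓ 𝐂[u], ∃ b ∈ Q ⊓ 𝐂[u], ⁅a, b⁆ ≠ 1 := by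
    by_contra hn
    push Not at hn
    have := h.ab8 (B := Q ⊓ 𝐂[u]) inf_le_left fun b hb => mem_cH.2 fun a ha => comm1.1 (hn a ha b hb)
    omega
  obtain ⟨R, hR, TR⟩ := exists_isSylowIn_ge (t.Q2.to_le (inf_le_left (b := 𝐂[u]))) inf_le_right
  obtain ⟨g, -, e⟩ := h.syl64 iu hR
  have lt : Q ⊓ 𝐂[u] < R := lt_of_le_of_ne TR fun e' => by
    have := cle (inf_le_left (a := Q) (b := 𝐂[u]))
    rw [e', ← e, card_cj, t.kcS, h.c] at this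
    omega
  obtain ⟨r, hr, r1⟩ := SetLike.exists_of_lt (lt_inf_normalizer_of_pgroup hR.pgroup lt)
  have rH : r ∈ 𝐂[z] := by
    have e1 := ((mem_z t.kiz).1 (h.comm ha.1 hb.1)).resolve_left ab
    have e2 := h.comm (conj_mem' hr.2 ha).1 (conj_mem' hr.2 hb).1
    rw [← conj_comm, e1] at e2
    exact mem_c1.2 (mul_inv_eq_iff_eq_mul.1 (((mem_z t.kiz).1 e2).resolve_left (t.kiz.conj r).2))
  obtain ⟨R', hR', l⟩ := exists_isSylowIn_ge (hR.pgroup.to_le (zpowers_le.2 hr.1)) (zpowers_le.2 rH)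
  obtain ⟨k, hk, rfl⟩ := t.ksylH.exists_cj_eq hR'
  obtain ⟨y, hy, m⟩ := t.kdec hk
  have yN : y ∈ 𝐍(Q) := zpowers_le.2 t.kxN hy
  have m1 : y⁻¹ * r * y ∈ Q ⊔ zpowers s := by
    rw [show y⁻¹ * r * y = y⁻¹ * k * (k⁻¹ * r * k) * (y⁻¹ * k)⁻¹ by group]
    exact mul_mem (mul_mem m (mem_cj.1 (l (mem_zpowers r)))) (inv_mem m)
  obtain ⟨q, hq, e1⟩ := (t.kmemS.1 m1).resolve_left fun e => r1 ⟨by
    simpa [mul_assoc] using conj_mem' yN e, hR.le hr.1⟩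
  refine ⟨y, hy, h.memA' hq (conj_mem'' yN hu) ?_⟩
  rw [e1]
  calc _ = y⁻¹ * (r * u) * y := by group
    _ = _ := by rw [mem_c1.1 (hR.le hr.1)]; group

theorem elemA (ha : a ∈ KA z s Q) : a * a = 1 := by
  have t := h.t
  have iz := t.kiz
  by_contra a2
  have mO : ∀ b ∈ KA z s Q, b * b = 1 → b ∈ omZ (KA z s Q) := fun b hb b2 => ⟨hb, b2, mem_cH.1 (h.abA hb)⟩
  have c1 := clt (omZ_le _) ha fun e => a2 e.2.1
  have c2 := cle2 (A := omZ (KA z s Q)) (B := KA z s Q) fun a ha b hb a1 b1 => by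
    refine mO _ (mul_mem ha hb) ?_
    have e1 := ((mem_z iz).1 (h.sq ha.1)).resolve_left fun e => a1 (mO a ha e)
    have e2 := ((mem_z iz).1 (h.sq hb.1)).resolve_left fun e => b1 (mO b hb e)
    calc _ = a * (b * a) * b := by group
      _ = a * a * (b * b) := by rw [mem_cH.1 (h.abA ha) b hb]; group
      _ = 1 := by rw [e1, e2, iz.1]
  rw [inf_eq_right.2 (omZ_le _), h.cA] at c2
  rw [h.cA] at c1
  obtain ⟨v, hv, vz⟩ := ex_not_mem (A := zpowers z) (B := omZ (KA z s Q)) (by rw [h.cz]; omega)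
  obtain ⟨E, EQ, E2, zE, vE, -, xE, c8⟩ := t.hyp.e8 t.Q2 t.QH t.kxN t.zQ hv.1.1 hv.2.1 vz
  have abE : E ≤ 𝐂(E) := fun a ha => mem_cH.2 fun b hb => by
    rw [← inv_eq_of_mul_eq_one_left (E2 _ (mul_mem hb ha)), mul_inv_rev, inv_eq_of_mul_eq_one_left (E2 a ha),
      inv_eq_of_mul_eq_one_left (E2 b hb)]
  have zO : zpowers z ≤ omZ (KA z s Q) := zpowers_le.2 (mO z (h.zA (mem_zpowers z)) iz.1)
  have all : ∀ u ∈ Q, u * u = 1 → u ∈ E := fun u hu u2 => by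
    by_cases uz : u ∈ zpowers z
    · exact zpowers_le.2 zE uz
    obtain ⟨y, hy, m⟩ := h.toA hu u2 uz
    have m1 := mO _ m (by simpa using GS.G0.sq_conj u2 y⁻¹)
    have m2 : y⁻¹ * u * y ∈ E := by
      by_cases e : y⁻¹ * u * y ∈ zpowers z
      · exact zpowers_le.2 zE e
      · obtain ⟨c, hc, e⟩ := idx2' zO (by rw [h.cz]; omega) hv m1 vz e
        rw [e]; exact mul_mem vE (zpowers_le.2 zE hc)
    simpa [mul_assoc] using conj_mem' (zpowers_le.2 xE hy) m2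
  obtain ⟨g, hg, gE⟩ := ex_not_mem (A := E) (B := Q) (by have := h.ab8 EQ abE; rw [h.c]; omega)
  obtain ⟨w, hw, gw⟩ : ∃ w ∈ E, ⁅w, g⁆ ≠ 1 := by
    by_contra hn
    push Not at hn
    exact gE (h.maxab EQ abE c8 hg (mem_cH.2 fun w hw => comm1.1 (hn w hw)))
  have e1 := ((mem_z iz).1 (h.sq hg)).resolve_left fun e => gE (all g hg e)
  have e2 := ((mem_z iz).1 (h.comm (EQ hw) hg)).resolve_left gw
  refine gE ((mul_mem_cancel_left hw).1 (all _ (mul_mem (EQ hw) hg) ?_))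
  calc w * g * (w * g) = w * g * (w⁻¹ * g) := by rw [inv_eq_of_mul_eq_one_left (E2 w hw)]
    _ = ⁅w, g⁆ * (g * g) := by simp only [commutatorElement_def]; group
    _ = 1 := by rw [e1, e2, iz.1]

end K4

end Cfsg.Agent.WA.Hw
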