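import Cfsg.Agent.WA.HwF

/-! The case of a nontrivial odd core. -/

set_option autoImplicit false
set_option linter.unusedSectionVars false

namespace Cfsg.Agent.WA.Hw

open Subgroup Cfsg.Agent.FT Cfsg.Agent.L0 Cfsg.Agent.H8 Cfsg.Agent.WA.Rw
open Cfsg.Agent.BS (Invo)
open scoped commutatorElement

universe u

variable {G : Type u} [Group G] [Finite G] [IsSimpleGroup G] {z x s u g v : G} {Q O S X : Subgroup G}

theorem Hyp.d_nm (h : Hyp z x) (hX : IsPGroup 2 X) : x ∉ X := fun e => by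
  obtain ⟨k, hk⟩ := hX ⟨x, e⟩
  exact H9.F3.not_three_dvd ⟨k, (congrArg Subtype.val hk : x ^ 2 ^ k = 1)⟩ (h.x3 ▸ dvd_rfl)

theorem T3.d_s4 (h : T3 z x s Q O) : s ^ 2 ^ 2 = 1 := by
  rw [show s ^ 2 ^ 2 = s * s * (s * s) by rw [show 2 ^ 2 = 2 + 2 from rfl, pow_add, pow_two]]
  rcases (mem_z h.hyp.iz).1 h.ss with e | e <;> rw [e]
  exacts [mul_one 1, h.hyp.iz.1]

theorem T3.d_le (h : T3 z x s Q O) (hX : X ≤ 𝐂[z]) (hc : (#|X|).Coprime 6) : X ≤ O := by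
  have h1 := csup (hX.trans h.HO)
  obtain ⟨k, hk⟩ := card_dvd_of_le (inf_le_left : X ⊓ O ≤ X)
  have h2 := card_dvd_of_le (sup_le hX h.OH)
  obtain ⟨j, hj⟩ := two_pow h.Q2 le_rfl
  have p1 := cpos (X ⊓ O)
  have e : #|(X ⊔ O : Subgroup G)| = k * #|O| := by
    refine Nat.eq_of_mul_eq_mul_right p1 ?_
    rw [h1]
    conv_lhs => rw [hk]
    ring
  rw [e, h.card, Nat.mul_dvd_mul_iff_right (cpos O)] at h2
  have : k.Coprime (6 * #|Q|) := by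
    have a : k.Coprime 6 := hc.coprime_dvd_left ⟨_, by rw [hk, mul_comm]⟩
    rw [hj]
    exact a.mul_right ((a.coprime_dvd_right (by norm_num : 2 ∣ 6)).pow_right j)
  rw [this.eq_one_of_dvd h2, mul_one] at hk
  exact inf_eq_left.1 (eq_of_cle inf_le_left hk.le)

theorem T3.d_two (h : T3 z x s Q O) (hX : X ≤ 𝐂[z]) (h2 : IsPGroup 2 X) : #|X| ≤ 2 * #|Q| := by
  obtain ⟨k, hk⟩ := two_pow h2 le_rfl
  have h1 := card_dvd_of_le hX
  rw [h.card, hk, show 6 * #|Q| * #|O| = 2 * #|Q| * (3 * #|O|) by ring] at h1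
  rw [hk]
  refine Nat.le_of_dvd (by have := cpos Q; omega) (Nat.Coprime.dvd_of_dvd_mul_right ?_ h1)
  exact Nat.Coprime.pow_left k (Nat.Coprime.mul_right (by norm_num) (h.cop.coprime_dvd_right (by norm_num)).symm)

theorem T3.d_norm (h : T3 z x s Q O) (hg : g * z * g⁻¹ ∈ 𝐂(O)) : g ∈ 𝐍(O) := by
  refine inv_mem_iff.1 (mem_normalizer_of_cj_le (h.d_le (fun a ha => mem_c1.2 ?_) (by rw [card_cj]; exact h.cop)))
  have := mem_cH.1 hg _ (mem_cj.1 ha)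
  calc a * z = g⁻¹ * (g⁻¹⁻¹ * a * g⁻¹ * (g * z * g⁻¹)) * g := by group
    _ = _ := by rw [this]; group

theorem T3.d_cent (h : T3 z x s Q O) (hu : u ∈ Q) (u2 : u * u = 1) (uz : u ∉ zpowers z) (hv : v ∈ 𝐍(O))
    (iv : Invo v) : v ∈ 𝐂(O) := by
  haveI : Fact (Nat.Prime 2) := ⟨Nat.prime_two⟩
  have QC : Q ≤ 𝐂(O) := le_centralizer_comm.1 h.OQ
  have nC : ∀ m ∈ 𝐍(O), m ∈ 𝐍(𝐂(O)) := fun g hg => by
    rw [← cj_eq_self_iff, cj_centralizer, cj_eq_self hg]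
  have sQ : s ∉ Q := fun e => h.hyp.d_nm h.Q2 (by
    have := comm_mem_l (h.HQ h.hyp.xz) e
    rwa [commutatorElement_def, h.sx, ← mul_inv_rev, h.hyp.sq, inv_inv] at this)
  have SH : Q ⊔ zpowers s ≤ 𝐂[z] := sup_le h.QH (zpowers_le.2 h.sH)
  have S2 : IsPGroup 2 ↥(Q ⊔ zpowers s) := by
    rw [sup_comm]
    exact IsPGroup.to_sup_of_normal_right' (H9.isPGroup_zpowers ⟨2, h.d_s4⟩) h.Q2 (zpowers_le.2 (h.HQ h.sH))
  have c1 := clt (le_sup_left : Q ≤ Q ⊔ zpowers s) (mem_sup_right (mem_zpowers s)) sQ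
  have c2 := h.d_two SH S2
  have hS : IsSylowIn 2 (Q ⊔ zpowers s) ⊤ := by
    obtain ⟨P⟩ : Nonempty (Sylow 2 G) := inferInstance
    obtain ⟨c, -, c2, hc⟩ := H9.exists_central_involution_sylow P h.hyp.z2
    obtain ⟨g, rfl⟩ := isConj_iff.1 (h.hyp.one c z c2 h.hyp.z2)
    refine (isSylowIn_top P).of_card_ge S2 le_top ?_
    have := h.d_two (X := cj g P) (by rw [← cj_centralizer_singleton]; exact cj_mono g fun s a => mem_c1.2 (hc s a)) (pgroup_cj P.2 g)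
    rw [card_cj] at this
    omega
  set S := Q ⊔ zpowers s
  obtain ⟨m, hm, vS⟩ : ∃ m ∈ 𝐍(O), m * v * m⁻¹ ∈ S := by
    obtain ⟨T, hT, le⟩ := exists_isSylowIn_ge iv.pgroup_zpowers (zpowers_le.2 hv)
    obtain ⟨m, hm, e⟩ := hT.exists_cj_eq (hS.of_le (SH.trans h.HO) le_top)
    exact ⟨m, hm, e ▸ conj_mem_cj m (le (mem_zpowers v))⟩
  suffices m * v * m⁻¹ ∈ 𝐂(O) by simpa [mul_assoc] using conj_mem'' (nC m hm) this
  obtain ⟨g, hg⟩ := isConj_iff.1 (h.hyp.one z _ h.hyp.z2 (iv.conj m).orderOf_eq)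
  rw [← hg] at vS ⊢
  by_cases h0 : Q ⊓ cj g Q = ⊥
  · exfalso
    have a1 : #|(Q ⊓ 𝐂[g * z * g⁻¹] : Subgroup G)| ≤ 2 := by
      have b1 : cj g⁻¹ (Q ⊓ 𝐂[g * z * g⁻¹]) ≤ 𝐂[z] := by
        rw [cj_le_iff, inv_inv, cj_centralizer_singleton]; exact inf_le_right
      have b2 := csup (b1.trans h.HQ)
      have b3 := h.d_two (sup_le b1 h.QH) (IsPGroup.to_sup_of_normal_right'
        (pgroup_cj (h.Q2.to_le inf_le_left) _) h.Q2 (b1.trans h.HQ))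
      rw [(eq_bot_iff_forall (_ ⊓ Q)).2 fun a ha => ?_, card_bot, card_cj] at b2
      · have := cpos Q
        nlinarith
      · have : g * a * g⁻¹ ∈ Q ⊓ cj g Q := ⟨by simpa using (mem_cj.1 ha.1).1, conj_mem_cj g ha.2⟩
        simpa [h0] using this
    have a2 : #|(S ⊓ 𝐂[g * z * g⁻¹] : Subgroup G)| ≤ 2 * #|(S ⊓ 𝐂[g * z * g⁻¹] ⊓ Q : Subgroup G)| :=
      cle2 fun a ha b hb => idx2 le_sup_left c2 ha.1 hb.1
    have a3 := cle (show S ⊓ 𝐂[g * z * g⁻¹] ⊓ Q ≤ Q ⊓ 𝐂[g * z * g⁻¹] from fun a ha => ⟨ha.2, ha.1.2⟩)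
    obtain ⟨a, ha, hc⟩ := H9.F3.mc S2 vS (by omega : #|(S ⊓ 𝐂[g * z * g⁻¹] : Subgroup G)| ≤ 4)
    obtain ⟨E, e1, e2, -, -, -, -, e8⟩ := h.hyp.e8 h.Q2 h.QH (h.HQ h.hyp.xz) h.zQ hu u2 uz
    have a4 : #|E| ≤ 2 * #|(E ⊓ zpowers a : Subgroup G)| := cle2 fun b hb c hc' =>
      idx2 (zpowers_le.2 ha) (by rwa [Nat.card_zpowers]) (mem_sup_left (e1 hb)) (mem_sup_left (e1 hc'))
    haveI : IsCyclic ↥(E ⊓ zpowers a) := isCyclic_of_le inf_le_right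
    obtain ⟨c, hc⟩ := IsCyclic.exists_ofOrder_eq_natCard (α := ↥(E ⊓ zpowers a))
    have : orderOf c ≤ 2 := Nat.le_of_dvd two_pos (orderOf_dvd_of_pow_eq_one (by
      rw [pow_two]; exact Subtype.ext (e2 c c.2.1)))
    omega
  · obtain ⟨w, hw, iw⟩ := BS.exists_invo_of_even (L := Q ⊓ cj g Q) (by
      obtain ⟨k, hk⟩ := two_pow h.Q2 (inf_le_left : Q ⊓ cj g Q ≤ Q)
      rw [hk, Nat.even_pow]
      refine ⟨even_two, fun e => h0 ?_⟩
      rwa [e, pow_zero, card_eq_one] at hk)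
    obtain ⟨k, rfl⟩ := isConj_iff.1 (h.hyp.one z _ h.hyp.z2 iw.orderOf_eq)
    have k1 := h.d_norm (QC hw.1)
    have k2 := h.d_norm (g := g⁻¹ * k) (by simpa [mul_assoc] using QC (mem_cj.1 hw.2))
    exact conj_mem' (nC g (inv_mem_iff.1 ((mul_mem_cancel_right k1).1 k2))) (QC h.zQ)

theorem T3.caseD (h : T3 z x s Q O) (hO : O ≠ ⊥) : ∀ u ∈ Q, u * u = 1 → u = 1 ∨ u = z := fun u hu u2 => by
  by_contra hn
  have uz : u ∉ zpowers z := fun e => hn ((mem_z h.hyp.iz).1 e)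
  have zM := h.HO (mem_c1.2 rfl)
  have hM : IsStronglyEmbedded 𝐍(O) := by
    refine ⟨fun e => ?_, ?_, fun g hg => ?_⟩
    · have := (IsSimpleGroup.eq_bot_or_eq_top_of_normal O (normalizer_eq_top_iff.1 e)).resolve_left hO
      have h2 := O.orderOf_dvd_natCard (this ▸ mem_top z)
      rw [h.hyp.z2] at h2
      exact absurd (Nat.eq_one_of_dvd_coprimes h.cop h2 (by norm_num)) (by norm_num)
    · have h2 := 𝐍(O).orderOf_dvd_natCard zM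
      rw [h.hyp.z2] at h2
      exact even_iff_two_dvd.2 h2
    · refine BS.odd_card_of_no_invo fun v hv iv => hg ?_
      obtain ⟨k, rfl⟩ := isConj_iff.1 (h.hyp.one z _ h.hyp.z2 iv.orderOf_eq)
      have k1 := h.d_norm (h.d_cent hu u2 uz hv.1 iv)
      have k2 := h.d_norm (g := g⁻¹ * k) (by
        simpa [mul_assoc] using h.d_cent hu u2 uz (mem_cj.1 hv.2) (iv.conj' g))
      exact inv_mem_iff.1 ((mul_mem_cancel_right k1).1 k2)
  obtain ⟨X, hX⟩ := GS.G0.exists_suz h.hyp.nab hM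
  have sQ := X.mem_Q_of_two (hX ▸ h.HO h.sH) h.d_s4
  have := mul_mem sQ (X.conj_mem_Q (hX ▸ h.HO h.hyp.xz) (inv_mem sQ))
  rw [← mul_assoc, ← mul_assoc, h.sx, ← mul_inv_rev, h.hyp.sq, inv_inv] at this
  exact h.hyp.d_nm X.struct.two this

end Cfsg.Agent.WA.Hw
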