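import Cfsg.Agent.H2.Fp3
import Cfsg.Agent.H9.F3f
import Cfsg.Agent.WA.GMain

/-! A self-centralizing element of order six: definitions (see PLAN_HW.md). -/

set_option autoImplicit false

namespace Cfsg.Agent.WA.Hw

open Subgroup Cfsg.Agent.FT Cfsg.Agent.L0 Cfsg.Agent.H8

universe u

variable {G : Type u} [Group G]

/-- one class of involutions, and `z * x` is a self-centralizing element of order six -/
structure Hyp (z x : G) : Prop where
  nab : ¬ IsMulCommutative G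
  z2 : orderOf z = 2
  x3 : orderOf x = 3
  comm : z * x = x * z
  cent : ∀ g : G, g * z = z * g → g * x = x * g → g ∈ zpowers (z * x)
  one : ∀ u v : G, orderOf u = 2 → orderOf v = 2 → IsConj u v

/-- `C(z) = (Q × O) . S₃` -/
structure T3 (z x s : G) (Q O : Subgroup G) : Prop where
  hyp : Hyp z x
  Q2 : IsPGroup 2 Q
  zQ : z ∈ Q
  QH : Q ≤ 𝐂[z]
  HQ : 𝐂[z] ≤ 𝐍(Q)
  OH : O ≤ 𝐂[z]
  HO : 𝐂[z] ≤ 𝐍(O)
  cop : (#|O|).Coprime 6
  OQ : O ≤ 𝐂(Q)
  card : #|𝐂[z]| = 6 * #|Q| * #|O|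
  sH : s ∈ 𝐂[z]
  sx : s * x * s⁻¹ = x⁻¹
  ss : s * s ∈ zpowers z

end Cfsg.Agent.WA.Hw
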