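import Cfsg.Agent.WA.HwDef
import Cfsg.Agent.WA.RwT
import Cfsg.Agent.H2.SC1

/-! An element of order three acting without fixed points modulo a normal subgroup. -/

set_option autoImplicit false
set_option linter.unusedSectionVars false

namespace Cfsg.Agent.WA.Hw

open Subgroup Cfsg.Agent.FT Cfsg.Agent.L0 Cfsg.Agent.H8 Cfsg.Agent.WA.Rw
open Cfsg.Agent.H2.Hw (Fp)
open Cfsg.Agent.BS (Invo)
open Cfsg.Agent.H2.SC (omZ mem_omZ omZ_le le_cent_omZ omZ_ne_bot norm_omZ)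
open scoped commutatorElement

universe u

variable {G : Type u} [Group G] [Finite G] {w y a b c z x g : G} {L D P A B : Subgroup G}

theorem fp_cz (h : Fp w L) (ha : a ∈ L) (hy : y ∈ L) (hc : a * y = y * a) :
    w * a * w⁻¹ * y = y * (w * a * w⁻¹) := by
  have h1 := h.rel (mul_mem ha hy)
  have h2 : w⁻¹ * a * w = (a * (w * a * w⁻¹))⁻¹ := eq_inv_of_mul_eq_one_right (h.rel ha)
  have h3 : w⁻¹ * y * w = (y * (w * y * w⁻¹))⁻¹ := eq_inv_of_mul_eq_one_right (h.rel hy)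
  rw [show w⁻¹ * (a * y) * w = w⁻¹ * a * w * (w⁻¹ * y * w) by group, h2, h3, ← mul_inv_rev,
    mul_inv_eq_one, show w * (a * y) * w⁻¹ = w * a * w⁻¹ * (w * y * w⁻¹) by group, hc, mul_assoc y,
    mul_assoc y, mul_left_cancel_iff, ← mul_assoc, ← inv_inv (a * (w * a * w⁻¹)), ← h2] at h1
  have h4 : w⁻¹ * a * w * (w * y * w⁻¹) = w * y * w⁻¹ * (w⁻¹ * a * w) := Commute.inv_left_iff.mp h1
  calc w * a * w⁻¹ * y = w⁻¹ * ((w * w) * a * (w * w)⁻¹ * (w * y * w⁻¹)) * w := by group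
    _ = w⁻¹ * (w * y * w⁻¹ * ((w * w) * a * (w * w)⁻¹)) * w := by rw [h.sq, inv_inv, h4]
    _ = _ := by group

/-- `w` acts without fixed points on `L` modulo `D` -/
structure FM (w : G) (L D : Subgroup G) : Prop where
  nD : L ≤ 𝐍(D)
  wD : w ∈ 𝐍(D)
  cj : ∀ y ∈ L, w * y * w⁻¹ ∈ L
  cube : w * w * w ∈ D
  fpf : ∀ y ∈ L, ⁅w, y⁆ ∈ D → y ∈ D

/-- the projection of `N(D)` onto `N(D)/D` -/
def qp (D : Subgroup G) : 𝐍(D) →* 𝐍(D) ⧸ D.subgroupOf 𝐍(D) := QuotientGroup.mk' _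

theorem qp_one {y : 𝐍(D)} : qp D y = 1 ↔ (y : G) ∈ D := QuotientGroup.eq_one_iff y

theorem qp_surj : Function.Surjective (qp D) := QuotientGroup.mk'_surjective _

theorem qp_comm {s t : 𝐍(D)} : qp D s * qp D t = qp D t * qp D s ↔ ⁅(s : G), (t : G)⁆ ∈ D := by
  rw [← comm1, ← map_commutatorElement, qp_one]; rfl

namespace FM

variable (h : FM w L D)
include h

theorem fp : Fp (qp D ⟨w, h.wD⟩) ((L.subgroupOf 𝐍(D)).map (qp D)) := by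
  refine ⟨?_, ?_, ?_⟩
  · rintro _ ⟨y, hy, rfl⟩
    exact ⟨⟨w, h.wD⟩ * y * ⟨w, h.wD⟩⁻¹, h.cj y hy, by simp⟩
  · rw [← map_mul, ← map_mul, qp_one]; exact h.cube
  · rintro _ ⟨y, hy, rfl⟩ e
    exact qp_one.2 (h.fpf y hy (qp_comm.1 e))

theorem im (hy : y ∈ L) : qp D ⟨y, h.nD hy⟩ ∈ (L.subgroupOf 𝐍(D)).map (qp D) := ⟨⟨y, h.nD hy⟩, hy, rfl⟩

theorem rel (hy : y ∈ L) : y * (w * y * w⁻¹) * (w⁻¹ * y * w) ∈ D := by
  have := h.fp.rel (h.im hy)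
  simp only [← map_mul, ← map_inv] at this
  exact qp_one.1 this

theorem cls (ha : a ∈ L) (hb : b ∈ L) (hc : c ∈ L) : ⁅c, ⁅b, a⁆⁆ ∈ D := by
  have := (h.fp.cls2 (h.im ha) (h.im hb) (h.im hc)).eq
  rw [← map_commutatorElement] at this
  exact qp_comm.1 this

theorem cz (ha : a ∈ L) (hy : y ∈ L) (hc : ⁅a, y⁆ ∈ D) : ⁅w * a * w⁻¹, y⁆ ∈ D := by
  have := fp_cz h.fp (h.im ha) (h.im hy) (qp_comm.2 hc)
  simp only [← map_mul, ← map_inv] at this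
  exact qp_comm.1 (by simpa only [map_mul] using this :
    qp D (⟨w, h.wD⟩ * ⟨a, h.nD ha⟩ * ⟨w, h.wD⟩⁻¹) * qp D ⟨y, h.nD hy⟩ =
      qp D ⟨y, h.nD hy⟩ * qp D (⟨w, h.wD⟩ * ⟨a, h.nD ha⟩ * ⟨w, h.wD⟩⁻¹))

theorem surj (hy : y ∈ L) : ∃ g ∈ L, (g⁻¹ * w * g)⁻¹ * (y * w) ∈ D := by
  obtain ⟨_, ⟨g, hg, rfl⟩, e⟩ := h.fp.surj (h.im hy)
  refine ⟨g, hg, ?_⟩
  have : qp D ((g⁻¹ * ⟨w, h.wD⟩ * g)⁻¹ * (⟨y, h.nD hy⟩ * ⟨w, h.wD⟩)) = 1 := by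
    simp only [map_mul, map_inv, e, inv_mul_cancel]
  exact qp_one.1 this

end FM

theorem Hyp.iz (h : Hyp z x) : Invo z :=
  ⟨by rw [← pow_two, ← h.z2, pow_orderOf_eq_one], fun e => by simpa [e] using h.z2⟩

theorem Hyp.cube (h : Hyp z x) : x * x * x = 1 := by rw [← pow_three', ← h.x3, pow_orderOf_eq_one]

theorem Hyp.sq (h : Hyp z x) : x * x = x⁻¹ := eq_inv_of_mul_eq_one_left h.cube

theorem Hyp.conj (h : Hyp z x) (g : G) : Hyp (g * z * g⁻¹) (g * x * g⁻¹) := by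
  refine ⟨h.nab, by rw [H9.orderOf_conj, h.z2], by rw [H9.orderOf_conj, h.x3], ?_, fun k h1 h2 => ?_, h.one⟩
  · calc _ = g * (z * x) * g⁻¹ := by group
      _ = _ := by rw [h.comm]; group
  · obtain ⟨i, hi⟩ := h.cent (g⁻¹ * k * g) (by
      calc _ = g⁻¹ * (k * (g * z * g⁻¹)) * g := by group
        _ = _ := by rw [h1]; group) (by
      calc _ = g⁻¹ * (k * (g * x * g⁻¹)) * g := by group
        _ = _ := by rw [h2]; group)
    refine ⟨i, ?_⟩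
    simp only at hi ⊢
    rw [show g * z * g⁻¹ * (g * x * g⁻¹) = g * (z * x) * g⁻¹ by group, conj_zpow, hi]; group

theorem cz_norm (hz : g ∈ 𝐂[z]) : g ∈ 𝐍(zpowers z) :=
  norm_of fun _ ⟨i, hi⟩ => ⟨i, by
    simp only at hi ⊢
    rw [← hi, ← conj_zpow, mem_c1.1 hz, mul_inv_cancel_right]⟩

theorem Hyp.fix (h : Hyp z x) (hP : IsPGroup 2 P) (hz : P ≤ 𝐂[z]) (hg : g ∈ P) (hc : g * x = x * g) :
    g = 1 ∨ g = z := by
  obtain ⟨i, hi⟩ := h.cent g (mem_c1.1 (hz hg)) hc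
  simp only at hi
  have c : Commute z x := h.comm
  rw [c.mul_zpow] at hi
  have z2 : z ^ i * z ^ i = 1 := by rw [← (Commute.refl z).mul_zpow, h.iz.1, one_zpow]
  have x3 : (x ^ i) ^ 3 = 1 := by
    rw [← zpow_natCast, ← zpow_mul, mul_comm, zpow_mul, zpow_natCast, ← h.x3, pow_orderOf_eq_one, one_zpow]
  have zP : x ^ i ∈ P ⊔ zpowers z := by
    rw [show x ^ i = (z ^ i)⁻¹ * g by rw [← hi]; group]
    exact mul_mem (inv_mem (mem_sup_right ⟨i, rfl⟩)) (mem_sup_left hg)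
  have pg : IsPGroup 2 ↥(P ⊔ zpowers z) :=
    IsPGroup.to_sup_of_normal_right' hP (GS.G0.pg_of_sq h.iz.1) fun _ a => cz_norm (hz a)
  obtain ⟨k, hk⟩ := pg ⟨_, zP⟩
  have e : x ^ i = 1 := by
    have a1 : orderOf (x ^ i) ∣ 3 := orderOf_dvd_of_pow_eq_one x3
    have a2 : orderOf (x ^ i) ∣ 2 ^ k := orderOf_dvd_of_pow_eq_one (congrArg Subtype.val hk)
    exact orderOf_eq_one_iff.1 (Nat.eq_one_of_dvd_coprimes (Nat.Coprime.pow_right k (by norm_num)) a1 a2)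
  rw [e, mul_one] at hi
  exact (mem_z h.iz).1 ⟨i, hi⟩

theorem Hyp.xz (h : Hyp z x) : x ∈ 𝐂[z] := mem_c1.2 h.comm.symm

theorem Hyp.fm (h : Hyp z x) (hP : IsPGroup 2 P) (hz : P ≤ 𝐂[z]) (hx : x ∈ 𝐍(P)) : FM x P (zpowers z) := by
  refine ⟨fun g hg => cz_norm (hz hg), cz_norm h.xz, fun y hy => conj_mem' hx hy, h.cube ▸ one_mem _,
    fun y hy e => (mem_z h.iz).2 (h.fix hP hz hy ?_)⟩
  rcases (mem_z h.iz).1 e with e | e
  · exact (comm1.1 e).symm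
  · have e1 : x * y * x⁻¹ = z * y := by rw [← e, commutatorElement_def]; group
    have e2 : x * x * y * (x * x)⁻¹ = y := by
      calc _ = x * (x * y * x⁻¹) * x⁻¹ := by group
        _ = x * (z * y) * x⁻¹ := by rw [e1]
        _ = x * z * x⁻¹ * (x * y * x⁻¹) := by group
        _ = _ := by rw [e1, ← h.comm, mul_inv_cancel_right, ← mul_assoc, h.iz.1, one_mul]
    rw [h.sq] at e2
    calc y * x = x * (x⁻¹ * y * x⁻¹⁻¹) := by group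
      _ = _ := by rw [e2]

theorem Hyp.card3 (h : Hyp z x) (hP : IsPGroup 2 P) (hz : P ≤ 𝐂[z]) (hx : x ∈ 𝐍(P)) (zP : z ∈ P) :
    #|P| % 3 = 2 := by
  haveI : Fact (Nat.Prime 3) := ⟨Nat.prime_three⟩
  have pg : IsPGroup 3 (zpowers x) := IsPGroup.of_card (n := 1) (by rw [Nat.card_zpowers, h.x3]; rfl)
  have h1 : 3 ∣ Nat.card ↥((P : Set G) \ (zpowers z : Set G)) := by
    by_contra hc
    obtain ⟨y, hy, hc⟩ := H9.exists_conj_fixed_of_not_dvd pg ((P : Set G) \ (zpowers z : Set G))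
      (fun g hg y hy => ⟨conj_mem' (zpowers_le.mpr hx hg) hy.1, fun e => hy.2 (by
        have := conj_mem'' (cz_norm (zpowers_le.mpr h.xz hg)) e
        rwa [show g⁻¹ * (g * y * g⁻¹) * g = y by group] at this)⟩) hc
    exact hy.2 ((mem_z h.iz).2 (h.fix hP hz hy.1 (hc x (mem_zpowers x)).symm))
  have hle : zpowers z ≤ P := zpowers_le.2 zP
  rw [Nat.card_coe_set_eq, Set.ncard_sdiff hle, H6.ncard_subgroup, H6.ncard_subgroup, Nat.card_zpowers,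
    h.z2] at h1
  have := cle hle
  rw [Nat.card_zpowers, h.z2] at this
  omega

theorem Hyp.four (h : Hyp z x) (hB : IsPGroup 2 B) (hz : B ≤ 𝐂[z]) (hAB : A ≤ B) (xA : x ∈ 𝐍(A))
    (xB : x ∈ 𝐍(B)) (zA : z ∈ A) (hc : #|B| < 4 * #|A|) : A = B := by
  have h1 := h.card3 (hB.to_le hAB) (hAB.trans hz) xA zA
  have h2 := h.card3 hB hz xB (hAB zA)
  obtain ⟨k, hk⟩ := card_dvd_of_le hAB
  have := cpos A
  refine eq_of_cle hAB ?_
  rw [hk] at h2 hc ⊢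
  have k4 : k < 4 := by nlinarith
  rw [Nat.mul_mod, h1] at h2
  interval_cases k <;> omega

theorem zc (hc : c ∈ zpowers z) (hg : g ∈ 𝐂[z]) : g * c = c * g := by
  obtain ⟨i, rfl⟩ := hc
  exact ((show Commute g z from mem_c1.1 hg).zpow_right i).eq

theorem tw (hz : Invo z) (ha : a ∈ 𝐂[z]) (h1 : ⁅a, c⁆ = z) (h2 : ⁅b, c⁆ = z) : a * b ∈ 𝐂[c] := by
  refine mem_c1.2 (comm1.1 ?_)
  rw [show ⁅a * b, c⁆ = a * ⁅b, c⁆ * a⁻¹ * ⁅a, c⁆ by simp only [commutatorElement_def]; group, h1, h2,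
    mem_c1.1 ha, mul_inv_cancel_right, hz.1]

theorem Hyp.exW (h : Hyp z x) (hP : IsPGroup 2 P) (hz : P ≤ 𝐂[z]) (hx : x ∈ 𝐍(P)) (hy : y ∈ P)
    (yz : y ∉ zpowers z) : ∃ i ∈ P ⊓ Rw.cmod (zpowers z) P, i ∉ zpowers z ∧ i * i ∈ zpowers z := by
  have f := h.fm hP hz hx
  obtain ⟨a, ha, az⟩ : ∃ a ∈ P ⊓ Rw.cmod (zpowers z) P, a ∉ zpowers z := by
    by_cases hc : ∀ s ∈ P, ⁅s, y⁆ ∈ zpowers z
    · exact ⟨y, ⟨hy, f.nD hy, hc⟩, yz⟩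
    · push Not at hc
      obtain ⟨s, hs, hc⟩ := hc
      have m : ⁅s, y⁆ ∈ P := comm_mem_r (le_normalizer hs) hy
      exact ⟨_, ⟨m, f.nD m, fun t ht => f.cls hy hs ht⟩, hc⟩
  obtain ⟨k, hk⟩ := hP ⟨a, ha.1⟩
  obtain ⟨i, h1, h2⟩ := H5.exists_pow_not_mem_pow_mem (p := 2) (k := k) (H := zpowers z) (x := a)
    (by rw [show a ^ 2 ^ k = 1 from congrArg Subtype.val hk]; exact one_mem _) az
  exact ⟨_, pow_mem ha _, h1, by rwa [← pow_two]⟩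

/-- an involution outside `⟨z⟩` gives a normal four-subgroup -/
theorem Hyp.q8 (h : Hyp z x) (hP : IsPGroup 2 P) (hz : P ≤ 𝐂[z]) (hx : x ∈ 𝐍(P)) {u : G} (hu : u ∈ P)
    (u2 : u * u = 1) (uz : u ∉ zpowers z) :
    ∃ v ∈ P, v * v = 1 ∧ v ∉ zpowers z ∧ ∀ s ∈ P, ⁅s, v⁆ ∈ zpowers z := by
  have f := h.fm hP hz hx
  have iz := h.iz
  by_contra hn
  have key : ∀ v ∈ P ⊓ Rw.cmod (zpowers z) P, v * v = 1 → v ∈ zpowers z := fun v hv v2 => by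
    by_contra vz
    exact hn ⟨v, hv.1, v2, vz, hv.2.2⟩
  obtain ⟨i, hi, i1, i2⟩ := h.exW hP hz hx hu uz
  have ii : i * i = z := ((mem_z iz).1 i2).resolve_left fun e => i1 (key i hi e)
  have hj : x * i * x⁻¹ ∈ P ⊓ Rw.cmod (zpowers z) P := by
    refine ⟨f.cj _ hi.1, f.nD (f.cj _ hi.1), fun s hs => ?_⟩
    rw [show ⁅s, x * i * x⁻¹⁆ = x * ⁅x⁻¹ * s * x, i⁆ * x⁻¹ by simp only [commutatorElement_def]; group]
    exact conj_mem' f.wD (hi.2.2 _ (conj_mem'' hx hs))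
  have rel := f.rel hi.1
  have fp := f.fpf i hi.1
  have xj : ∀ d, d * i = i * d → x * d * x⁻¹ * (x * i * x⁻¹) = x * i * x⁻¹ * (x * d * x⁻¹) := fun d e => by
    calc _ = x * (d * i) * x⁻¹ := by group
      _ = _ := by rw [e]; group
  have xk : ∀ d, d * (x * i * x⁻¹) = x * i * x⁻¹ * d → x * d * x⁻¹ * (x⁻¹ * i * x) = x⁻¹ * i * x * (x * d * x⁻¹) :=
    fun d e => by
    have : x⁻¹ * i * x = x * (x * i * x⁻¹) * x⁻¹ := by
      calc _ = x⁻¹ * i * x⁻¹⁻¹ := by group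
        _ = x * x * i * (x * x)⁻¹ := by rw [h.sq]
        _ = _ := by group
    rw [this]
    calc _ = x * (d * (x * i * x⁻¹)) * x⁻¹ := by group
      _ = _ := by rw [e]; group
  have jj : x * i * x⁻¹ * (x * i * x⁻¹) = z := by
    calc _ = x * (i * i) * x⁻¹ := by group
      _ = z := by rw [ii, ← h.comm]; group
  rw [show ⁅x, i⁆ = x * i * x⁻¹ * i⁻¹ from rfl] at fp
  have xP := fun d (hd : d ∈ P) => conj_mem' hx hd
  set j := x * i * x⁻¹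
  have ij : ¬ i * j = j * i := fun e => i1 (fp (by
    have := key _ (mul_mem hi hj) (by
      calc i * j * (i * j) = i * (j * i) * j := by group
        _ = i * i * (j * j) := by rw [← e]; group
        _ = 1 := by rw [ii, jj, iz.1])
    rw [show j * i⁻¹ = j * i * (i * i)⁻¹ by group, ← e]
    exact mul_mem this (inv_mem i2)))
  have cij : ⁅i, j⁆ = z := ((mem_z iz).1 (hj.2.2 i hi.1)).resolve_left fun e => ij (comm1.1 e)
  have cji : ⁅j, i⁆ = z := ((mem_z iz).1 (hi.2.2 j hj.1)).resolve_left fun e => ij (comm1.1 e).symm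
  have si : i ∈ 𝐂[i] := mem_c1.2 rfl
  have sj : j ∈ 𝐂[j] := mem_c1.2 rfl
  have dec : ∀ s ∈ P, ∃ q ∈ zpowers i ⊔ zpowers j, s * q ∈ P ⊓ 𝐂[i] ⊓ 𝐂[j] := fun s hs => by
    obtain ⟨q, hq, sq⟩ : ∃ q ∈ zpowers i ⊔ zpowers j, s * q ∈ P ⊓ 𝐂[i] := by
      rcases (mem_z iz).1 (hi.2.2 s hs) with e | e
      · exact ⟨1, one_mem _, by rw [mul_one]; exact ⟨hs, mem_c1.2 (comm1.1 e)⟩⟩
      · exact ⟨j, mem_sup_right (mem_zpowers j), mul_mem hs hj.1, tw iz (hz hs) e cji⟩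
    rcases (mem_z iz).1 (hj.2.2 _ sq.1) with e | e
    · exact ⟨q, hq, sq, mem_c1.2 (comm1.1 e)⟩
    · refine ⟨q * i, mul_mem hq (mem_sup_left (mem_zpowers i)), ?_⟩
      rw [← mul_assoc]
      exact ⟨mul_mem sq ⟨hi.1, si⟩, tw iz (hz sq.1) e cij⟩
  by_cases hD : P ⊓ 𝐂[i] ⊓ 𝐂[j] ≤ zpowers z
  · obtain ⟨q, hq, sq⟩ := dec u hu
    have zW : zpowers z ≤ P ⊓ Rw.cmod (zpowers z) P :=
      zpowers_le.2 (by have := mul_mem hi hi; rwa [ii] at this)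
    refine uz (key u ?_ u2)
    rw [show u = u * q * q⁻¹ by group]
    exact mul_mem (zW (hD sq)) (inv_mem (sup_le (zpowers_le.2 hi) (zpowers_le.2 hj) hq))
  · obtain ⟨y, hy, yz⟩ := SetLike.not_le_iff_exists.1 hD
    have le : P ⊓ 𝐂[i] ⊓ 𝐂[j] ≤ P := inf_le_left.trans inf_le_left
    obtain ⟨d, hd, d1, d2⟩ := h.exW (hP.to_le le) (le.trans hz) (norm_of fun d hd => by
      have a1 : j ∈ 𝐂[x * d * x⁻¹] := mem_c1.2 (xj d (mem_c1.1 hd.1.2)).symm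
      have a2 : x⁻¹ * i * x ∈ 𝐂[x * d * x⁻¹] := mem_c1.2 (xk d (mem_c1.1 hd.2)).symm
      have a3 : i * j * (x⁻¹ * i * x) ∈ 𝐂[x * d * x⁻¹] := mem_c1.2 (zc rel (hz (xP d hd.1.1))).symm
      refine ⟨⟨xP d hd.1.1, mem_c1.2 (mem_c1.1 (show i ∈ 𝐂[x * d * x⁻¹] from ?_)).symm⟩, mem_c1.2 (mem_c1.1 a1).symm⟩
      rw [show i = i * j * (x⁻¹ * i * x) * (x⁻¹ * i * x)⁻¹ * j⁻¹ by group]
      exact mul_mem (mul_mem a3 (inv_mem a2)) (inv_mem a1)) hy yz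
    have di := mem_c1.1 hd.1.1.2
    have dj := mem_c1.1 hd.1.2
    have dW : d ∈ P ⊓ Rw.cmod (zpowers z) P := by
      refine ⟨hd.1.1.1, hd.2.1, fun s hs => ?_⟩
      obtain ⟨q, hq, sq⟩ := dec s hs
      have qd : q ∈ 𝐂[d] := sup_le (zpowers_le.2 (mem_c1.2 di.symm)) (zpowers_le.2 (mem_c1.2 dj.symm)) hq
      have := hd.2.2 _ sq
      rwa [show ⁅s * q, d⁆ = s * ⁅q, d⁆ * s⁻¹ * ⁅s, d⁆ by simp only [commutatorElement_def]; group,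
        comm1.2 (mem_c1.1 qd), mul_one, mul_inv_cancel, one_mul] at this
    have dd : d * d = z := ((mem_z iz).1 d2).resolve_left fun e => d1 (key d dW e)
    have := key _ (mul_mem dW hi) (by
      calc d * i * (d * i) = d * (i * d) * i := by group
        _ = d * d * (i * i) := by rw [← di]; group
        _ = 1 := by rw [ii, dd, iz.1])
    have a : d * i ∈ 𝐂[j] := mem_c1.2 (zc this (hz hj.1)).symm
    have dj' : d ∈ 𝐂[j] := mem_c1.2 dj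
    exact ij (mem_c1.1 ((mul_mem_cancel_left dj').1 a))

theorem Hyp.eight (h : Hyp z x) (hP : IsPGroup 2 P) (hz : P ≤ 𝐂[z]) (hx : x ∈ 𝐍(P)) (zP : z ∈ P) (hy : y ∈ P)
    (yz : y ∉ zpowers z) : 8 ≤ #|P| := by
  by_contra hc
  exact yz (h.four hP hz (zpowers_le.2 zP) (cz_norm h.xz) hx (mem_zpowers z)
    (by rw [h.iz.card_zpowers]; omega) ▸ hy)

theorem Hyp.ucomm (h : Hyp z x) (hP : IsPGroup 2 P) (hz : P ≤ 𝐂[z]) (hx : x ∈ 𝐍(P)) {u : G} (hu : u ∈ P)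
    (u2 : u * u = 1) : u * (x * u * x⁻¹) = x * u * x⁻¹ * u := by
  have r := (h.fm hP hz hx).rel hu
  have k2 : x⁻¹ * u * x * (x⁻¹ * u * x) = 1 := by simpa using GS.G0.sq_conj u2 x⁻¹
  have v2 := GS.G0.sq_conj u2 x
  have c := zc r (hz (conj_mem'' hx hu))
  have c2 : u * (x * u * x⁻¹) * (x⁻¹ * u * x) * (u * (x * u * x⁻¹) * (x⁻¹ * u * x)) = 1 := by
    rcases (mem_z h.iz).1 r with e | e <;> rw [e]
    exacts [mul_one 1, h.iz.1]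
  set v := x * u * x⁻¹
  set k := x⁻¹ * u * x
  have : u * v * (u * v) = 1 := by
    calc u * v * (u * v) = u * v * (k * k) * (u * v) * (k * k) := by rw [k2, mul_one, mul_one]
      _ = u * v * k * (k * (u * v * k)) * k := by group
      _ = u * v * k * (u * v * k) * (k * k) := by rw [c]; group
      _ = 1 := by rw [c2, k2, mul_one]
  calc u * v = (u * v)⁻¹ := eq_inv_of_mul_eq_one_left this
    _ = v * u := by rw [mul_inv_rev, inv_eq_of_mul_eq_one_left u2, inv_eq_of_mul_eq_one_left v2]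

theorem Hyp.normD (h : Hyp z x) (hP : IsPGroup 2 P) (hz : P ≤ 𝐂[z]) (hx : x ∈ 𝐍(P)) {u : G} (hu : u ∈ P) :
    x ∈ 𝐍((P ⊓ 𝐂[u] ⊓ 𝐂[x * u * x⁻¹] : Subgroup G)) := norm_of fun d hd => by
  have r := (h.fm hP hz hx).rel hu
  have xd := conj_mem' hx hd.1.1
  have a1 : x * u * x⁻¹ ∈ 𝐂[x * d * x⁻¹] := mem_c1.2 (by
    calc _ = x * (u * d) * x⁻¹ := by group
      _ = _ := by rw [← mem_c1.1 hd.1.2]; group)
  have a2 : x⁻¹ * u * x ∈ 𝐂[x * d * x⁻¹] := mem_c1.2 (by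
    have : x⁻¹ * u * x = x * (x * u * x⁻¹) * x⁻¹ := by
      calc _ = x⁻¹ * u * x⁻¹⁻¹ := by group
        _ = x * x * u * (x * x)⁻¹ := by rw [h.sq]
        _ = _ := by group
    rw [this]
    calc _ = x * (x * u * x⁻¹ * d) * x⁻¹ := by group
      _ = _ := by rw [← mem_c1.1 hd.2]; group)
  have a3 : u * (x * u * x⁻¹) * (x⁻¹ * u * x) ∈ 𝐂[x * d * x⁻¹] := mem_c1.2 (zc r (hz xd)).symm
  refine ⟨⟨xd, mem_c1.2 (mem_c1.1 (show u ∈ 𝐂[x * d * x⁻¹] from ?_)).symm⟩, mem_c1.2 (mem_c1.1 a1).symm⟩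
  rw [show u = u * (x * u * x⁻¹) * (x⁻¹ * u * x) * (x⁻¹ * u * x)⁻¹ * (x * u * x⁻¹)⁻¹ by group]
  simpa only [mul_assoc, mul_inv_cancel, mul_one, mul_inv_cancel_left] using
    mul_mem (mul_mem a3 (inv_mem a2)) (inv_mem a1)

/-- an involution outside `⟨z⟩` lies in an elementary abelian subgroup of order at least eight -/
theorem Hyp.e8 (h : Hyp z x) (hP : IsPGroup 2 P) (hz : P ≤ 𝐂[z]) (hx : x ∈ 𝐍(P)) (zP : z ∈ P) {u : G} (hu : u ∈ P)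
    (u2 : u * u = 1) (uz : u ∉ zpowers z) : ∃ E : Subgroup G, E ≤ P ∧ (∀ e ∈ E, e * e = 1) ∧ z ∈ E ∧ u ∈ E ∧
      x * u * x⁻¹ ∈ E ∧ x ∈ 𝐍(E) ∧ 8 ≤ #|E| := by
  have c := h.ucomm hP hz hx hu u2
  have le : omZ (P ⊓ 𝐂[u] ⊓ 𝐂[x * u * x⁻¹]) ≤ P := (omZ_le _).trans (inf_le_left.trans inf_le_left)
  have zE : z ∈ omZ (P ⊓ 𝐂[u] ⊓ 𝐂[x * u * x⁻¹]) :=
    ⟨⟨⟨zP, mem_c1.2 (mem_c1.1 (hz hu)).symm⟩, mem_c1.2 (mem_c1.1 (hz (conj_mem' hx hu))).symm⟩, h.iz.1,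
      fun s hs => mem_c1.1 (hz hs.1.1)⟩
  have uE : u ∈ omZ (P ⊓ 𝐂[u] ⊓ 𝐂[x * u * x⁻¹]) :=
    ⟨⟨⟨hu, mem_c1.2 rfl⟩, mem_c1.2 c⟩, u2, fun s hs => mem_c1.1 hs.1.2⟩
  have xE := norm_omZ _ (h.normD hP hz hx hu)
  exact ⟨_, le, fun e he => he.2.1, zE, uE, conj_mem' xE uE, xE, h.eight (hP.to_le le) (le.trans hz) xE zE uE uz⟩

end Cfsg.Agent.WA.Hw
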