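import Cfsg.Agent.WA.O8Def

/-! Reflections, Siegel transformations, the stabilizer of `one`. -/

set_option autoImplicit false

namespace Cfsg.Agent.WA.O8

open Equiv

variable {a b p q u v x : V}

theorem Q_one : Q one = 0 := by decide
theorem sm_one : sm one = 0 := by decide
theorem one_ne : one ≠ 0 := by decide
theorem sm_e : ∀ i, sm (e i) = 1 := by decide
theorem Q_e : ∀ i, Q (e i) = 0 := by decide
theorem sm_d : ∀ i j, sm (d i j) = 0 := by decide
theorem Q_d : ∀ i j, i ≠ j → Q (d i j) = 1 := by decide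
theorem B_one' (x : V) : B one x = sm x := by rw [B_comm, B_one]
theorem B_zero (y : V) : B 0 y = 0 := by simpa using B_smul 0 0 y
theorem B_zero' (y : V) : B y 0 = 0 := by rw [B_comm, B_zero]
theorem Q_add_one (x : V) : Q (x + one) = Q x + sm x := by rw [Q_add, Q_one, B_one, add_zero]
theorem F2ne : ∀ {c : F2}, c ≠ 0 → c = 1 := by decide
theorem F2ne' : ∀ {c : F2}, c ≠ 1 → c = 0 := by decide
theorem add_eq_zero_V : x + u = 0 ↔ x = u :=
  ⟨fun h => by rw [← add_zero x, ← add_self u, ← add_assoc, h, zero_add], fun h => h ▸ add_self x⟩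
theorem add_cancel (x y : V) : x + (x + y) = y := by rw [← add_assoc, add_self, zero_add]
theorem add_cancel' (x y : V) : x + y + y = x := by rw [add_assoc, add_self, add_zero]
theorem O.map_zero (g : O) : g 0 = 0 := g.1.map_zero
theorem O.B_inv (g : O) (x y : V) : B (g⁻¹ x) y = B x (g y) := by rw [← O.B_map g, O.apply_inv g]

theorem r_conj (g : O) (a : V) : g * r a * g⁻¹ = r (g a) := O.ext' fun x => by
  rw [O.mul_apply, O.mul_apply, r_apply, r_apply, O.map_add g, O.map_smul g, O.apply_inv g, O.B_inv g, O.Q_map g]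

theorem S_conj (g : O) (p u : V) : g * S p u * g⁻¹ = S (g p) (g u) := by
  by_cases h : Q p = 0 ∧ B u p = 0
  · refine O.ext' fun x => ?_
    rw [O.mul_apply, O.mul_apply, S_apply h.1 h.2, S_apply (by rw [O.Q_map g, h.1]) (by rw [O.B_map g, h.2])]
    simp only [O.map_add g, O.map_smul g, O.apply_inv g, O.B_inv g, O.Q_map g]
  · rw [S, dif_neg h, S, dif_neg (by rwa [O.Q_map g, O.B_map g]), mul_one, mul_inv_cancel]

theorem r_sq (a : V) : r a * r a = 1 := O.ext' fun x => by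
  rw [O.mul_apply, r_apply, r_apply, B_add, B_smul, B_self, mul_zero, add_zero, add_cancel', O.one_apply]

theorem r_inv (a : V) : (r a)⁻¹ = r a := inv_eq_of_mul_eq_one_right (r_sq a)

theorem r_app (ha : Q a = 1) (x : V) : r a x = x + B x a • a := by rw [r_apply, ha, one_mul]

theorem r_fix (h : B x a = 0) : r a x = x := by rw [r_apply, h, mul_zero, zero_smul, add_zero]

theorem r_move (hx : Q x = Q u) (h : Q (x + u) = 1) : r (x + u) x = u := by
  have := h
  rw [Q_add, hx, CharTwo.add_self_eq_zero, zero_add] at this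
  rw [r_app h, B_add', B_self, this, zero_add, one_smul, add_cancel]

theorem S_add (hp : Q p = 0) (hu : B u p = 0) (hv : B v p = 0) : S p (u + v) = S p u * S p v := O.ext' fun x => by
  rw [O.mul_apply, S_apply hp hu, S_apply hp hv, S_apply hp (by rw [B_add, hu, hv, add_zero])]
  simp only [B_add, B_add', B_smul, Q_add, hu, hv, B_self, B_comm p u, B_comm v u]
  module

theorem S_self (hp : Q p = 0) : S p p = 1 := O.ext' fun x => by
  rw [S_apply hp (B_self p), hp, zero_smul, add_zero, add_cancel', O.one_apply]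

theorem S_zero (p : V) : S p 0 = 1 := by
  by_cases hp : Q p = 0
  · exact O.ext' fun x => by
      rw [S_apply hp (B_zero p), B_zero', show Q 0 = 0 by decide, O.one_apply]; module
  · rw [S, dif_neg fun h => hp h.1]

theorem S_comm (hp : Q p = 0) (hq : Q q = 0) (h : B q p = 0) : S p q = S q p := O.ext' fun x => by
  rw [S_apply hp h, S_apply hq (by rw [B_comm, h]), hp, hq]; module

theorem S_rr (hp : Q p = 0) (ha : Q a = 1) (h : B a p = 0) : S p a = r a * r (a + p) := O.ext' fun x => by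
  rw [O.mul_apply, S_apply hp h, r_app ha, r_app (by rw [Q_add, ha, hp, h]; decide), ha]
  simp only [B_add, B_add', B_smul, B_self, B_comm p a, h]
  ext i
  simp only [Pi.add_apply, Pi.smul_apply, smul_eq_mul]
  generalize x i = s, p i = t, a i = w, B x a = m, B x p = n
  revert s t w m n; decide

theorem S_fix (hp : Q p = 0) (hu : B u p = 0) (hx : B x p = 0) : S p u x = x + B x u • p := by
  rw [S_apply hp hu, hx, zero_smul, add_zero]

/-- the image of `S p u - 1` is orthogonal to `p` and contains `p` -/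
theorem S_im (hp : Q p = 0) (hu : B u p = 0) (x : V) : B (S p u x + x) p = 0 := by
  rw [S_apply hp hu]
  simp only [B_add, B_smul, hu, B_self]
  generalize B x p = s, B x u = t, Q u = w
  revert s t w; decide

theorem exists_B (h0 : u ≠ 0) (hp0 : p ≠ 0) (h : u ≠ p) : ∃ x, B x p = 0 ∧ B x u = 1 := by
  by_contra H
  push Not at H
  have H' : ∀ x, B x p = 0 → B x u = 0 := fun x h => F2ne' (H x h)
  obtain ⟨y, hy⟩ : ∃ y, B y p = 1 := by
    by_contra h; push Not at h
    exact hp0 (B_nondeg p fun i => by rw [B_comm]; exact F2ne' (h _))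
  have : ∀ x, B x u = B x p * B y u := fun x => by
    have := H' (x + B x p • y) (by rw [B_add, B_smul, hy, mul_one, CharTwo.add_self_eq_zero])
    rwa [B_add, B_smul, CharTwo.add_eq_zero] at this
  rcases F2c (B y u) with e | e
  · exact h0 (B_nondeg u fun i => by rw [B_comm, this, e, mul_zero])
  · exact h (add_eq_zero_V.1 (B_nondeg _ fun i => by
      rw [B_comm, B_add', this, e, mul_one, CharTwo.add_self_eq_zero]))

theorem S_im' (hp : Q p = 0) (hp0 : p ≠ 0) (hu : B u p = 0) (h : S p u ≠ 1) : ∃ x, S p u x + x = p := by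
  obtain ⟨x, h1, h2⟩ := exists_B (u := u) (fun e => h (e ▸ S_zero p)) hp0 fun e => h (by rw [e, S_self hp])
  exact ⟨x, by rw [S_fix hp hu h1, h2, one_smul, add_comm, add_cancel]⟩

theorem S_eq_one (hp : Q p = 0) (hp0 : p ≠ 0) (hu : B u p = 0) (h : S p u = 1) : u = 0 ∨ u = p := by
  by_contra H
  push Not at H
  obtain ⟨x, h1, h2⟩ := exists_B H.1 hp0 H.2
  have := S_fix hp hu h1
  rw [h, h2, one_smul, O.one_apply, left_eq_add] at this
  exact hp0 this

theorem Bo (hu : sm u = 0) : B u one = 0 := (B_one u).trans hu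
theorem T_add (hu : sm u = 0) (hv : sm v = 0) : T (u + v) = T u * T v := S_add Q_one (Bo hu) (Bo hv)
theorem T_one : T one = 1 := S_self Q_one
theorem T_zero : T 0 = 1 := S_zero one
theorem T_sq (hu : sm u = 0) : T u * T u = 1 := by rw [← T_add hu hu, add_self, T_zero]
theorem T_add_one (hu : sm u = 0) (c : F2) : T (u + c • one) = T u := by
  rcases F2c c with rfl | rfl
  · rw [zero_smul, add_zero]
  · rw [one_smul, T_add hu sm_one, T_one, mul_one]
theorem T_eq_one (hu : sm u = 0) (h : T u = 1) : u = 0 ∨ u = one := S_eq_one Q_one one_ne (Bo hu) h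
theorem T_inj (hu : sm u = 0) (hv : sm v = 0) (h : T u = T v) : ∃ c : F2, u = v + c • one := by
  rcases T_eq_one (u := u + v) (by rw [sm_add, hu, hv, add_zero]) (by rw [T_add hu hv, h, T_sq hv]) with e | e
  · exact ⟨0, by rw [add_eq_zero_V.1 e, zero_smul, add_zero]⟩
  · exact ⟨1, by rw [one_smul, ← e, add_comm u, add_cancel]⟩
theorem T_even (hu : sm u = 0) (hx : sm x = 0) : T u x = x + B x u • one := S_fix Q_one (Bo hu) (Bo hx)
theorem T_onev (hu : sm u = 0) : T u one = one := by rw [T_even hu sm_one, B_one', hu, zero_smul, add_zero]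
theorem pm_T (σ : P8) (u : V) : pm σ * T u * (pm σ)⁻¹ = T (pv σ u) := S_conj _ _ _
theorem pm_T' (σ : P8) (u : V) : pm σ * T u = T (pv σ u) * pm σ := by rw [← pm_T, inv_mul_cancel_right]
theorem sm_map {g : O} (h : g one = one) (x : V) : sm (g x) = sm x := by rw [← B_one, ← B_one x, ← O.B_map g x, h]

theorem T_move (hx : Q x = 0) (hv : Q v = 0) (h1 : sm x = 1) (h2 : sm v = 1) : T (x + v) x = v := by
  have hs : sm (x + v) = 0 := by rw [sm_add, h1, h2]; decide
  rw [S_apply Q_one (Bo hs), B_one, h1, B_add', B_self, Q_add, hx, hv, one_smul, zero_add, zero_add, zero_add]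
  ext i
  simp only [Pi.add_apply, Pi.smul_apply, smul_eq_mul]
  generalize x i = s, v i = t, one i = w, B x v = m
  revert s t w m; decide

theorem pm_swap {i j : Fin 8} (h : i ≠ j) : pm (swap i j) = r (d i j) := O.ext fun k => by
  rw [pm_apply, pv_e, r_apply]
  revert i j k; decide +kernel

theorem pm_inj : Function.Injective pm := (injective_iff_map_eq_one pm).2 fun σ h => Equiv.ext fun i => by
  have : e (σ i) = e i := by rw [← pv_e, ← pm_apply, h]; rfl
  exact (by decide : ∀ i j, e i = e j → i = j) _ _ this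

def par (i j k l : Fin 8) : Bool := ((i == k) ^^ (i == l)) ^^ ((j == k) ^^ (j == l))
theorem B_dd : ∀ i j k l, B (d i j) (d k l) = 1 → par i j k l = true := by decide +kernel
theorem d_comm (i j : Fin 8) : d i j = d j i := add_comm _ _
theorem d_add (i j k : Fin 8) : d i j + d i k = d j k := by
  rw [d, d, d, add_add_add_comm, add_self, zero_add]
theorem nons : ∀ x : V, sm x = 0 ∧ Q x = 1 → ∃ k l, k ≠ l ∧ ∃ c : F2, x = d k l + c • one := by
  have : ∀ x : V, sm x = 0 ∧ Q x = 1 → ∃ k l, k ≠ l ∧ ∃ c : F2, ∀ i, x i = d k l i + c :=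
    all_dec (by decide +kernel)
  intro x h
  obtain ⟨k, l, h1, c, h2⟩ := this x h
  exact ⟨k, l, h1, c, funext fun i => by rw [h2]; simp [one]⟩
theorem star1 : ∀ i j k l : Fin 8, i ≠ j → k ≠ l → par i j k l = true →
    ∃ s y t, s ≠ y ∧ s ≠ t ∧ (i = s ∧ j = y ∨ i = y ∧ j = s) ∧ (k = s ∧ l = t ∨ k = t ∧ l = s) := by
  intro i j k l h1 h2 h
  have : i = k ∨ i = l ∨ j = k ∨ j = l := by revert i j k l; decide +kernel
  rcases this with rfl | rfl | rfl | rfl
  · exact ⟨i, j, l, h1, h2, .inl ⟨rfl, rfl⟩, .inl ⟨rfl, rfl⟩⟩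
  · exact ⟨i, j, k, h1, h2.symm, .inl ⟨rfl, rfl⟩, .inr ⟨rfl, rfl⟩⟩
  · exact ⟨j, i, l, h1.symm, h2, .inr ⟨rfl, rfl⟩, .inl ⟨rfl, rfl⟩⟩
  · exact ⟨j, i, k, h1.symm, h2.symm, .inr ⟨rfl, rfl⟩, .inr ⟨rfl, rfl⟩⟩
theorem star2 : ∀ s y t k l : Fin 8, par k l s y = true → par k l s t = true → par s y s t = true →
    k = s ∨ l = s ∨ (k = y ∧ l = t) ∨ (k = t ∧ l = y) := by decide +kernel

theorem star {w : Fin 8 → V} (h1 : ∀ j, j ≠ 0 → sm (w j) = 0 ∧ Q (w j) = 1)
    (h2 : ∀ j k, j ≠ 0 → k ≠ 0 → j ≠ k → B (w j) (w k) = 1) :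
    ∃ σ : P8, ∀ j, j ≠ 0 → ∃ c : F2, w j = d (σ 0) (σ j) + c • one := by
  choose! k l hkl c hc using fun j hj => nons _ (h1 j hj)
  have h3 : ∀ j m, j ≠ 0 → m ≠ 0 → B (w j) (w m) = B (d (k j) (l j)) (d (k m) (l m)) := fun j m hj hm => by
    rw [hc j hj, hc m hm]
    simp only [B_add, B_add', B_smul, B_smul', B_one, B_one', sm_d, sm_one, sm_add, sm_smul, mul_zero, add_zero]
  have n1 : (1 : Fin 8) ≠ 0 := by decide
  have n2 : (2 : Fin 8) ≠ 0 := by decide
  have h12 := (h3 1 2 n1 n2).symm.trans (h2 1 2 n1 n2 (by decide))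
  obtain ⟨s, y, t, hy, ht, e1, e2⟩ := star1 _ _ _ _ (hkl 1 n1) (hkl 2 n2) (B_dd _ _ _ _ h12)
  replace e1 : d (k 1) (l 1) = d s y := by
    rcases e1 with ⟨a, b⟩ | ⟨a, b⟩ <;> rw [a, b]; exact d_comm _ _
  replace e2 : d (k 2) (l 2) = d s t := by
    rcases e2 with ⟨a, b⟩ | ⟨a, b⟩ <;> rw [a, b]; exact d_comm _ _
  have h4 : ∀ j, j ≠ 0 → ∃ m, m ≠ s ∧ d (k j) (l j) = d s m := fun j hj => by
    by_cases j1 : j = 1
    · exact ⟨y, hy.symm, by rw [j1, e1]⟩
    by_cases j2 : j = 2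
    · exact ⟨t, ht.symm, by rw [j2, e2]⟩
    have : d (k j) (l j) ≠ d s y + d s t := fun h => by
      obtain ⟨m, m0, m1, m2, mj⟩ := (by decide : ∀ j : Fin 8, ∃ m, m ≠ 0 ∧ m ≠ 1 ∧ m ≠ 2 ∧ m ≠ j) j
      have := h2 m j m0 hj mj
      rw [h3 m j m0 hj, h, B_add', ← e1, ← e2, ← h3 m 1 m0 n1, ← h3 m 2 m0 n2, h2 m 1 m0 n1 m1, h2 m 2 m0 n2 m2] at this
      exact absurd this (by decide)
    rcases star2 s y t (k j) (l j) (B_dd _ _ _ _ (by rw [← e1, ← h3 j 1 hj n1, h2 j 1 hj n1 j1]))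
      (B_dd _ _ _ _ (by rw [← e2, ← h3 j 2 hj n2, h2 j 2 hj n2 j2])) (B_dd _ _ _ _ (by rw [← e1, ← e2, h12])) with
      h | h | h | h
    · exact ⟨l j, fun e => hkl j hj (h.trans e.symm), by rw [h]⟩
    · exact ⟨k j, fun e => hkl j hj (e.trans h.symm), by rw [h, d_comm]⟩
    · exact absurd (by rw [h.1, h.2, d_add]) this
    · exact absurd (by rw [h.1, h.2, d_add, d_comm]) this
  choose! m hm1 hm2 using h4
  let f : Fin 8 → Fin 8 := fun j => if j = 0 then s else m j
  have hf : Function.Injective f := fun i j e => by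
    by_contra hij
    by_cases hi : i = 0 <;> by_cases hj : j = 0 <;> simp only [f, hi, hj, if_true, if_false] at e
    · exact hij (hi.trans hj.symm)
    · exact hm1 j hj e.symm
    · exact hm1 i hi e
    · have := h2 i j hi hj hij
      rw [h3 i j hi hj, hm2 i hi, hm2 j hj, e, B_self] at this
      exact absurd this (by decide)
  refine ⟨Equiv.ofBijective f (Finite.injective_iff_bijective.1 hf), fun j hj => ⟨c j, ?_⟩⟩
  rw [hc j hj, hm2 j hj]
  simp [f, hj]

theorem ext0 {g : O} (h0 : g (e 0) = e 0) (h : ∀ j, j ≠ 0 → g (d 0 j) = d 0 j) : g = 1 := O.ext fun j => by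
  by_cases hj : j = 0
  · rw [hj, h0]; rfl
  · have := h j hj
    rwa [d, O.map_add g, h0, add_right_inj] at this

/-- an isometry acting on `one^⊥ / one` as the permutation `σ` -/
theorem stab' {g : O} (h : g one = one) {σ : P8} (H : ∀ j, j ≠ 0 → ∃ c : F2, g (d 0 j) = d (σ 0) (σ j) + c • one) :
    ∃ u, sm u = 0 ∧ g = T u * pm σ := by
  have h1 : sm (g (e 0)) = 1 := by rw [sm_map h, sm_e]
  have hu : sm (e (σ 0) + g (e 0)) = 0 := by rw [sm_add, h1, sm_e]; decide
  have h2 := T_move (Q_e (σ 0)) (by rw [O.Q_map g, Q_e]) (sm_e _) h1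
  refine ⟨_, hu, ?_⟩
  generalize e (σ 0) + g (e 0) = u at hu h2
  have h3 : ((T u * pm σ)⁻¹ * g) (e 0) = e 0 := by
    rw [O.mul_apply, ← h2, ← pv_e, ← pm_apply, ← O.mul_apply (T u), O.inv_apply]
  have h4 : (T u * pm σ) one = one := by rw [O.mul_apply, pm_apply, pv_onev, T_onev hu]
  refine (inv_mul_eq_one.1 (ext0 h3 fun j hj => ?_)).symm
  obtain ⟨c, hc⟩ := H j hj
  have h5 : ((T u * pm σ)⁻¹ * g) (d 0 j) = d 0 j + (c + B (d (σ 0) (σ j)) u) • one := O.inj (T u * pm σ) (by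
    rw [O.mul_apply _ g, O.apply_inv, hc, O.map_add, O.map_smul, h4, O.mul_apply, pm_apply, pv_d, T_even hu (sm_d _ _),
      add_assoc, ← add_smul, add_left_comm, CharTwo.add_self_eq_zero, add_zero])
  have h6 := O.B_map ((T u * pm σ)⁻¹ * g) (d 0 j) (e 0)
  rw [h3, h5, B_add, B_smul, B_one', sm_e, mul_one, add_eq_left] at h6
  rw [h5, h6, zero_smul, add_zero]

theorem stab {g : O} (h : g one = one) : ∃ u σ, sm u = 0 ∧ g = T u * pm σ := by
  obtain ⟨σ, hσ⟩ := star (w := fun j => g (d 0 j))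
    (fun j hj => ⟨by rw [sm_map h, sm_d], by rw [O.Q_map g, Q_d _ _ hj.symm]⟩)
    fun j k hj hk hjk => by rw [O.B_map g]; revert j k; decide
  obtain ⟨u, hu, e⟩ := stab' h hσ
  exact ⟨u, σ, hu, e⟩

end Cfsg.Agent.WA.O8
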