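import Cfsg.Agent.WA.O8A

/-! Generation by reflections; the commutator subgroup. -/

set_option autoImplicit false

namespace Cfsg.Agent.WA.O8

open Equiv
open scoped commutatorElement

variable {a b p q u v x : V}

theorem ev_ind {P : V → Prop} (h0 : P 0) (hs : ∀ u j, sm u = 0 → P u → P (u + d 0 j)) (hu : sm u = 0) : P u := by
  have e1 : u = ∑ j, u j • d 0 j := by
    simp only [d, smul_add, Finset.sum_add_distrib, ← Finset.sum_smul, ← sm_eq, hu, zero_smul, zero_add, ← eq_sum]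
  have : ∀ s : Finset (Fin 8), sm (∑ j ∈ s, u j • d 0 j) = 0 ∧ P (∑ j ∈ s, u j • d 0 j) := fun s => by
    refine Finset.induction_on s (by rw [Finset.sum_empty]; exact ⟨by decide, h0⟩) fun i s hi ih => ?_
    rw [Finset.sum_insert hi, add_comm]
    rcases F2c (u i) with h | h <;> rw [h]
    · rwa [zero_smul, add_zero]
    · rw [one_smul]; exact ⟨by rw [sm_add, ih.1, sm_d, add_zero], hs _ _ ih.1 ih.2⟩
  exact e1 ▸ (this _).2

theorem perm3 (i j k : Fin 8) (h1 : i ≠ j) (h2 : i ≠ k) (h3 : j ≠ k) :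
    ∃ σ : P8, Perm.sign σ = 1 ∧ σ 0 = i ∧ σ 1 = j ∧ σ 2 = k := by
  obtain ⟨σ, h⟩ : ∃ σ : P8, σ 0 = i ∧ σ 1 = j ∧ σ 2 = k :=
    ⟨swap (swap (swap 0 i 1) j (swap 0 i 2)) k * swap (swap 0 i 1) j * swap 0 i, by
      simp only [Perm.mul_apply]; revert i j k; decide +kernel⟩
  rcases Int.units_eq_one_or (Perm.sign σ) with e | e
  · exact ⟨σ, e, h⟩
  · exact ⟨σ * swap 6 7, by rw [map_mul, e, Perm.sign_swap (by decide)]; decide, h⟩

theorem perm2 (i j : Fin 8) (h : i ≠ j) : ∃ σ : P8, Perm.sign σ = 1 ∧ σ 0 = i ∧ σ 1 = j := by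
  obtain ⟨k, h1, h2⟩ := (by decide : ∀ i j : Fin 8, ∃ k, i ≠ k ∧ j ≠ k) i j
  obtain ⟨σ, h1, h2, h3, -⟩ := perm3 i j k h h1 h2
  exact ⟨σ, h1, h2, h3⟩

theorem nons_trans (ha : Q a = 1) : ∃ g : O, g a = d 0 1 := by
  obtain ⟨k, l, h1, h2⟩ := all_dec (P := fun a => Q a = 1 → ∃ k l, k ≠ l ∧ B a (d k l) = 1) (by decide +kernel) a ha
  obtain ⟨σ, -, rfl, rfl⟩ := perm2 k l h1
  refine ⟨(pm σ)⁻¹ * r (a + d (σ 0) (σ 1)), ?_⟩
  rw [O.mul_apply, r_move (ha.trans (Q_d _ _ h1).symm) (by rw [Q_add, ha, Q_d _ _ h1, h2]; decide), ← pv_d,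
    ← pm_apply, O.inv_apply]

theorem rr_mem (ha : Q a = 1) (hb : Q b = 1) : r a * r b ∈ Om := by
  obtain ⟨g, hg⟩ := nons_trans ha
  obtain ⟨h, hh⟩ := nons_trans hb
  have : b = (h⁻¹ * g) a := by rw [O.mul_apply, hg, ← hh, O.inv_apply]
  rw [this, ← r_conj, ← mul_assoc, ← mul_assoc]
  nth_rewrite 2 [← r_inv a]
  exact Subgroup.commutator_mem_commutator (Subgroup.mem_top _) (Subgroup.mem_top _)

def H0 : Subgroup O := Subgroup.closure {g | ∃ a b, Q a = 1 ∧ Q b = 1 ∧ g = r a * r b}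

theorem rr_H0 (ha : Q a = 1) (hb : Q b = 1) : r a * r b ∈ H0 := Subgroup.subset_closure ⟨a, b, ha, hb, rfl⟩

instance : H0.Normal := ⟨fun n hn g => by
  induction hn using Subgroup.closure_induction with
  | mem x hx =>
    obtain ⟨a, b, ha, hb, rfl⟩ := hx
    rw [← conj_mul, r_conj, r_conj]
    exact rr_H0 (by rw [O.Q_map, ha]) (by rw [O.Q_map, hb])
  | one => simp
  | mul x y _ _ hx hy => rw [← conj_mul]; exact mul_mem hx hy
  | inv x _ hx => rw [← conj_inv]; exact inv_mem hx⟩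

theorem T_d {i j : Fin 8} (h : i ≠ j) : T (d i j) = r (d i j) * r (d i j + one) :=
  S_rr Q_one (Q_d _ _ h) (Bo (sm_d _ _))

theorem Q_d1 {i j : Fin 8} (h : i ≠ j) : Q (d i j + one) = 1 := by rw [Q_add_one, Q_d _ _ h, sm_d, add_zero]

theorem d_self (i : Fin 8) : d i i = 0 := add_self _

theorem T_H0 (hu : sm u = 0) : T u ∈ H0 := ev_ind (P := fun u => T u ∈ H0) (T_zero ▸ one_mem _) (fun u j hu h => by
  rw [T_add hu (sm_d _ _)]
  refine mul_mem h ?_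
  by_cases hj : 0 = j
  · rw [← hj, d_self, T_zero]; exact one_mem _
  · rw [T_d hj]; exact rr_H0 (Q_d _ _ hj) (Q_d1 hj)) hu

theorem trans_H0 (hp : Q p = 0) (h0 : p ≠ 0) : ∃ g ∈ H0, g one = p := by
  have A : ∀ {q}, Q q = 0 → sm q = 1 → Q (one + q) = 1 := fun hq hs => by rw [add_comm, Q_add_one, hq, hs, zero_add]
  rcases F2c (sm p) with h | h
  · obtain ⟨i, hi⟩ := all_dec (P := fun p => p ≠ 0 → ∃ i, B (e i) p = 1) (by decide +kernel) p h0
    have h1 : Q (e i + p) = 1 := by rw [Q_add, Q_e, hp, hi]; decide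
    exact ⟨_, rr_H0 h1 (A (Q_e i) (sm_e i)), by
      rw [O.mul_apply, r_move (Q_one.trans (Q_e i).symm) (A (Q_e i) (sm_e i)), r_move ((Q_e i).trans hp.symm) h1]⟩
  · exact ⟨_, rr_H0 (A hp h) (Q_d 0 1 (by decide)), by
      rw [O.mul_apply, r_fix (a := d 0 1) (by decide), r_move (Q_one.trans hp.symm) (A hp h)]⟩

theorem dich0 (g : O) : (g : O ⧸ H0) ∈ Subgroup.zpowers (r (d 0 1) : O ⧸ H0) := by
  have A : ∀ g ∈ H0, (g : O ⧸ H0) ∈ Subgroup.zpowers (r (d 0 1) : O ⧸ H0) := fun g hg => by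
    rw [(QuotientGroup.eq_one_iff g).2 hg]; exact one_mem _
  obtain ⟨h, hh, e⟩ := trans_H0 (p := g one) (by rw [O.Q_map, Q_one])
    fun e => one_ne (O.inj g (e.trans (O.map_zero g).symm))
  obtain ⟨u, σ, hu, e⟩ := stab (g := h⁻¹ * g) (by rw [O.mul_apply, ← e, O.inv_apply])
  rw [inv_mul_eq_iff_eq_mul.1 e, QuotientGroup.mk_mul, QuotientGroup.mk_mul]
  refine mul_mem (A _ hh) (mul_mem (A _ (T_H0 hu)) ?_)
  refine Perm.swap_induction_on σ (by rw [map_one]; exact one_mem _) fun f i j hij ih => ?_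
  rw [map_mul, QuotientGroup.mk_mul, pm_swap hij]
  refine mul_mem ?_ ih
  rw [(QuotientGroup.eq.2 (by rw [r_inv]; exact rr_H0 (Q_d _ _ hij) (Q_d 0 1 (by decide))) :
    (r (d i j) : O ⧸ H0) = r (d 0 1))]
  exact Subgroup.mem_zpowers _

theorem Om_eq : Om = H0 := by
  refine le_antisymm (Subgroup.commutator_le.2 fun g _ h _ => (QuotientGroup.eq_one_iff _).1 ?_)
    ((Subgroup.closure_le _).2 ?_)
  · obtain ⟨i, hi⟩ := dich0 g
    obtain ⟨j, hj⟩ := dich0 h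
    change QuotientGroup.mk' H0 ⁅g, h⁆ = 1
    rw [map_commutatorElement, commutatorElement_eq_one_iff_commute, QuotientGroup.mk'_apply, QuotientGroup.mk'_apply,
      ← hi, ← hj]
    exact Commute.zpow_zpow_self _ _ _
  · rintro _ ⟨a, b, ha, hb, rfl⟩; exact rr_mem ha hb

theorem Om_ind {K : Subgroup O} (h : ∀ a, Q a = 1 → r a * r (d 0 1) ∈ K) : Om ≤ K := by
  rw [Om_eq]
  refine (Subgroup.closure_le _).2 ?_
  rintro _ ⟨a, b, ha, hb, rfl⟩
  have := mul_mem (h a ha) (inv_mem (h b hb))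
  rwa [mul_inv_rev, r_inv, r_inv, mul_assoc, ← mul_assoc (r (d 0 1)), r_sq, one_mul] at this

theorem T_mem (hu : sm u = 0) : T u ∈ Om := Om_eq ▸ T_H0 hu

theorem trans (hp : Q p = 0) (h0 : p ≠ 0) : ∃ g ∈ Om, g one = p := Om_eq ▸ trans_H0 hp h0

theorem dich (g : O) (ha : Q a = 1) : g ∈ Om ∨ g * r a ∈ Om := by
  obtain ⟨i, hi⟩ := dich0 g
  have h2 : (r (d 0 1) : O ⧸ H0) ^ (2 : ℤ) = 1 := by
    rw [zpow_two, ← QuotientGroup.mk_mul, r_sq]; rfl
  rcases Int.even_or_odd' i with ⟨k, rfl | rfl⟩ <;> simp only [zpow_add, zpow_mul, h2, one_zpow, zpow_one, one_mul] at hi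
  · exact .inl (Om_eq ▸ (QuotientGroup.eq_one_iff _).1 hi.symm)
  · refine .inr (Om_eq ▸ (QuotientGroup.eq_one_iff _).1 ?_)
    rw [QuotientGroup.mk_mul, ← hi, ← QuotientGroup.mk_mul]
    exact (QuotientGroup.eq_one_iff _).2 (rr_H0 (by decide) ha)

theorem S_mem (hp : Q p = 0) (h0 : p ≠ 0) (hu : B u p = 0) : S p u ∈ Om := by
  obtain ⟨g, hg, rfl⟩ := trans hp h0
  rw [← O.apply_inv g u, ← S_conj]
  exact mul_mem (mul_mem hg (T_mem (by rw [← B_one, O.B_inv, hu]))) (inv_mem hg)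

theorem S_pt {w : V} (hp : Q p = 0) (hu : B u p = 0) (hq : Q q = 0) (h0 : q ≠ 0) (hw : B w q = 0)
    (h : S q w = S p u) (h1 : S p u ≠ 1) : q = p ∨ q = u ∨ q = u + p := by
  obtain ⟨x, hx⟩ := S_im' hq h0 hw (h ▸ h1)
  rw [h, S_apply hp hu, add_comm, add_assoc x, add_cancel, smul_add, smul_smul, add_left_comm, ← add_smul] at hx
  rcases F2c (B x p) with e | e <;> rcases F2c (B x u + B x p * Q u) with f | f <;> rw [f, e] at hx <;>
    simp only [zero_smul, one_smul, add_zero, zero_add] at hx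
  · exact absurd hx.symm h0
  · exact .inl hx.symm
  · exact .inr (.inl hx.symm)
  · exact .inr (.inr hx.symm)

theorem S_ne (hp : Q p = 0) (h0 : p ≠ 0) (ha : Q a = 1) (h : B a p = 0) : S p a ≠ 1 := fun e => by
  rcases S_eq_one hp h0 h e with e | e <;> rw [e] at ha
  · exact absurd ha (by decide)
  · exact absurd (hp.symm.trans ha) (by decide)

theorem S_pt' {w : V} (hp : Q p = 0) (hp0 : p ≠ 0) (ha : Q a = 1) (hu : B a p = 0) (hq : Q q = 0) (h0 : q ≠ 0)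
    (hw : B w q = 0) (h : S q w = S p a) : q = p := by
  rcases S_pt hp hu hq h0 hw h (S_ne hp hp0 ha hu) with e | e | e
  · exact e
  · exact absurd (hq.symm.trans (e ▸ ha)) (by decide)
  · rw [e, Q_add, ha, hp, hu] at hq; exact absurd hq (by decide)

theorem O.ne_zero (g : O) (h : p ≠ 0) : g p ≠ 0 := fun e => h (O.inj g (e.trans (O.map_zero g).symm))

theorem fix_of_comm {c : O} (hp : Q p = 0) (hp0 : p ≠ 0) (ha : Q a = 1) (hu : B a p = 0)
    (h : c * S p a = S p a * c) : c p = p :=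
  S_pt' hp hp0 ha hu (by rw [O.Q_map, hp]) (O.ne_zero c hp0) (w := c a) (by rw [O.B_map, hu])
    (by rw [← S_conj, h, mul_inv_cancel_right])

theorem e_ne : ∀ i, e i ≠ 0 := by decide

theorem cent_Om {c : O} (h : ∀ g ∈ Om, g * c = c * g) : c = 1 := O.ext fun i => by
  obtain ⟨j, k, h1, h2⟩ := (by decide : ∀ i, ∃ j k, Q (d j k) = 1 ∧ B (d j k) (e i) = 0) i
  exact fix_of_comm (Q_e i) (e_ne i) h1 h2 (h _ (S_mem (Q_e i) (e_ne i) h2)).symm

end Cfsg.Agent.WA.O8
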