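import Cfsg.Agent.WA.O8T

/-! Parity, the permutation part of the stabilizer, the frame group. -/

set_option autoImplicit false

namespace Cfsg.Agent.WA.O8

open Equiv

variable {a b c p q u v w x : V} {g h : O}

theorem sgn_hom {Y : Type*} [Group Y] {H : Subgroup Y} (h : H.index = 2) : ∃ χ : Y →* ℤˣ, ∀ y, χ y = 1 ↔ y ∈ H := by
  classical
  refine ⟨MonoidHom.mk' (fun y => if y ∈ H then 1 else -1) fun x y => ?_, fun y => ?_⟩
  · by_cases hx : x ∈ H <;> by_cases hy : y ∈ H <;> simp [Subgroup.mul_mem_iff_of_index_two h, hx, hy]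
  · by_cases hy : y ∈ H <;> simp [hy]

theorem Om_index : Om.index = 2 := Subgroup.index_eq_two_iff.2 ⟨r (d 0 1), fun g => by
  rcases dich g (a := d 0 1) (by decide) with h | h
  · exact .inr ⟨h, fun h' => r_not_mem (a := d 0 1) (by decide) ((mul_mem_cancel_left h).1 h')⟩
  · exact .inl ⟨h, fun h' => r_not_mem (a := d 0 1) (by decide) ((mul_mem_cancel_left h').1 h)⟩⟩

/-- the Dickson invariant -/
noncomputable def sg : O →* ℤˣ := (sgn_hom Om_index).choose
theorem sg_iff : sg g = 1 ↔ g ∈ Om := (sgn_hom Om_index).choose_spec g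
theorem sg_r (ha : Q a = 1) : sg (r a) = -1 :=
  (Int.units_eq_one_or _).resolve_left fun e => r_not_mem ha (sg_iff.1 e)
theorem sg_T (hu : sm u = 0) : sg (T u) = 1 := sg_iff.2 (T_mem hu)
theorem sg_pm (σ : P8) : sg (pm σ) = Perm.sign σ :=
  Perm.swap_induction_on σ (by simp) fun f i j hij ih => by
    rw [map_mul, map_mul, map_mul, ih, pm_swap hij, sg_r (Q_d _ _ hij), Perm.sign_swap hij]
theorem pm_mem {σ : P8} (h : Perm.sign σ = 1) : pm σ ∈ Om := sg_iff.1 ((sg_pm σ).trans h)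

theorem pm_eq_T {σ : P8} (hu : sm u = 0) (h : pm σ = T u) : σ = 1 := by
  have A : ∀ j, ∃ c : F2, d (σ 0) (σ j) = d 0 j + c • one := fun j =>
    ⟨_, by rw [← pv_d, ← pm_apply, h, T_even hu (sm_d _ _)]⟩
  have B' : ∀ i k j : Fin 8, ∀ c : F2, d i k = d 0 j + c • one → j ≠ 0 → (i = 0 ∧ k = j) ∨ i = j := by decide +kernel
  have h0 : σ 0 = 0 := by
    obtain ⟨c, h1⟩ := A 1
    obtain ⟨c', h2⟩ := A 2
    rcases B' _ _ _ _ h1 (by decide) with e | e
    · exact e.1
    · rcases B' _ _ _ _ h2 (by decide) with f | f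
      · exact f.1
      · exact absurd (e.symm.trans f) (by decide)
  refine Equiv.ext fun j => ?_
  by_cases hj : j = 0
  · rw [hj, h0]; rfl
  · obtain ⟨c, h1⟩ := A j
    rcases B' _ _ _ _ h1 hj with e | e
    · exact e.2
    · exact absurd (e.symm.trans h0) hj

theorem T_inv (hu : sm u = 0) : (T u)⁻¹ = T u := inv_eq_of_mul_eq_one_right (T_sq hu)

theorem dec_uniq {σ τ : P8} (hu : sm u = 0) (hv : sm v = 0) (h : T u * pm σ = T v * pm τ) : σ = τ ∧ T u = T v := by
  have : σ * τ⁻¹ = 1 := pm_eq_T (u := u + v) (by rw [sm_add, hu, hv, add_zero]) (by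
    rw [T_add hu hv, map_mul, map_inv, mul_inv_eq_iff_eq_mul, mul_assoc, ← h, ← mul_assoc, T_sq hu, one_mul])
  rw [mul_inv_eq_one] at this
  exact ⟨this, mul_right_cancel (this ▸ h)⟩

theorem TP_mul (hu : sm u = 0) (hv : sm v = 0) (σ τ : P8) :
    T u * pm σ * (T v * pm τ) = T (u + pv σ v) * pm (σ * τ) := by
  rw [T_add hu ((sm_pv _ _).trans hv), map_mul, ← pm_T]; group

/-- the stabilizer of `one` -/
def St : Subgroup O := MulAction.stabilizer O one
theorem mem_St : g ∈ St ↔ g one = one := Iff.rfl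
theorem TP_mem (hu : sm u = 0) (σ : P8) : T u * pm σ ∈ St := by
  rw [mem_St, O.mul_apply, pm_apply, pv_onev, T_onev hu]
theorem stab2 (g : St) : ∃ σ u, sm u = 0 ∧ g.1 = T u * pm σ := let ⟨u, σ, h⟩ := stab (mem_St.1 g.2); ⟨σ, u, h⟩
noncomputable def sig : St →* P8 := MonoidHom.mk' (fun g => (stab2 g).choose) fun g h => by
  obtain ⟨u, h1, e1⟩ := (stab2 g).choose_spec
  obtain ⟨v, h2, e2⟩ := (stab2 h).choose_spec
  obtain ⟨w, h3, e3⟩ := (stab2 (g * h)).choose_spec
  exact (dec_uniq h3 (by rw [sm_add, h1, sm_pv, h2, add_zero])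
    (e3.symm.trans ((congrArg₂ (· * ·) e1 e2).trans (TP_mul h1 h2 _ _)))).1
theorem sig_spec (g : St) : ∃ u, sm u = 0 ∧ g.1 = T u * pm (sig g) := (stab2 g).choose_spec
theorem sig_eq {g : St} {σ : P8} (hu : sm u = 0) (h : g.1 = T u * pm σ) : sig g = σ := by
  obtain ⟨v, hv, e⟩ := sig_spec g
  exact (dec_uniq hv hu (e.symm.trans h)).1
theorem sign_of_mem {σ : P8} (hu : sm u = 0) (h : T u * pm σ ∈ Om) : Perm.sign σ = 1 := by
  rw [← sg_iff, map_mul, sg_T hu, one_mul, sg_pm] at h; exact h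

/-- orthogonal pairs of nonsingular vectors -/
def OP (a b : V) : Prop := Q a = 1 ∧ Q b = 1 ∧ B a b = 0 ∧ a ≠ b
theorem OP.map (h : OP a b) (g : O) : OP (g a) (g b) :=
  ⟨by rw [O.Q_map, h.1], by rw [O.Q_map, h.2.1], by rw [O.B_map, h.2.2.1], fun e => h.2.2.2 (O.inj g e)⟩
theorem OP.symm (h : OP a b) : OP b a := ⟨h.2.1, h.1, by rw [B_comm, h.2.2.1], h.2.2.2.symm⟩
instance (a b : V) : Decidable (OP a b) := by unfold OP; infer_instance
theorem OP_d : ∀ i j, i ≠ j → OP (d i j) (d i j + one) := by decide +kernel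
theorem OP_av : ∀ i j, i ≠ j → OP (av i) (av j) := by decide +kernel
theorem Q_av : ∀ i, Q (av i) = 1 := by decide +kernel

theorem r_comm (h : B a b = 0) : r a * r b = r b * r a := by
  rw [← mul_inv_eq_iff_eq_mul, r_conj, r_fix (by rw [B_comm, h])]

/-- an orthogonal pair is moved to `{d 0 1, d 0 1 + one}` -/
theorem OP.move (h : OP a b) : ∃ g ∈ Om, ∃ c : F2, g (d 0 1 + c • one) = a ∧ g (d 0 1 + c • one + one) = b := by
  obtain ⟨g, hg, e⟩ := trans (p := a + b) (by rw [Q_add, h.1, h.2.1, h.2.2.1]; decide)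
    fun e => h.2.2.2 (add_eq_zero_V.1 e)
  obtain ⟨k, l, hkl, c, hc⟩ := nons (g⁻¹ a) ⟨by rw [← B_one, O.B_inv, e, B_add', B_self, h.2.2.1, add_zero],
    by rw [O.Q_map, h.1]⟩
  obtain ⟨σ, hσ, rfl, rfl⟩ := perm2 k l hkl
  have : (g * pm σ) (d 0 1 + c • one) = a := by
    rw [O.mul_apply, pm_apply, pv_add, pv_smul, pv_onev, pv_d, ← hc, O.apply_inv]
  exact ⟨_, mul_mem hg (pm_mem hσ), c, this, by
    rw [O.map_add, this, O.mul_apply, pm_apply, pv_onev, e, add_cancel]⟩

theorem rr_T (c : F2) {i j : Fin 8} (h : i ≠ j) : r (d i j + c • one) * r (d i j + c • one + one) = T (d i j) := by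
  rcases F2c c with rfl | rfl
  · rw [zero_smul, add_zero, T_d h]
  · rw [one_smul, add_cancel', T_d h, r_comm (OP_d i j h).2.2.1]

theorem OP.conj (h : OP a b) : ∃ g ∈ Om, r a * r b = g * T (d 0 1) * g⁻¹ := by
  obtain ⟨g, hg, c, rfl, rfl⟩ := h.move
  exact ⟨g, hg, by rw [← r_conj, ← r_conj, conj_mul, rr_T c (by decide)]⟩

theorem T01_ne : T (d 0 1) ≠ 1 := S_ne Q_one one_ne (by decide) (by decide)

theorem alt_ind {H : Subgroup P8} (h : ∀ σ : P8, σ ^ 3 = 1 → σ 0 = 0 → σ 1 = 1 → σ ∈ H) {σ : P8}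
    (hs : Perm.sign σ = 1) (h0 : σ 0 = 0) (h1 : σ 1 = 1) : σ ∈ H := by
  let P : Fin 8 → Prop := fun i => i ≠ 0 ∧ i ≠ 1
  have hP : ∀ i, P (σ i) ↔ P i := fun i => by
    simp only [P]
    rw [← h0, ← h1, σ.injective.ne_iff, σ.injective.ne_iff, h0, h1]
  have e : Perm.ofSubtype (σ.subtypePerm hP) = σ := Perm.ofSubtype_subtypePerm hP fun i hi =>
    ⟨fun e => hi (by rw [e, h0]), fun e => hi (by rw [e, h1])⟩
  have : σ.subtypePerm hP ∈ Subgroup.closure {τ : Perm {i // P i} | τ.IsThreeCycle} := by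
    rw [Perm.closure_three_cycles_eq_alternating, Perm.mem_alternatingGroup, ← Perm.sign_ofSubtype, e, hs]
  rw [← e]
  refine (Subgroup.closure_le (H.comap Perm.ofSubtype)).2 (fun τ (hτ : τ.IsThreeCycle) => h _ ?_ ?_ ?_) this
  · rw [← map_pow, ← hτ.orderOf, pow_orderOf_eq_one, map_one]
  · exact Perm.ofSubtype_apply_of_not_mem τ fun h => h.1 rfl
  · exact Perm.ofSubtype_apply_of_not_mem τ fun h => h.2 rfl

/-- additive-to-multiplicative homomorphisms on `V` -/
def Hm {Y : Type*} [Group Y] (η : V → Y) : Prop := ∀ u v, η (u + v) = η u * η v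

theorem exists_eta {Y : Type*} [Group Y] (f : Fin 8 → Y) (hc : ∀ i j, f i * f j = f j * f i) (h2 : ∀ i, f i * f i = 1) :
    ∃ η : V → Y, Hm η ∧ ∀ i, η (e i) = f i := by
  letI := Subgroup.closureCommGroupOfComm (k := Set.range f) (by rintro _ ⟨i, rfl⟩ _ ⟨j, rfl⟩; exact hc i j)
  let F : Fin 8 → Subgroup.closure (Set.range f) := fun i => ⟨f i, Subgroup.subset_closure ⟨i, rfl⟩⟩
  have hF : ∀ i (s t : F2), F i ^ (s + t).val = F i ^ s.val * F i ^ t.val := fun i s t => by
    have : F i * F i = 1 := Subtype.ext (h2 i)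
    rcases F2c s with rfl | rfl <;> rcases F2c t with rfl | rfl <;>
      simp [ZMod.val_one, this, show ((1 : F2) + 1) = 0 from rfl]
  refine ⟨fun u => (∏ i, F i ^ (u i).val :), fun u v => ?_, fun i => ?_⟩
  · simp only [Pi.add_apply, hF, Finset.prod_mul_distrib]; rfl
  · beta_reduce
    rw [Finset.prod_eq_single i (fun j _ hj => by simp [e, hj]) (by simp)]
    simp [e, ZMod.val_one, F]

namespace Hm
variable {Y : Type*} [Group Y] {η : V → Y}
theorem zero (h : Hm η) : η 0 = 1 := by have := h 0 0; rwa [add_zero, left_eq_mul] at this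
theorem sq (h : Hm η) (u : V) : η u * η u = 1 := by rw [← h, add_self, h.zero]
theorem inv (h : Hm η) (u : V) : (η u)⁻¹ = η u := inv_eq_of_mul_eq_one_right (h.sq u)
theorem comm (h : Hm η) (u v : V) : η u * η v = η v * η u := by rw [← h, ← h, add_comm]
theorem d (h : Hm η) (i j : Fin 8) : η (d i j) = η (e i) * η (e j) := h _ _
end Hm

theorem all_ind {P : V → Prop} (h0 : P 0) (hs : ∀ x i, P x → P (x + e i)) (x : V) : P x := by
  rw [eq_sum x]
  refine Finset.induction_on Finset.univ (by simpa using h0) fun i s hi ih => ?_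
  rw [Finset.sum_insert hi, add_comm]
  rcases F2c (x i) with h | h <;> rw [h]
  · simpa using ih
  · rw [one_smul]; exact hs _ _ ih

theorem B_av : ∀ i j, B (av i) (av j) = 0 := by decide +kernel

/-- the group generated by the reflections in the frame `av` -/
noncomputable def R : V → O :=
  (exists_eta (fun i => r (av i)) (fun i j => r_comm (B_av i j)) fun i => r_sq _).choose
theorem R_hm : Hm R := (exists_eta (fun i => r (av i)) (fun i j => r_comm (B_av i j)) fun i => r_sq _).choose_spec.1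
theorem R_e (i : Fin 8) : R (e i) = r (av i) :=
  (exists_eta (fun i => r (av i)) (fun i j => r_comm (B_av i j)) fun i => r_sq _).choose_spec.2 i
theorem R_d (i j : Fin 8) : R (d i j) = r (av i) * r (av j) := by rw [R_hm.d, R_e, R_e]

def sA (w : V) : V := ∑ i, w i • av i
theorem sA_add (u v : V) : sA (u + v) = sA u + sA v := by simp only [sA, Pi.add_apply, add_smul, Finset.sum_add_distrib]
theorem sA_e (i : Fin 8) : sA (e i) = av i := by simp [sA, e]
theorem B_sA (w : V) (i : Fin 8) : B (sA w) (av i) = 0 :=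
  all_ind (P := fun w => B (sA w) (av i) = 0) (by simp [sA, B_zero])
    (fun x j h => by rw [sA_add, B_add, h, sA_e, B_av, add_zero]) w

theorem R_apply (w x : V) : R w x = x + sA fun i => w i * B x (av i) :=
  all_ind (P := fun w => R w x = x + sA fun i => w i * B x (av i)) (by simp [R_hm.zero, O.one_apply, sA])
    (fun w i h => by
      rw [add_comm w, R_hm, O.mul_apply, h, R_e, r_app (Q_av i), B_add, B_sA, add_zero, add_assoc, add_right_inj]
      simp [sA, e, add_mul, add_smul, Finset.sum_add_distrib, add_comm]) w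

theorem R_one : R one = 1 := O.ext fun i => by rw [R_apply, O.one_apply]; revert i; decide +kernel
theorem R_add_one (w : V) (c : F2) : R (w + c • one) = R w := by
  rcases F2c c with rfl | rfl
  · rw [zero_smul, add_zero]
  · rw [one_smul, R_hm, R_one, mul_one]
theorem R_eq_one (h : R w = 1) : w = 0 ∨ w = one :=
  all_dec (P := fun w => (∀ k, (sA fun i => w i * B (e k) (av i)) = 0) → w = 0 ∨ w = one) (by decide +kernel) w
    fun k => by have := R_apply w (e k); rwa [h, O.one_apply, left_eq_add] at this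
theorem R_inj (h : R u = R v) : ∃ c : F2, u = v + c • one := by
  rcases R_eq_one (w := u + v) (by rw [R_hm, h, R_hm.sq]) with e | e
  · exact ⟨0, by rw [add_eq_zero_V.1 e, zero_smul, add_zero]⟩
  · exact ⟨1, by rw [one_smul, ← e, add_comm u, add_cancel]⟩
theorem R_mem : R w ∈ Om ↔ sm w = 0 :=
  all_ind (P := fun w => R w ∈ Om ↔ sm w = 0) (by rw [R_hm.zero]; exact iff_of_true (one_mem _) (by decide))
    (fun w i h => by
      rw [R_hm, Subgroup.mul_mem_iff_of_index_two Om_index, h, R_e, iff_false_intro (r_not_mem (Q_av i)), sm_add, sm_e]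
      generalize sm w = s; revert s; decide) w
theorem av_inj : ∀ i j, av i = av j → i = j := by decide +kernel
theorem av_x3 : ∀ i j k, av (x3 i j k) = av i + av j + av k := by decide +kernel

theorem frame (H : ∀ i j, ∃ w, h * (r (av i) * r (av j)) * h⁻¹ = R w) : ∃ μ : P8, Aff μ ∧ ∀ i, h (av i) = av (μ i) := by
  have A : ∀ w, Q (sA w) = 1 → ∃ k, sA w = av k := all_dec (by decide +kernel)
  have : ∀ i, ∃ k, h (av i) = av k := fun i => by
    obtain ⟨j, hj⟩ := exists_ne i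
    obtain ⟨w, hw⟩ := H i j
    have o := (OP_av i j hj.symm).map h
    obtain ⟨x, h1, h2⟩ := exists_B (u := h (av i)) (p := h (av j)) (fun e => absurd (e ▸ o.1) (by decide))
      (fun e => absurd (e ▸ o.2.1) (by decide)) o.2.2.2
    have := R_apply w x
    rw [← hw, ← conj_mul, r_conj, r_conj, O.mul_apply, r_fix h1, r_app o.1, h2, one_smul, add_right_inj] at this
    rw [this]
    exact A _ (this ▸ o.1)
  choose f hf using this
  have hi : Function.Injective f := fun i j e => av_inj _ _ (O.inj h (by rw [hf, hf, e]))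
  refine ⟨Equiv.ofBijective f (Finite.injective_iff_bijective.1 hi), fun i j k => av_inj _ _ ?_, hf⟩
  change av (f _) = av (x3 (f i) (f j) (f k))
  rw [av_x3, ← hf, ← hf, ← hf, ← hf, av_x3, O.map_add, O.map_add]

theorem frame_sA {μ : P8} (H : ∀ i, h (av i) = av (μ i)) (w : V) : sA (pv μ w) = h (sA w) :=
  all_ind (P := fun w => sA (pv μ w) = h (sA w)) (by simp [sA, pv, O.map_zero])
    (fun w i e => by rw [pv_add, sA_add, sA_add, e, pv_e, sA_e, sA_e, O.map_add, H]) w

theorem s4_sq : ∀ i, s4 (s4 i) = i := by decide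
theorem B0_comm {σ : P8} (hσ : ∀ i, σ i = i ∨ σ i = s4 i) (i : Fin 8) : σ (s4 i) = s4 (σ i) := by
  rcases hσ i with e | e <;> rcases hσ (s4 i) with f | f
  · rw [e, f]
  · exact absurd (σ.injective (f.trans ((s4_sq i).trans e.symm))) ((by decide : ∀ i, s4 i ≠ i) i)
  · exact absurd (σ.injective (f.trans e.symm)) ((by decide : ∀ i, s4 i ≠ i) i)
  · rw [e, f]

theorem TP_R {σ : P8} (hσ : ∀ i, σ i = i ∨ σ i = s4 i) (hv : pv s4 v = v) : ∃ w, T v * pm σ = R w := by
  let K : Subgroup O :=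
    { carrier := Set.range R
      one_mem' := ⟨0, R_hm.zero⟩
      mul_mem' := by rintro _ _ ⟨u, rfl⟩ ⟨v, rfl⟩; exact ⟨u + v, R_hm u v⟩
      inv_mem' := by rintro _ ⟨u, rfl⟩; exact ⟨u, (R_hm.inv u).symm⟩ }
  have h1 : ∀ i, r (av i) ∈ K := fun i => ⟨_, R_e i⟩
  have h2 : ∀ (s : Bool) {i j : Fin 8} (k : Fin 8), i ≠ j → d i j = av k → pm (bif s then swap i j else 1) ∈ K :=
    fun s i j k h e => by
      cases s
      · exact map_one pm ▸ one_mem K
      · exact (show pm (swap i j) ∈ K by rw [pm_swap h, e]; exact h1 k)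
  have h3 : ∀ (c : F2) {i j : Fin 8} (k l : Fin 8), i ≠ j → d i j = av k → d i j + one = av l → T (c • d i j) ∈ K :=
    fun c i j k l h e f => by
      rcases F2c c with rfl | rfl
      · rw [zero_smul, T_zero]; exact one_mem K
      · rw [one_smul, T_d h, f, e]; exact mul_mem (h1 k) (h1 l)
  have h4 : T v ∈ K := by
    have s : ∀ (c : F2) i j, sm (c • d i j) = 0 := fun c i j => by rw [sm_smul, sm_d, mul_zero]
    rw [all_dec (P := fun v => pv s4 v = v → v = v 0 • d 0 1 + (v 2 • d 2 3 + (v 4 • d 4 5 + v 6 • d 6 7)))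
      (by decide +kernel) v hv, T_add (s _ _ _) (by simp only [sm_add, s, add_zero]),
      T_add (s _ _ _) (by simp only [sm_add, s, add_zero]), T_add (s _ _ _) (s _ _ _)]
    exact mul_mem (h3 _ 0 4 (by decide) rfl rfl) (mul_mem (h3 _ 1 5 (by decide) rfl rfl)
      (mul_mem (h3 _ 2 6 (by decide) rfl rfl) (h3 _ 7 3 (by decide) rfl rfl)))
  obtain ⟨s0, s1, s2, s3, e⟩ : ∃ s0 s1 s2 s3 : Bool, σ = (bif s0 then swap 0 1 else 1) * ((bif s1 then swap 2 3 else 1) *
      ((bif s2 then swap 4 5 else 1) * (bif s3 then swap 6 7 else 1))) := by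
    have : ∀ a0 a2 a4 a6 : Fin 8, a0 = 0 ∨ a0 = s4 0 → a2 = 2 ∨ a2 = s4 2 → a4 = 4 ∨ a4 = s4 4 → a6 = 6 ∨ a6 = s4 6 →
        ∃ s0 s1 s2 s3 : Bool, ∀ i, ![a0, s4 a0, a2, s4 a2, a4, s4 a4, a6, s4 a6] i =
          ((bif s0 then swap 0 1 else 1) * ((bif s1 then swap 2 3 else 1) *
            ((bif s2 then swap 4 5 else 1) * (bif s3 then swap 6 7 else 1))) : P8) i := by
      rintro _ _ _ _ (rfl | rfl) (rfl | rfl) (rfl | rfl) (rfl | rfl) <;> decide +kernel
    obtain ⟨s0, s1, s2, s3, e⟩ := this _ _ _ _ (hσ 0) (hσ 2) (hσ 4) (hσ 6)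
    refine ⟨s0, s1, s2, s3, Equiv.ext fun i => (e i).symm ▸ ?_⟩
    fin_cases i
    exacts [rfl, B0_comm hσ 0, rfl, B0_comm hσ 2, rfl, B0_comm hσ 4, rfl, B0_comm hσ 6]
  obtain ⟨w, hw⟩ : T v * pm σ ∈ K := by
    rw [e, map_mul, map_mul, map_mul]
    exact mul_mem h4 (mul_mem (h2 _ 0 (by decide) rfl) (mul_mem (h2 _ 1 (by decide) rfl)
      (mul_mem (h2 _ 2 (by decide) rfl) (h2 _ 7 (by decide) rfl))))
  exact ⟨w, hw.symm⟩

end Cfsg.Agent.WA.O8
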