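import Cfsg.Agent.WA.O8Def

/-! Elementary abelian subgroups of `S₈` and their fixed vectors. -/

set_option autoImplicit false

namespace Cfsg.Agent.WA.O8

open Equiv Finset

namespace Xc

theorem ai (a : P8) (i : Fin 8) : a (a⁻¹ i) = i := a.apply_symm_apply i

theorem ia (a : P8) (i : Fin 8) : a⁻¹ (a i) = i := a.symm_apply_apply i

theorem ctype {π : P8} (h : π * π = 1) (hf : ∀ i, π i ≠ i) : π.cycleType = Multiset.replicate 4 2 := by
  have h1 := Perm.cycleType_of_pow_prime_eq_one (σ := π) (p := 2) (by rw [pow_two, h])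
  have h2 := π.sum_cycleType
  rw [show π.support = univ from eq_univ_of_forall fun i => Perm.mem_support.2 (hf i), h1, Multiset.sum_replicate,
    card_univ, Fintype.card_fin, smul_eq_mul] at h2
  rw [h1, show π.cycleType.card = 4 by omega]

theorem conj_s4 {π : P8} (h : π * π = 1) (hf : ∀ i, π i ≠ i) : ∃ τ : P8, Perm.sign τ = 1 ∧ τ * π * τ⁻¹ = s4 := by
  obtain ⟨τ, e⟩ := isConj_iff.1 (Perm.isConj_of_cycleType_eq ((ctype h hf).trans
    (ctype (π := s4) (by decide) (by decide)).symm))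
  rcases Int.units_eq_one_or (Perm.sign τ) with s | s
  · exact ⟨τ, s, e⟩
  · refine ⟨swap 0 1 * τ, by rw [map_mul, s, Perm.sign_swap (by decide)]; rfl, ?_⟩
    rw [show swap 0 1 * τ * π * (swap 0 1 * τ)⁻¹ = swap 0 1 * (τ * π * τ⁻¹) * (swap 0 1)⁻¹ by group, e]
    decide

theorem conj_pt {σ π τ : P8} (e : τ * π * τ⁻¹ = s4) (h : ∀ i, σ i = i ∨ σ i = π i) (i : Fin 8) :
    (τ * σ * τ⁻¹) i = i ∨ (τ * σ * τ⁻¹) i = s4 i := by
  rw [← e]
  simp only [Perm.mul_apply]
  exact (h (τ⁻¹ i)).imp (fun h => by rw [h, ai]) fun h => by rw [h]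

theorem pv_fix {σ : P8} {v : V} (h : pv σ v = v) (i : Fin 8) : v (σ i) = v i := by
  rw [← congrFun h (σ i), pv, ia]

theorem pv_swap {v : V} {i j : Fin 8} (h : v i = v j) : pv (swap i j) v = v := by
  funext k
  rw [pv, swap_inv, swap_apply_def]
  split_ifs with h1 h2
  · rw [h1, h]
  · rw [h2, h]
  · rfl

theorem other {σ : P8} (h : σ * σ = 1) {v : V} (hv : sm v = 0) (hf : pv σ v = v) {i : Fin 8} (hi : σ i = i) :
    ∃ j, j ≠ i ∧ σ j = j ∧ v j = v i := by
  by_contra hn
  push Not at hn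
  have ss : ∀ k, σ (σ k) = k := fun k => by rw [← Perm.mul_apply, h, Perm.one_apply]
  have h1 : ∑ k ∈ univ.erase i, (v k + v i + 1) = 0 := sum_involution (fun k _ => σ k)
    (fun k _ => by rw [pv_fix hf]; exact CharTwo.add_self_eq_zero _)
    (fun k hk h0 e => hn k (ne_of_mem_erase hk) e (by
      revert h0; generalize v k = a; generalize v i = b; revert a b; decide))
    (fun k hk => mem_erase.2 ⟨fun e => ne_of_mem_erase hk (by rw [← ss k, e, hi]), mem_univ _⟩) fun k _ => ss k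
  have h2 := add_sum_erase univ (fun k => v k + v i + 1) (mem_univ i)
  rw [h1, sum_add_distrib, sum_add_distrib, ← sm_eq, hv, sum_const, sum_const, card_univ, Fintype.card_fin] at h2
  revert h2; generalize v i = b; revert b; decide

theorem extend (v : V) (hv : sm v = 0) (n : ℕ) : ∀ σ : P8, σ * σ = 1 → pv σ v = v → 8 ≤ σ.support.card + n →
    ∃ π : P8, π * π = 1 ∧ (∀ i, π i ≠ i) ∧ pv π v = v ∧ ∀ i, σ i = i ∨ σ i = π i := by
  induction n with
  | zero => exact fun σ h hf hc => ⟨σ, h, fun i => Perm.mem_support.1 (by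
      rw [eq_univ_of_card σ.support (le_antisymm (card_le_univ _) hc)]; exact mem_univ i), hf, fun i => Or.inr rfl⟩
  | succ n ih =>
    intro σ h hf hc
    by_cases h0 : ∀ i, σ i ≠ i
    · exact ⟨σ, h, h0, hf, fun i => Or.inr rfl⟩
    push Not at h0
    obtain ⟨i, hi⟩ := h0
    obtain ⟨j, ji, hj, e⟩ := other h hv hf hi
    have key : ∀ k, σ k ≠ k → (σ * swap i j) k = σ k := fun k hk => by
      rw [Perm.mul_apply, swap_apply_of_ne_of_ne (fun e : k = i => hk (e ▸ hi)) fun e : k = j => hk (e ▸ hj)]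
    obtain ⟨π, h1, h2, h3, h4⟩ := ih (σ * swap i j) (by
      have := swap_apply_apply σ i j
      rw [hi, hj, inv_eq_of_mul_eq_one_right h] at this
      rw [← mul_assoc, ← this, swap_mul_self]) (by rw [pv_mul, pv_swap e.symm, hf]) (by
      have : σ.support ⊂ (σ * swap i j).support := Finset.ssubset_iff_subset_ne.2 ⟨fun k hk => by
        rw [Perm.mem_support] at hk ⊢; rwa [key k hk], fun e => by
        have : i ∈ (σ * swap i j).support := Perm.mem_support.2 (by rwa [Perm.mul_apply, swap_apply_left, hj])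
        exact Perm.mem_support.1 (e ▸ this) hi⟩
      have := card_lt_card this
      omega)
    refine ⟨π, h1, h2, h3, fun k => or_iff_not_imp_left.2 fun hk => ?_⟩
    have := h4 k
    rw [key k hk] at this
    exact this.resolve_left hk

theorem LA {A : Subgroup P8} (S : Finset (Fin 8)) (T : Fin 8 → Finset (Fin 8)) (hT : ∀ a ∈ A, ∀ r, a r ∈ T r)
    (h : ∀ a ∈ A, (∀ r ∈ S, a r = r) → a = 1) : Nat.card A ≤ ∏ r ∈ S, (T r).card := by
  have := Nat.card_le_card_of_injective (fun (a : A) (r : S) => (⟨a.1 r, hT a a.2 r⟩ : T r)) fun a b e =>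
    Subtype.ext (inv_mul_eq_one.1 (h _ (A.mul_mem (A.inv_mem a.2) b.2) fun r hr => by
      rw [Perm.mul_apply, Perm.inv_eq_iff_eq]; exact congrArg Subtype.val (congrFun e ⟨r, hr⟩).symm))
  simpa [Nat.card_pi, prod_attach S fun r => (T r).card] using this

theorem LC {C : Submodule F2 V} (S : Finset (Fin 8)) (h : ∀ c ∈ C, (∀ r ∈ S, c r = 0) → c = 0) :
    Nat.card C ≤ ∏ _r ∈ S, 2 := by
  have := Nat.card_le_card_of_injective (fun (c : C) (r : S) => c.1 r) fun a b e =>
    Subtype.ext (sub_eq_zero.1 (h _ (C.sub_mem a.2 b.2) fun r hr => sub_eq_zero.2 (congrFun e ⟨r, hr⟩)))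
  simpa [Nat.card_pi] using this

/-- the group of the standard pairing -/
def W : Subgroup P8 where
  carrier := {a | ∀ i, a i = i ∨ a i = s4 i}
  one_mem' := fun _ => Or.inl rfl
  mul_mem' := fun {a b} ha hb i => by
    have s : ∀ i, s4 (s4 i) = i := by decide
    rcases hb i with e | e <;> rw [Perm.mul_apply, e]
    · exact ha i
    · exact (ha _).symm.imp (fun h => h.trans (s i)) id
  inv_mem' := fun {a} ha i => by
    have s : ∀ i, s4 (s4 i) = i := by decide
    exact (ha (a⁻¹ i)).imp (fun h => by rw [← h, ai]) fun h => by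
      rw [← s (a⁻¹ i), ← h, ai]

theorem eq_one_of {a : P8} (hs : Perm.sign a = 1) (h : a.support.card ≤ 2) : a = 1 := by
  by_contra hn
  rw [(Perm.card_support_eq_two.1 (le_antisymm h (Perm.two_le_card_support_of_ne_one hn))).sign_eq] at hs
  exact absurd hs (by decide)

theorem W_fix {a : P8} (ha : a ∈ W) {i : Fin 8} (h : a i = i) : a (s4 i) = s4 i :=
  (ha _).resolve_right fun e => (by decide : ∀ i, s4 i ≠ i) i (a.injective (by
    rw [e, h]; exact (by decide : ∀ i, s4 (s4 i) = i) i))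

theorem card_T (S : Finset (Fin 8)) : ∏ r ∈ S, ({r, s4 r} : Finset (Fin 8)).card ≤ 2 ^ S.card :=
  prod_le_pow_card _ _ _ fun _ _ => card_le_two

theorem card_W : Nat.card W ≤ 16 :=
  (LA {0, 2, 4, 6} (fun r => {r, s4 r}) (fun a ha r => by simpa using ha r) fun a ha h => Perm.ext fun i => by
    rcases (by decide : ∀ i : Fin 8, ∃ r ∈ ({0, 2, 4, 6} : Finset (Fin 8)), i = r ∨ i = s4 r) i with ⟨r, hr, rfl | rfl⟩
    · exact h _ hr
    · exact W_fix ha (h r hr)).trans (card_T _)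

theorem card_W0 : Nat.card ↥(W ⊓ alternatingGroup (Fin 8)) ≤ 8 :=
  (LA (A := W ⊓ alternatingGroup (Fin 8)) {2, 4, 6} (fun r => {r, s4 r}) (fun a ha r => by simpa using ha.1 r) fun a ha h => eq_one_of ha.2
    ((card_le_card fun i hi => by
      rcases (by decide : ∀ i : Fin 8, i ∈ ({0, 1} : Finset (Fin 8)) ∨
        ∃ r ∈ ({2, 4, 6} : Finset (Fin 8)), i = r ∨ i = s4 r) i with e | ⟨r, hr, rfl | rfl⟩
      · exact e
      · exact absurd (h _ hr) (Perm.mem_support.1 hi)
      · exact absurd (W_fix ha.1 (h r hr)) (Perm.mem_support.1 hi)).trans card_le_two)).trans (card_T _)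

variable (A : Subgroup P8)

open Classical in
/-- orbits -/
noncomputable def orb (i : Fin 8) : Finset (Fin 8) := univ.filter fun j => ∃ a ∈ A, a i = j

variable {A}

theorem mem_orb {i j : Fin 8} : j ∈ orb A i ↔ ∃ a ∈ A, a i = j := by simp [orb]

theorem self_orb (i : Fin 8) : i ∈ orb A i := mem_orb.2 ⟨1, A.one_mem, rfl⟩

theorem orb_eq {i j : Fin 8} (h : j ∈ orb A i) : orb A j = orb A i := by
  obtain ⟨a, ha, rfl⟩ := mem_orb.1 h
  ext k
  simp only [mem_orb]
  exact ⟨fun ⟨b, hb, e⟩ => ⟨b * a, A.mul_mem hb ha, e⟩, fun ⟨b, hb, e⟩ => ⟨b * a⁻¹, A.mul_mem hb (A.inv_mem ha), by simpa⟩⟩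

variable (A) in
/-- orbit representatives -/
noncomputable def rep (i : Fin 8) : Fin 8 := (orb A i).min' ⟨i, self_orb i⟩

theorem rep_mem (i : Fin 8) : rep A i ∈ orb A i := min'_mem _ _

theorem mem_rep (i : Fin 8) : i ∈ orb A (rep A i) := orb_eq (rep_mem i) ▸ self_orb i

theorem rep_eq {i j : Fin 8} (h : j ∈ orb A i) : rep A j = rep A i := by simp only [rep, orb_eq h]

theorem sum_orb : ∑ r ∈ univ.image (rep A), (orb A r).card = 8 := by
  refine Eq.symm ((card_eq_sum_card_image (rep A) univ).trans (sum_congr rfl fun r hr => congrArg card ?_))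
  obtain ⟨i, -, rfl⟩ := mem_image.1 hr
  ext j
  simp only [mem_filter, mem_univ, true_and]
  exact ⟨fun e => e ▸ mem_rep j, fun e => (rep_eq e).trans (rep_eq (rep_mem i))⟩

variable (hA : ∀ a ∈ A, a * a = 1)
include hA

theorem comm {a b : P8} (ha : a ∈ A) (hb : b ∈ A) (i : Fin 8) : a (b i) = b (a i) := by
  have := inv_eq_of_mul_eq_one_right (hA _ (A.mul_mem ha hb))
  rw [mul_inv_rev, inv_eq_of_mul_eq_one_right (hA a ha), inv_eq_of_mul_eq_one_right (hA b hb)] at this
  rw [← Perm.mul_apply, ← this, Perm.mul_apply]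

theorem fix_orb {a : P8} (ha : a ∈ A) {j : Fin 8} (h : a (rep A j) = rep A j) : a j = j := by
  obtain ⟨b, hb, e⟩ := mem_orb.1 (mem_rep (A := A) j)
  rw [← e, comm hA ha hb, h]

theorem ne_three (i : Fin 8) : (orb A i).card ≠ 3 := fun h => by
  obtain ⟨x, y, xy, e⟩ := card_eq_two.1 (show ((orb A i).erase i).card = 2 by rw [card_erase_of_mem (self_orb i), h])
  have hx := mem_erase.1 (e ▸ mem_insert_self x {y})
  have hy := mem_erase.1 (e ▸ mem_insert_of_mem (mem_singleton_self y))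
  obtain ⟨a, ha, rfl⟩ := mem_orb.1 hx.2
  obtain ⟨b, hb, rfl⟩ := mem_orb.1 hy.2
  have : a (b i) ∈ (orb A i).erase i := mem_erase.2 ⟨fun e => xy (a.injective (by
    rw [e, ← Perm.mul_apply, hA a ha, Perm.one_apply])), mem_orb.2 ⟨a * b, A.mul_mem ha hb, rfl⟩⟩
  rw [e, mem_insert, mem_singleton] at this
  exact this.elim (fun e => hy.1 (a.injective e)) fun e => hx.1 (b.injective ((comm hA ha hb i).symm.trans e))

omit hA in
theorem c_orb {C : Submodule F2 V} (hf : ∀ c ∈ C, ∀ a ∈ A, pv a c = c) {c : V} (hc : c ∈ C) (j : Fin 8) :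
    c j = c (rep A j) := by
  obtain ⟨b, hb, e⟩ := mem_orb.1 (rep_mem (A := A) j)
  rw [← e, pv_fix (hf c hc b hb)]

theorem drop {C : Submodule F2 V} (hC : C ≤ Ev) (hf : ∀ c ∈ C, ∀ a ∈ A, pv a c = c) (D : Finset (Fin 8))
    (hD : D ⊆ univ.image (rep A)) (h1 : ∀ r ∈ D, (orb A r).card = 2 → ∀ a ∈ A, Perm.sign a = 1)
    (h2 : ∀ r ∈ D, ∀ s ∈ D, (orb A r).card = (orb A s).card → (orb A r).card ≤ 2 → r = s) :
    2 ^ D.card * (Nat.card A * Nat.card C) ≤ 256 := by
  have a1 := LA (A := A) ((univ.image (rep A)).filter fun r => ¬ (r ∈ D ∧ (orb A r).card = 2)) (orb A)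
    (fun a ha r => mem_orb.2 ⟨a, ha, rfl⟩) fun a ha h => by
      have k : ∀ j ∈ a.support, rep A j ∈ D ∧ (orb A (rep A j)).card = 2 := fun j hj => by
        by_contra hn
        exact Perm.mem_support.1 hj (fix_orb hA ha (h _ (mem_filter.2 ⟨mem_image_of_mem _ (mem_univ j), hn⟩)))
      by_contra hn
      obtain ⟨j, hj⟩ := nonempty_iff_ne_empty.2 fun e => hn (Perm.support_eq_empty_iff.1 e)
      refine hn (eq_one_of (h1 _ (k j hj).1 (k j hj).2 a ha) ((card_le_card fun i hi => ?_).trans (k j hj).2.le))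
      rw [h2 _ (k j hj).1 _ (k i hi).1 ((k j hj).2.trans (k i hi).2.symm) (k j hj).2.le]
      exact mem_rep i
  have a2 := LC (C := C) ((univ.image (rep A)).filter fun r => ¬ (r ∈ D ∧ (orb A r).card = 1)) fun c hc h => by
    have k : ∀ j, c j ≠ 0 → rep A j ∈ D ∧ (orb A (rep A j)).card = 1 := fun j hj => by
      by_contra hn
      exact hj ((c_orb hf hc j).trans (h _ (mem_filter.2 ⟨mem_image_of_mem _ (mem_univ j), hn⟩)))
    funext j
    by_contra hj
    refine hj ((sum_eq_single j (fun i _ ij => ?_) (by simp)).symm.trans ((sm_eq c).symm.trans (hC hc)))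
    by_contra hi
    refine ij (card_le_one.1 (k j hj).2.le _ ?_ _ (mem_rep j))
    rw [h2 _ (k j hj).1 _ (k i hi).1 ((k j hj).2.trans (k i hi).2.symm) (by rw [(k j hj).2]; norm_num)]
    exact mem_rep i
  have a3 : 2 ^ D.card = ∏ r ∈ univ.image (rep A), if r ∈ D then 2 else 1 := by
    rw [← prod_filter, filter_mem_eq_inter, inter_eq_right.2 hD, prod_const]
  rw [prod_filter] at a1 a2
  refine (Nat.mul_le_mul a3.le (Nat.mul_le_mul a1 a2)).trans ?_
  rw [← prod_mul_distrib, ← prod_mul_distrib, show 256 = 2 ^ ∑ r ∈ univ.image (rep A), (orb A r).card by rw [sum_orb]; rfl, ← prod_pow_eq_pow_sum]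
  refine prod_le_prod' fun r _ => ?_
  have b1 := ne_three hA r
  have b2 : 0 < (orb A r).card := card_pos.2 ⟨r, self_orb r⟩
  have b3 : (orb A r).card ≤ 8 := card_le_univ _
  generalize (orb A r).card = n at *
  by_cases hr : r ∈ D <;> interval_cases n <;> simp [hr] at b1 ⊢

end Xc

open Xc

/-- module O8Cls -/
theorem classify (A : Subgroup P8) (hA : ∀ a ∈ A, a * a = 1) (C : Submodule F2 V) (hC : C ≤ Ev)
    (hf : ∀ c ∈ C, ∀ a ∈ A, pv a c = c)
    (h : 256 ≤ Nat.card A * Nat.card C ∨ (128 ≤ Nat.card A * Nat.card C ∧ ∀ a ∈ A, Perm.sign a = 1)) :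
    A = ⊥ ∨ ∃ τ : P8, Perm.sign τ = 1 ∧ (∀ a ∈ A, ∀ i, (τ * a * τ⁻¹) i = i ∨ (τ * a * τ⁻¹) i = s4 i) ∧
      τ⁻¹ * (swap 0 1 * swap 2 3) * τ ∈ A ∧ τ⁻¹ * (swap 0 1 * swap 4 5) * τ ∈ A := by
  have mR := fun i => mem_image_of_mem (rep A) (mem_univ i)
  have cR : ∀ i, (orb A (rep A i)).card = (orb A i).card := fun i => by rw [orb_eq (rep_mem i)]
  have a2 := LC (C := C) (univ.image (rep A)) fun c hc h => funext fun j => (c_orb hf hc j).trans (h _ (mR j))
  rw [or_iff_not_imp_left]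
  intro hb
  by_cases h2 : ∀ i, (orb A i).card = 2
  · have ex : ∀ i, ∃ j, j ≠ i ∧ orb A i = {i, j} := fun i => by
      obtain ⟨j, e⟩ := card_eq_one.1 (show ((orb A i).erase i).card = 1 by rw [card_erase_of_mem (self_orb i), h2])
      exact ⟨j, ne_of_mem_erase (e ▸ mem_singleton_self j), by rw [← e, insert_erase (self_orb i)]⟩
    choose p p1 p2 using ex
    have pp : Function.Involutive p := fun i => by
      have : p (p i) ∈ orb A (p i) := by rw [p2]; simp
      rw [orb_eq (show p i ∈ orb A i by rw [p2]; simp), p2, mem_insert, mem_singleton] at this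
      exact this.resolve_right (p1 _)
    obtain ⟨τ, s, e⟩ := conj_s4 (π := pp.toPerm) (Perm.ext pp) p1
    have k : ∀ a ∈ A, τ * a * τ⁻¹ ∈ W := fun a ha => conj_pt e fun i => by
      have : a i ∈ orb A i := mem_orb.2 ⟨a, ha, rfl⟩
      rwa [p2, mem_insert, mem_singleton] at this
    have h4 := sum_orb (A := A)
    rw [sum_congr rfl fun r _ => h2 r, sum_const, smul_eq_mul] at h4
    rw [prod_const, show (univ.image (rep A)).card = 4 by omega] at a2
    have hc := Subgroup.card_map_of_injective (K := A) (f := (MulAut.conj τ).toMonoidHom) (MulAut.conj τ).injective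
    have fin : ∀ x ∈ W ⊓ alternatingGroup (Fin 8), τ⁻¹ * x * τ ∈ A := fun x hx => by
      obtain ⟨a, ha, rfl⟩ : x ∈ A.map (MulAut.conj τ).toMonoidHom := by
        rcases h with h | ⟨h, hs⟩
        · refine (Subgroup.eq_of_le_of_card_ge (K := W) (by rintro _ ⟨a, ha, rfl⟩; exact k a ha) ?_).ge hx.1
          have := card_W
          have := h.trans (Nat.mul_le_mul_left _ a2)
          omega
        · refine (Subgroup.eq_of_le_of_card_ge (K := W ⊓ alternatingGroup (Fin 8)) (by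
            rintro _ ⟨a, ha, rfl⟩
            exact ⟨k a ha, (alternatingGroup.normal).conj_mem a (hs a ha) τ⟩) ?_).ge hx
          have := card_W0
          have := h.trans (Nat.mul_le_mul_left _ a2)
          omega
      simpa [mul_assoc] using ha
    exact ⟨τ, s, k, fin _ ⟨by change ∀ i, _; decide, Perm.mem_alternatingGroup.2 (by decide)⟩,
      fin _ ⟨by change ∀ i, _; decide, Perm.mem_alternatingGroup.2 (by decide)⟩⟩
  exfalso
  push Not at h2
  obtain ⟨i, hi⟩ := h2
  have d1 := drop hA hC hf {rep A i} (singleton_subset_iff.2 (mR i))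
    (fun r hr e => absurd (by rw [← e, mem_singleton.1 hr, cR]) hi) (by simp)
  rw [card_singleton] at d1
  obtain ⟨h3, hs⟩ := h.resolve_left (by omega)
  have d2 : ∀ j k, rep A j ≠ rep A k → ((orb A j).card = (orb A k).card → 2 < (orb A j).card) → False := fun j k jk e => by
    have := drop hA hC hf {rep A j, rep A k} (insert_subset (mR j) (singleton_subset_iff.2 (mR k))) (fun _ _ _ => hs) (by
      simp only [mem_insert, mem_singleton]
      rintro _ (rfl | rfl) _ (rfl | rfl) <;> simp only [cR, implies_true] <;> omega)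
    rw [card_pair jk] at this
    omega
  by_cases h1 : (orb A i).card = 1
  · obtain ⟨⟨a, ha⟩, hn⟩ := Subgroup.ne_bot_iff_exists_ne_one.1 hb
    obtain ⟨j, hj⟩ := nonempty_iff_ne_empty.2 fun e => hn (Subtype.ext (Perm.support_eq_empty_iff.1 e))
    have : (orb A j).card ≠ 1 := fun e =>
      Perm.mem_support.1 hj (card_le_one.1 e.le _ (mem_orb.2 ⟨a, ha, rfl⟩) _ (self_orb j))
    exact d2 i j (fun e => this (by rw [← cR, ← e, cR, h1])) fun e => absurd (e.symm.trans h1) this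
  · have b2 : 0 < (orb A i).card := card_pos.2 ⟨i, self_orb i⟩
    have hR : univ.image (rep A) = {rep A i} := eq_singleton_iff_unique_mem.2 ⟨mR i, fun r hr => by
      obtain ⟨j, -, rfl⟩ := mem_image.1 hr
      by_contra e
      exact d2 j i e (by omega)⟩
    have a1 := LA (A := A) (univ.image (rep A)) (orb A) (fun a ha r => mem_orb.2 ⟨a, ha, rfl⟩)
      fun a ha h => Perm.ext fun j => fix_orb hA ha (h _ (mR j))
    rw [hR, prod_singleton] at a1 a2
    have := h3.trans (Nat.mul_le_mul (a1.trans (card_le_univ _)) a2)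
    simp at this

/-- module O8Cls -/
theorem invol (σ : P8) (h : σ * σ = 1) (v : V) (hv : sm v = 0) (hf : pv σ v = v) :
    ∃ τ : P8, Perm.sign τ = 1 ∧ (∀ i, (τ * σ * τ⁻¹) i = i ∨ (τ * σ * τ⁻¹) i = s4 i) ∧
      pv s4 (pv τ v) = pv τ v := by
  obtain ⟨π, h1, h2, h3, h4⟩ := extend v hv 8 σ h hf (by omega)
  obtain ⟨τ, s, e⟩ := conj_s4 h1 h2
  exact ⟨τ, s, conj_pt e h4, by rw [← e, ← pv_mul, inv_mul_cancel_right, pv_mul, h3]⟩

/-- module O8Cls -/
theorem invol' (σ : P8) (h : σ * σ = 1) (v : V) (hf : pv σ v = v + one) :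
    ∃ τ : P8, Perm.sign τ = 1 ∧ τ * σ * τ⁻¹ = s4 :=
  conj_s4 h fun i e => by
    have := congrFun hf i
    rw [pv, Perm.inv_eq_iff_eq.2 e.symm] at this
    exact one_ne_zero (left_eq_add.1 this)

/-- module O8Cls -/
theorem wt_trans (x y : V) (h : (Finset.univ.filter fun i => x i = 1).card = (Finset.univ.filter fun i => y i = 1).card) :
    ∃ σ : P8, Perm.sign σ = 1 ∧ pv σ x = y := by
  have n : ∀ a : F2, a = 0 ↔ ¬ a = 1 := by decide
  let g : ∀ c, {i // x i = c} ≃ {i // y i = c} := fun c => Fintype.equivOfCardEq (by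
    rcases F2c c with rfl | rfl
    · simp only [n, Fintype.card_subtype, filter_not, card_sdiff_of_subset (filter_subset _ _), h]
    · simp only [Fintype.card_subtype, h])
  let σ : P8 := ofFiberEquiv g
  have e : pv σ x = y := funext fun i => by
    rw [pv, ← ofFiberEquiv_map g]; exact congrArg y (ai σ i)
  rcases Int.units_eq_one_or (Perm.sign σ) with s | s
  · exact ⟨σ, s, e⟩
  · obtain ⟨i, j, ij, e1⟩ := Fintype.exists_ne_map_eq_of_card_lt x (by simp)
    exact ⟨σ * swap i j, by rw [map_mul, s, Perm.sign_swap ij]; rfl, by rw [pv_mul, pv_swap e1, e]⟩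

/-- module O8Cls -/
theorem in_W {σ : P8} (hσ : ∀ i, σ i = i ∨ σ i = s4 i) {v v1 v2 : V} (hv : sm v = 0) (hv1 : sm v1 = 0) (hv2 : sm v2 = 0)
    (sq : ∃ c : F2, pv σ v = v + c • one)
    (sq1 : ∃ c : F2, pv (swap 0 1 * swap 2 3) v1 = v1 + c • one)
    (sq2 : ∃ c : F2, pv (swap 0 1 * swap 4 5) v2 = v2 + c • one)
    (c1 : ∃ c : F2, v + pv σ v1 = v1 + pv (swap 0 1 * swap 2 3) v + c • one)
    (c2 : ∃ c : F2, v + pv σ v2 = v2 + pv (swap 0 1 * swap 4 5) v + c • one)
    (c12 : ∃ c : F2, v1 + pv (swap 0 1 * swap 2 3) v2 = v2 + pv (swap 0 1 * swap 4 5) v1 + c • one) :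
    pv s4 v = v := by
  have t : (2 : F2) = 0 := rfl
  have mk : ∀ w : V, w 1 = w 0 → w 3 = w 2 → w 5 = w 4 → w 7 = w 6 → pv s4 w = w := fun w a b c d => by
    funext i; fin_cases i
    exacts [a, a.symm, b, b.symm, c, c.symm, d, d.symm]
  have fx : ∀ w : V, pv s4 w = w → pv σ w = w := fun w h => funext fun i => by
    rcases W.inv_mem hσ i with e | e <;> rw [pv, e]
    exact pv_fix h i
  obtain ⟨a, ha⟩ := sq1
  obtain ⟨b, hb⟩ := sq2
  obtain ⟨c, hc⟩ := c1
  obtain ⟨d, hd⟩ := c2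
  obtain ⟨f, hf⟩ := c12
  have a0 : v1 1 = v1 0 + a * 1 := congrFun ha 0
  have a2 : v1 3 = v1 2 + a * 1 := congrFun ha 2
  have a4 : v1 4 = v1 4 + a * 1 := congrFun ha 4
  have b0 : v2 1 = v2 0 + b * 1 := congrFun hb 0
  have b2 : v2 2 = v2 2 + b * 1 := congrFun hb 2
  have b4 : v2 5 = v2 4 + b * 1 := congrFun hb 4
  have f2 : v1 2 + v2 3 = v2 2 + v1 2 + f * 1 := congrFun hf 2
  have f4 : v1 4 + v2 4 = v2 4 + v1 5 + f * 1 := congrFun hf 4
  have f6 : v1 6 + v2 6 = v2 6 + v1 6 + f * 1 := congrFun hf 6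
  simp only [sm] at hv hv1 hv2
  rw [fx v1 (mk _ (by linear_combination a0 - a4) (by linear_combination a2 - a4) (by linear_combination f6 - f4)
    (by linear_combination hv1 - (a0 - a4) - (a2 - a4) - (f6 - f4) - (v1 0 + v1 2 + v1 4 + v1 6) * t))] at hc
  rw [fx v2 (mk _ (by linear_combination b0 - b2) (by linear_combination f2 - f6) (by linear_combination b4 - b2)
    (by linear_combination hv2 - (b0 - b2) - (f2 - f6) - (b4 - b2) - (v2 0 + v2 2 + v2 4 + v2 6) * t))] at hd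
  have c0 : v 0 + v1 0 = v1 0 + v 1 + c * 1 := congrFun hc 0
  have c2 : v 2 + v1 2 = v1 2 + v 3 + c * 1 := congrFun hc 2
  have c6 : v 6 + v1 6 = v1 6 + v 6 + c * 1 := congrFun hc 6
  have d4 : v 4 + v2 4 = v2 4 + v 5 + d * 1 := congrFun hd 4
  have d6 : v 6 + v2 6 = v2 6 + v 6 + d * 1 := congrFun hd 6
  exact mk _ (by linear_combination c6 - c0) (by linear_combination c6 - c2) (by linear_combination d6 - d4)
    (by linear_combination hv - (c6 - c0) - (c6 - c2) - (d6 - d4) - (v 0 + v 2 + v 4 + v 6) * t)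

end Cfsg.Agent.WA.O8
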