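import Mathlib

/-! The quadratic form `∑_{i<j} x_i x_j` on `F_2^8` (plus type) and its isometry group. -/

set_option autoImplicit false

namespace Cfsg.Agent.WA.O8

open Equiv

abbrev F2 := ZMod 2
abbrev V := Fin 8 → F2
abbrev P8 := Perm (Fin 8)

/-- coordinate sum -/
def sm (x : V) : F2 := x 0 + x 1 + x 2 + x 3 + x 4 + x 5 + x 6 + x 7
def dot (x y : V) : F2 :=
  x 0 * y 0 + x 1 * y 1 + x 2 * y 2 + x 3 * y 3 + x 4 * y 4 + x 5 * y 5 + x 6 * y 6 + x 7 * y 7
/-- the polar form -/
def B (x y : V) : F2 := sm x * sm y - dot x y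
/-- the quadratic form -/
def Q (x : V) : F2 :=
  x 0 * (x 1 + x 2 + x 3 + x 4 + x 5 + x 6 + x 7) + x 1 * (x 2 + x 3 + x 4 + x 5 + x 6 + x 7) +
  x 2 * (x 3 + x 4 + x 5 + x 6 + x 7) + x 3 * (x 4 + x 5 + x 6 + x 7) + x 4 * (x 5 + x 6 + x 7) +
  x 5 * (x 6 + x 7) + x 6 * x 7
/-- the all one vector -/
def one : V := fun _ => 1
def e (i : Fin 8) : V := fun j => if j = i then 1 else 0
def d (i j : Fin 8) : V := e i + e j
/-- the vector with the binary digits of `n` -/
def dec (n : ℕ) : V := fun i => if n.testBit i then 1 else 0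
/-- permutation of coordinates -/
def pv (σ : P8) (x : V) : V := fun i => x (σ⁻¹ i)
/-- the even vectors -/
def Ev : Submodule F2 V where
  carrier := {x | sm x = 0}
  zero_mem' := by show sm 0 = 0; decide
  add_mem' := fun {x y} (hx : sm x = 0) (hy : sm y = 0) => by
    show sm (x + y) = 0
    simp only [sm, Pi.add_apply] at *; linear_combination hx + hy
  smul_mem' := fun c x (hx : sm x = 0) => by
    show sm (c • x) = 0
    simp only [sm, Pi.smul_apply, smul_eq_mul] at *; linear_combination c * hx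
def oneE : Ev := ⟨one, by show sm one = 0; decide⟩
/-- the fourth point of the affine plane through three points of `Fin 8 = AG(3,2)` -/
def x3 (i j k : Fin 8) : Fin 8 := ⟨(i.1 ^^^ j.1 ^^^ k.1) % 8, Nat.mod_lt _ (by norm_num)⟩
/-- affine permutations -/
def Aff (σ : P8) : Prop := ∀ i j k, σ (x3 i j k) = x3 (σ i) (σ j) (σ k)
/-- the standard pairing -/
def s4 : P8 := swap 0 1 * swap 2 3 * swap 4 5 * swap 6 7
/-- two generators (of orders 7 and 3) of `AGL_3(2)` -/
def g1 : P8 := ⟨![0, 2, 4, 6, 3, 1, 7, 5], ![0, 5, 1, 4, 2, 7, 3, 6], by decide, by decide⟩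
def g2 : P8 := ⟨![1, 2, 0, 3, 4, 7, 5, 6], ![2, 0, 1, 3, 4, 6, 7, 5], by decide, by decide⟩

/-- the isometry group -/
def O : Subgroup (V ≃ₗ[F2] V) where
  carrier := {g | ∀ x, Q (g x) = Q x}
  one_mem' := fun _ => rfl
  mul_mem' := fun {a b} ha hb x => (ha _).trans (hb x)
  inv_mem' := fun {a} ha x => by rw [← ha, LinearEquiv.coe_inv, LinearEquiv.apply_symm_apply]

/-- its commutator subgroup -/
abbrev Om : Subgroup O := commutator O

def enc (x : V) : ℕ :=
  (x 0).val + 2 * (x 1).val + 4 * (x 2).val + 8 * (x 3).val + 16 * (x 4).val + 32 * (x 5).val + 64 * (x 6).val +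
    128 * (x 7).val

theorem dec_enc (x : V) : dec (enc x) = x ∧ enc x < 256 := by
  have : ∀ a b c d f g h k : F2, (∀ i, dec (enc ![a, b, c, d, f, g, h, k]) i = ![a, b, c, d, f, g, h, k] i) ∧
      enc ![a, b, c, d, f, g, h, k] < 256 := by decide +kernel
  have e : x = ![x 0, x 1, x 2, x 3, x 4, x 5, x 6, x 7] := by ext i; fin_cases i <;> rfl
  rw [e]
  exact ⟨funext (this _ _ _ _ _ _ _ _).1, (this _ _ _ _ _ _ _ _).2⟩

/-- use as `all_dec (by decide +kernel)` -/
theorem all_dec {P : V → Prop} (h : ∀ n : Fin 256, P (dec n)) (x : V) : P x :=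
  (dec_enc x).1 ▸ h ⟨_, (dec_enc x).2⟩

theorem F2c : ∀ a : F2, a = 0 ∨ a = 1 := by decide
theorem add_self (x : V) : x + x = 0 := funext fun i => CharTwo.add_self_eq_zero (x i)
theorem sm_add (x y : V) : sm (x + y) = sm x + sm y := by simp only [sm, Pi.add_apply]; ring
theorem sm_smul (c : F2) (x : V) : sm (c • x) = c * sm x := by simp only [sm, Pi.smul_apply, smul_eq_mul]; ring
theorem sm_eq (x : V) : sm x = ∑ i, x i := by rw [Fin.sum_univ_eight]; rfl
theorem dot_eq (x y : V) : dot x y = ∑ i, x i * y i := by rw [Fin.sum_univ_eight]; rfl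
theorem Q_add (x y : V) : Q (x + y) = Q x + Q y + B x y := by simp only [Q, B, sm, dot, Pi.add_apply]; ring
theorem Q_smul (c : F2) (x : V) : Q (c • x) = c * Q x := by
  rcases F2c c with rfl | rfl
  · rw [zero_smul, zero_mul]; decide
  · rw [one_smul, one_mul]
theorem B_comm (x y : V) : B x y = B y x := by simp only [B, sm, dot]; ring
theorem B_add (x y w : V) : B (x + y) w = B x w + B y w := by simp only [B, sm, dot, Pi.add_apply]; ring
theorem B_add' (x y w : V) : B w (x + y) = B w x + B w y := by simp only [B, sm, dot, Pi.add_apply]; ring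
theorem B_smul (c : F2) (x w : V) : B (c • x) w = c * B x w := by
  simp only [B, sm, dot, Pi.smul_apply, smul_eq_mul]; ring
theorem B_smul' (c : F2) (x w : V) : B w (c • x) = c * B w x := by rw [B_comm, B_smul, B_comm]
theorem B_self : ∀ x : V, B x x = 0 := all_dec (by decide +kernel)
theorem B_one : ∀ x : V, B x one = sm x := all_dec (by decide +kernel)
theorem B_nondeg : ∀ x : V, (∀ i, B x (e i) = 0) → x = 0 := all_dec (by decide +kernel)
theorem eq_sum (x : V) : x = ∑ i, x i • e i := by
  ext j; simp [e, Finset.sum_apply]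
theorem pv_one (x : V) : pv 1 x = x := rfl
theorem pv_mul (σ τ : P8) (x : V) : pv (σ * τ) x = pv σ (pv τ x) := by ext i; simp [pv]
theorem pv_add (σ : P8) (x y : V) : pv σ (x + y) = pv σ x + pv σ y := rfl
theorem pv_smul (σ : P8) (c : F2) (x : V) : pv σ (c • x) = c • pv σ x := rfl
theorem pv_onev (σ : P8) : pv σ one = one := rfl
theorem pv_e (σ : P8) (i : Fin 8) : pv σ (e i) = e (σ i) := by
  ext j; simp only [pv, e, Perm.inv_eq_iff_eq]
theorem pv_d (σ : P8) (i j : Fin 8) : pv σ (d i j) = d (σ i) (σ j) := by rw [d, pv_add, pv_e, pv_e, d]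
theorem sm_pv (σ : P8) (x : V) : sm (pv σ x) = sm x := by
  rw [sm_eq, sm_eq]; exact Equiv.sum_comp σ⁻¹ x

theorem dot_pv (σ : P8) (x y : V) : dot (pv σ x) (pv σ y) = dot x y := by
  rw [dot_eq, dot_eq]; exact Equiv.sum_comp σ⁻¹ fun i => x i * y i
theorem B_pv (σ : P8) (x y : V) : B (pv σ x) (pv σ y) = B x y := by rw [B, sm_pv, sm_pv, dot_pv, B]

/-- an additive map preserving `Q` on the basis and `B` on pairs of basis vectors is an isometry -/
theorem iso_of_basis (f : V →ₗ[F2] V) (h1 : ∀ i, Q (f (e i)) = 0) (h2 : ∀ i j, B (f (e i)) (f (e j)) = B (e i) (e j))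
    (x : V) : Q (f x) = Q x := by
  have ind : ∀ {P : V → Prop}, P 0 → (∀ x i, P x → P (x + e i)) → ∀ x, P x := fun {P} h0 hs x => by
    rw [eq_sum x]
    refine Finset.induction_on Finset.univ (by simpa using h0) fun i s hi ih => ?_
    rw [Finset.sum_insert hi, add_comm]
    rcases F2c (x i) with h | h <;> rw [h]
    · simpa using ih
    · rw [one_smul]; exact hs _ _ ih
  have B0 : ∀ y, B 0 y = 0 := fun y => by simpa using B_smul 0 0 y
  have h3 : ∀ x j, B (f x) (f (e j)) = B x (e j) := fun x j =>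
    ind (P := fun x => B (f x) (f (e j)) = B x (e j)) (by simp only [map_zero, B0])
      (fun x i h => by simp only [map_add, B_add, h, h2]) x
  have Qe : ∀ i, Q (e i) = 0 := by decide
  exact ind (P := fun x => Q (f x) = Q x) (by simp only [map_zero])
    (fun x i h => by simp only [map_add, Q_add, h, h1, h3, Qe]) x

theorem B_of_iso {f : V →ₗ[F2] V} (h : ∀ x, Q (f x) = Q x) (x y : V) : B (f x) (f y) = B x y := by
  have := h (x + y)
  rw [map_add, Q_add, Q_add, h, h] at this
  exact add_left_cancel this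

/-- the isometry given by a linear map preserving `Q` -/
noncomputable def mkO (f : V →ₗ[F2] V) (h : ∀ x, Q (f x) = Q x) : O :=
  ⟨LinearEquiv.ofInjectiveEndo f ((injective_iff_map_eq_zero f).2 fun x hx => B_nondeg x fun i => by
    rw [← B_of_iso h, hx]; simpa using B_smul 0 0 (f (e i))), h⟩

instance : CoeFun O fun _ => V → V := ⟨fun g => g.1⟩

@[simp] theorem mkO_apply (f : V →ₗ[F2] V) (h : ∀ x, Q (f x) = Q x) (x : V) : mkO f h x = f x := rfl
theorem O.mul_apply (g h : O) (x : V) : (g * h) x = g (h x) := rfl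
theorem O.one_apply (x : V) : (1 : O) x = x := rfl
theorem O.Q_map (g : O) (x : V) : Q (g x) = Q x := g.2 x
theorem O.B_map (g : O) (x y : V) : B (g x) (g y) = B x y := B_of_iso (f := g.1.toLinearMap) g.2 x y
theorem O.map_add (g : O) (x y : V) : g (x + y) = g x + g y := g.1.map_add x y
theorem O.map_smul (g : O) (c : F2) (x : V) : g (c • x) = c • g x := g.1.map_smul c x
theorem O.inv_apply (g : O) (x : V) : g⁻¹ (g x) = x := g.1.symm_apply_apply x
theorem O.apply_inv (g : O) (x : V) : g (g⁻¹ x) = x := g.1.apply_symm_apply x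
theorem O.inj (g : O) : Function.Injective g := g.1.injective
theorem O.ext' {g h : O} (H : ∀ x, g x = h x) : g = h := Subtype.ext (LinearEquiv.ext H)
theorem O.ext {g h : O} (H : ∀ i, g (e i) = h (e i)) : g = h := O.ext' fun x => by
  rw [eq_sum x]
  exact (map_sum g.1 _ _).trans ((Finset.sum_congr rfl fun i _ => by
    rw [map_smul, map_smul]; exact congrArg _ (H i)).trans (map_sum h.1 _ _).symm)
instance : Finite O := Finite.of_injective (fun g : O => (g : V → V)) fun _ _ h => O.ext' (congrFun h)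

/-- the reflection in `a` (the identity if `a` is singular) -/
noncomputable def r (a : V) : O := mkO
  { toFun := fun x => x + (Q a * B x a) • a
    map_add' := fun x y => by rw [B_add, mul_add, add_smul]; abel
    map_smul' := fun c x => by rw [B_smul, RingHom.id_apply, smul_add, smul_smul, mul_left_comm] }
  fun x => by
    have : ∀ p q s : F2, p + q * s * q + q * s * s = p := by decide
    simp only [LinearMap.coe_mk, AddHom.coe_mk, Q_add, Q_smul, B_smul', this]
theorem r_apply (a x : V) : r a x = x + (Q a * B x a) • a := rfl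

/-- the Siegel transformation (the identity unless `p` is singular and orthogonal to `u`) -/
noncomputable def S (p u : V) : O := if h : Q p = 0 ∧ B u p = 0 then mkO
  { toFun := fun x => x + B x u • p + B x p • (u + Q u • p)
    map_add' := fun x y => by rw [B_add, B_add, add_smul, add_smul]; abel
    map_smul' := fun c x => by rw [B_smul, B_smul, RingHom.id_apply, smul_add c, smul_add c, smul_smul, smul_smul] }
  (fun x => by
    simp only [LinearMap.coe_mk, AddHom.coe_mk, Q_add, Q_smul, B_smul', B_smul, B_add, B_add', h.1, h.2, B_self,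
      B_comm p u]
    generalize Q x = a, B x u = b, B x p = c, Q u = t
    revert a b c t; decide) else 1
theorem S_apply {p u : V} (h1 : Q p = 0) (h2 : B u p = 0) (x : V) :
    S p u x = x + B x u • p + B x p • (u + Q u • p) := by rw [S, dif_pos ⟨h1, h2⟩]; rfl
/-- the unipotent radical of the stabilizer of `one` -/
noncomputable abbrev T (u : V) : O := S one u

def pl (σ : P8) : V →ₗ[F2] V := { toFun := pv σ, map_add' := pv_add σ, map_smul' := pv_smul σ }
theorem Q_pv (σ : P8) (x : V) : Q (pv σ x) = Q x :=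
  iso_of_basis (pl σ) (fun i => by
    show Q (pv σ (e i)) = 0
    rw [pv_e]; generalize σ i = j; revert j; decide) (fun i j => B_pv σ _ _) x
/-- permutation matrices -/
noncomputable def pm : P8 →* O := MonoidHom.mk' (fun σ => mkO (pl σ) (Q_pv σ)) fun σ τ =>
  O.ext' fun x => by rw [O.mul_apply]; exact pv_mul σ τ x
theorem pm_apply (σ : P8) (x : V) : pm σ x = pv σ x := rfl

/-- eight pairwise orthogonal nonsingular vectors, indexed by `AG(3,2)` -/
def av : Fin 8 → V := ![d 0 1, d 2 3, d 4 5, d 6 7 + one, d 0 1 + one, d 2 3 + one, d 4 5 + one, d 6 7]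

end Cfsg.Agent.WA.O8
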