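import Cfsg.Agent.WA.O8C

/-! Double covers of `Om`: canonical lifts. -/

set_option autoImplicit false

namespace Cfsg.Agent.WA.O8

open Equiv

variable {X : Type*} [Group X] {π : X →* O} {z x y l x0 : X} {a b c u v : V}

structure Cov (π : X →* O) (z : X) : Prop where
  ker : ∀ x, π x = 1 ↔ x = 1 ∨ x = z
  z1 : z ≠ 1
  zc : ∀ x, x * z = z * x
  mem : ∀ x, π x ∈ Om
  surj : ∀ g ∈ Om, ∃ x, π x = g
  perf : commutator X = ⊤

namespace Cov

theorem πz (h : Cov π z) : π z = 1 := (h.ker z).2 (.inr rfl)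
theorem z2 (h : Cov π z) : z * z = 1 :=
  ((h.ker _).1 (by rw [map_mul, h.πz, mul_one])).resolve_right fun e => h.z1 (mul_eq_left.1 e)
theorem eq (h : Cov π z) (e : π x = π y) : x = y ∨ x = y * z :=
  ((h.ker (y⁻¹ * x)).1 (by rw [map_mul, map_inv, e, inv_mul_cancel])).imp
    (fun e => (inv_mul_eq_one.1 e).symm) inv_mul_eq_iff_eq_mul.1
theorem cz (h : Cov π z) (x y : X) : x * (y * z) * x⁻¹ = x * y * x⁻¹ * z := by
  rw [← mul_assoc, mul_assoc _ z, ← h.zc, ← mul_assoc]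
theorem zinv (h : Cov π z) : z⁻¹ = z := inv_eq_of_mul_eq_one_right h.z2
theorem cz' (h : Cov π z) (x y : X) : x * z * y * (x * z)⁻¹ = x * y * x⁻¹ := by
  rw [mul_inv_rev, mul_assoc x, ← h.zc, ← mul_assoc, ← mul_assoc, mul_inv_cancel_right]
theorem cj_eq (h : Cov π z) (e : π x = π l) (y : X) : x * y * x⁻¹ = l * y * l⁻¹ := by
  rcases h.eq e with rfl | rfl
  exacts [rfl, h.cz' _ _]
theorem sqz (h : Cov π z) (x : X) : x * z * (x * z) = x * x := by
  rw [mul_assoc, ← mul_assoc z, ← h.zc, mul_assoc, h.z2, mul_one]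
theorem sq_eq (h : Cov π z) (e : π x = π y) : x * x = y * y := by
  rcases h.eq e with rfl | rfl
  exacts [rfl, h.sqz _]

/-- the sign by which `x` acts on the two lifts `y`, `y z` -/
theorem chi (h : Cov π z) (y : X) : ∃ χ : (Subgroup.centralizer {π y}).comap π →* ℤˣ,
    ∀ x, χ x = 1 ↔ x.1 * y * x.1⁻¹ = y := by
  classical
  have A : ∀ x : (Subgroup.centralizer {π y}).comap π, ¬ x.1 * y * x.1⁻¹ = y → x.1 * y * x.1⁻¹ = y * z := fun x =>
    (h.eq (by rw [map_mul, map_mul, map_inv, Subgroup.mem_centralizer_singleton_iff.1 x.2,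
      mul_inv_cancel_right])).resolve_left
  have B' : y * z ≠ y := fun e => h.z1 (mul_eq_left.1 e)
  refine ⟨MonoidHom.mk' (fun x => if x.1 * y * x.1⁻¹ = y then 1 else -1) fun s t => ?_, fun x => ?_⟩
  · have e : (s * t).1 * y * (s * t).1⁻¹ = s.1 * (t.1 * y * t.1⁻¹) * s.1⁻¹ := by rw [Subgroup.coe_mul]; group
    rw [e]
    by_cases hs : s.1 * y * s.1⁻¹ = y <;> by_cases ht : t.1 * y * t.1⁻¹ = y
    · simp [hs, ht]
    · rw [if_pos hs, if_neg ht, A t ht, h.cz, hs, if_neg B', one_mul]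
    · rw [if_neg hs, if_pos ht, ht, if_neg hs, mul_one]
    · rw [if_neg hs, if_neg ht, A t ht, h.cz, A s hs, mul_assoc, h.z2, mul_one, if_pos rfl]; rfl
  · by_cases hx : x.1 * y * x.1⁻¹ = y <;> simp [hx]

theorem a4 (h : Cov π z) {s t : X} (hs : Commute (π s) (π y)) (ht : Commute (π t) (π y)) :
    s * (t * s * t⁻¹) * y = y * (s * (t * s * t⁻¹)) := by
  obtain ⟨χ, hχ⟩ := h.chi y
  let s' : (Subgroup.centralizer {π y}).comap π := ⟨s, Subgroup.mem_centralizer_singleton_iff.2 hs⟩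
  let t' : (Subgroup.centralizer {π y}).comap π := ⟨t, Subgroup.mem_centralizer_singleton_iff.2 ht⟩
  exact mul_inv_eq_iff_eq_mul.1 ((hχ (s' * (t' * s' * t'⁻¹))).1 (by
    rw [map_mul, map_mul, map_mul, map_inv, mul_inv_cancel_comm, Int.units_mul_self]))

theorem odd (h : Cov π z) (hx : Commute (π x) (π y)) (h3 : π x ^ 3 = 1) : x * y * x⁻¹ = y := by
  obtain ⟨χ, hχ⟩ := h.chi y
  let s : (Subgroup.centralizer {π y}).comap π := ⟨x, Subgroup.mem_centralizer_singleton_iff.2 hx⟩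
  have : χ (s ^ 3) = 1 := (hχ _).2 (by
    rcases (h.ker (x ^ 3)).1 (by rw [map_pow, h3]) with e | e <;> rw [Subgroup.coe_pow, e]
    · simp
    · rw [← h.zc, mul_inv_cancel_right])
  rw [map_pow, pow_succ, pow_two, Int.units_mul_self, one_mul] at this
  exact (hχ s).1 this

theorem sq_cases (h : Cov π z) (e : π x * π x = 1) : x * x = 1 ∨ x * x = z := (h.ker _).1 (by rw [map_mul, e])

theorem spl (h : Cov π z) {g : Om} (hg : Spl g) (e : π x = g) : x * x = 1 := by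
  obtain ⟨u, y, k, a, h1, h2, h3, h4, h5⟩ := hg
  obtain ⟨u', hu⟩ := h.surj u u.2
  obtain ⟨y', hy⟩ := h.surj y y.2
  obtain ⟨k', hk⟩ := h.surj k k.2
  have ha : π (u' * (y' * u' * y'⁻¹)) = a := by simp [hu, hy, h1]
  have hb : π (k' * (u' * (y' * u' * y'⁻¹)) * k'⁻¹) = (k * a * k⁻¹ : Om) := by rw [map_mul, map_mul, map_inv, ha, hk]; rfl
  have h6 := h.a4 (s := u') (t := y') (y := k' * (u' * (y' * u' * y'⁻¹)) * k'⁻¹)
    (by rw [hu, hb]; exact congrArg Subtype.val h4) (by rw [hy, hb]; exact congrArg Subtype.val h5)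
  generalize u' * (y' * u' * y'⁻¹) = s at ha hb h6
  rw [h.sq_eq (y := s * (k' * s * k'⁻¹)) (by rw [e, map_mul, ha, hb, h3]; rfl), mul_assoc, ← mul_assoc (k' * s * k'⁻¹),
    ← h6, mul_assoc s, conj_mul, ← mul_assoc]
  rcases h.sq_cases (x := s) (by rw [ha]; exact congrArg Subtype.val h2) with e | e <;> rw [e]
  · simp
  · rw [h.zc, mul_inv_cancel_right, h.z2]

theorem comm_of_sq {s t : X} (hs : s * s = 1) (ht : t * t = 1) (h : s * t * (s * t) = 1) : s * t = t * s := by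
  rw [← inv_eq_of_mul_eq_one_right h, mul_inv_rev, inv_eq_of_mul_eq_one_right hs, inv_eq_of_mul_eq_one_right ht]

theorem twist (h : Cov π z) (τ : Om ≃* Om) :
    Cov (Om.subtype.comp (τ.symm.toMonoidHom.comp (π.codRestrict Om h.mem))) z where
  ker x := by
    rw [← h.ker]
    change ((τ.symm (π.codRestrict Om h.mem x) : Om) : O) = 1 ↔ _
    rw [OneMemClass.coe_eq_one, map_eq_one_iff _ τ.symm.injective, Subtype.ext_iff]; rfl
  z1 := h.z1
  zc := h.zc
  mem x := Subtype.prop _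
  surj g hg := by
    obtain ⟨x, hx⟩ := h.surj _ (τ ⟨g, hg⟩).2
    exact ⟨x, by simp [show π.codRestrict Om h.mem x = τ ⟨g, hg⟩ from Subtype.ext hx]⟩
  perf := h.perf

theorem exists_inv (h : Cov π z) : ∃ (π' : X →* O) (x : X), Cov π' z ∧ π' x = T (d 0 1) ∧ x * x = 1 := by
  obtain ⟨τ₁, τ₂, x, h1, h2, h3, s1, s2, s3, s4⟩ := tri
  have A : ∀ (τ : Om ≃* Om) (y : X), π y = τ b0 → y * y = 1 →
      ∃ (π' : X →* O) (x : X), Cov π' z ∧ π' x = T (d 0 1) ∧ x * x = 1 := fun τ y e e' =>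
    ⟨_, y, h.twist τ, by simp [show π.codRestrict Om h.mem y = τ b0 from Subtype.ext e]; rfl, e'⟩
  have b2 : b0 * b0 = 1 := Subtype.ext (T_sq (sm_d 0 1))
  have A' : ∀ (τ : Om ≃* Om) (y : X), π y = τ b0 → y * y = 1 ∨ y * y = z := fun τ y e =>
    h.sq_cases (by rw [e, ← Subgroup.coe_mul, ← map_mul, b2, map_one]; rfl)
  obtain ⟨s, hs⟩ := h.surj x x.2
  obtain ⟨p, hp⟩ := h.surj b0 b0.2
  obtain ⟨q, hq⟩ := h.surj _ (τ₁ b0).2
  have hpq : π (p * q) = τ₂ b0 := by rw [map_mul, hp, hq, ← h1]; rfl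
  rcases A' (.refl _) p hp with e1 | e1
  · exact A (.refl _) p hp e1
  rcases A' τ₁ q hq with e2 | e2
  · exact A τ₁ q hq e2
  refine A τ₂ _ hpq ?_
  have t1 := h.spl s1 hs
  have t2 := h.spl s2 (x := s * p) (by rw [map_mul, hs, hp]; rfl)
  have t3 := h.spl s3 (x := s * q) (by rw [map_mul, hs, hq]; rfl)
  have t4 := h.spl s4 (x := s * (p * q)) (by rw [map_mul, hs, hpq]; rfl)
  have inv : ∀ {w : X}, s * w * (s * w) = 1 → s * w * s⁻¹ = w⁻¹ := fun e => by
    rw [inv_eq_of_mul_eq_one_right t1]; exact eq_inv_of_mul_eq_one_left (by rw [← e]; group)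
  have iz : ∀ {w : X}, w * w = z → w⁻¹ = w * z := fun e => by
    rw [← e, inv_eq_iff_mul_eq_one, ← mul_assoc, e, h.z2]
  have := inv t4
  rw [← conj_mul, inv t2, inv t3, iz e1, iz e2, mul_assoc, ← mul_assoc z, ← h.zc, mul_assoc q, h.z2, mul_one] at this
  exact mul_eq_one_iff_eq_inv.2 this

end Cov

theorem pm_T'' (σ : P8) (u : V) : (pm σ)⁻¹ * T u * pm σ = T (pv σ⁻¹ u) := by rw [← pm_T, map_inv, inv_inv]

/-- a normalized cover -/
structure Nrm (π : X →* O) (z x0 : X) : Prop extends Cov π z where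
  px : π x0 = T (d 0 1)
  sq : x0 * x0 = 1
  t3 : ∀ y, π y = pm (swap 0 2 * swap 0 1) → x0 * (y * x0 * y⁻¹) = y⁻¹ * x0 * y

theorem Cov.exists_nrm (h : Cov π z) : ∃ (π' : X →* O) (x : X), Nrm π' z x := by
  obtain ⟨π, x, h, h1, h2⟩ := h.exists_inv
  obtain ⟨y, hy⟩ := h.surj (pm (swap 0 2 * swap 0 1)) (pm_mem (by decide))
  have A : ∀ {x}, x * (y * x * y⁻¹) = y⁻¹ * x * y → ∀ y', π y' = pm (swap 0 2 * swap 0 1) →
      x * (y' * x * y'⁻¹) = y'⁻¹ * x * y' := fun e y' e' => by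
    have := h.cj_eq (x := y'⁻¹) (l := y⁻¹) (by rw [map_inv, map_inv, e', hy])
    simp only [inv_inv] at this
    rw [h.cj_eq (e'.trans hy.symm), e, this]
  rcases h.eq (x := x * (y * x * y⁻¹)) (y := y⁻¹ * x * y) (by
    simp only [map_mul, map_inv, h1, hy]
    rw [← map_mul, pm_T, ← T_add (sm_d _ _) (by decide), pm_T'']
    exact congrArg T (by decide)) with e | e
  · exact ⟨π, x, h, h1, h2, A e⟩
  · refine ⟨π, x * z, h, by rw [map_mul, h.πz, mul_one, h1], by rw [h.sqz, h2], A ?_⟩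
    rw [h.cz, mul_assoc, ← mul_assoc z, ← h.zc, mul_assoc _ z, h.z2, mul_one, e, mul_assoc y⁻¹, mul_assoc y⁻¹, mul_assoc x,
      h.zc, mul_assoc, mul_assoc]

open Classical in
/-- the canonical lift of `r a * r b` -/
noncomputable def dl (π : X →* O) (x0 : X) (a b : V) : X :=
  if h : ∃ l, π (l * x0 * l⁻¹) = r a * r b then h.choose * x0 * h.choose⁻¹ else 1

theorem T_comm (hu : sm u = 0) (hv : sm v = 0) : T u * T v = T v * T u := by
  rw [← T_add hu hv, add_comm, T_add hv hu]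

namespace Nrm

theorem sqB (h : Nrm π z x0) (o : OP a b) (e : π x = r a * r b) : x * x = 1 := by
  obtain ⟨g, hg, e'⟩ := o.conj
  obtain ⟨l, rfl⟩ := h.surj g hg
  rw [h.sq_eq (y := l * x0 * l⁻¹) (by rw [e, e', map_mul, map_mul, map_inv, h.px]), conj_mul, h.sq]; simp

theorem rigid (h : Nrm π z x0) (hl : π l * T (d 0 1) = T (d 0 1) * π l) : l * x0 * l⁻¹ = x0 := by
  obtain ⟨χ, hχ⟩ := h.chi x0
  let K : Subgroup O := χ.ker.map (π.comp (Subgroup.subtype _))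
  have mk : ∀ {g : O}, g ∈ Om → (∀ l, π l = g → l * x0 * l⁻¹ = x0) → g ∈ K := fun hg H => by
    obtain ⟨l, rfl⟩ := h.surj _ hg
    exact ⟨⟨l, Subgroup.mem_centralizer_singleton_iff.2 (by
      rw [← map_mul, mul_inv_eq_iff_eq_mul.1 (H l rfl), map_mul])⟩, (hχ _).2 (H l rfl), rfl⟩
  have inv : ∀ {a b c e : V}, OP a b → OP c e → r a * r b * T (d 0 1) = r c * r e → r a * r b ∈ K :=
    fun o o' e => mk (rr_mem o.1 o.2.1) fun l hl => mul_inv_eq_iff_eq_mul.2
      (Cov.comm_of_sq (h.sqB o hl) h.sq (h.sqB o' (by rw [map_mul, hl, h.px, e])))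
  suffices π l ∈ K by
    obtain ⟨m, hm, e⟩ := this
    exact (h.cj_eq e.symm _).trans ((hχ m).1 hm)
  obtain ⟨u, σ, hu, e⟩ := stab (fix_of_comm Q_one one_ne (by decide) (by decide) hl)
  have hs := sign_of_mem hu (e ▸ h.mem l)
  rw [e, mul_assoc, pm_T', ← mul_assoc, ← mul_assoc, mul_left_inj, T_comm (sm_d _ _) hu, mul_right_inj, pv_d] at hl
  obtain ⟨c, hc⟩ := T_inj (sm_d _ _) (sm_d _ _) hl
  rw [e]
  refine mul_mem (ev_ind (P := fun u => T u ∈ K) (T_zero ▸ one_mem K) (fun u j hu ih => ?_) hu) ?_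
  · rw [T_add hu (sm_d _ _)]
    refine mul_mem ih ?_
    by_cases j0 : 0 = j
    · rw [← j0, d_self, T_zero]; exact one_mem K
    by_cases j1 : 1 = j
    · exact mk (T_mem (sm_d _ _)) fun l hl => by rw [h.cj_eq (l := x0) (by rw [hl, h.px, j1]), mul_inv_cancel_right]
    · rw [T_d j0]
      exact inv (OP_d _ _ j0) (OP_d _ _ j1) (by
        rw [← T_d j0, ← T_d j1, ← T_add (sm_d _ _) (sm_d _ _), add_comm, d_add])
  · have A : ∀ σ : P8, Perm.sign σ = 1 → σ 0 = 0 → σ 1 = 1 → σ ∈ K.comap pm := fun σ h1 h2 h3 =>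
      alt_ind (fun τ t3 t0 t1 => mk (pm_mem (by
        have := congrArg Perm.sign t3
        rwa [map_pow, pow_succ, pow_two, Int.units_mul_self, one_mul, map_one] at this)) fun l hl =>
          h.odd (by rw [hl, h.px]; exact (pm_T' _ _).trans (by rw [pv_d, t0, t1])) (by rw [hl, ← map_pow, t3, map_one]))
        h1 h2 h3
    rcases (by decide +kernel : ∀ i k : Fin 8, ∀ c : F2, d i k = d 0 1 + c • one → i = 0 ∧ k = 1 ∨ i = 1 ∧ k = 0)
      _ _ _ hc with e | e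
    · exact A σ hs e.1 e.2
    · have h1 : pm (swap 2 3 * swap 0 1) ∈ K := by
        rw [map_mul, pm_swap (by decide), pm_swap (by decide)]
        exact inv (c := d 2 3) (e := d 0 1 + one) (by decide) (by decide) (by
          rw [T_d (by decide), mul_assoc, ← mul_assoc (r (d 0 1)), r_sq, one_mul])
      have := A (σ * (swap 2 3 * swap 0 1)) (by rw [map_mul, hs]; decide) e.2 e.1
      rwa [Subgroup.mem_comap, map_mul, mul_mem_cancel_right h1] at this

theorem dl_eq (h : Nrm π z x0) (e : π (l * x0 * l⁻¹) = r a * r b) : dl π x0 a b = l * x0 * l⁻¹ := by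
  have H : ∃ l, π (l * x0 * l⁻¹) = r a * r b := ⟨l, e⟩
  rw [dl, dif_pos H]
  have e' := H.choose_spec
  generalize H.choose = m at e'
  have := h.rigid (l := l⁻¹ * m) (by
    rw [← e] at e'
    simp only [map_mul, map_inv, h.px] at e' ⊢
    calc _ = (π l)⁻¹ * (π m * T (d 0 1) * (π m)⁻¹) * π m := by group
      _ = _ := by rw [e']; group)
  calc _ = l * (l⁻¹ * m * x0 * (l⁻¹ * m)⁻¹) * l⁻¹ := by group
    _ = _ := by rw [this]

theorem dl_ex (h : Nrm π z x0) (o : OP a b) : ∃ l, dl π x0 a b = l * x0 * l⁻¹ ∧ π (l * x0 * l⁻¹) = r a * r b := by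
  obtain ⟨g, hg, e'⟩ := o.conj
  obtain ⟨l, rfl⟩ := h.surj g hg
  have : π (l * x0 * l⁻¹) = r a * r b := by rw [e', map_mul, map_mul, map_inv, h.px]
  exact ⟨l, h.dl_eq this, this⟩

theorem π_dl (h : Nrm π z x0) (o : OP a b) : π (dl π x0 a b) = r a * r b := by
  obtain ⟨l, h1, h2⟩ := h.dl_ex o; rw [h1, h2]

theorem dl_conj (h : Nrm π z x0) (o : OP a b) (y : X) : y * dl π x0 a b * y⁻¹ = dl π x0 (π y a) (π y b) := by
  obtain ⟨l, h1, h2⟩ := h.dl_ex o
  have e : y * (l * x0 * l⁻¹) * y⁻¹ = y * l * x0 * (y * l)⁻¹ := by group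
  rw [h1, e, h.dl_eq (l := y * l) (by rw [← e, map_mul, map_mul, h2, map_inv, ← conj_mul, r_conj, r_conj])]

theorem dl_congr {a' b' : V} (e : r a * r b = r a' * r b') : dl π x0 a b = dl π x0 a' b' := by rw [dl, dl, e]

theorem dl_symm (o : OP a b) : dl π x0 a b = dl π x0 b a := dl_congr (r_comm o.2.2.1)

theorem dl_self (h : Nrm π z x0) (a : V) : dl π x0 a a = 1 := dif_neg fun ⟨l, e⟩ => T01_ne (by
  rwa [r_sq, map_mul, map_mul, map_inv, h.px, conj_eq_one_iff] at e)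

theorem dl_sq (h : Nrm π z x0) (o : OP a b) : dl π x0 a b * dl π x0 a b = 1 := h.sqB o (h.π_dl o)

theorem dl01 (h : Nrm π z x0) : dl π x0 (d 0 1) (d 0 1 + one) = x0 := by
  rw [h.dl_eq (l := 1) (by rw [← T_d (by decide), ← h.px]; simp)]; simp

theorem dl_pm (h : Nrm π z x0) (hu : sm u = 0) {σ : P8} (e : π y = T u * pm σ) {i j : Fin 8} (hij : i ≠ j) :
    y * dl π x0 (d i j) (d i j + one) * y⁻¹ = dl π x0 (d (σ i) (σ j)) (d (σ i) (σ j) + one) := by
  rw [h.dl_conj (OP_d i j hij), e, O.map_add, mem_St.1 (TP_mem hu σ), O.mul_apply, pm_apply, pv_d, T_even hu (sm_d _ _)]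
  exact dl_congr (by rw [rr_T _ (σ.injective.ne hij), T_d (σ.injective.ne hij)])

/-- a family `δ` with the cocycle identity gives a homomorphism on the even vectors -/
theorem _root_.Cfsg.Agent.WA.O8.exists_eta' {Y : Type*} [Group Y] {δ : Fin 8 → Fin 8 → Y}
    (h1 : ∀ i j k, δ i j * δ j k = δ i k) (h2 : ∀ i j, δ i j = δ j i) : ∃ η : V → Y, Hm η ∧ ∀ i j, η (d i j) = δ i j := by
  have h0 : ∀ i, δ i i = 1 := fun i => left_eq_mul.1 (h1 i i i).symm
  obtain ⟨η, e1, e2⟩ := exists_eta (δ 0) (fun i j => by rw [h2 0 i, h1, h2 0 j, h2 i 0, h1, h2])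
    fun i => by nth_rewrite 1 [h2 0 i]; rw [h1, h0]
  exact ⟨η, e1, fun i j => by rw [e1.d, e2, e2, h2 0 i, h1]⟩

theorem tri_of {Y : Type*} [Group Y] {δ : Fin 8 → Fin 8 → Y} (h0 : ∀ i, δ i i = 1) (h2 : ∀ i j, δ i j = δ j i)
    (h3 : ∀ i j, i ≠ j → δ i j * δ i j = 1) (h : ∀ i j k, i ≠ j → i ≠ k → j ≠ k → δ i j * δ j k = δ i k) (i j k : Fin 8) :
    δ i j * δ j k = δ i k := by
  by_cases ij : i = j
  · rw [ij, h0, one_mul]
  by_cases jk : j = k
  · rw [jk, h0, mul_one]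
  by_cases ik : i = k
  · rw [← ik, h2 j i, h3 i j ij, h0]
  · exact h i j k ij ik jk

theorem exists_eps (h : Nrm π z x0) : ∃ ε : V → X, Hm ε ∧ ∀ i j, ε (d i j) = dl π x0 (d i j) (d i j + one) := by
  refine exists_eta' (tri_of (fun i => ?_) (fun i j => by rw [d_comm]) (fun i j ij => h.dl_sq (OP_d i j ij))
    fun i j k ij ik jk => ?_) fun i j => by rw [d_comm]
  · rw [dl_congr (a' := 0) (b' := 0) (by
      rw [d_self, zero_add, r_sq]
      exact O.ext fun i => by rw [O.mul_apply, r_apply, r_apply, O.one_apply]; revert i; decide +kernel), h.dl_self]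
  obtain ⟨σ, hσ, rfl, rfl, rfl⟩ := perm3 i j k ij ik jk
  obtain ⟨s, hs⟩ := h.surj _ (pm_mem hσ)
  obtain ⟨y, hy⟩ := h.surj (pm (swap 0 2 * swap 0 1)) (pm_mem (by decide))
  have z0 : sm 0 = 0 := by decide
  have e : ∀ {y σ}, π y = pm σ → π y = T 0 * pm σ := fun e => by rw [e, T_zero, one_mul]
  have h1 := h.dl_pm z0 (e hy) (i := 0) (j := 1) (by decide)
  have h2 := h.dl_pm z0 (e (y := y⁻¹) (by rw [map_inv, hy, ← map_inv])) (i := 0) (j := 1) (by decide)
  rw [h.dl01] at h1 h2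
  rw [inv_inv] at h2
  rw [← h.dl_pm z0 (e hs) (by decide), ← h.dl_pm z0 (e hs) (by decide), ← h.dl_pm z0 (e hs) (by decide), conj_mul,
    h.dl01, show d 0 2 = d 2 0 from d_comm _ _]
  exact congrArg (s * · * s⁻¹) (((congrArg _ h1).symm.trans (h.t3 y hy)).trans h2)

end Nrm

end Cfsg.Agent.WA.O8
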