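import Cfsg.Agent.WA.O8L

/-! The elementary abelian subgroups `E` and `F` of the cover. -/

set_option autoImplicit false

namespace Cfsg.Agent.WA.O8

open Equiv

variable {X : Type*} [Group X] {π : X →* O} {z x y l x0 : X} {a b c u v : V} {ε φ : V → X}

theorem Hm.conj {Y : Type*} [Group Y] {η η' : V → Y} (h : Hm η) (h' : Hm η') {y : Y} {σ : P8}
    (H : ∀ j, y * η (O8.d 0 j) * y⁻¹ = η' (O8.d (σ 0) (σ j))) (hv : sm v = 0) : y * η v * y⁻¹ = η' (pv σ v) :=
  ev_ind (P := fun v => y * η v * y⁻¹ = η' (pv σ v)) (by rw [h.zero, show pv σ 0 = 0 from rfl, h'.zero]; simp)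
    (fun u j _ ih => by rw [h, ← conj_mul, ih, H, pv_add, pv_d, h']) hv

theorem Hm.map {Y Z : Type*} [Group Y] [Group Z] {η : V → Y} (h : Hm η) (f : Y →* Z) : Hm fun u => f (η u) :=
  fun u v => by beta_reduce; rw [h, map_mul]

theorem exists_ext {Y : Type*} [Group Y] {H : Subgroup Y} {g : Y} (hn : ∀ h ∈ H, g * h * g⁻¹ ∈ H) (h2 : g * g ∈ H)
    (hg : g ∉ H) : ∃ K : Subgroup Y, H ≤ K ∧ g ∈ K ∧ (∀ x ∈ K, x ∈ H ∨ g * x ∈ H) ∧ (H.subgroupOf K).index = 2 := by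
  have hn' : ∀ h ∈ H, g⁻¹ * h * g ∈ H := fun h hh => by
    have := mul_mem (mul_mem (inv_mem h2) (hn h hh)) h2
    rwa [show (g * g)⁻¹ * (g * h * g⁻¹) * (g * g) = g⁻¹ * h * g by group] at this
  let K : Subgroup Y :=
    { carrier := {x | x ∈ H ∨ g * x ∈ H}
      one_mem' := .inl (one_mem H)
      mul_mem' := fun {x y} hx hy => by
        rcases hx with hx | hx <;> rcases hy with hy | hy
        · exact .inl (mul_mem hx hy)
        · exact .inr (by have := mul_mem (hn x hx) hy; rwa [show g * x * g⁻¹ * (g * y) = g * (x * y) by group] at this)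
        · exact .inr (by rw [← mul_assoc]; exact mul_mem hx hy)
        · exact .inl (by
            have := mul_mem (mul_mem (hn' _ hx) (inv_mem h2)) hy
            rwa [show g⁻¹ * (g * x) * g * (g * g)⁻¹ * (g * y) = x * y by group] at this)
      inv_mem' := fun {x} hx => hx.imp (fun h => inv_mem h) fun hx => by
        have := mul_mem (hn _ (inv_mem hx)) h2
        rwa [show g * (g * x)⁻¹ * g⁻¹ * (g * g) = g * x⁻¹ by group] at this }
  refine ⟨K, fun x hx => .inl hx, .inr h2, fun x hx => hx, Subgroup.index_eq_two_iff'.2 ⟨⟨g, .inr h2⟩, fun x => ?_⟩⟩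
  by_cases hx : x.1 ∈ H
  · exact .inr ⟨hx, fun h => hg ((mul_mem_cancel_right hx).1 h)⟩
  · exact .inl ⟨x.2.resolve_left hx, hx⟩

theorem card_ext {Y : Type*} [Group Y] {H K : Subgroup Y} (h : H ≤ K) (hi : (H.subgroupOf K).index = 2) :
    Nat.card K = 2 * Nat.card H := by
  rw [← hi, ← Nat.card_congr (Subgroup.subgroupOfEquivOfLe h).toEquiv, Subgroup.index_mul_card]

theorem ext_le {Y : Type*} [Group Y] {H K L : Subgroup Y} {g : Y} (hK : ∀ x ∈ K, x ∈ H ∨ g * x ∈ H) (h : H ≤ L)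
    (hg : g ∈ L) : K ≤ L := fun x hx => (hK x hx).elim (fun e => h e) fun e => (mul_mem_cancel_left hg).1 (h e)

theorem card_pts : Nat.card {p : V // Q p = 0 ∧ p ≠ 0} = 135 := by
  rw [Nat.card_eq_fintype_card, Fintype.card_subtype]; decide +kernel

theorem Cov.index_St (h : Cov π z) : (St.comap π).index = 135 := by
  letI := MulAction.compHom V π
  rw [show St.comap π = MulAction.stabilizer X one from rfl, MulAction.index_stabilizer, ← card_pts, ← Nat.card_coe_set_eq]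
  congr 2
  ext p
  refine ⟨?_, fun hp => ?_⟩
  · rintro ⟨x, rfl⟩; exact ⟨(O.Q_map (π x) one).trans Q_one, O.ne_zero (π x) one_ne⟩
  · obtain ⟨g, hg, e⟩ := trans hp.1 hp.2
    obtain ⟨x, rfl⟩ := h.surj g hg
    exact ⟨x, e⟩

/-- the cover with coordinates on `E` -/
structure Ep (π : X →* O) (z x0 : X) (ε : V → X) : Prop extends Nrm π z x0 where
  eh : Hm ε
  ed : ∀ i j, ε (d i j) = dl π x0 (d i j) (d i j + one)

namespace Ep

theorem πe (h : Ep π z x0 ε) (hu : sm u = 0) : π (ε u) = T u :=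
  ev_ind (P := fun u => π (ε u) = T u) (by rw [h.eh.zero, T_zero, map_one]) (fun u j hu ih => by
    rw [h.eh, map_mul, ih, T_add hu (sm_d _ _)]
    by_cases hj : 0 = j
    · rw [← hj, d_self, h.eh.zero, T_zero, map_one]
    · rw [h.ed, h.π_dl (OP_d _ _ hj), T_d hj]) hu

theorem econj (h : Ep π z x0 ε) (hu : sm u = 0) {σ : P8} (e : π y = T u * pm σ) (hv : sm v = 0) :
    y * ε v * y⁻¹ = ε (pv σ v) := h.eh.conj h.eh (fun j => by
  by_cases hj : 0 = j
  · rw [← hj, d_self, d_self, h.eh.zero]; simp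
  · rw [h.ed, h.ed, h.dl_pm hu e hj]) hv

theorem tri0 (h : Ep π z x0 ε) {k l : Fin 8} (s : F2) (o : OP (d 0 1) (d k l + s • one))
    (o' : d k l + s • one ≠ d 0 1 + one) :
    x0 * dl π x0 (d 0 1) (d k l + s • one) = dl π x0 (d 0 1 + one) (d k l + s • one) := by
  obtain ⟨hkl, m, h1, h2, h3⟩ := (by decide +kernel : ∀ (k l : Fin 8) (s : F2), OP (d 0 1) (d k l + s • one) →
    d k l + s • one ≠ d 0 1 + one → k ≠ l ∧ ∃ m, B (d 0 1) (d 1 m) = 1 ∧ B (d k l + s • one) (d 1 m) = 0 ∧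
      pv (swap 0 1 * swap k l) (d 1 m) + d 1 m = d 0 1) k l s o o'
  have hs : sm (d k l + s • one) = 0 := by rw [sm_add, sm_smul, sm_d, sm_one, mul_zero, add_zero]
  have e1 := h.dl_conj o (ε (d 1 m))
  rw [h.πe (sm_d _ _), T_even (sm_d _ _) (sm_d _ _), T_even (sm_d _ _) hs, h1, h2, one_smul, zero_smul, add_zero] at e1
  have e2 := h.econj (y := dl π x0 (d 0 1) (d k l + s • one)) (u := s • d k l) (σ := swap 0 1 * swap k l)
    (by rw [sm_smul, sm_d, mul_zero]) (by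
      rw [h.π_dl o, r_comm o.2.2.1, map_mul, pm_swap hkl, pm_swap (by decide), r_comm (a := d 0 1) (by
        have := o.2.2.1; rwa [B_add', B_smul', B_one, sm_d, mul_zero, add_zero] at this), ← mul_assoc, mul_left_inj]
      rcases F2c s with rfl | rfl
      · rw [zero_smul, zero_smul, add_zero, T_zero, one_mul]
      · rw [one_smul, one_smul, T_d hkl, r_comm (OP_d k l hkl).2.2.1, mul_assoc, r_sq, mul_one]) (sm_d 1 m)
  rw [← e1, h.eh.inv, mul_assoc, mul_inv_eq_iff_eq_mul.1 e2, ← mul_assoc, ← h.eh, add_comm (d 1 m), h3, h.ed, h.dl01]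

theorem tri (h : Ep π z x0 ε) (o1 : OP a b) (o2 : OP b c) (o3 : OP a c) :
    dl π x0 a b * dl π x0 b c = dl π x0 a c := by
  obtain ⟨g, hg, s, e1, e2⟩ := o1.move
  obtain ⟨y, rfl⟩ := h.surj g hg
  obtain ⟨c, rfl⟩ : ∃ c', π y c' = c := ⟨_, O.apply_inv _ c⟩
  have un : ∀ {a b}, OP (π y a) (π y b) → OP a b := fun o => by simpa only [O.inv_apply] using o.map (π y)⁻¹
  subst e1 e2
  replace o1 := un o1; replace o2 := un o2; replace o3 := un o3
  rw [← h.dl_conj o1, ← h.dl_conj o2, ← h.dl_conj o3, conj_mul]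
  congr 2
  obtain ⟨k, l, -, t, rfl⟩ := nons c ⟨by
    have := o2.2.2.1; rwa [B_add, o3.2.2.1, zero_add, B_one'] at this, o2.2.1⟩
  rcases F2c s with rfl | rfl
  · rw [zero_smul, add_zero] at *
    rw [← h.tri0 t o3 o2.2.2.2.symm, h.dl01, ← mul_assoc, h.sq, one_mul]
  · rw [one_smul, add_cancel'] at *
    rw [← h.tri0 t o2 o3.2.2.2.symm, Nrm.dl_symm o1, h.dl01]

theorem e_one [Finite X] (h : Ep π z x0 ε) : ε one = z := by
  refine ((h.ker _).1 (by rw [h.πe sm_one, T_one])).resolve_left fun e1 => ?_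
  let H0 : Subgroup X :=
    { carrier := {x | ∃ u, sm u = 0 ∧ ε u = x}
      one_mem' := ⟨0, by decide, h.eh.zero⟩
      mul_mem' := by rintro _ _ ⟨u, hu, rfl⟩ ⟨v, hv, rfl⟩; exact ⟨u + v, by rw [sm_add, hu, hv, add_zero], h.eh u v⟩
      inv_mem' := by rintro _ ⟨u, hu, rfl⟩; exact ⟨u, hu, (h.eh.inv u).symm⟩ }
  have z0 : z ∉ H0 := by
    rintro ⟨u, hu, e⟩
    rcases T_eq_one hu (by rw [← h.πe hu, e, h.πz]) with rfl | rfl
    · exact h.z1 (e.symm.trans h.eh.zero)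
    · exact h.z1 (e.symm.trans e1)
  let D : V → Subgroup X := fun w => (((MulAction.stabilizer O w).comap pm).comap sig).map St.subtype |>.comap π
  have D0 : ∀ w, H0 ≤ D w := by
    rintro w _ ⟨u, hu, rfl⟩
    have e : π (ε u) = T u * pm 1 := by rw [h.πe hu, map_one, mul_one]
    refine ⟨⟨_, TP_mem hu 1⟩, ?_, e.symm⟩
    rw [SetLike.mem_coe, Subgroup.mem_comap, sig_eq hu rfl]; exact one_mem _
  have z00 : sm 0 = 0 := by decide
  have pe : ∀ {g σ}, π g = pm σ → π g = T 0 * pm σ := fun e => by rw [e, T_zero, one_mul]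
  have DI : ∀ {g σ}, π g = pm σ → ∀ w, g ∈ D w ↔ pv σ w = w := fun {g σ} e w =>
    ⟨fun ⟨s, hs, e'⟩ => by rw [← sig_eq z00 (e'.trans (pe e))]; exact hs, fun hw =>
      ⟨⟨_, TP_mem z00 σ⟩, by
        rw [SetLike.mem_coe, Subgroup.mem_comap, sig_eq z00 rfl]; exact hw, (pe e).symm⟩⟩
  have step : ∀ {H : Subgroup X} {g σ} (w : V), π g = pm σ → pv σ w ≠ w → H ≤ D w → z ∉ H →
      H ≤ H.comap (MulAut.conj g).toMonoidHom → g * g = 1 →
      ∃ K : Subgroup X, H ≤ K ∧ g ∈ K ∧ (∀ x ∈ K, x ∈ H ∨ g * x ∈ H) ∧ Nat.card K = 2 * Nat.card H ∧ z ∉ K :=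
    fun {H g σ} w e hw hD hz hn h2 => by
      obtain ⟨K, k1, k2, k3, k4⟩ := exists_ext (H := H) (g := g) (fun x hx => hn hx) (h2 ▸ one_mem H) fun hg => hw ((DI e w).1 (hD hg))
      refine ⟨K, k1, k2, k3, card_ext k1 k4, fun hK => (k3 z hK).elim hz fun e' => hw ((DI ?_ w).1 (hD e'))⟩
      rw [map_mul, h.πz, mul_one, e]
  have N0 : ∀ {g σ} {K : Subgroup X}, π g = pm σ → H0 ≤ K → H0 ≤ K.comap (MulAut.conj g).toMonoidHom := by
    rintro g σ K e hK _ ⟨u, hu, rfl⟩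
    exact hK ⟨_, (sm_pv _ _).trans hu, (h.econj z00 (pe e) hu).symm⟩
  have pd : ∀ {i j k l}, OP (d i j) (d k l) → π (dl π x0 (d i j) (d k l)) = pm (swap i j * swap k l) :=
    fun {i j k l} o => by
      rw [h.π_dl o, map_mul, pm_swap, pm_swap] <;> rintro rfl
      · exact absurd (d_self k ▸ o.2.1) (by decide)
      · exact absurd (d_self i ▸ o.1) (by decide)
  have cj : ∀ {g σ a b a' b'} {K : Subgroup X}, π g = pm σ → OP a b → dl π x0 a' b' ∈ K → pv σ a = a' → pv σ b = b' →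
      dl π x0 a b ∈ K.comap (MulAut.conj g).toMonoidHom := fun {g σ a b a' b' K} e o hK e1 e2 => by
    change g * dl π x0 a b * g⁻¹ ∈ K
    rwa [h.dl_conj o, e, pm_apply, pm_apply, e1, e2]
  have o1 : OP (d 0 1) (d 2 3) := by decide
  have o2 : OP (d 0 1) (d 4 5) := by decide
  have o3 : OP (d 0 1) (d 6 7) := by decide
  have o4 : OP (d 0 2) (d 1 3) := by decide
  have o5 : OP (d 4 6) (d 5 7) := by decide
  have o6 : OP (d 0 4) (d 1 5) := by decide
  have o7 : OP (d 2 6) (d 3 7) := by decide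
  have p6 : π (dl π x0 (d 0 4) (d 1 5) * dl π x0 (d 2 6) (d 3 7)) = pm (swap 0 4 * swap 1 5 * (swap 2 6 * swap 3 7)) := by
    rw [map_mul, pd o6, pd o7, map_mul pm (_ * _)]
  obtain ⟨H1, l1, m1, c1, n1, z1⟩ := step (e 2) (pd o1) (by decide) (D0 _) z0 (N0 (pd o1) le_rfl) (h.dl_sq o1)
  have D1 : ∀ w, pv (swap 0 1 * swap 2 3) w = w → H1 ≤ D w := fun w e => ext_le c1 (D0 w) ((DI (pd o1) w).2 e)
  obtain ⟨H2, l2, m2, c2, n2, z2⟩ := step (e 4) (pd o2) (by decide) (D1 _ (by decide)) z1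
    (ext_le c1 (N0 (pd o2) l1) (cj (pd o2) o1 m1 (by decide) (by decide))) (h.dl_sq o2)
  obtain ⟨H3, l3, m3, c3, n3, z3⟩ := step (e 6) (pd o3) (by decide)
    (ext_le c2 (D1 _ (by decide)) ((DI (pd o2) _).2 (by decide))) z2
    (ext_le c2 (ext_le c1 (N0 (pd o3) (l1.trans l2)) (cj (pd o3) o1 (l2 m1) (by decide) (by decide)))
      (cj (pd o3) o2 m2 (by decide) (by decide))) (h.dl_sq o3)
  have D3 : ∀ w, pv (swap 0 1 * swap 2 3) w = w → pv (swap 0 1 * swap 4 5) w = w → pv (swap 0 1 * swap 6 7) w = w →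
      H3 ≤ D w := fun w e1 e2 e3 => ext_le c3 (ext_le c2 (D1 w e1) ((DI (pd o2) w).2 e2)) ((DI (pd o3) w).2 e3)
  have B3 : ∀ a ∈ [d 0 1, d 2 3, d 4 5, d 6 7], dl π x0 (d 0 1) a ∈ H3 := by
    simp only [List.mem_cons, List.not_mem_nil, or_false]
    rintro _ (rfl | rfl | rfl | rfl)
    exacts [h.dl_self _ ▸ one_mem _, l3 (l2 m1), l3 m2, m3]
  have B3' : ∀ a ∈ [d 0 1, d 2 3, d 4 5, d 6 7], ∀ b ∈ [d 0 1, d 2 3, d 4 5, d 6 7], a ≠ b → dl π x0 a b ∈ H3 :=
    fun a ha b hb ab => by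
      have o : ∀ a ∈ [d 0 1, d 2 3, d 4 5, d 6 7], ∀ b ∈ [d 0 1, d 2 3, d 4 5, d 6 7], a ≠ b → OP a b := by decide +kernel
      by_cases a0 : d 0 1 = a
      · exact a0 ▸ B3 b hb
      by_cases b0 : d 0 1 = b
      · rw [Nrm.dl_symm (o a ha b hb ab)]; exact b0 ▸ B3 a ha
      have oa := o _ (by simp) a ha a0
      rw [← h.tri oa.symm (o _ (by simp) b hb b0) (o a ha b hb ab), ← Nrm.dl_symm oa]
      exact mul_mem (B3 a ha) (B3 b hb)
  have N3 : ∀ {g σ} {K : Subgroup X}, π g = pm σ → H3 ≤ K →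
      (∀ a ∈ [d 0 1, d 2 3, d 4 5, d 6 7], pv σ a ∈ [d 0 1, d 2 3, d 4 5, d 6 7]) →
      H3 ≤ K.comap (MulAut.conj g).toMonoidHom := fun {g σ K} e hK hσ => by
    have A : ∀ a ∈ [d 0 1, d 2 3, d 4 5, d 6 7], OP (d 0 1) a → dl π x0 (d 0 1) a ∈ K.comap (MulAut.conj g).toMonoidHom :=
      fun a ha o => cj e o (hK (B3' _ (hσ (d 0 1) (by simp)) _ (hσ a ha) (o.map (pm σ)).2.2.2)) rfl rfl
    exact ext_le c3 (ext_le c2 (ext_le c1 (N0 e (((l1.trans l2).trans l3).trans hK)) (A _ (by simp) o1))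
      (A _ (by simp) o2)) (A _ (by simp) o3)
  obtain ⟨H4, l4, m4, c4, n4, z4⟩ := step (d 0 1) (pd o4) (by decide) (D3 _ (by decide) (by decide) (by decide)) z3
    (N3 (pd o4) le_rfl (by decide +kernel)) (h.dl_sq o4)
  obtain ⟨H5, l5, m5, c5, n5, z5⟩ := step (d 4 5) (pd o5) (by decide)
    (ext_le c4 (D3 _ (by decide) (by decide) (by decide)) ((DI (pd o4) _).2 (by decide))) z4
    (ext_le c4 (N3 (pd o5) l4 (by decide +kernel)) (cj (pd o5) o4 m4 (by decide) (by decide))) (h.dl_sq o5)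
  obtain ⟨H6, l6, m6, c6, n6, z6⟩ := step (d 0 1 + d 2 3) p6 (by decide)
    (ext_le c5 (ext_le c4 (D3 _ (by decide) (by decide) (by decide)) ((DI (pd o4) _).2 (by decide)))
      ((DI (pd o5) _).2 (by decide))) z5
    (ext_le c5 (ext_le c4 (N3 p6 (l4.trans l5) (by decide +kernel)) (cj p6 o4 m5 (by decide) (by decide)))
      (cj p6 o5 (l5 m4) (by decide) (by decide))) (by
        have := h.dl_conj o6 (dl π x0 (d 2 6) (d 3 7))
        rw [pd o7, pm_apply, pm_apply, show pv (swap 2 6 * swap 3 7) (d 0 4) = d 0 4 by decide,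
          show pv (swap 2 6 * swap 3 7) (d 1 5) = d 1 5 by decide, mul_inv_eq_iff_eq_mul] at this
        rw [mul_assoc, ← mul_assoc (dl π x0 (d 2 6) (d 3 7)), this, mul_assoc, h.dl_sq o7, mul_one, h.dl_sq o6])
  have zn : ∀ (H : Subgroup X), ∀ x ∈ H, z * x * z⁻¹ ∈ H := fun H x hx => by rwa [← h.zc, mul_inv_cancel_right]
  obtain ⟨P, l7, m7, -, i7⟩ := exists_ext (zn H6) (h.z2 ▸ one_mem _) z6
  obtain ⟨E, l8, m8, c8, i8⟩ := exists_ext (zn H0) (h.z2 ▸ one_mem _) z0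
  let sX : St.comap π →* P8 := sig.comp (π.subgroupComap St)
  have k1 : Nat.card sX.ker = Nat.card E := by
    rw [← Subgroup.card_map_of_injective (St.comap π).subtype_injective]
    congr 3
    refine le_antisymm ?_ (ext_le c8 ?_ ⟨⟨z, by rw [Subgroup.mem_comap, h.πz]; exact one_mem _⟩,
      sig_eq z00 (h.πz.trans (by rw [T_zero, map_one, one_mul])), rfl⟩)
    · rintro _ ⟨x, hx, rfl⟩
      obtain ⟨u, hu, e⟩ := sig_spec (π.subgroupComap St x)
      rw [show sig (π.subgroupComap St x) = 1 from hx, map_one, mul_one, ← h.πe hu] at e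
      rcases h.eq e with e | e <;> rw [Subgroup.subtype_apply, e]
      · exact l8 ⟨u, hu, rfl⟩
      · exact mul_mem (l8 ⟨u, hu, rfl⟩) m8
    · rintro _ ⟨u, hu, rfl⟩
      have e : π (ε u) = T u * pm 1 := by rw [h.πe hu, map_one, mul_one]
      exact ⟨⟨ε u, by rw [Subgroup.mem_comap, e]; exact TP_mem hu 1⟩, sig_eq hu e, rfl⟩
  have k2 : Nat.card sX.range ∣ 20160 := by
    have : sX.range ≤ alternatingGroup (Fin 8) := by
      rintro _ ⟨x, rfl⟩
      obtain ⟨u, hu, e⟩ := sig_spec (π.subgroupComap St x)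
      exact sign_of_mem hu (e ▸ h.mem x)
    have h2 := two_mul_nat_card_alternatingGroup (α := Fin 8)
    rw [Nat.card_perm, Nat.card_eq_fintype_card (α := Fin 8), Fintype.card_fin] at h2
    exact (show Nat.card (alternatingGroup (Fin 8)) = 20160 from
      Nat.eq_of_mul_eq_mul_left two_pos (h2.trans (by decide +kernel))) ▸
      Subgroup.card_dvd_of_le this
  have k3 : Odd P.index := by
    have a1 := P.index_mul_card
    have a2 := (St.comap π).index_mul_card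
    have a3 := sX.ker.index_mul_card
    rw [Subgroup.index_ker, k1, card_ext l8 i8] at a3
    rw [card_ext l7 i7, n6, n5, n4, n3, n2, n1, ← a2, h.index_St, ← a3] at a1
    have a4 : P.index * 64 = 135 * Nat.card sX.range :=
      Nat.eq_of_mul_eq_mul_right (m := 2 * Nat.card H0) (by have := Nat.card_pos (α := H0); omega) (by linarith)
    refine Nat.not_even_iff_odd.1 fun ⟨k, hk⟩ => ?_
    exact absurd (((by decide : Nat.Coprime 128 135).dvd_of_dvd_mul_left (⟨k, by omega⟩ : 128 ∣ 135 * Nat.card sX.range)).trans k2) (by norm_num)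
  obtain ⟨χ, hχ⟩ := sgn_hom i7
  have t1 := MonoidHom.transfer_eq_pow χ z fun k g _ => by
    rw [mul_assoc, ← (Commute.pow_right (h.zc g) k).eq, inv_mul_cancel_left]
  have t2 : MonoidHom.transfer χ z = 1 :=
    Abelianization.commutator_subset_ker _ (h.perf.ge (Subgroup.mem_top z))
  obtain ⟨k, hk⟩ := k3
  refine z6 ?_
  have := (hχ _).1 (t1.symm.trans t2)
  rwa [Subgroup.mem_subgroupOf, Subgroup.coe_mk, hk, pow_succ, pow_mul, pow_two, h.z2, one_pow, one_mul] at this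

end Ep

/-- the cover with coordinates on `E` and `F` -/
structure Fr (π : X →* O) (z x0 : X) (ε φ : V → X) : Prop extends Ep π z x0 ε where
  e1 : ε one = z
  ph : Hm φ
  pd : ∀ i j, φ (d i j) = dl π x0 (av i) (av j)

theorem Cov.exists_fr [Finite X] (h : Cov π z) : ∃ (π' : X →* O) (x : X) (ε φ : V → X), Fr π' z x ε φ := by
  obtain ⟨π, x, h⟩ := h.exists_nrm
  obtain ⟨ε, h1, h2⟩ := h.exists_eps
  have h' : Ep π z x ε := ⟨h, h1, h2⟩
  have sy : ∀ i j, dl π x (av i) (av j) = dl π x (av j) (av i) := fun i j => Nrm.dl_congr (r_comm (B_av i j))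
  obtain ⟨φ, h3, h4⟩ := exists_eta' (δ := fun i j => dl π x (av i) (av j)) (Nrm.tri_of (fun i => h.dl_self _) sy
    (fun i j ij => h.dl_sq (OP_av i j ij)) fun i j k ij ik jk => h'.tri (OP_av i j ij) (OP_av j k jk) (OP_av i k ik)) sy
  exact ⟨π, x, ε, φ, h', h'.e_one, h3, h4⟩

namespace Fr

theorem πp (h : Fr π z x0 ε φ) (hu : sm u = 0) : π (φ u) = R u :=
  ev_ind (P := fun u => π (φ u) = R u) (by rw [h.ph.zero, R_hm.zero, map_one]) (fun u j hu ih => by
    rw [h.ph, map_mul, ih, R_hm]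
    by_cases hj : 0 = j
    · rw [← hj, d_self, h.ph.zero, R_hm.zero, map_one]
    · rw [h.pd, h.π_dl (OP_av _ _ hj), R_d]) hu

theorem p1 (h : Fr π z x0 ε φ) : φ one = z := by
  rw [← h.e1, show one = d 0 4 + d 1 5 + d 2 6 + d 7 3 by decide, h.ph, h.ph, h.ph, h.pd, h.pd, h.pd, h.pd,
    show d 0 4 + d 1 5 + d 2 6 + d 7 3 = d 0 1 + d 2 3 + d 4 5 + d 6 7 by decide, h.eh, h.eh, h.eh, h.ed, h.ed, h.ed, h.ed]
  rfl

theorem inj_of {η : V → X} {ζ : V → O} (h : Cov π z) (hη : Hm η) (h1 : η one = z) (h2 : ∀ u, sm u = 0 → π (η u) = ζ u)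
    (h3 : ∀ u, sm u = 0 → ζ u = 1 → u = 0 ∨ u = one) (hu : sm u = 0) (hv : sm v = 0) (e : η u = η v) : u = v := by
  have s : sm (u + v) = 0 := by rw [sm_add, hu, hv, add_zero]
  have e' : η (u + v) = 1 := by rw [hη, e, hη.sq]
  rcases h3 _ s (by rw [← h2 _ s, e', map_one]) with f | f
  · exact add_eq_zero_V.1 f
  · exact absurd (h1.symm.trans (f ▸ e')) h.z1

theorem einj (h : Fr π z x0 ε φ) (hu : sm u = 0) (hv : sm v = 0) (e : ε u = ε v) : u = v :=
  inj_of h.toCov h.eh h.e1 (fun _ => h.πe) (fun _ => T_eq_one) hu hv e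

theorem pinj (h : Fr π z x0 ε φ) (hu : sm u = 0) (hv : sm v = 0) (e : φ u = φ v) : u = v :=
  inj_of h.toCov h.ph h.p1 (fun _ => h.πp) (fun _ _ => R_eq_one) hu hv e

end Fr

end Cfsg.Agent.WA.O8
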