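import Cfsg.Agent.WA.O8M
import Cfsg.Agent.WA.O8Cls

/-! Overgroups of the cover; large elementary abelian subgroups. -/

set_option autoImplicit false

namespace Cfsg.Agent.WA.O8

open Equiv

variable {X : Type*} [Group X] {π : X →* O} {z x l x0 : X} {a b c u v w : V} {ε φ : V → X}
  {Y : Type*} [Group Y] {ι : X →* Y} {ρ : Y →* O} {y : Y} {A : Subgroup Y} {σ τ : P8}

theorem TP_comm (hu : sm u = 0) (hv : sm v = 0) (h : T u * pm σ * (T v * pm τ) = T v * pm τ * (T u * pm σ)) :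
    ∃ c : F2, u + pv σ v = v + pv τ u + c • one := by
  have s : ∀ {u v σ}, sm u = 0 → sm v = 0 → sm (u + pv σ v) = 0 := fun hu hv => by rw [sm_add, sm_pv, hu, hv, add_zero]
  rw [TP_mul hu hv, TP_mul hv hu] at h
  exact T_inj (s hu hv) (s hv hu) (dec_uniq (s hu hv) (s hv hu) h).2

theorem TP_sq (hu : sm u = 0) (h : T u * pm σ * (T u * pm σ) = 1) : σ * σ = 1 ∧ ∃ c : F2, pv σ u = u + c • one := by
  have s : sm (u + pv σ u) = 0 := by rw [sm_add, sm_pv, hu, add_zero]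
  rw [TP_mul hu hu] at h
  obtain ⟨h1, h2⟩ := dec_uniq (τ := 1) s (v := 0) (by decide) (by rw [h, T_zero, map_one, one_mul])
  obtain ⟨c, hc⟩ := T_inj s (by decide) h2
  exact ⟨h1, c, by rw [← zero_add (c • one), ← hc, add_cancel]⟩

theorem TP_conj (τ σ : P8) (u : V) : pm τ * (T u * pm σ) * (pm τ)⁻¹ = T (pv τ u) * pm (τ * σ * τ⁻¹) := by
  rw [← pm_T, map_mul, map_mul, map_inv]; group

structure Amb (π : X →* O) (z x0 : X) (ε φ : V → X) (ι : X →* Y) (ρ : Y →* O) : Prop extends Fr π z x0 ε φ where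
  inj : Function.Injective ι
  ρι : ∀ x, ρ (ι x) = π x
  eqv : ∀ y a b, OP a b → y * ι (dl π x0 a b) * y⁻¹ = ι (dl π x0 (ρ y a) (ρ y b))
  cen : ∀ k, ρ k = 1 → ∀ x, k * ι x = ι x * k
  inv : ∀ k, ρ k = 1 → k * k = 1 → k = 1 ∨ k = ι z

theorem Fr.amb (h : Fr π z x0 ε φ) : Amb π z x0 ε φ (.id X) π :=
  ⟨h, fun _ _ e => e, fun _ => rfl, fun y _ _ o => h.dl_conj o y, fun k hk x => by
    rcases (h.ker k).1 hk with rfl | rfl
    · simp
    · exact (h.zc x).symm, fun k hk _ => (h.ker k).1 hk⟩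

namespace Amb

theorem econj (h : Amb π z x0 ε φ ι ρ) (hu : sm u = 0) (e : ρ y = T u * pm σ) (hv : sm v = 0) :
    y * ι (ε v) * y⁻¹ = ι (ε (pv σ v)) := (h.eh.map ι).conj (h.eh.map ι) (fun j => by
  by_cases hj : 0 = j
  · rw [← hj, d_self, d_self, h.eh.zero]; simp
  · rw [h.ed, h.ed, h.eqv _ _ _ (OP_d _ _ hj), e, O.map_add, mem_St.1 (TP_mem hu σ), O.mul_apply, pm_apply, pv_d,
      T_even hu (sm_d _ _)]
    exact congrArg ι (Nrm.dl_congr (by rw [rr_T _ (σ.injective.ne hj), T_d (σ.injective.ne hj)]))) hv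

theorem pconj (h : Amb π z x0 ε φ ι ρ) (e : ∀ i, ρ y (av i) = av (σ i)) (hv : sm v = 0) :
    y * ι (φ v) * y⁻¹ = ι (φ (pv σ v)) := (h.ph.map ι).conj (h.ph.map ι) (fun j => by
  by_cases hj : 0 = j
  · rw [← hj, d_self, d_self, h.ph.zero]; simp
  · rw [h.pd, h.pd, h.eqv _ _ _ (OP_av _ _ hj), e, e]) hv

theorem lift (h : Amb π z x0 ε φ ι ρ) (hy : y * y = 1) (hx : x * x = 1) (e : ρ y = π x) : y = ι x ∨ y = ι (x * z) := by
  have h1 : ρ ((ι x)⁻¹ * y) = 1 := by rw [map_mul, map_inv, h.ρι, e, inv_mul_cancel]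
  have h2 : (ι x)⁻¹ = ι x := inv_eq_of_mul_eq_one_right (by rw [← map_mul, hx, map_one])
  rcases h.inv _ h1 (by
    rw [← mul_assoc, ← map_inv, h.cen _ (by rwa [map_inv]), map_inv, mul_assoc, mul_assoc, hy, mul_one, h2, ← map_mul,
      hx, map_one]) with e | e
  · exact .inl (inv_mul_eq_one.1 e).symm
  · exact .inr (by rw [map_mul, ← e, mul_inv_cancel_left])

theorem liftE (h : Amb π z x0 ε φ ι ρ) (hy : y * y = 1) (hu : sm u = 0) (e : ρ y = T u) : ∃ v, sm v = 0 ∧ y = ι (ε v) := by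
  rcases h.lift hy (h.eh.sq u) (e.trans (h.πe hu).symm) with e | e
  · exact ⟨u, hu, e⟩
  · exact ⟨u + one, by rw [sm_add, hu, sm_one, add_zero], by rw [e, h.eh, h.e1]⟩

theorem liftF (h : Amb π z x0 ε φ ι ρ) (hy : y * y = 1) (hu : sm u = 0) (e : ρ y = R u) : ∃ v, sm v = 0 ∧ y = ι (φ v) := by
  rcases h.lift hy (h.ph.sq u) (e.trans (h.πp hu).symm) with e | e
  · exact ⟨u, hu, e⟩
  · exact ⟨u + one, by rw [sm_add, hu, sm_one, add_zero], by rw [e, h.ph, h.p1]⟩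

theorem pt (h : Amb π z x0 ε φ ι ρ) (hA : ∀ a ∈ A, a * a = 1) : ∃ l, ∀ a ∈ A, ρ (ι l * a * (ι l)⁻¹) ∈ St := by
  let P : SubMulAction O V := ⟨{p | Q p = 0 ∧ p ≠ 0}, fun g _ hp => ⟨(O.Q_map g _).trans hp.1, O.ne_zero g hp.2⟩⟩
  letI := MulAction.compHom P (ρ.comp A.subtype)
  obtain ⟨p, hp⟩ := IsPGroup.nonempty_fixed_point_of_prime_not_dvd_card (p := 2) (G := A)
    (fun a => ⟨1, Subtype.ext ((pow_two _).trans (hA a a.2))⟩) P
    (by rw [show Nat.card P = 135 from card_pts]; decide)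
  obtain ⟨g, hg, e⟩ := trans p.2.1 p.2.2
  obtain ⟨l, rfl⟩ := h.surj g hg
  refine ⟨l⁻¹, fun a ha => ?_⟩
  have : ρ a p = p := congrArg Subtype.val (hp ⟨a, ha⟩)
  rw [mem_St, map_mul, map_mul, map_inv ρ, h.ρι, map_inv, inv_inv, O.mul_apply, O.mul_apply, e, this, ← e, O.inv_apply]

theorem cls0 [Finite Y] (h : Amb π z x0 ε φ ι ρ) (hA : ∀ a ∈ A, a * a = 1) (hS : ∀ a ∈ A, ρ a ∈ St)
    (hc : 256 ≤ Nat.card A ∨ (128 ≤ Nat.card A ∧ ∀ a ∈ A, ρ a ∈ Om)) :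
    (∀ a ∈ A, ∃ u, sm u = 0 ∧ a = ι (ε u)) ∨ ∃ l, ∀ a ∈ A, ∃ w, ρ (ι l * a * (ι l)⁻¹) = R w := by
  have cm : ∀ a ∈ A, ∀ b ∈ A, a * b = b * a := fun a ha b hb =>
    Cov.comm_of_sq (hA a ha) (hA b hb) (hA _ (mul_mem ha hb))
  let s : A →* P8 := sig.comp ((ρ.comp A.subtype).codRestrict St fun a => hS a a.2)
  have hs : ∀ a : A, ∃ u, sm u = 0 ∧ ρ a = T u * pm (s a) := fun a => sig_spec ⟨ρ a, hS a a.2⟩
  have hE : ∀ a : A, s a = 1 → ∃ u, sm u = 0 ∧ a.1 = ι (ε u) := fun a e => by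
    obtain ⟨u, hu, e'⟩ := hs a
    exact h.liftE (hA a a.2) hu (by rw [e', e, map_one, mul_one])
  let C : Submodule F2 V :=
    { carrier := {u | sm u = 0 ∧ ι (ε u) ∈ A}
      zero_mem' := ⟨by decide, by rw [h.eh.zero, map_one]; exact one_mem A⟩
      add_mem' := fun hu hv => ⟨by rw [sm_add, hu.1, hv.1, add_zero], by rw [h.eh, map_mul]; exact mul_mem hu.2 hv.2⟩
      smul_mem' := fun c u hu => by
        rcases F2c c with rfl | rfl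
        · rw [zero_smul]; exact ⟨by decide, by rw [h.eh.zero, map_one]; exact one_mem A⟩
        · rwa [one_smul] }
  have h1 : Nat.card A ≤ Nat.card s.range * Nat.card C := by
    rw [← s.ker.index_mul_card, Subgroup.index_ker]
    choose f f1 f2 using fun a : s.ker => hE a a.2
    exact Nat.mul_le_mul_left _ (Nat.card_le_card_of_injective (fun a => (⟨f a, f1 a, f2 a ▸ a.1.2⟩ : C))
      fun a b e => Subtype.ext (Subtype.ext (by rw [f2, f2, show f a = f b from congrArg Subtype.val e])))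
  rcases classify s.range (by
      rintro _ ⟨a, rfl⟩; rw [← map_mul, show a * a = 1 from Subtype.ext (hA a a.2), map_one]) C (fun u hu => hu.1) (by
      rintro c hc _ ⟨a, rfl⟩
      obtain ⟨u, hu, e⟩ := hs a
      exact h.einj ((sm_pv _ _).trans hc.1) hc.1 (h.inj (by
        rw [← h.econj hu e hc.1, cm _ a.2 _ hc.2, mul_inv_cancel_right])))
    (hc.imp (fun e => e.trans h1) fun e => ⟨e.1.trans h1, by
      rintro _ ⟨a, rfl⟩
      obtain ⟨u, hu, e'⟩ := hs a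
      exact sign_of_mem hu (e' ▸ e.2 a a.2)⟩) with e | ⟨τ, t1, t2, ⟨a1, e1⟩, ⟨a2, e2⟩⟩
  · exact .inl fun a ha => hE ⟨a, ha⟩ (Subgroup.mem_bot.1 (e.le ⟨_, rfl⟩))
  obtain ⟨l, hl⟩ := h.surj _ (pm_mem t1)
  have hs' : ∀ a : A, ∃ u, sm u = 0 ∧ ρ (ι l * a * (ι l)⁻¹) = T u * pm (τ * s a * τ⁻¹) := fun a => by
    obtain ⟨u, hu, e⟩ := hs a
    exact ⟨_, (sm_pv _ _).trans hu, by rw [map_mul, map_mul, map_inv, h.ρι, hl, e, TP_conj]⟩
  choose f f1 f2 using hs'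
  have q1 : ∀ a : A, ∃ c : F2, pv (τ * s a * τ⁻¹) (f a) = f a + c • one := fun a =>
    (TP_sq (f1 a) (by rw [← f2, ← map_mul, conj_mul, hA a a.2]; simp)).2
  have q2 : ∀ a b : A, ∃ c : F2, f a + pv (τ * s a * τ⁻¹) (f b) = f b + pv (τ * s b * τ⁻¹) (f a) + c • one := fun a b =>
    TP_comm (f1 a) (f1 b) (by rw [← f2, ← f2, ← map_mul, ← map_mul, conj_mul, conj_mul, cm _ a.2 _ b.2])
  have g1 : τ * s a1 * τ⁻¹ = swap 0 1 * swap 2 3 := by rw [e1]; group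
  have g2 : τ * s a2 * τ⁻¹ = swap 0 1 * swap 4 5 := by rw [e2]; group
  refine .inr ⟨l, fun a ha => ?_⟩
  rw [f2 ⟨a, ha⟩]
  exact TP_R (t2 _ ⟨_, rfl⟩) (in_W (t2 _ ⟨_, rfl⟩) (f1 _) (f1 a1) (f1 a2) (q1 _) (g1 ▸ q1 a1) (g2 ▸ q1 a2)
    (g1 ▸ q2 _ a1) (g2 ▸ q2 _ a2) (g1 ▸ g2 ▸ q2 a1 a2))

theorem cls [Finite Y] (h : Amb π z x0 ε φ ι ρ) (hA : ∀ a ∈ A, a * a = 1)
    (hc : 256 ≤ Nat.card A ∨ (128 ≤ Nat.card A ∧ ∀ a ∈ A, ρ a ∈ Om)) :
    ∃ l, (∀ a ∈ A, ∃ u, sm u = 0 ∧ ι l * a * (ι l)⁻¹ = ι (ε u)) ∨ ∀ a ∈ A, ∃ w, ρ (ι l * a * (ι l)⁻¹) = R w := by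
  obtain ⟨l, hl⟩ := h.pt hA
  have k : Nat.card (A.map (MulAut.conj (ι l)).toMonoidHom) = Nat.card A :=
    Subgroup.card_map_of_injective (MulAut.conj (ι l)).injective
  rcases h.cls0 (A := A.map (MulAut.conj (ι l)).toMonoidHom) (by
      rintro _ ⟨a, ha, rfl⟩; rw [← map_mul, hA a ha, map_one]) (by rintro _ ⟨a, ha, rfl⟩; exact hl a ha)
    (hc.imp (fun e => k ▸ e) fun e => ⟨k ▸ e.1, by
      rintro _ ⟨a, ha, rfl⟩
      change ρ (ι l * a * (ι l)⁻¹) ∈ Om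
      rw [map_mul, map_mul, map_inv]
      exact Subgroup.Normal.conj_mem inferInstance _ (e.2 a ha) _⟩) with e | ⟨m, e⟩
  · exact ⟨l, .inl fun a ha => e _ ⟨a, ha, rfl⟩⟩
  · refine ⟨m * l, .inr fun a ha => ?_⟩
    obtain ⟨w, hw⟩ := e _ ⟨a, ha, rfl⟩
    exact ⟨w, by rw [← hw, map_mul ι]; congr 1; change _ = ι m * (ι l * a * (ι l)⁻¹) * _; group⟩

end Amb

end Cfsg.Agent.WA.O8
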