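import Cfsg.Agent.WA.O8Def

/-! Overgroups of `AGL₃(2)` in `GL₇(2)` and `GL₈(2)` (module O8Orb, see PLAN_O8.md). -/

set_option autoImplicit false

namespace Cfsg.Agent.WA.O8

open Equiv

namespace Xo

/-- class of a vector under `AGL₃(2)` -/
def cl (n : ℕ) : ℕ := (95125173855764218123276304901289274497138887143606684089283761185650754955680778005742282704506433932958491037629999948544499619769154471548547418184038768625903073854555667287052625119062953585996070521283562698496871991012665386418570098962020163208752674530549551459780291122647167454863425834686825439504 >>> (4 * n)) % 16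
def par (n : ℕ) : ℕ := (32314971920317130823630754833422251170305407697109809355741086378567141526140703696600938232158030902817933985548131368944656731915651399522087488401347661643044533912430474121393538553931279718096797025100225659681320996488222823821108463763394647853103681589569609255896744050246268300522530302230830466587225974874336667063509498991256809911735928329203114213244420262215621550396316886731295542651847706771814218688119147216006940316357993960869509679419587660891316611532185164391866791689227177464936986690481409878595749340047161386011403580280500452858953121359181449080024555276714963894174563402299767587072 >>> (8 * n)) % 256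
def dep (n : ℕ) : ℕ := (2910948361011303803109478395087002674311522760802332621700846045561687965537860413613595826519186119694188443038913346299684271636082565952867971422118691937455978294214414238791412969094506876425658802217767125020207151147312445875444424754291504690840928517951765639009889403669980438290281330674936971520 >>> (4 * n)) % 16
/-- class representatives -/
def rep (c : ℕ) : ℕ := [0, 1, 3, 7, 15, 31, 63, 127, 255, 23].getD c 0

theorem tree : ∀ n : Fin 256, rep (cl n) = n ∨ (dep (par n) < dep n ∧ cl (par n) = cl n ∧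
    (dec n = pv g1 (dec (par n)) ∨ dec n = pv g2 (dec (par n)))) := by decide +kernel

theorem inv_rep {P : V → Prop} (h1 : ∀ x, P (pv g1 x) ↔ P x) (h2 : ∀ x, P (pv g2 x) ↔ P x) (k : ℕ) :
    ∀ n < 256, dep n = k → (P (dec n) ↔ P (dec (rep (cl n)))) := by
  induction k using Nat.strong_induction_on with
  | _ k ih =>
    intro n hn e
    rcases tree ⟨n, hn⟩ with a | ⟨a, b, c⟩
    · rw [show rep (cl n) = n from a]
    · rw [← show cl (par n) = cl n from b, ← ih _ (e ▸ a) (par n) (Nat.mod_lt _ (by norm_num)) rfl]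
      rcases c with c | c <;> rw [show dec n = _ from c]
      exacts [h1 _, h2 _]

theorem enc_dec : ∀ n : Fin 256, enc (dec n) = n := by decide +kernel

theorem ncard_eq {P : V → Prop} {f : ℕ → Bool} (h : ∀ n < 256, P (dec n) ↔ f n = true) :
    {x | P x}.ncard = ((List.range 256).filter f).length := by
  have : {x | P x} = dec '' (((List.range 256).filter f).toFinset : Set ℕ) := by
    ext x
    simp only [Set.mem_setOf_eq, Set.mem_image, Finset.mem_coe, List.mem_toFinset, List.mem_filter, List.mem_range]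
    exact ⟨fun a => ⟨enc x, ⟨(dec_enc x).2, (h _ (dec_enc x).2).1 ((dec_enc x).1.symm ▸ a)⟩, (dec_enc x).1⟩,
      fun ⟨n, ⟨a, b⟩, c⟩ => c ▸ (h n a).2 b⟩
  rw [this, Set.ncard_image_of_injOn, Set.ncard_coe_finset,
    List.toFinset_card_of_nodup (List.nodup_range.filter _)]
  intro a ha b hb e
  simp only [Finset.mem_coe, List.mem_toFinset, List.mem_filter, List.mem_range] at ha hb
  exact (enc_dec ⟨a, ha.1⟩).symm.trans ((congrArg enc e).trans (enc_dec ⟨b, hb.1⟩))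

def mem (l : List Bool) (n : ℕ) : Bool := l.getD (cl n) false
def cnt (l : List Bool) (r : ℕ) : ℕ := ((List.range 256).filter fun k => mem l k && mem l (r ^^^ k)).length
def sz (l : List Bool) : ℕ := ((List.range 256).filter (mem l)).length

theorem check : ∀ b1 b3 b5 b6 b7 b9 : Bool,
    (∀ c : Fin 10, mem [false, b1, false, b3, false, b5, b6, b7, true, b9] (rep c) = true →
      cnt [false, b1, false, b3, false, b5, b6, b7, true, b9] (rep c) =
        cnt [false, b1, false, b3, false, b5, b6, b7, true, b9] 255) →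
    (∃ p ∈ [13, 19, 29, 37], p ∣ sz [false, b1, false, b3, false, b5, b6, b7, true, b9]) ∨
    (∀ n : Fin 256, mem [false, b1, false, b3, false, b5, b6, b7, true, b9] n = true → dec n = one) ∨
    ∃ c : F2, ∀ n : Fin 256, mem [false, b1, false, b3, false, b5, b6, b7, true, b9] n = true ↔
      dec n = one ∨ ∃ i, dec n = e i + c • one := by decide +kernel

theorem dec_xor : ∀ (c : Fin 10) (k : Fin 256), dec (rep c ^^^ k) = dec (rep c) + dec k ∧ rep c ^^^ k < 256 := by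
  decide +kernel

theorem cases {P : V → Prop} (h1 : ∀ x, P (pv g1 x) ↔ P x) (h2 : ∀ x, P (pv g2 x) ↔ P x) (p0 : ¬ P 0)
    (p8 : P one) (p2 : ¬ P (d 0 1)) (p4 : ¬ P (d 0 1 + d 2 3))
    (hm : ∀ x, P x → {y | P y ∧ P (x + y)}.ncard = {y | P y ∧ P (one + y)}.ncard)
    (hp : ∀ p ∈ [13, 19, 29, 37], ¬ p ∣ {x | P x}.ncard) :
    (∀ x, P x → x = one) ∨ ∃ c : F2, ∀ x, P x ↔ x = one ∨ ∃ i, x = e i + c • one := by
  classical
  have key : ∀ n < 256, P (dec n) ↔ mem [false, decide (P (dec 1)), false, decide (P (dec 7)), false,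
      decide (P (dec 31)), decide (P (dec 63)), decide (P (dec 127)), true, decide (P (dec 23))] n = true := by
    intro n hn
    have : ∀ n : Fin 256, cl n < 10 := by decide +kernel
    have := this ⟨n, hn⟩
    rw [inv_rep h1 h2 _ n hn rfl, mem]
    have e0 : dec 0 = 0 := by decide
    have e2 : dec 3 = d 0 1 := by decide
    have e4 : dec 15 = d 0 1 + d 2 3 := by decide
    have e8 : dec 255 = one := by decide
    change cl n < 10 at this
    generalize cl n = c at this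
    interval_cases c <;> simp [rep, e0, e2, e4, e8, p0, p2, p4, p8]
  have cn : ∀ c : Fin 10, {y | P y ∧ P (dec (rep c) + y)}.ncard = cnt _ (rep c) := fun c =>
    ncard_eq fun n hn => by
      rw [← (dec_xor c ⟨n, hn⟩).1, key n hn, key _ (dec_xor c ⟨n, hn⟩).2, Bool.and_eq_true]
  have lt : ∀ c : Fin 10, rep c < 256 := by decide
  rcases check _ _ _ _ _ _ (fun c hc => by
    rw [← cn c, hm _ ((key _ (lt c)).2 hc)]
    exact (show dec (rep (8 : Fin 10)) = one by decide) ▸ cn 8) with ⟨p, a, b⟩ | a | ⟨c, a⟩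
  · exact absurd (by rwa [ncard_eq key]) (hp p a)
  · exact Or.inl (all_dec fun n hn => a n ((key n n.2).1 hn))
  · exact Or.inr ⟨c, all_dec fun n => (key n n.2).trans (a n)⟩

theorem no_prime {X : Type*} [AddCommGroup X] [Module F2 X] (ι : X →ₗ[F2] V) (hι : Function.Injective ι)
    (Γ : Subgroup (X ≃ₗ[F2] X)) (o : X) : ∀ p ∈ [13, 19, 29, 37], ¬ p ∣ (MulAction.orbit Γ o).ncard := by
  intro p hp h
  haveI : Finite X := Finite.of_injective ι hι
  haveI : Finite (X ≃ₗ[F2] X) := Finite.of_injective _ DFunLike.coe_injective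
  have pp : p.Prime := by
    simp only [List.mem_cons, List.not_mem_nil, or_false] at hp
    rcases hp with rfl | rfl | rfl | rfl <;> norm_num
  haveI := Fact.mk pp
  rw [← MulAction.index_stabilizer] at h
  obtain ⟨γ, hγ⟩ := exists_prime_orderOf_dvd_card' p (h.trans (Subgroup.index_dvd_card _))
  have pg : IsPGroup p (Subgroup.zpowers γ) := .of_card (n := 1) (by rw [Nat.card_zpowers, hγ, pow_one])
  have h1 := pg.card_modEq_card_fixedPoints X
  have h2 : Nat.card X ∣ 2 ^ 8 := by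
    rw [show 2 ^ 8 = Nat.card V by simp]
    exact AddSubgroup.card_dvd_of_injective ι.toAddMonoidHom hι
  obtain ⟨n, hn, e⟩ := (Nat.dvd_prime_pow Nat.prime_two).1 h2
  have h3 := (FixedPoints.addSubgroup (Subgroup.zpowers γ) X).card_addSubgroup_dvd_card
  rw [e] at h3
  obtain ⟨k, hk, e'⟩ := (Nat.dvd_prime_pow Nat.prime_two).1 h3
  rw [e, show Nat.card (MulAction.fixedPoints (Subgroup.zpowers γ) X) = 2 ^ k from e'] at h1
  have ne : k ≠ n := fun a => by
    have := AddSubgroup.eq_top_of_card_eq _ (e'.trans (a ▸ e.symm))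
    have g1 : γ = 1 := Subtype.ext (LinearEquiv.ext fun x =>
      (this ▸ AddSubgroup.mem_top x : x ∈ FixedPoints.addSubgroup (Subgroup.zpowers γ) X)
        ⟨γ, Subgroup.mem_zpowers γ⟩)
    rw [g1, orderOf_one] at hγ
    exact pp.one_lt.ne hγ
  have : ∀ p ∈ [13, 19, 29, 37], ∀ n : Fin 9, ∀ k : Fin 9, k.1 ≠ n.1 → 2 ^ n.1 % p ≠ 2 ^ k.1 % p := by decide +kernel
  exact this p hp ⟨n, by omega⟩ ⟨k, by omega⟩ ne h1

/-- words in the generators -/
def wd (l : List Bool) : P8 := (l.map fun b => if b then g1 else g2).prod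

theorem wd_ind {H : P8 → Prop} (h0 : H 1) (h1 : H g1) (h2 : H g2) (hm : ∀ a b, H a → H b → H (a * b)) :
    ∀ l, H (wd l)
  | [] => h0
  | b :: l => by
    rw [wd, List.map_cons, List.prod_cons]
    exact hm _ _ (by cases b; exacts [h2, h1]) (wd_ind h0 h1 h2 hm l)

def nu : P8 := wd [true, false, true, true, true, false, false, true, true, true, true]

def InD (t : V) : Prop := t = 0 ∨ t = d 0 1 ∨ t = d 2 3 ∨ t = d 0 1 + d 2 3

theorem inD_nu : ∀ w, InD (w + pv nu w) := all_dec (by unfold InD; decide +kernel)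

theorem five {x s t : V} (hx : InD x) (hs : InD s) (ht : InD t) (x0 : x ≠ 0) :
    s = 0 ∨ s = x ∨ t = 0 ∨ t = x ∨ s + t = 0 ∨ s + t = x := by
  revert x0
  rcases hx with rfl | rfl | rfl | rfl <;> rcases hs with rfl | rfl | rfl | rfl <;>
    rcases ht with rfl | rfl | rfl | rfl <;> decide

theorem four_ne : ∀ a b c f : Fin 8, e a + e b + (e c + e f) ≠ one := by decide +kernel

theorem e_add (a b c f : Fin 8) : d a b + (e c + e f) = e a + e b + (e c + e f) := rfl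

/-- `one` is not in a four-element commutator space of a permutation -/
theorem fpf {σ : P8} {N : V → Prop}
    (h5 : ∀ s t, N s → N t → s = 0 ∨ s = one ∨ t = 0 ∨ t = one ∨ s + t = 0 ∨ s + t = one)
    (hN : ∀ i j, N (d i j + pv σ (d i j))) (hf : ∀ i, σ i ≠ i) : False := by
  obtain ⟨j, j0, j1⟩ : ∃ j, j ≠ 0 ∧ j ≠ σ⁻¹ 0 := (by decide : ∀ a : Fin 8, ∃ j, j ≠ 0 ∧ j ≠ a) _
  obtain ⟨k, k0, k1, k2, k3⟩ : ∃ k, k ≠ 0 ∧ k ≠ σ⁻¹ 0 ∧ k ≠ j ∧ k ≠ σ⁻¹ j :=
    (by decide : ∀ a b c : Fin 8, ∃ j, j ≠ 0 ∧ j ≠ a ∧ j ≠ b ∧ j ≠ c) _ _ _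
  rw [Ne, Perm.eq_inv_iff_eq] at j1 k1 k3
  have := h5 _ _ (hN 0 j) (hN 0 k)
  have f0 := hf 0
  have fj := hf j
  simp only [pv_d] at this
  have e : d 0 j + d (σ 0) (σ j) + (d 0 k + d (σ 0) (σ k)) = d j k + d (σ j) (σ k) := by
    simp only [d]
    linear_combination add_self (e 0) + add_self (e (σ 0))
  rw [e] at this
  rcases this with a | a | a | a | a | a
  · simpa [d, O8.e, j0.symm, f0.symm, Ne.symm j1] using congrFun a 0
  · exact four_ne _ _ _ _ a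
  · simpa [d, O8.e, k0.symm, f0.symm, Ne.symm k1] using congrFun a 0
  · exact four_ne _ _ _ _ a
  · simpa [d, O8.e, k2.symm, fj.symm, Ne.symm k3] using congrFun a j
  · exact four_ne _ _ _ _ a

theorem fixp {σ : P8} {N : V → Prop}
    (h5 : ∀ s t, N s → N t → s = 0 ∨ s = one ∨ t = 0 ∨ t = one ∨ s + t = 0 ∨ s + t = one)
    (hN : ∀ i j, N (d i j + pv σ (d i j))) {i : Fin 8} (hi : σ i = i) (hA : Aff σ) : σ = 1 := by
  by_contra h
  obtain ⟨j, hj⟩ : ∃ j, σ j ≠ j := by_contra fun a => h (Perm.ext fun j => by_contra fun b => a ⟨j, b⟩)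
  have e1 : ∀ j, d i j + pv σ (d i j) = d j (σ j) := fun j => by
    rw [pv_d, hi]
    simp only [d]
    linear_combination add_self (e i)
  have two : ∀ k, k ≠ j → k ≠ σ j → σ k = k := fun k k1 k2 => by_contra fun hk => by
    have := h5 _ _ (hN i j) (hN i k)
    rw [e1, e1] at this
    revert this
    have : ∀ a b c f : Fin 8, b ≠ a → f ≠ c → c ≠ a → c ≠ b → ¬ (d a b = 0 ∨ d a b = one ∨ d c f = 0 ∨
      d c f = one ∨ d a b + d c f = 0 ∨ d a b + d c f = one) := by decide +kernel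
    exact this _ _ _ _ hj hk k1 k2
  obtain ⟨a, b, h⟩ := (by decide +kernel : ∀ j k : Fin 8, k ≠ j → ∃ a b, a ≠ j ∧ a ≠ k ∧ b ≠ j ∧ b ≠ k ∧
    x3 j a b ≠ j ∧ x3 j a b ≠ k ∧ x3 j a b ≠ x3 k a b) j (σ j) hj
  have := hA j a b
  rw [two a h.1 h.2.1, two b h.2.2.1 h.2.2.2.1, two _ h.2.2.2.2.1 h.2.2.2.2.2.1] at this
  exact h.2.2.2.2.2.2 this

theorem orb {X : Type*} [AddCommGroup X] [Module F2 X] (ι : X →ₗ[F2] V) (hι : Function.Injective ι)
    (hev : ∀ v, sm v = 0 → ∃ x, ι x = v) {o : X} (ho : ι o = one) (Γ : Subgroup (X ≃ₗ[F2] X))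
    (h1 : ∀ l, ∃ γ ∈ Γ, ∀ x, ι (γ x) = pv (wd l) (ι x))
    (h2 : ∀ γ ∈ Γ, γ o = o → ∃ σ c, (c = 0 ∨ Aff σ) ∧ ∀ x, ι (γ x) = pv σ (ι x) + (c * sm (ι x)) • one) :
    (∀ γ ∈ Γ, γ o = o) ∨ ∃ c : F2, ∀ v, (∃ γ ∈ Γ, ι (γ o) = v) ↔ v = one ∨ ∃ i, v = e i + c • one := by
  have two : ∀ x : X, x + x = 0 := fun x => hι (by rw [map_add, add_self, map_zero])
  have inv : ∀ l x, (∃ γ ∈ Γ, ι (γ o) = pv (wd l) x) ↔ ∃ γ ∈ Γ, ι (γ o) = x := fun l x => by
    obtain ⟨η, hη, a⟩ := h1 l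
    refine ⟨fun ⟨γ, hγ, b⟩ => ⟨η⁻¹ * γ, mul_mem (inv_mem hη) hγ, ?_⟩,
      fun ⟨γ, hγ, b⟩ => ⟨η * γ, mul_mem hη hγ, by rw [← b, ← a]; rfl⟩⟩
    have := a (η.symm (γ o))
    rw [η.apply_symm_apply, b] at this
    have := congrArg (pv (wd l)⁻¹) this
    rw [← pv_mul, ← pv_mul, inv_mul_cancel, pv_one, pv_one] at this
    exact this.symm
  have o0 : ∀ γ : X ≃ₗ[F2] X, ι (γ o) ≠ 0 := fun γ a => by
    rw [map_eq_zero_iff ι hι, map_eq_zero_iff γ γ.injective] at a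
    rw [a, map_zero] at ho
    exact absurd ho (by decide)
  have noD : ∀ γ ∈ Γ, ∀ w, sm w = 0 → pv nu (ι (γ o)) = ι (γ o) → ι (γ o) ≠ w + pv nu w := fun γ hγ w hw f e => by
    obtain ⟨ν, hν, a⟩ := h1 [true, false, true, true, true, false, false, true, true, true, true]
    change ∀ x, _ = pv nu _ at a
    obtain ⟨σ, c, hc, b⟩ := h2 (γ⁻¹ * ν * γ) (mul_mem (mul_mem (inv_mem hγ) hν) hγ)
      (γ.symm_apply_eq.2 (hι ((a _).trans f)))
    have k : ∀ x, ι (γ (x + (γ⁻¹ * ν * γ) x)) = ι (γ x) + pv nu (ι (γ x)) := fun x => by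
      rw [map_add, map_add, ← a]
      exact congrArg (fun y => _ + ι y) (γ.apply_symm_apply _)
    have h5 : ∀ s t, (∃ x, ι x = s ∧ InD (ι (γ x))) → (∃ x, ι x = t ∧ InD (ι (γ x))) →
        s = 0 ∨ s = one ∨ t = 0 ∨ t = one ∨ s + t = 0 ∨ s + t = one := by
      rintro _ _ ⟨x, rfl, hx⟩ ⟨y, rfl, hy⟩
      have := five (e ▸ inD_nu w) hx hy (o0 γ)
      simp only [← map_add, map_eq_zero_iff ι hι, map_eq_zero_iff γ γ.injective, hι.eq_iff, γ.injective.eq_iff,
        ← ho] at this ⊢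
      exact this
    have hN : ∀ i j, ∃ x, ι x = d i j + pv σ (d i j) ∧ InD (ι (γ x)) := fun i j => by
      have s : sm (d i j) = 0 := by revert i j; decide
      obtain ⟨x, hx⟩ := hev _ s
      exact ⟨_, by rw [map_add, b, hx, s, mul_zero, zero_smul, add_zero], k x ▸ inD_nu _⟩
    have pre : ∀ v, sm v = 0 → ∃ y, ι (γ (y + (γ⁻¹ * ν * γ) y)) = v + pv nu v := fun v hv => by
      obtain ⟨x, rfl⟩ := hev v hv
      exact ⟨γ.symm x, by rw [k, γ.apply_symm_apply]⟩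
    obtain ⟨i, hi⟩ : ∃ i, σ i = i := by_contra fun a => fpf h5 hN fun i b => a ⟨i, b⟩
    rcases hc with rfl | hc
    · obtain ⟨y, hy⟩ := pre w hw
      have := congrArg (ι · i) (γ.injective (hι (hy.trans e.symm)))
      simp only [map_add, b, zero_mul, zero_smul, add_zero, ho, Pi.add_apply, pv, Perm.inv_eq_iff_eq.2 hi.symm,
        CharTwo.add_self_eq_zero] at this
      exact zero_ne_one (α := F2) this
    · have z : ∀ v, sm v = 0 → v + pv nu v = 0 ∨ v + pv nu v = ι (γ o) := fun v hv => by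
        obtain ⟨y, hy⟩ := pre v hv
        have : ι (y + (γ⁻¹ * ν * γ) y) = ι ((c * sm (ι y)) • o) := by
          rw [map_add, b, fixp h5 hN hi hc, pv_one, ← add_assoc, add_self, zero_add, map_smul, ho]
        rw [← hy, hι this]
        rcases F2c (c * sm (ι y)) with a | a <;> simp [a]
      have a1 := (z (d 0 4) (by decide)).resolve_left (by decide +kernel)
      have a2 := (z (d 2 4) (by decide)).resolve_left (by decide +kernel)
      exact absurd (a1.trans a2.symm) (by decide +kernel)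
  have im : ∀ γ ∈ Γ, ∀ x, (∃ η ∈ Γ, ι (η o) = ι (γ x)) ↔ ∃ η ∈ Γ, ι (η o) = ι x := fun γ hγ x =>
    ⟨fun ⟨η, hη, a⟩ => ⟨γ⁻¹ * η, mul_mem (inv_mem hγ) hη, congrArg ι (γ.symm_apply_eq.2 (hι a))⟩,
      fun ⟨η, hη, a⟩ => ⟨γ * η, mul_mem hγ hη, congrArg (fun y => ι (γ y)) (hι a)⟩⟩
  refine (cases (P := fun v => ∃ γ ∈ Γ, ι (γ o) = v) (by simpa [wd] using inv [true])
    (by simpa [wd] using inv [false]) (fun ⟨γ, _, a⟩ => o0 γ a) ⟨1, one_mem _, ho⟩
    (fun ⟨γ, hγ, a⟩ => noD γ hγ (d 0 4) (by decide) (by rw [a]; decide +kernel) (by rw [a]; decide +kernel))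
    (fun ⟨γ, hγ, a⟩ => noD γ hγ (d 0 2) (by decide) (by rw [a]; decide +kernel) (by rw [a]; decide +kernel))
    ?_ fun p hp => ?_).imp_left fun a γ hγ => hι ((a _ ⟨γ, hγ, rfl⟩).trans ho.symm)
  · rintro _ ⟨γ, hγ, rfl⟩
    have : ∀ x, {y | (∃ η ∈ Γ, ι (η o) = y) ∧ ∃ η ∈ Γ, ι (η o) = ι x + y} =
        ι '' {y | (∃ η ∈ Γ, ι (η o) = ι y) ∧ ∃ η ∈ Γ, ι (η o) = ι (x + y)} := fun x => by
      ext y
      exact ⟨fun ⟨⟨η, hη, a⟩, b⟩ => ⟨η o, ⟨⟨η, hη, rfl⟩, by rwa [map_add, a]⟩, a⟩,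
        fun ⟨z, ⟨a, b⟩, c⟩ => c ▸ ⟨a, by rwa [map_add] at b⟩⟩
    rw [← ho, this, this, Set.ncard_image_of_injective _ hι, Set.ncard_image_of_injective _ hι,
      ← Set.ncard_preimage_of_injective_subset_range γ.injective (by simp [γ.surjective.range_eq])]
    congr 1
    ext y
    simp only [Set.mem_preimage, Set.mem_setOf_eq, ← map_add, im γ hγ]
  · have := no_prime ι hι Γ o p hp
    rw [← Set.ncard_image_of_injective _ hι] at this
    convert this using 3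
    ext v
    exact ⟨fun ⟨γ, hγ, a⟩ => ⟨_, ⟨⟨γ, hγ⟩, rfl⟩, a⟩, fun ⟨_, ⟨γ, rfl⟩, a⟩ => ⟨γ, γ.2, a⟩⟩

/-- `AGL₃(2)` has no transitive extension -/
theorem nine {Γ Ω : Type*} [Group Γ] [MulAction Γ Ω] {o : Ω} {p : Fin 8 → Ω} (hp : Function.Injective p)
    (ho : ∀ i, p i ≠ o) (hO : ∀ γ : Γ, γ • o = o ∨ ∃ j, γ • o = p j)
    (hC : ∀ (γ : Γ) i, γ • p i = o ∨ ∃ j, γ • p i = p j) (hT : ∀ i, ∃ γ : Γ, γ • o = p i)
    (hS : ∀ γ : Γ, γ • o = o → ∃ σ, Aff σ ∧ ∀ i, γ • p i = p (σ i))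
    (hN : ∀ b c f, ∃ ν : Γ, ν • o = o ∧ ν • p b = p b ∧ ν • p c = p c ∧ ν • p f = p f ∧ ∃ i, ν • p i ≠ p i) :
    False := by
  have A3 : ∀ γ : Γ, γ • o = o → ∀ i j k, γ • p i = p i → γ • p j = p j → γ • p k = p k →
      γ • p (x3 i j k) = p (x3 i j k) := fun γ h i j k a b c => by
    obtain ⟨σ, hσ, e⟩ := hS γ h
    rw [e, hp.eq_iff] at a b c
    rw [e, hσ, a, b, c]
  have A4 : ∀ γ : Γ, γ • o = o → ∀ i j k l, i ≠ j → i ≠ k → i ≠ l → j ≠ k → j ≠ l → k ≠ l → l ≠ x3 i j k →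
      γ • p i = p i → γ • p j = p j → γ • p k = p k → γ • p l = p l → ∀ m, γ • p m = p m :=
    fun γ h i j k l n1 n2 n3 n4 n5 n6 n7 a b c f m => by
      rcases (by decide +kernel : ∀ i j k l : Fin 8, i ≠ j → i ≠ k → i ≠ l → j ≠ k → j ≠ l → k ≠ l → l ≠ x3 i j k →
        ∀ m, m = i ∨ m = j ∨ m = k ∨ m = l ∨ m = x3 i j k ∨ m = x3 i j l ∨ m = x3 i k l ∨ m = x3 j k l)
        i j k l n1 n2 n3 n4 n5 n6 n7 m with rfl | rfl | rfl | rfl | rfl | rfl | rfl | rfl
      exacts [a, b, c, f, A3 γ h _ _ _ a b c, A3 γ h _ _ _ a b f, A3 γ h _ _ _ a c f, A3 γ h _ _ _ b c f]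
  have pull : ∀ (τ : Γ) a i, τ • o = p a → i ≠ a → ∃ j, τ • p j = p i := fun τ a i h n => by
    obtain ⟨j, e⟩ := (hC τ⁻¹ i).resolve_left fun e => n (hp (by rw [← h, ← e, smul_inv_smul]))
    exact ⟨j, by rw [← e, smul_inv_smul]⟩
  have cj : ∀ (τ ρ : Γ) (x : Ω), (τ⁻¹ * ρ * τ) • x = x ↔ ρ • τ • x = τ • x := fun τ ρ x => by
    rw [mul_smul, mul_smul, inv_smul_eq_iff]
  obtain ⟨γ, hγ⟩ := hT 0
  obtain ⟨b, hb⟩ := pull γ 0 1 hγ (by decide)
  obtain ⟨c, hc⟩ := pull γ 0 2 hγ (by decide)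
  obtain ⟨f, hf⟩ := pull γ 0 4 hγ (by decide)
  obtain ⟨ν, n0, n1, n2, n3, i, n4⟩ := hN b c f
  have fx : ∀ x, ν • x = x ↔ (γ * ν * γ⁻¹) • γ • x = γ • x := fun x => by
    rw [← cj]; simp [mul_assoc]
  have nt : ¬ ((γ * ν * γ⁻¹) • o = o ∧ ∀ m, (γ * ν * γ⁻¹) • p m = p m) := fun ⟨a1, a2⟩ => n4 ((fx _).2 (by
    rcases hC γ i with e | ⟨j, e⟩ <;> rw [e]
    exacts [a1, a2 j]))
  have r0 := hγ ▸ (fx _).1 n0
  have r1 := hb ▸ (fx _).1 n1
  have r2 := hc ▸ (fx _).1 n2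
  have r4 := hf ▸ (fx _).1 n3
  have r5 := (fx _).1 (A3 ν n0 _ _ _ n1 n2 n3)
  generalize γ * ν * γ⁻¹ = ρ at nt r0 r1 r2 r4 r5
  have B : ∀ a0 a1 a2 a3 a4 : Fin 8, List.Nodup [a0, a1, a2, a3, a4] → a3 = x3 a0 a1 a2 → a4 ≠ a3 →
      (∀ a ∈ [a0, a1, a2, a3, a4], ρ • p a = p a) → False := fun a0 a1 a2 a3 a4 nd h3 h4 h => by
    simp only [List.nodup_cons, List.mem_cons, List.not_mem_nil, or_false, not_or, forall_eq_or_imp, forall_eq] at nd h
    obtain ⟨μ, m0, m1, m2, m3, i, m4⟩ := hN a0 a1 a2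
    obtain ⟨τ, hτ⟩ := hT a0
    obtain ⟨j1, e1⟩ := pull τ a0 a1 hτ (Ne.symm nd.1.1)
    obtain ⟨j2, e2⟩ := pull τ a0 a2 hτ (Ne.symm nd.1.2.1)
    obtain ⟨j3, e3⟩ := pull τ a0 a3 hτ (Ne.symm nd.1.2.2.1)
    obtain ⟨j4, e4⟩ := pull τ a0 a4 hτ (Ne.symm nd.1.2.2.2)
    have ne : ∀ {a b j k}, τ • p j = p a → τ • p k = p b → a ≠ b → j ≠ k := fun e e' n z =>
      n (hp (by rw [← e, ← e', z]))
    have t0 := (cj τ ρ o).2 (hτ ▸ h.1)
    have hj : j4 = x3 j1 j2 j3 := by_contra fun z => by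
      have all := A4 _ t0 j1 j2 j3 j4 (ne e1 e2 nd.2.1.1) (ne e1 e3 nd.2.1.2.1) (ne e1 e4 nd.2.1.2.2)
        (ne e2 e3 nd.2.2.1.1) (ne e2 e4 nd.2.2.1.2) (ne e3 e4 nd.2.2.2.1) z ((cj _ _ _).2 (e1 ▸ h.2.1))
        ((cj _ _ _).2 (e2 ▸ h.2.2.1)) ((cj _ _ _).2 (e3 ▸ h.2.2.2.1)) ((cj _ _ _).2 (e4 ▸ h.2.2.2.2))
      have key : ∀ x, (τ⁻¹ • x = o ∨ ∃ j, τ⁻¹ • x = p j) → ρ • x = x := fun x hx => by
        rw [← smul_inv_smul τ x, ← cj]
        rcases hx with e | ⟨j, e⟩ <;> rw [e]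
        exacts [t0, all j]
      exact nt ⟨key o (hO _), fun m => key _ (hC _ m)⟩
    have := (cj τ μ _).1 (A3 _ ((cj τ μ o).2 (hτ ▸ m1)) j1 j2 j3 ((cj _ _ _).2 (e1 ▸ m2)) ((cj _ _ _).2 (e2 ▸ m3))
      ((cj _ _ _).2 (e3 ▸ h3 ▸ A3 μ m0 _ _ _ m1 m2 m3)))
    rw [← hj, e4] at this
    exact m4 (A4 μ m0 a0 a1 a2 a4 nd.1.1 nd.1.2.1 nd.1.2.2.2 nd.2.1.1 nd.2.1.2.2 nd.2.2.1.2 (h3 ▸ h4) m1 m2 m3 this i)
  rcases hC γ (x3 b c f) with e | ⟨q, e⟩ <;> rw [e] at r5
  · exact nt ⟨r5, A4 ρ r5 0 1 2 4 (by decide) (by decide) (by decide) (by decide) (by decide) (by decide)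
      (by decide) r0 r1 r2 r4⟩
  have ne : ∀ {a b j k}, γ • p j = p a → γ • p k = p b → a ≠ b → j ≠ k := fun e e' n z =>
    n (hp (by rw [← e, ← e', z]))
  have nx := (by decide : ∀ b c f : Fin 8, b ≠ c → b ≠ f → c ≠ f → x3 b c f ≠ b ∧ x3 b c f ≠ c ∧ x3 b c f ≠ f)
    b c f (ne hb hc (by decide)) (ne hb hf (by decide)) (ne hc hf (by decide))
  have inj : ∀ {j a}, γ • p j = p a → q = a → x3 b c f = j := fun e' z =>
    hp (smul_left_cancel γ (by rw [e, e', z]))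
  fin_cases q
  · exact ho _ (smul_left_cancel γ (e.trans hγ.symm))
  · exact nx.1 (inj hb rfl)
  · exact nx.2.1 (inj hc rfl)
  · exact B 0 1 2 3 4 (by decide) (by decide) (by decide) (by simpa using ⟨r0, r1, r2, r5, r4⟩)
  · exact nx.2.2 (inj hf rfl)
  · exact B 0 1 4 5 2 (by decide) (by decide) (by decide) (by simpa using ⟨r0, r1, r4, r5, r2⟩)
  · exact B 0 2 4 6 1 (by decide) (by decide) (by decide) (by simpa using ⟨r0, r2, r4, r5, r1⟩)
  · exact B 1 2 4 7 0 (by decide) (by decide) (by decide) (by simpa using ⟨r1, r2, r4, r5, r0⟩)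

def planes : List (List Bool) := [[false, true, false, false, true, false, true, true, true, true], [false, false, true, false, true, true, true, true, false, true], [false, true, true, true, true, false, false, true, true], [true, false, true, false, false, true, false, true, true, true], [true, false, true, true, true, true, false, false, true], [false, false, true, false, true, false, false], [false, true, true, false, true, true, true, true, false], [true, true, false, false, true, true, false, true, true], [true, true, false, true, false, false, true, false, true, true], [true, false, true, false], [false, false, true, true, false, true, true, true, true], [false, true, false, true], [true, true, false, true, true, true, true, false, false], [true, false, true, true, true, false, false, true, true, true, true]]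

theorem planes_ok : ∀ b c f : Fin 8, ∃ l ∈ planes, wd l b = b ∧ wd l c = c ∧ wd l f = f ∧ ∃ i, wd l i ≠ i := by
  decide +kernel

end Xo

open Xo

/-- module O8Orb -/
theorem fix_even (Γ : Subgroup (Ev ≃ₗ[F2] Ev))
    (h1 : ∀ σ, σ = g1 ∨ σ = g2 → ∃ γ ∈ Γ, ∀ x : Ev, (γ x : V) = pv σ x)
    (h2 : ∀ γ ∈ Γ, γ oneE = oneE → ∃ σ : P8, ∀ x : Ev, (γ x : V) = pv σ x) : ∀ γ ∈ Γ, γ oneE = oneE := by
  refine (orb Ev.subtype Ev.subtype_injective (fun v hv => ⟨⟨v, hv⟩, rfl⟩) (o := oneE) rfl Γ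
    (wd_ind (H := fun σ => ∃ γ ∈ Γ, ∀ x : Ev, (γ x : V) = pv σ x) ⟨1, one_mem _, fun _ => rfl⟩ (h1 _ (Or.inl rfl))
      (h1 _ (Or.inr rfl)) fun a b ⟨γ, hγ, e⟩ ⟨η, hη, e'⟩ =>
        ⟨γ * η, mul_mem hγ hη, fun x => by rw [pv_mul, ← e', ← e]; rfl⟩)
    fun γ hγ e => ?_).resolve_right fun ⟨c, h⟩ => ?_
  · obtain ⟨σ, e⟩ := h2 γ hγ e
    exact ⟨σ, 0, Or.inl rfl, fun x => by rw [zero_mul, zero_smul, add_zero]; exact e x⟩
  · obtain ⟨γ, -, e⟩ := (h _).2 (Or.inr ⟨0, rfl⟩)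
    have : sm (O8.e 0 + c • one) = 0 := e ▸ (γ oneE).2
    exact (by decide : ∀ c : F2, sm (O8.e 0 + c • one) ≠ 0) c this

/-- module O8Orb -/
theorem fix_full (Γ : Subgroup (V ≃ₗ[F2] V))
    (h1 : ∀ σ, σ = g1 ∨ σ = g2 → ∃ γ ∈ Γ, ∃ c : F2, ∀ x, γ x = pv σ x + (c * sm x) • one)
    (h2 : ∀ γ ∈ Γ, γ one = one → ∃ σ, Aff σ ∧ ∃ c : F2, ∀ x, γ x = pv σ x + (c * sm x) • one) :
    ∀ γ ∈ Γ, γ one = one := by
  have mul : ∀ a b, (∃ γ ∈ Γ, ∀ x, γ x = pv a x) → (∃ γ ∈ Γ, ∀ x, γ x = pv b x) → ∃ γ ∈ Γ, ∀ x, γ x = pv (a * b) x :=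
    fun a b ⟨γ, hγ, e⟩ ⟨η, hη, e'⟩ => ⟨γ * η, mul_mem hγ hη, fun x => by rw [pv_mul, ← e', ← e]; rfl⟩
  have sq : ∀ σ, σ = g1 ∨ σ = g2 → ∃ γ ∈ Γ, ∀ x, γ x = pv (σ * σ) x := fun σ h => by
    obtain ⟨γ, hγ, c, e⟩ := h1 σ h
    refine ⟨γ * γ, mul_mem hγ hγ, fun x => ?_⟩
    rw [LinearEquiv.mul_apply, e, e, pv_add, pv_smul, pv_onev, sm_add, sm_smul, sm_pv, show sm one = 0 by decide,
      mul_zero, add_zero, add_assoc, add_self, add_zero, pv_mul]
  have s1 := sq g1 (Or.inl rfl)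
  have s2 := sq g2 (Or.inr rfl)
  have W := wd_ind (H := fun σ => ∃ γ ∈ Γ, ∀ x, γ x = pv σ x) ⟨1, one_mem _, fun _ => rfl⟩
    ((by decide : g1 * g1 * (g1 * g1) * (g1 * g1 * (g1 * g1)) = g1) ▸ mul _ _ (mul _ _ s1 s1) (mul _ _ s1 s1))
    ((by decide : g2 * g2 * (g2 * g2) = g2) ▸ mul _ _ s2 s2) mul
  refine (orb LinearMap.id Function.injective_id (fun v _ => ⟨v, rfl⟩) (o := one) rfl Γ W
    fun γ hγ e => ?_).resolve_right fun ⟨c, h⟩ => ?_
  · obtain ⟨σ, a, c, e⟩ := h2 γ hγ e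
    exact ⟨σ, c, Or.inr a, e⟩
  have pe : ∀ σ i, pv σ (e i + c • one) = e (σ i) + c • one := fun σ i => by rw [pv_add, pv_smul, pv_onev, pv_e]
  have pi : Function.Injective fun i => e i + c • one := fun i j h =>
    (by decide : ∀ i j, e i = e j → i = j) i j (add_right_cancel h)
  have orbm : ∀ (γ : Γ) i, γ • (e i + c • one) = one ∨ ∃ j, γ • (e i + c • one) = e j + c • one := fun γ i => by
    obtain ⟨η, hη, a⟩ := (h _).2 (Or.inr ⟨i, rfl⟩)
    exact (h _).1 ⟨γ * η, mul_mem γ.2 hη, congrArg γ.1 a⟩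
  refine nine (Γ := Γ) (o := one) pi ((by decide : ∀ (c : F2) i, e i + c • one ≠ one) c)
    (fun γ => (h _).1 ⟨γ, γ.2, rfl⟩) orbm (fun i => ?_) (fun γ hγ => ?_) fun b c' f => ?_
  · obtain ⟨η, hη, a⟩ := (h _).2 (Or.inr ⟨i, rfl⟩)
    exact ⟨⟨η, hη⟩, a⟩
  · obtain ⟨σ, a, c', e'⟩ := h2 γ γ.2 hγ
    refine ⟨σ, a, fun i => ?_⟩
    have := orbm γ i
    change γ.1 _ = _ ∨ ∃ j, γ.1 _ = _ at this
    change γ.1 _ = _
    rw [e', pe] at this ⊢
    generalize σ i = j at this ⊢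
    revert this
    exact (by decide +kernel : ∀ (c c' : F2) (i j : Fin 8), (e j + c • one + (c' * sm (e i + c • one)) • one = one ∨
      ∃ k, e j + c • one + (c' * sm (e i + c • one)) • one = e k + c • one) →
      e j + c • one + (c' * sm (e i + c • one)) • one = e j + c • one) c c' i j
  · obtain ⟨l, -, a1, a2, a3, i, a4⟩ := planes_ok b c' f
    obtain ⟨ν, hν, e'⟩ := W l
    have k : ∀ i, (⟨ν, hν⟩ : Γ) • (e i + c • one) = e (wd l i) + c • one := fun i => (e' _).trans (pe _ i)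
    exact ⟨⟨ν, hν⟩, e' one, by rw [k, a1], by rw [k, a2], by rw [k, a3], i, fun z => a4 (pi ((k i).symm.trans z))⟩

end Cfsg.Agent.WA.O8
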