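import Cfsg.Agent.WA.O8N

/-! Automorphisms of the cover are induced by isometries. -/

set_option autoImplicit false

namespace Cfsg.Agent.WA.O8

open Equiv

variable {X : Type*} [Group X] {π β : X →* O} {z x l m x0 : X} {a b c u v w : V} {ε φ : V → X} {σ τ : P8}

theorem exists_psi {W Y : Type*} [AddCommGroup W] [Module F2 W] [Finite W] [Group Y] {η η' : W → Y}
    (h : ∀ u v, η (u + v) = η u * η v) (h' : ∀ u v, η' (u + v) = η' u * η' v) (i : Function.Injective η)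
    (i' : Function.Injective η') (f : Y ≃* Y) (H : ∀ u, ∃ v, f (η u) = η' v) :
    ∃ ψ : W ≃ₗ[F2] W, ∀ u, f (η u) = η' (ψ u) := by
  choose g hg using H
  exact ⟨LinearEquiv.ofInjectiveEndo ((AddMonoidHom.mk' g fun u v => i' (by
    rw [← hg, h, map_mul, hg, hg, h'])).toZModLinearMap 2) fun u v e => i (f.injective (by
      rw [hg, hg]; exact congrArg η' e)), hg⟩

/-- the image of a homomorphism from an additive group -/
def rg {W Y : Type*} [AddCommGroup W] [Group Y] (η : W → Y) (h : ∀ u v, η (u + v) = η u * η v) : Subgroup Y :=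
  (MonoidHom.mk' (fun u : Multiplicative W => η u.toAdd) fun _ _ => h _ _).range

theorem card_rg {W Y : Type*} [AddCommGroup W] [Group Y] {η : W → Y} (h : ∀ u v, η (u + v) = η u * η v)
    (i : Function.Injective η) : Nat.card (rg η h) = Nat.card W :=
  (Nat.card_congr (MonoidHom.ofInjective (f := MonoidHom.mk' (fun u : Multiplicative W => η u.toAdd) fun _ _ => h _ _)
    fun _ _ e => i e).toEquiv).symm

theorem card_Ev : Nat.card Ev = 128 := by
  rw [show Nat.card Ev = Nat.card {x : V // sm x = 0} from rfl, Nat.card_eq_fintype_card, Fintype.card_subtype]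
  decide +kernel

theorem card_V : Nat.card V = 256 := by simp

def W (x : V) : ℕ := (Finset.univ.filter fun i => x i = 1).card
theorem W_pv (σ : P8) (x : V) : W (pv σ x) = W x :=
  Finset.card_bij (fun i _ => σ⁻¹ i) (fun _ h => Finset.mem_filter.2 ⟨Finset.mem_univ _, (Finset.mem_filter.1 h).2⟩)
    (fun _ _ _ _ e => σ⁻¹.injective e) fun j h => ⟨σ j, Finset.mem_filter.2 ⟨Finset.mem_univ _,
      (congrArg x (σ.symm_apply_apply j)).trans (Finset.mem_filter.1 h).2⟩, σ.symm_apply_apply j⟩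
theorem W_d : ∀ i j (c : F2), i ≠ j → W (d i j + c • one) = if c = 0 then 2 else 6 := by decide +kernel

theorem fix_of_T {g : O} (hv : sm v = 0) (e : g * T (d 0 1) * g⁻¹ = T v) : g one = one :=
  (S_pt' (a := g (d 0 1)) (by rw [O.Q_map, Q_one]) (O.ne_zero g one_ne) (by rw [O.Q_map]; decide)
    (by rw [O.B_map]; decide) Q_one one_ne (Bo hv) (by rw [← S_conj]; exact e.symm)).symm

/-- two covers which agree on `E` -/
structure Tw (π β : X →* O) (z : X) (ε : V → X) : Prop where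
  c1 : Cov π z
  c2 : Cov β z
  e1 : ∀ u, sm u = 0 → π (ε u) = T u
  e2 : ∀ u, sm u = 0 → β (ε u) = T u

namespace Tw

theorem symm (h : Tw π β z ε) : Tw β π z ε := ⟨h.c2, h.c1, h.e2, h.e1⟩

theorem eq (h : Tw π β z ε) (e : π l = π m) : β l = β m := by
  rcases h.c1.eq e with rfl | rfl
  · rfl
  · rw [map_mul, h.c2.πz, mul_one]

theorem S_eq (h : Tw π β z ε) (hu : sm u = 0) (hv : sm v = 0) (e : S (π l one) (π l u) = S (π m one) (π m v)) :
    S (β l one) (β l u) = S (β m one) (β m v) := by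
  have := h.eq (l := l * ε u * l⁻¹) (m := m * ε v * m⁻¹) (by
    simp only [map_mul, map_inv, h.e1 _ hu, h.e1 _ hv, S_conj, e])
  simpa only [map_mul, map_inv, h.e2 _ hu, h.e2 _ hv, S_conj] using this

theorem ev (l : X) {q : V} (e : B q (π l one) = 0) : sm ((π l)⁻¹ q) = 0 := by rw [← B_one, O.B_inv, e]

theorem pt (h : Tw π β z ε) (e : π l one = π m one) : β l one = β m one :=
  (S_pt' (a := β l (d 0 1)) (by rw [O.Q_map, Q_one]) (O.ne_zero _ one_ne) (by rw [O.Q_map]; decide)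
    (by rw [O.B_map]; decide) (by rw [O.Q_map, Q_one]) (O.ne_zero _ one_ne)
    (by rw [O.B_map, Bo (ev m (by rw [← e, O.B_map]; decide))])
    (h.S_eq (sm_d 0 1) (ev m (q := π l (d 0 1)) (by rw [← e, O.B_map]; decide)) (by rw [O.apply_inv, e])).symm).symm

theorem line (h : Tw π β z ε) (e : B (π m one) (π l one) = 0) (ne : π l one ≠ π m one) :
    β m one = β l ((π l)⁻¹ (π m one)) ∨ β m one = β l ((π l)⁻¹ (π m one)) + β l one := by
  have e' : B (π l one) (π m one) = 0 := by rw [B_comm, e]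
  have q : ∀ (g : O), Q (g one) = 0 := fun g => by rw [O.Q_map, Q_one]
  refine (S_pt (q _) (by rw [O.B_map, Bo (ev l e)]) (q _) (O.ne_zero _ one_ne) (by rw [O.B_map, Bo (ev m e')])
    (h.S_eq (ev m e') (ev l e) (by rw [O.apply_inv, O.apply_inv, S_comm (q _) (q _) e'])) fun f => ?_).resolve_left
    fun f => ne (h.symm.pt f).symm
  rw [← S_conj, conj_eq_one_iff] at f
  rcases T_eq_one (ev l e) f with f | f
  · exact O.ne_zero _ (O.ne_zero _ one_ne) f
  · exact ne (by rw [← O.apply_inv (π l) (π m one), f])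

theorem col (h : Tw π β z ε) (e : B (π m one) (π l one) = 0) : B (β m one) (β l one) = 0 := by
  by_cases ne : π l one = π m one
  · rw [h.pt ne, B_self]
  · rcases h.line e ne with f | f <;> rw [f]
    · rw [O.B_map, Bo (ev l e)]
    · rw [B_add, B_self, O.B_map, Bo (ev l e), add_zero]

theorem same (h : Tw π β z ε) {l0 : X} (h1 : π l0 one = e 0) (h2 : β l0 one = e 0) : β = π := by
  have sj : ∀ p, Q p = 0 → p ≠ 0 → ∃ l, π l one = p := fun p hp h0 => by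
    obtain ⟨g, hg, e⟩ := trans hp h0
    obtain ⟨l, rfl⟩ := h.c1.surj g hg
    exact ⟨l, e⟩
  have q : ∀ (g : O), Q (g one) = 0 := fun g => by rw [O.Q_map, Q_one]
  have A : ∀ l, sm (π l one) = 1 → β l one = π l one := fun l hl => by
    have s : sm (e 0 + π l one) = 0 := by rw [sm_add, hl, sm_e]; decide
    have t := T_move (Q_e 0) (q (π l)) (sm_e 0) hl
    rw [h.pt (l := l) (m := ε (e 0 + π l one) * l0) (by rw [map_mul, O.mul_apply, h1, h.e1 _ s, t]), map_mul,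
      O.mul_apply, h2, h.e2 _ s, t]
  have A' : ∀ l, β l one = π l one := fun l => by
    rcases F2c (sm (π l one)) with s | s
    swap; · exact A l s
    by_cases e1 : π l one = one
    · rw [h.pt (m := 1) (by rw [e1, map_one]; rfl), map_one, e1]; rfl
    obtain ⟨i, hi⟩ := all_dec (P := fun p => sm p = 0 → p ≠ one → ∃ i, B p (e i) = 0) (by decide +kernel) _ s e1
    obtain ⟨m, hm⟩ := sj _ (Q_e i) (e_ne i)
    have := h.col (m := l) (l := m) (by rw [hm, hi])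
    rw [A m (by rw [hm, sm_e]), hm] at this
    have f := h.line (m := l) (l := 1) (by rw [map_one, O.one_apply, B_one, s]) (by rw [map_one]; exact Ne.symm e1)
    simp only [map_one, inv_one, O.one_apply] at f
    refine f.resolve_right fun f => ?_
    rw [f, B_add, hi, B_one', sm_e] at this
    exact absurd this (by decide)
  refine MonoidHom.ext fun k => O.ext fun i => ?_
  obtain ⟨m, hm⟩ := sj _ (Q_e i) (e_ne i)
  have := A' (k * m)
  rwa [map_mul, map_mul, O.mul_apply, O.mul_apply, A', hm] at this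

theorem conj (h : Tw π β z ε) : ∃ g : O, ∀ x, β x = g * π x * g⁻¹ := by
  obtain ⟨g, hg, h1⟩ := trans (Q_e 0) (e_ne 0)
  obtain ⟨l, rfl⟩ := h.c1.surj g hg
  have s : sm (β l one) = 1 := F2ne fun s => by
    have := h.symm.col (m := l) (l := 1) (by rw [map_one, O.one_apply, B_one, s])
    rw [map_one, O.one_apply, h1] at this
    exact absurd this (by decide)
  have s' : sm (β l one + e 0) = 0 := by rw [sm_add, s, sm_e]; decide
  have t := T_move (by rw [O.Q_map, Q_one]) (Q_e 0) s (sm_e 0)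
  generalize β l one + e 0 = v at s' t
  obtain ⟨k, hk⟩ := h.c2.surj _ (T_mem s')
  have := same (π := π) (β := β.comp (MulAut.conj k).toMonoidHom) (z := z) (ε := ε) ⟨h.c1, ⟨fun x => ?_, h.c2.z1, h.c2.zc,
    fun x => h.c2.mem _, fun g hg => ?_, h.c2.perf⟩, h.e1, fun u hu => ?_⟩ h1 ?_
  · refine ⟨(β k)⁻¹, fun x => ?_⟩
    rw [← this]; simp [mul_assoc]
  · rw [← h.c2.ker]; simp
  · obtain ⟨x, rfl⟩ := h.c2.surj g hg
    exact ⟨k⁻¹ * x * k, by simp [mul_assoc]⟩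
  · simp [hk, h.e2 u hu, T_comm s' hu]
  · simp only [MonoidHom.comp_apply, MulEquiv.coe_toMonoidHom, MulAut.conj_apply, map_mul, map_inv, hk, O.mul_apply,
      T_inv s', T_onev s', t]

end Tw

theorem Cov.aut_z (h : Cov π z) (α : X ≃* X) : α z = z :=
  ((h.ker _).1 (cent_Om fun g hg => by
    obtain ⟨x, rfl⟩ := h.surj g hg
    rw [← map_mul, ← α.apply_symm_apply x, ← map_mul, h.zc, map_mul, map_mul])).resolve_left
    fun e => h.z1 ((map_eq_one_iff α α.injective).1 e)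

namespace Fr

theorem einj' (h : Fr π z x0 ε φ) : Function.Injective fun u : Ev => ε u := fun u v e => Subtype.ext (h.einj u.2 v.2 e)
theorem pinj' (h : Fr π z x0 ε φ) : Function.Injective fun u : Ev => φ u := fun u v e => Subtype.ext (h.pinj u.2 v.2 e)

theorem act (h : Fr π z x0 ε φ) {α : X ≃* X} {η : V → X} {ψ : Ev ≃ₗ[F2] Ev} (H : ∀ u : Ev, α (ε u) = η (ψ u))
    {u v : Ev} (e : W u = W v) : ∃ y, y * η (ψ u) * y⁻¹ = η (ψ v) ∧ ∀ s : Ev, ∃ t : Ev, y * η s * y⁻¹ = η t := by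
  obtain ⟨σ, hσ, e⟩ := wt_trans _ _ e
  obtain ⟨y, hy⟩ := h.surj _ (pm_mem hσ)
  have A : ∀ s : Ev, α y * η (ψ s) * (α y)⁻¹ = η (ψ ⟨pv σ s, (sm_pv _ _).trans s.2⟩) := fun s => by
    rw [← H, ← H, ← map_inv, ← map_mul, ← map_mul,
      h.econj (u := 0) (by decide) (by rw [hy, T_zero, one_mul]) s.2]
  exact ⟨α y, by rw [A]; exact congrArg (fun s => η (ψ s)) (Subtype.ext e), fun s =>
    ⟨_, by have := A (ψ.symm s); rwa [ψ.apply_symm_apply] at this⟩⟩

theorem not_F (h : Fr π z x0 ε φ) {α : X ≃* X} {ψ : Ev ≃ₗ[F2] Ev} (H : ∀ u : Ev, α (ε u) = φ (ψ u)) : False := by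
  have A : ∀ u v : Ev, W u = W v → sA (ψ u) = 0 → sA (ψ v) = 0 := fun u v e h0 => by
    obtain ⟨y, h1, h2⟩ := h.act H e
    obtain ⟨μ, -, hμ⟩ := frame (h := π y) fun i j => by
      obtain ⟨t, ht⟩ := h2 ⟨d i j, sm_d i j⟩
      exact ⟨t, by rw [← R_d, ← h.πp (sm_d i j), ← h.πp t.2, ← ht, map_mul, map_mul, map_inv]⟩
    rw [h.pinj (ψ v).2 ((sm_pv _ _).trans (ψ u).2) (h1.symm.trans (h.amb.pconj hμ (ψ u).2)), frame_sA hμ, h0, O.map_zero]
  have A2 : ∀ u v : Ev, sA (ψ u) = 0 → sA (ψ v) = 0 → sA (ψ (u + v)) = 0 := fun u v h1 h2 => by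
    rw [map_add, Submodule.coe_add, sA_add, h1, h2, add_zero]
  have o : ψ oneE = oneE := h.pinj' (by
    change φ (ψ oneE) = φ one
    rw [← H, h.p1]; exact (congrArg α h.e1).trans (h.aut_z α))
  obtain ⟨u, hu⟩ := ψ.surjective ⟨d 0 1 + d 2 3, by change sm _ = 0; decide⟩
  obtain ⟨v, v0, v1, v2⟩ := all_dec (P := fun u => sm u = 0 → u ≠ 0 → u ≠ one → ∃ n ∈ [5, 29, 125],
    sm (dec n) = 0 ∧ W u = W (dec n) ∧ W u = W (dec n + d 0 1)) (by decide +kernel) u u.2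
    (fun e => by rw [show u = 0 from Subtype.ext e, map_zero] at hu; exact absurd (congrArg Subtype.val hu) (by decide))
    (fun e => by rw [show u = oneE from Subtype.ext e, o] at hu; exact absurd (congrArg Subtype.val hu) (by decide))
  have u0 : sA (ψ u) = 0 := by rw [hu]; decide +kernel
  have d0 : sA (ψ ⟨d 0 1, sm_d 0 1⟩) = 0 := by
    have := A2 _ _ (A u ⟨dec v, v1⟩ v2.1 u0) (A u (⟨dec v, v1⟩ + ⟨d 0 1, sm_d 0 1⟩) v2.2 u0)
    rwa [← add_assoc, show (⟨dec v, v1⟩ + ⟨dec v, v1⟩ : Ev) = 0 from Subtype.ext (add_self _), zero_add] at this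
  obtain ⟨t, ht⟩ := ψ.surjective ⟨d 0 1, sm_d 0 1⟩
  have := ev_ind (P := fun t => ∀ s : sm t = 0, sA (ψ ⟨t, s⟩) = 0) (fun s => by
    rw [show (⟨0, s⟩ : Ev) = 0 from rfl, map_zero]; decide +kernel) (fun t j s ih _ => A2 ⟨t, s⟩ ⟨d 0 j, sm_d 0 j⟩ (ih s) (by
      by_cases hj : j = 0
      · rw [show (⟨d 0 j, sm_d 0 j⟩ : Ev) = 0 from Subtype.ext (by rw [hj]; exact d_self 0), map_zero]; decide +kernel
      · exact A _ _ ((by decide +kernel : ∀ j, j ≠ 0 → W (d 0 1) = W (d 0 j)) j hj) d0)) t.2 t.2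
  rw [show ψ ⟨t, t.2⟩ = _ from ht] at this
  exact absurd this (by decide +kernel)

theorem wt (h : Fr π z x0 ε φ) {α : X ≃* X} {ψ : Ev ≃ₗ[F2] Ev} (H : ∀ u : Ev, α (ε u) = ε (ψ u))
    {u v : Ev} (e : W u = W v) : W (ψ u) = W (ψ v) := by
  obtain ⟨y, h1, h2⟩ := h.act H e
  obtain ⟨t, ht⟩ := h2 ⟨d 0 1, sm_d 0 1⟩
  obtain ⟨s, σ, hs, e⟩ := stab (fix_of_T (g := π y) t.2 (by
    rw [← h.πe (sm_d 0 1), ← h.πe t.2, ← ht, map_mul, map_mul, map_inv]))
  rw [h.einj (ψ v).2 ((sm_pv _ _).trans (ψ u).2) (h1.symm.trans (h.econj hs e (ψ u).2)), W_pv]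

theorem Q0 (h : Fr π z x0 ε φ) {α : X ≃* X} {ψ : Ev ≃ₗ[F2] Ev} (H : ∀ u : Ev, α (ε u) = ε (ψ u))
    (u : Ev) (e : Q u = 0) : Q (ψ u) = 0 := by
  have o : ψ oneE = oneE := h.einj' (by
    change ε (ψ oneE) = ε one
    rw [← H, h.e1]; exact (congrArg α h.e1).trans (h.aut_z α))
  have A := all_dec (P := fun u => sm u = 0 → (Q u = 0 ↔ u = 0 ∨ u = one ∨ W u = W (u + one))) (by decide +kernel)
  refine (A _ (ψ u).2).2 (((A _ u.2).1 e).imp (fun e => ?_) (Or.imp (fun e => ?_) fun e => ?_))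
  · rw [show u = 0 from Subtype.ext e, map_zero]; rfl
  · rw [show u = oneE from Subtype.ext e, o]; rfl
  · rw [h.wt H (v := u + oneE) e, map_add, o]; rfl

theorem is_perm (h : Fr π z x0 ε φ) {α : X ≃* X} {ψ : Ev ≃ₗ[F2] Ev} (H : ∀ u : Ev, α (ε u) = ε (ψ u)) :
    ∃ σ : P8, ∀ u, sm u = 0 → α (ε u) = ε (pv σ u) := by
  have q : ∀ u : Ev, Q (ψ u) = Q u := fun u => by
    rcases F2c (Q u) with e | e
    · rw [e, h.Q0 H u e]
    · rw [e]
      refine F2ne fun f => ?_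
      have := h.Q0 (α := α.symm) (ψ := ψ.symm) (fun u => by rw [α.symm_apply_eq, H, ψ.apply_symm_apply]) _ f
      rw [ψ.symm_apply_apply, e] at this
      exact absurd this (by decide)
  let D : Fin 8 → Fin 8 → Ev := fun i j => ⟨d i j, sm_d i j⟩
  obtain ⟨σ, hσ⟩ := star (w := fun j => ψ (D 0 j)) (fun j hj => ⟨(ψ _).2, (q _).trans (Q_d _ _ hj.symm)⟩)
    fun j k hj hk jk => by
      have := q (D 0 j + D 0 k)
      rw [map_add, Submodule.coe_add, Submodule.coe_add, Q_add, Q_add, q, q, add_right_inj] at this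
      exact this.trans ((by decide : ∀ j k, j ≠ 0 → k ≠ 0 → j ≠ k → B (d 0 j) (d 0 k) = 1) j k hj hk jk)
  have A : ∀ j, (ψ (D 0 j) : V) = d (σ 0) (σ j) := fun j => by
    by_cases hj : j = 0
    · rw [hj, d_self, show D 0 0 = 0 from Subtype.ext (d_self 0), map_zero]; rfl
    obtain ⟨k, k0, kj, w1, w2⟩ := (by decide +kernel : ∀ j, j ≠ 0 → ∃ k, k ≠ 0 ∧ j ≠ k ∧ W (d 0 j) = W (d 0 k) ∧
      W (d 0 j) = W (d 0 j + d 0 k)) j hj
    obtain ⟨c, hc⟩ := hσ j hj
    obtain ⟨c', hc'⟩ := hσ k k0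
    have e1 := h.wt H (u := D 0 j) (v := D 0 k) w1
    have e2 := h.wt H (u := D 0 j) (v := D 0 j + D 0 k) w2
    rw [map_add, Submodule.coe_add, hc, hc', add_add_add_comm, d_add, ← add_smul, W_d _ _ _ (σ.injective.ne kj)] at e2
    rw [hc, hc', W_d _ _ _ (σ.injective.ne k0.symm)] at e1
    rw [W_d _ _ _ (σ.injective.ne (Ne.symm hj))] at e1 e2
    rw [hc, (by decide : ∀ c c' : F2, ((if c = 0 then 2 else 6) = if c' = 0 then 2 else 6) →
      ((if c = 0 then 2 else 6) = if c + c' = 0 then 2 else 6) → c = 0) c c' e1 e2, zero_smul, add_zero]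
  exact ⟨σ, fun u hu => ev_ind (P := fun u => α (ε u) = ε (pv σ u))
    (by rw [show pv σ 0 = 0 from rfl, h.eh.zero, map_one])
    (fun u j _ ih => by rw [h.eh, map_mul, ih, pv_add, h.eh, pv_d, ← A]; exact congrArg _ (H (D 0 j))) hu⟩

theorem aut [Finite X] (h : Fr π z x0 ε φ) (α : X ≃* X) :
    ∃ g : O, (∀ x, π (α x) = g * π x * g⁻¹) ∧ ∃ l, α x0 = l * x0 * l⁻¹ := by
  let A := rg (fun u : Ev => α (ε u)) fun u v => by rw [Submodule.coe_add, h.eh, map_mul]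
  have hA : ∀ a ∈ A, a * a = 1 := by rintro _ ⟨u, rfl⟩; exact (map_mul α _ _).symm.trans (by rw [h.eh.sq, map_one])
  obtain ⟨l, e | e⟩ := h.amb.cls hA (.inr ⟨((card_rg _ (α.injective.comp h.einj')).trans card_Ev).ge, fun a _ => h.mem a⟩)
  swap
  · obtain ⟨ψ, hψ⟩ := exists_psi (fun u v : Ev => h.eh u v) (fun u v : Ev => h.ph u v) h.einj' h.pinj'
      (α.trans (MulAut.conj l)) fun u => by
        obtain ⟨w, hw⟩ := e _ ⟨.ofAdd u, rfl⟩
        obtain ⟨v, hv, e⟩ := h.amb.liftF (by rw [conj_mul, hA _ ⟨.ofAdd u, rfl⟩]; simp) (R_mem.1 (hw ▸ h.mem _)) hw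
        exact ⟨⟨v, hv⟩, e⟩
    exact (h.not_F hψ).elim
  obtain ⟨ψ, hψ⟩ := exists_psi (fun u v : Ev => h.eh u v) (fun u v : Ev => h.eh u v) h.einj' h.einj'
    (α.trans (MulAut.conj l)) fun u => by
      obtain ⟨v, hv, e⟩ := e _ ⟨.ofAdd u, rfl⟩
      exact ⟨⟨v, hv⟩, e⟩
  obtain ⟨σ, hσ⟩ := h.is_perm hψ
  generalize hγ : α.trans (MulAut.conj l) = γ at hσ
  have hα : ∀ x, α x = l⁻¹ * γ x * l := fun x => by rw [← hγ]; simp [mul_assoc]
  have hT : Tw π ((MulAut.conj (pm σ)⁻¹).toMonoidHom.comp (π.comp γ.toMonoidHom)) z ε := by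
    refine ⟨h.toCov, ⟨fun x => ?_, h.z1, h.zc, fun x => Subgroup.Normal.conj_mem inferInstance _ (h.mem _) _,
      fun g hg => ?_, h.perf⟩, fun _ => h.πe, fun u hu => ?_⟩
    · change (pm σ)⁻¹ * π (γ x) * (pm σ)⁻¹⁻¹ = 1 ↔ _
      rw [conj_eq_one_iff, h.ker, map_eq_one_iff γ γ.injective, ← γ.injective.eq_iff (a := x) (b := z), h.aut_z]
    · obtain ⟨x, hx⟩ := h.surj _ (Subgroup.Normal.conj_mem inferInstance _ hg (pm σ))
      exact ⟨γ.symm x, by simp [hx, mul_assoc]⟩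
    · change (pm σ)⁻¹ * π (γ (ε u)) * (pm σ)⁻¹⁻¹ = _
      rw [hσ u hu, h.πe ((sm_pv _ _).trans hu), ← pm_T]; group
  obtain ⟨g, hg⟩ := hT.conj
  refine ⟨(π l)⁻¹ * pm σ * g, fun x => ?_, ?_⟩
  · have : (pm σ)⁻¹ * π (γ x) * (pm σ)⁻¹⁻¹ = g * π x * g⁻¹ := hg x
    rw [hα, map_mul, map_mul, map_inv]
    calc _ = (π l)⁻¹ * pm σ * ((pm σ)⁻¹ * π (γ x) * (pm σ)⁻¹⁻¹) * (pm σ)⁻¹ * π l := by group
      _ = _ := by rw [this]; group
  · obtain ⟨m, hm, -⟩ := h.dl_ex (OP_d _ _ (σ.injective.ne (by decide : (0 : Fin 8) ≠ 1)))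
    refine ⟨l⁻¹ * m, ?_⟩
    rw [hα, show γ x0 = _ from (congrArg γ ((h.ed 0 1).trans h.dl01).symm).trans (hσ _ (sm_d _ _)), pv_d, h.ed, hm]
    group

end Fr

end Cfsg.Agent.WA.O8
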