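import Cfsg.Agent.WA.O8P
import Cfsg.Agent.WA.O8Orb
import Cfsg.Agent.H9.Extra

/-! Involutions and frame subgroups of an overgroup of the cover. -/

set_option autoImplicit false

namespace Cfsg.Agent.WA.O8

open Equiv

variable {X : Type*} [Group X] {π : X →* O} {z x l x0 : X} {a b c u v w : V} {ε φ : V → X}
  {Y : Type*} [Group Y] {ι : X →* Y} {ρ : Y →* O} {y s t k : Y} {σ τ : P8} {η : V → Y}

def mat (c : Fin 8 → ℕ) : V →ₗ[F2] V where
  toFun x := ∑ i, x i • dec (c i)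
  map_add' x y := by simp only [Pi.add_apply, add_smul, Finset.sum_add_distrib]
  map_smul' s x := by simp only [Pi.smul_apply, smul_eq_mul, mul_smul, Finset.smul_sum, RingHom.id_apply]

theorem realize (h : σ = g1 ∨ σ = g2) : ∃ g ∈ Om, ∀ i, g (av i) = av (σ i) := by
  obtain ⟨g, hg⟩ : ∃ g : O, ∀ i, g (av i) = av (σ i) := by
    rcases h with rfl | rfl
    · exact ⟨mkO (mat ![117, 118, 83, 99, 55, 203, 71, 180]) (iso_of_basis _ (by decide +kernel) (by decide +kernel)),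
        fun i => by rw [mkO_apply]; revert i; decide +kernel⟩
    · exact ⟨mkO (mat ![71, 75, 31, 47, 77, 78, 64, 143]) (iso_of_basis _ (by decide +kernel) (by decide +kernel)),
        fun i => by rw [mkO_apply]; revert i; decide +kernel⟩
  rcases dich g (Q_av 0) with e | e
  · exact ⟨g, e, hg⟩
  · exact ⟨_, e, fun i => by rw [O.mul_apply, r_fix (B_av i 0), hg]⟩

theorem R_av (w : V) (i : Fin 8) : R w (av i) = av i := by simp [R_apply, B_av, sA]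

theorem frame_R {g : O} (H : ∀ i, g (av i) = av (σ i)) (i : Fin 8) : g * R (e i) * g⁻¹ = R (e (σ i)) := by
  rw [R_e, R_e, r_conj, H]

structure Am (π : X →* O) (z x0 : X) (ε φ : V → X) (ι : X →* Y) (ρ : Y →* O) : Prop extends Amb π z x0 ε φ ι ρ where
  nrm : ∀ y x, ∃ x', y * ι x * y⁻¹ = ι x'
  cyc : ∀ P : Subgroup Y, P ≤ ρ.ker → IsPGroup 2 P → IsCyclic P

/-- coordinates on an elementary abelian subgroup of order 256 -/
structure Hat (φ : V → X) (ι : X →* Y) (ρ : Y →* O) (η : V → Y) : Prop where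
  hm : Hm η
  ρη : ∀ v, ρ (η v) = R v
  ev : ∀ v, sm v = 0 → η v = ι (φ v)

namespace Amb

theorem comm_F (h : Amb π z x0 ε φ ι ρ) (e : ρ s = R w) (hv : sm v = 0) : s * ι (φ v) = ι (φ v) * s :=
  mul_inv_eq_iff_eq_mul.1 (h.pconj (σ := 1) (fun i => by rw [e, R_av]; rfl) hv)

theorem exists_hat (h : Amb π z x0 ε φ ι ρ) (hs : s * s = 1) (e1 : ρ s = R w) (hw : sm w = 1) :
    ∃ η, Hat φ ι ρ η ∧ η w = s := by
  have ev : ∀ i, sm (w + e i) = 0 := fun i => by rw [sm_add, hw, sm_e]; decide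
  have A : ∀ i j, s * ι (φ (w + e i)) * (s * ι (φ (w + e j))) = ι (φ (d i j)) := fun i j => by
    rw [mul_assoc, ← mul_assoc (ι _), ← h.comm_F e1 (ev i), mul_assoc, ← mul_assoc s, hs, one_mul, ← map_mul, ← h.ph,
      add_add_add_comm, add_self, zero_add, d]
  obtain ⟨η, h1, h2⟩ := exists_eta (fun i => s * ι (φ (w + e i))) (fun i j => by rw [A, A, d_comm])
    fun i => by rw [A, d_self, h.ph.zero, map_one]
  have h3 : ∀ v, sm v = 0 → η v = ι (φ v) := fun v hv => ev_ind (P := fun v => η v = ι (φ v))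
    (by rw [h1.zero, h.ph.zero, map_one]) (fun u j _ ih => by rw [h1, ih, h1.d, h2, h2, A, h.ph, map_mul]) hv
  refine ⟨η, ⟨h1, all_ind (by rw [h1.zero, R_hm.zero, map_one]) fun v i ih => ?_, h3⟩, ?_⟩
  · rw [h1, map_mul, ih, h2, map_mul, e1, h.ρι, h.πp (ev i), ← R_hm, add_cancel, R_hm]
  · rw [← add_cancel' w (e 0), h1, h3 _ (ev 0), h2, ← mul_assoc, ← h.comm_F e1 (ev 0), mul_assoc, ← map_mul, h.ph.sq,
      map_one, mul_one]

theorem hat_one (h : Amb π z x0 ε φ ι ρ) (H : Hat φ ι ρ η) : η one = ι z := by rw [H.ev _ sm_one, h.p1]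

theorem ιz (h : Amb π z x0 ε φ ι ρ) : ι z ≠ 1 := fun e => h.z1 ((map_eq_one_iff ι h.inj).1 e)

theorem hat_inj (h : Amb π z x0 ε φ ι ρ) (H : Hat φ ι ρ η) : Function.Injective η := fun u v e => by
  obtain ⟨c, rfl⟩ := R_inj (u := u) (v := v) (by rw [← H.ρη, e, H.ρη])
  rcases F2c c with rfl | rfl
  · rw [zero_smul, add_zero]
  · rw [one_smul, H.hm, h.hat_one H, mul_eq_left] at e; exact absurd e h.ιz

theorem hat_act (h : Amb π z x0 ε φ ι ρ) (H : Hat φ ι ρ η) (e1 : ∀ i, ρ y (av i) = av (σ i))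
    (e2 : ∃ v, y * η (e 0) * y⁻¹ = η v) : ∃ c : F2, ∀ x, y * η x * y⁻¹ = η (pv σ x + (c * sm x) • one) := by
  obtain ⟨v, e2⟩ := e2
  obtain ⟨c, rfl⟩ := R_inj (u := v) (v := e (σ 0)) (by
    rw [← H.ρη, ← e2, map_mul, map_mul, map_inv, H.ρη, frame_R e1])
  have A : ∀ x, sm x = 0 → y * η x * y⁻¹ = η (pv σ x) := fun x hx => by
    rw [H.ev _ hx, H.ev _ ((sm_pv _ _).trans hx), h.pconj e1 hx]
  refine ⟨c, fun x => ?_⟩
  rcases F2c (sm x) with f | f <;> rw [f]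
  · rw [mul_zero, zero_smul, add_zero, A x f]
  · rw [← add_cancel' x (e 0), H.hm, ← conj_mul, A _ (by rw [sm_add, f, sm_e]; decide), e2, ← H.hm, mul_one,
      pv_add σ (x + e 0), pv_e, add_assoc]

theorem hat_mem (h : Amb π z x0 ε φ ι ρ) (H : Hat φ ι ρ η) (hw : sm w = 1) (ht : t * t = 1)
    (hc : t * η w = η w * t) (e1 : ρ t = R v) : ∃ u, t = η u := by
  rcases F2c (sm v) with f | f
  · obtain ⟨u, hu, e⟩ := h.liftF ht f e1
    exact ⟨u, by rw [e, H.ev _ hu]⟩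
  · obtain ⟨u, hu, e⟩ := h.liftF (y := t * η w) (u := v + w) (by
      rw [mul_assoc, ← mul_assoc (η w), ← hc, mul_assoc, H.hm.sq, mul_one, ht]) (by rw [sm_add, f, hw]; decide)
      (by rw [map_mul, e1, H.ρη, R_hm])
    exact ⟨u + w, by rw [H.hm, H.ev _ hu, ← e, mul_assoc, H.hm.sq, mul_one]⟩

/-- normal forms of involutions -/
theorem norm (h : Amb π z x0 ε φ ι ρ) (ht : t * t = 1) : ∃ l, (∃ w, ρ (ι l * t * (ι l)⁻¹) = R w) ∨
    ∃ v, sm v = 0 ∧ ρ (ι l * t * (ι l)⁻¹) = T v * pm s4 ∧ pv s4 v = v + one := by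
  obtain ⟨l, hl⟩ := h.pt (A := Subgroup.zpowers t) (by
    rintro _ ⟨i, rfl⟩; rw [← Commute.mul_zpow (Commute.refl t), ht, one_zpow])
  obtain ⟨v, σ, hv, e⟩ := stab (hl t (Subgroup.mem_zpowers t))
  obtain ⟨h1, c, hc⟩ := TP_sq hv (σ := σ) (by rw [← e, ← map_mul, conj_mul, ht]; simp)
  have A : ∀ τ, Perm.sign τ = 1 → ∃ l', ρ (ι l' * t * (ι l')⁻¹) = T (pv τ v) * pm (τ * σ * τ⁻¹) := fun τ hτ => by
    obtain ⟨m, hm⟩ := h.surj _ (pm_mem hτ)
    exact ⟨m * l, by rw [← TP_conj, ← e, ← hm, ← h.ρι, ← map_inv ρ, ← map_mul ρ, ← map_mul ρ, map_mul ι]; congr 1; group⟩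
  rcases F2c c with rfl | rfl
  · obtain ⟨τ, t1, t2, t3⟩ := invol σ h1 v hv (by simpa using hc)
    obtain ⟨l', e'⟩ := A τ t1
    exact ⟨l', .inl (e' ▸ TP_R t2 t3)⟩
  · rw [one_smul] at hc
    obtain ⟨τ, t1, t2⟩ := invol' σ h1 v hc
    obtain ⟨l', e'⟩ := A τ t1
    exact ⟨l', .inr ⟨_, (sm_pv _ _).trans hv, t2 ▸ e', by
      rw [← t2, ← pv_mul, inv_mul_cancel_right, pv_mul, hc, pv_add, pv_onev]⟩⟩

end Amb

theorem Fr.sq_C (h : Fr π z x0 ε φ) (hv : sm v = 0) (e : π x = T v * pm s4) (e' : pv s4 v = v + one) : x * x = z := by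
  have o1 : OP (d 0 1) (d 2 3) := by decide
  have o2 : OP (d 4 5) (d 6 7) := by decide
  have p : π (dl π x0 (d 0 1) (d 2 3) * dl π x0 (d 4 5) (d 6 7)) = pm s4 := by
    rw [map_mul, h.π_dl o1, h.π_dl o2, ← pm_swap, ← pm_swap, ← pm_swap, ← pm_swap, ← map_mul, ← map_mul, ← map_mul,
      ← mul_assoc] <;> first | rfl | decide
  have q : dl π x0 (d 0 1) (d 2 3) * dl π x0 (d 4 5) (d 6 7) * (dl π x0 (d 0 1) (d 2 3) * dl π x0 (d 4 5) (d 6 7)) = 1 := by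
    have := h.dl_conj o1 (dl π x0 (d 4 5) (d 6 7))
    rw [h.π_dl o2, O.mul_apply, O.mul_apply, r_fix (a := d 6 7) (by decide), r_fix (by decide),
      r_fix (a := d 6 7) (by decide), r_fix (by decide), mul_inv_eq_iff_eq_mul] at this
    rw [mul_assoc, ← mul_assoc (dl π x0 (d 4 5) (d 6 7)), this, mul_assoc, h.dl_sq o2, mul_one, h.dl_sq o1]
  generalize dl π x0 (d 0 1) (d 2 3) * dl π x0 (d 4 5) (d 6 7) = m at p q
  rw [h.sq_eq (y := ε v * m) (by rw [map_mul, h.πe hv, p, e]), mul_assoc, ← mul_assoc m, mul_inv_eq_iff_eq_mul.1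
    (h.econj (u := 0) (by decide) (by rw [p, T_zero, one_mul]) hv), mul_assoc, q, mul_one, ← h.eh, e', add_cancel, h.e1]

namespace Am

theorem ker_rg (h : Am π z x0 ε φ ι ρ) (h1 : ρ k = 1) (h2 : k ∈ ι.range) : k = 1 ∨ k = ι z := by
  obtain ⟨x, rfl⟩ := h2
  exact ((h.ker x).1 ((h.ρι x).symm.trans h1)).imp (fun e => by rw [e, map_one]) (congrArg ι)

theorem rn (h : Am π z x0 ε φ ι ρ) : ι.range.Normal := ⟨by
  rintro _ ⟨x, rfl⟩ y
  obtain ⟨x', e⟩ := h.nrm y x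
  exact ⟨x', e.symm⟩⟩

theorem hat_real (h : Am π z x0 ε φ ι ρ) (H : Hat φ ι ρ η) (hσ : σ = g1 ∨ σ = g2) :
    ∃ (l : X) (c : F2), ∀ x, ι l * η x * (ι l)⁻¹ = η (pv σ x + (c * sm x) • one) := by
  obtain ⟨g, hg, e1⟩ := realize hσ
  obtain ⟨l, rfl⟩ := h.surj g hg
  refine ⟨l, h.hat_act H (by simpa only [h.ρι] using e1) ?_⟩
  rcases h.ker_rg (k := ι l * η (e 0) * (ι l)⁻¹ * η (e (σ 0))) (by
    rw [map_mul, map_mul, map_mul, map_inv, h.ρι, H.ρη, H.ρη, frame_R e1, R_hm.sq]) (by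
      have := mul_mem (mul_mem (⟨l, rfl⟩ : ι l ∈ ι.range) (h.rn.conj_mem _ (inv_mem ⟨l, rfl⟩) (η (e 0))))
        (⟨_, (H.ev _ (sm_d 0 (σ 0))).symm⟩ : η (d 0 (σ 0)) ∈ ι.range)
      rwa [H.hm.d, show ∀ a b c : Y, a * (b * a⁻¹ * b⁻¹) * (b * c) = a * b * a⁻¹ * c from fun a b c => by group] at this)
    with f | f
  · exact ⟨_, (eq_inv_of_mul_eq_one_left f).trans (H.hm.inv _)⟩
  · exact ⟨one + e (σ 0), by rw [H.hm, h.hat_one H, ← f, mul_assoc (ι l * η (e 0) * (ι l)⁻¹), H.hm.sq, mul_one]⟩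

theorem v4 [Finite Y] (h : Am π z x0 ε φ ι ρ) (hs : s * s = 1) (ht : t * t = 1) (hc : s * t = t * s) (h1 : ρ s ∈ Om)
    (h2 : ρ t ∈ Om) : s ∈ ι.range ∨ t ∈ ι.range ∨ s * t ∈ ι.range := by
  haveI := h.rn
  have zr : ∀ {k : Y}, k = 1 ∨ k = ι z → k ∈ ι.range := by
    rintro _ (rfl | rfl); exacts [one_mem _, ⟨z, rfl⟩]
  have A : ∀ {s : Y}, ρ s ∈ Om → ∃ k, ρ k = 1 ∧ (k : Y ⧸ ι.range) = s := fun {s} hs => by
    obtain ⟨x, hx⟩ := h.surj _ hs
    refine ⟨s * (ι x)⁻¹, by rw [map_mul, map_inv, h.ρι, hx, mul_inv_cancel], ?_⟩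
    rw [QuotientGroup.mk_mul, (QuotientGroup.eq_one_iff _).2 (inv_mem (⟨x, rfl⟩ : ι x ∈ ι.range)), mul_one]
  have A2 : ∀ {s k : Y}, s * s = 1 → ρ k = 1 → (k : Y ⧸ ι.range) = s → s ∈ ι.range ∨ k * k = ι z := fun {s k} hs hk e =>
    (h.ker_rg (by rw [map_mul, hk, mul_one]) ((QuotientGroup.eq_one_iff _).1 (by
      rw [QuotientGroup.mk_mul, e, ← QuotientGroup.mk_mul, hs]; rfl))).imp_left fun f =>
        (QuotientGroup.eq_one_iff _).1 (e ▸ (QuotientGroup.eq_one_iff _).2 (zr (h.inv k hk f)))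
  obtain ⟨k, k1, k2⟩ := A h1
  obtain ⟨m, m1, m2⟩ := A h2
  refine (A2 hs k1 k2).imp_right fun k3 => (A2 ht m1 m2).imp_right fun m3 => ?_
  have z2 : ι z * ι z = 1 := by rw [← map_mul, h.z2, map_one]
  have pg : ∀ {k : Y}, k * k = ι z → IsPGroup 2 (Subgroup.zpowers k) := fun e =>
    H9.isPGroup_zpowers ⟨2, by rw [show 2 ^ 2 = 2 + 2 from rfl, pow_add, pow_two, e, z2]⟩
  have n : m * k * m⁻¹ ∈ Subgroup.zpowers k := by
    rcases h.ker_rg (k := m * k * m⁻¹ * k⁻¹) (by simp [k1, m1]) ((QuotientGroup.eq_one_iff _).1 (by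
      simp only [QuotientGroup.mk_mul, QuotientGroup.mk_inv, k2, m2]
      rw [← QuotientGroup.mk_mul, ← hc, QuotientGroup.mk_mul]; group)) with f | f <;> rw [mul_inv_eq_iff_eq_mul.1 f]
    · rw [one_mul]; exact Subgroup.mem_zpowers k
    · rw [← k3]; exact mul_mem (mul_mem (Subgroup.mem_zpowers k) (Subgroup.mem_zpowers k)) (Subgroup.mem_zpowers k)
  haveI := h.cyc (Subgroup.zpowers m ⊔ Subgroup.zpowers k)
    (sup_le (Subgroup.zpowers_le.2 m1) (Subgroup.zpowers_le.2 k1))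
    ((pg m3).to_sup_of_normal_right' (pg k3) (Subgroup.zpowers_le.2 (Subgroup.mem_normalizer_fintype (by
      rintro _ ⟨i, rfl⟩; rw [← conj_zpow]; exact zpow_mem n i))))
  have cm : k * m = m * k := congrArg Subtype.val (IsCyclic.isMulCommutative.is_comm.comm
    (⟨k, Subgroup.mem_sup_right (Subgroup.mem_zpowers k)⟩ : ↥(Subgroup.zpowers m ⊔ Subgroup.zpowers k))
    ⟨m, Subgroup.mem_sup_left (Subgroup.mem_zpowers m)⟩)
  refine (QuotientGroup.eq_one_iff _).1 ?_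
  rw [QuotientGroup.mk_mul, ← k2, ← m2, ← QuotientGroup.mk_mul]
  exact (QuotientGroup.eq_one_iff _).2 (zr (h.inv _ (by rw [map_mul, k1, m1, mul_one]) (by
    rw [mul_assoc, ← mul_assoc m, ← cm, mul_assoc, m3, ← mul_assoc, k3, z2])))

theorem a4 [Finite Y] (h : Am π z x0 ε φ ι ρ) (hs : s * s = 1) (ht : t * t = 1) (hc : s * t = t * s)
    (h1 : y * s * y⁻¹ = t) (h2 : y * t * y⁻¹ = s * t) : s ∈ ι.range ∧ t ∈ ι.range := by
  have e1 := congrArg (fun x => sg (ρ x)) h1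
  have e2 := congrArg (fun x => sg (ρ x)) h2
  simp only [map_mul, map_inv, mul_inv_cancel_comm] at e1 e2
  have e3 : sg (ρ s) = 1 := right_eq_mul.1 e2
  have A : s ∈ ι.range → s ∈ ι.range ∧ t ∈ ι.range := fun e => ⟨e, h1 ▸ h.rn.conj_mem _ e y⟩
  have A2 : s * t ∈ ι.range → s ∈ ι.range := fun e => by
    have := h.rn.conj_mem _ e y
    rwa [← conj_mul, h1, h2, ← mul_assoc, ← hc, mul_assoc, ht, mul_one] at this
  rcases h.v4 hs ht hc (sg_iff.1 e3) (sg_iff.1 (e1 ▸ e3)) with e | e | e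
  exacts [A e, A (A2 (h2 ▸ h.rn.conj_mem _ e y)), A (A2 e)]

theorem lift3 (h : Am π z x0 ε φ ι ρ) (h3 : σ ^ 3 = 1) (hs : Perm.sign σ = 1) (hc : ρ t * pm σ = pm σ * ρ t) :
    ∃ x, π x = pm σ ∧ t * ι x = ι x * t := by
  obtain ⟨m, hm⟩ := h.surj _ (pm_mem hs)
  have p : π (m ^ 4) = pm σ := by rw [map_pow, hm, ← map_pow, pow_succ, h3, one_mul]
  have q : (m ^ 4) ^ 3 = 1 := by
    rw [← pow_mul, mul_comm, pow_mul]
    rcases (h.ker (m ^ 3)).1 (by rw [map_pow, hm, ← map_pow, h3, map_one]) with e | e <;> rw [e]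
    · exact one_pow 4
    · rw [show 4 = 2 * 2 from rfl, pow_mul, pow_two z, h.z2, one_pow]
  generalize m ^ 4 = x at p q
  obtain ⟨x', e⟩ := h.nrm t x
  refine ⟨x, p, mul_inv_eq_iff_eq_mul.1 (e.trans (congrArg ι ((h.eq ?_).resolve_right fun f => ?_)))⟩
  · rw [← h.ρι, ← e, map_mul, map_mul, map_inv, h.ρι, p, hc, mul_inv_cancel_right]
  · have : x' ^ 3 = 1 := h.inj (by rw [map_pow, ← e, conj_pow, ← map_pow, q]; simp)
    rw [f, Commute.mul_pow (h.zc x), q, one_mul, pow_succ, pow_two, h.z2, one_mul] at this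
    exact h.z1 this

end Am

end Cfsg.Agent.WA.O8
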