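import Cfsg.Agent.WA.O8Q

/-! The action of an overgroup normalizing the cover. -/

set_option autoImplicit false

namespace Cfsg.Agent.WA.O8

open Equiv

variable {X : Type*} [Group X] {π : X →* O} {z x l x0 : X} {a b c u v w : V} {ε φ θ : V → X}
  {Y : Type*} [Group Y] {ι : X →* Y} {ρ : Y →* O} {y s t k : Y} {σ τ : P8} {η : V → Y}

theorem Cov.uniq (h : Cov π z) {f g : O} (e : ∀ x, f * π x * f⁻¹ = g * π x * g⁻¹) : f = g :=
  (inv_mul_eq_one.1 (cent_Om (c := g⁻¹ * f) fun q hq => by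
    obtain ⟨x, rfl⟩ := h.surj q hq
    calc π x * (g⁻¹ * f) = g⁻¹ * (g * π x * g⁻¹) * f := by group
      _ = _ := by rw [← e]; group)).symm

theorem Cov.zcen (h : Cov π z) [Finite X] (hi : Function.Injective ι) (hn : ∀ y x, ∃ x', y * ι x * y⁻¹ = ι x') (y : Y) :
    ∃ α : X ≃* X, ∀ x, y * ι x * y⁻¹ = ι (α x) := by
  choose f hf using hn y
  let F : X →* X := MonoidHom.mk' f fun a b => hi (by rw [← hf, map_mul, map_mul, ← hf, ← hf, conj_mul])
  have : Function.Injective F := fun a b e => hi ((MulAut.conj y).injective ((hf a).trans ((congrArg ι e).trans (hf b).symm)))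
  exact ⟨MulEquiv.ofBijective F (Finite.injective_iff_bijective.1 this), hf⟩

theorem Fr.exists_am [Finite X] [Finite Y] (h : Fr π z x0 ε φ) (hi : Function.Injective ι)
    (hn : ∀ y x, ∃ x', y * ι x * y⁻¹ = ι x')
    (hc : ∀ P : Subgroup Y, (∀ k ∈ P, ∀ x, k * ι x = ι x * k) → IsPGroup 2 P → IsCyclic P) :
    ∃ ρ, Am π z x0 ε φ ι ρ := by
  choose α hα using h.zcen hi hn
  choose f hf m hm using fun y => h.aut (α y)
  have A : ∀ y x x', y * ι x * y⁻¹ = ι x' → π x' = f y * π x * (f y)⁻¹ := fun y x x' e => by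
    rw [← hf, hi ((hα y x).symm.trans e)]
  let ρ : Y →* O := MonoidHom.mk' f fun y y' => h.uniq fun x => by
    rw [← A (y * y') x (α y (α y' x)) (by rw [← hα, ← hα]; group), hf, hf]; group
  have cen : ∀ k, ρ k = 1 → ∀ x, k * ι x = ι x * k := fun k hk x => by
    have B : ∀ x, π (α k x) = π x := fun x => by rw [hf, show f k = 1 from hk]; simp
    have : commutator X ≤ (Subgroup.centralizer {k}).comap ι := Subgroup.commutator_le.2 fun x _ y _ =>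
      Subgroup.mem_centralizer_singleton_iff.2 (mul_inv_eq_iff_eq_mul.1 ((hα k _).trans (congrArg ι (by
        rw [map_commutatorElement, commutatorElement_def, commutatorElement_def, h.cj_eq (B x), mul_assoc x, mul_assoc x,
          ← mul_assoc, mul_assoc x, h.cj_eq (B y)]; group)))).symm
    exact (Subgroup.mem_centralizer_singleton_iff.1 (this (h.perf.ge (Subgroup.mem_top x)))).symm
  have z2 : ι z * ι z = 1 := by rw [← map_mul, h.z2, map_one]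
  have pg : ∀ {k : Y}, k * k = 1 → IsPGroup 2 (Subgroup.zpowers k) := fun e => H9.isPGroup_zpowers ⟨1, (pow_two _).trans e⟩
  have ρι : ∀ x, ρ (ι x) = π x := fun l => h.uniq fun x => by
    rw [← map_inv π, ← map_mul, ← map_mul]
    exact (A _ _ _ (by rw [map_mul, map_mul, map_inv])).symm
  have cyc : ∀ P : Subgroup Y, P ≤ ρ.ker → IsPGroup 2 P → IsCyclic P := fun P hP => hc P fun k hk => cen k (hP hk)
  refine ⟨ρ, ⟨h, hi, ρι, fun y a b o => ?_, cen, fun k k1 k2 => or_iff_not_imp_left.2 fun k3 => ?_⟩, hn, cyc⟩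
  · obtain ⟨l, e1, e2⟩ := h.dl_ex o
    have e : α y (l * x0 * l⁻¹) = α y l * m y * x0 * (α y l * m y)⁻¹ := by
      rw [map_mul, map_mul, map_inv, hm]; group
    rw [e1, hα, e, h.dl_eq (by rw [← e, hf, e2, ← conj_mul, r_conj, r_conj]; rfl)]
  · refine H9.eq_of_isCyclic_of_mul_self (cyc (Subgroup.zpowers k ⊔ Subgroup.zpowers (ι z))
      (sup_le (Subgroup.zpowers_le.2 k1) (Subgroup.zpowers_le.2 ((ρι z).trans h.πz)))
      ((pg k2).to_sup_of_normal_right' (pg z2) (Subgroup.zpowers_le.2 (Subgroup.centralizer_le_normalizer _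
        (Subgroup.mem_centralizer_iff.2 ?_))))) (Subgroup.mem_sup_left (Subgroup.mem_zpowers k))
      (Subgroup.mem_sup_right (Subgroup.mem_zpowers _)) k2 z2 k3 fun e => h.z1 ((map_eq_one_iff ι hi).1 e)
    rintro _ ⟨i, rfl⟩
    exact (Commute.zpow_left (cen k k1 z).symm i).eq

theorem Amb.evn (h : Amb π z x0 ε φ ι ρ) (hθ : θ = ε ∨ θ = φ) : Hm θ ∧ θ one = z ∧ (Function.Injective fun u : Ev => θ u) ∧
    (∀ σ, σ = g1 ∨ σ = g2 → ∃ l, ∀ u, sm u = 0 → l * θ u * l⁻¹ = θ (pv σ u)) ∧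
    ∀ y : Y, (∀ u : Ev, ∃ v : Ev, y * ι (θ u) * y⁻¹ = ι (θ v)) →
      ∃ σ, ∀ u, sm u = 0 → y * ι (θ u) * y⁻¹ = ι (θ (pv σ u)) := by
  rcases hθ with rfl | rfl
  · refine ⟨h.eh, h.e1, h.einj', fun σ hσ => ?_, fun y hy => ?_⟩
    · obtain ⟨l, e⟩ := h.surj _ (pm_mem (σ := σ) (by rcases hσ with rfl | rfl <;> decide))
      exact ⟨l, fun u hu => h.toEp.econj (u := 0) (by decide) (by rw [e, T_zero, one_mul]) hu⟩
    · obtain ⟨v, e⟩ := hy ⟨d 0 1, sm_d 0 1⟩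
      obtain ⟨s, σ, hs, e⟩ := stab (fix_of_T (g := ρ y) v.2 (by
        rw [← h.πe (sm_d 0 1), ← h.πe v.2, ← h.ρι, ← h.ρι, ← e, map_mul, map_mul, map_inv]))
      exact ⟨σ, fun u hu => h.econj hs e hu⟩
  · refine ⟨h.ph, h.p1, h.pinj', fun σ hσ => ?_, fun y hy => ?_⟩
    · obtain ⟨g, hg, e⟩ := realize hσ
      obtain ⟨l, rfl⟩ := h.surj g hg
      exact ⟨l, fun u hu => h.toFr.amb.pconj e hu⟩
    · obtain ⟨μ, -, hμ⟩ := frame (h := ρ y) fun i j => by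
        obtain ⟨v, e⟩ := hy ⟨d i j, sm_d i j⟩
        exact ⟨v, by rw [← R_d, ← h.πp (sm_d i j), ← h.πp v.2, ← h.ρι, ← h.ρι, ← e, map_mul, map_mul, map_inv]⟩
      exact ⟨μ, fun u hu => h.pconj hμ hu⟩

theorem Amb.hat_up (h : Amb π z x0 ε φ ι ρ) (H : Hat φ ι ρ η) (hy : ∀ u, ∃ v, y * η u * y⁻¹ = η v) :
    ∃ σ, Aff σ ∧ ∃ c : F2, ∀ x, y * η x * y⁻¹ = η (pv σ x + (c * sm x) • one) := by
  obtain ⟨μ, h1, hμ⟩ := frame (h := ρ y) fun i j => by
    obtain ⟨v, e⟩ := hy (d i j)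
    exact ⟨v, by rw [← R_d, ← H.ρη, ← H.ρη, ← e, map_mul, map_mul, map_inv]⟩
  exact ⟨μ, h1, h.hat_act H hμ (hy _)⟩

theorem Am.zc' (h : Am π z x0 ε φ ι ρ) (y : Y) : y * ι z = ι z * y :=
  mul_inv_eq_iff_eq_mul.1 ((h.ker_rg (by rw [map_mul, map_mul, h.ρι, h.πz, mul_one, ← map_mul, mul_inv_cancel, map_one])
    (h.rn.conj_mem _ ⟨z, rfl⟩ y)).resolve_left fun e => h.ιz (by simpa using e))

theorem fix_g : ∀ w : V, (pv g1 w = w ∨ pv g1 w = w + one) → (pv g2 w = w ∨ pv g2 w = w + one) → w = 0 ∨ w = one :=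
  all_dec (by decide +kernel)

def sw (n : Fin 16) : P8 := (if n.1.testBit 0 then swap 0 1 else 1) * (if n.1.testBit 1 then swap 2 3 else 1) *
  (if n.1.testBit 2 then swap 4 5 else 1) * if n.1.testBit 3 then swap 6 7 else 1
def c0 : P8 := ⟨![2, 3, 4, 5, 0, 1, 6, 7], ![4, 5, 0, 1, 2, 3, 6, 7], by decide, by decide⟩
def c1 : P8 := ⟨![0, 1, 4, 5, 6, 7, 2, 3], ![0, 1, 6, 7, 2, 3, 4, 5], by decide, by decide⟩

theorem blocks (h : pv s4 v = v + one) {p q : V} {c : P8}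
    (hc : c = c0 ∧ p = d 0 1 + d 2 3 ∧ q = d 2 3 + d 4 5 ∨ c = c1 ∧ p = d 2 3 + d 4 5 ∧ q = d 4 5 + d 6 7) :
    ∃ σ : P8, σ ^ 3 = 1 ∧ Perm.sign σ = 1 ∧ T v * pm s4 * pm σ = pm σ * (T v * pm s4) ∧ pv σ p = q ∧ pv σ q = p + q := by
  obtain ⟨n, h0, h1⟩ := all_dec (P := fun v => pv s4 v = v + one → ∃ n, pv (sw n * c0 * (sw n)⁻¹) v = v ∧
    pv (sw n * c1 * (sw n)⁻¹) v = v) (by decide +kernel) v h
  have h2 : c ^ 3 = 1 ∧ Perm.sign c = 1 ∧ pv (sw n * c * (sw n)⁻¹) v = v ∧ ∀ n,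
      (∀ i, s4 ((sw n * c * (sw n)⁻¹) i) = (sw n * c * (sw n)⁻¹) (s4 i)) ∧
      pv (sw n * c * (sw n)⁻¹) p = q ∧ pv (sw n * c * (sw n)⁻¹) q = p + q := by
    rcases hc with ⟨rfl, rfl, rfl⟩ | ⟨rfl, rfl, rfl⟩
    · exact ⟨by decide +kernel, by decide +kernel, h0, by decide +kernel⟩
    · exact ⟨by decide +kernel, by decide +kernel, h1, by decide +kernel⟩
  refine ⟨_, by rw [conj_pow, h2.1]; simp, by simp [h2.2.1], ?_, (h2.2.2.2 n).2⟩
  rw [← mul_assoc, pm_T', h2.2.2.1, mul_assoc (T v), mul_assoc (T v), ← map_mul, ← map_mul]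
  exact congrArg (fun s => T v * pm s) (Perm.ext (h2.2.2.2 n).1)

end Cfsg.Agent.WA.O8
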