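import Cfsg.Agent.WA.O8B

/-! Module O8T: triality by split octonions. -/

set_option autoImplicit false

namespace Cfsg.Agent.WA.O8

/-- `g = a * a'` with `a'` a conjugate of the involution `a`, and `a` a product `u * u^y` inside the centralizer of `a'`
(such a `g` lifts to involutions in every central extension by a group of order two) -/
def Spl (g : Om) : Prop := ∃ u y k a : Om, a = u * (y * u * y⁻¹) ∧ a * a = 1 ∧ g = a * (k * a * k⁻¹) ∧
  Commute u (k * a * k⁻¹) ∧ Commute y (k * a * k⁻¹)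

noncomputable def b0 : Om := ⟨T (d 0 1), T_mem (sm_d 0 1)⟩

namespace Xt

variable {a c x y : V}

theorem vx (h : x 0 = y 0 ∧ x 1 = y 1 ∧ x 2 = y 2 ∧ x 3 = y 3 ∧ x 4 = y 4 ∧ x 5 = y 5 ∧ x 6 = y 6 ∧ x 7 = y 7) : x = y := by
  obtain ⟨_, _, _, _, _, _, _, _⟩ := h
  ext i; fin_cases i <;> assumption

/-- the Zorn product -/
def zm (x y : V) : V := ![x 0 * y 0 + x 1 * y 4 + x 2 * y 5 + x 3 * y 6, x 0 * y 1 + y 7 * x 1 - (x 5 * y 6 - x 6 * y 5),
  x 0 * y 2 + y 7 * x 2 - (x 6 * y 4 - x 4 * y 6), x 0 * y 3 + y 7 * x 3 - (x 4 * y 5 - x 5 * y 4),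
  y 0 * x 4 + x 7 * y 4 + (x 2 * y 3 - x 3 * y 2), y 0 * x 5 + x 7 * y 5 + (x 3 * y 1 - x 1 * y 3),
  y 0 * x 6 + x 7 * y 6 + (x 1 * y 2 - x 2 * y 1), x 7 * y 7 + x 4 * y 1 + x 5 * y 2 + x 6 * y 3]
def cj (x : V) : V := ![x 7, -x 1, -x 2, -x 3, -x 4, -x 5, -x 6, x 0]
def N (x : V) : F2 := x 0 * x 7 - (x 1 * x 4 + x 2 * x 5 + x 3 * x 6)
def Bz (x y : V) : F2 := x 0 * y 7 + x 7 * y 0 - (x 1 * y 4 + x 4 * y 1 + x 2 * y 5 + x 5 * y 2 + x 3 * y 6 + x 6 * y 3)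
def φ (x : V) : V := ![x 2 + x 3 + x 4, x 0 + x 2 + x 3 + x 4 + x 5 + x 6 + x 7, x 2 + x 4 + x 5 + x 6, x 3 + x 4 + x 6 + x 7,
  x 1 + x 2 + x 3 + x 4 + x 5 + x 6 + x 7, x 2 + x 3 + x 5 + x 6, x 3 + x 4 + x 5 + x 7, x 5 + x 6 + x 7]
def ψ (x : V) : V := ![x 0 + x 1 + x 7, x 0 + x 4 + x 7, x 0 + x 2 + x 5, x 0 + x 2 + x 3 + x 6, x 0 + x 3 + x 5 + x 6,
  x 2 + x 3 + x 5 + x 7, x 2 + x 5 + x 6 + x 7, x 3 + x 6 + x 7]
/-- the unit -/
def u : V := d 0 1 + one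
/-- the product -/
def m (x y : V) : V := ψ (zm (φ x) (φ y))
/-- the conjugation -/
noncomputable def κ : O := r u

theorem zs (x y : V) : (zm x y 0 = x 0 * y 0 + x 1 * y 4 + x 2 * y 5 + x 3 * y 6 ∧ zm x y 1 = x 0 * y 1 + y 7 * x 1 - (x 5 * y 6 - x 6 * y 5) ∧
    zm x y 2 = x 0 * y 2 + y 7 * x 2 - (x 6 * y 4 - x 4 * y 6) ∧ zm x y 3 = x 0 * y 3 + y 7 * x 3 - (x 4 * y 5 - x 5 * y 4) ∧
    zm x y 4 = y 0 * x 4 + x 7 * y 4 + (x 2 * y 3 - x 3 * y 2) ∧ zm x y 5 = y 0 * x 5 + x 7 * y 5 + (x 3 * y 1 - x 1 * y 3) ∧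
    zm x y 6 = y 0 * x 6 + x 7 * y 6 + (x 1 * y 2 - x 2 * y 1) ∧ zm x y 7 = x 7 * y 7 + x 4 * y 1 + x 5 * y 2 + x 6 * y 3) :=
  ⟨rfl, rfl, rfl, rfl, rfl, rfl, rfl, rfl⟩
theorem cs (x : V) : cj x 0 = x 7 ∧ cj x 1 = -x 1 ∧ cj x 2 = -x 2 ∧ cj x 3 = -x 3 ∧ cj x 4 = -x 4 ∧ cj x 5 = -x 5 ∧ cj x 6 = -x 6 ∧
    cj x 7 = x 0 := ⟨rfl, rfl, rfl, rfl, rfl, rfl, rfl, rfl⟩

theorem ψφ : ∀ x, ψ (φ x) = x := all_dec (by decide +kernel)
theorem φψ : ∀ x, φ (ψ x) = x := all_dec (by decide +kernel)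
theorem φi : Function.Injective φ := Function.LeftInverse.injective ψφ
theorem Qφ : ∀ x, Q x = N (φ x) := all_dec (by decide +kernel)
theorem φκ : ∀ x, φ (κ x) = cj (φ x) := all_dec (P := fun x => φ (x + (Q u * B x u) • u) = cj (φ x)) (by decide +kernel)
theorem Qu : Q u = 1 := by decide
theorem φa (x y : V) : φ (x + y) = φ x + φ y := by
  refine vx ⟨?_, ?_, ?_, ?_, ?_, ?_, ?_, ?_⟩ <;> simp [φ] <;> ring
theorem φs (c : F2) (x : V) : φ (c • x) = c • φ x := by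
  refine vx ⟨?_, ?_, ?_, ?_, ?_, ?_, ?_, ?_⟩ <;> simp [φ] <;> ring
theorem Bφ (x y : V) : B x y = Bz (φ x) (φ y) := by
  have := Q_add x y
  simp only [Qφ, φa, N, Pi.add_apply] at this
  rw [Bz]; linear_combination -this
theorem φm (x y : V) : φ (m x y) = zm (φ x) (φ y) := φψ _
theorem um : ∀ x, m u x = x ∧ m x u = x := fun x => by
  refine ⟨φi ?_, φi ?_⟩ <;> rw [φm, show φ u = ![1, 0, 0, 0, 0, 0, 0, 1] by decide] <;>
    refine vx ⟨?_, ?_, ?_, ?_, ?_, ?_, ?_, ?_⟩ <;> simp [zs]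

theorem Qm (x y : V) : Q (m x y) = Q x * Q y := by simp only [Qφ, φm, N, zs]; ring
theorem adj (x y z : V) : B (m x y) z = B x (m z (κ y)) := by simp only [Bφ, φm, φκ, Bz, zs, cs]; ring
theorem ids (a x y : V) (c : F2) : m a (x + y) = m a x + m a y ∧ m (x + y) a = m x a + m y a ∧ m a (c • x) = c • m a x ∧ m (c • x) a = c • m x a ∧
    κ (m x y) = m (κ y) (κ x) ∧ m (m x a) (κ a) = Q a • x ∧ m a (m (κ a) x) = Q a • x ∧ m (m a (m x y)) a = m (m a x) (m y a) ∧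
    m (m a x) a + Q a • κ x = B (κ x) a • a := by
  refine ⟨φi ?_, φi ?_, φi ?_, φi ?_, φi ?_, φi ?_, φi ?_, φi ?_, φi ?_⟩ <;> simp only [φm, φa, φs, φκ, Qφ, Bφ] <;>
    generalize φ a = a, φ x = x, φ y = y <;> refine vx ⟨?_, ?_, ?_, ?_, ?_, ?_, ?_, ?_⟩ <;>
    simp only [zs, cs, N, Bz, Pi.add_apply, Pi.smul_apply, smul_eq_mul] <;> ring

noncomputable def L (ha : Q a = 1) : O := mkO ⟨⟨m a, fun x y => (ids a x y 0).1⟩, fun c x => (ids a x x c).2.2.1⟩ fun x =>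
  (Qm a x).trans (by rw [ha, one_mul])
noncomputable def R (ha : Q a = 1) : O := mkO ⟨⟨(m · a), fun x y => (ids a x y 0).2.1⟩, fun c x => (ids a x x c).2.2.2.1⟩ fun x =>
  (Qm x a).trans (by rw [ha, mul_one])

theorem RL (ha : Q a = 1) : r a * κ = R ha * L ha := O.ext' fun x => by
  have := (ids a x x 0).2.2.2.2.2.2.2.2
  rw [ha, one_smul] at this
  rw [O.mul_apply, r_app ha, ← this, add_comm, add_cancel']; rfl

theorem κκ (x : V) : κ (κ x) = x := by rw [← O.mul_apply, κ, r_sq]; rfl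
theorem κu : κ u = u := r_fix (B_self u)

/-- the triality group -/
def Tri : Subgroup (O × O × O) where
  carrier := {t | ∀ x y, t.1 (m x y) = m (t.2.1 x) (t.2.2 y)}
  one_mem' := fun _ _ => rfl
  mul_mem' := fun {s t} hs ht x y => (congrArg s.1 (ht x y)).trans (hs _ _)
  inv_mem' := fun {t} ht x y => O.inj t.1 (by rw [ht]; exact (O.apply_inv _ _).trans (by congr 1 <;> exact (O.apply_inv _ _).symm))

variable {t : O × O × O}

theorem mou (ha : Q a = 1) : (r a * κ, L ha, R ha) ∈ Tri := fun x y => by rw [RL ha]; exact (ids a x y 0).2.2.2.2.2.2.2.1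

theorem key (ht : t ∈ Tri) (h : t.1 u = u) : Q (t.2.2 u) = 1 ∧ (∀ x, t.2.1 x = m (t.1 x) (κ (t.2.2 u))) ∧ ∀ y, t.2.2 y = m (t.2.2 u) (t.1 y) := by
  have hc : Q (t.2.2 u) = 1 := (O.Q_map _ _).trans Qu
  have h1 : ∀ x, t.2.1 x = m (t.1 x) (κ (t.2.2 u)) := fun x => by
    rw [← (um x).2, ht, (um x).2, (ids _ _ x 0).2.2.2.2.2.1, hc, one_smul]
  refine ⟨hc, h1, fun y => ?_⟩
  nth_rewrite 2 [← (um y).1]
  rw [ht, h1, h, (um _).1, (ids _ _ y 0).2.2.2.2.2.2.1, hc, one_smul]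

theorem inj1 (ht : t ∈ Tri) (h : t.1 = 1) : t = 1 := by
  obtain ⟨k1, k2, k3⟩ := key ht (by rw [h]; rfl)
  have k : ∀ i j, zm (e i) (e j) = zm (zm (e i) (cj (φ (t.2.2 u)))) (zm (φ (t.2.2 u)) (e j)) := fun i j => by
    simpa only [k2, k3 (ψ _), h, O.one_apply, φm, φψ, φκ] using congrArg φ (ht (ψ (e i)) (ψ (e j)))
  have : t.2.2 u = u := φi (all_dec (P := fun c => N c = 1 → zm (e 1) (e 4) = zm (zm (e 1) (cj c)) (zm c (e 4)) →
    zm (e 2) (e 5) = zm (zm (e 2) (cj c)) (zm c (e 5)) → c = φ u) (by decide +kernel) _ (Qφ _ ▸ k1) (k 1 4) (k 2 5))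
  exact Prod.ext h (Prod.ext (O.ext' fun x => by rw [k2, this, h, κu, (um _).2]; rfl) (O.ext' fun x => by rw [k3, this, h, (um _).1]; rfl))

theorem nκ (ht : t ∈ Tri) : t.1 ≠ κ := fun h => by
  obtain ⟨k1, k2, k3⟩ := key ht (by rw [h, κu])
  have k : ∀ i j, cj (zm (e i) (e j)) = zm (zm (cj (e i)) (cj (φ (t.2.2 u)))) (zm (φ (t.2.2 u)) (cj (e j))) := fun i j => by
    simpa only [k2, k3 (ψ _), h, φm, φψ, φκ] using congrArg φ (ht (ψ (e i)) (ψ (e j)))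
  exact all_dec (P := fun c => N c = 1 → cj (zm (e 1) (e 4)) = zm (zm (cj (e 1)) (cj c)) (zm c (cj (e 4))) →
    cj (zm (e 1) (e 2)) = zm (zm (cj (e 1)) (cj c)) (zm c (cj (e 2))) → False) (by decide +kernel) _ (Qφ _ ▸ k1) (k 1 4) (k 1 2)

theorem sym1 (ht : t ∈ Tri) : (t.2.1, t.1, κ * t.2.2 * κ) ∈ Tri := fun z w => add_eq_zero_V.1 (B_nondeg _ fun i => by
  rw [← O.apply_inv t.2.1 (e i), B_add, O.B_map, B_comm _ (t.2.1 _), O.mul_apply, O.mul_apply, ← adj, ← ht, O.B_map, adj, B_comm z,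
    CharTwo.add_self_eq_zero])

theorem sym2 (ht : t ∈ Tri) : (κ * t.1 * κ, κ * t.2.2 * κ, κ * t.2.1 * κ) ∈ Tri := fun x y => by
  simp only [O.mul_apply]
  rw [(ids x x y 0).2.2.2.2.1, ht, (ids x _ _ 0).2.2.2.2.1]

noncomputable def p1 : Tri →* O := (MonoidHom.fst _ _).comp Tri.subtype

theorem le1 : Om ≤ p1.range := Om_ind fun a ha => ⟨⟨_, mou ha⟩ * ⟨_, mou (a := d 0 1) (by decide)⟩⁻¹, by
  show r a * κ * (r (d 0 1) * κ)⁻¹ = _
  rw [mul_inv_rev, r_inv]; group⟩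

theorem mem1 (ht : t ∈ Tri) : t.1 ∈ Om := (dich t.1 Qu).resolve_right fun h => by
  obtain ⟨s, hs⟩ := le1 h
  exact nκ (mul_mem (inv_mem ht) s.2) (inv_mul_eq_iff_eq_mul.2 hs)

theorem κi : κ⁻¹ = κ := r_inv u

theorem cκ {g : O} : κ * g * κ = 1 ↔ g = 1 := by nth_rewrite 2 [← κi]; exact conj_eq_one_iff

theorem inj2 (ht : t ∈ Tri) (h : t.2.1 = 1) : t = 1 := inj1 ht (congrArg (·.2.1) (inj1 (sym1 ht) h))

theorem eqv (p : Tri →* O) (h1 : ∀ t, p t ∈ Om) (h2 : ∀ t, p t = 1 → t.1 = 1) : ∃ E : Tri ≃* Om, ∀ t, (E t).1 = p t := by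
  have k : ∀ p : Tri →* O, ∀ h1 : ∀ t, p t ∈ Om, (∀ t, p t = 1 → t.1 = 1) → Function.Injective (p.codRestrict Om h1) := fun p h1 h2 =>
    (injective_iff_map_eq_one _).2 fun t h => Subtype.ext (h2 t (congrArg Subtype.val h))
  exact ⟨MulEquiv.ofBijective _ ((Nat.bijective_iff_injective_and_card _).2 ⟨k p h1 h2, Nat.card_eq_of_bijective _
    ⟨k p1 (fun t => mem1 t.2) fun t => inj1 t.2, fun g => (le1 g.2).imp fun _ h => Subtype.ext h⟩⟩), fun _ => rfl⟩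

/-! words in the reflections -/

def pn (n : ℕ) : Bool := n.testBit 0 ^^ n.testBit 1 ^^ n.testBit 2 ^^ n.testBit 3 ^^ n.testBit 4 ^^ n.testBit 5 ^^ n.testBit 6 ^^ n.testBit 7
def act (w : List ℕ) (x : ℕ) : ℕ := w.foldr (fun a x => if (pn x && pn a) ^^ pn (x &&& a) then x ^^^ a else x) x
noncomputable def W (w : List ℕ) : O := (w.map fun n => r (dec n)).prod
def ok (w : List ℕ) : Prop := ∀ n ∈ w, Q (dec n) = 1
def weq (w w' : List ℕ) : Bool := (List.range 8).all fun i => act w (2 ^ i) == act w' (2 ^ i)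

theorem smd (n : ℕ) : sm (dec n) = if pn n then 1 else 0 := by
  show (if n.testBit 0 then (1 : F2) else 0) + (if n.testBit 1 then 1 else 0) + (if n.testBit 2 then 1 else 0) + (if n.testBit 3 then 1 else 0) +
    (if n.testBit 4 then 1 else 0) + (if n.testBit 5 then 1 else 0) + (if n.testBit 6 then 1 else 0) + (if n.testBit 7 then 1 else 0) = _
  unfold pn
  generalize n.testBit 0 = a, n.testBit 1 = b, n.testBit 2 = c, n.testBit 3 = d, n.testBit 4 = e, n.testBit 5 = f, n.testBit 6 = g,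
    n.testBit 7 = h
  revert a b c d e f g h; decide +kernel

theorem Bd (x y : ℕ) : B (dec x) (dec y) = if (pn x && pn y) ^^ pn (x &&& y) then 1 else 0 := by
  have : dot (dec x) (dec y) = sm (dec (x &&& y)) := by
    rw [dot_eq, sm_eq]
    exact Finset.sum_congr rfl fun i _ => by simp only [dec, Nat.testBit_and]; cases x.testBit i <;> cases y.testBit i <;> rfl
  rw [B, this, smd, smd, smd]
  cases pn x <;> cases pn y <;> cases pn (x &&& y) <;> rfl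

theorem Wap : ∀ {w : List ℕ}, ok w → ∀ x, W w (dec x) = dec (act w x)
  | [], _, _ => rfl
  | a :: w, h, x => by
    show r (dec a) (W w (dec x)) = dec (if (pn (act w x) && pn a) ^^ pn (act w x &&& a) then act w x ^^^ a else act w x)
    rw [Wap fun n hn => h n (.tail _ hn), r_app (h a (.head _)), Bd]
    split_ifs
    · ext i; simp only [dec, Nat.testBit_xor, one_smul, Pi.add_apply]; cases (act w x).testBit i <;> cases a.testBit i <;> rfl
    · rw [zero_smul, add_zero]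

theorem Weq {w w' : List ℕ} (h : ok w) (h' : ok w') (k : weq w w' = true) : W w = W w' := O.ext fun i => by
  rw [show e i = dec (2 ^ i.1) by revert i; decide, Wap h, Wap h', beq_iff_eq.1 (List.all_eq_true.1 k i (List.mem_range.2 i.2))]

theorem Wa (w w' : List ℕ) : W (w ++ w') = W w * W w' := by simp [W]
theorem Wr (w : List ℕ) : W w.reverse = (W w)⁻¹ := by simp [W, List.prod_inv_reverse, Function.comp_def, r_inv]
theorem oka {w w' : List ℕ} : ok (w ++ w') ↔ ok w ∧ ok w' := List.forall_mem_append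
theorem okr {w : List ℕ} : ok w.reverse ↔ ok w := by simp [ok]

theorem Wm : ∀ {w : List ℕ}, ok w → w.length % 2 = 0 → W w ∈ Om
  | [], _, _ => one_mem _
  | [_], _, h => absurd h (by simp)
  | a :: b :: w, h, k => by
    show r (dec a) * (r (dec b) * W w) ∈ Om
    rw [← mul_assoc]
    exact mul_mem (rr_mem (h a (by simp)) (h b (by simp))) (Wm (fun n hn => h n (by simp [hn])) (by simp at k; omega))

def chk (G U Y K : List ℕ) : Bool :=
  let A := U ++ (Y ++ U ++ Y.reverse)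
  let A' := K ++ A ++ K.reverse
  U.length % 2 == 0 && Y.length % 2 == 0 && K.length % 2 == 0 && weq (A ++ A) [] && weq G (A ++ A') && weq (U ++ A') (A' ++ U) &&
    weq (Y ++ A') (A' ++ Y)

theorem spl {g : Om} (G U Y K : List ℕ) (hg : g.1 = W G) (h : (∀ n ∈ G ++ U ++ Y ++ K, Q (dec n) = 1) ∧ chk G U Y K = true) : Spl g := by
  simp only [chk, Bool.and_eq_true, beq_iff_eq] at h
  obtain ⟨o, ⟨⟨⟨⟨⟨h1, h2⟩, h3⟩, h4⟩, h5⟩, h6⟩, h7⟩ := h
  replace o : ((ok G ∧ ok U) ∧ ok Y) ∧ ok K := by simpa only [oka] using (show ok _ from o)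
  have n : ok [] := nofun
  refine ⟨⟨_, Wm o.1.1.2 h1⟩, ⟨_, Wm o.1.2 h2⟩, ⟨_, Wm o.2 h3⟩, _, rfl, Subtype.ext ?_, Subtype.ext (hg.trans ?_), Subtype.ext ?_, Subtype.ext ?_⟩
  on_goal 1 => have := Weq (by simp only [oka, okr, o, and_self]) n h4
  on_goal 2 => have := Weq o.1.1.1 (by simp only [oka, okr, o, and_self]) h5
  on_goal 3 => have := Weq (by simp only [oka, okr, o, and_self]) (by simp only [oka, okr, o, and_self]) h6
  on_goal 4 => have := Weq (by simp only [oka, okr, o, and_self]) (by simp only [oka, okr, o, and_self]) h7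
  all_goals simp only [Wa, Wr] at this; exact this

end Xt

open Xt

theorem r_not_mem {a : V} (ha : Q a = 1) : r a ∉ Om := fun h => by
  obtain ⟨t, ht⟩ := le1 ((mul_mem_cancel_left h).1 (rr_mem ha Qu))
  exact nκ t.2 ht

theorem tri : ∃ (τ₁ τ₂ : Om ≃* Om) (x : Om), b0 * τ₁ b0 = τ₂ b0 ∧ Commute x b0 ∧ Commute x (τ₁ b0) ∧
    Spl x ∧ Spl (x * b0) ∧ Spl (x * τ₁ b0) ∧ Spl (x * τ₂ b0) := by
  obtain ⟨E1, e1⟩ := eqv p1 (fun t => mem1 t.2) fun t => inj1 t.2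
  obtain ⟨E2, e2⟩ := eqv ((MonoidHom.fst _ _).comp ((MonoidHom.snd _ _).comp Tri.subtype)) (fun t => mem1 (sym1 t.2)) fun t => inj2 t.2
  obtain ⟨E3, e3⟩ := eqv ((MonoidHom.snd _ _).comp ((MonoidHom.snd _ _).comp Tri.subtype)) (fun t => by
    have := (Subgroup.Normal.mem_comm_iff inferInstance).1 (mem1 (sym1 (sym2 t.2)))
    rwa [← mul_assoc, κ, r_sq, one_mul] at this)
    fun t h => inj1 t.2 (cκ.1 (congrArg (·.1) (inj2 (sym2 t.2) (cκ.2 h))))
  have ha : Q (d 0 1) = 1 := by decide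
  have hb : E1 ⟨_, mou ha⟩ = b0 := Subtype.ext ((e1 _).trans (T_d (by decide)).symm)
  have k : ∀ {g : O} {w : List ℕ}, ok w → (∀ i : Fin 8, g (e i) = dec (act w (2 ^ i.1))) → g = W w := fun h k => O.ext fun i => by
    rw [k, show e i = dec (2 ^ i.1) by revert i; decide, Wap h]
  have w0 : b0.1 = W [3, 252] := (T_d (i := 0) (j := 1) (by decide)).trans (by simp only [W, List.map, List.prod_cons, List.prod_nil, mul_one]; congr 2 <;> decide)
  have w1 : (E1.symm.trans E2 b0).1 = W [187, 68, 18, 222, 72, 123, 17, 34] := by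
    rw [← hb, MulEquiv.trans_apply, E1.symm_apply_apply, e2]
    exact k (by unfold ok; decide) (show ∀ i : Fin 8, m (d 0 1) (e i) = _ by decide +kernel)
  have w2 : (E1.symm.trans E3 b0).1 = W [129, 6, 96, 231, 133, 208, 168, 253] := by
    rw [← hb, MulEquiv.trans_apply, E1.symm_apply_apply, e3]
    exact k (by unfold ok; decide) (show ∀ i : Fin 8, m (e i) (d 0 1) = _ by decide +kernel)
  refine ⟨E1.symm.trans E2, E1.symm.trans E3, ⟨W [129, 159, 126, 96], Wm (by unfold ok; decide) rfl⟩, Subtype.ext ?_, Subtype.ext ?_, Subtype.ext ?_,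
    spl _ [252, 3] [237, 252] [235, 10] rfl (by decide +kernel),
    spl ([129, 159, 126, 96] ++ [3, 252]) [239, 13] [243, 239] [5, 250] (by rw [Wa, ← w0]; rfl) (by decide +kernel),
    spl ([129, 159, 126, 96] ++ [187, 68, 18, 222, 72, 123, 17, 34]) [65, 10] [66, 3] [17, 34, 63, 243] (by rw [Wa, ← w1]; rfl) (by decide +kernel),
    spl ([129, 159, 126, 96] ++ [129, 6, 96, 231, 133, 208, 168, 253]) [146, 38] [50, 146] [207, 183] (by rw [Wa, ← w2]; rfl)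
      (by decide +kernel)⟩ <;>
  simp only [Subgroup.coe_mul, w0, w1, w2, ← Wa] <;> exact Weq (by unfold ok; decide) (by unfold ok; decide) (by decide +kernel)

end Cfsg.Agent.WA.O8
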