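import Mathlib

/-! Quadratic pairs: identities for two square-zero elements of a ring. -/

set_option autoImplicit false

namespace Cfsg.Agent.WA.Qd

section ring

variable {E : Type*} [Ring E] {a b : E}

/-- the central element of the ring generated by two square-zero elements -/
def tt (a b : E) : E := a * b + b * a

theorem tt_comm (a b : E) : tt a b = tt b a := add_comm _ _

theorem sq' (ha : a * a = 0) (x : E) : a * (a * x) = 0 := by rw [← mul_assoc, ha, zero_mul]

theorem tt_mul (ha : a * a = 0) : tt a b * a = a * b * a := by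
  simp [tt, add_mul, mul_assoc, ha]

theorem mul_tt (ha : a * a = 0) : a * tt a b = a * b * a := by
  simp [tt, mul_add, mul_assoc, sq' ha]

theorem tt_mul' (hb : b * b = 0) : tt a b * b = b * a * b := by rw [tt_comm, tt_mul hb]

theorem mul_tt' (hb : b * b = 0) : b * tt a b = b * a * b := by rw [tt_comm, mul_tt hb]

theorem comm_tt (ha : a * a = 0) : Commute (tt a b) a := (tt_mul ha).trans (mul_tt ha).symm

theorem comm_tt' (hb : b * b = 0) : Commute (tt a b) b := (tt_mul' hb).trans (mul_tt' hb).symm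

theorem cm_eq (ha : a * a = 0) (hb : b * b = 0) (h1 : a * b * a = 0) (h2 : b * a * b = 0) :
    (1 + a) * (1 + b) * (1 - a) * (1 - b) = 1 + (a * b - b * a) := by
  have h3 : ∀ x, a * (b * (a * x)) = 0 := fun x => by rw [← mul_assoc, ← mul_assoc, h1, zero_mul]
  rw [mul_assoc] at h1 h2
  simp only [mul_add, add_mul, mul_sub, sub_mul, mul_assoc, mul_one, one_mul, ha, hb, sq' ha,
    sq' hb, h1, h2, h3, mul_zero, zero_mul]
  abel

theorem cm_sq (ha : a * a = 0) (hb : b * b = 0) (h1 : a * b * a = 0) (h2 : b * a * b = 0) :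
    (a * b - b * a) * (a * b - b * a) = 0 := by
  have h3 : ∀ x, a * (b * (a * x)) = 0 := fun x => by rw [← mul_assoc, ← mul_assoc, h1, zero_mul]
  have h4 : ∀ x, b * (a * (b * x)) = 0 := fun x => by rw [← mul_assoc, ← mul_assoc, h2, zero_mul]
  simp only [mul_sub, sub_mul, mul_assoc, sq' ha, sq' hb, h3, h4, mul_zero, sub_self]

theorem tt_conj (ha : a * a = 0) (hb : b * b = 0) :
    tt a ((1 + b) * a * (1 - b)) = -(tt a b * tt a b) := by
  simp only [tt, mul_add, add_mul, mul_sub, sub_mul, mul_assoc, mul_one, one_mul, ha, hb, sq' ha,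
    sq' hb, mul_zero, zero_mul]
  abel

theorem five (ha : a * a = 0) (hb : b * b = 0) (h1 : tt a b * tt a b * a = 0)
    (h2 : tt a b * tt a b * b = 0) :
    (1 + b) * a * (1 - b) * ((1 - b) * a * (1 + b)) * ((1 + b) * a * (1 - b)) = 0 ∧
    (1 - b) * a * (1 + b) * ((1 + b) * a * (1 - b)) * ((1 - b) * a * (1 + b)) = 0 ∧
    (1 - b) * a * (1 + b) * ((1 + b) * a * (1 - b)) -
      (1 + b) * a * (1 - b) * ((1 - b) * a * (1 + b)) = 4 * (a * b * a) := by
  have h3 : a * (b * (a * (b * a))) = 0 := by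
    simpa only [tt, mul_add, add_mul, mul_assoc, ha, sq' ha, sq' hb, mul_zero, add_zero,
      zero_add] using h1
  have h4 : b * (a * (b * (a * b))) = 0 := by
    simpa only [tt, mul_add, add_mul, mul_assoc, hb, sq' ha, sq' hb, mul_zero, add_zero,
      zero_add] using h2
  have h5 : ∀ x, a * (b * (a * (b * (a * x)))) = 0 := fun x => by
    simpa only [mul_assoc, zero_mul] using congrArg (· * x) h3
  have h6 : ∀ x, b * (a * (b * (a * (b * x)))) = 0 := fun x => by
    simpa only [mul_assoc, zero_mul] using congrArg (· * x) h4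
  refine ⟨?_, ?_, ?_⟩ <;>
  simp only [mul_add, add_mul, mul_sub, sub_mul, mul_assoc, mul_one, one_mul, ha, hb, sq' ha,
    sq' hb, h3, h4, h5, h6, mul_zero, zero_mul, show (4 : E) = 1 + 1 + 1 + 1 by norm_num] <;>
  abel

theorem tt_two (ha : a * a = 0) (hb : b * b = 0) :
    tt ((1 + a) * b * (1 - a)) ((1 + b) * a * (1 - b)) =
      (1 - tt a b) * (1 - tt a b) * tt a b := by
  simp only [tt, mul_add, add_mul, mul_sub, sub_mul, mul_assoc, mul_one, one_mul, ha, hb, sq' ha,
    sq' hb, mul_zero, zero_mul]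
  abel

theorem two_left (ha : a * a = 0) (hb : b * b = 0) :
    a * ((1 + a) * b * (1 - a) * ((1 + b) * a * (1 - b))) * (1 + b) =
      (1 - tt a b) * (tt a b * a) := by
  simp only [tt, mul_add, add_mul, mul_sub, sub_mul, mul_assoc, mul_one, one_mul, ha, hb, sq' ha,
    sq' hb, mul_zero, zero_mul]
  abel

theorem two_right (ha : a * a = 0) (hb : b * b = 0) :
    (1 - a) * ((1 + a) * b * (1 - a) * ((1 + b) * a * (1 - b))) * b =
      (1 - tt a b) * (tt a b * b) := by
  simp only [tt, mul_add, add_mul, mul_sub, sub_mul, mul_assoc, mul_one, one_mul, ha, hb, sq' ha,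
    sq' hb, mul_zero, zero_mul]
  abel

end ring

section nf

variable {Z E : Type*} [CommRing Z] [Ring E] [Algebra Z E] {a b : E} {τ : Z}

/-- normal form of determinant one -/
def NF (a b : E) (τ : Z) (g : E) : Prop :=
  ∃ r₀ r₁ r₂ r₃ : Z, g = r₀ • 1 + r₁ • a + r₂ • b + r₃ • (a * b) ∧
    r₀ ^ 2 + r₀ * r₃ * τ - r₁ * r₂ * τ = 1

theorem NF.one : NF a b τ (1 : E) := ⟨1, 0, 0, 0, by simp, by simp⟩

theorem NF.mul_a (ha : a * a = 0) (ht : b * a = τ • 1 - a * b) {g : E} (h : NF a b τ g) (c : Z) :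
    NF a b τ (g * (1 + c • a)) := by
  obtain ⟨r₀, r₁, r₂, r₃, rfl, h⟩ := h
  refine ⟨r₀ + c * r₂ * τ, r₁ + c * r₀ + c * r₃ * τ, r₂, r₃ - c * r₂, ?_, by linear_combination h⟩
  simp only [mul_add, add_mul, mul_one, one_mul, smul_mul_assoc, mul_smul_comm, mul_assoc, ha, ht,
    mul_sub, sq' ha, smul_zero, zero_mul]
  module

theorem NF.mul_b (hb : b * b = 0) {g : E} (h : NF a b τ g) (c : Z) :
    NF a b τ (g * (1 + c • b)) := by
  obtain ⟨r₀, r₁, r₂, r₃, rfl, h⟩ := h
  refine ⟨r₀, r₁, r₂ + c * r₀, r₃ + c * r₁, ?_, by linear_combination h⟩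
  simp only [mul_add, add_mul, mul_one, one_mul, smul_mul_assoc, mul_smul_comm, mul_assoc, hb,
    mul_zero, smul_zero, zero_mul]
  module

/-- an element of odd prime order commuting with `a`, on the part where `τ` is invertible -/
theorem NF.of_comm (ha : a * a = 0) (hb : b * b = 0) (ht : b * a = τ • 1 - a * b) {g : E}
    (h : NF a b τ g) (hc : g * a = a * g) {p : ℕ} (hp : Odd p) (h0 : (p : Z) = 0) (hg : g ^ p = 1)
    {ε s : Z} (hε : ε * ε = ε) (hs : s * τ = ε) : ∃ r : Z, ε • g = ε • (1 + r • a) := by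
  obtain ⟨r₀, r₁, r₂, r₃, rfl, h⟩ := h
  have ht' : ∀ x, b * (a * x) = τ • x - a * (b * x) := fun x => by
    rw [← mul_assoc, ht, sub_mul, smul_mul_assoc, one_mul, mul_assoc]
  have h1 : (r₂ * τ) • (1 : E) - (2 * r₂) • (a * b) + (r₃ * τ) • a = 0 := by
    simp only [mul_add, add_mul, mul_one, one_mul, smul_mul_assoc, mul_smul_comm, mul_assoc, ha, ht,
      mul_sub, sq' ha, smul_zero, zero_mul] at hc
    linear_combination (norm := module) hc
  have h2 : (r₂ * τ) • a = 0 := by
    simpa only [mul_add, mul_sub, mul_smul_comm, mul_one, ha, sq' ha, smul_zero, sub_zero,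
      add_zero, mul_zero, zero_mul] using congrArg (a * ·) h1
  have h3 : (r₂ * τ) • (a * b) = 0 := by rw [← smul_mul_assoc, h2, zero_mul]
  have h4 : (r₂ * τ * τ) • (1 : E) + (r₃ * τ * τ) • a = 0 := by
    linear_combination (norm := module) τ • h1 + (2 : Z) • h3
  have h5 : (r₃ * τ * τ * τ) • a = 0 := by
    have := congrArg (fun x => a * (b * x)) h4
    simp only [mul_add, mul_smul_comm, mul_one, mul_zero, ht, mul_sub, sq' ha] at this
    linear_combination (norm := module) this - τ • h3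
  have h6 : (r₂ * τ * τ * τ) • (1 : E) = 0 := by linear_combination (norm := module) τ • h4 - h5
  have h7 : (r₃ * τ * τ * τ * τ) • (1 : E) = 0 := by
    have e1 := congrArg (b * ·) h5
    have e2 := congrArg (· * b) h5
    simp only [mul_smul_comm, smul_mul_assoc, mul_zero, zero_mul, ht] at e1 e2
    linear_combination (norm := module) e1 + e2
  have e3 : ε = s * s * s * (τ * τ * τ) := by
    rw [show s * s * s * (τ * τ * τ) = (s * τ) * (s * τ) * (s * τ) by ring, hs, hε, hε]
  have e4 : ε = s * s * s * s * (τ * τ * τ * τ) := by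
    rw [show s * s * s * s * (τ * τ * τ * τ) = (s * τ) * (s * τ) * (s * τ) * (s * τ) by ring, hs,
      hε, hε, hε]
  have k2 : (ε * r₂) • (1 : E) = 0 := by
    rw [e3]; linear_combination (norm := module) (s * s * s) • h6
  have k3 : (ε * r₃) • (1 : E) = 0 := by
    rw [e4]; linear_combination (norm := module) (s * s * s * s) • h7
  have k2' : (ε * r₂) • b = 0 := by simpa using congrArg (· * b) k2
  have k3' : (ε * r₃) • (a * b) = 0 := by simpa using congrArg (· * (a * b)) k3
  have k4 : ε • (r₀ • 1 + r₁ • a + r₂ • b + r₃ • (a * b)) = ε • (r₀ • 1 + r₁ • a) := by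
    linear_combination (norm := module) k2' + k3'
  have k5 : (ε * r₀ ^ 2) • (1 : E) = ε • 1 := by
    have : ε * r₀ ^ 2 = ε - (r₀ * τ) * (ε * r₃) + (r₁ * τ) * (ε * r₂) := by linear_combination ε * h
    rw [this]
    linear_combination (norm := module) (r₁ * τ) • k2 - (r₀ * τ) • k3
  have k6 : ∀ n : ℕ, (r₀ • 1 + r₁ • a : E) ^ (n + 1) =
      (r₀ ^ (n + 1)) • 1 + (((n + 1 : ℕ) : Z) * r₀ ^ n * r₁) • a := fun n => by
    induction n with
    | zero => simp
    | succ n ih =>
      rw [pow_succ, ih]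
      simp only [mul_add, add_mul, mul_one, one_mul, smul_mul_assoc, mul_smul_comm, ha, smul_zero, zero_mul]
      push_cast
      module
  have k7 : ∀ n : ℕ, ε ^ (n + 1) = ε := fun n => by
    induction n with
    | zero => simp
    | succ n ih => rw [pow_succ, ih, hε]
  have k8 : ∀ n : ℕ, (ε * r₀ ^ (2 * n)) • (1 : E) = ε • 1 := fun n => by
    induction n with
    | zero => simp
    | succ n ih =>
      rw [show ε * r₀ ^ (2 * (n + 1)) = r₀ ^ (2 * n) * (ε * r₀ ^ 2) by ring, mul_smul, k5, ← mul_smul,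
        mul_comm, ih]
  obtain ⟨n, rfl⟩ := hp
  have k9 := congrArg (· ^ (2 * n + 1)) k4
  simp only [smul_pow, hg, k7, k6, h0, zero_mul, zero_smul, add_zero] at k9
  refine ⟨r₁, ?_⟩
  rw [k4]
  have := congrArg (r₀ • ·) (k8 n)
  simp only [← mul_smul] at this k9
  rw [smul_add, smul_add, ← mul_smul, mul_comm ε r₀, ← this, k9]
  congr 2; ring

end nf

end Cfsg.Agent.WA.Qd
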