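import Cfsg.Agent.WA.Qd1
import Cfsg.Agent.H5.QuadSL2
import Cfsg.Agent.H8.SylowIn

/-! Quadratic pairs: elements of minimal rank, the nilpotent case. -/

set_option autoImplicit false
set_option linter.unusedSectionVars false

namespace Cfsg.Agent.WA.Qd

open Subgroup Module

section rk

variable {F V : Type*} [Field F] [AddCommGroup V] [Module F V] [Finite V]

/-- the rank -/
noncomputable def rk (e : End F V) : ℕ := finrank F (LinearMap.range e)

theorem rk_mul_left (a b : End F V) : rk (a * b) ≤ rk a :=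
  Submodule.finrank_mono (LinearMap.range_comp_le_range b a)

theorem rk_mul_right (a b : End F V) : rk (a * b) ≤ rk b := by
  rw [rk, End.mul_eq_comp, LinearMap.range_comp]
  exact Submodule.finrank_map_le _ _

theorem rk_add (a b : End F V) : rk (a + b) ≤ rk a + rk b :=
  (Submodule.finrank_mono (LinearMap.range_add_le a b)).trans
    (Submodule.finrank_add_le_finrank_add_finrank _ _)

theorem rk_neg (a : End F V) : rk (-a) = rk a := by rw [rk, LinearMap.range_neg]; rfl

theorem rk_eq_zero {a : End F V} (h : rk a = 0) : a = 0 :=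
  LinearMap.range_eq_bot.1 (Submodule.finrank_eq_zero.1 h)

theorem rk_two {a b : End F V} (h : a * b * a = 0) : rk (a * b) + rk (b * a) ≤ rk b := by
  have h1 := LinearMap.finrank_range_add_finrank_ker (a.domRestrict (LinearMap.range b))
  rw [LinearMap.range_domRestrict, ← LinearMap.range_comp] at h1
  have h2 : LinearMap.range (b * a) ≤
      (LinearMap.ker (a.domRestrict (LinearMap.range b))).map (Submodule.subtype _) := by
    rintro _ ⟨v, rfl⟩
    exact ⟨⟨b (a v), a v, rfl⟩, congrArg (fun f : End F V => f v) h, rfl⟩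
  have h3 := Submodule.finrank_mono h2
  rw [Submodule.finrank_map_subtype_eq] at h3
  exact (Nat.add_le_add_left h3 _).trans h1.le

/-- equal ranks force equal ranges -/
theorem exists_mul_eq {a b : End F V} (h : rk a ≤ rk (a * b)) : ∃ c, a = a * b * c := by
  have h1 : LinearMap.range (a * b) = LinearMap.range a :=
    Submodule.eq_of_le_of_finrank_le (LinearMap.range_comp_le_range b a) h
  obtain ⟨c, hc⟩ := Module.projective_lifting_property (a * b).rangeRestrict
    (LinearMap.codRestrict _ a fun v => h1 ▸ ⟨v, rfl⟩) (a * b).surjective_rangeRestrict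
  exact ⟨c, LinearMap.ext fun v => (congrArg Subtype.val (LinearMap.congr_fun hc v)).symm⟩

/-- equal ranks force equal kernels -/
theorem exists_mul_eq' {a b : End F V} (h : rk a ≤ rk (b * a)) : ∃ c, a = c * (b * a) := by
  have h1 : LinearMap.ker a = LinearMap.ker (b * a) := by
    refine Submodule.eq_of_le_of_finrank_le (LinearMap.ker_le_ker_comp a b) ?_
    have e1 := LinearMap.finrank_range_add_finrank_ker a
    have e2 := LinearMap.finrank_range_add_finrank_ker (b * a)
    unfold rk at h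
    omega
  obtain ⟨c, hc⟩ := LinearMap.exists_extend (((LinearMap.ker (b * a)).liftQ a h1.ge).comp
    (b * a).quotKerEquivRange.symm.toLinearMap)
  refine ⟨c, LinearMap.ext fun v => ?_⟩
  have := LinearMap.congr_fun hc ⟨(b * a) v, LinearMap.mem_range_self _ v⟩
  rw [LinearMap.comp_apply, LinearMap.comp_apply, LinearEquiv.coe_coe,
    LinearMap.quotKerEquivRange_symm_apply_image] at this
  exact this.symm

end rk

variable {p : ℕ} [hp : Fact p.Prime] {V : Type*} [AddCommGroup V] [Module (ZMod p) V] [Finite V]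
  {Γ : Type*} [Group Γ] [Finite Γ]

variable (p V Γ) in
/-- a faithful module for `G ≤ Γ` with `O_p(G) = 1`; `d` is the least rank of a quadratic element -/
structure Fr where
  ρ : Γ →* End (ZMod p) V
  G : Subgroup Γ
  d : ℕ
  p5 : 5 ≤ p
  inj : Function.Injective ρ
  bs : ∀ x ∈ G, x ≠ 1 → ∃ g ∈ G, ¬ IsPGroup p (closure ({x, g * x * g⁻¹} : Set Γ))
  min : ∀ x ∈ G, x ≠ 1 → (ρ x - 1) * (ρ x - 1) = 0 → d ≤ rk (ρ x - 1)

namespace Fr

variable (f : Fr p V Γ)

def al (x : Γ) : End (ZMod p) V := f.ρ x - 1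

/-- quadratic elements of least rank -/
structure Q (x : Γ) : Prop where
  mem : x ∈ f.G
  ne : x ≠ 1
  sq : f.al x * f.al x = 0
  rk : rk (f.al x) ≤ f.d

theorem rho (x : Γ) : f.ρ x = 1 + f.al x := by simp [al]

theorem al_eq {x : Γ} {a : End (ZMod p) V} (h : f.ρ x = 1 + a) : f.al x = a := by simp [al, h]

theorem al_eq_zero {x : Γ} : f.al x = 0 ↔ x = 1 :=
  ⟨fun h => f.inj (by rw [map_one]; exact sub_eq_zero.1 h), fun h => by simp [al, h]⟩

theorem al_inj {x y : Γ} (h : f.al x = f.al y) : x = y := f.inj (by rw [f.rho, h, ← f.rho])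

theorem rho_inv {x : Γ} (h : f.al x * f.al x = 0) : f.ρ x⁻¹ = 1 - f.al x := by
  have : f.ρ x * (1 - f.al x) = 1 := by rw [f.rho, add_mul, mul_sub, mul_sub, h]; simp
  calc f.ρ x⁻¹ = f.ρ x⁻¹ * (f.ρ x * (1 - f.al x)) := by rw [this, mul_one]
    _ = _ := by rw [← mul_assoc, ← map_mul, inv_mul_cancel, map_one, one_mul]

theorem al_inv {x : Γ} (h : f.al x * f.al x = 0) : f.al x⁻¹ = -f.al x :=
  f.al_eq (by rw [f.rho_inv h, sub_eq_add_neg])

theorem rho_mul_inv (g : Γ) : f.ρ g * f.ρ g⁻¹ = 1 := by rw [← map_mul, mul_inv_cancel, map_one]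

theorem rho_inv_mul (g : Γ) : f.ρ g⁻¹ * f.ρ g = 1 := by rw [← map_mul, inv_mul_cancel, map_one]

theorem al_conj (g x : Γ) : f.al (g * x * g⁻¹) = f.ρ g * f.al x * f.ρ g⁻¹ := by
  rw [al, al, map_mul, map_mul, mul_sub, sub_mul, mul_one, f.rho_mul_inv]

theorem conj_mul (g : Γ) (a b : End (ZMod p) V) :
    f.ρ g * a * f.ρ g⁻¹ * (f.ρ g * b * f.ρ g⁻¹) = f.ρ g * (a * b) * f.ρ g⁻¹ := by
  calc _ = f.ρ g * a * (f.ρ g⁻¹ * f.ρ g) * b * f.ρ g⁻¹ := by noncomm_ring
    _ = _ := by rw [f.rho_inv_mul]; noncomm_ring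

theorem rho_pow {x : Γ} (h : f.al x * f.al x = 0) (n : ℕ) :
    f.ρ (x ^ n) = 1 + (n : ZMod p) • f.al x := by
  induction n with
  | zero => simp
  | succ n ih =>
    rw [pow_succ, map_mul, ih, f.rho x]
    simp only [mul_add, add_mul, mul_one, one_mul, smul_mul_assoc, h, smul_zero]
    push_cast
    module

theorem pow_p {x : Γ} (h : f.al x * f.al x = 0) : x ^ p = 1 :=
  f.inj (by rw [f.rho_pow h]; simp)

include f in
theorem cast_ne {n : ℕ} (h0 : 0 < n) (h5 : n < 5) : (n : ZMod p) ≠ 0 := fun h =>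
  absurd (Nat.le_of_dvd h0 ((ZMod.natCast_eq_zero_iff _ _).1 h)) (by have := f.p5; omega)

include f in
theorem two_ne : (2 : ZMod p) ≠ 0 := by exact_mod_cast f.cast_ne (n := 2) (by omega) (by omega)

include f in
theorem three_ne : (3 : ZMod p) ≠ 0 := by exact_mod_cast f.cast_ne (n := 3) (by omega) (by omega)

include f in
theorem p_ne_two : p ≠ 2 := by have := f.p5; omega

include f in
theorem p_odd : Odd p := hp.out.odd_of_ne_two f.p_ne_two

variable {f}

theorem Q.al_ne {x : Γ} (h : f.Q x) : f.al x ≠ 0 := fun e => h.ne (f.al_eq_zero.1 e)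

theorem Q.le {x : Γ} (h : f.Q x) : f.d ≤ Qd.rk (f.al x) := f.min x h.mem h.ne h.sq

theorem Q.pos {x : Γ} (h : f.Q x) : 0 < f.d :=
  Nat.pos_of_ne_zero fun e => h.al_ne (rk_eq_zero (by have := h.rk; omega))

theorem Q.conj {x g : Γ} (h : f.Q x) (hg : g ∈ normalizer (f.G : Set Γ)) : f.Q (g * x * g⁻¹) where
  mem := (mem_normalizer_iff.1 hg x).1 h.mem
  ne := by simpa [mul_eq_one_iff_eq_inv'] using h.ne
  sq := by rw [f.al_conj, f.conj_mul, h.sq, mul_zero, zero_mul]
  rk := by
    rw [f.al_conj]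
    exact (rk_mul_left _ _).trans ((rk_mul_right _ _).trans h.rk)

theorem Q.conj' {x g : Γ} (h : f.Q x) (hg : g ∈ f.G) : f.Q (g * x * g⁻¹) :=
  h.conj (le_normalizer hg)

theorem Q.inv {x : Γ} (h : f.Q x) : f.Q x⁻¹ where
  mem := inv_mem h.mem
  ne := inv_ne_one.2 h.ne
  sq := by rw [f.al_inv h.sq, neg_mul_neg, h.sq]
  rk := by rw [f.al_inv h.sq, rk_neg]; exact h.rk

/-- a quadratic element of too small rank is trivial -/
theorem eq_zero_of_rk {z : Γ} (hz : z ∈ f.G) {c : End (ZMod p) V} (h : f.ρ z = 1 + c)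
    (hc : c * c = 0) (hr : rk c < f.d) : c = 0 := by
  by_contra h0
  have e := f.al_eq h
  have := f.min z hz (fun e' => h0 (by rw [← e, f.al_eq_zero.2 e'])) (by rwa [← al, e])
  rw [← al, e] at this
  omega

theorem rho_cm {x y : Γ} (hx : f.al x * f.al x = 0) (hy : f.al y * f.al y = 0)
    (h1 : f.al x * f.al y * f.al x = 0) (h2 : f.al y * f.al x * f.al y = 0) :
    f.ρ (x * y * x⁻¹ * y⁻¹) = 1 + (f.al x * f.al y - f.al y * f.al x) := by
  rw [map_mul, map_mul, map_mul, f.rho_inv hx, f.rho_inv hy, f.rho x, f.rho y, cm_eq hx hy h1 h2]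

theorem al_conj_Q {x y : Γ} (hy : f.al y * f.al y = 0) :
    f.al (y * x * y⁻¹) = (1 + f.al y) * f.al x * (1 - f.al y) := by
  rw [f.al_conj, f.rho_inv hy, f.rho]

theorem smul_two (a : End (ZMod p) V) (h : (2 : ZMod p) • a = 0) (f : Fr p V Γ) : a = 0 :=
  (smul_eq_zero.1 h).resolve_left f.two_ne

theorem anti {x y : Γ} (hx : f.Q x) (hy : f.Q y) (h : tt (f.al x) (f.al y) = 0) :
    f.al x * f.al y = 0 := by
  have h1 : f.al x * f.al y * f.al x = 0 := by rw [← tt_mul hx.sq, h, zero_mul]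
  have h2 : f.al y * f.al x * f.al y = 0 := by rw [← tt_mul' hy.sq, h, zero_mul]
  have h3 : f.al y * f.al x = -(f.al x * f.al y) := eq_neg_of_add_eq_zero_right h
  have h4 := rk_two h1
  rw [h3, rk_neg] at h4
  have h5 : f.al x * f.al y - f.al y * f.al x = (f.al x * f.al y) * ((2 : ZMod p) • 1) := by
    rw [h3, mul_smul_comm, mul_one, two_smul, sub_neg_eq_add]
  have := eq_zero_of_rk (mul_mem (mul_mem (mul_mem hx.mem hy.mem) (inv_mem hx.mem)) (inv_mem hy.mem))
    (rho_cm hx.sq hy.sq h1 h2) (cm_sq hx.sq hy.sq h1 h2) (by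
      rw [h5]
      have := rk_mul_left (f.al x * f.al y) ((2 : ZMod p) • 1)
      have := hy.rk
      have := hx.pos
      omega)
  rw [h5, mul_smul_comm, mul_one] at this
  exact smul_two _ this f

theorem nil_aux (m : ℕ) : ∀ {x y : Γ}, f.Q x → f.Q y → tt (f.al x) (f.al y) ^ 2 ^ m = 0 →
    f.al x * f.al y * f.al x = 0 := by
  induction m with
  | zero =>
    intro x y hx hy h
    rw [← tt_mul hx.sq, ← pow_one (tt _ _), ← pow_zero 2, h, zero_mul]
  | succ m ih =>
    have key : ∀ {x y : Γ}, f.Q x → f.Q y → tt (f.al x) (f.al y) ^ 2 ^ (m + 1) = 0 →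
        tt (f.al x) (f.al y) * tt (f.al x) (f.al y) * f.al x = 0 := fun {x y} hx hy h => by
      have h1 := ih hx (hx.conj' hy.mem) (by
        rw [al_conj_Q hy.sq, tt_conj hx.sq hy.sq, neg_pow, ← pow_two, ← pow_mul, ← pow_succ', h,
          mul_zero])
      rwa [← tt_mul hx.sq, al_conj_Q hy.sq, tt_conj hx.sq hy.sq, neg_mul, neg_eq_zero] at h1
    intro x y hx hy h
    have h1 := key hx hy h
    have h2 := key hy hx (by rwa [tt_comm])
    rw [tt_comm] at h2
    obtain ⟨e1, e2, e3⟩ := five hx.sq hy.sq h1 h2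
    have ha := hx.conj' hy.mem
    have hb := hx.conj' hy.inv.mem
    have ea := al_conj_Q (f := f) (x := x) hy.sq
    have eb := al_conj_Q (f := f) (x := x) hy.inv.sq
    rw [f.al_inv hy.sq, ← sub_eq_add_neg, sub_neg_eq_add] at eb
    rw [← ea, ← eb] at e1 e2 e3
    have h3 := rho_cm hb.sq ha.sq e2 e1
    have h4 := cm_sq hb.sq ha.sq e2 e1
    rw [e3] at h3 h4
    have h5 : (4 : End (ZMod p) V) * (f.al x * f.al y * f.al x) =
        (2 : ZMod p) • (2 : ZMod p) • (f.al x * f.al y * f.al x) := by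
      rw [show (4 : End (ZMod p) V) = 1 + 1 + 1 + 1 by norm_num]
      simp only [add_mul, one_mul, two_smul]; abel
    have := eq_zero_of_rk (mul_mem (mul_mem (mul_mem hb.mem ha.mem) (inv_mem hb.mem))
      (inv_mem ha.mem)) h3 h4 (by
        by_contra hle
        obtain ⟨c, hc⟩ := exists_mul_eq (a := f.al x) (b := tt (f.al x) (f.al y)) (by
          rw [mul_tt hx.sq]
          have := rk_mul_right (4 : End (ZMod p) V) (f.al x * f.al y * f.al x)
          have := hx.rk
          omega)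
        rw [← (comm_tt hx.sq).eq] at hc
        apply hx.al_ne
        calc f.al x = tt (f.al x) (f.al y) * (tt (f.al x) (f.al y) * f.al x * c) * c := by
              rw [← hc, ← hc]
          _ = tt (f.al x) (f.al y) * tt (f.al x) (f.al y) * f.al x * c * c := by noncomm_ring
          _ = 0 := by rw [h1, zero_mul, zero_mul])
    rw [h5] at this
    exact smul_two _ (smul_two _ this f) f

theorem nil {x y : Γ} (hx : f.Q x) (hy : f.Q y) {k : ℕ} (h : tt (f.al x) (f.al y) ^ k = 0) :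
    f.al x * f.al y * f.al x = 0 :=
  nil_aux k hx hy (pow_eq_zero_of_le (Nat.lt_two_pow_self).le h)

theorem special {x y : Γ} (hx : f.Q x) (hy : f.Q y) (h1 : f.al x * f.al y * f.al x = 0)
    (h2 : f.al y * f.al x * f.al y = 0) (h : x * y ≠ y * x) : f.Q (x * y * x⁻¹ * y⁻¹) where
  mem := mul_mem (mul_mem (mul_mem hx.mem hy.mem) (inv_mem hx.mem)) (inv_mem hy.mem)
  ne := fun e => h (by rw [← mul_inv_eq_one, mul_inv_rev, ← mul_assoc, e])
  sq := by rw [f.al_eq (rho_cm hx.sq hy.sq h1 h2), cm_sq hx.sq hy.sq h1 h2]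
  rk := by
    rw [f.al_eq (rho_cm hx.sq hy.sq h1 h2), sub_eq_add_neg]
    refine (rk_add _ _).trans ?_
    rw [rk_neg]
    exact (rk_two h1).trans hy.rk

end Fr

end Cfsg.Agent.WA.Qd
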