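import Cfsg.Agent.WA.Qd2
import Cfsg.Agent.H9.Basic

/-! Quadratic pairs: the non-nilpotent case. -/

set_option autoImplicit false
set_option linter.unusedSectionVars false

namespace Cfsg.Agent.WA.Qd

open Subgroup Module Matrix Cfsg.Agent.H8
open scoped MatrixGroups commutatorElement

universe u

theorem exists_idem {M : Type*} [Monoid M] [Finite M] (t : M) :
    ∃ N : ℕ, t ^ (N + 1) * t ^ (N + 1) = t ^ (N + 1) := by
  obtain ⟨i, j, hij, e⟩ : ∃ i j : ℕ, i < j ∧ t ^ i = t ^ j := by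
    obtain ⟨i, j, h, e⟩ := Finite.exists_ne_map_eq_of_infinite (fun n : ℕ => t ^ n)
    rcases lt_or_gt_of_ne h with h | h
    exacts [⟨i, j, h, e⟩, ⟨j, i, h, e.symm⟩]
  obtain ⟨m, rfl⟩ := Nat.exists_eq_add_of_lt hij
  have h1 : ∀ k n, t ^ (i + n + k * (m + 1)) = t ^ (i + n) := fun k n => by
    induction k with
    | zero => simp
    | succ k ih =>
      rw [show i + n + (k + 1) * (m + 1) = i + m + 1 + (n + k * (m + 1)) by ring, pow_add, ← e,
        ← pow_add, ← add_assoc, ih]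
  refine ⟨i + (i * m + m), ?_⟩
  rw [← pow_add, add_assoc i _ 1, ← h1 (i + 1) (i * m + m + 1)]
  congr 1; ring

theorem exists_comm {Γ : Type*} [Group Γ] [Finite Γ] {p : ℕ} [hp : Fact p.Prime] {N : Subgroup Γ}
    {x : Γ} (hx : x ∈ normalizer (N : Set Γ)) (hxp : x ^ p = 1) (hd : p ∣ Nat.card N) :
    ∃ g ∈ N, g ≠ 1 ∧ g ^ p = 1 ∧ g * x = x * g := by
  have h1 : IsPGroup p (zpowers x) := by
    rintro ⟨_, k, rfl⟩
    exact ⟨1, Subtype.ext (by
      change (x ^ k) ^ p ^ 1 = 1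
      rw [pow_one, ← zpow_natCast, ← _root_.zpow_mul, mul_comm, _root_.zpow_mul, zpow_natCast, hxp,
        _root_.one_zpow])⟩
  obtain ⟨P, hP, hle⟩ := exists_isSylowIn_ge h1 (le_sup_right : zpowers x ≤ N ⊔ zpowers x)
  have hN : N ⊔ zpowers x ≤ normalizer (N : Set Γ) := sup_le le_normalizer (zpowers_le_of_mem hx)
  have h2 := hP.inf_of_le_normalizer hN
  rw [inf_eq_right.2 (le_sup_left : N ≤ N ⊔ zpowers x)] at h2
  obtain ⟨g, hg, g1, h3, -⟩ := H9.exists_ne_one_centralized h1 h2.pgroup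
    (le_normalizer_inf (hle.trans le_normalizer) (zpowers_le_of_mem hx)) (h2.ne_bot hd)
  obtain ⟨k, hk⟩ := h2.pgroup ⟨g, hg⟩
  obtain ⟨j, j1, j2⟩ := H9.exists_pow_ne_one_pow_eq_one g1 ⟨k, congrArg Subtype.val hk⟩
  exact ⟨_, pow_mem hg.2 _, j1, j2, (Commute.pow_right (h3 x (mem_zpowers x)) _).eq.symm⟩

variable {p : ℕ} [hp : Fact p.Prime] {V : Type u} [AddCommGroup V] [Module (ZMod p) V] [Finite V]
  {Γ : Type*} [Group Γ] [Finite Γ]

/-- forgetting the scalars -/
def toZ : End (ZMod p) V →+* End ℤ V where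
  toFun e := e.toAddMonoidHom.toIntLinearMap
  map_one' := rfl
  map_mul' _ _ := rfl
  map_zero' := rfl
  map_add' _ _ := rfl

theorem toZ_inj : Function.Injective (toZ : End (ZMod p) V →+* End ℤ V) := fun _ _ h =>
  LinearMap.ext fun v => LinearMap.congr_fun h v

theorem p_smul (v : V) : p • v = 0 := by
  rw [← Nat.cast_smul_eq_nsmul (ZMod p), ZMod.natCast_self, zero_smul]

namespace Fr

variable {f : Fr p V Γ}

theorem comm_of_mem {x y h : Γ} {e : End (ZMod p) V} (hx : Commute e (f.al x))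
    (hy : Commute e (f.al y)) (hh : h ∈ closure ({x, y} : Set Γ)) : Commute e (f.ρ h) := by
  induction hh using closure_induction with
  | mem g hg =>
    rw [f.rho]
    rcases hg with rfl | rfl
    exacts [(Commute.one_right e).add_right hx, (Commute.one_right e).add_right hy]
  | one => rw [map_one]; exact Commute.one_right e
  | mul a b _ _ h1 h2 => rw [map_mul]; exact h1.mul_right h2
  | inv a _ h1 =>
    calc e * f.ρ a⁻¹ = f.ρ a⁻¹ * (f.ρ a * e) * f.ρ a⁻¹ := by
          rw [← mul_assoc, f.rho_inv_mul, one_mul]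
      _ = _ := by rw [← h1.eq, mul_assoc, mul_assoc, f.rho_mul_inv, mul_one]

theorem cm_form {x y g : Γ} (hx : f.al x * f.al x = 0) (hy : f.al y * f.al y = 0)
    (hg : g ∈ closure ({x, y} : Set Γ)) (hc : g * x = x * g) (hgp : g ^ p = 1) {N : ℕ}
    (he : tt (f.al x) (f.al y) ^ (N + 1) * tt (f.al x) (f.al y) ^ (N + 1) =
      tt (f.al x) (f.al y) ^ (N + 1)) : ∃ r, Commute r (f.al x) ∧
      tt (f.al x) (f.al y) ^ (N + 1) * f.ρ g = tt (f.al x) (f.al y) ^ (N + 1) * (1 + r * f.al x) := by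
  set t := tt (f.al x) (f.al y) with ht
  let A : Subring (End (ZMod p) V) := Subring.centralizer {t}
  have mem : ∀ {c}, Commute t c → c ∈ A := fun h => by rintro _ rfl; exact h
  let Z := Subring.center A
  letI : Algebra Z A := Z.subtype.toAlgebra' fun c z => (Subring.mem_center_iff.1 c.2 z).symm
  have sm : ∀ (c : Z) (z : A), ((c • z : A) : End (ZMod p) V) = (c : A) * z := fun c z => rfl
  let a : A := ⟨f.al x, mem (comm_tt hx)⟩
  let b : A := ⟨f.al y, mem (comm_tt' hy)⟩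
  let τ : Z := ⟨⟨t, mem (.refl t)⟩, Subring.mem_center_iff.2 fun z =>
    Subtype.ext (z.2 t rfl).symm⟩
  have ha : a * a = 0 := Subtype.ext hx
  have hb : b * b = 0 := Subtype.ext hy
  have hab : b * a = τ • 1 - a * b := Subtype.ext (by
    change f.al y * f.al x = t * 1 - f.al x * f.al y
    rw [mul_one, ht, tt, add_sub_cancel_left])
  have key : ∀ h ∈ closure ({x, y} : Set Γ), ∃ k : A, (k : End (ZMod p) V) = f.ρ h ∧ NF a b τ k := by
    intro h hh
    induction hh using closure_induction_right with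
    | one => exact ⟨1, (map_one _).symm, NF.one⟩
    | mul_right h _ z hz ih =>
      obtain ⟨k, e, hk⟩ := ih
      rcases hz with rfl | rfl
      · exact ⟨_, by rw [map_mul, ← e, f.rho, one_smul]; rfl, hk.mul_a ha hab 1⟩
      · exact ⟨_, by rw [map_mul, ← e, f.rho, one_smul]; rfl, hk.mul_b hb 1⟩
    | mul_inv_cancel h _ z hz ih =>
      obtain ⟨k, e, hk⟩ := ih
      rcases hz with rfl | rfl
      · exact ⟨_, by rw [map_mul, ← e, f.rho_inv hx, neg_one_smul, sub_eq_add_neg]; rfl,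
          hk.mul_a ha hab (-1)⟩
      · exact ⟨_, by rw [map_mul, ← e, f.rho_inv hy, neg_one_smul, sub_eq_add_neg]; rfl,
          hk.mul_b hb (-1)⟩
  obtain ⟨k, e, hk⟩ := key g hg
  obtain ⟨r, hr⟩ := hk.of_comm ha hb hab (p := p) (Subtype.ext (by
      have := congrArg f.ρ hc
      rw [map_mul, map_mul, f.rho x, mul_add, add_mul, mul_one, one_mul, add_right_inj, ← e] at this
      exact this)) f.p_odd
    (Subtype.ext (Subtype.ext (LinearMap.ext fun v => p_smul v)))
    (Subtype.ext (by rw [Subring.coe_pow, e, ← map_pow, hgp, map_one]; rfl))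
    (ε := τ ^ (N + 1)) (s := τ ^ N) (Subtype.ext (Subtype.ext (by simpa [τ] using he)))
    (pow_succ _ _).symm
  refine ⟨((r : A) : End (ZMod p) V), congrArg Subtype.val
    (Subring.mem_center_iff.1 r.2 a).symm, ?_⟩
  have := congrArg Subtype.val hr
  rw [sm, sm, e] at this
  simpa [τ, sm] using this

/-- `h` acts on the plane `ι` as the matrix `A` -/
def Rel (f : Fr p V Γ) {K : Type u} [Field K] (ι : (Fin 2 → K) →+ V) (h : Γ)
    (A : Matrix (Fin 2) (Fin 2) K) : Prop := ∀ v, f.ρ h (ι v) = ι (A *ᵥ v)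

section rel

variable {K : Type u} [Field K] {ι : (Fin 2 → K) →+ V} {g h : Γ} {A B : Matrix (Fin 2) (Fin 2) K}

theorem Rel.one : f.Rel ι 1 1 := fun v => by simp

theorem Rel.mul (h1 : f.Rel ι g A) (h2 : f.Rel ι h B) : f.Rel ι (g * h) (A * B) := fun v => by
  rw [map_mul, End.mul_apply, h2, h1, mulVec_mulVec]

theorem Rel.inv (h1 : f.Rel ι g A) (h : A * B = 1) : f.Rel ι g⁻¹ B := fun v => by
  have := congrArg (f.ρ g⁻¹) (h1 (B *ᵥ v))
  rw [← End.mul_apply, f.rho_inv_mul, mulVec_mulVec, h, one_mulVec] at this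
  exact this.symm

theorem Rel.pow (h1 : f.Rel ι g A) (n : ℕ) : f.Rel ι (g ^ n) (A ^ n) := by
  induction n with
  | zero => simpa using Rel.one
  | succ n ih => rw [pow_succ, pow_succ]; exact ih.mul h1

theorem Rel.eq (hι : Function.Injective ι) (h1 : f.Rel ι g A) (h2 : f.Rel ι g B) : A = B :=
  Matrix.ext_of_mulVec_single fun _ => hι ((h1 _).symm.trans (h2 _))

end rel

theorem plane {x y : Γ} (hx : f.al x * f.al x = 0) (hy : f.al y * f.al y = 0)
    (hn : ∀ k, tt (f.al x) (f.al y) ^ k ≠ 0) :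
    ∃ (K : Type u) (_ : Field K) (_ : CharP K p) (ι : (Fin 2 → K) →+ V) (l : K) (u : Γ),
      Function.Injective ι ∧ l ≠ 0 ∧ f.Rel ι x !![1, l; 0, 1] ∧ f.Rel ι y !![1, 0; 1, 1] ∧
      u ∈ closure ({x, y} : Set Γ) ∧ f.Rel ι u !![1, 1; 0, 1] ∧
      ∀ h ∈ closure ({x, y} : Set Γ), ∃ g : SL(2, K), f.Rel ι h g.1 := by
  set c := tt (f.al x) (f.al y) with hc
  let R : Subring (End (ZMod p) V) := Subring.centralizer (Subring.centralizer {c} : Set _)
  have hcR : c ∈ R := fun x hx => (hx c rfl).symm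
  have hR : ∀ r : R, ∀ x : End (ZMod p) V, c * x = x * c → x * r = r * x := fun r x hx =>
    r.2 x (by rintro _ rfl; exact hx)
  letI : CommRing R := { (inferInstance : Ring R) with
    mul_comm := fun r s => Subtype.ext (hR s r (hR r c rfl)) }
  let lin : ∀ x : End (ZMod p) V, c * x = x * c → (V →ₗ[R] V) := fun x hx =>
    { toFun := x
      map_add' := map_add x
      map_smul' := fun r v => congrArg (fun f : End (ZMod p) V => f v) (hR r x hx) }
  obtain ⟨I, hI, ι, hinj, hl, hι⟩ := H5.exists_plane_of_not_nilpotent (lin _ (comm_tt hx))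
    (lin _ (comm_tt' hy)) (⟨c, hcR⟩ : R) (fun v => congrArg (fun f : End (ZMod p) V => f v) hx)
    (fun v => congrArg (fun f : End (ZMod p) V => f v) hy) (fun v => rfl) (fun k => by
      by_contra hcon
      push Not at hcon
      exact hn k (LinearMap.ext hcon))
  letI := Ideal.Quotient.field I
  set l := Ideal.Quotient.mk I ⟨c, hcR⟩ with hldef
  haveI : Finite (Fin 2 → R ⧸ I) := Finite.of_injective ι hinj
  haveI : Finite (R ⧸ I) := Finite.of_injective (fun s : R ⧸ I => fun _ : Fin 2 => s)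
    (fun s t e => congrFun e 0)
  haveI hch : CharP (R ⧸ I) p := (CharP.charP_iff_prime_eq_zero hp.out).mpr (by
    have : ι (p • (1 : Fin 2 → R ⧸ I)) = 0 := by rw [map_nsmul, p_smul]
    simpa using congrFun ((map_eq_zero_iff _ hinj).mp this) 0)
  have hax : f.Rel ι x !![1, l; 0, 1] := by
    intro v
    have h1 : f.al x (ι v) = ι ![l * v 1, 0] := (hι v).1
    rw [f.rho, LinearMap.add_apply, h1, End.one_apply, ← map_add]
    congr 1; ext i; fin_cases i <;> simp [mulVec, dotProduct]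
  have hby : f.Rel ι y !![1, 0; 1, 1] := by
    intro v
    have h1 : f.al y (ι v) = ι ![0, v 0] := (hι v).2
    rw [f.rho, LinearMap.add_apply, h1, End.one_apply, ← map_add]
    congr 1; ext i; fin_cases i <;> simp [mulVec, dotProduct, add_comm]
  obtain ⟨X, eX⟩ : ∃ X : R ⧸ I → SL(2, R ⧸ I), ∀ s, (X s).1 = !![1, s; 0, 1] :=
    ⟨fun s => ⟨_, by simp [det_fin_two]⟩, fun _ => rfl⟩
  obtain ⟨Y, eY⟩ : ∃ Y : SL(2, R ⧸ I), Y.1 = !![1, 0; 1, 1] := ⟨⟨_, by simp [det_fin_two]⟩, rfl⟩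
  let S : Subgroup SL(2, R ⧸ I) :=
    { carrier := {g | ∃ h ∈ closure ({x, y} : Set Γ), f.Rel ι h g.1}
      one_mem' := ⟨1, one_mem _, Rel.one⟩
      mul_mem' := fun ⟨a, ha, h1⟩ ⟨b, hb, h2⟩ => ⟨_, mul_mem ha hb, h1.mul h2⟩
      inv_mem' := fun {g} ⟨a, ha, h1⟩ => ⟨_, inv_mem ha, h1.inv (by
        rw [← Matrix.SpecialLinearGroup.coe_mul, mul_inv_cancel]; rfl)⟩ }
  have mx : x ∈ closure ({x, y} : Set Γ) := subset_closure (Or.inl rfl)
  have my : y ∈ closure ({x, y} : Set Γ) := subset_closure (Or.inr rfl)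
  have dk : ∀ s, s ≠ 0 → X s ∈ S → X 1 ∈ S ∨ s ^ 2 = -1 := fun s hs hX => by
    let φ := algebraMap (R ⧸ I) (AlgebraicClosure (R ⧸ I))
    have hφ : Function.Injective φ := φ.injective
    haveI := H5.finite_map (Matrix.SpecialLinearGroup.map (n := Fin 2) φ) S
    rcases H5.dickson_algClosed f.p_ne_two (S.map (Matrix.SpecialLinearGroup.map φ))
      (l := φ s) (by simpa using hs) (x := Matrix.SpecialLinearGroup.map φ (X s))
      (y := Matrix.SpecialLinearGroup.map φ Y)
      (by ext i j; fin_cases i <;> fin_cases j <;> simp [eX])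
      (by ext i j; fin_cases i <;> fin_cases j <;> simp [eY]) (mem_map_of_mem _ hX)
      (mem_map_of_mem _ ⟨y, my, eY ▸ hby⟩) with ⟨_, ⟨u, hu, rfl⟩, h⟩ | h
    · left
      suffices X 1 = u from this ▸ hu
      ext i j
      apply hφ
      have := congrFun (congrFun h i) j
      fin_cases i <;> fin_cases j <;> simpa [eX] using this.symm
    · exact Or.inr (hφ (by simpa using h))
  have c3 : ∀ n : ℕ, 0 < n → n < 5 → (n : R ⧸ I) ≠ 0 := fun n h0 h5 h =>
    absurd (Nat.le_of_dvd h0 ((CharP.cast_eq_zero_iff _ p _).1 h)) (by have := f.p5; omega)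
  obtain ⟨u, hu, hu'⟩ : X 1 ∈ S := by
    rcases dk l hl ⟨x, mx, eX l ▸ hax⟩ with h | h
    · exact h
    · refine (dk (2 * l) (mul_ne_zero (by exact_mod_cast c3 2 (by omega) (by omega)) hl)
        ⟨x * x, mul_mem mx mx, by
          convert hax.mul hax using 1
          ext i j; fin_cases i <;> fin_cases j <;> simp [eX, two_mul]⟩).resolve_right fun h' => ?_
      exact c3 3 (by omega) (by omega) (by push_cast; linear_combination 4 * h - h')
  refine ⟨R ⧸ I, inferInstance, hch, ι, l, u, hinj, hl, hax, hby, hu, eX 1 ▸ hu', fun h hh => ?_⟩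
  induction hh using closure_induction with
  | mem g hg =>
    rcases hg with rfl | rfl
    exacts [⟨X l, eX l ▸ hax⟩, ⟨Y, eY ▸ hby⟩]
  | one => exact ⟨1, Rel.one⟩
  | mul a b _ _ h1 h2 =>
    obtain ⟨g, h1⟩ := h1
    obtain ⟨g', h2⟩ := h2
    exact ⟨g * g', h1.mul h2⟩
  | inv a _ h1 =>
    obtain ⟨g, h1⟩ := h1
    exact ⟨g⁻¹, h1.inv (by rw [← Matrix.SpecialLinearGroup.coe_mul, mul_inv_cancel]; rfl)⟩

end Fr

end Cfsg.Agent.WA.Qd
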