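import Cfsg.Agent.WA.Qd3

/-! Quadratic pairs: opposite root elements generate `SL₂`. -/

set_option autoImplicit false
set_option linter.unusedSectionVars false

namespace Cfsg.Agent.WA.Qd

open Subgroup Module Matrix Cfsg.Agent.H8
open scoped MatrixGroups commutatorElement

universe u

variable {p : ℕ} [hp : Fact p.Prime] {V : Type u} [AddCommGroup V] [Module (ZMod p) V] [Finite V]
  {Γ : Type*} [Group Γ] [Finite Γ]

theorem pg_zpowers {x : Γ} (hxp : x ^ p = 1) : IsPGroup p (zpowers x) := by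
  rintro ⟨_, k, rfl⟩
  exact ⟨1, Subtype.ext (by
    change (x ^ k) ^ p ^ 1 = 1
    rw [pow_one, ← zpow_natCast, ← _root_.zpow_mul, mul_comm, _root_.zpow_mul, zpow_natCast, hxp,
      _root_.one_zpow])⟩

instance finEnd : Finite (End (ZMod p) V) := Finite.of_injective _ DFunLike.coe_injective

namespace Fr

variable {f : Fr p V Γ}

section rel

variable {K : Type u} [Field K] {ι : (Fin 2 → K) →+ V} {g h : Γ} {s s' : K}

theorem Rel.up (h1 : f.Rel ι g !![1, s; 0, 1]) (h2 : f.Rel ι h !![1, s'; 0, 1]) :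
    f.Rel ι (g * h) !![1, s + s'; 0, 1] := by
  convert h1.mul h2 using 1
  ext i j; fin_cases i <;> fin_cases j <;> simp [add_comm]

theorem Rel.up_inv (h1 : f.Rel ι g !![1, s; 0, 1]) : f.Rel ι g⁻¹ !![1, -s; 0, 1] :=
  h1.inv (by ext i j; fin_cases i <;> fin_cases j <;> simp)

theorem Rel.up_pow (h1 : f.Rel ι g !![1, s; 0, 1]) (n : ℕ) : f.Rel ι (g ^ n) !![1, n * s; 0, 1] :=
  H5.upper_pow s n ▸ h1.pow n

theorem Rel.up_zero (h1 : f.Rel ι g !![1, s; 0, 1]) (h0 : s = 0) : f.Rel ι g 1 := by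
  rwa [h0, ← Matrix.one_fin_two] at h1

theorem Rel.up_eq (hι : Function.Injective ι) (h1 : f.Rel ι g !![1, s; 0, 1]) (h2 : f.Rel ι g 1) :
    s = 0 := by simpa using congrFun (congrFun (h1.eq hι h2) 0) 1

theorem Rel.al_up (h1 : f.Rel ι g !![1, s; 0, 1]) (v : Fin 2 → K) :
    f.al g (ι v) = ι ![s * v 1, 0] := by
  rw [al, LinearMap.sub_apply, h1, End.one_apply, ← map_sub]
  congr 1; ext i; fin_cases i <;> simp [mulVec, dotProduct]

theorem Rel.al_low (h1 : f.Rel ι g !![1, 0; 1, 1]) (v : Fin 2 → K) :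
    f.al g (ι v) = ι ![0, v 0] := by
  rw [al, LinearMap.sub_apply, h1, End.one_apply, ← map_sub]
  congr 1; ext i; fin_cases i <;> simp [mulVec, dotProduct]

end rel

theorem non_aux {x y : Γ} (hx : f.Q x) (hy : f.Q y) (hn : ∀ k, tt (f.al x) (f.al y) ^ k ≠ 0) {N : ℕ}
    (he : tt (f.al x) (f.al y) ^ (N + 1) * tt (f.al x) (f.al y) ^ (N + 1) =
      tt (f.al x) (f.al y) ^ (N + 1)) : tt (f.al x) (f.al y) ^ (N + 1) * f.al x = f.al x := by
  obtain ⟨K, _, _, ι, l, u, hι, -, -, ry, hu, ru, -⟩ := plane hx.sq hy.sq hn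
  have cf := fun g hg hc hgp => cm_form (g := g) hx.sq hy.sq hg hc hgp he
  set t := tt (f.al x) (f.al y) with ht
  set e := t ^ (N + 1) with hedef
  have ea : Commute e (f.al x) := (comm_tt hx.sq).pow_left _
  have eb : Commute e (f.al y) := (comm_tt' hy.sq).pow_left _
  have ec : ∀ {h}, h ∈ closure ({x, y} : Set Γ) → Commute (1 - e) (f.ρ h) := fun hh =>
    (Commute.one_left _).sub_left (comm_of_mem ea eb hh)
  have mx : x ∈ closure ({x, y} : Set Γ) := subset_closure (Or.inl rfl)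
  have my : y ∈ closure ({x, y} : Set Γ) := subset_closure (Or.inr rfl)
  let N0 : Subgroup Γ :=
    { carrier := {h | h ∈ closure ({x, y} : Set Γ) ∧ (1 - e) * f.ρ h = 1 - e}
      one_mem' := ⟨one_mem _, by simp⟩
      mul_mem' := fun ha hb => ⟨mul_mem ha.1 hb.1, by rw [map_mul, ← mul_assoc, ha.2, hb.2]⟩
      inv_mem' := fun {a} ha => ⟨inv_mem ha.1, by
        nth_rewrite 1 [← ha.2]; rw [mul_assoc, f.rho_mul_inv, mul_one]⟩ }
  have nN : ∀ k ∈ closure ({x, y} : Set Γ), ∀ h ∈ N0, k * h * k⁻¹ ∈ N0 := fun k hk h hh =>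
    ⟨mul_mem (mul_mem hk hh.1) (inv_mem hk), by
      rw [map_mul, map_mul, ← mul_assoc, ← mul_assoc, (ec hk).eq, mul_assoc _ (1 - e), hh.2,
        ← (ec hk).eq, mul_assoc, f.rho_mul_inv, mul_one]⟩
  have e1 : (1 - e) * e = 0 := by rw [sub_mul, one_mul, he, sub_self]
  have e2 : (1 - e) * (1 - e) = 1 - e := by rw [mul_sub, mul_one, e1, sub_zero]
  have e3 : e * (1 - e) = 0 := by rw [mul_sub, mul_one, he, sub_self]
  have hpow : ∀ h ∈ closure ({x, y} : Set Γ), ∃ j, h ^ p ^ j ∈ N0 := fun h hh => by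
    let Y := closure ({x, y} : Set Γ)
    let τ₀ : Y →* End (ZMod p) V :=
      { toFun := fun k => e + (1 - e) * f.ρ k
        map_one' := by simp
        map_mul' := fun a b => by
          rw [coe_mul, map_mul, add_mul, mul_add, mul_add, he, ← mul_assoc e, e3, mul_assoc _ _ e,
            ← (comm_of_mem ea eb a.2).eq, ← mul_assoc _ e, e1, mul_assoc (1 - e) (f.ρ a),
            ← mul_assoc (f.ρ a), ← (ec a.2).eq, mul_assoc (1 - e) (f.ρ a), ← mul_assoc (1 - e) (1 - e),
            e2]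
          simp [mul_assoc] }
    have t1 : ∀ k : Y, τ₀ k - 1 = (1 - e) * f.al k := fun k => by
      change e + (1 - e) * f.ρ k - 1 = _
      rw [f.rho]; noncomm_ring
    have t2 : ∀ k : Y, (toZ.toMonoidHom.comp τ₀) k - 1 = toZ ((1 - e) * f.al k) := fun k => by
      rw [← t1, map_sub, map_one]; rfl
    have ca := (Commute.one_left _).sub_left ea
    have cb := (Commute.one_left _).sub_left eb
    have m2 : ∀ {a b : End (ZMod p) V}, Commute (1 - e) a → (1 - e) * a * ((1 - e) * b) =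
        (1 - e) * (a * b) := fun {a b} h => by
      rw [mul_assoc, ← mul_assoc a, ← h.eq, mul_assoc, ← mul_assoc, e2]
    obtain ⟨j, hj⟩ := H5.pow_eq_one_of_nilpotent (p := p) p_smul (toZ.toMonoidHom.comp τ₀)
      (a := ⟨x, mx⟩) (b := ⟨y, my⟩) (by rw [t2, ← map_mul, m2 ca, hx.sq, mul_zero, map_zero])
      (by rw [t2, ← map_mul, m2 cb, hy.sq, mul_zero, map_zero]) (k := N + 1) (by
        rw [t2, t2, ← map_mul, ← map_mul, ← map_add, ← map_pow, m2 ca, m2 cb, ← mul_add]
        change toZ (((1 - e) * t) ^ (N + 1)) = 0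
        rw [Commute.mul_pow ((Commute.one_left t).sub_left ((Commute.refl t).pow_left _)), pow_succ,
          mul_assoc, e1, mul_zero, map_zero]) (h := ⟨h, hh⟩) (by
        rw [← mem_map_iff_mem Y.subtype_injective, MonoidHom.map_closure, Set.image_pair]
        exact hh)
    refine ⟨j, pow_mem hh _, ?_⟩
    have : τ₀ (⟨h, hh⟩ ^ p ^ j) = 1 := toZ_inj (hj.trans (map_one _).symm)
    exact eq_sub_of_add_eq' this
  obtain ⟨m, hm⟩ := f.p_odd
  have hm' : (2 : K) * (m + 1 : ℕ) = 1 := by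
    have := CharP.cast_eq_zero K p
    rw [hm] at this
    push_cast at this ⊢
    linear_combination this
  have ry' : ∀ n : ℕ, f.Rel ι (y ^ n)⁻¹ !![1, 0; -(n : K), 1] := fun n =>
    (H5.lower_pow (1 : K) n ▸ ry.pow n).inv (by ext i j; fin_cases i <;> fin_cases j <;> simp)
  have rh : f.Rel ι (u * u * (y ^ (m + 1))⁻¹ * (u * u) * (u * (y ^ 1)⁻¹ * u)⁻¹)
      !![2, 0; 0, (m + 1 : ℕ)] := by
    convert (((ru.mul ru).mul (ry' (m + 1))).mul (ru.mul ru)).mul
      (((ru.mul (ry' 1)).mul ru).inv (B := !![0, -1; 1, 0])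
        (by ext i j; fin_cases i <;> fin_cases j <;> simp)) using 1
    generalize ((m + 1 : ℕ) : K) = c at hm'
    ext i j; fin_cases i <;> fin_cases j <;> simp
    · linear_combination 2 * hm'
    · linear_combination -hm'
    · linear_combination hm'
  have mh : u * u * (y ^ (m + 1))⁻¹ * (u * u) * (u * (y ^ 1)⁻¹ * u)⁻¹ ∈ closure ({x, y} : Set Γ) :=
    mul_mem (mul_mem (mul_mem (mul_mem hu hu) (inv_mem (pow_mem my _))) (mul_mem hu hu))
      (inv_mem (mul_mem (mul_mem hu (inv_mem (pow_mem my _))) hu))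
  generalize u * u * (y ^ (m + 1))⁻¹ * (u * u) * (u * (y ^ 1)⁻¹ * u)⁻¹ = h at rh mh
  have rc : ∀ n : ℕ, f.Rel ι (h ^ n * u * (h ^ n)⁻¹) !![1, 4 ^ n; 0, 1] := fun n => by
    induction n with
    | zero => simpa using ru
    | succ n ih =>
      have := (rh.mul ih).mul (rh.inv (B := !![((m + 1 : ℕ) : K), 0; 0, 2]) (by
        generalize ((m + 1 : ℕ) : K) = c at hm'
        ext i j; fin_cases i <;> fin_cases j <;> simp
        · exact hm'
        · linear_combination hm'))
      convert this using 1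
      · rw [pow_succ']; group
      · generalize ((m + 1 : ℕ) : K) = c at hm'
        ext i j; fin_cases i <;> fin_cases j <;> simp
        · exact hm'.symm
        · ring
        · linear_combination -hm'
  obtain ⟨j, hj⟩ := hpow h mh
  have r3 := (rc (p ^ j)).up ru.up_inv
  have f4 : (4 : K) ^ p ^ j = 4 := by
    simpa [iterateFrobenius_def] using map_natCast (iterateFrobenius K p j) 4
  have m3 : h ^ p ^ j * u * (h ^ p ^ j)⁻¹ * u⁻¹ ∈ N0 := by
    simpa only [mul_assoc] using mul_mem hj (nN u hu _ (inv_mem hj))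
  generalize h ^ p ^ j * u * (h ^ p ^ j)⁻¹ * u⁻¹ = c at r3 m3
  have r4 := (r3.up_pow (orderOf c)).up_eq hι (by rw [pow_orderOf_eq_one]; exact Rel.one)
  rw [f4, show (4 : K) + -1 = (3 : ℕ) by norm_num, mul_eq_zero, CharP.cast_eq_zero_iff K p,
    CharP.cast_eq_zero_iff K p] at r4
  obtain ⟨g, hg, g1, gp, gx⟩ := exists_comm (H9.mem_normalizer_of_conj_mem (nN x mx))
    (f.pow_p hx.sq) ((r4.resolve_right fun h => absurd (Nat.le_of_dvd (by omega) h)
      (by have := f.p5; omega)).trans (orderOf_dvd_natCard (⟨c, m3⟩ : N0) |> fun h => by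
        simpa using h))
  obtain ⟨r, hr, e4⟩ := cf g hg.1 gx gp
  have e5 : f.ρ g = 1 + f.al x * (e * r) := by
    calc f.ρ g = e * f.ρ g + (1 - e) * f.ρ g := by noncomm_ring
      _ = 1 + e * r * f.al x := by rw [e4, hg.2]; noncomm_ring
      _ = _ := by rw [(ea.mul_left hr).eq]
  have e6 : ¬ rk (f.al x * (e * r)) < f.d := fun hlt => g1 (f.al_eq_zero.1 ((f.al_eq e5).trans
    (eq_zero_of_rk ((closure_le _).2 (by rintro _ (rfl | rfl); exacts [hx.mem, hy.mem]) hg.1) e5 (by
      rw [mul_assoc, ← mul_assoc (e * r), (ea.mul_left hr).eq, mul_assoc, sq' hx.sq]) hlt)))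
  obtain ⟨c, hc⟩ := exists_mul_eq (hx.rk.trans (not_lt.1 e6))
  rw [← mul_assoc, ← ea.eq] at hc
  calc e * f.al x = e * e * f.al x * r * c := by nth_rewrite 1 [hc]; noncomm_ring
    _ = _ := by rw [he, ← hc]

theorem non {x y : Γ} (hx : f.Q x) (hy : f.Q y) (hn : ∀ k, tt (f.al x) (f.al y) ^ k ≠ 0) :
    ∃ s, Commute s (f.al x) ∧ Commute s (f.al y) ∧ s * tt (f.al x) (f.al y) * f.al x = f.al x ∧
      s * tt (f.al x) (f.al y) * f.al y = f.al y := by
  obtain ⟨N, he⟩ := exists_idem (tt (f.al x) (f.al y))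
  refine ⟨_, (comm_tt hx.sq).pow_left N, (comm_tt' hy.sq).pow_left N, ?_, ?_⟩
  · rw [← pow_succ, non_aux hx hy hn he]
  · rw [← pow_succ, tt_comm] at *
    exact non_aux hy hx (by simpa only [tt_comm] using hn) (by simpa only [tt_comm] using he)

/-- `u` lies in the root group of `x` -/
def In (f : Fr p V Γ) (x u : Γ) : Prop := (∃ c, f.al u = f.al x * c) ∧ ∃ c, f.al u = c * f.al x

/-- `x` and `y` are the standard generators of an `SL₂(p)` -/
def Pair (f : Fr p V Γ) (x y : Γ) : Prop :=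
  f.al x * f.al y * f.al x = f.al x ∧ f.al y * f.al x * f.al y = f.al y

theorem In.symm {x u : Γ} (h : f.In x u) (hx : f.Q x) (hu : f.Q u) : f.In u x := by
  obtain ⟨⟨c, h1⟩, d, h2⟩ := h
  obtain ⟨c', h3⟩ := exists_mul_eq (a := f.al x) (b := c) (hx.rk.trans (h1 ▸ hu.le))
  obtain ⟨d', h4⟩ := exists_mul_eq' (a := f.al x) (b := d) (hx.rk.trans (h2 ▸ hu.le))
  exact ⟨⟨c', by rwa [h1]⟩, d', by rwa [h2]⟩

theorem In.Q {x u : Γ} (h : f.In x u) (hx : f.Q x) (hu : u ∈ f.G) (h1 : u ≠ 1) : f.Q u := by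
  obtain ⟨⟨c, h2⟩, d, h3⟩ := h
  refine ⟨hu, h1, ?_, ?_⟩
  · nth_rewrite 1 [h3]
    rw [h2, mul_assoc, sq' hx.sq, mul_zero]
  · rw [h2]; exact (rk_mul_left _ _).trans hx.rk

theorem not_nil {x y : Γ} (hx : f.Q x) (hy : f.Q y) (h : f.al x * f.al y * f.al x ≠ 0) (k : ℕ) :
    tt (f.al x) (f.al y) ^ k ≠ 0 := fun e => h (nil hx hy e)

theorem pair_of_eig {x y : Γ} (hx : f.Q x) (hy : f.Q y) {K : Type u} [Field K]
    {ι : (Fin 2 → K) →+ V} (hι : Function.Injective ι) (rx : f.Rel ι x !![1, 1; 0, 1])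
    (ry : f.Rel ι y !![1, 0; 1, 1]) : f.Pair x y := by
  have ne : ∀ v : Fin 2 → K, v 0 = 1 → ι v ≠ 0 := fun v hv e => by
    rw [(map_eq_zero_iff _ hι).1 e] at hv; simp at hv
  have t1 : ∀ v, tt (f.al x) (f.al y) (ι v) = ι v := fun v => by
    rw [tt, LinearMap.add_apply, End.mul_apply, End.mul_apply, ry.al_low, rx.al_up, rx.al_up,
      ry.al_low, ← map_add]
    congr 1; ext i; fin_cases i <;> simp
  obtain ⟨s, sa, sb, h1, h2⟩ := non hx hy fun k hk => ne ![1, 0] rfl (by
    have : (tt (f.al x) (f.al y) ^ k) (ι ![1, 0]) = ι ![1, 0] := by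
      clear hk
      induction k with
      | zero => simp
      | succ k ih => rw [pow_succ, End.mul_apply, t1, ih]
    rw [← this, hk]; rfl)
  have hA := hy.conj' hx.mem
  have hB := hx.conj' hy.mem
  have eA := al_conj_Q (f := f) (x := y) hx.sq
  have eB := al_conj_Q (f := f) (x := x) hy.sq
  have vA : f.al (x * y * x⁻¹) (ι ![1, 0]) = ι ![1, 1] := by
    rw [eA, End.mul_apply, End.mul_apply, LinearMap.sub_apply, rx.al_up, End.one_apply, ← map_sub,
      ry.al_low, LinearMap.add_apply, rx.al_up, End.one_apply, ← map_add]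
    congr 1; ext i; fin_cases i <;> simp
  have vB : f.al (y * x * y⁻¹) (ι ![1, 1]) = 0 := by
    rw [eB, End.mul_apply, End.mul_apply, LinearMap.sub_apply, ry.al_low, End.one_apply, ← map_sub,
      rx.al_up, LinearMap.add_apply, ry.al_low, End.one_apply, ← map_add, ← map_zero ι]
    congr 1; ext i; fin_cases i <;> simp
  obtain ⟨k, hk⟩ : ∃ k, tt (f.al (x * y * x⁻¹)) (f.al (y * x * y⁻¹)) ^ k = 0 := by
    by_contra hcon
    push Not at hcon
    obtain ⟨s', -, -, h3, -⟩ := non hA hB hcon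
    refine ne ![1, 1] rfl ?_
    rw [← vA, ← h3, mul_assoc, tt_mul hA.sq, End.mul_apply, End.mul_apply, End.mul_apply, vA, vB,
      map_zero, map_zero]
  have n1 := nil hA hB hk
  have n2 := nil hB hA (by rwa [tt_comm])
  rw [← tt_mul hA.sq] at n1
  rw [← tt_mul' hB.sq] at n2
  have n0 := fun h => anti hA hB h
  rw [eA, eB, tt_two hx.sq hy.sq] at n0 n1 n2
  have ta := comm_tt (b := f.al y) hx.sq
  have tb := comm_tt' (a := f.al x) hy.sq
  have st : Commute s (tt (f.al x) (f.al y)) := (sa.mul_right sb).add_right (sb.mul_right sa)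
  have l1 := two_left hx.sq hy.sq
  have l2 := two_right hx.sq hy.sq
  have i1 : ∀ {a : End (ZMod p) V}, a * a = 0 → (1 - a) * (1 + a) = 1 := fun h => by
    rw [sub_mul, mul_add, mul_add, h]; simp
  have st2 : s * tt (f.al x) (f.al y) * tt (f.al x) (f.al y) = tt (f.al x) (f.al y) := by
    nth_rewrite 2 3 [tt]
    rw [mul_add, ← mul_assoc, ← mul_assoc, h1, h2]
  have p1 := tt_mul (b := f.al y) hx.sq
  have p2 := tt_mul' (a := f.al x) hy.sq
  have tdef : tt (f.al x) (f.al y) = f.al x * f.al y + f.al y * f.al x := rfl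
  generalize tt (f.al x) (f.al y) = t at *
  have k : ∀ {a b : End (ZMod p) V}, a * a = 0 → Commute t a →
      (1 - t) * (1 - t) * t * ((1 + a) * b * (1 - a)) = 0 → (1 - t) * (1 - t) * t * b = 0 :=
    fun {a b} ha hc h => by
      have c1 : Commute (1 - t) (1 + a) := (Commute.one_left _).sub_left
        ((Commute.one_right t).add_right hc)
      have c2 := (c1.mul_left c1).mul_left ((Commute.one_right t).add_right hc)
      calc _ = (1 - a) * (1 + a) * ((1 - t) * (1 - t) * t) * b * ((1 - a) * (1 + a)) := by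
            rw [i1 ha, one_mul, mul_one]
        _ = (1 - a) * ((1 - t) * (1 - t) * t * ((1 + a) * b * (1 - a))) * (1 + a) := by
            rw [mul_assoc (1 - a) (1 + a), ← c2.eq]; noncomm_ring
        _ = 0 := by rw [h, mul_zero, zero_mul]
  have k1 := k hx.sq ta n1
  have k2 := k hy.sq tb n2
  have s1 : Commute s (1 - t) := (Commute.one_right s).sub_right st
  have n3 := n0 (by
    calc _ = (1 - t) * (1 - t) * s * t * t := by rw [mul_assoc _ s, mul_assoc _ (s * t), st2]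
      _ = s * ((1 - t) * (1 - t) * t * (f.al x * f.al y + f.al y * f.al x)) := by
        rw [← (s1.mul_right s1).eq, ← tdef]; noncomm_ring
      _ = 0 := by rw [mul_add, ← mul_assoc _ (f.al x), ← mul_assoc _ (f.al y), k1, k2]; simp)
  rw [n3, mul_zero, zero_mul] at l1 l2
  have fin : ∀ {a : End (ZMod p) V}, s * t * a = a → 0 = (1 - t) * (t * a) → t * a = a :=
    fun {a} h h' => by
      have : (1 - t) * a = 0 := by
        rw [← h, mul_assoc s, ← mul_assoc, ← s1.eq, mul_assoc, ← h', mul_zero]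
      rw [sub_mul, one_mul, sub_eq_zero] at this
      exact this.symm
  exact ⟨p1 ▸ fin h1 l1, p2 ▸ fin h2 l2⟩

theorem pair {x y : Γ} (hx : f.Q x) (hy : f.Q y) (h : f.al x * f.al y * f.al x ≠ 0) :
    ∃ u, f.In x u ∧ f.Q u ∧ f.Pair u y := by
  have hn := not_nil hx hy h
  obtain ⟨K, _, _, ι, l, u, hι, hl, rx, ry, hu, ru, rall⟩ := plane hx.sq hy.sq hn
  obtain ⟨N, he⟩ := exists_idem (tt (f.al x) (f.al y))
  have cf := fun g hg hc hgp => cm_form (g := g) hx.sq hy.sq hg hc hgp he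
  have e1 := non_aux hx hy hn he
  have e2 := non_aux hy hx (by simpa only [tt_comm] using hn) (N := N)
    (by simpa only [tt_comm] using he)
  rw [tt_comm] at e2
  have ea : Commute (tt (f.al x) (f.al y) ^ (N + 1)) (f.al x) := (comm_tt hx.sq).pow_left _
  generalize tt (f.al x) (f.al y) ^ (N + 1) = e at *
  have mx : x ∈ closure ({x, y} : Set Γ) := subset_closure (Or.inl rfl)
  have hG : closure ({x, y} : Set Γ) ≤ f.G :=
    (closure_le _).2 (by rintro _ (rfl | rfl); exacts [hx.mem, hy.mem])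
  have fx : ∀ h ∈ closure ({x, y} : Set Γ), (1 - e) * f.ρ h = 1 - e := fun h hh => by
    induction hh using closure_induction with
    | mem g hg =>
      rw [f.rho, mul_add, mul_one, sub_mul, one_mul]
      rcases hg with rfl | rfl
      · rw [e1, sub_self, add_zero]
      · rw [e2, sub_self, add_zero]
    | one => simp
    | mul a b _ _ h1 h2 => rw [map_mul, ← mul_assoc, h1, h2]
    | inv a _ h1 => nth_rewrite 1 [← h1]; rw [mul_assoc, f.rho_mul_inv, mul_one]
  have form : ∀ g ∈ closure ({x, y} : Set Γ), g * x = x * g → g ^ p = 1 → f.In x g :=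
    fun g hg gx gp => by
      obtain ⟨r, hr, e4⟩ := cf g hg gx gp
      have e5 : f.al g = e * r * f.al x := f.al_eq (by
        calc f.ρ g = e * f.ρ g + (1 - e) * f.ρ g := by noncomm_ring
          _ = _ := by rw [e4, fx g hg]; noncomm_ring)
      exact ⟨⟨e * r, by rw [e5, (ea.mul_left hr).eq]⟩, _, e5⟩
  let NI : Subgroup Γ :=
    { carrier := {h | h ∈ closure ({x, y} : Set Γ) ∧ f.Rel ι h 1}
      one_mem' := ⟨one_mem _, Rel.one⟩
      mul_mem' := fun ha hb => ⟨mul_mem ha.1 hb.1, by simpa using ha.2.mul hb.2⟩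
      inv_mem' := fun ha => ⟨inv_mem ha.1, ha.2.inv (mul_one _)⟩ }
  have nx : x ∈ normalizer (NI : Set Γ) := H9.mem_normalizer_of_conj_mem fun h hh =>
    ⟨mul_mem (mul_mem mx hh.1) (inv_mem mx), by
      have := (rx.mul hh.2).mul rx.up_inv
      convert this using 1
      ext i j; fin_cases i <;> fin_cases j <;> simp⟩
  have nd : ¬ p ∣ Nat.card NI := fun hd => by
    obtain ⟨g, hg, g1, gp, gx⟩ := exists_comm nx (f.pow_p hx.sq) hd
    have h1 := form g hg.1 gx gp
    obtain ⟨-, c, hc⟩ := h1.symm hx (h1.Q hx (hG hg.1) g1)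
    have h2 := rx.al_up ![0, 1]
    rw [hc, End.mul_apply, al, LinearMap.sub_apply, hg.2, one_mulVec, End.one_apply, sub_self,
      map_zero, eq_comm, map_eq_zero_iff _ hι] at h2
    exact hl (by simpa using congrFun h2 0)
  obtain ⟨n, hn', c, hc, e3⟩ := (CopAct.of_pgroup (pg_zpowers (f.pow_p hx.sq)) nd
    (zpowers_le_of_mem nx)).exists_eq_mul_of_commutator_mem (x := u) fun a ha => by
      obtain ⟨k, rfl⟩ := (mem_powers_iff_mem_zpowers).2 ha
      have hk := pow_mem mx k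
      exact ⟨mul_mem (mul_mem (mul_mem hu hk) (inv_mem hu)) (inv_mem hk),
        (((ru.up (rx.up_pow k)).up ru.up_inv).up (rx.up_pow k).up_inv).up_zero (by ring)⟩
  have e4 : c = n⁻¹ * u := by rw [← e3]; group
  have mc : c ∈ closure ({x, y} : Set Γ) := e4 ▸ mul_mem (inv_mem hn'.1) hu
  have rc : f.Rel ι c !![1, 1; 0, 1] := by
    simpa [e4] using (hn'.2.inv (mul_one _)).mul ru
  have cp : c ^ p ∈ NI := ⟨pow_mem mc _, (rc.up_pow p).up_zero (by simp)⟩
  obtain ⟨q, hq⟩ : ∃ q, p = q + 2 := ⟨p - 2, by have := f.p5; omega⟩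
  have r1 : f.Rel ι (c ^ Nat.card NI ^ (q + 1)) !![1, 1; 0, 1] := by
    have h1 : ((Nat.card NI : ℕ) : K) ^ p = Nat.card NI :=
      map_natCast (frobenius K p) (Nat.card NI)
    have h2 : ((Nat.card NI : ℕ) : K) ≠ 0 := fun h => nd ((CharP.cast_eq_zero_iff K p _).1 h)
    have h3 : ((Nat.card NI : ℕ) : K) ^ (q + 1) = 1 := by
      refine mul_right_cancel₀ h2 ?_
      rw [← pow_succ, ← hq, h1, one_mul]
    simpa [h3] using rc.up_pow (Nat.card NI ^ (q + 1))
  have i1 := form _ (pow_mem mc (Nat.card NI ^ (q + 1)))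
    (Commute.pow_right (hc x (mem_zpowers x)) _).eq.symm (by
      rw [← pow_mul, mul_comm, pow_mul, pow_succ', pow_mul]
      have := congrArg Subtype.val (pow_card_eq_one' (x := (⟨_, cp⟩ : NI)))
      rw [coe_pow, coe_one] at this
      rw [this, one_pow])
  have q1 := i1.Q hx (hG (pow_mem mc _)) fun e => one_ne_zero (r1.up_eq hι (e ▸ Rel.one))
  exact ⟨_, i1, q1, pair_of_eig q1 hy hι r1 ry⟩

end Fr

end Cfsg.Agent.WA.Qd
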