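import Cfsg.Agent.WA.Qd4

/-! Quadratic pairs: classes of root groups; squares in a finite Jordan division ring. -/

set_option autoImplicit false
set_option linter.unusedSectionVars false

namespace Cfsg.Agent.WA.Qd

open Subgroup Module Cfsg.Agent.H8

universe u

theorem sq_fiber {E : Type*} [Ring E] [Finite E] {p : ℕ} (hp : Odd p) (h0 : (p : E) = 0)
    (J : AddSubgroup E) (h1 : (1 : E) ∈ J) (hsq : ∀ a ∈ J, a * a ∈ J)
    (hd : ∀ a ∈ J, a ≠ 0 → ∀ b, a * b = 0 → b = 0) {a b : E} (ha : a ∈ J) (hb : b ∈ J)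
    (h : a * a = b * b) : a = b ∨ a = -b := by
  obtain ⟨m, rfl⟩ := hp
  have half : ∀ x : E, (m + 1) • (x + x) = x := fun x => by
    have : (2 * m + 1) • x = 0 := by rw [nsmul_eq_mul, h0, zero_mul]
    linear_combination (norm := module) this
  have jm : ∀ x ∈ J, ∀ y ∈ J, x * y = y * x → x * y ∈ J := fun x hx y hy e => by
    have := J.sub_mem (J.sub_mem (hsq _ (J.add_mem hx hy)) (hsq x hx)) (hsq y hy)
    rw [← half (x * y)]
    refine J.nsmul_mem ?_ _
    convert this using 1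
    nth_rewrite 2 [e]
    noncomm_ring
  by_contra hcon
  push Not at hcon
  obtain ⟨c, hc⟩ : ∃ c, c = a + b := ⟨_, rfl⟩
  obtain ⟨d, hd'⟩ : ∃ d, d = a - b := ⟨_, rfl⟩
  have cJ : c ∈ J := hc ▸ J.add_mem ha hb
  have dJ : d ∈ J := hd' ▸ J.sub_mem ha hb
  have c0 : c ≠ 0 := fun e => hcon.2 (eq_neg_of_add_eq_zero_left (hc ▸ e))
  have d0 : d ≠ 0 := fun e => hcon.1 (sub_eq_zero.1 (hd' ▸ e))
  have an : d * c = -(c * d) := by
    rw [hc, hd', eq_neg_iff_add_eq_zero]
    calc _ = (a * a - b * b) + (a * a - b * b) := by noncomm_ring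
      _ = 0 := by rw [h]; simp
  have cd : Commute (c * c) d := by
    change _ = _
    rw [← mul_assoc, an, neg_mul, mul_assoc c d, an]; noncomm_ring
  have dc : Commute (d * d) c := by
    change _ = _
    rw [mul_assoc, an, mul_neg, ← mul_assoc, an]; noncomm_ring
  let K := Subring.closure ({c * c, d * d} : Set E)
  letI : CommRing K := Subring.closureCommRingOfComm (by
    rintro _ (rfl | rfl) _ (rfl | rfl)
    exacts [rfl, (cd.mul_right cd).eq, (cd.mul_right cd).eq.symm, rfl])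
  have kc : ∀ x ∈ K, Commute x c ∧ Commute x d := fun x hx => by
    induction hx using Subring.closure_induction with
    | mem x hx =>
      rcases hx with rfl | rfl
      exacts [⟨(Commute.refl c).mul_left (.refl c), cd⟩, ⟨dc, (Commute.refl d).mul_left (.refl d)⟩]
    | zero => exact ⟨Commute.zero_left _, Commute.zero_left _⟩
    | one => exact ⟨Commute.one_left _, Commute.one_left _⟩
    | add x y _ _ h1 h2 => exact ⟨h1.1.add_left h2.1, h1.2.add_left h2.2⟩
    | neg x _ h1 => exact ⟨h1.1.neg_left, h1.2.neg_left⟩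
    | mul x y _ _ h1 h2 => exact ⟨h1.1.mul_left h2.1, h1.2.mul_left h2.2⟩
  have kJ : ∀ x ∈ K, x ∈ J := fun x hx => by
    induction hx using Subring.closure_induction with
    | mem x hx =>
      rcases hx with rfl | rfl
      exacts [hsq c cJ, hsq d dJ]
    | zero => exact J.zero_mem
    | one => exact h1
    | add x y _ _ h1 h2 => exact J.add_mem h1 h2
    | neg x _ h1 => exact J.neg_mem h1
    | mul x y hx hy h1 h2 =>
      exact jm x h1 y h2 (congrArg Subtype.val (mul_comm (⟨x, hx⟩ : K) ⟨y, hy⟩))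
  haveI : Nontrivial K := ⟨⟨1, 0, fun e => c0 (by
    rw [← one_mul c, show (1 : E) = 0 from congrArg Subtype.val e, zero_mul])⟩⟩
  haveI : NoZeroDivisors K := ⟨fun {x y} e => by
    by_cases hx : x = 0
    · exact Or.inl hx
    · exact Or.inr (Subtype.ext (hd x (kJ x x.2) (fun e' => hx (Subtype.ext e')) y
        (congrArg Subtype.val e)))⟩
  haveI : IsDomain K := NoZeroDivisors.to_isDomain K
  haveI := Fintype.ofFinite K
  have hodd : Fintype.card K % 2 = 1 := by
    by_contra he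
    obtain ⟨x, hx⟩ := exists_prime_addOrderOf_dvd_card (G := K) 2 (by omega)
    have h2 : (x : E) + x = 0 := by
      have := addOrderOf_nsmul_eq_zero x
      rw [hx, two_nsmul] at this
      exact congrArg Subtype.val this
    have h3 : x = 0 := Subtype.ext (by rw [← half x, h2, smul_zero]; rfl)
    rw [h3, addOrderOf_zero] at hx
    omega
  let s : K := ⟨c * c, Subring.subset_closure (Or.inl rfl)⟩
  let s' : K := ⟨d * d, Subring.subset_closure (Or.inr rfl)⟩
  have s0 : s ≠ 0 := fun e => c0 (hd c cJ c0 c (congrArg Subtype.val e))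
  obtain ⟨x, y, e⟩ := FiniteField.exists_root_sum_quadratic (f := (Polynomial.X ^ 2 : Polynomial K))
    (g := Polynomial.C (-s) * Polynomial.X ^ 2 - Polynomial.C s') (by simp) (by
      rw [Polynomial.degree_sub_eq_left_of_degree_lt] <;>
        rw [Polynomial.degree_C_mul_X_pow _ (neg_ne_zero.2 s0)]
      · rfl
      · exact lt_of_le_of_lt Polynomial.degree_C_le (by decide)) hodd
  simp only [Polynomial.eval_pow, Polynomial.eval_X, Polynomial.eval_sub, Polynomial.eval_mul,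
    Polynomial.eval_C] at e
  have e1 : (x : E) * x = y * y * (c * c) + d * d :=
    congrArg Subtype.val (show x * x = y * y * s + s' by linear_combination e)
  have xy : (x : E) * y = y * x := congrArg Subtype.val (mul_comm x y)
  obtain ⟨xc, xd⟩ := kc x x.2
  obtain ⟨yc, yd⟩ := kc y y.2
  have xz : Commute (x : E) (y * c + d) := ((show Commute (x : E) y from xy).mul_right xc).add_right xd
  have zz : ((y : E) * c + d) * (y * c + d) = x * x := by
    rw [e1, add_mul, mul_add, mul_add, ← mul_assoc d, ← yd.eq, mul_assoc _ d, an, mul_assoc _ c,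
      ← mul_assoc c, ← yc.eq]
    noncomm_ring
  have fin : ∀ z : E, Commute z c → d = z - y * c → False := fun z hz e => by
    have h1 : Commute d c := e ▸ hz.sub_left (yc.mul_left (.refl c))
    have h2 : c * d = 0 := by
      rw [← half (c * d)]
      nth_rewrite 1 [← h1.eq]
      rw [an, neg_add_cancel, smul_zero]
    exact d0 (hd c cJ c0 d h2)
  by_cases hz : (x : E) + (y * c + d) = 0
  · exact fin (-x) xc.neg_left (by rw [add_eq_zero_iff_neg_eq.1 hz]; abel)
  · have := hd _ (J.add_mem (kJ x x.2) (J.add_mem (jm _ (kJ y y.2) c cJ yc) dJ)) hz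
      (x - (y * c + d)) (by rw [add_mul, mul_sub, mul_sub, zz, xz.eq]; abel)
    exact fin x xc (by rw [sub_eq_zero.1 this]; abel)

variable {p : ℕ} [hp : Fact p.Prime] {V : Type u} [AddCommGroup V] [Module (ZMod p) V] [Finite V]
  {Γ : Type*} [Group Γ] [Finite Γ]

namespace Fr

variable {f : Fr p V Γ}

theorem In.refl (x : Γ) : f.In x x := ⟨⟨1, (mul_one _).symm⟩, 1, (one_mul _).symm⟩

theorem In.trans {x y z : Γ} (h : f.In x y) (h' : f.In y z) : f.In x z := by
  obtain ⟨⟨a, h1⟩, b, h2⟩ := h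
  obtain ⟨⟨c, h3⟩, d, h4⟩ := h'
  exact ⟨⟨a * c, by rw [h3, h1, mul_assoc]⟩, d * b, by rw [h4, h2, mul_assoc]⟩

theorem In.conj {x y : Γ} (h : f.In x y) (g : Γ) : f.In (g * x * g⁻¹) (g * y * g⁻¹) := by
  obtain ⟨⟨a, h1⟩, b, h2⟩ := h
  exact ⟨⟨_, by rw [f.al_conj, f.al_conj, h1, ← f.conj_mul]⟩,
    _, by rw [f.al_conj, f.al_conj, h2, ← f.conj_mul]⟩

theorem in_of_neg {x y : Γ} (h : f.al x = -f.al y) : f.In x y :=
  ⟨⟨-1, by simp [h]⟩, -1, by simp [h]⟩

/-- conjugate root groups -/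
def Cj (f : Fr p V Γ) (x y : Γ) : Prop := ∃ g ∈ f.G, f.In (g * x * g⁻¹) y

theorem In.cj {x y : Γ} (h : f.In x y) : f.Cj x y := ⟨1, one_mem _, by simpa using h⟩

theorem cj_conj (x : Γ) {g : Γ} (hg : g ∈ f.G) : f.Cj x (g * x * g⁻¹) := ⟨g, hg, In.refl _⟩

theorem Cj.trans {x y z : Γ} (h : f.Cj x y) (h' : f.Cj y z) : f.Cj x z := by
  obtain ⟨g, hg, h1⟩ := h
  obtain ⟨k, hk, h2⟩ := h'
  exact ⟨k * g, mul_mem hk hg, by simpa [mul_assoc] using (h1.conj k).trans h2⟩

theorem Cj.symm {x y : Γ} (h : f.Cj x y) (hx : f.Q x) (hy : f.Q y) : f.Cj y x := by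
  obtain ⟨g, hg, h1⟩ := h
  exact ⟨g⁻¹, inv_mem hg, by simpa [mul_assoc] using (h1.symm (hx.conj' hg) hy).conj g⁻¹⟩

theorem Cj.conj {x y a : Γ} (h : f.Cj x y) (ha : a ∈ normalizer (f.G : Set Γ)) :
    f.Cj (a * x * a⁻¹) (a * y * a⁻¹) := by
  obtain ⟨g, hg, h1⟩ := h
  exact ⟨_, (mem_normalizer_iff.1 ha g).1 hg, by simpa [mul_assoc] using h1.conj a⟩

theorem Pair.symm {x y : Γ} (h : f.Pair x y) : f.Pair y x := ⟨h.2, h.1⟩

theorem Pair.rho {x y : Γ} (h : f.Pair x y) (hx : f.Q x) (hy : f.Q y) :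
    f.ρ (x * y⁻¹ * x) = 1 + f.al x - f.al y - f.al x * f.al y - f.al y * f.al x ∧
    f.ρ (x * y⁻¹ * x)⁻¹ = 1 - f.al x + f.al y - f.al x * f.al y - f.al y * f.al x := by
  have h1 := h.1
  rw [mul_assoc] at h1
  simp only [mul_inv_rev, inv_inv, map_mul, f.rho_inv hx.sq, f.rho_inv hy.sq, f.rho x, f.rho y,
    mul_add, add_mul, mul_sub, sub_mul, mul_one, one_mul, mul_assoc, hx.sq, h1]
  constructor <;> abel

theorem Pair.weyl {x y z : Γ} (h : f.Pair x y) (hx : f.Q x) (hy : f.Q y)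
    (h1 : f.al y * f.al x * f.al z = f.al z) (h2 : f.al z * (f.al x * f.al y) = f.al z) :
    f.al (x * y⁻¹ * x * z * (x * y⁻¹ * x)⁻¹) = -(f.al x * f.al z * f.al x) := by
  have h3 : f.al y * f.al z = 0 := by rw [← h1, mul_assoc, sq' hy.sq]
  have h4 : f.al z * f.al y = 0 := by rw [← h2, mul_assoc, mul_assoc, hy.sq, mul_zero, mul_zero]
  have h5 : f.ρ (x * y⁻¹ * x) * f.al z = f.al x * f.al z := by
    simp only [(h.rho hx hy).1, add_mul, sub_mul, one_mul, h1, h3, mul_assoc (f.al x), mul_zero]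
    abel
  rw [f.al_conj, h5, (h.rho hx hy).2, mul_assoc, mul_assoc]
  simp only [mul_add, mul_sub, mul_one, h2, h4, ← mul_assoc (f.al z) (f.al y), zero_mul, mul_zero]
  abel

theorem Pair.cj {x y : Γ} (h : f.Pair x y) (hx : f.Q x) (hy : f.Q y) : f.Cj y x :=
  ⟨_, mul_mem (mul_mem hx.mem (inv_mem hy.mem)) hx.mem, in_of_neg (by
    rw [h.weyl hx hy h.2 (by rw [← mul_assoc, h.2]), h.1])⟩

theorem opp_cj {x y : Γ} (hx : f.Q x) (hy : f.Q y) (h : f.al x * f.al y * f.al x ≠ 0) : f.Cj x y := by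
  obtain ⟨u, h1, h2, h3⟩ := pair hx hy h
  exact h1.cj.trans (h3.symm.cj hy h2)

theorem exists_nil {x y : Γ} (hx : f.Q x) (hy : f.Q y) (h : f.al x * f.al y * f.al x = 0) :
    ∃ k, tt (f.al x) (f.al y) ^ k = 0 := by
  by_contra hcon
  push Not at hcon
  obtain ⟨s, -, -, h1, -⟩ := non hx hy hcon
  rw [mul_assoc, tt_mul hx.sq, h, mul_zero] at h1
  exact hx.al_ne h1.symm

theorem nil_symm {x y : Γ} (hx : f.Q x) (hy : f.Q y) (h : f.al x * f.al y * f.al x = 0) :
    f.al y * f.al x * f.al y = 0 := by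
  obtain ⟨k, hk⟩ := exists_nil hx hy h
  exact nil hy hx (by rwa [tt_comm])

theorem exists_opp {x : Γ} (hx : f.Q x) : ∃ y, f.Q y ∧ f.al x * f.al y * f.al x ≠ 0 := by
  obtain ⟨g, hg, h⟩ := f.bs x hx.mem hx.ne
  refine ⟨_, hx.conj' hg, fun h0 => h fun k => ?_⟩
  obtain ⟨n, hn⟩ := exists_nil hx (hx.conj' hg) h0
  have t2 : ∀ k, (toZ.toMonoidHom.comp f.ρ) k - 1 = toZ (f.al k) := fun k => by
    rw [al, map_sub, map_one]; rfl
  obtain ⟨j, hj⟩ := H5.pow_eq_one_of_nilpotent (p := p) p_smul (toZ.toMonoidHom.comp f.ρ)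
    (by rw [t2, ← map_mul, hx.sq, map_zero]) (by rw [t2, ← map_mul, (hx.conj' hg).sq, map_zero])
    (k := n) (by rw [t2, t2, ← map_mul, ← map_mul, ← map_add, ← map_pow, ← tt, hn, map_zero]) k.2
  exact ⟨j, Subtype.ext (f.inj ((toZ_inj (hj.trans (map_one _).symm)).trans (map_one _).symm))⟩

theorem cj_special {x y : Γ} (hx : f.Q x) (hy : f.Q y) (h1 : f.al x * f.al y * f.al x = 0)
    (h2 : f.al y * f.al x * f.al y = 0) (h : x * y ≠ y * x) : f.Cj x (x * y * x⁻¹ * y⁻¹) := by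
  have hz := special hx hy h1 h2 h
  have ez := f.al_eq (rho_cm hx.sq hy.sq h1 h2)
  generalize x * y * x⁻¹ * y⁻¹ = z at hz ez
  obtain ⟨s, hs, h3⟩ := exists_opp hz
  have key : ∀ g ∈ f.G, f.Cj x z ∨ tt (f.al (g * x * g⁻¹)) (f.al s) ^ 2 = 0 := fun g hg => by
    have ha := hx.conj' hg
    by_cases h4 : f.al (g * x * g⁻¹) * f.al s * f.al (g * x * g⁻¹) = 0
    · right
      have h5 := nil_symm ha hs h4
      rw [pow_two]
      nth_rewrite 2 [tt]
      rw [mul_add, ← mul_assoc, ← mul_assoc, tt_mul ha.sq, tt_mul' hs.sq, h4, h5]; simp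
    · exact Or.inl ((cj_conj x hg).trans ((opp_cj ha hs h4).trans ((opp_cj hz hs h3).symm hz hs)))
  by_contra hcon
  have k0 := (key 1 (one_mem _)).resolve_left hcon
  have k1 := (key y hy.mem).resolve_left hcon
  have k2 := (key y⁻¹ hy.inv.mem).resolve_left hcon
  have e1 : f.al (y * x * y⁻¹) = f.al x - f.al z := by
    rw [al_conj_Q hy.sq, ez, mul_sub, add_mul, add_mul, add_mul, h2]; noncomm_ring
  have e2 : f.al (y⁻¹ * x * y⁻¹⁻¹) = f.al x + f.al z := by
    rw [al_conj_Q hy.inv.sq, f.al_inv hy.sq, ez, sub_neg_eq_add, mul_add, ← sub_eq_add_neg, sub_mul,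
      sub_mul, sub_mul, h2]; noncomm_ring
  rw [e1] at k1
  rw [e2] at k2
  simp only [one_mul, inv_one, mul_one] at k0
  refine h3 (nil hz hs (k := 2) (smul_two _ ?_ f))
  calc (2 : ZMod p) • tt (f.al z) (f.al s) ^ 2 = tt (f.al x - f.al z) (f.al s) ^ 2 +
        tt (f.al x + f.al z) (f.al s) ^ 2 - (tt (f.al x) (f.al s) ^ 2 + tt (f.al x) (f.al s) ^ 2) := by
        rw [two_smul]; simp only [tt]; noncomm_ring
    _ = 0 := by rw [k0, k1, k2]; simp

theorem cj_of_not_comm {x y : Γ} (hx : f.Q x) (hy : f.Q y) (h : x * y ≠ y * x) : f.Cj x y := by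
  by_cases h1 : f.al x * f.al y * f.al x = 0
  · have h2 := nil_symm hx hy h1
    have h3 := cj_special hy hx h2 h1 (Ne.symm h)
    have hz := special hx hy h1 h2 h
    refine (cj_special hx hy h1 h2 h).trans ((h3.trans (in_of_neg ?_).cj).symm hy hz)
    rw [← f.al_inv hz.sq]; congr 1; group
  · exact opp_cj hx hy h1

end Fr

end Cfsg.Agent.WA.Qd
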