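import Cfsg.Agent.WA.Qd5

/-! Quadratic pairs: an `SL₂(p)` fixed by a coprime group of operators. -/

set_option autoImplicit false
set_option linter.unusedSectionVars false

namespace Cfsg.Agent.WA.Qd

open Subgroup Module Cfsg.Agent.H8

universe u

variable {p : ℕ} [hp : Fact p.Prime] {V : Type u} [AddCommGroup V] [Module (ZMod p) V] [Finite V]
  {Γ : Type*} [Group Γ] [Finite Γ]

namespace Fr

variable {f : Fr p V Γ}

/-- the action on the flag `W ≤ C` -/
structure Fl (f : Fr p V Γ) (W C : Submodule (ZMod p) V) (c d : ZMod p) (g : Γ) : Prop where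
  w : ∀ v ∈ W, f.ρ g v = c • v
  m : ∀ v ∈ C, f.ρ g v - v ∈ W
  t : ∀ v, f.ρ g v - d • v ∈ C

section fl

variable {W C : Submodule (ZMod p) V} {c d c' d' : ZMod p} {g h : Γ}

theorem inv_apply (g : Γ) (v : V) : f.ρ g (f.ρ g⁻¹ v) = v := by
  rw [← End.mul_apply, f.rho_mul_inv, End.one_apply]

theorem apply_inv (g : Γ) (v : V) : f.ρ g⁻¹ (f.ρ g v) = v := by
  rw [← End.mul_apply, f.rho_inv_mul, End.one_apply]

theorem Fl.one : f.Fl W C 1 1 1 := ⟨by simp, by simp, by simp⟩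

theorem Fl.stW (h1 : f.Fl W C c d g) {v : V} (hv : v ∈ W) : f.ρ g v ∈ W := by
  rw [h1.w v hv]; exact W.smul_mem _ hv

theorem Fl.stC (hl : W ≤ C) (h1 : f.Fl W C c d g) {v : V} (hv : v ∈ C) : f.ρ g v ∈ C := by
  simpa using C.add_mem (hl (h1.m v hv)) hv

theorem Fl.mul (hl : W ≤ C) (h1 : f.Fl W C c d g) (h2 : f.Fl W C c' d' h) :
    f.Fl W C (c * c') (d * d') (g * h) where
  w v hv := by rw [map_mul, End.mul_apply, h2.w v hv, map_smul, h1.w v hv, ← mul_smul, mul_comm]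
  m v hv := by
    simpa [map_mul] using W.add_mem (h1.m _ (h2.stC hl hv)) (h2.m v hv)
  t v := by
    have := C.add_mem (h1.t (f.ρ h v)) (C.smul_mem d (h2.t v))
    simpa [map_mul, smul_sub, mul_smul] using this

theorem Fl.inv (h1 : f.Fl W C c d g) (hc : c ≠ 0) (hd : d ≠ 0) : f.Fl W C c⁻¹ d⁻¹ g⁻¹ where
  w v hv := by
    have := congrArg (f.ρ g⁻¹) (h1.w v hv)
    rw [apply_inv, map_smul] at this
    rw [eq_inv_smul_iff₀ hc, ← this]
  m v hv := by
    have h2 := h1.t (f.ρ g⁻¹ v)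
    rw [inv_apply] at h2
    have h3 : f.ρ g⁻¹ v ∈ C := by
      rw [← C.smul_mem_iff hd]; simpa using C.sub_mem hv h2
    simpa [inv_apply] using W.neg_mem (h1.m _ h3)
  t v := by
    have h2 := C.smul_mem (-d⁻¹) (h1.t (f.ρ g⁻¹ v))
    rw [inv_apply] at h2
    convert h2 using 1
    rw [smul_sub, ← mul_smul, neg_mul, inv_mul_cancel₀ hd]; module

theorem Fl.pow (hl : W ≤ C) (h1 : f.Fl W C c d g) (n : ℕ) : f.Fl W C (c ^ n) (d ^ n) (g ^ n) := by
  induction n with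
  | zero => simpa using Fl.one
  | succ n ih => rw [pow_succ, pow_succ, pow_succ]; exact ih.mul hl h1

theorem Fl.conj (h1 : f.Fl W C c d g) {a : Γ} (w1 : ∀ v ∈ W, f.ρ a v ∈ W)
    (w2 : ∀ v ∈ W, f.ρ a⁻¹ v ∈ W) (c1 : ∀ v ∈ C, f.ρ a v ∈ C) (c2 : ∀ v ∈ C, f.ρ a⁻¹ v ∈ C) :
    f.Fl W C c d (a * g * a⁻¹) where
  w v hv := by
    rw [map_mul, map_mul, End.mul_apply, End.mul_apply, h1.w _ (w2 v hv), map_smul, inv_apply]
  m v hv := by simpa [map_mul, inv_apply] using w1 _ (h1.m _ (c2 v hv))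
  t v := by simpa [map_mul, inv_apply] using c1 _ (h1.t (f.ρ a⁻¹ v))

theorem Fl.pow_p [Nontrivial V] (h1 : f.Fl W C 1 1 g) : g ^ p = 1 := by
  haveI : CharP (End (ZMod p) V) p := charP_of_injective_algebraMap (R := ZMod p)
    (algebraMap (ZMod p) _).injective p
  have h2 : f.al g ^ 3 = 0 := LinearMap.ext fun v => by
    have := h1.w _ (h1.m _ (h1.t v))
    simp only [pow_succ, pow_zero, one_mul, End.mul_apply, al, LinearMap.sub_apply, End.one_apply,
      one_smul, LinearMap.zero_apply] at this ⊢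
    exact sub_eq_zero.2 this
  apply f.inj
  rw [map_pow, f.rho, add_pow_char_of_commute _ (Commute.one_left _), one_pow,
    pow_eq_zero_of_le (by have := f.p5; omega) h2, add_zero, map_one]

end fl

theorem comm_inv {e : End (ZMod p) V} {g : Γ} (h : Commute (f.ρ g) e) : Commute (f.ρ g⁻¹) e := by
  change _ = _
  calc f.ρ g⁻¹ * e = f.ρ g⁻¹ * (e * f.ρ g) * f.ρ g⁻¹ := by
        rw [mul_assoc, mul_assoc, f.rho_mul_inv, mul_one]
    _ = _ := by rw [← h.eq, ← mul_assoc, f.rho_inv_mul, one_mul]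

theorem Pair.torus {x y : Γ} (h : f.Pair x y) (hx : f.Q x) (hy : f.Q y) {m : ℕ}
    (hm : (2 : ZMod p) * m = 1) : f.ρ (x ^ 2 * (y ^ m)⁻¹ * x ^ 2 * (x * y⁻¹ * x)⁻¹) =
      1 + f.al x * f.al y + ((m : ZMod p) - 1) • (f.al y * f.al x) := by
  have e1 := f.al_eq (f.rho_pow hy.sq m)
  have h1 := h.1
  have h2 := h.2
  have h3 : ∀ z, f.al x * (f.al y * (f.al x * z)) = f.al x * z := fun z => by
    rw [← mul_assoc, ← mul_assoc, h1]
  have h4 : ∀ z, f.al y * (f.al x * (f.al y * z)) = f.al y * z := fun z => by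
    rw [← mul_assoc, ← mul_assoc, h2]
  rw [mul_assoc] at h1 h2
  rw [map_mul, map_mul, map_mul, (h.rho hx hy).2, f.rho_pow hx.sq, f.rho_inv (by
    rw [e1, smul_mul_smul_comm, hy.sq, smul_zero]), e1]
  simp only [mul_add, add_mul, mul_sub, sub_mul, mul_one, one_mul, mul_assoc, hx.sq, hy.sq,
    sq' hx.sq, sq' hy.sq, h1, h2, h3, h4, smul_mul_assoc, mul_smul_comm, mul_zero, smul_zero,
    zero_mul]
  push_cast
  linear_combination (norm := module) hm • (f.al x - f.al y - f.al x * f.al y - f.al x * f.al y)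

theorem Pair.conj {x y : Γ} (h : f.Pair x y) (k : Γ) : f.Pair (k * x * k⁻¹) (k * y * k⁻¹) := by
  simp only [Pair, f.al_conj, f.conj_mul, h.1, h.2, and_self]

theorem exists_fixed_pair {A : Subgroup Γ} (hA : CopAct A f.G) {x : Γ} (hx : f.Q x)
    (h : ∀ a ∈ A, f.In x (a * x * a⁻¹)) : ∃ u y, f.Q u ∧ f.Q y ∧ f.Pair u y ∧ f.Cj x u ∧
      ∀ a ∈ A, Commute (f.ρ a) (f.al u * f.al y) ∧ Commute (f.ρ a) (f.al y * f.al u) := by
  obtain ⟨y, hy, ho⟩ := exists_opp hx
  obtain ⟨u, iu, hu, hP⟩ := pair hx hy ho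
  haveI : Nontrivial V := by
    by_contra hn
    rw [not_nontrivial_iff_subsingleton] at hn
    exact hx.al_ne (Subsingleton.elim _ _)
  have hl : LinearMap.range (f.al u) ≤ LinearMap.ker (f.al u) := by
    rintro _ ⟨v, rfl⟩; exact LinearMap.congr_fun hu.sq v
  have iu' : ∀ a ∈ A, f.In u (a * u * a⁻¹) := fun a ha =>
    (iu.symm hx hu).trans ((h a ha).trans (iu.conj a))
  have sW : ∀ a ∈ A, ∀ v ∈ LinearMap.range (f.al u), f.ρ a v ∈ LinearMap.range (f.al u) := by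
    rintro a ha _ ⟨v, rfl⟩
    obtain ⟨⟨c, hc⟩, -⟩ := iu' a ha
    refine ⟨c (f.ρ a v), ?_⟩
    rw [← End.mul_apply, ← hc, f.al_conj, End.mul_apply, End.mul_apply, apply_inv]
  have sC : ∀ a ∈ A, ∀ v ∈ LinearMap.ker (f.al u), f.ρ a v ∈ LinearMap.ker (f.al u) := by
    intro a ha v hv
    obtain ⟨-, c, hc⟩ := iu' _ (inv_mem ha)
    have := LinearMap.congr_fun hc v
    rw [f.al_conj, inv_inv, End.mul_apply, End.mul_apply, End.mul_apply, LinearMap.mem_ker.1 hv,
      map_zero] at this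
    rw [LinearMap.mem_ker, ← inv_apply (f := f) a (f.al u _), this, map_zero]
  obtain ⟨n, hn⟩ := f.p_odd
  have hm : (2 : ZMod p) * (n + 1 : ℕ) = 1 := by
    have : ((2 * n + 1 : ℕ) : ZMod p) = 0 := by rw [← hn, ZMod.natCast_self]
    push_cast at this ⊢
    linear_combination this
  have hr := hP.torus hu hy hm
  have hG : u ^ 2 * (y ^ (n + 1))⁻¹ * u ^ 2 * (u * y⁻¹ * u)⁻¹ ∈ f.G :=
    mul_mem (mul_mem (mul_mem (pow_mem hu.mem _) (inv_mem (pow_mem hy.mem _))) (pow_mem hu.mem _))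
      (inv_mem (mul_mem (mul_mem hu.mem (inv_mem hy.mem)) hu.mem))
  generalize u ^ 2 * (y ^ (n + 1))⁻¹ * u ^ 2 * (u * y⁻¹ * u)⁻¹ = k at hr hG
  generalize ((n + 1 : ℕ) : ZMod p) = c at hm hr
  have c0 : c ≠ 0 := fun e => by simp [e] at hm
  have a1 : ∀ v, f.al u (f.al u v) = 0 := fun v => LinearMap.congr_fun hu.sq v
  have a2 : ∀ v, f.al u (f.al y (f.al u v)) = f.al u v := fun v => LinearMap.congr_fun hP.1 v
  have fk : f.Fl (LinearMap.range (f.al u)) (LinearMap.ker (f.al u)) 2 c k := by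
    refine ⟨?_, fun v hv => ?_, fun v => ?_⟩
    · rintro _ ⟨v, rfl⟩
      simp [hr, a1, a2, two_smul]
    · simp [hr, LinearMap.mem_ker.1 hv]
    · simp [hr, a1, a2, sub_smul]
  generalize LinearMap.range (f.al u) = W, LinearMap.ker (f.al u) = C at hl sW sC fk
  let U : Subgroup Γ :=
    { carrier := {g | g ∈ f.G ∧ f.Fl W C 1 1 g}
      one_mem' := ⟨one_mem _, Fl.one⟩
      mul_mem' := fun ha hb => ⟨mul_mem ha.1 hb.1, by simpa using ha.2.mul hl hb.2⟩
      inv_mem' := fun ha => ⟨inv_mem ha.1, by simpa using ha.2.inv one_ne_zero one_ne_zero⟩ }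
  have Up : IsPGroup p U := fun g => ⟨1, Subtype.ext (by simpa using g.2.2.pow_p)⟩
  have nA : A ≤ normalizer (U : Set Γ) := fun a ha => H9.mem_normalizer_of_conj_mem fun g hg =>
    ⟨H9.conj_mem_of_mem_normalizer (hA.norm ha) hg.1,
      hg.2.conj (sW a ha) (sW _ (inv_mem ha)) (sC a ha) (sC _ (inv_mem ha))⟩
  have fk' := fk.inv f.two_ne c0
  have nk : k ∈ normalizer (U : Set Γ) := H9.mem_normalizer_of_conj_mem fun g hg =>
    ⟨mul_mem (mul_mem hG hg.1) (inv_mem hG), hg.2.conj (fun _ => fk.stW) (fun _ => fk'.stW)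
      (fun _ => fk.stC hl) (fun _ => fk'.stC hl)⟩
  have p1 : f.al u * f.al y * (f.al u * f.al y) = f.al u * f.al y := by rw [← mul_assoc, hP.1]
  have p2 : f.al y * f.al u * (f.al y * f.al u) = f.al y * f.al u := by rw [← mul_assoc, hP.2]
  have p3 : f.al u * f.al y * (f.al y * f.al u) = 0 := by rw [mul_assoc, sq' hy.sq, mul_zero]
  have p4 : f.al y * f.al u * (f.al u * f.al y) = 0 := by rw [mul_assoc, sq' hu.sq, mul_zero]
  have kp : ∀ i : ℕ, f.ρ (k ^ i) = 1 + ((2 : ZMod p) ^ i - 1) • (f.al u * f.al y) +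
      (c ^ i - 1) • (f.al y * f.al u) := fun i => by
    induction i with
    | zero => simp
    | succ i ih =>
      rw [pow_succ, map_mul, ih, hr]
      simp only [mul_add, add_mul, mul_one, one_mul, smul_mul_assoc, mul_smul_comm, p1, p2, p3, p4,
        smul_zero]
      module
  have ko : k ^ (p - 1) = 1 := f.inj (by
    rw [kp, ZMod.pow_card_sub_one_eq_one f.two_ne, ZMod.pow_card_sub_one_eq_one c0]; simp)
  have hk : CopAct (zpowers k) U := CopAct.of_pgroup_right (by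
    rw [Nat.card_zpowers]
    exact fun hd => absurd (Nat.le_of_dvd (by have := f.p5; omega)
      (hd.trans (orderOf_dvd_of_pow_eq_one ko))) (by have := f.p5; omega)) Up (zpowers_le_of_mem nk)
  obtain ⟨g, hg, h1⟩ := (hA.mono_right (N := U) (fun g hg => hg.1) nA).exists_conj_mem
    (H := centralizer (zpowers k : Set Γ)) fun a ha => by
      obtain ⟨g, hg, h1⟩ := hk.exists_mul_mem_centralizer (x := a⁻¹) fun b hb => by
        obtain ⟨i, rfl⟩ := (mem_powers_iff_mem_zpowers).2 hb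
        rw [inv_inv]
        refine ⟨mul_mem (H9.conj_mem_of_mem_normalizer (hA.norm ha) (pow_mem hG i))
          (inv_mem (pow_mem hG i)), ?_⟩
        have := ((fk.pow hl i).conj (sW a ha) (sW _ (inv_mem ha)) (sC a ha)
          (sC _ (inv_mem ha))).mul hl ((fk.pow hl i).inv (pow_ne_zero _ f.two_ne) (pow_ne_zero _ c0))
        rwa [mul_inv_cancel₀ (pow_ne_zero _ f.two_ne), mul_inv_cancel₀ (pow_ne_zero _ c0)] at this
      exact ⟨g⁻¹, inv_mem hg, by simpa using inv_mem h1⟩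
  refine ⟨_, _, hu.conj' hg.1, hy.conj' hg.1, hP.conj g, iu.cj.trans (cj_conj u hg.1), fun a ha => ?_⟩
  have h2 : Commute (f.ρ (g⁻¹ * a * g)) (f.ρ k) := by
    change _ = _
    rw [← map_mul, ← map_mul, h1 a ha k (mem_zpowers k)]
  have h3 := h2.sub_right (Commute.one_right _)
  have h4 := (h3.mul_right h3).sub_right h3
  have e1 : f.ρ k - 1 = f.al u * f.al y + (c - 1) • (f.al y * f.al u) := by rw [hr]; abel
  have c3 : (c - 1) * (c - 2) ≠ 0 := mul_ne_zero
    (fun e => one_ne_zero (by linear_combination hm - 2 * e : (1 : ZMod p) = 0))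
    (fun e => f.three_ne (by linear_combination hm - 2 * e))
  have e2 : (f.ρ k - 1) * (f.ρ k - 1) - (f.ρ k - 1) = ((c - 1) * (c - 2)) • (f.al y * f.al u) := by
    simp only [e1, mul_add, add_mul, smul_mul_assoc, mul_smul_comm, p1, p2, p3, p4, smul_zero]
    module
  have h5 : Commute (f.ρ (g⁻¹ * a * g)) (f.al y * f.al u) := by
    have := h4.smul_right ((c - 1) * (c - 2))⁻¹
    rwa [e2, inv_smul_smul₀ c3] at this
  have h6 : Commute (f.ρ (g⁻¹ * a * g)) (f.al u * f.al y) := by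
    have := h3.sub_right (h5.smul_right (c - 1))
    rwa [e1, add_sub_cancel_right] at this
  have fin : ∀ e, Commute (f.ρ (g⁻¹ * a * g)) e → Commute (f.ρ a) (f.ρ g * e * f.ρ g⁻¹) :=
    fun e he => by
      have : f.ρ a = f.ρ g * f.ρ (g⁻¹ * a * g) * f.ρ g⁻¹ := by
        rw [← map_mul, ← map_mul]; congr 1; group
      change _ = _
      rw [this, f.conj_mul, f.conj_mul, he.eq]
  rw [f.al_conj, f.al_conj, f.conj_mul, f.conj_mul]
  exact ⟨fin _ h6, fin _ h5⟩

end Fr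

end Cfsg.Agent.WA.Qd
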