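import Cfsg.Agent.WA.Qd6

/-! Quadratic pairs: the third fixed point. -/

set_option autoImplicit false
set_option linter.unusedSectionVars false

namespace Cfsg.Agent.WA.Qd

open Subgroup Module Cfsg.Agent.H8

universe u

variable {p : ℕ} [hp : Fact p.Prime] {V : Type u} [AddCommGroup V] [Module (ZMod p) V] [Finite V]
  {Γ : Type*} [Group Γ] [Finite Γ]

namespace Fr

variable {f : Fr p V Γ}

theorem al_mul {a b : Γ} (h : f.al a * f.al b = 0) : f.al (a * b) = f.al a + f.al b :=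
  f.al_eq (by
    rw [map_mul, f.rho a, f.rho b, add_mul, mul_add, mul_add, h]
    simp only [mul_one, one_mul]; abel)

theorem orth {R : Type*} [Ring R] {π π' a b : R} (h : π' * π = 0) (ha : π * a * π' = a)
    (hb : π * b * π' = b) : a * b = 0 := by
  calc a * b = π * a * π' * (π * b * π') := by rw [ha, hb]
    _ = π * a * (π' * π) * b * π' := by simp only [mul_assoc]
    _ = 0 := by rw [h, mul_zero, zero_mul, zero_mul]

/-- the root group of a pair of orthogonal idempotents -/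
def R (f : Fr p V Γ) {π π' : End (ZMod p) V} (h : π' * π = 0) : Subgroup Γ :=
  { carrier := {g | g ∈ f.G ∧ π * f.al g * π' = f.al g}
    one_mem' := ⟨one_mem _, by simp [f.al_eq_zero.2 rfl]⟩
    mul_mem' := fun ha hb => ⟨mul_mem ha.1 hb.1, by
      rw [al_mul (orth h ha.2 hb.2), mul_add, add_mul, ha.2, hb.2]⟩
    inv_mem' := fun ha => ⟨inv_mem ha.1, by
      rw [f.al_inv (orth h ha.2 ha.2), mul_neg, neg_mul, ha.2]⟩ }

theorem R_mul {π π' : End (ZMod p) V} {h : π' * π = 0} {a b : Γ} (ha : a ∈ f.R h) (hb : b ∈ f.R h) :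
    f.al a * f.al b = 0 := orth h ha.2 hb.2

theorem R_conj {π π' : End (ZMod p) V} {h : π' * π = 0} {a k : Γ} (ha : a ∈ f.R h)
    (hk : k ∈ normalizer (f.G : Set Γ)) (h1 : Commute (f.ρ k) π) (h2 : Commute (f.ρ k) π') :
    k * a * k⁻¹ ∈ f.R h :=
  ⟨H9.conj_mem_of_mem_normalizer hk ha.1, by
    rw [f.al_conj, mul_assoc π, mul_assoc _ _ π', (comm_inv h2).eq, ← mul_assoc, ← mul_assoc,
      ← mul_assoc, ← h1.eq]
    nth_rewrite 2 [← ha.2]
    simp only [mul_assoc]⟩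

theorem partner {u y : Γ} (hu : f.Q u) (hy : f.Q y) (hP : f.Pair u y)
    {h : f.al y * f.al u * (f.al u * f.al y) = 0} {r : Γ} (hr : r ∈ f.R h) (h1 : r ≠ 1) :
    f.Q r ∧ f.In u r ∧ ∃ s, f.Q s ∧ f.Pair r s ∧ f.al r * f.al s = f.al u * f.al y ∧
      f.al s * f.al r = f.al y * f.al u := by
  have i1 : f.In u r := ⟨⟨f.al y * f.al r * (f.al y * f.al u), by
    nth_rewrite 1 [← hr.2]; simp only [mul_assoc]⟩, f.al u * f.al y * f.al r * f.al y, by
    nth_rewrite 1 [← hr.2]; simp only [mul_assoc]⟩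
  have q := i1.Q hu hr.1 h1
  obtain ⟨⟨c, hc⟩, d, hd⟩ := i1.symm hu q
  obtain ⟨s, ⟨⟨c', hc'⟩, d', hd'⟩, hs, hS⟩ := pair hy q fun e => q.al_ne (by
    rw [← hr.2]
    calc _ = f.al u * (f.al y * f.al r * f.al y) * f.al u := by simp only [mul_assoc]
      _ = 0 := by rw [e, mul_zero, zero_mul])
  refine ⟨q, i1, s, hs, hS.symm, ?_, ?_⟩
  · calc f.al r * f.al s = f.al r * (d' * (f.al y * f.al u * f.al y)) := by rw [hP.2, ← hd']
      _ = f.al r * f.al s * f.al r * c * f.al y := by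
        nth_rewrite 1 [hc]; rw [hd']; simp only [mul_assoc]
      _ = _ := by rw [hS.2, ← hc]
  · calc f.al s * f.al r = f.al y * f.al u * f.al y * c' * f.al r := by rw [hP.2, ← hc']
      _ = f.al y * d * (f.al r * f.al s * f.al r) := by
        nth_rewrite 1 [hd]; rw [hc']; simp only [mul_assoc]
      _ = _ := by rw [hS.2, mul_assoc, ← hd]

theorem Pair.swap {x y : Γ} (h : f.Pair x y) (hx : f.Q x) (hy : f.Q y) :
    f.ρ (x * y⁻¹ * x) * (f.al x * f.al y) = f.al y * f.al x * f.ρ (x * y⁻¹ * x) ∧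
    f.ρ (x * y⁻¹ * x) * (f.al y * f.al x) = f.al x * f.al y * f.ρ (x * y⁻¹ * x) := by
  have h1 := h.1
  have h2 := h.2
  have h3 : ∀ z, f.al x * (f.al y * (f.al x * z)) = f.al x * z := fun z => by
    rw [← mul_assoc, ← mul_assoc, h1]
  have h4 : ∀ z, f.al y * (f.al x * (f.al y * z)) = f.al y * z := fun z => by
    rw [← mul_assoc, ← mul_assoc, h2]
  rw [mul_assoc] at h1 h2
  rw [(h.rho hx hy).1]
  simp only [mul_add, add_mul, mul_sub, sub_mul, mul_one, one_mul, mul_assoc, hx.sq,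
    hy.sq, sq' hx.sq, sq' hy.sq, h1, h2, h3, h4, mul_zero]
  constructor <;> abel

theorem exists_fixed {A : Subgroup Γ} (hA : CopAct A f.G) {u y : Γ} (hu : f.Q u) (hy : f.Q y)
    (hP : f.Pair u y)
    (hc : ∀ a ∈ A, Commute (f.ρ a) (f.al u * f.al y) ∧ Commute (f.ρ a) (f.al y * f.al u)) :
    ∃ r s, f.Q r ∧ f.Q s ∧ f.Pair r s ∧ f.In u r ∧ r ∈ centralizer (A : Set Γ) ∧
      s ∈ centralizer (A : Set Γ) := by
  classical
  have h0 : f.al y * f.al u * (f.al u * f.al y) = 0 := by rw [mul_assoc, sq' hu.sq, mul_zero]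
  have uR : u ∈ f.R h0 := ⟨hu.mem, by rw [hP.1, ← mul_assoc, hP.1]⟩
  have pt := fun r (hr : r ∈ f.R h0) h1 => partner hu hy hP hr h1
  have p1 : f.al u * f.al y * (f.al u * f.al y) = f.al u * f.al y := by rw [← mul_assoc, hP.1]
  have p2 : f.al y * f.al u * (f.al y * f.al u) = f.al y * f.al u := by rw [← mul_assoc, hP.2]
  have io : Even (Nat.card f.G) := by
    have e := (hP.rho hu hy)
    have mw : u * y⁻¹ * u ∈ f.G := mul_mem (mul_mem hu.mem (inv_mem hy.mem)) hu.mem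
    have e3 : f.al (u * y⁻¹ * u * y * (u * y⁻¹ * u)⁻¹) = -f.al u := by
      rw [hP.weyl hu hy hP.2 (by rw [← mul_assoc, hP.2]), hP.1]
    by_contra ho
    obtain ⟨k, hk⟩ := Nat.not_even_iff_odd.1 ho
    have e4 : (u * y⁻¹ * u) ^ (2 * k + 1) = 1 := by
      rw [← hk]; exact congrArg Subtype.val (pow_card_eq_one' (x := (⟨_, mw⟩ : f.G)))
    obtain ⟨s1, s2⟩ := hP.swap hu hy
    generalize u * y⁻¹ * u = w at s1 s2 e4
    have s3 : Commute (f.ρ w * f.ρ w) (f.al u * f.al y) := by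
      change _ = _
      rw [mul_assoc, s1, ← mul_assoc, s2, mul_assoc]
    have s4 := congrArg f.ρ e4
    rw [map_pow, pow_succ', pow_mul, pow_two, map_one] at s4
    have s5 : f.al u * f.al y = f.al y * f.al u := by
      rw [← one_mul (f.al u * f.al y), ← s4, mul_assoc, (s3.pow_left k).eq, ← mul_assoc, s1,
        mul_assoc _ (f.ρ w), s4, mul_one]
    exact hu.al_ne (by rw [← hP.1, s5, mul_assoc, hu.sq, mul_zero])
  generalize f.al u * f.al y = π, f.al y * f.al u = π' at *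
  choose! sp qs ps e1 e2 using fun r hr h1 => (pt r hr h1).2.2
  have qr := fun r hr h1 => (pt r hr h1).1
  have s1 : ∀ r ∈ f.R h0, r ≠ 1 → π' * f.al (sp r) = f.al (sp r) := fun r hr h1 => by
    rw [← e2 r hr h1, (ps r hr h1).2]
  have s2 : ∀ r ∈ f.R h0, r ≠ 1 → f.al (sp r) * π = f.al (sp r) := fun r hr h1 => by
    rw [← e1 r hr h1, ← mul_assoc, (ps r hr h1).2]
  have r1 : ∀ r ∈ f.R h0, π * f.al r = f.al r := fun r hr => by
    rw [← hr.2, ← mul_assoc, ← mul_assoc, p1]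
  have r2 : ∀ r ∈ f.R h0, f.al r * π' = f.al r := fun r hr => by
    rw [← hr.2, mul_assoc, p2]
  let w : Γ → Γ := fun r => r * (sp r)⁻¹ * r
  have wG : ∀ r ∈ f.R h0, r ≠ 1 → w r ∈ f.G := fun r hr h1 =>
    mul_mem (mul_mem hr.1 (inv_mem (qs r hr h1).mem)) hr.1
  have wy : ∀ r ∈ f.R h0, r ≠ 1 → ∀ r₀ ∈ f.R h0, r₀ ≠ 1 →
      f.al (w r * sp r₀ * (w r)⁻¹) = -(f.al r * f.al (sp r₀) * f.al r) := fun r hr h1 r₀ hr₀ h2 =>
    (ps r hr h1).weyl (qr r hr h1) (qs r hr h1) (by rw [e2 r hr h1, s1 r₀ hr₀ h2])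
      (by rw [e1 r hr h1, s2 r₀ hr₀ h2])
  have wR : ∀ r ∈ f.R h0, r ≠ 1 → ∀ r₀ ∈ f.R h0, r₀ ≠ 1 → w r * sp r₀ * (w r)⁻¹ ∈ f.R h0 :=
    fun r hr h1 r₀ hr₀ h2 => ⟨((qs r₀ hr₀ h2).conj' (wG r hr h1)).mem, by
      rw [wy r hr h1 r₀ hr₀ h2, mul_neg, neg_mul, ← mul_assoc, ← mul_assoc, r1 r hr, mul_assoc _ _ π',
        r2 r hr]⟩
  let T : Subgroup Γ :=
    { carrier := {g | g ∈ f.G ∧ Commute (f.ρ g) π ∧ Commute (f.ρ g) π'}
      one_mem' := ⟨one_mem _, by simp⟩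
      mul_mem' := fun ha hb => ⟨mul_mem ha.1 hb.1, by
        rw [map_mul]; exact ⟨ha.2.1.mul_left hb.2.1, ha.2.2.mul_left hb.2.2⟩⟩
      inv_mem' := fun ha => ⟨inv_mem ha.1, comm_inv ha.2.1, comm_inv ha.2.2⟩ }
  have sw : ∀ r ∈ f.R h0, r ≠ 1 → f.ρ (w r) * π = π' * f.ρ (w r) ∧ f.ρ (w r) * π' = π * f.ρ (w r) :=
    fun r hr h1 => by
      have := (ps r hr h1).swap (qr r hr h1) (qs r hr h1)
      rwa [e1 r hr h1, e2 r hr h1] at this
  have swi : ∀ {g : Γ} {a b : End (ZMod p) V}, f.ρ g * a = b * f.ρ g → f.ρ g⁻¹ * b = a * f.ρ g⁻¹ :=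
    fun {g a b} h => by
      calc f.ρ g⁻¹ * b = f.ρ g⁻¹ * (b * f.ρ g) * f.ρ g⁻¹ := by
            rw [mul_assoc, mul_assoc, f.rho_mul_inv, mul_one]
        _ = _ := by rw [← h, ← mul_assoc, f.rho_inv_mul, one_mul]
  have wT : ∀ r ∈ f.R h0, r ≠ 1 → ∀ r₀ ∈ f.R h0, r₀ ≠ 1 → w r * (w r₀)⁻¹ ∈ T :=
    fun r hr h1 r₀ hr₀ h2 => ⟨mul_mem (wG r hr h1) (inv_mem (wG r₀ hr₀ h2)), by
      change _ = _ ∧ _ = _
      constructor
      · rw [map_mul, mul_assoc, swi (sw r₀ hr₀ h2).2, ← mul_assoc, (sw r hr h1).2, mul_assoc]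
      · rw [map_mul, mul_assoc, swi (sw r₀ hr₀ h2).1, ← mul_assoc, (sw r hr h1).1, mul_assoc]⟩
  have fib : ∀ r₀ ∈ f.R h0, r₀ ≠ 1 → ∀ r ∈ f.R h0, ∀ r' ∈ f.R h0,
      f.al r * f.al (sp r₀) * f.al r = f.al r' * f.al (sp r₀) * f.al r' → r' = r ∨ r' = r⁻¹ := by
    intro r₀ hr₀ h2 r hr r' hr' e
    let W := LinearMap.range π
    have mW : ∀ r ∈ f.R h0, ∀ v, f.al r v ∈ W := fun r hr v =>
      ⟨f.al r v, LinearMap.congr_fun (r1 r hr) v⟩
    have fW : ∀ v : W, π v = v := by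
      rintro ⟨_, v, rfl⟩; exact LinearMap.congr_fun p1 v
    let J : AddSubgroup (End (ZMod p) W) :=
      { carrier := {b | ∃ r ∈ f.R h0, ∀ v : W, (b v : V) = f.al r (f.al (sp r₀) v)}
        zero_mem' := ⟨1, one_mem _, fun v => by simp [f.al_eq_zero.2 rfl]⟩
        add_mem' := fun ⟨a, ha, h1⟩ ⟨b, hb, h2⟩ => ⟨_, mul_mem ha hb, fun v => by
          rw [al_mul (R_mul ha hb), LinearMap.add_apply, LinearMap.add_apply, ← h1, ← h2]; rfl⟩
        neg_mem' := fun ⟨a, ha, h1⟩ => ⟨_, inv_mem ha, fun v => by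
          rw [f.al_inv (R_mul ha ha), LinearMap.neg_apply, LinearMap.neg_apply, ← h1]; rfl⟩ }
    have ex : ∀ r ∈ f.R h0, ∃ b : End (ZMod p) W, ∀ v : W, (b v : V) = f.al r (f.al (sp r₀) v) :=
      fun r hr => ⟨(f.al r * f.al (sp r₀)).restrict fun v _ => mW r hr _, fun v => rfl⟩
    obtain ⟨b, hb⟩ := ex r hr
    obtain ⟨b', hb'⟩ := ex r' hr'
    have fin : ∀ a ∈ f.R h0, ∀ a' ∈ f.R h0,
        (∀ v : W, f.al a (f.al (sp r₀) v) = f.al a' (f.al (sp r₀) v)) → a = a' :=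
      fun a ha a' ha' h => f.al_inj (LinearMap.ext fun v => by
        rw [← r2 a ha, ← r2 a' ha', ← e2 r₀ hr₀ h2]
        exact h ⟨_, mW r₀ hr₀ v⟩)
    rcases sq_fiber f.p_odd (LinearMap.ext fun v => p_smul v) J
      ⟨r₀, hr₀, fun v => (fW v).symm.trans (LinearMap.congr_fun (e1 r₀ hr₀ h2) v).symm⟩
      (by
        rintro c ⟨a, ha, h1⟩
        by_cases a1 : a = 1
        · exact ⟨1, one_mem _, fun v => by rw [End.mul_apply, h1, a1, f.al_eq_zero.2 rfl]; rfl⟩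
        · have h3 := wR a ha a1 r₀ hr₀ h2
          exact ⟨_, inv_mem h3, fun v => by
            rw [f.al_inv (R_mul h3 h3), wy a ha a1 r₀ hr₀ h2, neg_neg, End.mul_apply, h1, h1]; rfl⟩)
      (by
        rintro c ⟨a, ha, h1⟩ c0 d hd
        have a1 : a ≠ 1 := fun e => c0 (LinearMap.ext fun v => Subtype.ext (by
          rw [h1, e, f.al_eq_zero.2 rfl]; rfl))
        refine LinearMap.ext fun v => Subtype.ext ?_
        have h3 : f.al a (f.al (sp r₀) (d v)) = 0 := by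
          rw [← h1, ← End.mul_apply, hd]; rfl
        have h4 := congrArg (f.al (sp a)) h3
        rw [← End.mul_apply, e2 a ha a1, ← End.mul_apply, s1 r₀ hr₀ h2, map_zero] at h4
        rw [← fW, ← e1 r₀ hr₀ h2, End.mul_apply, h4, map_zero]; rfl)
      (a := b') (b := b) ⟨r', hr', hb'⟩ ⟨r, hr, hb⟩ (LinearMap.ext fun v => Subtype.ext (by
        rw [End.mul_apply, End.mul_apply, hb, hb, hb', hb']
        exact (LinearMap.congr_fun e _).symm)) with h | h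
    · exact Or.inl (fin _ hr' _ hr fun v => by rw [← hb, ← hb', h])
    · exact Or.inr (fin _ hr' _ (inv_mem hr) fun v => by
        rw [f.al_inv (R_mul hr hr), LinearMap.neg_apply, ← hb, ← hb', h]; rfl)
  haveI := Fintype.ofFinite Γ
  let S : Finset Γ := Finset.univ.filter fun r => r ∈ f.R h0 ∧ r ≠ 1
  let O : Γ → Finset Γ := fun r => S.filter fun x => ∃ k ∈ T, k * r * k⁻¹ = x
  have mS : ∀ {r}, r ∈ S ↔ r ∈ f.R h0 ∧ r ≠ 1 := by simp [S]
  have cO : ∀ r ∈ S, S.card ≤ 2 * (O r).card := fun r hr => by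
    obtain ⟨hr, h1⟩ := mS.1 hr
    have hi := inv_mem hr
    have h2 := inv_ne_one.2 h1
    refine Finset.card_le_mul_card_image_of_maps_to (f := fun x => w x * sp r⁻¹ * (w x)⁻¹)
      (fun x hx => ?_) 2 fun z _ => ?_
    · obtain ⟨hx, x1⟩ := mS.1 hx
      refine Finset.mem_filter.2 ⟨mS.2 ⟨wR x hx x1 _ hi h2,
        ((qs _ hi h2).conj' (wG x hx x1)).ne⟩, _, wT x hx x1 _ hi h2, ?_⟩
      have : w r⁻¹ * sp r⁻¹ * (w r⁻¹)⁻¹ = r := f.al_inj (by
        rw [wy _ hi h2 _ hi h2, (ps _ hi h2).1, f.al_inv (R_mul hr hr), neg_neg])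
      nth_rewrite 2 [← this]
      group
    · rcases Finset.eq_empty_or_nonempty (S.filter fun x => w x * sp r⁻¹ * (w x)⁻¹ = z) with
        h | ⟨x, hx⟩
      · rw [h]; simp
      · obtain ⟨hx, e⟩ := Finset.mem_filter.1 hx
        obtain ⟨hx, x1⟩ := mS.1 hx
        refine (Finset.card_le_card (t := {x, x⁻¹}) fun x' hx' => ?_).trans Finset.card_le_two
        obtain ⟨hx', e'⟩ := Finset.mem_filter.1 hx'
        obtain ⟨hx', x1'⟩ := mS.1 hx'
        have := congrArg f.al (e.trans e'.symm)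
        rw [wy x hx x1 _ hi h2, wy x' hx' x1' _ hi h2, neg_inj] at this
        simpa using fib _ hi h2 x hx x' hx' this
  have dj : ∀ r r', (¬ ∃ k ∈ T, k * r * k⁻¹ = r') → Disjoint (O r) (O r') := fun r r' h =>
    Finset.disjoint_left.2 fun x hx hx' => h (by
      obtain ⟨-, k, hk, e⟩ := Finset.mem_filter.1 hx
      obtain ⟨-, k', hk', e'⟩ := Finset.mem_filter.1 hx'
      refine ⟨k'⁻¹ * k, mul_mem (inv_mem hk') hk, ?_⟩
      calc _ = k'⁻¹ * (k * r * k⁻¹) * k' := by group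
        _ = r' := by rw [e, ← e']; group)
  have uS : u ∈ S := mS.2 ⟨uR, hu.ne⟩
  have cS : ∀ a ∈ A, ∀ r ∈ S, a * r * a⁻¹ ∈ S := fun a ha r hr =>
    mS.2 ⟨R_conj (mS.1 hr).1 (hA.norm ha) (hc a ha).1 (hc a ha).2, by
      simpa [mul_eq_one_iff_eq_inv'] using (mS.1 hr).2⟩
  have nT : A ≤ normalizer (T : Set Γ) := fun a ha => H9.mem_normalizer_of_conj_mem fun g hg =>
    ⟨H9.conj_mem_of_mem_normalizer (hA.norm ha) hg.1, by
      rw [map_mul, map_mul]
      exact ⟨((hc a ha).1.mul_left hg.2.1).mul_left (comm_inv (hc a ha).1),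
        ((hc a ha).2.mul_left hg.2.2).mul_left (comm_inv (hc a ha).2)⟩⟩
  let H : Subgroup Γ :=
    { carrier := {a | a ∈ A ∧ ∃ k ∈ T, k * a ∈ centralizer ({u} : Set Γ)}
      one_mem' := ⟨one_mem _, 1, one_mem _, by simp⟩
      mul_mem' := fun {a b} ⟨ha, k, hk, h1⟩ ⟨hb, k', hk', h2⟩ => ⟨mul_mem ha hb, k * (a * k' * a⁻¹),
        mul_mem hk (H9.conj_mem_of_mem_normalizer (nT ha) hk'), by
          simpa [mul_assoc] using mul_mem h1 h2⟩
      inv_mem' := fun {a} ⟨ha, k, hk, h1⟩ => ⟨inv_mem ha, a⁻¹ * k⁻¹ * a,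
        H9.conj_mem_of_mem_normalizer' (nT ha) (inv_mem hk), by
          simpa [mul_assoc] using inv_mem h1⟩ }
  have mH : ∀ a ∈ A, (∃ k ∈ T, k * u * k⁻¹ = a * u * a⁻¹) → a ∈ H := fun a ha ⟨k, hk, e⟩ =>
    ⟨ha, k⁻¹, inv_mem hk, mem_centralizer_singleton_iff.2 (by
      calc k⁻¹ * a * u = k⁻¹ * (a * u * a⁻¹) * a := by group
        _ = _ := by rw [← e]; group)⟩
  have AH : ∀ a ∈ A, a ∈ H := fun a ha => by
    by_contra n1
    have n2 : a * a ∉ H := fun h => n1 (by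
      have ho : Odd (orderOf a) := by
        by_contra ho
        have := Nat.eq_one_of_dvd_coprimes hA.cop ((Nat.not_odd_iff_even.1 ho).two_dvd.trans
          (by simpa using orderOf_dvd_natCard (⟨a, ha⟩ : A))) io.two_dvd
        omega
      obtain ⟨k, hk⟩ := ho
      have : a = ((a * a) ^ k)⁻¹ := by
        rw [eq_inv_iff_mul_eq_one, ← pow_two, ← pow_mul, ← pow_succ', ← hk, pow_orderOf_eq_one]
      rw [this]; exact inv_mem (pow_mem h k))
    have d1 := dj u _ fun h => n1 (mH a ha h)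
    have d2 := dj u _ fun h => n2 (mH _ (mul_mem ha ha) h)
    have d3 := dj (a * u * a⁻¹) (a * a * u * (a * a)⁻¹) fun ⟨k, hk, e⟩ => n1 (mH a ha
      ⟨_, H9.conj_mem_of_mem_normalizer' (nT ha) hk, by
        calc _ = a⁻¹ * (k * (a * u * a⁻¹) * k⁻¹) * a := by group
          _ = _ := by rw [e]; group⟩)
    have c1 := cO _ uS
    have c2 := cO _ (cS a ha u uS)
    have c3 := cO _ (cS _ (mul_mem ha ha) u uS)
    have c4 := Finset.card_le_card (show O u ∪ (O (a * u * a⁻¹) ∪ O (a * a * u * (a * a)⁻¹)) ⊆ S from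
      Finset.union_subset (Finset.filter_subset _ _)
        (Finset.union_subset (Finset.filter_subset _ _) (Finset.filter_subset _ _)))
    rw [Finset.card_union_of_disjoint (Finset.disjoint_union_right.2 ⟨d1, d2⟩),
      Finset.card_union_of_disjoint d3] at c4
    have := Finset.card_pos.2 ⟨u, uS⟩
    omega
  obtain ⟨k, hk, h1⟩ := (hA.mono_right (N := T) (fun g hg => hg.1) nT).exists_conj_mem
    (H := centralizer ({u} : Set Γ)) fun a ha => (AH a ha).2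
  have hr := R_conj uR (le_normalizer hk.1) hk.2.1 hk.2.2
  have n1 := (hu.conj' hk.1).ne
  have rC : ∀ a ∈ A, a * (k * u * k⁻¹) * a⁻¹ = k * u * k⁻¹ := fun a ha => by
    calc _ = k * (k⁻¹ * a * k * u) * k⁻¹ * a⁻¹ := by group
      _ = _ := by rw [mem_centralizer_singleton_iff.1 (h1 a ha)]; group
  generalize k * u * k⁻¹ = r at hr n1 rC
  refine ⟨r, sp r, qr r hr n1, qs r hr n1, ps r hr n1, (pt r hr n1).2.1,
    fun a ha => mul_inv_eq_iff_eq_mul.1 (rC a ha), fun a ha => mul_inv_eq_iff_eq_mul.1 (f.al_inj ?_)⟩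
  have e3 : f.al r * f.al (a * sp r * a⁻¹) = π := by
    nth_rewrite 1 [← rC a ha]
    rw [f.al_conj, f.al_conj, f.conj_mul, e1 r hr n1, (hc a ha).1.eq, mul_assoc, f.rho_mul_inv,
      mul_one]
  have e4 : π' * f.al (a * sp r * a⁻¹) = f.al (a * sp r * a⁻¹) := by
    rw [f.al_conj, ← mul_assoc, ← mul_assoc, ← (hc a ha).2.eq, mul_assoc _ π', s1 r hr n1]
  rw [← e4, ← e2 r hr n1, mul_assoc, e3, s2 r hr n1]

end Fr

end Cfsg.Agent.WA.Qd
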