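import Cfsg.Agent.WA.Qd7
import Cfsg.Agent.H5.QuadSL2

/-! Quadratic pairs: a section `PSL(2, p)` in the fixed points (faithful case). -/

set_option autoImplicit false
set_option linter.unusedSectionVars false

namespace Cfsg.Agent.WA.Qd

open Subgroup Module Matrix Cfsg.Agent.H8 Cfsg.Agent.H5
open scoped MatrixGroups

universe u

theorem noncommProd_perm {ι M : Type*} [Fintype ι] [Monoid M] (e : ι ≃ ι) (g : ι → M) (h h') :
    Finset.univ.noncommProd (fun i => g (e i)) h = Finset.univ.noncommProd g h' := by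
  unfold Finset.noncommProd
  congr 1
  conv_rhs => rw [← Multiset.map_univ_val_equiv e, Multiset.map_map]
  rfl

theorem secIn_diag {Γ S : Type*} [Group Γ] [Finite Γ] [Group S] {G A A₁ L : Subgroup Γ}
    (hn : A ≤ normalizer (G : Set Γ)) (hL : L ≤ G) (h1 : L ≤ centralizer (A₁ : Set Γ))
    (h2 : ∀ c ∈ A, c ∉ A₁ → ∀ k ∈ L, ∀ k' ∈ L, Commute k (c * k' * c⁻¹)) (h : SecIn S L) :
    SecIn (S ⧸ center S) (G ⊓ centralizer (A : Set Γ)) := by
  classical
  obtain ⟨K, hK, φ, hφ⟩ := h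
  haveI := Fintype.ofFinite (A ⧸ A₁.subgroupOf A)
  let c : A ⧸ A₁.subgroupOf A → Γ →* Γ := fun q => (MulAut.conj (q.out : Γ)).toMonoidHom
  have hc : ∀ (a : A) (k : K), c (a : A ⧸ A₁.subgroupOf A) k = a * k * (a : Γ)⁻¹ := fun a k => by
    obtain ⟨b, e⟩ := QuotientGroup.mk_out_eq_mul (A₁.subgroupOf A) a
    change ((a : A ⧸ A₁.subgroupOf A).out : Γ) * k * ((a : A ⧸ A₁.subgroupOf A).out : Γ)⁻¹ = _
    have e' : ((b : A) : Γ) * k = k * (b : A) := h1 (hK k.2) _ b.2
    rw [e, coe_mul, mul_assoc (a : Γ), e']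
    group
  have cm : Pairwise fun q q' : A ⧸ A₁.subgroupOf A => ∀ k k' : K,
      Commute ((c q).comp K.subtype k) ((c q').comp K.subtype k') := by
    intro q q' hq k k'
    induction q using QuotientGroup.induction_on with | H a => ?_
    induction q' using QuotientGroup.induction_on with | H b => ?_
    have := (h2 _ (a⁻¹ * b).2 (fun h => hq (QuotientGroup.eq.2 h)) _ (hK k.2) _ (hK k'.2)).map
      (MulAut.conj (a : Γ))
    change Commute (c _ k) (c _ k')
    rw [hc, hc]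
    simpa [mul_assoc] using this
  let δ : K →* Γ := (MonoidHom.noncommPiCoprod (fun q => (c q).comp K.subtype) cm).comp
    (Pi.monoidHom fun _ => MonoidHom.id K)
  have cm' : ∀ k : K, ((Finset.univ : Finset (A ⧸ A₁.subgroupOf A)) : Set _).Pairwise
      (Function.onFun Commute fun q => c q k) := fun k _ _ _ _ h => cm h k k
  have hδ : ∀ k : K, δ k = Finset.univ.noncommProd (fun q => c q k) (cm' k) := fun k => rfl
  have hk : δ.rangeRestrict.ker ≤ ((QuotientGroup.mk' (center S)).comp φ).ker := fun k hk => by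
    have e : δ k = 1 := congrArg Subtype.val hk
    have e1 : ∀ k : K, c ((1 : A) : A ⧸ A₁.subgroupOf A) k = k := fun k => by simp [hc]
    rw [hδ, ← Finset.mul_noncommProd_erase _
      (Finset.mem_univ ((1 : A) : A ⧸ A₁.subgroupOf A)), e1, mul_eq_one_iff_eq_inv] at e
    refine (QuotientGroup.eq_one_iff _).2 (Subgroup.mem_center_iff.2 fun s => ?_)
    obtain ⟨k', rfl⟩ := hφ s
    rw [← map_mul, ← map_mul]
    refine congrArg φ (Subtype.ext ?_)
    change Commute (k' : Γ) k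
    rw [e]
    refine (Finset.noncommProd_commute _ _ _ _ fun q hq => ?_).inv_right
    rw [← e1 k']
    exact cm (Finset.ne_of_mem_erase hq).symm k' k
  refine ⟨δ.range, ?_, δ.rangeRestrict.liftOfSurjective δ.rangeRestrict_surjective ⟨_, hk⟩,
    fun s => ?_⟩
  · rintro _ ⟨k, rfl⟩
    refine ⟨?_, fun a ha => mul_inv_eq_iff_eq_mul.1 ?_⟩
    · rw [hδ]
      exact noncommProd_mem _ _ fun q _ =>
        conj_mem_of_le_normalizer hn q.out.2 (hL (hK k.2))
    · change MulAut.conj a (δ k) = _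
      rw [hδ, Finset.map_noncommProd]
      refine (Finset.noncommProd_congr rfl (fun q _ => ?_) _).trans
        (noncommProd_perm (MulAction.toPerm (⟨a, ha⟩ : A)) (fun q => c q k) _ _)
      induction q using QuotientGroup.induction_on with | H b => ?_
      change _ = c ((⟨a, ha⟩ * b : A) : A ⧸ A₁.subgroupOf A) k
      rw [hc, hc]
      simp [mul_assoc]
  · obtain ⟨s, rfl⟩ := QuotientGroup.mk'_surjective _ s
    obtain ⟨k, rfl⟩ := hφ s
    exact ⟨δ.rangeRestrict k, MonoidHom.liftOfRightInverse_comp_apply _ _ _ _ _⟩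

variable {p : ℕ} [hp : Fact p.Prime] {V : Type u} [AddCommGroup V] [Module (ZMod p) V] [Finite V]
  {Γ : Type*} [Group Γ] [Finite Γ]

namespace Fr

variable {f : Fr p V Γ}

theorem Pair.pow_ne {u y : Γ} (hP : f.Pair u y) (hu : f.Q u) (hy : f.Q y) {n : ℕ} (hn : Odd n) :
    (u * y⁻¹ * u) ^ n ≠ 1 := by
  intro e4
  obtain ⟨k, rfl⟩ := hn
  obtain ⟨s1, s2⟩ := hP.swap hu hy
  generalize u * y⁻¹ * u = w at s1 s2 e4
  have s3 : Commute (f.ρ w * f.ρ w) (f.al u * f.al y) := by
    change _ = _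
    rw [mul_assoc, s1, ← mul_assoc, s2, mul_assoc]
  have s4 := congrArg f.ρ e4
  rw [map_pow, pow_succ', pow_mul, pow_two, map_one] at s4
  have s5 : f.al u * f.al y = f.al y * f.al u := by
    rw [← one_mul (f.al u * f.al y), ← s4, mul_assoc, (s3.pow_left k).eq, ← mul_assoc, s1,
      mul_assoc _ (f.ρ w), s4, mul_one]
  exact hu.al_ne (by rw [← hP.1, s5, mul_assoc, hu.sq, mul_zero])

theorem Pair.secIn {r s : Γ} (hP : f.Pair r s) (hr : f.Q r) (hs : f.Q s) :
    SecIn SL(2, ZMod p) (closure ({r, s} : Set Γ)) := by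
  let τ : Γ →* End ℤ V := (toZ : End (ZMod p) V →+* End ℤ V).toMonoidHom.comp f.ρ
  have hτ : ∀ {x}, f.Q x → (τ x - 1) * (τ x - 1) = 0 := fun {x} hx => by
    have := congrArg (toZ : End (ZMod p) V →+* End ℤ V) hx.sq
    rwa [al, map_mul, map_sub, map_one, map_zero] at this
  have m1 : r ∈ closure ({r, s} : Set Γ) := subset_closure (by simp)
  have m2 : s ∈ closure ({r, s} : Set Γ) := subset_closure (by simp)
  obtain ⟨ι, hι, h⟩ := exists_sl2_plane' f.p_ne_two (p_smul (p := p)) τ (hτ hr) (hτ hs)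
    ⟨_, mul_mem (mul_mem m1 (inv_mem m2)) m1, fun j e => hP.pow_ne hr hs f.p_odd.pow
      (f.inj (toZ_inj (e.trans (by simp))))⟩
  let X : Subgroup (Γ × SL(2, ZMod p)) :=
    { carrier := {x | x.1 ∈ closure ({r, s} : Set Γ) ∧ ∀ v, f.ρ x.1 (ι v) = ι (x.2.1 *ᵥ v)}
      one_mem' := ⟨one_mem _, fun v => by simp⟩
      mul_mem' := fun ha hb => ⟨mul_mem ha.1 hb.1, fun v => by
        rw [Prod.fst_mul, map_mul, End.mul_apply, hb.2, ha.2, mulVec_mulVec]; rfl⟩
      inv_mem' := fun {x} ha => ⟨inv_mem ha.1, fun v => by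
        have := ha.2 ((x.2⁻¹).1 *ᵥ v)
        rw [mulVec_mulVec, ← Matrix.SpecialLinearGroup.coe_mul, mul_inv_cancel,
          Matrix.SpecialLinearGroup.coe_one, one_mulVec] at this
        rw [← this, Prod.fst_inv, apply_inv]; rfl⟩ }
  refine secIn_of_injective ((MonoidHom.fst _ _).comp X.subtype) ?_ (fun x => x.2.1)
    ((MonoidHom.snd _ _).comp X.subtype) fun B => ?_
  · rw [injective_iff_map_eq_one]
    rintro ⟨⟨g, B⟩, hg, h⟩ e
    have e' : g = 1 := e
    subst e'
    refine Subtype.ext (Prod.ext rfl (Subtype.ext ?_))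
    refine Matrix.toLin'.injective (LinearMap.ext fun v => ?_)
    have := h v
    simp only [map_one, End.one_apply] at this
    simpa using (hι this).symm
  · obtain ⟨g, hg, e⟩ := h B
    exact ⟨⟨(g, B), hg, e⟩, rfl⟩

theorem main {A : Subgroup Γ} (hA : CopAct A f.G) {x : Γ} (hx : f.Q x) :
    SecIn (ProjectiveSpecialLinearGroup (Fin 2) (ZMod p)) (f.G ⊓ centralizer (A : Set Γ)) := by
  let A₁ : Subgroup Γ :=
    { carrier := {a | a ∈ A ∧ f.Cj x (a * x * a⁻¹)}
      one_mem' := ⟨one_mem _, by simpa using (In.refl x).cj⟩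
      mul_mem' := fun ha hb => ⟨mul_mem ha.1 hb.1, ha.2.trans (by
        simpa [mul_assoc] using hb.2.conj (hA.norm ha.1))⟩
      inv_mem' := fun ha => ⟨inv_mem ha.1, by
        simpa [mul_assoc] using
          (ha.2.symm hx (hx.conj (hA.norm ha.1))).conj (hA.norm (inv_mem ha.1))⟩ }
  have hA₁ : CopAct A₁ f.G := hA.mono_left fun a ha => ha.1
  let H : Subgroup Γ :=
    { carrier := {g | g ∈ normalizer (f.G : Set Γ) ∧ f.In x (g * x * g⁻¹)}
      one_mem' := ⟨one_mem _, by simpa using In.refl x⟩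
      mul_mem' := fun {a b} ha hb => ⟨mul_mem ha.1 hb.1, ha.2.trans (by
        simpa [mul_assoc] using hb.2.conj a)⟩
      inv_mem' := fun {a} ha => ⟨inv_mem ha.1, by
        simpa [mul_assoc] using (ha.2.symm hx (hx.conj ha.1)).conj a⁻¹⟩ }
  obtain ⟨k, hk, h1⟩ := hA₁.exists_conj_mem (H := H) fun a ha => by
    obtain ⟨g, hg, h⟩ := ha.2
    exact ⟨g⁻¹, inv_mem hg, mul_mem (le_normalizer (inv_mem hg)) (hA.norm ha.1), by
      simpa [mul_assoc] using h.conj g⁻¹⟩
  obtain ⟨u, y, hu, hy, hP, c1, h2⟩ := exists_fixed_pair hA₁ (hx.conj' hk) fun a ha => by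
    simpa [mul_assoc] using (h1 a ha).2.conj k
  obtain ⟨r, s, hr, hs, hP', i1, r1, s1⟩ := exists_fixed hA₁ hu hy hP h2
  have c2 : f.Cj x r := ((cj_conj x hk).trans c1).trans i1.cj
  have c3 : f.Cj x s := c2.trans (hP'.symm.cj hs hr)
  have h3 : ∀ z ∈ ({r, s} : Set Γ), f.Q z ∧ f.Cj x z := by
    rintro _ (rfl | rfl)
    exacts [⟨hr, c2⟩, ⟨hs, c3⟩]
  refine secIn_diag (A₁ := A₁) hA.norm ((closure_le _).2 fun z hz => (h3 z hz).1.mem)
    ((closure_le _).2 (by rintro _ (rfl | rfl); exacts [r1, s1])) (fun c hc n k hk k' hk' => ?_)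
    (hP'.secIn hr hs)
  have h4 : ∀ z ∈ ({r, s} : Set Γ), ∀ z' ∈ ({r, s} : Set Γ), Commute z (c * z' * c⁻¹) :=
    fun z hz z' hz' => by
      by_contra h
      have q := (h3 z' hz').1.conj (hA.norm hc)
      exact n ⟨hc, ((h3 z hz).2.trans (cj_of_not_comm (h3 z hz).1 q h)).trans
        (((h3 z' hz').2.conj (hA.norm hc)).symm (hx.conj (hA.norm hc)) q)⟩
  induction hk using closure_induction with
  | mem z hz =>
    induction hk' using closure_induction with
    | mem z' hz' => exact h4 z hz z' hz'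
    | one => simp
    | mul a b _ _ ha hb => simpa [mul_assoc] using ha.mul_right hb
    | inv a _ ha => simpa [mul_assoc] using ha.inv_right
  | one => simp
  | mul a b _ _ ha hb => exact ha.mul_left hb
  | inv a _ ha => exact ha.inv_left

end Fr

end Cfsg.Agent.WA.Qd
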