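import Cfsg.Agent.WA.RwT

/-! Rudvalis-type Sylow subgroups: basic facts (PLAN_RW.md). -/

set_option autoImplicit false
set_option linter.unusedSectionVars false
set_option linter.unusedVariables false

namespace Cfsg.Agent.WA.Rw

open Subgroup Cfsg.Agent.FT Cfsg.Agent.L0 Cfsg.Agent.H8
open Cfsg.Agent.BS (Invo)
open scoped commutatorElement

universe u

variable {G : Type u} [Group G] [Finite G] {T W D Z T' W' D' Z' U X Y K B J : Subgroup G}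
  {z z' s t x y w v d c e p q j : G}

theorem Fr.two (h : Fr T W D Z z) : IsPGroup 2 T := h.syl.pgroup
theorem Fr.z0 (h : Fr T W D Z z) : z ∈ T ⊓ 𝐂(T) := h.e1 ▸ mem_zpowers z
theorem Fr.cz (h : Fr T W D Z z) (ht : t ∈ T) : t * z = z * t := mem_cH.mp (mem_inf.mp h.z0).2 t ht
theorem Fr.nz0 (h : Fr T W D Z z) : T ≤ 𝐍(zpowers z) :=
  h.e1 ▸ le_normalizer_inf le_normalizer fun t ht => by
    rw [← cj_eq_self_iff, cj_centralizer, cj_eq_self (le_normalizer ht)]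
theorem Fr.zZ (h : Fr T W D Z z) : z ∈ Z :=
  h.eZ ▸ mem_inf.mpr ⟨(mem_inf.mp h.z0).1, le_normalizer (mem_zpowers z), fun x hx => by
    rw [comm1.mpr (h.cz hx)]; exact one_mem _⟩
theorem Fr.nZ (h : Fr T W D Z z) : T ≤ 𝐍(Z) :=
  h.eZ ▸ le_normalizer_inf le_normalizer ((le_inf h.nz0 le_normalizer).trans norm_cmod)
theorem Fr.commZ (h : Fr T W D Z z) (ht : t ∈ T) (hc : c ∈ Z) : ⁅t, c⁆ = 1 ∨ ⁅t, c⁆ = z :=
  (mem_z h.iz).mp ((mem_inf.mp (h.eZ.le hc)).2.2 t ht)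
theorem Fr.ZD (h : Fr T W D Z z) : Z ≤ D := fun c hc =>
  h.eD.ge (mem_inf.mpr ⟨(mem_inf.mp (h.eZ.le hc)).1, le_normalizer hc, fun x hx =>
    zpowers_le_of_mem h.zZ ((mem_inf.mp (h.eZ.le hc)).2.2 x hx)⟩)
theorem Fr.nD (h : Fr T W D Z z) : T ≤ 𝐍(D) :=
  h.eD ▸ le_normalizer_inf le_normalizer ((le_inf h.nZ le_normalizer).trans norm_cmod)
theorem Fr.commD (h : Fr T W D Z z) (ht : t ∈ T) (hd : d ∈ D) : ⁅t, d⁆ ∈ Z := (mem_inf.mp (h.eD.le hd)).2.2 t ht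
theorem Fr.DW (h : Fr T W D Z z) : D ≤ W := h.d16 W le_rfl (by rw [h.cW]; norm_num)
theorem Fr.WT (h : Fr T W D Z z) : W ≤ T := h.eW.le.trans inf_le_left
theorem Fr.WC (h : Fr T W D Z z) : W ≤ 𝐂(D) := h.eW.le.trans inf_le_right
theorem Fr.nW (h : Fr T W D Z z) : T ≤ 𝐍(W) :=
  h.eW ▸ le_normalizer_inf le_normalizer fun t ht => by
    rw [← cj_eq_self_iff, cj_centralizer, cj_eq_self (h.nD ht)]
theorem Fr.wd (h : Fr T W D Z z) (hw : w ∈ W) (hd : d ∈ D) : w * d = d * w := (mem_cH.mp (h.WC hw) d hd).symm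
theorem Fr.memW (h : Fr T W D Z z) (ht : t ∈ T) (hc : ∀ d ∈ D, t * d = d * t) : t ∈ W :=
  h.eW.ge (mem_inf.mpr ⟨ht, mem_cH.mpr fun d hd => (hc d hd).symm⟩)
theorem Fr.cen (h : Fr T W D Z z) (hc : c ∈ T) (hcc : ∀ t ∈ T, t * c = c * t) : c = 1 ∨ c = z :=
  (mem_z h.iz).mp (h.e1.ge (mem_inf.mpr ⟨hc, mem_cH.mpr hcc⟩))
theorem Fr.memZ (h : Fr T W D Z z) (hc : c ∈ T) (hcc : ∀ t ∈ T, ⁅t, c⁆ = 1 ∨ ⁅t, c⁆ = z) : c ∈ Z :=
  h.eZ.ge (mem_inf.mpr ⟨hc, h.nz0 hc, fun t ht => (mem_z h.iz).mpr (hcc t ht)⟩)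
theorem Fr.memD (h : Fr T W D Z z) (hd : d ∈ T) (hcc : ∀ t ∈ T, ⁅t, d⁆ ∈ Z) : d ∈ D :=
  h.eD.ge (mem_inf.mpr ⟨hd, h.nZ hd, hcc⟩)

theorem comm_flip (h : ⁅x, y⁆ ∈ K) : ⁅y, x⁆ ∈ K := by rw [← commutatorElement_inv]; exact inv_mem h

theorem Fr.z_mem (h : Fr T W D Z z) (hU : U ≤ T) (hn : T ≤ 𝐍(U)) (hc : U ≠ ⊥) : z ∈ U := by
  obtain ⟨x, h1, h2, -, h3⟩ := H5.exists_mem_not_mem_central_mod (H := ⊥) h.two hU hn fun a => hc (le_bot_iff.mp a)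
  exact (h.cen (hU h1) fun t ht => (comm1.mp (mem_bot.mp (h3 t ht))).symm).resolve_left
    (fun a => h2 (mem_bot.mpr a)) ▸ h1

theorem Fr.Z_le (h : Fr T W D Z z) (hU : U ≤ T) (hn : T ≤ 𝐍(U)) (hc : 2 < #|U|) : Z ≤ U := by
  have h0 := zpowers_le_of_mem (h.z_mem hU hn (by rintro rfl; simp at hc))
  obtain ⟨x, h1, h2, -, h3⟩ := H5.exists_mem_not_mem_central_mod (H := zpowers z) h.two hU hn fun a => by
    have := cle a
    rw [h.iz.card_zpowers] at this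
    omega
  have h4 := h.memZ (hU h1) fun t ht => (mem_z h.iz).mp (comm_flip (h3 t ht))
  intro c hc
  by_cases a : c ∈ zpowers z
  · exact h0 a
  · obtain ⟨b, hb, rfl⟩ := idx2' (zpowers_le_of_mem h.zZ) (by rw [h.cZ, h.iz.card_zpowers]) h4 hc h2 a
    exact mul_mem h1 (h0 hb)

theorem Fr.D_le (h : Fr T W D Z z) (hU : U ≤ T) (hn : T ≤ 𝐍(U)) (hc : 4 < #|U|) : D ≤ U := by
  have h0 := h.Z_le hU hn (by omega)
  obtain ⟨x, h1, h2, -, h3⟩ := H5.exists_mem_not_mem_central_mod (H := Z) h.two hU hn fun a => by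
    have := cle a
    rw [h.cZ] at this
    omega
  have h4 := h.memD (hU h1) fun t ht => comm_flip (h3 t ht)
  intro c hc
  by_cases a : c ∈ Z
  · exact h0 a
  · obtain ⟨b, hb, rfl⟩ := idx2' h.ZD (by rw [h.cZ, h.cD]) h4 hc h2 a
    exact mul_mem h1 (h0 hb)

theorem Fr.le_Z (h : Fr T W D Z z) (hU : U ≤ T) (hn : T ≤ 𝐍(U)) (hc : #|U| ≤ 4) : U ≤ Z := by
  by_cases a : 2 < #|U|
  · exact (eq_of_cle (h.Z_le hU hn a) (by rw [h.cZ]; exact hc)).ge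
  by_cases b : U = ⊥
  · exact b ▸ bot_le
  · exact (eq_of_cle (zpowers_le_of_mem (h.z_mem hU hn b)) (by rw [h.iz.card_zpowers]; omega)).ge.trans
      (zpowers_le_of_mem h.zZ)

theorem Fr.uniq (h : Fr T W D Z z) (h' : Fr T W' D' Z' z') : W = W' ∧ D = D' ∧ Z = Z' ∧ z = z' := by
  have e1 : z = z' := ((mem_z h'.iz).mp (h'.e1.ge h.z0)).resolve_left h.iz.ne_one
  subst e1
  have e2 : Z = Z' := h.eZ.trans h'.eZ.symm
  subst e2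
  have e3 : D = D' := h.eD.trans h'.eD.symm
  subst e3
  exact ⟨h.eW.trans h'.eW.symm, rfl, rfl, rfl⟩

theorem Fr.exists_cj (h : Fr T W D Z z) (h' : Fr T' W' D' Z' z') :
    ∃ g : G, H8.cj g T = T' ∧ H8.cj g W = W' ∧ H8.cj g D = D' ∧ H8.cj g Z = Z' ∧ g * z * g⁻¹ = z' := by
  obtain ⟨g, -, rfl⟩ := h.syl.exists_cj_eq h'.syl
  exact ⟨g, rfl, (h.cj g).uniq h'⟩

theorem comm_eq_sq (w v : G) : ⁅w, v⁆ = w * v * (w * v) * (v⁻¹ * (w * w)⁻¹ * v) * (v * v)⁻¹ := by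
  simp only [commutatorElement_def]; group

theorem Fr.commW (h : Fr T W D Z z) (hw : w ∈ W) (hv : v ∈ W) : ⁅w, v⁆ ∈ D := by
  rw [comm_eq_sq]
  exact mul_mem (mul_mem (h.sq _ (mul_mem hw hv)) (conj_mem'' (h.nD (h.WT hv)) (inv_mem (h.sq w hw))))
    (inv_mem (h.sq v hv))

theorem Fr.dd (h : Fr T W D Z z) (hU : U ≤ W) (hc : 2 ^ 8 ≤ #|U|) (hY : ∀ u ∈ U, u * u ∈ Y) : D ≤ Y := by
  intro d hd
  by_contra hn
  have hD := h.d16 U hU (by omega)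
  obtain ⟨M, ⟨m1, m2, m3⟩, hM⟩ := (Set.toFinite {M : Subgroup G | Y ⊓ D ≤ M ∧ M ≤ U ∧ d ∉ M}).exists_maximal
    ⟨Y ⊓ D, le_rfl, inf_le_right.trans hD, fun a => hn (mem_inf.mp a).1⟩
  have s1 : ∀ u ∈ U, u * u ∈ Y ⊓ D := fun u hu => mem_inf.mpr ⟨hY u hu, h.sq u (hU hu)⟩
  have n1 : ∀ a ∈ U, a ∈ 𝐍(M) := fun a ha => norm_of fun m hm => by
    rw [show a * m * a⁻¹ = ⁅a, m⁆ * m by simp only [commutatorElement_def]; group, comm_eq_sq]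
    exact mul_mem (mul_mem (mul_mem (m1 (s1 _ (mul_mem ha (m2 hm))))
      (mul_mem (mul_mem (inv_mem hm) (inv_mem (m1 (s1 a ha)))) hm)) (inv_mem (mul_mem hm hm))) hm
  have k1 : ∀ a ∈ U, a ∉ M → ∃ m ∈ M, a = d * m := fun a ha ha' => by
    have c1 := H5.card_sup_zpowers (p := 2) (n1 a ha) ha' (by rw [pow_two]; exact m1 (s1 a ha))
    have c2 : d ∈ M ⊔ zpowers a := by_contra fun b =>
      ha' (hM ⟨m1.trans le_sup_left, sup_le m2 (zpowers_le_of_mem ha), b⟩ le_sup_left (mem_sup_right (mem_zpowers a)))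
    exact idx2' le_sup_left (by omega) c2 (mem_sup_right (mem_zpowers a)) m3 ha'
  have k2 := cle2 (B := U) (A := M) fun a ha b hb ha' hb' => by
    obtain ⟨m, hm, rfl⟩ := k1 a ha ha'
    obtain ⟨m', hm', rfl⟩ := k1 b hb hb'
    rw [show d * m * (d * m') = d * (m * d) * m' by group, h.wd (hU (m2 hm)) hd, ← mul_assoc d d]
    exact mul_mem (mul_mem (m1 (s1 d (hD hd))) hm) hm'
  exact m3 ((mem_inf.mp (h.d16 (U ⊓ M) (inf_le_left.trans hU) (by omega) hd)).2)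

theorem sq_mul_eq (w v : G) : w * v * (w * v) = w * w * (w⁻¹ * ⁅v, w⁆ * w) * (v * v) := by
  simp only [commutatorElement_def]; group

theorem Fr.der (h : Fr T W D Z z) : ⁅W, W⁆ = D := by
  have h1 : ⁅W, W⁆ ≤ D := commutator_le.mpr fun w hw v hv => h.commW hw hv
  have h2 : T ≤ 𝐍((⁅W, W⁆ : Subgroup G)) := fun t ht => by
    rw [← cj_eq_self_iff, cj_commutator, cj_eq_self (h.nW ht)]
  refine le_antisymm h1 (h.D_le (h1.trans (h.DW.trans h.WT)) h2 (lt_of_not_ge fun a => ?_))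
  have h3 := h.le_Z (h1.trans (h.DW.trans h.WT)) h2 a
  have h4 : ∀ w ∈ W, ∀ v ∈ W, w⁻¹ * ⁅v, w⁆ * w ∈ Z := fun w hw v hv =>
    conj_mem'' (h.nZ (h.WT hw)) (h3 (commutator_mem_commutator hv hw))
  let K : Subgroup G :=
    { carrier := {w | w * w ∈ Z ∧ w ∈ W}
      one_mem' := ⟨by simp, one_mem _⟩
      mul_mem' := fun {a b} ha hb => ⟨by
        rw [sq_mul_eq]; exact mul_mem (mul_mem ha.1 (h4 a ha.2 b hb.2)) hb.1, mul_mem ha.2 hb.2⟩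
      inv_mem' := fun {a} ha => ⟨by rw [← mul_inv_rev]; exact inv_mem ha.1, inv_mem ha.2⟩ }
  have h5 := cle2 (B := W) (A := K) fun a ha b hb ha' hb' => ⟨by
    rw [sq_mul_eq]
    exact idx2 h.ZD (by rw [h.cD, h.cZ]) (mul_mem (h.sq a ha) (h.ZD (h4 a ha b hb))) (h.sq b hb)
      (fun e => ha' ⟨(mul_mem_cancel_right (h4 a ha b hb)).mp e, ha⟩) fun e => hb' ⟨e, hb⟩, mul_mem ha hb⟩
  have h6 := cle (h.dd (U := W ⊓ K) (Y := Z) inf_le_left (by rw [h.cW] at h5; omega) fun u hu => (mem_inf.mp hu).2.1)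
  rw [h.cD, h.cZ] at h6
  omega

theorem Fr.sqD (h : Fr T W D Z z) (hd : d ∈ D) : d * d = 1 := by
  let K : Subgroup G :=
    { carrier := {d | d * d = 1 ∧ d ∈ D}
      one_mem' := ⟨by simp, one_mem _⟩
      mul_mem' := fun {a b} ha hb => ⟨by
        rw [show a * b * (a * b) = a * (b * a) * b by group, h.wd (h.DW hb.2) ha.2, ← mul_assoc, ha.1, one_mul, hb.1],
        mul_mem ha.2 hb.2⟩
      inv_mem' := fun {a} ha => ⟨by rw [← mul_inv_rev, ha.1, inv_one], inv_mem ha.2⟩ }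
  have : ⁅W, W⁆ ≤ K := commutator_le.mpr fun w hw v hv => ⟨by
    have a1 := h.wd hw (h.commW hw hv)
    have a2 := comm1.mpr (h.wd hv (h.sq w hw)).symm
    rw [show ⁅w * w, v⁆ = w * ⁅w, v⁆ * w⁻¹ * ⁅w, v⁆ by simp only [commutatorElement_def]; group, a1] at a2
    simpa using a2, h.commW hw hv⟩
  exact (this (h.der.ge hd)).1

theorem Fr.pgW (h : Fr T W D Z z) : IsPGroup 2 W := h.two.to_le h.WT
theorem Fr.DT (h : Fr T W D Z z) : D ≤ T := h.DW.trans h.WT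
theorem Fr.ZT (h : Fr T W D Z z) : Z ≤ T := h.ZD.trans h.DT
theorem Fr.ZW (h : Fr T W D Z z) : Z ≤ W := h.ZD.trans h.DW
theorem Fr.pgD (h : Fr T W D Z z) : IsPGroup 2 D := h.two.to_le h.DT
theorem Fr.zD (h : Fr T W D Z z) : z ∈ D := h.ZD h.zZ
theorem Fr.zW (h : Fr T W D Z z) : z ∈ W := h.DW h.zD
theorem Fr.zT (h : Fr T W D Z z) : z ∈ T := h.WT h.zW
theorem Fr.zz (h : Fr T W D Z z) : z * z = 1 := h.iz.mul_self
theorem Fr.dcomm (h : Fr T W D Z z) (hd : d ∈ D) (he : e ∈ D) : d * e = e * d := h.wd (h.DW hd) he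
theorem Fr.dinv (h : Fr T W D Z z) (hd : d ∈ D) : d⁻¹ = d := inv_eq_of_mul_eq_one_right (h.sqD hd)
theorem Fr.zpZ (h : Fr T W D Z z) : zpowers z ≤ Z := zpowers_le_of_mem h.zZ
theorem Fr.WnD (h : Fr T W D Z z) : W ≤ 𝐍(D) := h.WT.trans h.nD
theorem Fr.wdw (h : Fr T W D Z z) (hw : w ∈ W) (hd : d ∈ D) : w * d * w⁻¹ = d := by rw [h.wd hw hd]; group
theorem Fr.tzt (h : Fr T W D Z z) (ht : t ∈ T) (hc : c ∈ zpowers z) : t * c * t⁻¹ = c := by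
  rcases (mem_z h.iz).mp hc with rfl | rfl
  · group
  · rw [h.cz ht]; group
theorem Fr.nz (h : Fr T W D Z z) : T ≤ 𝐍(zpowers z) := fun t ht => norm_of fun a ha => by rwa [h.tzt ht ha]
theorem Fr.commZ' (h : Fr T W D Z z) (ht : t ∈ T) (hc : c ∈ Z) : ⁅t, c⁆ ∈ zpowers z :=
  (mem_z h.iz).mpr (h.commZ ht hc)
theorem Fr.commTW (h : Fr T W D Z z) (ht : t ∈ T) (hw : w ∈ W) : ⁅t, w⁆ ∈ W := comm_mem_r (h.nW ht) hw

theorem comm_mul_r (a b c : G) : ⁅a, b * c⁆ = ⁅a, b⁆ * (b * ⁅a, c⁆ * b⁻¹) := by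
  simp only [commutatorElement_def]; group

theorem comm_mul_l (a b c : G) : ⁅a * b, c⁆ = a * ⁅b, c⁆ * a⁻¹ * ⁅a, c⁆ := by
  simp only [commutatorElement_def]; group

theorem conj_eq_comm (a b : G) : a * b * a⁻¹ = ⁅a, b⁆ * b := by
  simp only [commutatorElement_def]; group

theorem Fr.commD_mul (h : Fr T W D Z z) (ht : t ∈ T) (hd : d ∈ D) (he : e ∈ D) : ⁅t, d * e⁆ = ⁅t, d⁆ * ⁅t, e⁆ := by
  rw [comm_mul_r, h.wdw (h.DW hd) (h.ZD (h.commD ht he))]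

theorem Fr.memT1 (h : Fr T W D Z z) (ht : t ∈ T) : t ∈ cmod (zpowers z) D ↔ ∀ d ∈ D, ⁅t, d⁆ ∈ zpowers z := by
  refine ⟨fun h1 d hd => ?_, fun h1 => ⟨h.nz ht, fun d hd => ?_⟩⟩
  · rw [← commutatorElement_inv]; exact inv_mem (h1.2 d hd)
  · rw [← commutatorElement_inv]; exact inv_mem (h1 d hd)

theorem Fr.idxZ (h : Fr T W D Z z) (hc : c ∈ Z) (hc' : c ∉ zpowers z) (hd : d ∈ Z) (hd' : d ∉ zpowers z) :
    d = c ∨ d = c * z := by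
  obtain ⟨a, ha, rfl⟩ := idx2' h.zpZ (by rw [h.cZ, h.iz.card_zpowers]) hc hd hc' hd'
  rcases (mem_z h.iz).mp ha with rfl | rfl
  · left; group
  · right; rfl

/-- a four-subgroup of `D` -/
theorem Fr.idxB (h : Fr T W D Z z) (hB : B ≤ D) (h4 : 4 ≤ #|B|) (he : e ∈ D) (he' : e ∉ B) (hd : d ∈ D) (hd' : d ∉ B) :
    ∃ b ∈ B, d = e * b := idx2' hB (by rw [h.cD]; omega) he hd he' hd'

theorem Fr.cent_of (h : Fr T W D Z z) (hB : B ≤ D) (h4 : 4 ≤ #|B|) (he : e ∈ D) (he' : e ∉ B) (h1 : t ∈ 𝐂(B))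
    (h2 : t * e = e * t) : t ∈ 𝐂(D) := mem_cH.mpr fun d hd => by
  by_cases hd' : d ∈ B
  · exact mem_cH.mp h1 d hd'
  · obtain ⟨b, hb, rfl⟩ := h.idxB hB h4 he he' hd hd'
    rw [mul_assoc, mem_cH.mp h1 b hb, ← mul_assoc, ← h2, mul_assoc]

theorem Fr.memW' (h : Fr T W D Z z) (ht : t ∈ T) (hc : t ∈ 𝐂(D)) : t ∈ W := h.eW ▸ mem_inf.mpr ⟨ht, hc⟩

theorem Fr.memT2 (h : Fr T W D Z z) (ht : t ∈ T) (hc : c ∈ Z) (hc' : c ∉ zpowers z) (h1 : t * c = c * t) : t ∈ 𝐂(Z) :=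
  mem_cH.mpr fun d hd => by
    by_cases hd' : d ∈ zpowers z
    · have := h.tzt ht hd'
      rw [mul_inv_eq_iff_eq_mul] at this
      exact this.symm
    · rcases h.idxZ hc hc' hd hd' with rfl | rfl
      · exact h1.symm
      · rw [mul_assoc, ← h.cz ht, ← mul_assoc, ← h1, mul_assoc]

theorem Fr.notT2 (h : Fr T W D Z z) (ht : t ∈ T) (h2 : t ∉ 𝐂(Z)) (hc : c ∈ Z) (hc' : c ∉ zpowers z) : ⁅t, c⁆ = z :=
  (h.commZ ht hc).resolve_left fun h1 => h2 (h.memT2 ht hc hc' (comm1.mp h1))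

theorem Fr.memT1' (h : Fr T W D Z z) (ht : t ∈ T) (he : e ∈ D) (he' : e ∉ Z) (h1 : ⁅t, e⁆ ∈ zpowers z) :
    t ∈ cmod (zpowers z) D := (h.memT1 ht).mpr fun d hd => by
  by_cases hd' : d ∈ Z
  · exact h.commZ' ht hd'
  · obtain ⟨b, hb, rfl⟩ := h.idxB h.ZD h.cZ.ge he he' hd hd'
    rw [h.commD_mul ht he (h.ZD hb)]
    exact mul_mem h1 (h.commZ' ht hb)

theorem Fr.T12 (h : Fr T W D Z z) (ht : t ∈ T) (h1 : t ∈ cmod (zpowers z) D) (h2 : t ∈ 𝐂(Z)) (hW : t ∉ W) (he : e ∈ D)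
    (he' : e ∉ Z) : ⁅t, e⁆ = z :=
  ((mem_z h.iz).mp ((h.memT1 ht).mp h1 e he)).resolve_left fun h3 =>
    hW (h.memW' ht (h.cent_of h.ZD h.cZ.ge he he' h2 (comm1.mp h3)))

theorem Fr.exc (h : Fr T W D Z z) : ∃ c ∈ Z, c ∉ zpowers z := ex_not_mem (by rw [h.cZ, h.iz.card_zpowers]; omega)

theorem Fr.exe (h : Fr T W D Z z) (hB : #|B| ≤ 4) : ∃ e ∈ D, e ∉ B := ex_not_mem (by rw [h.cD]; omega)

theorem Fr.ncomm (h : Fr T W D Z z) (hs : s ∈ T) (ht : t ∈ T) (h1 : s ∉ 𝐂(Z)) (h2 : t ∉ cmod (zpowers z) D)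
    (h3 : s ∈ cmod (zpowers z) D ∨ t ∈ 𝐂(Z)) : ⁅s, t⁆ ∉ W := by
  intro hw
  obtain ⟨e, he, he'⟩ := h.exe h.cZ.le
  have a1 := h.commD hs he
  have a2 := h.commD ht he
  have a3 : ⁅t, e⁆ ∉ zpowers z := fun a => h2 (h.memT1' ht he he' a)
  have a4 := h.notT2 hs h1 a2 a3
  have a5 : t * ⁅s, e⁆ * t⁻¹ = ⁅s, e⁆ := by
    rcases h3 with h3 | h3
    · exact h.tzt ht ((h.memT1 hs).mp h3 e he)
    · rw [← mem_cH.mp h3 _ a1]; group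
  have a6 : ⁅s * t, e⁆ = z * ⁅t, e⁆ * ⁅s, e⁆ := by rw [comm_mul_l, conj_eq_comm, a4]
  have a7 : ⁅t * s, e⁆ = ⁅s, e⁆ * ⁅t, e⁆ := by rw [comm_mul_l, a5]
  have a8 : ⁅s * t, e⁆ = ⁅t * s, e⁆ := by
    rw [show s * t = ⁅s, t⁆ * (t * s) by simp only [commutatorElement_def]; group, comm_mul_l,
      h.wdw hw (h.ZD (h.commD (mul_mem ht hs) he)), comm1.mpr (h.wd hw he), mul_one]
  rw [a6, a7, h.dcomm (h.ZD a1) (h.ZD a2), mul_assoc, mul_eq_right] at a8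
  exact h.iz.ne_one a8

theorem Fr.ncomm' (h : Fr T W D Z z) (hs : s ∈ T) (ht : t ∈ T) (h1 : s ∉ 𝐂(Z)) (h2 : t ∉ cmod (zpowers z) D)
    (h3 : s ∈ cmod (zpowers z) D ∨ t ∈ 𝐂(Z)) : s * t ≠ t * s := fun e =>
  h.ncomm hs ht h1 h2 h3 (comm1.mpr e ▸ one_mem _)

theorem Fr.NW_le (h : Fr T W D Z z) : 𝐍(W) ≤ 𝐍(D) := fun g hg => by
  rw [← cj_eq_self_iff, ← h.der, cj_commutator, cj_eq_self hg]

theorem Fr.comm_symm (h : Fr T W D Z z) (hw : w ∈ W) (hv : v ∈ W) : ⁅w, v⁆ = ⁅v, w⁆ := by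
  rw [← commutatorElement_inv, h.dinv (h.commW hv hw)]

theorem Fr.sq_mul (h : Fr T W D Z z) (hw : w ∈ W) (hv : v ∈ W) : w * v * (w * v) = w * w * (v * v) * ⁅w, v⁆ := by
  have := h.wdw (inv_mem hw) (h.commW hv hw)
  rw [inv_inv] at this
  rw [sq_mul_eq, this, mul_assoc (w * w), ← h.wd (mul_mem hv hv) (h.commW hv hw), h.comm_symm hw hv, ← mul_assoc]

theorem Fr.comm_mul (h : Fr T W D Z z) (hw : w ∈ W) (hv : v ∈ W) (hx : x ∈ W) : ⁅w, v * x⁆ = ⁅w, v⁆ * ⁅w, x⁆ := by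
  rw [comm_mul_r, h.wdw hv (h.commW hw hx)]

theorem Fr.card_cent (h : Fr T W D Z z) (hw : w ∈ W) : 2 ^ 8 ≤ #|(W ⊓ 𝐂[w] : Subgroup G)| := by
  have := cnt_c fun y hy => h.commW hy hw
  rw [h.cW, h.cD] at this
  omega

/-- the order of `X W` -/
theorem Fr.cXW (h : Fr T W D Z z) (hX : X ≤ T) : #|(X ⊔ W : Subgroup G)| * #|(X ⊓ W : Subgroup G)| = #|X| * 2 ^ 11 := by
  rw [csup (hX.trans h.nW), h.cW]

theorem Fr.c8 (h : Fr T W D Z z) (hX : X ≤ T) : #|X| ≤ 8 * #|(X ⊓ W : Subgroup G)| := by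
  have h1 := h.cXW hX
  have h2 := cle (sup_le hX h.WT)
  rw [h.cT] at h2
  nlinarith [Nat.mul_le_mul_right #|(X ⊓ W : Subgroup G)| h2]

end Cfsg.Agent.WA.Rw
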