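import Cfsg.Agent.WA.Rw0a

/-! Rudvalis-type Sylow subgroups: basic facts (PLAN_RW.md). -/

set_option autoImplicit false
set_option linter.unusedSectionVars false
set_option linter.unusedVariables false

namespace Cfsg.Agent.WA.Rw

open Subgroup Cfsg.Agent.FT Cfsg.Agent.L0 Cfsg.Agent.H8
open Cfsg.Agent.BS (Invo)
open scoped commutatorElement

universe u

variable {G : Type u} [Group G] [Finite G] {T W D Z T' W' D' Z' U X Y K B J : Subgroup G}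
  {z z' s t x y w v d c e p q j : G}

theorem Fr.singular (h : Fr T W D Z z) {P : Subgroup G} (hD : D ≤ P) (hP : P ≤ U) (hU : U ≤ W) (hc : 8 * #|P| ≤ #|U|)
    (hY : Y ≤ D) (hd : d ∈ D) (hs : ∀ u ∈ U, u * u ∈ Y ∨ u * u * d ∈ Y) : ∃ u ∈ U, u ∉ P ∧ u * u ∈ Y := by
  by_contra hn
  push Not at hn
  have hs' : ∀ u ∈ U, u ∉ P → u * u * d ∈ Y := fun u hu hu' => (hs u hu).resolve_left (hn u hu hu')
  have step : ∀ Q, D ≤ Q → Q ≤ U → 2 * #|Q| ≤ #|U| → ∃ a ∈ U, a ∉ Q ∧ #|(Q ⊔ zpowers a : Subgroup G)| = #|Q| * 2 :=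
    fun Q h1 h2 h3 => by
      obtain ⟨a, ha, ha'⟩ := ex_not_mem (A := Q) (B := U) (by have := cpos Q; omega)
      exact ⟨a, ha, ha', H5.card_sup_zpowers (p := 2) (norm_of fun q hq => by
        rw [conj_eq_comm]; exact mul_mem (h1 (h.commW (hU ha) (hU (h2 hq)))) hq) ha'
        (by rw [pow_two]; exact h1 (h.sq a (hU ha)))⟩
  obtain ⟨a, ha, a1, a2⟩ := step P hD hP (by omega)
  obtain ⟨b, hb, b1, b2⟩ := step (P ⊔ zpowers a) (hD.trans le_sup_left) (sup_le hP (zpowers_le_of_mem ha)) (by omega)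
  obtain ⟨c, hc', c1, -⟩ := step (P ⊔ zpowers a ⊔ zpowers b) (hD.trans (le_sup_left.trans le_sup_left))
    (sup_le (sup_le hP (zpowers_le_of_mem ha)) (zpowers_le_of_mem hb)) (by omega)
  have ma : a ∈ P ⊔ zpowers a := mem_sup_right (mem_zpowers a)
  have mb : b ∈ P ⊔ zpowers a ⊔ zpowers b := mem_sup_right (mem_zpowers b)
  have f : ∀ q ∈ P ⊔ zpowers a ⊔ zpowers b, q * c ∉ P := fun q hq e =>
    c1 ((mul_mem_cancel_left hq).mp (mem_sup_left (mem_sup_left e)))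
  have e1 := hs' a ha a1
  have e2 := hs' b hb fun e => b1 (mem_sup_left e)
  have e3 := hs' (a * b) (mul_mem ha hb) fun e => b1 ((mul_mem_cancel_left ma).mp (mem_sup_left e))
  have e4 := hs' c hc' fun e => c1 (mem_sup_left (mem_sup_left e))
  have e5 := hs' (a * c) (mul_mem ha hc') (f a (mem_sup_left ma))
  have e6 := hs' (b * c) (mul_mem hb hc') (f b mb)
  have e7 := hs' (a * b * c) (mul_mem (mul_mem ha hb) hc') (f _ (mul_mem (mem_sup_left ma) mb))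
  have aW := hU ha
  have bW := hU hb
  have cW := hU hc'
  rw [h.sq_mul (mul_mem aW bW) cW, h.comm_symm (mul_mem aW bW) cW, h.comm_mul cW aW bW, h.comm_symm cW aW,
    h.comm_symm cW bW, h.sq_mul aW bW] at e7
  rw [h.sq_mul aW bW] at e3
  rw [h.sq_mul aW cW] at e5
  rw [h.sq_mul bW cW] at e6
  have dY : d ∈ Y := by
    letI : CommGroup D := { (inferInstance : Group D) with mul_comm := fun x y => Subtype.ext (h.dcomm x.2 y.2) }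
    have sq : ∀ x : D, x * x = 1 := fun x => Subtype.ext (h.sqD x.2)
    have key : ∀ A B C x y u d : D, A * d * (B * d) * (A * B * x * d) * (C * d) * (A * C * y * d) * (B * C * u * d) *
        (A * B * x * C * (y * u) * d) = d := fun A B C x y u d => by
      refine Eq.trans ?_ (show A * A * B * B * C * C * x * y * u * d * d * d *
        (A * A * B * B * C * C * x * y * u * d * d * d) * d = d by rw [sq, one_mul])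
      simp only [mul_comm, mul_left_comm, mul_assoc]
    have := congrArg Subtype.val (key ⟨_, h.sq a aW⟩ ⟨_, h.sq b bW⟩ ⟨_, h.sq c cW⟩ ⟨_, h.commW aW bW⟩ ⟨_, h.commW aW cW⟩
      ⟨_, h.commW bW cW⟩ ⟨d, hd⟩)
    have e8 := mul_mem (mul_mem (mul_mem (mul_mem (mul_mem (mul_mem e1 e2) e3) e4) e5) e6) e7
    exact (show d = _ from this.symm) ▸ e8
  exact hn a ha a1 ((mul_mem_cancel_right dY).mp e1)

theorem Fr.cv_step (h : Fr T W D Z z) (ht : t ∈ T) (hw : w ∈ W) (h2 : ⁅t * t, w⁆ ∈ D) : ⁅t, ⁅t, w⁆⁆ ∈ D := by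
  have a := conj_mem' (h.nW ht) hw
  rw [show ⁅t, ⁅t, w⁆⁆ = ⁅t * t, w⁆ * (w * (t * w * t⁻¹)⁻¹ * (w * (t * w * t⁻¹)⁻¹)) by
    simp only [commutatorElement_def]; group]
  exact mul_mem h2 (h.sq _ (mul_mem hw (inv_mem a)))

theorem Fr.cv1_mem (h : Fr T W D Z z) (ht : t ∈ T) (h2 : t * t ∈ W) (hw : w ∈ W) : ⁅t, w⁆ ∈ W ⊓ cmod D {t} :=
  mem_inf.mpr ⟨h.commTW ht hw, mem_cmod_single.mpr ⟨h.WnD (h.commTW ht hw), h.cv_step ht hw (h.commW h2 hw)⟩⟩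

theorem Fr.cv_sup (h : Fr T W D Z z) (hw : w ∈ W ⊓ cmod D Y) (hx : x ∈ 𝐍(D)) (hY : Y ≤ 𝐍(D)) (h1 : ⁅x, w⁆ ∈ D) :
    w ∈ W ⊓ cmod D (Y ⊔ zpowers x : Subgroup G) := by
  obtain ⟨a1, a2, a3⟩ := mem_inf.mp hw
  have : Y ⊔ zpowers x ≤ cmod D {w} := sup_le (fun y hy => mem_cmod_single.mpr ⟨hY hy, comm_flip (a3 y hy)⟩)
    (zpowers_le_of_mem (mem_cmod_single.mpr ⟨hx, comm_flip h1⟩))
  exact mem_inf.mpr ⟨a1, a2, fun y hy => comm_flip (mem_cmod_single.mp (this hy)).2⟩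

theorem Fr.D_cv (h : Fr T W D Z z) (hX : X ≤ T) : D ≤ W ⊓ cmod D X := fun d hd =>
  mem_inf.mpr ⟨h.DW hd, h.WnD (h.DW hd), fun x hx => h.ZD (h.commD (hX hx) hd)⟩

theorem Fr.up (h : Fr T W D Z z) (h1 : Y ≤ X) (h2 : X ≤ T) (hc : #|Y| < #|X|) :
    ∃ Y', Y ≤ Y' ∧ Y' ≤ X ∧ #|Y'| = #|Y| * 2 ∧
      #|(W ⊓ cmod D Y : Subgroup G)| * 8 ≤ #|(W ⊓ cmod D Y' : Subgroup G)| * #|(W ⊓ cmod D Y' : Subgroup G)| := by
  obtain ⟨x, x1, x2, x3, x4⟩ := H5.exists_mem_normalizer_not_mem (h.two.to_le h2) h1 fun a => by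
    have := cle a
    omega
  have xT := h2 x1
  have YD : Y ≤ 𝐍(D) := h1.trans (h2.trans h.nD)
  refine ⟨Y ⊔ zpowers x, le_sup_left, sup_le h1 (zpowers_le_of_mem x1), H5.card_sup_zpowers x4 x2 x3, ?_⟩
  have n1 : x ∈ 𝐍((W ⊓ cmod D Y : Subgroup G)) :=
    inf_normalizer_le_normalizer_inf (mem_inf.mpr ⟨h.nW xT, norm_cmod (mem_inf.mpr ⟨h.nD xT, x4⟩)⟩)
  have := cnt_m (Y := W ⊓ cmod D Y) (e := x) (h.D_cv (sup_le (h1.trans h2) (zpowers_le_of_mem xT)))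
    (inf_le_left.trans h.WnD) fun w hw => h.cv_sup (comm_mem_r n1 hw) (h.nD xT) YD
      (h.cv_step xT (mem_inf.mp hw).1 ((mem_inf.mp hw).2.2 _ (pow_two x ▸ x3)))
  rw [h.cD] at this
  exact this.trans (Nat.mul_le_mul_left _ (cle fun w hw =>
    h.cv_sup (mem_inf.mp hw).1 (h.nD xT) YD (mem_cmod_single.mp (mem_inf.mp hw).2).2))

theorem Fr.cv0 (h : Fr T W D Z z) : W ⊓ cmod D W = W :=
  inf_eq_left.mpr fun w hw => ⟨h.WnD hw, fun x hx => h.commW hx hw⟩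

theorem Fr.cv_low1 (h : Fr T W D Z z) (h1 : W ≤ X) (h2 : X ≤ T) (hc : #|X| = 2 ^ 12) :
    2 ^ 7 ≤ #|(W ⊓ cmod D X : Subgroup G)| := by
  obtain ⟨Y, y1, y2, y3, y4⟩ := h.up h1 h2 (by rw [h.cW, hc]; norm_num)
  rw [eq_of_cle y2 (by rw [y3, hc, h.cW]; norm_num), h.cv0, h.cW] at y4
  nlinarith

theorem Fr.cv_low2 (h : Fr T W D Z z) (h1 : W ≤ X) (h2 : X ≤ T) (hc : #|X| = 2 ^ 13) :
    2 ^ 5 ≤ #|(W ⊓ cmod D X : Subgroup G)| := by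
  obtain ⟨Y, y1, y2, y3, -⟩ := h.up h1 h2 (by rw [h.cW, hc]; norm_num)
  rw [h.cW] at y3
  have := h.cv_low1 y1 (y2.trans h2) (by omega)
  obtain ⟨Y', y1', y2', y3', y4⟩ := h.up y2 h2 (by omega)
  rw [eq_of_cle y2' (by omega)] at y4
  nlinarith

theorem Fr.cv3 (h : Fr T W D Z z) : #|(W ⊓ cmod D T : Subgroup G)| = 2 ^ 4 := by
  refine le_antisymm ((cle (inf_le_inf_right _ h.WT)).trans h.c4.le) ?_
  have cT := h.cT
  obtain ⟨Y, y1, y2, y3, -⟩ := h.up h.WT le_rfl (by rw [h.cW, cT]; norm_num)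
  rw [h.cW] at y3
  obtain ⟨Y', y1', y2', y3', -⟩ := h.up y2 le_rfl (by omega)
  have := h.cv_low2 (y1.trans y1') y2' (by omega)
  obtain ⟨Y'', -, y2'', y3'', y4⟩ := h.up y2' le_rfl (by omega)
  rw [eq_of_cle y2'' (by omega)] at y4
  nlinarith

theorem Fr.cv2 (h : Fr T W D Z z) (h1 : W ≤ X) (h2 : X ≤ T) (hc : #|X| = 2 ^ 13) :
    #|(W ⊓ cmod D X : Subgroup G)| = 2 ^ 5 := by
  refine le_antisymm ?_ (h.cv_low2 h1 h2 hc)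
  have cT := h.cT
  obtain ⟨Y, -, y2, y3, y4⟩ := h.up h2 le_rfl (by omega)
  rw [eq_of_cle y2 (by omega), h.cv3] at y4
  omega

theorem Fr.cv1 (h : Fr T W D Z z) (ht : t ∈ T) (hn : t ∉ W) (h2 : t * t ∈ W) :
    #|(W ⊓ cmod D {t} : Subgroup G)| = 2 ^ 7 := by
  have c1 := H5.card_sup_zpowers (p := 2) (h.nW ht) hn (by rwa [pow_two])
  rw [h.cW] at c1
  have l : W ⊔ zpowers t ≤ T := sup_le h.WT (zpowers_le_of_mem ht)
  have e : W ⊓ cmod D {t} = W ⊓ cmod D (W ⊔ zpowers t : Subgroup G) := le_antisymm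
    (fun w hw => h.cv_sup (h.cv0.ge (mem_inf.mp hw).1) (h.nD ht) h.WnD (mem_cmod_single.mp (mem_inf.mp hw).2).2)
    (inf_le_inf_left _ (cmod_anti (Set.singleton_subset_iff.mpr (mem_sup_right (mem_zpowers t)))))
  rw [e]
  refine le_antisymm ?_ (h.cv_low1 le_sup_left l (by omega))
  have cT := h.cT
  obtain ⟨Y, y1, y2, y3, y4⟩ := h.up l le_rfl (by omega)
  rw [h.cv2 (le_sup_left.trans y1) y2 (by omega)] at y4
  omega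

theorem Fr.cv1_ex (h : Fr T W D Z z) (ht : t ∈ T) (hn : t ∉ W) (h2 : t * t ∈ W) (hw : w ∈ W) (hc : ⁅t, w⁆ ∈ D) :
    ∃ v ∈ W, ∃ d ∈ D, w = ⁅t, v⁆ * d := by
  have mul : ∀ a b : G, (∃ v ∈ W, ∃ d ∈ D, a = ⁅t, v⁆ * d) → (∃ v ∈ W, ∃ d ∈ D, b = ⁅t, v⁆ * d) →
      ∃ v ∈ W, ∃ d ∈ D, a * b = ⁅t, v⁆ * d := by
    rintro _ _ ⟨v, hv, d, hd, rfl⟩ ⟨v', hv', d', hd', rfl⟩
    have a1 := h.commTW ht hv'
    have a2 := h.commW hv a1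
    refine ⟨v * v', mul_mem hv hv', ⁅v, ⁅t, v'⁆⁆ * d * d', mul_mem (mul_mem a2 hd) hd', ?_⟩
    rw [comm_mul_r, conj_eq_comm, ← h.wd a1 a2]
    calc ⁅t, v⁆ * d * (⁅t, v'⁆ * d') = ⁅t, v⁆ * (d * ⁅t, v'⁆) * d' := by group
      _ = ⁅t, v⁆ * ⁅t, v'⁆ * (⁅v, ⁅t, v'⁆⁆ * ⁅v, ⁅t, v'⁆⁆) * d * d' := by rw [← h.wd a1 hd, h.sqD a2]; group
      _ = _ := by simp only [mul_assoc]
  let I : Subgroup G :=
    { carrier := {a | ∃ v ∈ W, ∃ d ∈ D, a = ⁅t, v⁆ * d}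
      one_mem' := ⟨1, one_mem _, 1, one_mem _, by simp⟩
      mul_mem' := fun {a b} ha hb => mul a b ha hb
      inv_mem' := fun {a} ha => by
        obtain ⟨v, hv, d, hd, e⟩ := ha
        have := mul a (a * a)⁻¹ ⟨v, hv, d, hd, e⟩
          ⟨1, one_mem _, _, inv_mem (h.sq a (e ▸ mul_mem (h.commTW ht hv) (h.DW hd))), by simp⟩
        simpa [mul_assoc] using this }
  have h1 : I ≤ W ⊓ cmod D {t} := by
    rintro _ ⟨v, hv, d, hd, rfl⟩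
    exact mul_mem (h.cv1_mem ht h2 hv) (mem_inf.mpr ⟨h.DW hd, mem_cmod_single.mpr ⟨h.WnD (h.DW hd), h.ZD (h.commD ht hd)⟩⟩)
  have h3 := cnt_m (L := I) (Y := W) (e := t) (fun d hd => ⟨1, one_mem _, d, hd, by simp⟩) h.WnD
    fun y hy => ⟨y, hy, 1, one_mem _, by simp⟩
  rw [h.cv1 ht hn h2, h.cW, h.cD] at h3
  have h4 := eq_of_cle h1 (by rw [h.cv1 ht hn h2]; omega)
  exact h4.ge (mem_inf.mpr ⟨hw, mem_cmod_single.mpr ⟨h.WnD hw, hc⟩⟩)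

theorem Fr.WT1 (h : Fr T W D Z z) : W ≤ T ⊓ cmod (zpowers z) D := fun w hw =>
  mem_inf.mpr ⟨h.WT hw, (h.memT1 (h.WT hw)).mpr fun d hd => by rw [comm1.mpr (h.wd hw hd)]; exact one_mem _⟩

theorem Fr.WT2 (h : Fr T W D Z z) : W ≤ T ⊓ 𝐂(Z) := le_inf h.WT (h.WC.trans (centralizer_le h.ZD))

theorem Fr.i2 (h : Fr T W D Z z) (hX : X ≤ T) : #|X| ≤ 2 * #|(X ⊓ 𝐂(Z) : Subgroup G)| := by
  obtain ⟨c, h1, h2⟩ := h.exc
  have := cnt_c fun y hy => h.commZ' (hX hy) h1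
  rw [h.iz.card_zpowers] at this
  exact this.trans (Nat.mul_le_mul_left _ (cle fun y hy =>
    mem_inf.mpr ⟨(mem_inf.mp hy).1, h.memT2 (hX (mem_inf.mp hy).1) h1 h2 (mem_c1.mp (mem_inf.mp hy).2)⟩))

theorem Fr.i1 (h : Fr T W D Z z) (hX : X ≤ T) : #|X| ≤ 2 * #|(X ⊓ cmod (zpowers z) D : Subgroup G)| := by
  obtain ⟨e, h1, h2⟩ := h.exe h.cZ.le
  have := cnt_m (e := e) h.zpZ (hX.trans h.nz) fun y hy => comm_flip (h.commD (hX hy) h1)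
  rw [h.iz.card_zpowers, h.cZ] at this
  have := cle (fun y hy => mem_inf.mpr ⟨(mem_inf.mp hy).1, h.memT1' (hX (mem_inf.mp hy).1) h1 h2
    (comm_flip (mem_cmod_single.mp (mem_inf.mp hy).2).2)⟩ : X ⊓ cmod (zpowers z) {e} ≤ X ⊓ cmod (zpowers z) D)
  omega

theorem Fr.i12 (h : Fr T W D Z z) : #|(T ⊓ cmod (zpowers z) D ⊓ 𝐂(Z) : Subgroup G)| ≤ 2 ^ 12 := by
  obtain ⟨e, h1, h2⟩ := h.exe h.cZ.le
  have := cnt_c (Y := T ⊓ cmod (zpowers z) D ⊓ 𝐂(Z)) fun y hy =>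
    (h.memT1 (mem_inf.mp (mem_inf.mp hy).1).1).mp (mem_inf.mp (mem_inf.mp hy).1).2 e h1
  rw [h.iz.card_zpowers] at this
  have := cle (fun y hy => h.memW' (mem_inf.mp (mem_inf.mp (mem_inf.mp hy).1).1).1 (h.cent_of h.ZD h.cZ.ge h1 h2
    (mem_inf.mp (mem_inf.mp hy).1).2 (mem_c1.mp (mem_inf.mp hy).2)) : T ⊓ cmod (zpowers z) D ⊓ 𝐂(Z) ⊓ 𝐂[e] ≤ W)
  rw [h.cW] at this
  omega

theorem Fr.cT1 (h : Fr T W D Z z) : #|(T ⊓ cmod (zpowers z) D : Subgroup G)| = 2 ^ 13 := by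
  have a := h.i1 le_rfl
  have b := h.i2 (inf_le_left : T ⊓ cmod (zpowers z) D ≤ T)
  have c := h.i12
  rw [h.cT] at a
  omega

theorem Fr.cT2 (h : Fr T W D Z z) : #|(T ⊓ 𝐂(Z) : Subgroup G)| = 2 ^ 13 := by
  have a := h.i2 le_rfl
  have b := h.i1 (inf_le_left : T ⊓ 𝐂(Z) ≤ T)
  have c := h.i12
  rw [h.cT] at a
  rw [inf_right_comm] at b
  omega

theorem Fr.cT12 (h : Fr T W D Z z) : #|(T ⊓ cmod (zpowers z) D ⊓ 𝐂(Z) : Subgroup G)| = 2 ^ 12 := by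
  have b := h.i2 (inf_le_left : T ⊓ cmod (zpowers z) D ≤ T)
  have c := h.i12
  rw [h.cT1] at b
  omega

theorem Fr.sqT1 (h : Fr T W D Z z) (ht : t ∈ T ⊓ cmod (zpowers z) D) : t * t ∈ W := by
  obtain ⟨h1, h2⟩ := mem_inf.mp ht
  refine h.memW (mul_mem h1 h1) fun d hd => ?_
  have a := (h.memT1 h1).mp h2 d hd
  rw [← comm1, comm_mul_l, h.tzt h1 a, h.sqD (h.ZD (h.zpZ a))]

theorem Fr.sqT2 (h : Fr T W D Z z) (ht : t ∈ T ⊓ 𝐂(Z)) : t * t ∈ W := by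
  obtain ⟨h1, h2⟩ := mem_inf.mp ht
  refine h.memW (mul_mem h1 h1) fun d hd => ?_
  have a := h.commD h1 hd
  rw [← comm1, comm_mul_l, ← mem_cH.mp h2 _ a, mul_inv_cancel_right, h.sqD (h.ZD a)]

theorem Fr.of_sq (h : Fr T W D Z z) (ht : t ∈ T) (h2 : t * t ∈ W) : t ∈ cmod (zpowers z) D ∨ t ∈ 𝐂(Z) := by
  by_contra hn
  push Not at hn
  obtain ⟨e, h1, h3⟩ := h.exe h.cZ.le
  have a := h.commD ht h1
  have b := h.notT2 ht hn.2 a fun b => hn.1 (h.memT1' ht h1 h3 b)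
  have c := comm1.mpr (h.wd h2 h1)
  rw [comm_mul_l, conj_eq_comm, b, mul_assoc, h.sqD (h.ZD a), mul_one] at c
  exact h.iz.ne_one c

theorem Fr.exists_sq (h : Fr T W D Z z) (h1 : W ≤ K) (h2 : ¬ T ≤ K) : ∃ x ∈ T, x ∉ K ∧ x * x ∈ D := by
  obtain ⟨x, x1, x2, x3⟩ : ∃ x ∈ T, x ∉ K ∧ x * x ∈ W := by
    by_contra hn
    push Not at hn
    have a1 : T ⊓ cmod (zpowers z) D ≤ T ⊓ K := fun t ht =>
      mem_inf.mpr ⟨(mem_inf.mp ht).1, by_contra fun a => hn t (mem_inf.mp ht).1 a (h.sqT1 ht)⟩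
    have a2 : T ⊓ 𝐂(Z) ≤ T ⊓ K := fun t ht =>
      mem_inf.mpr ⟨(mem_inf.mp ht).1, by_contra fun a => hn t (mem_inf.mp ht).1 a (h.sqT2 ht)⟩
    obtain ⟨t, t1, t2⟩ := ex_not_mem (A := T ⊓ cmod (zpowers z) D ⊓ 𝐂(Z)) (B := T ⊓ 𝐂(Z))
      (by rw [h.cT12, h.cT2]; norm_num)
    have := clt a1 (a2 t1) fun a => t2 (mem_inf.mpr ⟨a, (mem_inf.mp t1).2⟩)
    rw [h.cT1] at this
    exact h2 ((eq_of_cle inf_le_left (by rw [h.cT]; omega)).ge.trans inf_le_right)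
  obtain ⟨v, hv, d, hd, e⟩ := h.cv1_ex x1 (fun a => x2 (h1 a)) x3 x3
    (by rw [comm1.mpr (mul_assoc x x x).symm]; exact one_mem _)
  refine ⟨x * v, mul_mem x1 (h.WT hv), fun a => x2 ((mul_mem_cancel_right (h1 hv)).mp a), ?_⟩
  rw [show x * v * (x * v) = x * v * x⁻¹ * (x * x) * v by group, conj_eq_comm, e,
    show ⁅x, v⁆ * v * (⁅x, v⁆ * d) * v = ⁅x, v⁆ * v * ⁅x, v⁆ * (d * v) by simp only [mul_assoc], ← h.wd hv hd,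
    show ⁅x, v⁆ * v * ⁅x, v⁆ * (v * d) = ⁅x, v⁆ * v * (⁅x, v⁆ * v) * d by simp only [mul_assoc]]
  exact mul_mem (h.sq _ (mul_mem (h.commTW x1 hv) hv)) hd

theorem Fr.sylN (h : Fr T W D Z z) : IsSylowIn 2 T 𝐍(D) := h.syl.of_le h.nD le_top

theorem Fr.sylC (h : Fr T W D Z z) : IsSylowIn 2 W 𝐂(D) := by
  have := h.sylN.inf_of_le_normalizer (N := 𝐂(D)) fun g hg => by
    rw [← cj_eq_self_iff, cj_centralizer, cj_eq_self hg]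
  rwa [← h.eW, inf_eq_right.mpr c_le_n] at this

theorem Fr.exC (h : Fr T W D Z z) (hY : IsPGroup 2 Y) (hc : Y ≤ 𝐂(D)) : ∃ T₀ W₀, Fr T₀ W₀ D Z z ∧ Y ≤ W₀ := by
  obtain ⟨P, hP, hYP⟩ := exists_isSylowIn_ge hY hc
  obtain ⟨k, hk, rfl⟩ := h.sylC.exists_cj_eq hP
  have := h.cj k
  rw [cj_eq_self_of_mem_centralizer hk, cj_eq_self_of_mem_centralizer (centralizer_le h.ZD hk),
    ← mem_cH.mp hk z h.zD, mul_inv_cancel_right] at this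
  exact ⟨_, _, this, hYP⟩

theorem Fr.exN (h : Fr T W D Z z) (hY : IsPGroup 2 Y) (hc : Y ≤ 𝐍(D)) :
    ∃ T₀ W₀ Z₀ z₀, Fr T₀ W₀ D Z₀ z₀ ∧ Y ≤ T₀ := by
  obtain ⟨P, hP, hYP⟩ := exists_isSylowIn_ge hY hc
  obtain ⟨k, hk, rfl⟩ := h.sylN.exists_cj_eq hP
  have := h.cj k
  rw [cj_eq_self hk] at this
  exact ⟨_, _, _, _, this, hYP⟩

theorem Fr.idx8 (h : Fr T W D Z z) (hY : IsPGroup 2 Y) (hc : Y ≤ 𝐍(D)) :
    #|Y| ≤ 8 * #|(Y ⊓ 𝐂(D) : Subgroup G)| := by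
  obtain ⟨T₀, W₀, Z₀, z₀, h₀, h1⟩ := h.exN hY hc
  exact (h₀.c8 h1).trans (Nat.mul_le_mul_left _ (cle (inf_le_inf_left _ h₀.WC)))

theorem Fr.f2 (h : Fr T W D Z z) (h' : Fr T' W' D' Z' z') (hY : IsPGroup 2 Y) (h1 : Y ≤ 𝐂(D)) (h2 : Y ≤ 𝐂(D'))
    (hc : 2 ^ 8 ≤ #|Y|) : D = D' := by
  obtain ⟨T₀, W₀, h₀, a⟩ := h.exC hY h1
  obtain ⟨T₁, W₁, h₁, b⟩ := h'.exC hY h2
  exact eq_of_cle (h₀.dd a hc fun u hu => h₁.sq u (b hu)) (by rw [h.cD, h'.cD])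

/-- `W` is weakly closed -/
theorem Fr.wc (h : Fr T W D Z z) (h' : Fr T' W' D' Z' z') (hle : W' ≤ T) : W' = W ∧ D' = D := by
  have h1 := h.c8 hle
  rw [h'.cW] at h1
  have h2 := h.f2 h' (h.pgW.to_le inf_le_right : IsPGroup 2 (W' ⊓ W : Subgroup G)) (inf_le_right.trans h.WC)
    (inf_le_left.trans h'.WC) (by omega)
  subst h2
  exact ⟨eq_of_cle (fun w hw => h.memW' (hle hw) (h'.WC hw)) (by rw [h.cW, h'.cW]), rfl⟩

theorem Fr.exT (h : Fr T W D Z z) (hY : IsPGroup 2 Y) : ∃ g : G, Y ≤ H8.cj g T := by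
  obtain ⟨P, hP, hYP⟩ := exists_isSylowIn_ge hY (le_top : Y ≤ ⊤)
  obtain ⟨g, -, rfl⟩ := h.syl.exists_cj_eq hP
  exact ⟨g, hYP⟩

theorem Fr.fus (h : Fr T W D Z z) (hd : d ∈ D) {g : G} (hg : g * d * g⁻¹ ∈ D) :
    ∃ n ∈ 𝐍(W), n * d * n⁻¹ = g * d * g⁻¹ := by
  obtain ⟨S, hS, h1⟩ := exists_isSylowIn_ge h.pgW (fun w hw => mem_c1.mpr (h.wd hw hg) : W ≤ 𝐂[g * d * g⁻¹])
  obtain ⟨S', hS', h2⟩ := exists_isSylowIn_ge (h.cj g).pgW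
    (fun w hw => mem_c1.mpr ((h.cj g).wd hw (conj_mem_cj g hd)) : H8.cj g W ≤ 𝐂[g * d * g⁻¹])
  obtain ⟨k, hk, rfl⟩ := hS'.exists_cj_eq hS
  obtain ⟨g', hg'⟩ := h.exT hS.pgroup
  have e1 := ((h.cj g').wc h (h1.trans hg')).1
  have e2 := ((h.cj g').wc ((h.cj g).cj k) ((cj_mono k h2).trans hg')).1
  refine ⟨k * g, cj_eq_self_iff.mp (by rw [cj_mul, e2, ← e1]), ?_⟩
  rw [show k * g * d * (k * g)⁻¹ = k * (g * d * g⁻¹) * k⁻¹ by group, mem_c1.mp hk, mul_inv_cancel_right]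

theorem Fr.lemA (h : Fr T W D Z z) (h' : Fr T' W' D' Z' z') (h1 : D' ≤ 𝐂(D)) (hc : 4 ≤ #|(D ⊓ D' : Subgroup G)|) :
    D = D' := by
  obtain ⟨T₀, W₀, h₀, a⟩ := h.exC h'.pgD h1
  by_cases b : D' ≤ D
  · exact (eq_of_cle b (by rw [h.cD, h'.cD])).symm
  obtain ⟨y, y1, y2⟩ := SetLike.not_le_iff_exists.mp b
  exact h.f2 h' (h₀.pgW.to_le inf_le_left) (inf_le_left.trans h₀.WC) (fun w hw => h'.cent_of inf_le_right hc y1
    (fun e => y2 (mem_inf.mp e).1) (centralizer_le inf_le_left (h₀.WC (mem_inf.mp hw).1))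
    (mem_c1.mp (mem_inf.mp hw).2)) (h₀.card_cent (a y1))

theorem Fr.big (h : Fr T W D Z z) (h' : Fr T' W' D' Z' z') (hU : U ≤ W) (hn : U ≤ 𝐍(D')) (hc : 2 ^ 10 ≤ #|U|) :
    D = D' := by
  obtain ⟨T₀, W₀, Z₀, z₀, h₀, a⟩ := h'.exN (h.pgW.to_le hU) hn
  have a1 := h₀.c8 a
  have a2 : D' ≤ W := (h₀.d16 (U ⊓ W₀) inf_le_right (by omega)).trans (inf_le_left.trans hU)
  by_contra ne
  have a3 : #|(D ⊓ D' : Subgroup G)| ≤ 2 := le_of_lt_pow' (k := 1) h.pgD inf_le_left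
    (lt_of_not_ge fun b => ne (h.lemA h' (a2.trans h.WC) b))
  obtain ⟨e, e1, e2⟩ := h₀.exe h₀.cZ.le
  have a4 := h₀.i2 a
  have a5 := (cnt_c (Y := U ⊓ 𝐂(Z₀)) (L := D ⊓ D') fun y hy => mem_inf.mpr ⟨h.commW (hU (mem_inf.mp hy).1) (a2 e1),
    h₀.ZD (h₀.commD (a (mem_inf.mp hy).1) e1)⟩).trans (Nat.mul_le_mul_right _ a3)
  exact ne (h.f2 h' (Y := U ⊓ 𝐂(Z₀) ⊓ 𝐂[e]) (h.pgW.to_le (inf_le_left.trans (inf_le_left.trans hU)))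
    (inf_le_left.trans (inf_le_left.trans (hU.trans h.WC))) (fun y hy => h₀.cent_of h₀.ZD h₀.cZ.ge e1 e2
      (mem_inf.mp (mem_inf.mp hy).1).2 (mem_c1.mp (mem_inf.mp hy).2)) (by omega))

end Cfsg.Agent.WA.Rw
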