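import Cfsg.Agent.WA.IRw0
import Cfsg.Agent.WA.RwT

/-! Rudvalis-type Sylow subgroups: more on `T / W` (PLAN_RW.md). -/

set_option autoImplicit false
set_option linter.unusedSectionVars false
set_option linter.unusedVariables false

namespace Cfsg.Agent.WA.Rw

open Subgroup Cfsg.Agent.FT Cfsg.Agent.L0 Cfsg.Agent.H8
open Cfsg.Agent.BS (Invo)
open scoped commutatorElement

universe u

variable {G : Type u} [Group G] [Finite G] {T W D Z T' W' D' Z' U X Y K B J : Subgroup G}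
  {z z' s t x w v d c e p q j : G}

theorem Fr.idx12 (h : Fr T W D Z z) (hs : s ∈ T ⊓ cmod (zpowers z) D ⊓ 𝐂(Z)) (ht : t ∈ T ⊓ cmod (zpowers z) D ⊓ 𝐂(Z))
    (hs' : s ∉ W) (ht' : t ∉ W) : s * t ∈ W :=
  idx2 (le_inf h.WT1 (h.WT2.trans inf_le_right)) (by rw [h.cT12, h.cW]; norm_num) hs ht hs' ht'

theorem Fr.comm_B (h : Fr T W D Z z) (hB : B ≤ D) (h4 : 4 ≤ #|B|) (ht : t ∈ 𝐍(D)) (hn : t ∈ 𝐍(B)) (hd : d ∈ D) :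
    ⁅t, d⁆ ∈ B := by
  by_cases hd' : d ∈ B
  · exact comm_mem_r hn hd'
  · refine idx2 hB (by rw [h.cD]; omega) (conj_mem' ht hd) (inv_mem hd) (fun a => hd' ?_) (by simpa using hd')
    simpa [mul_assoc] using conj_mem'' hn a

theorem Fr.sq4 (h : Fr T W D Z z) (hB : B ≤ D) (h4 : 4 ≤ #|B|) (ht : t ∈ T) (hc : t ∈ 𝐂(B)) : t * t ∈ W :=
  h.memW (mul_mem ht ht) fun d hd => by
    have a := h.comm_B hB h4 (h.nD ht) (c_le_n hc) hd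
    rw [← comm1, comm_mul_l, ← mem_cH.mp hc _ a, mul_inv_cancel_right, h.sqD (hB a)]

theorem Fr.c12 (h : Fr T W D Z z) (h1 : W ≤ X) (hs : s ∈ X) (hs' : s ∉ W) : 2 ^ 12 ≤ #|X| := by
  have := clt h1 hs hs'
  rw [h.cW] at this
  omega

theorem Fr.c13 (h : Fr T W D Z z) (h1 : W ≤ X) (h2 : X ≤ T) (hs : s ∈ X) (ht : t ∈ X) (hs' : s ∉ W) (ht' : t ∉ W)
    (hst : s * t ∉ W) : 2 ^ 13 ≤ #|X| := by
  refine le_of_lt_pow h.two h2 (lt_of_not_ge fun hn => hst (idx2 h1 ?_ hs ht hs' ht'))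
  rw [h.cW]; omega

theorem Fr.W_le_cm (h : Fr T W D Z z) (hJ : J ≤ W) : W ≤ T ⊓ cmod D J :=
  fun w hw => mem_inf.mpr ⟨h.WT hw, h.WnD hw, fun j hj => h.commW (hJ hj) hw⟩

theorem Fr.le_cv (h : Fr T W D Z z) (hJ : J ≤ W) (hX : X ≤ cmod D J) : J ⊔ D ≤ W ⊓ cmod D X := by
  refine sup_le (fun j hj => mem_inf.mpr ⟨hJ hj, h.WnD (hJ hj), fun x hx => ?_⟩)
    fun d hd => mem_inf.mpr ⟨h.DW hd, h.WnD (h.DW hd), fun x hx => comm_mem_r (hX hx).1 hd⟩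
  rw [← commutatorElement_inv]; exact inv_mem ((hX hx).2 j hj)

theorem Fr.cJD (h : Fr T W D Z z) (hJ : J ≤ W) {n : ℕ} (hn : #|(J ⊔ D : Subgroup G)| ≤ 8 * n) :
    #|J| ≤ n * #|(J ⊓ D : Subgroup G)| := by
  have := csup (hJ.trans h.WnD)
  rw [h.cD] at this
  nlinarith [Nat.mul_le_mul_right #|(J ⊓ D : Subgroup G)| hn]

theorem Fr.cvB (h : Fr T W D Z z) (hJ : J ≤ W) (hc : T ≤ cmod D J) : #|J| ≤ 2 * #|(J ⊓ D : Subgroup G)| :=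
  h.cJD hJ ((cle (h.le_cv hJ hc)).trans (by rw [h.cv3]; norm_num))

theorem Fr.cvA (h : Fr T W D Z z) (hJ : J ≤ W) (hc : 2 ^ 13 ≤ #|(T ⊓ cmod D J : Subgroup G)|) :
    #|J| ≤ 4 * #|(J ⊓ D : Subgroup G)| := by
  rcases hc.eq_or_lt with hc | hc
  · exact h.cJD hJ ((cle (h.le_cv hJ inf_le_right)).trans (by rw [h.cv2 (h.W_le_cm hJ) inf_le_left hc.symm]; norm_num))
  · have := le_of_lt_pow h.two inf_le_left hc
    have e : T ⊓ cmod D J = T := eq_of_cle inf_le_left (by rw [h.cT]; exact this)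
    have := h.cvB hJ (inf_eq_left.mp e)
    omega

theorem Fr.cvA' (h : Fr T W D Z z) (hJ : J ≤ W) (hs : s ∈ T) (ht : t ∈ T) (hs' : s ∉ W) (ht' : t ∉ W) (hst : s * t ∉ W)
    (h1 : ∀ j ∈ J, ⁅s, j⁆ ∈ D) (h2 : ∀ j ∈ J, ⁅t, j⁆ ∈ D) : #|J| ≤ 4 * #|(J ⊓ D : Subgroup G)| :=
  h.cvA hJ (h.c13 (h.W_le_cm hJ) inf_le_left
    (mem_inf.mpr ⟨hs, h.nD hs, fun j hj => by rw [← commutatorElement_inv]; exact inv_mem (h1 j hj)⟩)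
    (mem_inf.mpr ⟨ht, h.nD ht, fun j hj => by rw [← commutatorElement_inv]; exact inv_mem (h2 j hj)⟩) hs' ht' hst)

theorem Fr.c4le (h : Fr T W D Z z) (hX : X ≤ T) (hK : W ≤ K) (h1 : X ≤ K) (hc : #|K| ≤ 2 ^ 13) :
    #|X| ≤ 4 * #|(X ⊓ W : Subgroup G)| := by
  have h1' := h.cXW hX
  have h2 := (cle (sup_le h1 hK)).trans hc
  nlinarith [Nat.mul_le_mul_right #|(X ⊓ W : Subgroup G)| h2]

/-- a `2`-subgroup centralizing a part of `D` -/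
theorem Fr.exX (h : Fr T W D Z z) (hB : B ≤ D) (hY : IsPGroup 2 Y) (hc : Y ≤ 𝐂(B)) :
    ∃ T₀ W₀ D₀ Z₀ z₀, Fr T₀ W₀ D₀ Z₀ z₀ ∧ B ≤ D₀ ∧ Y ≤ T₀ := by
  obtain ⟨S, hS, hWS⟩ := exists_isSylowIn_ge h.pgW (h.WC.trans (centralizer_le hB) : W ≤ 𝐂(B))
  obtain ⟨S', hS', hYS⟩ := exists_isSylowIn_ge hY hc
  obtain ⟨k, hk, rfl⟩ := hS.exists_cj_eq hS'
  obtain ⟨g, hg⟩ := h.exT hS.pgroup
  obtain ⟨-, e⟩ := (h.cj g).wc h (hWS.trans hg)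
  refine ⟨_, _, _, _, _, (h.cj g).cj k, ?_, hYS.trans (cj_mono k hg)⟩
  rw [← e, ← cj_eq_self_of_mem_centralizer hk]
  exact cj_mono k hB

theorem Fr.exX1 (h : Fr T W D Z z) (hx : x ∈ D) (hY : IsPGroup 2 Y) (hc : Y ≤ 𝐂[x]) :
    ∃ T₀ W₀ D₀ Z₀ z₀, Fr T₀ W₀ D₀ Z₀ z₀ ∧ x ∈ D₀ ∧ Y ≤ T₀ := by
  obtain ⟨T₀, W₀, D₀, Z₀, z₀, h1, h2, h3⟩ := h.exX (zpowers_le_of_mem hx) hY (by rwa [zpowers_eq_closure, centralizer_closure])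
  exact ⟨T₀, W₀, D₀, Z₀, z₀, h1, h2 (mem_zpowers x), h3⟩

end Cfsg.Agent.WA.Rw
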