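import Cfsg.Agent.WA.Rw1
import Cfsg.Agent.WA.GMain
import Cfsg.Agent.H7.GlaubAut
import Cfsg.Agent.H7.Misc

/-! Rudvalis-type Sylow subgroups: `N(D) = N(W) O(N(D))` (PLAN_RW.md, P2). -/

set_option autoImplicit false
set_option linter.unusedSectionVars false
set_option linter.unusedVariables false

namespace Cfsg.Agent.WA.Rw

open Subgroup Cfsg.Agent.FT Cfsg.Agent.L0 Cfsg.Agent.H8
open Cfsg.Agent.BS (Invo)
open Cfsg.Agent.H7 (opp)
open scoped commutatorElement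

universe u

local instance : Fact (Nat.Prime 2) := Nat.fact_prime_two

variable {G : Type u} [Group G] [Finite G] {T W D Z A B A' B' E Y : Subgroup G} {z c d d' t : G}

/-- what a component of `C(D)/D` gives -/
structure R2 (W D A B : Subgroup G) (d : G) : Prop where
  DA : D ≤ A
  DB : D ≤ B
  AW : A ≤ W
  BW : B ≤ W
  inf : ∀ a ∈ A, a ∈ B → a ∈ D
  card : #|A| * #|B| = 2 ^ 14
  c32 : 32 ≤ #|A|
  dD : d ∈ D
  comm : ∀ a ∈ A, ∀ b ∈ B, a * b = b * a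
  sq : ∀ a ∈ A, a * a = 1 ∨ a * a = d
  big : 64 ≤ #|A| → d = 1

theorem Fr.r2 (h : Fr T W D Z z) (h1 : D ≤ A) (h2 : D ≤ B) (h3 : A ≤ W) (h4 : B ≤ W) (h5 : ∀ a ∈ A, a ∈ B → a ∈ D)
    (h6 : #|A| * #|B| = 2 ^ 14) (h7 : 32 ≤ #|A|) (hc : c ∈ 𝐂(D)) (hn : c ∈ 𝐍(A)) (hb : ∀ b ∈ B, ⁅c, b⁆ ∈ D)
    (ht : ∀ a ∈ A, a ∉ D → ∀ a' ∈ A, a' ∉ D → ∃ i : ℕ, c ^ i * a * (c ^ i)⁻¹ * a'⁻¹ ∈ D) : ∃ d, R2 W D A B d := by
  have cD := h.cD
  have cd : ∀ i : ℕ, ∀ d ∈ D, c ^ i * d * (c ^ i)⁻¹ = d := fun i d hd => by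
    rw [← pow_mem hc i d hd, mul_inv_cancel_right]
  have tr : ∀ a ∈ A, a ∉ D → ∀ a' ∈ A, a' ∉ D → ∃ i : ℕ, ∃ d ∈ D, c ^ i * a * (c ^ i)⁻¹ = d * a' := fun a ha e a' ha' e' =>
    (ht a ha e a' ha' e').imp fun i hi => ⟨_, hi, by group⟩
  have lc : ∀ d ∈ D, ∀ a ∈ W, ∀ b ∈ W, ⁅d * a, b⁆ = ⁅a, b⁆ := fun d hd a ha b hb => by
    rw [comm_mul_l, comm1.2 (h.wd hb hd).symm, mul_one, ← h.wd (h.DW (h.commW ha hb)) hd, mul_inv_cancel_right]
  have k1 : ∀ i : ℕ, ∀ a ∈ A, ∀ b ∈ B, ⁅c ^ i * a * (c ^ i)⁻¹, b⁆ = ⁅a, b⁆ := fun i a ha b hb' => by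
    induction i with
    | zero => simp
    | succ i ih =>
      have m := h3 (conj_mem' (pow_mem hn i) ha)
      have m' := h3 (conj_mem' hn (conj_mem' (pow_mem hn i) ha))
      have e := cd 1 _ (h.commW m (h4 hb'))
      rw [pow_one, conj_comm, conj_eq_comm c b, h.comm_symm m' (mul_mem (h.DW (hb b hb')) (h4 hb')),
        lc _ (hb b hb') _ (h4 hb') _ m', h.comm_symm (h4 hb') m'] at e
      rw [← ih, ← e]; congr 1; group
  obtain ⟨u, hu, u1⟩ := ex_not_mem (A := D) (B := A) (by omega)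
  have c1 : #|(zpowers u ⊔ D : Subgroup G)| ≤ 16 := by
    have := cle2 (A := D) (B := zpowers u ⊔ D) fun a ha b hb ha' hb' => by
      obtain ⟨_, ⟨i, rfl⟩, d, hd, rfl⟩ := (mem_sup' (zpowers_le.2 (h.WnD (h3 hu)))).1 ha
      obtain ⟨_, ⟨j, rfl⟩, e, he, rfl⟩ := (mem_sup' (zpowers_le.2 (h.WnD (h3 hu)))).1 hb
      have ev : ∀ k : ℤ, u ^ (2 * k) ∈ D := fun k => by rw [zpow_mul, zpow_two]; exact zpow_mem (h.sq u (h3 hu)) k
      obtain ⟨i, rfl | rfl⟩ := Int.even_or_odd' i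
      · exact absurd (mul_mem (ev i) hd) ha'
      obtain ⟨j, rfl | rfl⟩ := Int.even_or_odd' j
      · exact absurd (mul_mem (ev j) he) hb'
      simp only
      rw [mul_assoc, ← mul_assoc d, ← h.wd (zpow_mem (h3 hu) _) hd, ← mul_assoc, ← mul_assoc, ← zpow_add,
        show 2 * i + 1 + (2 * j + 1) = 2 * (i + j + 1) by ring]
      exact mul_mem (mul_mem (ev _) hd) he
    rw [inf_eq_right.2 le_sup_right] at this
    omega
  have uA : zpowers u ⊔ D ≤ A := sup_le (zpowers_le.2 hu) h1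
  obtain ⟨v, hv, v1⟩ := ex_not_mem (A := zpowers u ⊔ D) (B := A) (by omega)
  have mu : u ∈ zpowers u ⊔ D := mem_sup_left (mem_zpowers u)
  have v2 : v ∉ D := fun e => v1 (mem_sup_right e)
  have v3 : u * v ∉ D := fun e => v1 ((mul_mem_cancel_left mu).1 (mem_sup_right e))
  have k2 : ∀ a ∈ A, a ∉ D → ∀ a' ∈ A, a' ∉ D → ∀ b ∈ B, ⁅a, b⁆ = ⁅a', b⁆ := fun a ha e a' ha' e' b hb => by
    obtain ⟨i, d, hd, e1⟩ := tr a ha e a' ha' e'
    rw [← k1 i a ha b hb, e1, lc d hd _ (h3 ha') _ (h4 hb)]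
  have k3 : ∀ a ∈ A, a ∉ D → a * a = u * u := fun a ha e => by
    obtain ⟨i, d, hd, e1⟩ := tr a ha e u hu u1
    rw [← cd i _ (h.sq a (h3 ha)), ← conj_mul, e1, mul_assoc, ← mul_assoc u, h.wd (h3 hu) hd, ← mul_assoc, ← mul_assoc,
      h.sqD hd, one_mul]
  have k4 : ∀ a ∈ A, a ∉ D → ∀ a' ∈ A, a' ∉ D → a * a' ∉ D → ⁅a, a'⁆ = u * u := fun a ha e a' ha' e' e1 => by
    have := h.sq_mul (h3 ha) (h3 ha')
    rw [k3 _ (mul_mem ha ha') e1, k3 a ha e, k3 a' ha' e', h.sqD (h.sq u (h3 hu)), one_mul] at this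
    exact this.symm
  refine ⟨u * u, h1, h2, h3, h4, h5, h6, h7, h.sq u (h3 hu), fun a ha b hb => ?_, fun a ha => ?_, fun h8 => ?_⟩
  · by_cases e : a ∈ D
    · exact (h.wd (h4 hb) e).symm
    rw [← comm1, k2 a ha e _ (mul_mem hu hv) v3 b hb, h.comm_symm (h3 (mul_mem hu hv)) (h4 hb),
      h.comm_mul (h4 hb) (h3 hu) (h3 hv), h.comm_symm (h4 hb) (h3 hv), k2 v hv v2 u hu u1 b hb,
      h.comm_symm (h3 hu) (h4 hb), h.sqD (h.commW (h4 hb) (h3 hu))]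
  · by_cases e : a ∈ D
    exacts [Or.inl (h.sqD e), Or.inr (k3 a ha e)]
  · have n1 : zpowers v ≤ 𝐍((zpowers u ⊔ D : Subgroup G)) := zpowers_le.2 (norm_of fun a ha => by
      rw [conj_eq_comm]; exact mul_mem (mem_sup_right (h.commW (h3 hv) (h3 (uA ha)))) ha)
    have c2 : #|(zpowers v ⊔ (zpowers u ⊔ D) : Subgroup G)| ≤ 32 := by
      have e1 := csup n1
      have e2 := cle2 (A := zpowers u ⊔ D) (B := zpowers v) fun a ha b hb ha' hb' => by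
        obtain ⟨i, rfl⟩ := ha
        obtain ⟨j, rfl⟩ := hb
        have ev : ∀ k : ℤ, v ^ (2 * k) ∈ zpowers u ⊔ D := fun k => by
          rw [zpow_mul, zpow_two]; exact mem_sup_right (zpow_mem (h.sq v (h3 hv)) k)
        obtain ⟨i, rfl | rfl⟩ := Int.even_or_odd' i
        · exact absurd (ev i) ha'
        obtain ⟨j, rfl | rfl⟩ := Int.even_or_odd' j
        · exact absurd (ev j) hb'
        simp only
        rw [← zpow_add, show 2 * i + 1 + (2 * j + 1) = 2 * (i + j + 1) by ring]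
        exact ev _
      have := cpos (zpowers v ⊓ (zpowers u ⊔ D))
      nlinarith
    obtain ⟨w, hw, w1⟩ := ex_not_mem (A := zpowers v ⊔ (zpowers u ⊔ D)) (B := A) (by omega)
    have mv : v ∈ zpowers v ⊔ (zpowers u ⊔ D) := mem_sup_left (mem_zpowers v)
    have mu' : u ∈ zpowers v ⊔ (zpowers u ⊔ D) := mem_sup_right mu
    have nd : ∀ x ∈ zpowers v ⊔ (zpowers u ⊔ D), x * w ∉ D := fun x hx e =>
      w1 ((mul_mem_cancel_left hx).1 (mem_sup_right (mem_sup_right e)))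
    have := h.comm_mul (h3 hu) (h3 hv) (h3 hw)
    rwa [k4 u hu u1 _ (mul_mem hv hw) (nd v mv) (mul_assoc u v w ▸ nd _ (mul_mem mu' mv)), k4 u hu u1 v hv v2 v3,
      k4 u hu u1 w hw (one_mul w ▸ nd 1 (one_mem _)) (nd u mu'), h.sqD (h.sq u (h3 hu))] at this

theorem Fr.r2_bot (h : Fr T W D Z z) (hE : E ≤ W) (hc : 2 ^ 8 ≤ #|E|) (hs : ∀ e ∈ E, e * e = 1) : False :=
  h.iz.2 (mem_bot.1 (h.dd (Y := ⊥) hE hc (fun u hu => mem_bot.2 (hs u hu)) h.zD))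

theorem R2.inv (r : R2 W D A B d) (h : Fr T W D Z z) (h1 : T ≤ 𝐍(A)) (h2 : T ≤ 𝐍(B)) : False := by
  have cD := h.cD
  have c32 := r.c32
  have key : ∀ X : Subgroup G, X ≤ W → T ≤ 𝐍(X) → ¬ X ≤ D → ∃ x ∈ X, x ∉ D ∧ x ∈ W ⊓ cmod D T := fun X a1 a2 a3 => by
    obtain ⟨x, hx, x1, -, x2⟩ := H5.exists_mem_not_mem_central_mod h.two (a1.trans h.WT) a2 a3
    exact ⟨x, hx, x1, a1 hx, h.WnD (a1 hx), fun t ht => by simpa using inv_mem (x2 t ht)⟩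
  by_cases hB : B ≤ D
  · have := cle hB
    have e := r.card
    have e1 := r.big (by nlinarith)
    exact h.r2_bot r.AW (by nlinarith) fun a ha => (r.sq a ha).elim id (e1 ▸ id)
  obtain ⟨a, ha, a1, a2⟩ := key A r.AW h1 fun e => by have := cle e; omega
  obtain ⟨b, hb, b1, b2⟩ := key B r.BW h2 hB
  obtain ⟨e, he, rfl⟩ := idx2' (A := D) (B := W ⊓ cmod D T)
    (le_inf h.DW fun d hd => mem_cmod.2 ⟨h.WnD (h.DW hd), fun t ht => h.ZD (h.commD ht hd)⟩)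
    (by rw [h.cv3]; omega) a2 b2 a1 b1
  exact a1 (r.inf a ha ((mul_mem_cancel_right (r.DB he)).1 hb))

theorem R2.two (r : R2 W D A B d) (r' : R2 W D A' B' d') (h : Fr T W D Z z) (hc : #|A'| = #|A|) (h1 : A' ≤ B)
    (h2 : A ≤ B') : False := by
  have cD := h.cD
  have cW := h.cW
  have c32 := r.c32
  have n1 : A ≤ 𝐍(A') := fun a ha => c_le_n fun b hb => (r.comm a ha b (h1 hb)).symm
  have e1 := csup n1
  rw [show A ⊓ A' = D from le_antisymm (fun a ha => r.inf a ha.1 (h1 ha.2)) (le_inf r.DA r'.DA), hc, cD] at e1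
  have hE : A ⊔ A' ≤ W := sup_le r.AW r'.AW
  have sq : ∀ Y : Subgroup G, d ∈ Y → d' ∈ Y → ∀ e ∈ A ⊔ A', e * e ∈ Y := fun Y a1 a2 e he => by
    obtain ⟨a, ha, b, hb, rfl⟩ := (mem_sup' n1).1 he
    rw [h.sq_mul (r.AW ha) (r'.AW hb), comm1.2 (r.comm a ha b (h1 hb)), mul_one]
    exact mul_mem ((r.sq a ha).elim (fun e => e ▸ one_mem _) fun e => e ▸ a1)
      ((r'.sq b hb).elim (fun e => e ▸ one_mem _) fun e => e ▸ a2)
  by_cases h3 : 64 ≤ #|A|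
  · exact h.r2_bot hE (by nlinarith) fun e he => mem_bot.1 (sq ⊥ (r.big h3) (r'.big (hc ▸ h3)) e he)
  have h4 : #|A| = 32 := le_antisymm (le_of_lt_pow' (k := 5) h.pgW r.AW (by omega)) c32
  have e2 := r.card
  have e3 := r'.card
  rw [hc] at e3
  rw [h4] at e1 e2 e3
  have nB : ∀ X : Subgroup G, D ≤ X → X ≤ W → W ≤ 𝐍(X) := fun X a1 a2 w hw => norm_of fun a ha => by
    rw [conj_eq_comm]; exact mul_mem (a1 (h.commW hw (a2 ha))) ha
  have e4 := csup (r.BW.trans (nB _ r'.DB r'.BW))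
  have e5 := cle (sup_le r.BW r'.BW)
  have y1 : zpowers d ⊔ zpowers d' ≤ D := sup_le (zpowers_le.2 r.dD) (zpowers_le.2 r'.dD)
  obtain ⟨x, hx, x1⟩ := h.exe (B := zpowers d ⊔ zpowers d') (by
    have e := csup (A := zpowers d) (B := zpowers d') (zpowers_le.2 (c_le_n fun y hy =>
      h.dcomm (zpowers_le.2 r'.dD hy) r.dD))
    have := cz_le (h.sqD r.dD)
    have := cz_le (h.sqD r'.dD)
    have := cpos (zpowers d ⊓ zpowers d')
    nlinarith)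
  obtain ⟨Y, y2, y3, y4, y5⟩ := H9.exists_relIndex_two_not_mem y1 (fun a ha => h.sqD ha ▸ one_mem _) hx x1
  have y6 : #|D| ≤ 2 * #|Y| := by rw [← relIndex_mul_card_of_le y3, y4]
  obtain ⟨u, hu, u1, u2⟩ := h.singular (P := D) (U := B ⊓ B') le_rfl (le_inf r.DB r'.DB) (inf_le_left.trans r.BW)
    (by nlinarith) y3 hx fun u hu => or_iff_not_imp_left.2 fun e => idx2 y3 y6 (h.sq u (r.BW hu.1)) hx e y5
  have cu : ∀ e ∈ A ⊔ A', e * u = u * e := fun e he => by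
    obtain ⟨a, ha, b, hb, rfl⟩ := (mem_sup' n1).1 he
    rw [mul_assoc, r'.comm b hb u hu.2, ← mul_assoc, r.comm a ha u hu.1, mul_assoc]
  have n2 : zpowers u ≤ 𝐍((A ⊔ A' : Subgroup G)) := zpowers_le.2 (c_le_n cu)
  refine y5 (h.dd (U := zpowers u ⊔ (A ⊔ A')) (sup_le (zpowers_le.2 (r.BW hu.1)) hE) (le_trans (by omega)
    (clt le_sup_right (mem_sup_left (mem_zpowers u)) fun e => ?_)) (fun e he => ?_) hx)
  · obtain ⟨a, ha, b, hb, rfl⟩ := (mem_sup' n1).1 e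
    exact u1 (mul_mem (r.inf a ha ((mul_mem_cancel_right (h1 hb)).1 hu.1))
      (r'.inf b hb ((mul_mem_cancel_left (h2 ha)).1 hu.2)))
  · obtain ⟨_, ⟨i, rfl⟩, e, he', rfl⟩ := (mem_sup' n2).1 he
    have c := (Commute.zpow_right (cu e he') i).eq
    simp only
    rw [mul_assoc, ← mul_assoc e, c, ← mul_assoc, ← mul_assoc, ← (Commute.refl u).mul_zpow, mul_assoc]
    exact mul_mem (zpow_mem u2 i) (sq Y (y2 (mem_sup_left (mem_zpowers d))) (y2 (mem_sup_right (mem_zpowers d'))) e he')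

open GS in
theorem Fr.r2_sc (h : Fr T W D Z z) : SC (W ⁒ D) (𝐂(D) ⁒ D) :=
  SC.of_sylow (sylow_quo h.sylC c_le_n) le_rfl (fun a ha => by
    obtain ⟨w, hw, rfl⟩ := (mem_quo_of_le h.WnD).1 ha
    rw [← coset_mul (h.WnD hw) (h.WnD hw)]
    exact coset_eq_one (h.sq w hw)) fun _ _ _ _ e => e

open GS in
theorem Fr.r2_ac (h : Fr T W D Z z) {K : Subgroup (QG D)} (hK : AC (W ⁒ D) K (𝐂(D) ⁒ D)) :
    AA (W ⁒ D) K = W ⁒ D ⊓ K ∧ ∃ d, R2 W D (copre D (W ⁒ D ⊓ K)) (copre D (BB (W ⁒ D) K)) d := by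
  have kc := hK.kc (ih_all _) (Nat.lt_succ_self _) h.r2_sc
  obtain ⟨e1, e2, -, e4⟩ := kc.of_sylow (H7.IsSylowIn.inf_of_sn (sylow_quo h.sylC c_le_n) hK.comp.1)
  obtain ⟨c, hc, s⟩ := kc.sing
  obtain ⟨c, hc', rfl⟩ := (mem_quo_of_le c_le_n).1 (hK.comp.le hc)
  have n1 : c ∈ 𝐍(D) := c_le_n hc'
  have cA := card_quo_mul_of_normalIn (⟨h.DW, h.WnD⟩ : D ⊴ W)
  have f4 := s.four
  have p := cpos (BB (W ⁒ D) K)
  have n2 : coset D c ∈ 𝐍((W ⁒ D ⊓ K : Subgroup (QG D))) := le_normalizer_inf (zpowers_le.2 s.norm)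
    (zpowers_le.2 (le_normalizer hc)) (mem_zpowers _)
  have bot : ∀ a ∈ W ⁒ D ⊓ K, a ∈ BB (W ⁒ D) K → a = 1 := fun a ha hb => mem_bot.1 (e1.le ⟨ha, hb.2⟩)
  rw [h.cD, h.cW] at cA
  refine ⟨e2, h.r2 (c := c) (le_copre_self _) (le_copre_self _) (copre_le_of_le_quo h.DW inf_le_left)
    (copre_le_of_le_quo h.DW inf_le_left) (fun a ha hb => ?_) (by rw [card_copre, card_copre, h.cD]; nlinarith)
    (by rw [card_copre, h.cD]; nlinarith) hc' ((copre_normalizer _).le (mem_copre.2 ⟨n1, n2⟩)).2 (fun b hb => ?_)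
    fun a ha a1 a' ha' a2 => ?_⟩
  · exact (coset_eq_one_iff (mem_copre.1 ha).1).1 (bot _ (mem_copre.1 ha).2 (mem_copre.1 hb).2)
  · obtain ⟨b1, b2⟩ := mem_copre.1 hb
    rw [← coset_eq_one_iff (comm_mem_l (le_normalizer b1) n1), coset_commutator n1 b1]
    exact comm1.2 (s.cent _ b2)
  · obtain ⟨m1, m2⟩ := mem_copre.1 ha
    obtain ⟨m3, m4⟩ := mem_copre.1 ha'
    obtain ⟨i, hi⟩ := s.trans _ m2.1 (fun e => a1 ((coset_eq_one_iff m1).1 (bot _ m2 e))) _ m4.1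
      fun e => a2 ((coset_eq_one_iff m3).1 (bot _ m4 e))
    have m5 := mul_mem (mul_mem (pow_mem n1 i) m1) (inv_mem (pow_mem n1 i))
    refine ⟨i, (coset_eq_iff' m5 m3).1 ?_⟩
    rw [coset_conj (pow_mem n1 i) m1, coset_pow n1]
    exact mul_inv_eq_one.1 (bot _ (mul_mem (conj_mem' (pow_mem n2 i) m2) (inv_mem m4)) hi)

open GS in
theorem Fr.r2_no (h : Fr T W D Z z) {K : Subgroup (QG D)} (hK : AC (W ⁒ D) K (𝐂(D) ⁒ D)) : False := by
  obtain ⟨e1, d, r⟩ := h.r2_ac hK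
  have n1 : ∀ t ∈ T, H8.cj (coset D t) (W ⁒ D) = W ⁒ D := fun t ht =>
    cj_eq_self (quo_le_normalizer h.nW D (coset_mem_quo ht))
  have c1 : ∀ t ∈ T, copre D (W ⁒ D ⊓ H8.cj (coset D t) K) = H8.cj t (copre D (W ⁒ D ⊓ K)) := fun t ht => by
    rw [← copre_cj (h.nD ht), cj_inf, n1 t ht]
  have c2 : ∀ t ∈ T, copre D (BB (W ⁒ D) (H8.cj (coset D t) K)) = H8.cj t (copre D (BB (W ⁒ D) K)) := fun t ht => by
    rw [← copre_cj (h.nD ht), cj_inf, n1 t ht, cj_cm]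
  by_cases hn : ∀ t ∈ T, H8.cj (coset D t) K = K
  · exact r.inv h (fun t ht => cj_eq_self_iff.1 (by rw [← c1 t ht, hn t ht]))
      fun t ht => cj_eq_self_iff.1 (by rw [← c2 t ht, hn t ht])
  push Not at hn
  obtain ⟨t, ht, hne⟩ := hn
  have hJ : AC (W ⁒ D) (H8.cj (coset D t) K) (𝐂(D) ⁒ D) :=
    ⟨hK.comp.conj (quo_le_normalizer (le_normalizer_centralizer h.nD) D (coset_mem_quo ht)),
      fun e => hK.ne (by rwa [← cj_cm, ← n1 t ht, cj_le_cj_iff] at e)⟩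
  obtain ⟨e2, d', r'⟩ := h.r2_ac hJ
  exact r.two r' h (by rw [c1 t ht, card_cj]) (copre_mono (e2 ▸ AC.aa_le_of_ne h.r2_sc hJ hK hne))
    (copre_mono (e1 ▸ AC.aa_le_of_ne h.r2_sc hK hJ hne.symm))

theorem Fr.p2 (h : Fr T W D Z z) : (𝐍(W)).subgroupOf 𝐍(D) ⊔ Cfsg.oddCore ↥𝐍(D) = ⊤ := by
  have hO := H7.le_normalizer_opp (p := 2) 𝐍(D)
  have dW : D ≤ 𝐍(W) ⊔ opp 2 𝐍(D) := (h.DT.trans h.nW).trans le_sup_left
  have h1 : 𝐂(D) ⁒ D ≤ (𝐍(W) ⊔ opp 2 𝐍(D)) ⁒ D := h.r2_sc.le_of_struct (GS.ih_all _) (Nat.lt_succ_self _) (by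
    have a1 : IsSylowIn 2 D (copre D (opp 2 (𝐂(D) ⁒ D))) := by
      have := sylow_copre (X := ⊥) h.pgD (normalIn_copre (opp 2 (𝐂(D) ⁒ D))) (IsSylowIn.of_not_dvd_relIndex bot_le
        IsPGroup.of_bot (by rw [quo_copre, relIndex_bot_left]; exact H7.not_dvd_card_opp _))
      rwa [copre_bot] at this
    have a2 := H7.le_sup_opp_of_central_sylow a1 (copre_le_of_le_quo (h.DW.trans h.WC) (H7.opp_le _))
    rw [← quo_copre (opp 2 (𝐂(D) ⁒ D))]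
    refine quo_mono (a2.trans (sup_le dW (le_trans (H7.opp_mono_of_sn (H7.SN.of_normalizer (copre_le_normalizer _)
      (le_normalizer_copre le_rfl ((quo_le_normalizer (le_normalizer_centralizer le_rfl) D).trans
        (H7.normalizer_le_normalizer_opp _))))) le_sup_right))) D) (fun K hK => (h.r2_no hK).elim)
    (inf_le_right.trans ((normalizer_quo ⟨h.DW, h.WnD⟩).le.trans (quo_mono le_sup_left D)))
  rw [quo_le_quo_iff c_le_n dW] at h1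
  have h2 := h.sylC.frattini_sup c_le_n (le_normalizer_centralizer le_rfl)
  refine eq_top_iff.2 fun x _ => ?_
  obtain ⟨n, hn, _, ⟨o, ho, rfl⟩, e⟩ := (mem_sup' (h.NW_le.trans hO)).1
    (sup_le h1 (inf_le_right.trans le_sup_left) (h2.ge x.2))
  rw [show x = ⟨n, h.NW_le hn⟩ * o from Subtype.ext e.symm]
  exact mul_mem (mem_sup_left hn) (mem_sup_right ho)

end Cfsg.Agent.WA.Rw
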