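import Cfsg.Agent.WA.IRw0
import Cfsg.Agent.H6.Transfer

/-! Rudvalis-type Sylow subgroups: transfer (PLAN_RW.md, P3). -/

set_option autoImplicit false
set_option linter.unusedSectionVars false
set_option linter.unusedVariables false

namespace Cfsg.Agent.WA.Rw

open Subgroup Cfsg.Agent.FT Cfsg.Agent.L0 Cfsg.Agent.H8 MulAction
open Cfsg.Agent.BS (Invo)
open scoped commutatorElement

universe u

variable {G : Type u} [Group G] [Finite G] {T W D Z K M M₀ : Subgroup G} {z x g : G}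

theorem r3_part {α : Type*} [Finite α] (O : α → Set α) (n : ℕ) (S : Set α) (h1 : ∀ e ∈ S, e ∈ O e)
    (h2 : ∀ e ∈ S, O e ⊆ S) (h3 : ∀ e ∈ S, ∀ g ∈ O e, O g = O e) (h4 : ∀ e ∈ S, n ∣ (O e).ncard) : n ∣ S.ncard := by
  induction hN : S.ncard using Nat.strong_induction_on generalizing S with
  | _ N ih =>
  rcases S.eq_empty_or_nonempty with rfl | ⟨e, he⟩
  · simp [← hN]
  have e1 := Set.ncard_sdiff_add_ncard_of_subset (h2 e he) (Set.toFinite _)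
  have e2 : 0 < (O e).ncard := (Set.ncard_pos (Set.toFinite _)).mpr ⟨e, h1 e he⟩
  rw [← hN, ← e1]
  refine Nat.dvd_add (ih _ (by omega) (S \ O e) (fun x hx => h1 x hx.1) (fun x hx y hy => ⟨h2 x hx.1 hy, fun r => hx.2 ?_⟩)
    (fun x hx => h3 x hx.1) (fun x hx => h4 x hx.1) rfl) (h4 e he)
  rw [← h3 e he y r, h3 x hx.1 y hy]
  exact h1 x hx.1

/-- the conjugate of `M₀` in the stabilizer of a coset of `M` -/
noncomputable def kq (M₀ : Subgroup G) {M : Subgroup G} (q : G ⧸ M) : Subgroup G := cj q.out M₀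

theorem kq_mk (hn : M ≤ 𝐍(M₀)) (g : G) : kq M₀ (g : G ⧸ M) = cj g M₀ := by
  obtain ⟨m, hm⟩ := QuotientGroup.mk_out_eq_mul M g
  rw [kq, hm, cj_mul, cj_eq_self (hn m.2)]

theorem kq_smul (hn : M ≤ 𝐍(M₀)) (g : G) (q : G ⧸ M) : kq M₀ (g • q) = cj g (kq M₀ q) := by
  obtain ⟨a, rfl⟩ := QuotientGroup.mk_surjective q
  rw [Quotient.smul_mk, kq_mk hn, kq_mk hn, smul_eq_mul, cj_mul]

theorem fix_mk {a : G} : g • (a : G ⧸ M) = a ↔ g ∈ cj a M := by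
  rw [Quotient.smul_mk, eq_comm, QuotientGroup.eq, mem_cj, smul_eq_mul, mul_assoc]

theorem r3_parity (h2 : ∀ H : Subgroup G, H.index ≠ 2) (hM : M₀.relIndex M = 2) (hn : M ≤ 𝐍(M₀)) (h4 : x ^ 2 ^ 2 = 1)
    (hev : ∀ g : G, g⁻¹ * x ^ 2 * g ∈ M → g⁻¹ * x ^ 2 * g ∈ M₀) : Even {q : G ⧸ M | x • q = q ∧ x ∉ kq M₀ q}.ncard := by
  classical
  have hn' : (M₀.subgroupOf M).Normal := normal_of_index_eq_two hM
  have hc : Nat.card (M ⧸ M₀.subgroupOf M) = 2 := hM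
  have hcyc : IsCyclic (M ⧸ M₀.subgroupOf M) := isCyclic_of_prime_card hc
  let _ : CommGroup (M ⧸ M₀.subgroupOf M) := IsCyclic.commGroup
  obtain ⟨a, ha, ha'⟩ : ∃ a : M ⧸ M₀.subgroupOf M, a ≠ 1 ∧ ∀ b, b ≠ 1 → b = a := by
    obtain ⟨a, ha, ha'⟩ := (Nat.card_eq_two_iff' (1 : M ⧸ M₀.subgroupOf M)).mp hc
    exact ⟨a, ha, ha'⟩
  have ha2 : a ^ 2 = 1 := by rw [← hc]; exact pow_card_eq_one'
  have : Fintype (Quotient (orbitRel (zpowers x) (G ⧸ M))) := Fintype.ofFinite _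
  have h1 : MonoidHom.transfer (QuotientGroup.mk' (M₀.subgroupOf M)) x = 1 := by
    by_contra hne
    refine h2 (MonoidHom.transfer (QuotientGroup.mk' (M₀.subgroupOf M))).ker ?_
    have : (MonoidHom.transfer (QuotientGroup.mk' (M₀.subgroupOf M))).range = ⊤ := by
      rw [eq_top_iff]
      intro b _
      by_cases hb : b = 1
      · exact hb ▸ one_mem _
      · exact ⟨x, (ha' _ hne).trans (ha' _ hb).symm⟩
    rw [index_ker, ← hc, this, card_top]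
  rw [MonoidHom.transfer_eq_prod_quotient_orbitRel_zpowers_quot, Finset.prod_congr rfl
    (g := fun q => if x • q.out = q.out ∧ x ∉ kq M₀ q.out then a else 1) fun q _ => ?_, Finset.prod_ite,
    Finset.prod_const_one, mul_one, Finset.prod_const] at h1
  · have e : {q : G ⧸ M | x • q = q ∧ x ∉ kq M₀ q} = Quotient.out ''
        (SetLike.coe (Finset.univ.filter fun q : Quotient (orbitRel (zpowers x) (G ⧸ M)) =>
          x • q.out = q.out ∧ x ∉ kq M₀ q.out)) := by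
      ext q
      simp only [Finset.coe_filter, Finset.mem_univ, true_and, Set.mem_image, Set.mem_ofPred_eq]
      refine ⟨fun hq => ?_, by rintro ⟨o, ho, rfl⟩; exact ho⟩
      obtain ⟨y, hy⟩ : (Quotient.mk (orbitRel (zpowers x) (G ⧸ M)) q).out ∈ orbit (zpowers x) q :=
        orbitRel_apply.mp (Quotient.mk_out (s := orbitRel (zpowers x) (G ⧸ M)) q)
      have e' : (Quotient.mk (orbitRel (zpowers x) (G ⧸ M)) q).out = q :=
        hy.symm.trans (zpowers_le_of_mem (mem_stabilizer_iff.mpr hq.1) y.2)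
      exact ⟨_, by rwa [e'], e'⟩
    rw [e, Set.ncard_image_of_injective _ Quotient.out_injective, Set.ncard_coe_finset]
    by_contra hodd
    obtain ⟨m, hm⟩ := Nat.not_even_iff_odd.mp hodd
    rw [hm, pow_succ, pow_mul, ha2, one_pow, one_mul] at h1
    exact ha h1
  · have p1 : Function.minimalPeriod (x • ·) q.out ∣ 2 ^ 2 :=
      Function.IsPeriodicPt.minimalPeriod_dvd (isPeriodicPt_smul_iff.mpr (by rw [h4, one_smul]))
    have p2 := QuotientGroup.out_conj_pow_minimalPeriod_mem M x q.out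
    have p3 : Function.minimalPeriod (x • ·) q.out = 1 ↔ x • q.out = q.out := Function.minimalPeriod_eq_one_iff_isFixedPt
    obtain ⟨j, hj, e⟩ := (Nat.dvd_prime_pow Nat.prime_two).mp p1
    split_ifs with hq
    · refine ha' _ ?_
      rw [QuotientGroup.mk'_apply, ne_eq, QuotientGroup.eq_one_iff, mem_subgroupOf]
      simp only [p3.mpr hq.1, pow_one]
      exact fun b => hq.2 (mem_cj.mpr b)
    · rw [QuotientGroup.mk'_apply, QuotientGroup.eq_one_iff, mem_subgroupOf]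
      simp only [e] at p2 p3 ⊢
      interval_cases j
      · by_contra b
        exact hq ⟨p3.mp rfl, fun c => b (by simpa using mem_cj.mp c)⟩
      · exact hev _ p2
      · rw [h4]; simp

theorem Fr.r3_main (h : Fr T W D Z z) (h2 : ∀ H : Subgroup G, H.index ≠ 2) (hle : M₀ ≤ 𝐍(D))
    (hM : M₀.relIndex 𝐍(D) = 2) (hx : x ∈ T) (hx' : x ∉ M₀) (hxx : x * x ∈ D)
    (hD : ∀ d ∈ D, ∀ g : G, g⁻¹ * d * g ∈ 𝐍(D) → g⁻¹ * d * g ∈ M₀) : False := by
  have hc : #|𝐍(D)| ≤ 2 * #|M₀| := by rw [← H5.card_mul_relIndex_of_le hle, hM]; omega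
  have hn : 𝐍(D) ≤ 𝐍(M₀) := (normal_subgroupOf_iff_le_normalizer hle).mp (normal_of_index_eq_two hM)
  have par := r3_parity h2 hM hn (x := x) (by rw [pow_two, pow_mul, pow_two, pow_two, h.sqD hxx])
    fun g => pow_two x ▸ hD _ hxx g
  have kD : ∀ q : G ⧸ 𝐍(D), ∀ d ∈ D, d • q = q → d ∈ kq M₀ q := fun q d hd e => by
    obtain ⟨a, rfl⟩ := QuotientGroup.mk_surjective q
    rw [kq_mk hn]
    exact mem_cj.mpr (hD d hd a (mem_cj.mp (fix_mk.mp e)))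
  have kf : ∀ q : G ⧸ 𝐍(D), ∀ k ∈ kq M₀ q, k • q = q := fun q k hk => by
    obtain ⟨a, rfl⟩ := QuotientGroup.mk_surjective q
    rw [kq_mk hn] at hk
    exact fix_mk.mpr (cj_mono a hle hk)
  have f0 : ∀ g ∈ T, g • ((1 : G) : G ⧸ 𝐍(D)) = (1 : G) := fun g hg => fix_mk.mpr (by rw [cj_one]; exact h.nD hg)
  set S₀ : Set (G ⧸ 𝐍(D)) := {q | x • q = q ∧ x ∉ kq M₀ q} \ {((1 : G) : G ⧸ 𝐍(D))} with hS₀
  have odd0 : Odd S₀.ncard := by
    have m : ((1 : G) : G ⧸ 𝐍(D)) ∈ {q : G ⧸ 𝐍(D) | x • q = q ∧ x ∉ kq M₀ q} := ⟨f0 x hx, by rwa [kq_mk hn, cj_one]⟩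
    have := Set.ncard_sdiff_singleton_add_one m
    rw [← this] at par
    exact Nat.not_even_iff_odd.mp (Nat.even_add_one.mp par)
  have mv : ∀ g ∈ T, ∀ q ∈ S₀, ⁅x⁻¹, g⁻¹⁆ ∈ kq M₀ q → g • q ∈ S₀ := fun g hg q hq hk => by
    have e : g⁻¹ * x * g = x * ⁅x⁻¹, g⁻¹⁆ := by simp only [commutatorElement_def]; group
    refine ⟨⟨?_, fun a => hq.1.2 ?_⟩, fun a => hq.2 ?_⟩
    · rw [← mul_smul, show x * g = g * (g⁻¹ * x * g) by group, e, mul_smul, mul_smul, kf q _ hk, hq.1.1]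
    · rw [kq_smul hn, mem_cj, e] at a
      exact (mul_mem_cancel_right hk).mp a
    · rw [Set.mem_singleton_iff, ← inv_smul_smul g q, Set.mem_singleton_iff.mp a, f0 _ (inv_mem hg)]
  have m1 := Te.ncard_fixed_modEq (h.pgD.to_le (inf_le_left : D ⊓ 𝐂[x] ≤ D)) (Set.toFinite S₀) fun g hg q hq =>
    mv g (h.DT (mem_inf.mp hg).1) q hq (by
      rw [comm1.mpr (mem_c1.mp (inv_mem (mem_c1.mpr (mem_c1.mp (inv_mem (mem_inf.mp hg).2)).symm)))]; exact one_mem _)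
  have xiW : x⁻¹ * x⁻¹ ∈ D := by rw [← mul_inv_rev]; exact inv_mem hxx
  have m2 := Te.ncard_fixed_modEq h.pgD (Set.toFinite {q | q ∈ S₀ ∧ ∀ g ∈ D ⊓ 𝐂[x], g • q = q}) fun g hg q hq => by
    have a1 := h.ZD (h.commD (inv_mem hx) (inv_mem hg))
    have a2 := comm1.mpr (h.dcomm xiW (inv_mem hg))
    rw [comm_mul_l, mul_eq_one_iff_eq_inv, h.dinv a1, mul_inv_eq_iff_eq_mul] at a2
    refine ⟨mv g (h.DT hg) q hq.1 (kD q _ a1 (hq.2 _ (mem_inf.mpr ⟨a1, mem_c1.mpr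
      (mem_c1.mp (inv_mem_iff.mp (mem_c1.mpr a2))).symm⟩))), fun d hd => ?_⟩
    rw [← mul_smul, h.dcomm (mem_inf.mp hd).1 hg, mul_smul, hq.2 d hd]
  set S₂ := {q | q ∈ {q | q ∈ S₀ ∧ ∀ g ∈ D ⊓ 𝐂[x], g • q = q} ∧ ∀ g ∈ D, g • q = q} with hS₂
  have ev : 2 ∣ S₂.ncard := by
    refine r3_part (fun q => {q' | q' ∈ S₂ ∧ ∃ w ∈ W, w • q = q'}) 2 S₂ (fun q hq => ⟨hq, 1, one_mem _, one_smul _ _⟩)
      (fun q _ q' hq' => hq'.1) ?_ fun q hq => ?_
    · rintro q hq _ ⟨-, w, hw, rfl⟩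
      ext q'
      refine and_congr_right fun _ => ⟨?_, ?_⟩
      · rintro ⟨v, hv, rfl⟩
        exact ⟨v * w, mul_mem hv hw, mul_smul _ _ _⟩
      · rintro ⟨v, hv, rfl⟩
        exact ⟨v * w⁻¹, mul_mem hv (inv_mem hw), by rw [mul_smul, inv_smul_smul]⟩
    have DB : D ≤ W ⊓ kq M₀ q := fun d hd => mem_inf.mpr ⟨h.DW hd, kD q d hd (hq.2 d hd)⟩
    have nB : W ≤ 𝐍((W ⊓ kq M₀ q : Subgroup G)) := fun w hw => norm_of fun b hb => by
      rw [conj_eq_comm]; exact mul_mem (DB (h.commW hw (mem_inf.mp hb).1)) hb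
    have xB : x ∈ 𝐍((W ⊓ kq M₀ q : Subgroup G)) := inf_normalizer_le_normalizer_inf (mem_inf.mpr ⟨h.nW hx, by
      rw [← cj_eq_self_iff, ← kq_smul hn, hq.1.1.1.1]⟩)
    by_contra hodd
    obtain ⟨_, ⟨-, w, hw, rfl⟩, hf⟩ := Te.exists_fixed_of_odd
      (h.pgW.to_le (inf_le_left : W ⊓ cmod (W ⊓ kq M₀ q) {x⁻¹} ≤ W))
      (S := {q' | q' ∈ S₂ ∧ ∃ w ∈ W, w • q = q'}) (by
        rintro g hg _ ⟨hq', w, hw, rfl⟩
        have gW := (mem_inf.mp hg).1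
        have b1 := (mem_cmod_single.mp (mem_inf.mp (inv_mem hg)).2).2
        have b2 : ∀ d ∈ D, d • g • w • q = g • w • q := fun d hd => by
          rw [← mul_smul, ← h.wd gW hd, mul_smul, hq'.2 d hd]
        refine ⟨⟨⟨mv g (h.WT gW) _ hq'.1.1 ?_, fun d hd => b2 d (mem_inf.mp hd).1⟩, b2⟩, g * w, mul_mem gW hw,
          mul_smul _ _ _⟩
        rw [kq_smul hn, mem_cj]
        exact (mem_inf.mp (conj_mem'' (nB hw) b1)).2) (Nat.not_even_iff_odd.mp fun a => hodd a.two_dvd)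
    have b3 : W ⊓ cmod (W ⊓ kq M₀ q) {x⁻¹} ≤ W ⊓ stabilizer G q := fun g hg => mem_inf.mpr ⟨(mem_inf.mp hg).1, by
      have b4 := hf g hg
      have b5 := h.commW (mem_inf.mp hg).1 hw
      rw [← mul_smul, show g * w = ⁅g, w⁆ * w * g by simp only [commutatorElement_def]; group, ← h.wd hw b5, mul_assoc,
        mul_smul, smul_left_cancel_iff, ← h.wd (mem_inf.mp hg).1 b5, mul_smul, hq.2 _ b5] at b4
      exact b4⟩
    have b6 := cnt_m (Y := W) (L := W ⊓ cmod (W ⊓ kq M₀ q) {x⁻¹}) (e := x⁻¹) (fun b hb => mem_inf.mpr ⟨(mem_inf.mp hb).1,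
      mem_cmod_single.mpr ⟨le_normalizer hb, comm_mem_r (inv_mem xB) hb⟩⟩) nB fun y hy => by
        have := mem_inf.mp (h.cv1_mem (inv_mem hx) (h.DW xiW) hy)
        exact mem_inf.mpr ⟨this.1, mem_cmod_single.mpr ⟨nB this.1, DB (mem_cmod_single.mp this.2).2⟩⟩
    obtain ⟨a, rfl⟩ := QuotientGroup.mk_surjective q
    have b7 := cle2 (B := W ⊓ stabilizer G (a : G ⧸ 𝐍(D))) (A := W ⊓ kq M₀ (a : G ⧸ 𝐍(D))) fun s hs t ht hs' ht' => by
      rw [kq_mk hn] at hs' ht' ⊢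
      exact mem_inf.mpr ⟨mul_mem (mem_inf.mp hs).1 (mem_inf.mp ht).1, idx2 (cj_mono a hle) (by rwa [card_cj, card_cj])
        (fix_mk.mp (mem_inf.mp hs).2) (fix_mk.mp (mem_inf.mp ht).2) (fun b => hs' (mem_inf.mpr ⟨(mem_inf.mp hs).1, b⟩))
        fun b => ht' (mem_inf.mpr ⟨(mem_inf.mp ht).1, b⟩)⟩
    have b8 := b7.trans (Nat.mul_le_mul_left _ (cle inf_le_right))
    have b9 := cle b3
    have b10 := cpos (W ⊓ kq M₀ (a : G ⧸ 𝐍(D)))
    rw [h.cW] at b6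
    have b11 := h.big (h.cj a) (inf_le_left : W ⊓ stabilizer G (a : G ⧸ 𝐍(D)) ≤ W)
      (fun s hs => cj_normalizer a D ▸ fix_mk.mp (mem_inf.mp hs).2)
      (by nlinarith [Nat.mul_le_mul b9 b9, Nat.mul_le_mul_left #|(W ⊓ stabilizer G (a : G ⧸ 𝐍(D)) : Subgroup G)| b8])
    exact hq.1.1.2 (QuotientGroup.eq.mpr (by rw [mul_one]; exact inv_mem (cj_eq_self_iff.mp b11.symm)))
  have := (m1.trans m2).dvd_iff (dvd_refl 2)
  exact Nat.not_even_iff_odd.mpr odd0 (even_iff_two_dvd.mpr (this.mpr ev))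

theorem Fr.p3 (h : Fr T W D Z z) (h2 : ∀ H : Subgroup G, H.index ≠ 2) (hn : 𝐍(D) ≤ 𝐍(K)) (hC : 𝐂(D) ≤ K)
    (hi : #|(T ⊓ K : Subgroup G)| = 2 ^ 13) : ∃ g x : G, x ∈ H8.cj g D ∧ x ∈ T ∧ x ∉ K := by
  by_contra hne
  push Not at hne
  obtain ⟨x, x1, x2, x3⟩ := h.exists_sq (h.WC.trans hC) fun a => by
    rw [inf_eq_left.mpr a, h.cT] at hi
    omega
  haveI := normal_subgroupOf_of_le_normalizer hn
  have r2 : K.relIndex T = 2 := by
    have := H5.card_inf_mul_relIndex K T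
    rw [inf_comm, hi, h.cT] at this
    omega
  have xx : (QuotientGroup.mk' (K.subgroupOf 𝐍(D)) ⟨x, h.nD x1⟩) ^ 2 = 1 := by
    rw [← map_pow, QuotientGroup.mk'_apply, QuotientGroup.eq_one_iff, mem_subgroupOf, coe_pow, pow_two]
    exact hC (h.WC (h.DW x3))
  obtain ⟨K', k1, k2⟩ := H6.exists_index_two_of_not_conj
    (H := (T.subgroupOf 𝐍(D)).map (QuotientGroup.mk' (K.subgroupOf 𝐍(D)))) (M := ⊥)
    (x := QuotientGroup.mk' _ ⟨x, h.nD x1⟩)
    (Nat.not_even_iff_odd.mp fun a => h.sylN.not_dvd_relIndex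
      (a.two_dvd.trans (index_map_dvd _ (QuotientGroup.mk'_surjective _))))
    (by rw [relIndex_bot_left, ← relIndex_ker, QuotientGroup.ker_mk', relIndex_subgroupOf h.nD, r2]) ⟨1, xx⟩
    (fun g a => x2 (by
      have : QuotientGroup.mk' (K.subgroupOf 𝐍(D)) ⟨x, h.nD x1⟩ = 1 := by
        rw [mem_bot, mul_assoc, inv_mul_eq_one, eq_comm, mul_eq_right] at a
        exact a
      exact mem_subgroupOf.mp ((QuotientGroup.eq_one_iff _).mp this)))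
    fun k g hk _ => by
      obtain ⟨i, rfl⟩ : ∃ i, k = i + 1 := ⟨k - 1, by omega⟩
      rw [pow_succ', pow_mul, xx, one_pow]
      simp
  have hM : ((K'.comap (QuotientGroup.mk' _)).map (𝐍(D)).subtype).relIndex 𝐍(D) = 2 := by
    rw [relIndex, subgroupOf, comap_map_eq_self_of_injective (subtype_injective _),
      index_comap_of_surjective _ (QuotientGroup.mk'_surjective _), k1]
  refine h.r3_main h2 (map_subtype_le _) hM x1 ?_ x3 fun d hd g hg => ?_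
  · rintro ⟨y, hy, e⟩
    exact k2 ((Subtype.ext e : y = ⟨x, h.nD x1⟩) ▸ hy)
  · have y1 : g⁻¹ * d * g ∈ H8.cj g⁻¹ D := by simpa using conj_mem_cj g⁻¹ hd
    obtain ⟨P, hP, hYP⟩ := exists_isSylowIn_ge ((h.cj g⁻¹).pgD.to_le (zpowers_le_of_mem y1)) (zpowers_le_of_mem hg)
    obtain ⟨k, hk, e⟩ := hP.exists_cj_eq h.sylN
    have y2 := hne (k * g⁻¹) _ (cj_mul k g⁻¹ D ▸ conj_mem_cj k y1) (e ▸ conj_mem_cj k (hYP (mem_zpowers _)))
    refine ⟨⟨_, hg⟩, mem_comap.mpr ?_, rfl⟩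
    rw [QuotientGroup.mk'_apply, (QuotientGroup.eq_one_iff _).mpr (mem_subgroupOf.mpr ?_)]
    · exact one_mem _
    · exact (mem_normalizer_iff.mp (hn hk) _).mpr y2

end Cfsg.Agent.WA.Rw
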