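import Cfsg.Agent.WA.Rw1

/-! Rudvalis-type Sylow subgroups: involutions of `T \ W` (PLAN_RW.md). -/

set_option autoImplicit false
set_option linter.unusedSectionVars false
set_option linter.unusedVariables false

namespace Cfsg.Agent.WA.Rw

open Subgroup Cfsg.Agent.FT Cfsg.Agent.L0 Cfsg.Agent.H8
open Cfsg.Agent.BS (Invo)
open scoped commutatorElement

universe u

variable {G : Type u} [Group G] [Finite G] {T W D Z T' W' D' Z' U X Y K B J : Subgroup G}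
  {z z' s t x w v d c e p q j : G}

/-- `x` is an involution of `T \ W` with `[D, x] = ⟨c⟩` -/
structure Iv (T W D Z : Subgroup G) (z x c : G) : Prop extends Fr T W D Z z where
  xT : x ∈ T
  xW : x ∉ W
  xx : x * x = 1
  cm : c ∈ Z
  c1 : c ≠ 1
  xc : x * c = c * x
  cc : ∀ d ∈ D, x * d ≠ d * x → ⁅x, d⁆ = c
  d4 : #|(D ⊓ 𝐂[x] : Subgroup G)| = 4

theorem comm_sq1 (h1 : d * d = 1) (h2 : e * e = 1) (h : d * e * (d * e) = 1) : d * e = e * d := by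
  rw [← inv_eq_of_mul_eq_one_right h, mul_inv_rev, inv_eq_of_mul_eq_one_right h1, inv_eq_of_mul_eq_one_right h2]

theorem inverts_comm (hx : x * x = 1) (w : G) : x * ⁅x, w⁆ * x⁻¹ = ⁅x, w⁆⁻¹ := by
  have : x⁻¹ = x := inv_eq_of_mul_eq_one_right hx
  simp only [commutatorElement_def, mul_inv_rev, inv_inv, this]
  calc x * (x * w * x * w⁻¹) * x = (x * x) * w * x * w⁻¹ * x := by group
    _ = w * (x * (w⁻¹ * x)) := by rw [hx]; group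

theorem Fr.comm_cent (h : Fr T W D Z z) (hx : x * x = 1) (hd : ⁅x, w⁆ ∈ D) : ⁅x, w⁆ ∈ 𝐂[x] := by
  have := inverts_comm hx w
  rw [h.dinv hd, mul_inv_eq_iff_eq_mul] at this
  exact mem_c1.mpr this.symm

theorem Fr.iv (h : Fr T W D Z z) (hx : x ∈ T) (hW : x ∉ W) (xx : x * x = 1) : ∃ c, Iv T W D Z z x c := by
  have h1 : ∀ d ∈ D, ⁅x, d⁆ ∈ D ⊓ 𝐂[x] := fun d hd =>
    mem_inf.mpr ⟨h.ZD (h.commD hx hd), h.comm_cent xx (h.ZD (h.commD hx hd))⟩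
  have h2 := cnt_c' h1
  obtain ⟨e, he, he'⟩ : ∃ e ∈ D, e ∉ D ⊓ 𝐂[x] := by
    by_contra hn
    push Not at hn
    exact hW (h.memW hx fun d hd => (mem_c1.mp (mem_inf.mp (hn d hd)).2).symm)
  have h3 := clt (inf_le_left : D ⊓ 𝐂[x] ≤ D) he he'
  rw [h.cD] at h2 h3
  have h4 : 2 ^ (1 + 1) ≤ #|(D ⊓ 𝐂[x] : Subgroup G)| := le_of_lt_pow h.pgD inf_le_left (by nlinarith)
  refine ⟨⁅x, e⁆, h, hx, hW, xx, h.commD hx he, fun a => he' (mem_inf.mpr ⟨he, mem_c1.mpr (comm1.mp a).symm⟩),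
    (mem_c1.mp (mem_inf.mp (h1 e he)).2).symm, fun d hd hd' => ?_, by omega⟩
  obtain ⟨b, hb, rfl⟩ := h.idxB inf_le_left h4 he he' hd (fun a => hd' (mem_c1.mp (mem_inf.mp a).2).symm)
  rw [h.commD_mul hx he (mem_inf.mp hb).1, comm1.mpr (mem_c1.mp (mem_inf.mp hb).2).symm, mul_one]

namespace Iv

variable (h : Iv T W D Z z x c)
include h

theorem xi : x⁻¹ = x := inv_eq_of_mul_eq_one_right h.xx
theorem cD' : c ∈ D := h.ZD h.cm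
theorem c2 : c * c = 1 := h.sqD h.cD'
theorem ic : Invo c := ⟨h.c2, h.c1⟩
theorem ix : Invo x := ⟨h.xx, fun e => h.xW (e ▸ one_mem _)⟩
theorem comm (hd : d ∈ D) : ⁅x, d⁆ ∈ zpowers c := by
  by_cases e : x * d = d * x
  · rw [comm1.mpr e]; exact one_mem _
  · rw [h.cc d hd e]; exact mem_zpowers c
theorem exe : ∃ e ∈ D, x * e ≠ e * x ∧ ⁅x, e⁆ = c := by
  obtain ⟨e, he, he'⟩ := h.toFr.exe h.d4.le
  have : x * e ≠ e * x := fun a => he' (mem_inf.mpr ⟨he, mem_c1.mpr a.symm⟩)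
  exact ⟨e, he, this, h.cc e he this⟩
theorem eq_z (h1 : x ∈ cmod (zpowers z) D) : c = z := by
  obtain ⟨e, he, -, h2⟩ := h.exe
  exact ((mem_z h.iz).mp (h2 ▸ (h.memT1 h.xT).mp h1 e he)).resolve_left h.c1
theorem memT1 (h1 : c ∈ zpowers z) : x ∈ cmod (zpowers z) D :=
  (h.toFr.memT1 h.xT).mpr fun d hd => zpowers_le_of_mem h1 (h.comm hd)
theorem D1_eq (h2 : x ∈ 𝐂(Z)) : D ⊓ 𝐂[x] = Z :=
  (eq_of_cle (fun a ha => mem_inf.mpr ⟨h.ZD ha, mem_c1.mpr (mem_cH.mp h2 a ha)⟩) (by rw [h.cZ, h.d4])).symm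
theorem zD1 : z ∈ D ⊓ 𝐂[x] := mem_inf.mpr ⟨h.zD, mem_c1.mpr (h.cz h.xT).symm⟩
theorem cD1 : c ∈ D ⊓ 𝐂[x] := mem_inf.mpr ⟨h.cD', mem_c1.mpr h.xc.symm⟩
theorem xxW : x * x ∈ W := h.xx ▸ one_mem _
theorem cP : #|(W ⊓ cmod D {x} : Subgroup G)| = 2 ^ 7 := h.cv1 h.xT h.xW h.xxW
theorem XP : W ⊓ 𝐂[x] ≤ W ⊓ cmod D {x} := fun p hp => mem_inf.mpr ⟨(mem_inf.mp hp).1,
  mem_cmod_single.mpr ⟨h.WnD (mem_inf.mp hp).1, comm1.mpr (mem_c1.mp (mem_inf.mp hp).2).symm ▸ one_mem _⟩⟩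
theorem DP : D ≤ W ⊓ cmod D {x} := fun d hd => mem_inf.mpr ⟨h.DW hd,
  mem_cmod_single.mpr ⟨h.WnD (h.DW hd), h.ZD (h.commD h.xT hd)⟩⟩
theorem PX : W ⊓ cmod D {x} ⊓ 𝐂[x] = W ⊓ 𝐂[x] :=
  le_antisymm (inf_le_inf_right _ inf_le_left) (le_inf h.XP inf_le_right)
theorem commP (hp : p ∈ W ⊓ cmod D {x}) : ⁅x, p⁆ ∈ D ⊓ 𝐂[x] :=
  have := (mem_cmod_single.mp (mem_inf.mp hp).2).2
  mem_inf.mpr ⟨this, h.comm_cent h.xx this⟩

theorem c32 : 32 ≤ #|(W ⊓ 𝐂[x] : Subgroup G)| := by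
  have := cnt_c' fun p hp => h.commP hp
  rw [h.PX, h.cP, h.d4] at this
  omega

theorem c64 : #|(W ⊓ 𝐂[x] : Subgroup G)| ≤ 64 := by
  obtain ⟨e, he, he', -⟩ := h.exe
  have := clt h.XP (h.DP he) fun a => he' (mem_c1.mp (mem_inf.mp a).2).symm
  rw [h.cP] at this
  omega

theorem c3264 : #|(W ⊓ 𝐂[x] : Subgroup G)| = 32 ∨ #|(W ⊓ 𝐂[x] : Subgroup G)| = 64 := by
  rcases h.c32.eq_or_lt with a | a
  · exact Or.inl a.symm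
  · have := le_of_lt_pow (k := 5) h.pgW inf_le_left a
    have := h.c64
    omega

theorem XD1 : W ⊓ 𝐂[x] ⊓ D = D ⊓ 𝐂[x] :=
  le_antisymm (le_inf inf_le_right (inf_le_left.trans inf_le_right))
    (le_inf (inf_le_inf_right _ h.DW) inf_le_left)

theorem cXD : #|(W ⊓ 𝐂[x] ⊔ D : Subgroup G)| = 2 * #|(W ⊓ 𝐂[x] : Subgroup G)| := by
  have := csup (inf_le_left.trans h.WnD : W ⊓ 𝐂[x] ≤ _)
  rw [h.XD1, h.d4, h.cD] at this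
  omega

/-- the elements of `C_W(x)` -/
theorem struct (hp : p ∈ W ⊓ 𝐂[x]) : ∃ v ∈ W, ∃ d ∈ D, p = ⁅x, v⁆ * d ∧ p * p = ⁅x, d⁆ := by
  obtain ⟨h1, h2⟩ := mem_inf.mp hp
  rw [mem_c1] at h2
  obtain ⟨v, hv, d, hd, rfl⟩ := h.cv1_ex h.xT h.xW h.xxW h1 (comm1.mpr h2.symm ▸ one_mem _)
  refine ⟨v, hv, d, hd, rfl, ?_⟩
  have a1 := inverts_comm h.xx v
  have a2 := h.commTW h.xT hv
  have a3 : x * (⁅x, v⁆ * d) * x⁻¹ = ⁅x, v⁆ * d := by rw [← h2]; group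
  have a4 : ⁅x, v⁆⁻¹ * (⁅x, d⁆ * d) = ⁅x, v⁆ * d := by rw [← a3, ← a1, ← conj_eq_comm]; group
  generalize ⁅x, v⁆ = u at *
  have a5 : ⁅x, d⁆ = u * u := by
    have := mul_right_cancel ((mul_assoc _ _ _).trans a4)
    rw [inv_mul_eq_iff_eq_mul] at this
    exact this
  calc u * d * (u * d) = u * (d * u) * d := by group
    _ = u * u * (d * d) := by rw [← h.wd a2 hd]; group
    _ = _ := by rw [h.sqD hd, a5, mul_one]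

theorem sqX (hp : p ∈ W ⊓ 𝐂[x]) : p * p ∈ zpowers c := by
  obtain ⟨v, hv, d, hd, -, e⟩ := h.struct hp
  exact e ▸ h.comm hd

theorem commX (hp : p ∈ W ⊓ 𝐂[x]) (hq : q ∈ W ⊓ 𝐂[x]) : ⁅p, q⁆ ∈ zpowers c := by
  have := h.sqX (mul_mem hp hq)
  rw [h.sq_mul (mem_inf.mp hp).1 (mem_inf.mp hq).1] at this
  exact (mul_mem_cancel_left (mul_mem (h.sqX hp) (h.sqX hq))).mp this

theorem conj_x (w : G) : w * x * w⁻¹ = ⁅x, w⁆⁻¹ * x := by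
  simp only [commutatorElement_def]; group

theorem sig (hj : j ∈ W ⊓ 𝐂[x]) (h2 : j * j = 1) : ∃ d ∈ D ⊓ 𝐂[x], ∃ w ∈ W, w * x * w⁻¹ = j * d * x := by
  obtain ⟨v, hv, d, hd, e1, e2⟩ := h.struct hj
  refine ⟨d, mem_inf.mpr ⟨hd, mem_c1.mpr (comm1.mp (e2.symm.trans h2)).symm⟩, v, hv, ?_⟩
  rw [h.conj_x]
  congr 1
  have e3 : ⁅x, v⁆ = j * d := by rw [e1, mul_assoc, h.sqD hd, mul_one]
  rw [e3, mul_inv_rev, h.dinv hd, inv_eq_of_mul_eq_one_right h2, h.wd (mem_inf.mp hj).1 hd]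

theorem sig_mul (hw : w ∈ W) (hp : p ∈ W ⊓ cmod D {x}) (e : w * x * w⁻¹ = j * x) :
    ∃ w ∈ W, w * x * w⁻¹ = j * ⁅x, p⁆ * x := by
  have a := (mem_inf.mp (h.commP hp)).1
  refine ⟨w * p, mul_mem hw (mem_inf.mp hp).1, ?_⟩
  have hj : j ∈ W := by
    have : j = ⁅x, w⁆⁻¹ := mul_right_cancel (e.symm.trans (h.conj_x w))
    exact this ▸ inv_mem (h.commTW h.xT hw)
  calc w * p * x * (w * p)⁻¹ = w * (p * x * p⁻¹) * w⁻¹ := by group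
    _ = w * ⁅x, p⁆ * w⁻¹ * (w * x * w⁻¹) := by rw [h.conj_x p, h.dinv a]; group
    _ = _ := by rw [h.wdw hw a, e, h.wd hj a, mul_assoc]

theorem sigc (hw : w ∈ W) (e : w * x * w⁻¹ = j * x) : ∃ w ∈ W, w * x * w⁻¹ = j * c * x := by
  obtain ⟨e', he, -, h2⟩ := h.exe
  exact h2 ▸ h.sig_mul hw (h.DP he) e

theorem sig1 : ∃ w ∈ W, w * x * w⁻¹ = c * x := by
  simpa using h.sigc (j := 1) (one_mem W) (by simp)

theorem onto (h32 : #|(W ⊓ 𝐂[x] : Subgroup G)| ≤ 32) (hd : d ∈ D ⊓ 𝐂[x]) : ∃ p ∈ W ⊓ cmod D {x}, ⁅x, p⁆ = d := by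
  let I : Subgroup G :=
    { carrier := {d | ∃ p ∈ W ⊓ cmod D {x}, ⁅x, p⁆ = d}
      one_mem' := ⟨1, one_mem _, by simp⟩
      mul_mem' := by
        rintro _ _ ⟨p, hp, rfl⟩ ⟨q, hq, rfl⟩
        exact ⟨p * q, mul_mem hp hq, by rw [comm_mul_r, h.wdw (mem_inf.mp hp).1 (mem_inf.mp (h.commP hq)).1]⟩
      inv_mem' := by
        rintro _ ⟨p, hp, rfl⟩
        exact ⟨p, hp, (h.dinv (mem_inf.mp (h.commP hp)).1).symm⟩ }
  have h1 : I ≤ D ⊓ 𝐂[x] := by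
    rintro _ ⟨p, hp, rfl⟩
    exact h.commP hp
  have h2 := cnt_c' (L := I) (Y := W ⊓ cmod D {x}) (e := x) fun p hp => ⟨p, hp, rfl⟩
  rw [h.PX, h.cP] at h2
  have h3 : I = D ⊓ 𝐂[x] := eq_of_cle h1 (by rw [h.d4]; nlinarith)
  rw [← h3] at hd
  exact hd

theorem sig32 (h32 : #|(W ⊓ 𝐂[x] : Subgroup G)| ≤ 32) (hj : j ∈ W ⊓ 𝐂[x]) (h2 : j * j = 1) :
    ∃ w ∈ W, w * x * w⁻¹ = j * x := by
  obtain ⟨d, hd, w, hw, e⟩ := h.sig hj h2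
  obtain ⟨p, hp, e'⟩ := h.onto h32 hd
  obtain ⟨w', hw', e''⟩ := h.sig_mul hw hp e
  exact ⟨w', hw', by rw [e'', e', mul_assoc j, h.sqD (mem_inf.mp hd).1, mul_one]⟩

/-- singular vectors in subgroups of `C_W(x)` -/
theorem sing (hJ : J ≤ W ⊓ 𝐂[x]) (hc : 8 * #|(J ⊓ D : Subgroup G)| ≤ #|J|) : ∃ p ∈ J, p ∉ D ∧ p * p = 1 := by
  have hW : J ≤ W := hJ.trans inf_le_left
  have h1 := csup (hW.trans h.WnD)
  have h0 := cpos (J ⊓ D)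
  have key : ∀ a ∈ J, ∀ b ∈ D, a * b * (a * b) = a * a := fun a ha b hb => by
    calc a * b * (a * b) = a * (b * a) * b := by group
      _ = a * a * (b * b) := by rw [← h.wd (hW ha) hb]; group
      _ = _ := by rw [h.sqD hb, mul_one]
  obtain ⟨u, hu, hu', h2⟩ := h.singular (P := D) (U := J ⊔ D) (Y := ⊥) le_rfl le_sup_right (sup_le hW h.DW)
    (by rw [h.cD] at h1 ⊢; nlinarith) bot_le h.cD' fun u hu => by
      obtain ⟨a, ha, b, hb, rfl⟩ := (mem_sup' (hW.trans h.WnD)).mp hu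
      rw [key a ha b hb]
      rcases (mem_z h.ic).mp (h.sqX (hJ ha)) with e | e
      · exact Or.inl (mem_bot.mpr e)
      · exact Or.inr (mem_bot.mpr (by rw [e, h.c2]))
  obtain ⟨a, ha, b, hb, rfl⟩ := (mem_sup' (hW.trans h.WnD)).mp hu
  exact ⟨a, ha, fun e => hu' (mul_mem e hb), key a ha b hb ▸ mem_bot.mp h2⟩

theorem conj_comm' (hw : w ∈ W) (hp : p ∈ W ⊓ 𝐂[x]) : ⁅x, ⁅w, p⁆⁆ = ⁅⁅x, w⁆, p⁆ := by
  obtain ⟨h1, h2⟩ := mem_inf.mp hp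
  rw [mem_c1] at h2
  have a1 := h.commW hw h1
  have a2 := h.commTW h.xT hw
  have a3 : x * p * x⁻¹ = p := by rw [← h2]; group
  rw [commutatorElement_def x, conj_comm, a3, conj_eq_comm, h.comm_symm (mul_mem a2 hw) h1, h.comm_mul h1 a2 hw,
    h.comm_symm h1 hw, h.comm_symm h1 a2, mul_inv_cancel_right]

/-- Lemma D -/
theorem lemD (hel : ∀ p ∈ W ⊓ 𝐂[x], p * p = 1) : #|(W ⊓ 𝐂[x] : Subgroup G)| ≤ 32 := by
  by_contra hn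
  have h64 := h.c3264.resolve_left (by omega)
  have hP : W ⊓ 𝐂[x] ⊔ D = W ⊓ cmod D {x} := eq_of_cle (sup_le h.XP h.DP) (by rw [h.cXD, h.cP, h64]; norm_num)
  have hXW : W ⊓ 𝐂[x] ≤ W := inf_le_left
  have elP : ∀ p ∈ W ⊓ cmod D {x}, p * p = 1 := fun p hp => by
    obtain ⟨a, ha, b, hb, rfl⟩ := (mem_sup' (hXW.trans h.WnD)).mp (hP ▸ hp)
    calc a * b * (a * b) = a * (b * a) * b := by group
      _ = a * a * (b * b) := by rw [← h.wd (hXW ha) hb]; group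
      _ = _ := by rw [h.sqD hb, hel a ha, mul_one]
  obtain ⟨e, he, he', -⟩ := h.exe
  have heD : e ∉ D ⊓ 𝐂[x] := fun a => he' (mem_c1.mp (mem_inf.mp a).2).symm
  obtain ⟨w, hw, hw', h2⟩ := h.singular (P := W ⊓ cmod D {x}) (U := W) (Y := D ⊓ 𝐂[x]) h.DP inf_le_left le_rfl
    (by rw [h.cP, h.cW]; norm_num) inf_le_left he fun u hu => by
      by_cases a : u * u ∈ D ⊓ 𝐂[x]
      · exact Or.inl a
      · exact Or.inr (idx2 inf_le_left (by rw [h.cD, h.d4]) (h.sq u hu) he a heD)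
  have hn : w ∈ 𝐍((W ⊓ cmod D {x} : Subgroup G)) := norm_of fun a ha => by
    rw [conj_eq_comm]; exact mul_mem (h.DP (h.commW hw (mem_inf.mp ha).1)) ha
  have h3 := H5.card_sup_zpowers (p := 2) hn hw' (by rw [pow_two]; exact h.DP (h.sq w hw))
  have h4 : ∀ p ∈ W ⊓ cmod D {x}, ⁅w, p⁆ ∈ D ⊓ 𝐂[x] := fun p hp => by
    obtain ⟨a, ha, b, hb, rfl⟩ := (mem_sup' (hXW.trans h.WnD)).mp (hP ▸ hp)
    rw [h.comm_mul hw (hXW ha) (h.DW hb), comm1.mpr (h.wd hw hb), mul_one]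
    refine mem_inf.mpr ⟨h.commW hw (hXW ha), mem_c1.mpr (comm1.mp ?_).symm⟩
    have a1 := h.cv1_mem h.xT h.xxW hw
    rw [h.conj_comm' hw ha, comm1]
    exact comm_sq1 (elP _ a1) (hel a ha) (elP _ (mul_mem a1 (h.XP ha)))
  refine heD (h.dd (sup_le inf_le_left (zpowers_le_of_mem hw) : W ⊓ cmod D {x} ⊔ zpowers w ≤ W)
    (by rw [h3, h.cP]; norm_num) (fun u hu => ?_) he)
  by_cases a : u ∈ W ⊓ cmod D {x}
  · rw [elP u a]; exact one_mem _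
  · obtain ⟨p, hp, rfl⟩ := idx2' le_sup_left (by rw [h3]; omega) (mem_sup_right (mem_zpowers w)) hu hw' a
    rw [h.sq_mul hw (mem_inf.mp hp).1, elP p hp, mul_one]
    exact mul_mem h2 (h4 p hp)

/-- Lemma R -/
theorem lemR (hel : ∀ p ∈ W ⊓ 𝐂[x], p * p = 1) (hJ : J ≤ W ⊓ 𝐂[x]) :
    ∃ J₀, J₀ ≤ J ∧ #|J| ≤ 2 * #|J₀| ∧ ∀ j ∈ J₀, ∀ w ∈ W, ⁅w, j⁆ ∈ D ⊓ 𝐂[x] := by
  have hXW : W ⊓ 𝐂[x] ≤ W := inf_le_left
  have h1 : ∀ p ∈ W ⊓ cmod D {x}, ∀ j ∈ J, ⁅p, j⁆ ∈ zpowers c := fun p hp j hj => by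
    obtain ⟨v, hv, d, hd, rfl⟩ := h.cv1_ex h.xT h.xW h.xxW (mem_inf.mp hp).1 (mem_cmod_single.mp (mem_inf.mp hp).2).2
    have a2 := h.commTW h.xT hv
    rw [h.comm_symm (mul_mem a2 (h.DW hd)) (hXW (hJ hj)), h.comm_mul (hXW (hJ hj)) a2 (h.DW hd),
      comm1.mpr (h.wd (hXW (hJ hj)) hd), mul_one, h.comm_symm (hXW (hJ hj)) a2, ← h.conj_comm' hv (hJ hj)]
    exact h.comm (h.commW hv (hXW (hJ hj)))
  have h2 : ∀ p ∈ W ⊓ 𝐂[x] ⊔ D, ∀ j ∈ J, p * j = j * p := fun p hp j hj => by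
    obtain ⟨a, ha, b, hb, rfl⟩ := (mem_sup' (hXW.trans h.WnD)).mp hp
    rw [mul_assoc, ← h.wd (hXW (hJ hj)) hb, ← mul_assoc,
      comm_sq1 (hel a ha) (hel j (hJ hj)) (hel _ (mul_mem ha (hJ hj))), mul_assoc]
  obtain ⟨p₀, hp₀, h3⟩ : ∃ p₀ ∈ W ⊓ cmod D {x}, ∀ p ∈ W ⊓ cmod D {x}, ∀ j ∈ J, j * p₀ = p₀ * j → p * j = j * p := by
    by_cases a : W ⊓ cmod D {x} ≤ W ⊓ 𝐂[x] ⊔ D
    · exact ⟨1, one_mem _, fun p hp j hj _ => h2 p (a hp) j hj⟩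
    · obtain ⟨p₀, hp₀, hp₀'⟩ := SetLike.not_le_iff_exists.mp a
      refine ⟨p₀, hp₀, fun p hp j hj e => ?_⟩
      by_cases b : p ∈ W ⊓ 𝐂[x] ⊔ D
      · exact h2 p b j hj
      · obtain ⟨q, hq, rfl⟩ := idx2' (sup_le h.XP h.DP) (by have := h.c32; rw [h.cP, h.cXD]; omega) hp₀ hp hp₀' b
        rw [mul_assoc, h2 q hq j hj, ← mul_assoc, ← e, mul_assoc]
  refine ⟨J ⊓ 𝐂[p₀], inf_le_left, ?_, fun j hj w hw => ?_⟩
  · have := cnt_c' (h1 p₀ hp₀)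
    rwa [h.ic.card_zpowers] at this
  · obtain ⟨a1, a2⟩ := mem_inf.mp hj
    refine mem_inf.mpr ⟨h.commW hw (hXW (hJ a1)), mem_c1.mpr (comm1.mp ?_).symm⟩
    rw [h.conj_comm' hw (hJ a1), comm1]
    exact h3 _ (h.cv1_mem h.xT h.xxW hw) j a1 (mem_c1.mp a2)

end Iv

end Cfsg.Agent.WA.Rw
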