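import Cfsg.Agent.WA.Rw4a
import Cfsg.Agent.H4.Dihedral

/-! Rudvalis-type Sylow subgroups: conjugates of `D` meeting in a four-group (PLAN_RW.md). -/

set_option autoImplicit false
set_option linter.unusedSectionVars false
set_option linter.unusedVariables false

namespace Cfsg.Agent.WA.Rw

open Subgroup Cfsg.Agent.FT Cfsg.Agent.L0 Cfsg.Agent.H8
open Cfsg.Agent.BS (Invo)
open scoped commutatorElement

universe u

variable {G : Type u} [Group G] [Finite G] {T W D Z T' W' D' Z' U X Y K B J : Subgroup G}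
  {z z' s t x w v d d' c e p q j r b u : G}

theorem conj_of_cent (hb : b ∈ B) (hx : x ∈ 𝐂(B)) : x * b * x⁻¹ = b := by rw [← mem_cH.mp hx b hb]; group

theorem le_cj_of_cent (hB : B ≤ D) (hx : x ∈ 𝐂(B)) : B ≤ cj x D := by
  rw [← cj_eq_self_of_mem_centralizer hx]; exact cj_mono x hB

theorem Fr.norm_gen (h : Fr T W D Z z) (hB : B ≤ D) (h4 : 4 ≤ #|B|) (hr : r ∈ D) (hr' : r ∉ B) (hs : s ∈ 𝐍(B))
    (h1 : s * r * s⁻¹ ∈ D) : s ∈ 𝐍(D) := norm_of fun a ha => by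
  by_cases ha' : a ∈ B
  · exact hB (conj_mem' hs ha')
  · obtain ⟨b, hb, rfl⟩ := h.idxB hB h4 hr hr' ha ha'
    rw [show s * (r * b) * s⁻¹ = s * r * s⁻¹ * (s * b * s⁻¹) by group]
    exact mul_mem h1 (hB (conj_mem' hs hb))

theorem Fr.le_gen (h : Fr T W D Z z) (hB : B ≤ D) (h4 : 4 ≤ #|B|) (hr : r ∈ D) (hr' : r ∉ B) (h1 : B ≤ K) (h2 : r ∈ K) :
    D ≤ K := fun a ha => by
  by_cases ha' : a ∈ B
  · exact h1 ha'
  · obtain ⟨b, hb, rfl⟩ := h.idxB hB h4 hr hr' ha ha'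
    exact mul_mem h2 (h1 hb)

theorem Fr.DC (h : Fr T W D Z z) : D ≤ 𝐂(D) := h.DW.trans h.WC

/-- Lemma B -/
theorem Fr.lemB (h : Fr T W D Z z) (h' : Fr T' W' D' Z' z') (hn : D' ≤ 𝐍(D)) (hc : 4 ≤ #|(D ⊓ D' : Subgroup G)|) :
    D = D' := by
  obtain ⟨T₀, W₀, Z₀, z₀, h₀, hle⟩ := h.exN h'.pgD hn
  by_cases h1 : D' ≤ W₀
  · exact h₀.lemA h' (h1.trans h₀.WC) hc
  obtain ⟨x, hx, hx'⟩ := SetLike.not_le_iff_exists.mp h1
  obtain ⟨c, hi⟩ := h₀.iv (hle hx) hx' (h'.sqD hx)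
  have hB : D ⊓ D' = D ⊓ 𝐂[x] :=
    eq_of_cle (inf_le_inf_left _ fun a ha => mem_c1.mpr (h'.dcomm ha hx)) (by rw [hi.d4]; exact hc)
  have hxB : x ∉ D ⊓ D' := fun a => hx' (h₀.DW (mem_inf.mp a).1)
  obtain ⟨p, hp, hp', h2⟩ := hi.sing le_rfl (by rw [hi.XD1, hi.d4]; exact hi.c32)
  obtain ⟨d, hd, w, hw, e⟩ := hi.sig hp h2
  rw [← hB] at hd
  have hwB : w ∈ 𝐂((D ⊓ D' : Subgroup G)) := centralizer_le inf_le_left (h₀.WC hw)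
  have h3 : p ∈ 𝐂(D') := h'.cent_of inf_le_right hc hx hxB (centralizer_le inf_le_left (h₀.WC (mem_inf.mp hp).1))
    (mem_c1.mp (mem_inf.mp hp).2)
  have h4 : w * x * w⁻¹ ∉ D ⊓ D' := fun a => hxB (by simpa [mul_assoc] using conj_mem'' (c_le_n hwB) a)
  have h5 := le_cj_of_cent (inf_le_right : D ⊓ D' ≤ D') hwB
  have h6 := h'.lemA (h'.cj w) ((h'.cj w).le_gen h5 hc (conj_mem_cj w hx) h4 (inf_le_right.trans h'.DC)
    (e ▸ mul_mem (mul_mem h3 (h'.DC (mem_inf.mp hd).2)) (h'.DC hx))) (hc.trans (cle (le_inf inf_le_right h5)))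
  have h7 : p * d * x ∈ D' := by rw [← e, h6]; exact h6 ▸ conj_mem_cj w hx
  have h8 : p ∈ D' := (mul_mem_cancel_right (mem_inf.mp hd).2).mp ((mul_mem_cancel_right hx).mp h7)
  obtain ⟨b, hb, rfl⟩ := h'.idxB inf_le_right hc hx hxB h8 fun a => hp' (mem_inf.mp a).1
  exact (hx' ((mul_mem_cancel_right (h₀.DW (mem_inf.mp hb).1)).mp (mem_inf.mp hp).1)).elim

theorem Fr.lemK0 (h : Fr T W D Z z) (h' : Fr T' W' D' Z' z') (hB : B ≤ D) (hB' : B ≤ D') (h4 : 4 ≤ #|B|) (hd : d ∈ D)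
    (hdB : d ∉ B) (hd' : d' ∈ D') (hdB' : d' ∉ B) : ∃ n, Odd n ∧ (d * d') ^ n ∈ B := by
  obtain ⟨a, m, hm, e⟩ := Nat.exists_eq_two_pow_mul_odd (orderOf_pos (d * d')).ne'
  refine ⟨m, hm, by_contra fun hn => ?_⟩
  obtain ⟨i, h1, h2⟩ := H5.exists_pow_not_mem_pow_mem (p := 2) (k := a) (H := B) (x := (d * d') ^ m)
    (by rw [← pow_mul, mul_comm, ← e, pow_orderOf_eq_one]; exact one_mem _) hn
  rw [← pow_mul (d * d') m] at h1 h2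
  generalize m * 2 ^ i = n at h1 h2
  have c1 : d ∈ 𝐂(B) := centralizer_le hB (h.DC hd)
  have c2 : d' ∈ 𝐂(B) := centralizer_le hB' (h'.DC hd')
  have key : ∀ {T₀ W₀ D₀ Z₀ : Subgroup G} {z₀ : G}, Fr T₀ W₀ D₀ Z₀ z₀ → B ≤ D₀ → d * (d * d') ^ n ∈ D₀ →
      d * (d * d') ^ n ∉ B → False := fun {T₀ W₀ D₀ Z₀ z₀} h₀ b0 r0 r1 => by
    have n1 : d ∈ 𝐍(D₀) := h₀.norm_gen b0 h4 r0 r1 (c_le_n c1) (by
      have := H4.conj_pow_eq_of_inverts (H4.left_conj_mul_eq_inv (h.sqD hd) (h'.sqD hd')) n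
      rw [show d * (d * (d * d') ^ n) * d⁻¹ = d * (d * (d * d') ^ n * d⁻¹) by group, this,
        show d * ((d * d') ^ n)⁻¹ = d * (d * d') ^ n * (((d * d') ^ n) ^ 2)⁻¹ by group]
      exact mul_mem r0 (inv_mem (b0 h2)))
    have e0 := h₀.lemB h (h.le_gen hB h4 hd hdB (b0.trans le_normalizer) n1) (h4.trans (cle (le_inf b0 hB)))
    subst e0
    obtain ⟨b, hb, e1⟩ := h.idxB hB h4 hd hdB r0 r1
    exact h1 (mul_left_cancel e1 ▸ hb)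
  obtain ⟨k, hk, h3⟩ := H4.reflection_conj (h.sqD hd) (h'.sqD hd') (n : ℤ)
  have c3 : k ∈ 𝐂(B) := zpowers_le_of_mem (mul_mem c1 c2) hk
  rw [zpow_natCast] at h3
  rcases h3 with ⟨-, h3⟩ | ⟨-, h3⟩
  · exact key (h.cj k) (le_cj_of_cent hB c3) (h3 ▸ conj_mem_cj k hd)
      (h3 ▸ fun a => hdB (by simpa [mul_assoc] using conj_mem'' (c_le_n c3) a))
  · exact key (h'.cj k) (le_cj_of_cent hB' c3) (h3 ▸ conj_mem_cj k hd')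
      (h3 ▸ fun a => hdB' (by simpa [mul_assoc] using conj_mem'' (c_le_n c3) a))

theorem Fr.lemK1 (h : Fr T W D Z z) (h' : Fr T' W' D' Z' z') (hB : B ≤ D) (hB' : B ≤ D') (h4 : #|B| = 4)
    (hx : x ∈ 𝐍(D)) (hx' : x ∈ 𝐂(D')) : x ∈ 𝐂(D) := by
  obtain ⟨d, hd, hdB⟩ := h.exe h4.le
  obtain ⟨d', hd', hdB'⟩ := h'.exe h4.le
  obtain ⟨n, ⟨k, rfl⟩, hn⟩ := h.lemK0 h' hB hB' h4.ge hd hdB hd' hdB'
  have c0 : x ∈ 𝐂(B) := centralizer_le hB' hx'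
  have c1 := h.comm_B hB h4.ge hx (c_le_n c0) hd
  have c2 : d * d' ∈ 𝐂(B) := mul_mem (centralizer_le hB (h.DC hd)) (centralizer_le hB' (h'.DC hd'))
  have e1 : x * (d * d') * x⁻¹ = ⁅x, d⁆ * (d * d') := by
    rw [show x * (d * d') * x⁻¹ = x * d * x⁻¹ * (x * d' * x⁻¹) by group, conj_of_cent hd' hx', conj_eq_comm, mul_assoc]
  have e2 := conj_of_cent hn c0
  rw [← conj_pow, e1, Commute.mul_pow (mem_cH.mp c2 _ c1), mul_eq_right, pow_succ, pow_mul, pow_two, h.sqD (hB c1),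
    one_pow, one_mul] at e2
  exact h.cent_of hB h4.ge hd hdB c0 (comm1.mp e2)

theorem Fr.lemK2 (h : Fr T W D Z z) (hB : B ≤ D) (h4 : #|B| = 4) (hs : s * s = 1) (hn : s ∈ 𝐍(B)) (h1 : X ≤ 𝐍(D))
    (h2 : X ≤ 𝐍(B)) (h3 : X ≤ 𝐂[s]) : ∃ k ∈ 𝐂(B), k ∈ 𝐂(X) ∧ s ∈ 𝐍(H8.cj k D) := by
  obtain ⟨d, hd, hdB⟩ := h.exe h4.le
  have hB' : B ≤ H8.cj s D := by rw [← cj_eq_self hn]; exact cj_mono s hB
  have hdB' : s * d * s⁻¹ ∉ B := fun a => hdB (by simpa [mul_assoc] using conj_mem'' hn a)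
  have hd' := conj_mem_cj s hd
  obtain ⟨n, hn1, hn2⟩ := h.lemK0 (h.cj s) hB hB' h4.ge hd hdB hd' hdB'
  obtain ⟨i, hi⟩ : ∃ i, n * n = 8 * i + 1 := by
    obtain ⟨k, rfl⟩ := hn1
    obtain ⟨l, hl⟩ := Nat.even_mul_succ_self k
    exact ⟨l, by nlinarith⟩
  have c2 : d * (s * d * s⁻¹) ∈ 𝐂(B) := mul_mem (centralizer_le hB (h.DC hd)) (centralizer_le hB' ((h.cj s).DC hd'))
  have si : s⁻¹ = s := inv_eq_of_mul_eq_one_right hs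
  have dd := h.sqD hd
  have i1 := H4.left_conj_mul_eq_inv dd ((h.cj s).sqD hd')
  have i2 : s * (d * (s * d * s⁻¹)) * s⁻¹ = (d * (s * d * s⁻¹))⁻¹ := by
    simp only [mul_inv_rev, si, h.dinv hd]
    calc s * (d * (s * d * s)) * s = s * d * s * d * (s * s) := by group
      _ = _ := by rw [hs]; group
  have i3 : s * d * s⁻¹ = (d * (s * d * s⁻¹))⁻¹ * d := by
    rw [mul_inv_rev, h.dinv hd, (h.cj s).dinv hd', mul_assoc _ d d, dd, mul_one]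
  have i4 : ∀ g ∈ X, g * (d * (s * d * s⁻¹)) ^ 2 * g⁻¹ = (d * (s * d * s⁻¹)) ^ 2 := fun g hg => by
    have a1 := h.comm_B hB h4.ge (h1 hg) (h2 hg) hd
    have a2 := conj_mem' hn a1
    have a3 : g * s = s * g := mem_c1.mp (h3 hg)
    have a4 : g * (d * (s * d * s⁻¹)) * g⁻¹ = ⁅g, d⁆ * (s * ⁅g, d⁆ * s⁻¹) * (d * (s * d * s⁻¹)) := by
      calc g * (d * (s * d * s⁻¹)) * g⁻¹ = g * d * g⁻¹ * (g * s) * d * (g * s)⁻¹ := by group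
        _ = g * d * g⁻¹ * (s * (g * d * g⁻¹) * s⁻¹) := by rw [a3]; group
        _ = ⁅g, d⁆ * (d * (s * ⁅g, d⁆ * s⁻¹)) * (s * d * s⁻¹) := by rw [conj_eq_comm]; group
        _ = _ := by rw [h.dcomm hd (hB a2)]; group
    rw [← conj_pow, a4, Commute.mul_pow (mem_cH.mp c2 _ (mul_mem a1 a2)), pow_two, h.sqD (hB (mul_mem a1 a2)), one_mul]
  generalize d * (s * d * s⁻¹) = y at *
  have c3 : (y ^ 2) ^ i ∈ 𝐂(B) := pow_mem (pow_mem c2 _) _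
  refine ⟨(y ^ 2) ^ i, c3, pow_mem (mem_cH.mpr fun g hg => by rw [← i4 g hg]; nth_rw 1 [i4 g hg]; rw [← i4 g hg]; group) _, ?_⟩
  have b0 := le_cj_of_cent hB c3
  refine (h.cj _).norm_gen b0 h4.ge (conj_mem_cj _ hd)
    (fun a => hdB (by simpa [mul_assoc] using conj_mem'' (c_le_n c3) a)) hn ?_
  have j1 := H4.conj_pow_eq_of_inverts i1 (2 * i)
  have j2 := H4.conj_pow_eq_of_inverts i2 (4 * i)
  have j3 : (y ^ 2) ^ i * d * ((y ^ 2) ^ i)⁻¹ = y ^ (4 * i) * d := by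
    rw [← pow_mul, ← j1, h.dinv hd, show 4 * i = 2 * i + 2 * i by ring, pow_add]
    calc y ^ (2 * i) * d * (d * y ^ (2 * i) * d) = y ^ (2 * i) * (d * d) * y ^ (2 * i) * d := by group
      _ = _ := by rw [dd, mul_one]
  have j4 : s * (y ^ (4 * i) * d) * s⁻¹ = ((y ^ n) ^ n)⁻¹ * (y ^ (4 * i) * d) := by
    rw [show s * (y ^ (4 * i) * d) * s⁻¹ = s * y ^ (4 * i) * s⁻¹ * (s * d * s⁻¹) by group, j2, i3, ← pow_mul, hi]
    group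
  rw [j3, j4, ← j3]
  exact mul_mem (inv_mem (b0 (pow_mem hn2 n))) (conj_mem_cj _ hd)

theorem Fr.lemK3 (h : Fr T W D Z z) (h' : Fr T' W' D' Z' z') (hB : B ≤ D) (h4 : #|B| = 4)
    (hc : 2 ^ 8 ≤ #|(W' ⊓ 𝐂(B) : Subgroup G)|) (hx : x ∈ D') (hn : x ∈ 𝐍(D)) : x ∈ 𝐂(D) := by
  obtain ⟨T₀, W₀, D₀, Z₀, z₀, h₀, h1, h2⟩ := h.exX hB (h'.pgW.to_le inf_le_left) (inf_le_right : W' ⊓ 𝐂(B) ≤ _)
  exact h.lemK1 h₀ hB h1 h4 hn
    (h₀.WC (h'.dd inf_le_left hc (fun u hu => h₀.sq4 h1 h4.ge (h2 hu) (mem_inf.mp hu).2) hx))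

theorem exists_four (hb : Invo b) (hu : u * u = 1) (hc : b * u = u * b) (hn : u ∉ zpowers b) :
    ∃ B : Subgroup G, #|B| = 4 ∧ b ∈ B ∧ u ∈ B ∧ ∀ K, b ∈ K → u ∈ K → B ≤ K := by
  refine ⟨zpowers b ⊔ zpowers u, ?_, mem_sup_left (mem_zpowers b), mem_sup_right (mem_zpowers u),
    fun K h1 h2 => sup_le (zpowers_le_of_mem h1) (zpowers_le_of_mem h2)⟩
  rw [H5.card_sup_zpowers (p := 2) (norm_of fun a ha => ?_) hn (by rw [pow_two, hu]; exact one_mem _), hb.card_zpowers]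
  rcases (mem_z hb).mp ha with rfl | rfl
  · simp
  · rw [← hc]; simp

theorem cent_four (h : ∀ K, b ∈ K → u ∈ K → B ≤ K) (h1 : b * x = x * b) (h2 : u * x = x * u) : x ∈ 𝐂(B) :=
  mem_cH.mpr fun a ha => mem_c1.mp (h 𝐂[x] (mem_c1.mpr h1) (mem_c1.mpr h2) ha)

theorem Fr.inf_le2 (h : Fr T W D Z z) (hc : ¬ 4 ≤ #|(D ⊓ D' : Subgroup G)|) : #|(D ⊓ D' : Subgroup G)| ≤ 2 :=
  le_of_lt_pow' (k := 1) h.pgD inf_le_left (by omega)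

/-- Lemma C -/
theorem Fr.lemC (h : Fr T W D Z z) (h' : Fr T' W' D' Z' z') (hb : b ∈ D) (hb' : b ∈ D') (h1 : b ≠ 1) (hu : u ∈ W)
    (hu' : u ∈ D') (hn : u ∉ D) : #|(W ⊓ 𝐂[u] : Subgroup G)| ≤ 2 ^ 8 := by
  by_contra hc
  have h9 := le_of_lt_pow h.pgW inf_le_left (not_le.mp hc)
  obtain ⟨B, b4, b1, b2, b3⟩ := exists_four ⟨h.sqD hb, h1⟩ (h'.sqD hu') (h'.dcomm hb' hu')
    fun a => hn (zpowers_le_of_mem hb a)
  have hY : W ⊓ 𝐂[u] ≤ 𝐂(B) := fun y hy =>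
    cent_four b3 (h.wd (mem_inf.mp hy).1 hb).symm (mem_c1.mp (mem_inf.mp hy).2).symm
  obtain ⟨T₀, W₀, D₀, Z₀, z₀, h₀, h2, h3⟩ := h'.exX (b3 _ hb' hu') (h.pgW.to_le inf_le_left) hY
  obtain ⟨e, he, he'⟩ := h₀.exe b4.le
  have h4 : W ⊓ 𝐂[u] ⊓ 𝐂[e] ≤ W₀ := fun y hy =>
    h₀.memW' (h3 (mem_inf.mp hy).1) (h₀.cent_of h2 b4.ge he he' (hY (mem_inf.mp hy).1) (mem_c1.mp (mem_inf.mp hy).2))
  have h5 := cnt_c fun y hy => h₀.comm_B h2 b4.ge (h₀.nD (h3 hy)) (c_le_n (hY hy)) he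
  have h6 : D₀ ≤ W := (h₀.d16 _ h4 (by rw [b4] at h5; omega)).trans (inf_le_left.trans inf_le_left)
  have h7 : D ≠ D₀ := fun a => hn (a ▸ h2 b2)
  have h8 := h.inf_le2 fun a => h7 (h.lemA h₀ (h6.trans h.WC) a)
  have h10 := cnt_c (L := D ⊓ D₀) (Y := W ⊓ 𝐂[u]) fun y hy =>
    mem_inf.mpr ⟨h.commW (mem_inf.mp hy).1 (h6 he), h₀.ZD (h₀.commD (h3 hy) he)⟩
  exact h7 (h.f2 h₀ (h₀.pgW.to_le h4) (inf_le_left.trans (inf_le_left.trans h.WC)) (h4.trans h₀.WC)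
    (by have := h10.trans (Nat.mul_le_mul_right _ h8); omega))

theorem Fr.lemE (h : Fr T W D Z z) (hu : u ∈ D) (hu' : u ∉ Z) (hY : Y ≤ T) (hc : Y ≤ 𝐂[u]) :
    #|Y| ≤ 2 * #|(Y ⊓ W : Subgroup G)| := by
  obtain ⟨c, hc1, hc2⟩ := h.exc
  have h1 := cnt_c fun y hy => h.commZ' (hY hy) hc1
  rw [h.iz.card_zpowers] at h1
  refine h1.trans (Nat.mul_le_mul_left _ (cle fun y hy => ?_))
  obtain ⟨a, b⟩ := mem_inf.mp hy
  exact mem_inf.mpr ⟨a, h.memW' (hY a) (h.cent_of h.ZD h.cZ.ge hu hu' (h.memT2 (hY a) hc1 hc2 (mem_c1.mp b))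
    (mem_c1.mp (hc a)))⟩

end Cfsg.Agent.WA.Rw
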