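import Cfsg.Agent.WA.Rw4b

/-! Rudvalis-type Sylow subgroups: conjugates of `z` in `W` (PLAN_RW.md, P4). -/

set_option autoImplicit false
set_option linter.unusedSectionVars false
set_option linter.unusedVariables false

namespace Cfsg.Agent.WA.Rw

open Subgroup Cfsg.Agent.FT Cfsg.Agent.L0 Cfsg.Agent.H8
open Cfsg.Agent.BS (Invo)
open scoped commutatorElement

universe u

variable {G : Type u} [Group G] [Finite G] {T W D Z T' W' D' Z' U X Y K B J : Subgroup G}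
  {z z' s t x y w v d d' c e p q j r b u : G}

/-- `x` is conjugate to `z` -/
def Cz (x : G) : Prop := ∃ T W D Z : Subgroup G, Fr T W D Z x

def H1 (G : Type u) [Group G] : Prop := ∀ (T W D Z : Subgroup G) (z : G), Fr T W D Z z → 𝐍(D) ≤ 𝐂[z]

def H2 (G : Type u) [Group G] : Prop := ∀ (T W D Z : Subgroup G) (z : G), Fr T W D Z z → 𝐍(D) ≤ 𝐍(Z)

def HH (G : Type u) [Group G] : Prop := H1 G ∨ (H2 G ∧ ¬ H1 G)

theorem Fr.czz (h : Fr T W D Z z) : Cz z := ⟨_, _, _, _, h⟩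

theorem Cz.conj (h : Cz x) (g : G) : Cz (g * x * g⁻¹) :=
  let ⟨_, _, _, _, h⟩ := h
  (h.cj g).czz

theorem Cz.of_conj (h : Cz (w * x * w⁻¹)) : Cz x := by simpa [mul_assoc] using h.conj w⁻¹

theorem Fr.h1_of (h : Fr T W D Z z) (h1 : 𝐍(D) ≤ 𝐂[z]) : H1 G := fun T' W' D' Z' z' h' => by
  obtain ⟨g, -, -, rfl, -, rfl⟩ := h.exists_cj h'
  rw [← cj_normalizer, ← cj_centralizer_singleton]
  exact cj_mono g h1

theorem Fr.h2_of (h : Fr T W D Z z) (h1 : 𝐍(D) ≤ 𝐍(Z)) : H2 G := fun T' W' D' Z' z' h' => by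
  obtain ⟨g, -, -, rfl, rfl, -⟩ := h.exists_cj h'
  rw [← cj_normalizer, ← cj_normalizer]
  exact cj_mono g h1

theorem Fr.fusz (h : Fr T W D Z z) (hx : Cz x) (hd : x ∈ D) : ∃ n ∈ 𝐍(D), n * z * n⁻¹ = x := by
  obtain ⟨T', W', D', Z', h'⟩ := hx
  obtain ⟨g, -, -, -, -, rfl⟩ := h.exists_cj h'
  obtain ⟨n, hn, e⟩ := h.fus h.zD hd
  exact ⟨n, h.NW_le hn, e⟩

theorem H1.eq (H : H1 G) (h : Fr T W D Z z) (hx : Cz x) (hd : x ∈ D) : x = z := by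
  obtain ⟨n, hn, rfl⟩ := h.fusz hx hd
  rw [mem_c1.mp (H _ _ _ _ _ h hn), mul_inv_cancel_right]

theorem HH.mem (H : HH G) (h : Fr T W D Z z) (hx : Cz x) (hd : x ∈ D) : x ∈ Z := by
  rcases H with H | ⟨H, -⟩
  · exact H.eq h hx hd ▸ h.zZ
  · obtain ⟨n, hn, rfl⟩ := h.fusz hx hd
    exact conj_mem' (H _ _ _ _ _ h hn) h.zZ

theorem H2.cz (H : H2 G) (H' : ¬ H1 G) (h : Fr T W D Z z) (hc : c ∈ Z) (h1 : c ≠ 1) : Cz c := by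
  obtain ⟨n, hn, hn'⟩ := SetLike.not_le_iff_exists.mp fun a => H' (h.h1_of a)
  have a1 := conj_mem' (H _ _ _ _ _ h hn) h.zZ
  have a2 : n * z * n⁻¹ ∉ zpowers z := fun a => by
    rcases (mem_z h.iz).mp a with a | a
    · exact (h.iz.conj n).ne_one a
    · exact hn' (mem_c1.mpr (mul_inv_eq_iff_eq_mul.mp a))
  by_cases a3 : c ∈ zpowers z
  · exact ((mem_z h.iz).mp a3).resolve_left h1 ▸ h.czz
  rcases h.idxZ a1 a2 hc a3 with rfl | rfl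
  · exact h.czz.conj n
  · obtain ⟨t, ht, ht'⟩ := ex_not_mem (A := T ⊓ 𝐂(Z)) (B := T) (by rw [h.cT, h.cT2]; norm_num)
    have := (h.czz.conj n).conj t
    rwa [conj_eq_comm t, h.notT2 ht (fun a => ht' (mem_inf.mpr ⟨ht, a⟩)) a1 a2, h.dcomm h.zD (h.ZD a1)] at this

theorem Cz.ex (hx : Cz x) (hY : IsPGroup 2 Y) (hc : Y ≤ 𝐂[x]) : ∃ T W D Z, Fr T W D Z x ∧ Y ≤ T := by
  obtain ⟨T, W, D, Z, h⟩ := hx
  obtain ⟨P, hP, hYP⟩ := exists_isSylowIn_ge hY hc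
  obtain ⟨k, hk, rfl⟩ := (h.syl.of_le (fun t ht => mem_c1.mpr (h.cz ht)) le_top).exists_cj_eq hP
  have := h.cj k
  rw [mem_c1.mp hk, mul_inv_cancel_right] at this
  exact ⟨_, _, _, _, this, hYP⟩

theorem Fr.onto8 (h : Fr T W D Z z) (hy : y ∈ W) (hc : #|(W ⊓ 𝐂[y] : Subgroup G)| ≤ 2 ^ 8) (hd : d ∈ D) :
    ∃ w ∈ W, w * y * w⁻¹ = d * y := by
  let I : Subgroup G :=
    { carrier := {d | ∃ p ∈ W, ⁅y, p⁆ = d}
      one_mem' := ⟨1, one_mem _, by simp⟩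
      mul_mem' := by
        rintro _ _ ⟨p, hp, rfl⟩ ⟨q, hq, rfl⟩
        exact ⟨p * q, mul_mem hp hq, h.comm_mul hy hp hq⟩
      inv_mem' := by
        rintro _ ⟨p, hp, rfl⟩
        exact ⟨p, hp, (h.dinv (h.commW hy hp)).symm⟩ }
  have h1 : I ≤ D := by
    rintro _ ⟨p, hp, rfl⟩
    exact h.commW hy hp
  have h2 := cnt_c' (L := I) (Y := W) (e := y) fun p hp => ⟨p, hp, rfl⟩
  rw [h.cW] at h2
  have h3 : I = D := eq_of_cle h1 (by rw [h.cD]; nlinarith)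
  rw [← h3] at hd
  obtain ⟨p, hp, rfl⟩ := hd
  exact ⟨p, hp, by rw [conj_eq_comm, h.comm_symm hp hy]⟩

theorem Fr.sqT2' (h : Fr T W D Z z) (ht : t ∈ T) (h2 : t ∉ 𝐂(Z)) : t * t ∈ 𝐂(Z) :=
  (mem_inf.mp (idx2 (inf_le_left : T ⊓ 𝐂(Z) ≤ T) (by rw [h.cT, h.cT2]; norm_num) ht ht
    (fun a => h2 (mem_inf.mp a).2) fun a => h2 (mem_inf.mp a).2)).2

theorem Fr.WZ (h : Fr T W D Z z) : W ≤ 𝐂(Z) := h.WT2.trans inf_le_right

theorem Fr.inW1 (h : Fr T W D Z z) (h' : Fr T' W' D' Z' x) (hW : x ∈ W) (hn : x ∉ D) (hX : W ⊓ 𝐂[x] ≤ T') : D ≤ W' := by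
  have c8 := h.card_cent hW
  by_contra hD
  obtain ⟨p, hp, hp'⟩ : ∃ p ∈ W ⊓ 𝐂[x], p * p ∉ W' := by
    by_contra a
    push Not at a
    exact hD (h.dd inf_le_left c8 a)
  have pW := (mem_inf.mp hp).1
  have pT := hX hp
  have dD := h.sq p pW
  have p2 : p ∉ 𝐂(Z') := fun a => hp' (h'.sqT2 (mem_inf.mpr ⟨pT, a⟩))
  have d2 := h'.sqT2' pT p2
  obtain ⟨c, hi⟩ := h'.iv (mul_mem pT pT) hp' (h.sqD dD)
  have j2 : ∀ J, J ≤ W ⊓ 𝐂[x] → #|(J ⊓ D' : Subgroup G)| ≤ 2 := fun J hJ => by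
    rw [← h'.iz.card_zpowers]
    refine cle fun j hj => by_contra fun a => hn ?_
    have jW := (mem_inf.mp (hJ (mem_inf.mp hj).1)).1
    have : j ∈ Z' := hi.D1_eq d2 ▸ mem_inf.mpr ⟨(mem_inf.mp hj).2, mem_c1.mpr (h.wd jW dD)⟩
    exact h'.notT2 pT p2 this a ▸ h.commW pW jW
  have k8 := h'.cvA' (J := W ⊓ 𝐂[x] ⊓ W' ⊓ cmod D' {p}) (inf_le_left.trans inf_le_right) pT (mul_mem pT pT)
    (fun a => p2 (h'.WZ a)) hp' (fun a => p2 ((mul_mem_cancel_right d2).mp (h'.WZ a)))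
    (fun j hj => (mem_cmod_single.mp (mem_inf.mp hj).2).2) fun j hj => by
      rw [comm1.mpr (h.wd (mem_inf.mp (mem_inf.mp (mem_inf.mp hj).1).1).1 dD).symm]; exact one_mem _
  have k2 := j2 (W ⊓ 𝐂[x] ⊓ W' ⊓ cmod D' {p}) (inf_le_left.trans inf_le_left)
  have m1 := cnt_m (Y := W ⊓ 𝐂[x] ⊓ W') (L := D ⊓ W' ⊔ D') (e := p) le_sup_right (inf_le_right.trans h'.WnD)
    fun j hj => mem_sup_left (mem_inf.mpr ⟨h.commW pW (mem_inf.mp (mem_inf.mp hj).1).1, h'.commTW pT (mem_inf.mp hj).2⟩)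
  have m2 := csup (inf_le_right.trans h'.WnD : D ⊓ W' ≤ _)
  have m3 := clt (inf_le_left : D ⊓ W' ≤ D) dD fun a => hp' (mem_inf.mp a).2
  have m4 := h'.c8 hX
  have m5 := h'.cXW hX
  have m6 := cpos (D ⊓ W' ⊓ D')
  rw [h'.cD] at m1 m2
  rw [h.cD] at m3
  have m7 : #|(W ⊓ 𝐂[x] ⊓ W' : Subgroup G)| ≤ #|(D ⊓ W' ⊔ D' : Subgroup G)| := by nlinarith
  have m8 : #|(D ⊓ W' ⊔ D' : Subgroup G)| ≤ 32 := by nlinarith
  have m9 : W ⊓ 𝐂[x] ⊔ W' = T' := eq_of_cle (sup_le hX h'.WT) (by rw [h'.cT]; nlinarith)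
  have m10 := h'.cvB (J := D ⊓ W') inf_le_right (m9 ▸ sup_le
    (fun q hq => ⟨h'.nD (hX hq), fun j hj => by
      rw [comm1.mpr (h.wd (mem_inf.mp hq).1 (mem_inf.mp hj).1).symm]; exact one_mem _⟩)
    ((h'.W_le_cm inf_le_right).trans inf_le_right))
  nlinarith

theorem four_le (hb : Invo b) (h1 : b ∈ K) (h2 : u ∈ K) (h3 : u ∉ zpowers b) : 4 ≤ #|K| := by
  have := clt (zpowers_le_of_mem h1) h2 h3
  rwa [hb.card_zpowers] at this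

theorem HH.inW (H : HH G) (h : Fr T W D Z z) (hx : Cz x) (hW : x ∈ W) : x ∈ D := by
  by_contra hn
  have c8 := h.card_cent hW
  obtain ⟨T', W', D', Z', h', hX⟩ := hx.ex (h.pgW.to_le inf_le_left) (inf_le_right : W ⊓ 𝐂[x] ≤ _)
  have hD := h.inW1 h' hW hn hX
  have ne : D ≠ D' := fun a => hn (a ▸ h'.zD)
  have hC : D' ≤ 𝐂(D) := le_centralizer_iff.mp (hD.trans h'.WC)
  have i2 := h.inf_le2 fun a => ne (h.lemA h' hC a)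
  have f8 : ¬ 2 ^ 8 ≤ #|(W ⊓ 𝐂[x] ⊓ W' : Subgroup G)| := fun a =>
    ne (h.f2 h' (h'.pgW.to_le inf_le_right) (inf_le_left.trans (inf_le_left.trans h.WC)) (inf_le_right.trans h'.WC) a)
  obtain ⟨T₀, W₀, h₀, hY⟩ := h.exC (h'.two.to_le (sup_le hX h'.DT)) (sup_le (inf_le_left.trans h.WC) hC)
  have cm : ∀ p ∈ W ⊓ 𝐂[x], ∀ a ∈ D', ⁅p, a⁆ ∈ D ⊓ D' := fun p hp a ha =>
    mem_inf.mpr ⟨h₀.commW (hY (mem_sup_left hp)) (hY (mem_sup_right ha)), h'.ZD (h'.commD (hX hp) ha)⟩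
  obtain ⟨e, he, he'⟩ := h'.exe h'.cZ.le
  have x2 : W ⊓ 𝐂[x] ≤ 𝐂(Z') := fun p hp => mem_cH.mpr fun a ha =>
    (comm1.mp ((h'.commZ (hX hp) ha).resolve_right fun b => hn (b ▸ (mem_inf.mp (cm p hp a (h'.ZD ha))).1))).symm
  have x3 : W ⊓ 𝐂[x] ⊓ 𝐂[e] ≤ W ⊓ 𝐂[x] ⊓ W' := fun p hp => mem_inf.mpr ⟨(mem_inf.mp hp).1, h'.memW' (hX (mem_inf.mp hp).1)
    (h'.cent_of h'.ZD h'.cZ.ge he he' (x2 (mem_inf.mp hp).1) (mem_c1.mp (mem_inf.mp hp).2))⟩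
  have x4 := (cnt_c fun p hp => cm p hp e he).trans (Nat.mul_le_mul i2 (cle x3))
  have x5 : D' ≤ W := (h'.d16 (W ⊓ 𝐂[x] ⊓ W') inf_le_right (by omega)).trans (inf_le_left.trans inf_le_left)
  have x6 : #|(W ⊓ 𝐂[x] : Subgroup G)| ≤ 2 ^ 8 := le_of_lt_pow' h.pgW inf_le_left (by omega)
  obtain ⟨p, hp, hp'⟩ : ∃ p ∈ W ⊓ 𝐂[x], p ∉ W ⊓ 𝐂[x] ⊓ 𝐂[e] := ex_not_mem (by have := cle x3; omega)
  have b1 : ⁅p, e⁆ ≠ 1 := fun a => hp' (mem_inf.mpr ⟨hp, mem_c1.mpr (comm1.mp a)⟩)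
  have b2 := cm p hp e he
  have b3 := h'.commD (hX hp) he
  generalize ⁅p, e⁆ = b at b1 b2 b3
  obtain ⟨bD, bD'⟩ := mem_inf.mp b2
  have ib : Invo b := ⟨h.sqD bD, b1⟩
  rcases H with H | ⟨H, H'⟩
  · obtain ⟨w, hw, e1⟩ := h.onto8 hW x6 bD
    exact b1 (mul_eq_right.mp (H.eq h' (e1 ▸ hx.conj w) (mul_mem bD' h'.zD)))
  have HH' : HH G := Or.inr ⟨H, H'⟩
  have ne' : ¬ Cz e := fun a => he' (HH'.mem h' a he)
  obtain ⟨u, hu, hu'⟩ := ex_not_mem (A := zpowers b) (B := Z) (by rw [h.cZ, ib.card_zpowers]; norm_num)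
  have u1 : u ∉ D' := fun a => by
    have := four_le ib b2 (mem_inf.mpr ⟨h.ZD hu, a⟩) hu'
    omega
  obtain ⟨w', hw', e1⟩ := h'.onto8 (hD (h.ZD hu)) (h'.lemC h bD' bD b1 (hD (h.ZD hu)) (h.ZD hu) u1) he
  have u2 : Cz (e * u) := e1 ▸ (H.cz H' h hu fun a => hu' (a ▸ one_mem _)).conj w'
  have u3 : 2 ^ (8 + 1) ≤ #|(W ⊓ 𝐂[e] : Subgroup G)| := le_of_lt_pow h.pgW inf_le_left (lt_of_not_ge fun a => by
    obtain ⟨w, hw, e2⟩ := h.onto8 (x5 he) a (h.ZD hu)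
    rw [h.wd (x5 he) (h.ZD hu), ← e2] at u2
    exact ne' u2.of_conj)
  obtain ⟨T₁, W₁, D₁, Z₁, z₁, h₁, k1, k2⟩ := h'.exX1 he (h.pgW.to_le inf_le_left) (inf_le_right : W ⊓ 𝐂[e] ≤ _)
  have k3 := h₁.lemE k1 (fun a => ne' (H.cz H' h₁ a fun a => he' (a ▸ one_mem _))) k2 inf_le_right
  have k4 := h.f2 h₁ (h₁.pgW.to_le inf_le_right : IsPGroup 2 (W ⊓ 𝐂[e] ⊓ W₁ : Subgroup G))
    (inf_le_left.trans (inf_le_left.trans h.WC)) (inf_le_right.trans h₁.WC) (by omega)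
  have := four_le ib b2 (mem_inf.mpr ⟨k4 ▸ k1, he⟩) fun a => he' (zpowers_le_of_mem b3 a)
  omega

end Cfsg.Agent.WA.Rw
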