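import Cfsg.Agent.WA.Rw4c

/-! Rudvalis-type Sylow subgroups: conjugates of `z` in `T` (PLAN_RW.md, P4). -/

set_option autoImplicit false
set_option linter.unusedSectionVars false
set_option linter.unusedVariables false

namespace Cfsg.Agent.WA.Rw

open Subgroup Cfsg.Agent.FT Cfsg.Agent.L0 Cfsg.Agent.H8
open Cfsg.Agent.BS (Invo)
open scoped commutatorElement

universe u

variable {G : Type u} [Group G] [Finite G] {T W D Z T' W' D' Z' U X Y K B J : Subgroup G}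
  {z z' s t x y w v d d' c e p q j r b u : G}

theorem HH.sigD (H : HH G) (h' : Fr T' W' D' Z' z') (hx : Cz x) (hd : x ∈ D') (hj : j ∈ W')
    (e : w * x * w⁻¹ = j * x) : j * x ∈ D' := H.inW h' (e ▸ hx.conj w) (mul_mem hj (h'.DW hd))

theorem HH.sigZ (H : HH G) (h' : Fr T' W' D' Z' z') (hx : Cz x) (hd : x ∈ D') (hj : j ∈ W')
    (e : w * x * w⁻¹ = j * x) : j ∈ Z' :=
  (mul_mem_cancel_right (H.mem h' hx hd)).mp (H.mem h' (e ▸ hx.conj w) (H.sigD h' hx hd hj e))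

theorem Iv.out1 (H : H2 G) (H' : ¬ H1 G) (h : Iv T W D Z z x c) (h' : Fr T' W' D' Z' x) (hX : W ⊓ 𝐂[x] ≤ T')
    (hc : c ∈ Z') : False := by
  have HH' : HH G := Or.inr ⟨H, H'⟩
  have hx := h'.czz
  obtain ⟨d, hd, hd1, hd2⟩ := h.exe
  have cx : c ∉ zpowers x := fun a => by
    rcases (mem_z h.ix).mp a with a | a
    · exact h.c1 a
    · exact h.xW (a ▸ h.DW h.cD')
  have dx : d * x * d⁻¹ = c * x := by rw [h.conj_x, hd2, h.dinv h.cD']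
  have dc : d * c * d⁻¹ = c := h.wdw (h.DW hd) h.cD'
  have n1 : d ∈ 𝐍(Z') := norm_of fun a ha => by
    by_cases a1 : a ∈ zpowers x
    · rcases (mem_z h.ix).mp a1 with rfl | rfl
      · simp
      · exact dx ▸ mul_mem hc ha
    · rcases h'.idxZ hc cx ha a1 with rfl | rfl
      · rwa [dc]
      · rw [show d * (c * x) * d⁻¹ = d * c * d⁻¹ * (d * x * d⁻¹) by group, dc, dx]
        exact mul_mem hc ha
  obtain ⟨k, k1, k2, k3⟩ := h'.lemK2 h'.ZD h'.cZ (h.sqD hd) n1 (hX.trans h'.nD) (hX.trans h'.nZ)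
    fun p hp => mem_c1.mpr (h.wd (mem_inf.mp hp).1 hd)
  have n2 : W ⊓ 𝐂[x] ≤ 𝐍(H8.cj k D') := (le_cj_of_cent hX k2).trans (h'.cj k).nD
  have n3 : D ≤ 𝐍(H8.cj k D') := h.le_gen inf_le_left h.d4.ge hd (fun a => hd1 (mem_c1.mp (mem_inf.mp a).2).symm)
    ((inf_le_inf_right _ h.DW).trans n2) k3
  obtain ⟨T₀, W₀, Z₀, z₀, h₀, hY⟩ := (h'.cj k).exN (h.pgW.to_le (sup_le inf_le_left h.DW)) (sup_le n2 n3)
  have b0 := le_cj_of_cent h'.ZD k1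
  generalize H8.cj k D' = D₀ at *
  have xD := b0 h'.zZ
  have xZ := HH'.mem h₀ hx xD
  have cZ := HH'.mem h₀ (H.cz H' h' hc h.c1) (b0 hc)
  have XT : W ⊓ 𝐂[x] ≤ T₀ := le_sup_left.trans hY
  have dT := hY (mem_sup_right hd)
  have d2 : d ∉ 𝐂(Z₀) := fun a => hd1 (mem_cH.mp a x xZ)
  have cz : c = z₀ := ((mem_z h₀.iz).mp (by_contra fun a => d2 (h₀.memT2 dT cZ a (h.dcomm hd h.cD')))).resolve_left h.c1
  subst cz
  have xz : x ∉ zpowers c := fun a => h.xW (h.DW (zpowers_le_of_mem h.cD' a))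
  have d1 := (h₀.of_sq dT (h.sqD hd ▸ one_mem _)).resolve_right d2
  have X12 : W ⊓ 𝐂[x] ≤ T₀ ⊓ cmod (zpowers c) D₀ ⊓ 𝐂(Z₀) := fun p hp => mem_inf.mpr ⟨mem_inf.mpr ⟨XT hp,
    by_contra fun a => h₀.ncomm' dT (XT hp) d2 a (Or.inl d1) (h.wd (mem_inf.mp hp).1 hd).symm⟩,
    h₀.memT2 (XT hp) xZ xz (mem_c1.mp (mem_inf.mp hp).2)⟩
  have j16 := cle2 fun a ha b hb => h₀.idx12 (X12 ha) (X12 hb)
  have c32 := h.c32
  have zw : ∀ j ∈ Z₀, j ∈ W → j ∈ zpowers c := fun j hj jW => by_contra fun a => h.xW (by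
    rcases h₀.idxZ hj a xZ xz with e | e
    · exact e ▸ jW
    · exact e ▸ mul_mem jW (h.DW h.cD'))
  have fin : ∀ p ∈ W ⊓ 𝐂[x], p ∉ W₀ → #|(W ⊓ 𝐂[x] ⊓ W₀ ⊓ D₀ : Subgroup G)| ≤ 2 → False := fun p hp hp' h2 => by
    have := h₀.cvA' (J := W ⊓ 𝐂[x] ⊓ W₀) inf_le_right (XT hp) dT hp' (fun a => d2 (h₀.WZ a))
      (fun a => d2 ((mul_mem_cancel_left (mem_inf.mp (X12 hp)).2).mp (h₀.WZ a)))
      (fun j hj => zpowers_le_of_mem h₀.zD (h.commX hp (mem_inf.mp hj).1)) fun j hj => by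
        rw [comm1.mpr (h.wd (mem_inf.mp (mem_inf.mp hj).1).1 hd).symm]; exact one_mem _
    omega
  by_cases a : D ⊓ 𝐂[x] ≤ W₀
  · have inv : ∀ j ∈ W ⊓ 𝐂[x] ⊓ W₀, j * j = 1 → j ∈ D := fun j hj jj => by
      obtain ⟨j1, j2⟩ := mem_inf.mp hj
      obtain ⟨e, he, w, hw, e1⟩ := h.sig j1 jj
      have := zw _ (HH'.sigZ h₀ hx xD (mul_mem j2 (a he)) e1) (mul_mem (mem_inf.mp j1).1 (h.DW (mem_inf.mp he).1))
      exact (mul_mem_cancel_right (mem_inf.mp he).1).mp (zpowers_le_of_mem h.cD' this)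
    have a1 : ¬ 8 * #|(W ⊓ 𝐂[x] ⊓ W₀ ⊓ D : Subgroup G)| ≤ #|(W ⊓ 𝐂[x] ⊓ W₀ : Subgroup G)| := fun b => by
      obtain ⟨p, p1, p2, p3⟩ := h.sing inf_le_left b
      exact p2 (inv p p1 p3)
    have a2 := cle (inf_le_inf_right D inf_le_left : W ⊓ 𝐂[x] ⊓ W₀ ⊓ D ≤ W ⊓ 𝐂[x] ⊓ D)
    rw [h.XD1, h.d4] at a2
    obtain ⟨p, hp, hp'⟩ := ex_not_mem (A := W ⊓ 𝐂[x] ⊓ W₀) (B := W ⊓ 𝐂[x]) (by omega)
    refine fin p hp (fun b => hp' (mem_inf.mpr ⟨hp, b⟩)) ((cle (fun j hj => ?_ : _ ≤ D₀ ⊓ D)).trans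
      (h₀.inf_le2 fun b => h.xW (h.DW (h₀.lemB h.toFr n3 b ▸ xD))))
    exact mem_inf.mpr ⟨(mem_inf.mp hj).2, inv j (mem_inf.mp hj).1 (h₀.sqD (mem_inf.mp hj).2)⟩
  · obtain ⟨e, he, he'⟩ := SetLike.not_le_iff_exists.mp a
    have eX := inf_le_inf_right _ h.DW he
    refine fin e eX he' ((cle fun j hj => ?_).trans h.ic.card_zpowers.le)
    obtain ⟨j1, j2⟩ := mem_inf.mp hj
    have jW := (mem_inf.mp (mem_inf.mp j1).1).1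
    refine zw j (by_contra fun b => h.c1 ?_) jW
    rw [← h₀.T12 (XT eX) (mem_inf.mp (mem_inf.mp (X12 eX)).1).2 (mem_inf.mp (X12 eX)).2 he' j2 b, comm1]
    exact (h.wd jW (mem_inf.mp he).1).symm

theorem Iv.out2 (H : HH G) (h : Iv T W D Z z x c) (h' : Fr T' W' D' Z' x) (hX : W ⊓ 𝐂[x] ≤ T') (hc : c ∉ W') :
    False := by
  have hx := h'.czz
  have cX := inf_le_inf_right _ h.DW h.cD1
  have t1 : ∀ a ∈ zpowers c, a ∈ W' → a = 1 := fun a ha aW =>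
    ((mem_z h.ic).mp ha).resolve_right fun e => hc (e ▸ aW)
  have el : ∀ j ∈ W ⊓ 𝐂[x] ⊓ W', j * j = 1 := fun j hj =>
    t1 _ (h.sqX (mem_inf.mp hj).1) (mul_mem (mem_inf.mp hj).2 (mem_inf.mp hj).2)
  have ce : ∀ p ∈ W ⊓ 𝐂[x], ∀ j ∈ W ⊓ 𝐂[x] ⊓ W', p * j = j * p := fun p hp j hj =>
    comm1.mp (t1 _ (h.commX hp (mem_inf.mp hj).1) (h'.commTW (hX hp) (mem_inf.mp hj).2))
  have z2 := clt (inf_le_left : Z' ⊓ W ≤ Z') h'.zZ fun a => h.xW (mem_inf.mp a).2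
  rw [h'.cZ] at z2
  have c8 := h'.c8 hX
  rcases h.c3264 with c0 | c0
  · have := cle (fun j hj => by
      obtain ⟨w, hw, e⟩ := h.sig32 c0.le (mem_inf.mp hj).1 (el j hj)
      exact mem_inf.mpr ⟨H.sigZ h' hx h'.zD (mem_inf.mp hj).2 e, (mem_inf.mp (mem_inf.mp hj).1).1⟩ :
        W ⊓ 𝐂[x] ⊓ W' ≤ Z' ⊓ W)
    omega
  have m1 := h'.cXW hX
  rw [c0] at m1
  by_cases m2 : 2 ^ 13 ≤ #|(W ⊓ 𝐂[x] ⊔ W' : Subgroup G)|
  · have n1 : x ∈ 𝐍((W ⊓ 𝐂[x] ⊓ W' : Subgroup G)) := norm_of fun a ha => by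
      rwa [← mem_c1.mp (mem_inf.mp (mem_inf.mp ha).1).2, mul_inv_cancel_right]
    have n2 := H5.card_sup_zpowers (p := 2) n1 (fun a => h.xW (mem_inf.mp (mem_inf.mp a).1).1)
      (by rw [pow_two, h.xx]; exact one_mem _)
    have n3 : W ⊓ 𝐂[x] ⊓ W' ⊔ zpowers x ≤ W' := sup_le inf_le_right (zpowers_le_of_mem h'.zW)
    have n4 : ∀ p ∈ W ⊓ 𝐂[x], W ⊓ 𝐂[x] ⊓ W' ⊔ zpowers x ≤ 𝐂[p] := fun p hp =>
      sup_le (fun j hj => mem_c1.mpr (ce p hp j hj).symm) (zpowers_le_of_mem (mem_c1.mpr (mem_c1.mp (mem_inf.mp hp).2).symm))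
    have n5 : W ⊓ 𝐂[x] ⊔ W' ≤ T' ⊓ cmod D' (W ⊓ 𝐂[x] ⊓ W' ⊔ zpowers x : Subgroup G) :=
      sup_le (fun p hp => mem_inf.mpr ⟨hX hp, h'.nD (hX hp), fun j hj => by
        rw [comm1.mpr (mem_c1.mp (n4 p hp hj))]; exact one_mem _⟩) (h'.W_le_cm n3)
    obtain ⟨c', hi⟩ := h'.iv (hX cX) hc h.c2
    have n6 := cle (le_inf inf_le_right (inf_le_left.trans (n4 c cX)) :
      (W ⊓ 𝐂[x] ⊓ W' ⊔ zpowers x) ⊓ D' ≤ D' ⊓ 𝐂[c])
    rw [hi.d4] at n6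
    have n7 := h'.cvA n3 (m2.trans (cle n5))
    have n8 : W ⊓ 𝐂[x] ⊔ W' = T' := eq_of_cle (sup_le hX h'.WT) (by rw [h'.cT]; nlinarith)
    have n9 := h'.cvB n3 (n8 ▸ n5.trans inf_le_right)
    omega
  · have m3 : #|(W ⊓ 𝐂[x] ⊔ W' : Subgroup G)| ≤ 2 ^ 12 := le_of_lt_pow' h'.two (sup_le hX h'.WT) (by omega)
    have m4 : W ⊓ 𝐂[x] ⊓ W' ≤ Z' ⊓ W ⊔ D ⊓ 𝐂[x] := fun j hj => by
      obtain ⟨j1, j2⟩ := mem_inf.mp hj
      obtain ⟨d, hd, w, hw, e⟩ : ∃ d ∈ D ⊓ 𝐂[x], ∃ w ∈ W, w * x * w⁻¹ = j * d * x ∧ d ∈ W' := by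
        obtain ⟨d, hd, w, hw, e⟩ := h.sig j1 (el j hj)
        by_cases a : d ∈ W'
        · exact ⟨d, hd, w, hw, e, a⟩
        · obtain ⟨w', hw', e'⟩ := h.sigc hw e
          exact ⟨d * c, mul_mem hd h.cD1, w', hw', by rw [e', mul_assoc j], idx2 le_sup_right (by rw [h'.cW]; omega)
            (mem_sup_left (inf_le_inf_right _ h.DW hd)) (mem_sup_left cX) a hc⟩
      have := H.sigZ h' hx h'.zD (mul_mem j2 e.2) e.1
      exact (mul_mem_cancel_right (mem_sup_right hd)).mp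
        (mem_sup_left (mem_inf.mpr ⟨this, mul_mem (mem_inf.mp j1).1 (h.DW (mem_inf.mp hd).1)⟩))
    have m5 := cle m4
    have m6 := csup (A := Z' ⊓ W) (B := D ⊓ 𝐂[x]) fun w hw =>
      c_le_n (centralizer_le inf_le_left (h.WC (mem_inf.mp hw).2))
    have m7 := cpos (Z' ⊓ W ⊓ (D ⊓ 𝐂[x]))
    rw [h.d4] at m6
    nlinarith

theorem HH.inT (H : HH G) (h : Fr T W D Z z) (hx : Cz x) (hT : x ∈ T) : x ∈ D := by
  by_cases hW : x ∈ W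
  · exact H.inW h hx hW
  obtain ⟨T', W', D', Z', h', hX⟩ := hx.ex (h.pgW.to_le inf_le_left) (inf_le_right : W ⊓ 𝐂[x] ≤ _)
  obtain ⟨c, hi⟩ := h.iv hT hW h'.zz
  by_cases hc : c ∈ W'
  · obtain ⟨w, hw, e⟩ := hi.sig1
    rcases H with H | ⟨H, H'⟩
    · exact (hi.c1 (mul_eq_right.mp (H.eq h' (e ▸ hx.conj w) (HH.sigD (Or.inl H) h' hx h'.zD hc e)))).elim
    · exact (hi.out1 H H' h' hX (HH.sigZ (Or.inr ⟨H, H'⟩) h' hx h'.zD hc e)).elim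
  · exact (hi.out2 H h' hX hc).elim

end Cfsg.Agent.WA.Rw
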