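import Cfsg.Agent.WA.IRw0

/-! Rudvalis-type Sylow subgroups: the hypotheses of S3204 give a frame (PLAN_RW.md, PA). -/

set_option autoImplicit false
set_option linter.unusedSectionVars false
set_option linter.unusedVariables false

namespace Cfsg.Agent.WA.Rw

open Subgroup Cfsg.Agent.FT Cfsg.Agent.L0 Cfsg.Agent.H8
open Cfsg.Agent.BS (Invo)
open scoped commutatorElement

universe u

section
variable {G : Type u} [Group G] [Finite G] {T W E X Y : Subgroup G} {x w : G}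

theorem ra_sup (hw : w ∈ W ⊓ cmod E Y) (hx : x ∈ 𝐍(E)) (hY : Y ≤ 𝐍(E)) (h1 : ⁅x, w⁆ ∈ E) :
    w ∈ W ⊓ cmod E (Y ⊔ zpowers x : Subgroup G) := by
  obtain ⟨a1, a2, a3⟩ := mem_inf.mp hw
  have : Y ⊔ zpowers x ≤ cmod E {w} := sup_le (fun y hy => mem_cmod_single.mpr ⟨hY hy, comm_flip (a3 y hy)⟩)
    (zpowers_le_of_mem (mem_cmod_single.mpr ⟨hx, comm_flip h1⟩))
  exact mem_inf.mpr ⟨a1, a2, fun y hy => comm_flip (mem_cmod_single.mp (this hy)).2⟩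

theorem ra_up (two : IsPGroup 2 T) (WT : W ≤ T) (nW : T ≤ 𝐍(W)) (nE : T ≤ 𝐍(E)) (EW : E ≤ W) (sq : ∀ w ∈ W, w * w ∈ E)
    (h2 : Y ≤ T) (hc : #|Y| < #|T|) : ∃ Y', Y' ≤ T ∧ #|Y'| = #|Y| * 2 ∧
      #|(W ⊓ cmod E Y : Subgroup G)| * #|E| ≤ #|(W ⊓ cmod E Y' : Subgroup G)| * #|(W ⊓ cmod E Y' : Subgroup G)| := by
  obtain ⟨x, xT, x2, x3, x4⟩ := H5.exists_mem_normalizer_not_mem two h2 fun a => by
    have := cle a
    omega
  have l : Y ⊔ zpowers x ≤ T := sup_le h2 (zpowers_le_of_mem xT)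
  refine ⟨Y ⊔ zpowers x, l, H5.card_sup_zpowers x4 x2 x3, ?_⟩
  have n1 : x ∈ 𝐍((W ⊓ cmod E Y : Subgroup G)) :=
    inf_normalizer_le_normalizer_inf (mem_inf.mpr ⟨nW xT, norm_cmod (mem_inf.mpr ⟨nE xT, x4⟩)⟩)
  have := cnt_m (Y := W ⊓ cmod E Y) (L := W ⊓ cmod E (Y ⊔ zpowers x : Subgroup G)) (e := x)
    (fun d hd => mem_inf.mpr ⟨EW hd, le_normalizer hd, fun y hy => comm_mem_r (nE (l hy)) hd⟩)
    (inf_le_left.trans (WT.trans nE)) fun w hw => ra_sup (comm_mem_r n1 hw) (nE xT) (h2.trans nE) (by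
      have a := conj_mem' (nW xT) (mem_inf.mp hw).1
      rw [show ⁅x, ⁅x, w⁆⁆ = ⁅x * x, w⁆ * (w * (x * w * x⁻¹)⁻¹ * (w * (x * w * x⁻¹)⁻¹)) by
        simp only [commutatorElement_def]; group]
      exact mul_mem ((mem_inf.mp hw).2.2 _ (pow_two x ▸ x3)) (sq _ (mul_mem (mem_inf.mp hw).1 (inv_mem a))))
  exact this.trans (Nat.mul_le_mul_left _ (cle fun w hw =>
    ra_sup (mem_inf.mp hw).1 (nE xT) (h2.trans nE) (mem_cmod_single.mp (mem_inf.mp hw).2).2))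

theorem ra_main (syl : IsSylowIn 2 T ⊤) (ha : 2 ^ 14 ≤ #|T|) (Zs : ℕ → Subgroup G) (z0 : Zs 0 = ⊥)
    (zs : ∀ n, Zs (n + 1) = T ⊓ cmod (Zs n) T) (mono : ∀ n, Zs n ≤ Zs (n + 1)) (h4 : #|Zs 4| = 16)
    (eW : W = T ⊓ 𝐂(Zs 3)) (nE : T ≤ 𝐍(E)) (EW : E ≤ W) (sq : ∀ w ∈ W, w * w ∈ E) (c8 : #|E| ≤ 8)
    (hd : ∀ U, U ≤ W → #|W| ≤ 16 * #|U| → E ≤ U) : ∃ D Z z, Fr T W D Z z := by
  have two := syl.pgroup
  have WT : W ≤ T := eW.le.trans inf_le_left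
  have nZ : ∀ n, T ≤ 𝐍(Zs n) := fun n => by
    induction n with
    | zero => rw [z0]; exact le_normalizer_of_normal
    | succ n ih => rw [zs]; exact le_normalizer_inf le_normalizer ((le_inf ih le_normalizer).trans norm_cmod)
  have nW : T ≤ 𝐍(W) := eW ▸ le_normalizer_inf le_normalizer fun t ht => by
    rw [← cj_eq_self_iff, cj_centralizer, cj_eq_self (nZ 3 ht)]
  have step : ∀ n U, U ≤ T → T ≤ 𝐍(U) → ¬ U ≤ Zs n → ∃ x ∈ U, x ∉ Zs n ∧ x ∈ Zs (n + 1) := fun n U h1 h2 h3 => by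
    obtain ⟨x, x1, x2, -, x3⟩ := H5.exists_mem_not_mem_central_mod two h1 h2 h3
    exact ⟨x, x1, x2, zs n ▸ mem_inf.mpr ⟨h1 x1, nZ n (h1 x1), fun t ht => comm_flip (x3 t ht)⟩⟩
  have dbl : ∀ n, #|Zs n| ≤ 16 → 2 * #|Zs n| ≤ #|Zs (n + 1)| := fun n hn => by
    obtain ⟨x, -, x2, x3⟩ := step n T le_rfl le_normalizer fun a => by
      have := cle a
      omega
    exact clt (mono n) x3 x2
  have a0 : #|Zs 0| = 1 := by rw [z0]; simp
  have m3 : #|Zs 3| ≤ #|Zs 4| := cle (mono 3)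
  have m2 : #|Zs 2| ≤ #|Zs 3| := cle (mono 2)
  have m1 : #|Zs 1| ≤ #|Zs 2| := cle (mono 1)
  have d0 : 2 * #|Zs 0| ≤ #|Zs 1| := dbl 0 (by omega)
  have d1 : 2 * #|Zs 1| ≤ #|Zs 2| := dbl 1 (by omega)
  have d2 : 2 * #|Zs 2| ≤ #|Zs 3| := dbl 2 (by omega)
  have d3 : 2 * #|Zs 3| ≤ #|Zs 4| := dbl 3 (by omega)
  have a1 : #|Zs 1| = 2 := by omega
  have a2 : #|Zs 2| = 4 := by omega
  have a3 : #|Zs 3| = 8 := by omega
  have gen : ∀ n K x, #|Zs (n + 1)| ≤ 2 * #|Zs n| → Zs n ≤ K → x ∈ K → x ∉ Zs n → x ∈ Zs (n + 1) → Zs (n + 1) ≤ K :=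
    fun n K x h1 h2 h3 h5 h6 c hc => by
      by_cases a : c ∈ Zs n
      · exact h2 a
      · obtain ⟨b, hb, rfl⟩ := idx2' (mono n) h1 h6 hc h5 a
        exact mul_mem h3 (h2 hb)
  have nxt : ∀ n, #|Zs (n + 1)| ≤ 2 * #|Zs n| → Zs n ≤ E → E = Zs n ∨ Zs (n + 1) ≤ E := fun n h1 h2 => by
    by_cases a : E ≤ Zs n
    · exact Or.inl (le_antisymm a h2)
    · obtain ⟨x, x1, x2, x3⟩ := step n E (EW.trans WT) nE a
      exact Or.inr (gen n E x h1 h2 x1 x2 x3)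
  obtain ⟨j, j1, j2, j3⟩ : ∃ j, E = Zs j ∧ #|Zs (j + 1)| ≤ 2 * #|Zs j| ∧ (#|Zs j| = 8 → j = 3) := by
    rcases nxt 0 (show #|Zs 1| ≤ _ by omega) (z0 ▸ bot_le) with a | a
    · exact ⟨0, a, show #|Zs 1| ≤ _ by omega, by omega⟩
    rcases nxt 1 (show #|Zs 2| ≤ _ by omega) a with a | a
    · exact ⟨1, a, show #|Zs 2| ≤ _ by omega, by omega⟩
    rcases nxt 2 (show #|Zs 3| ≤ _ by omega) a with a | a
    · exact ⟨2, a, show #|Zs 3| ≤ _ by omega, by omega⟩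
    · exact ⟨3, (eq_of_cle a (show _ ≤ #|Zs 3| by omega)).symm, show #|Zs 4| ≤ _ by omega, fun _ => rfl⟩
  have top : #|(W ⊓ cmod E T : Subgroup G)| ≤ 2 * #|E| := by
    rw [j1]; exact (cle (zs j ▸ inf_le_inf_right _ WT)).trans j2
  obtain ⟨c, c1, c2⟩ := ex_not_mem (A := Zs 1) (B := Zs 2) (by omega)
  obtain ⟨e, e1, e2⟩ := ex_not_mem (A := Zs 2) (B := Zs 3) (by omega)
  have cm : ∀ n, ∀ x ∈ Zs (n + 1), ∀ t ∈ T, ⁅t, x⁆ ∈ Zs n := fun n x hx t ht => (mem_inf.mp ((zs n).le hx)).2.2 t ht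
  have i1 := cnt_c (Y := T) (cm 1 c c1)
  have i2 := cnt_c (Y := T ⊓ 𝐂[c]) fun t ht => cm 2 e e1 t (mem_inf.mp ht).1
  have i3 : #|(T ⊓ 𝐂[c] ⊓ 𝐂[e] : Subgroup G)| ≤ #|W| := cle fun t ht => by
    obtain ⟨b1, b2⟩ := mem_inf.mp ht
    obtain ⟨b1, b3⟩ := mem_inf.mp b1
    have g1 : Zs 1 ≤ 𝐂[t] := fun x hx => mem_c1.mpr (comm1.mp (mem_bot.mp (z0 ▸ cm 0 x hx t b1))).symm
    have g2 := gen 1 _ c (show #|Zs 2| ≤ _ by omega) g1 (mem_c1.mpr (mem_c1.mp b3).symm) c2 c1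
    have g3 := gen 2 _ e (show #|Zs 3| ≤ _ by omega) g2 (mem_c1.mpr (mem_c1.mp b2).symm) e2 e1
    exact eW ▸ mem_inf.mpr ⟨b1, mem_cH.mpr fun a ha => mem_c1.mp (g3 ha)⟩
  rw [a1] at i1
  rw [a2] at i2
  have cv0 : W ⊓ cmod E W = W := inf_eq_left.mpr fun w hw => ⟨nE (WT hw), fun x hx => by
    rw [comm_eq_sq]
    exact mul_mem (mul_mem (sq _ (mul_mem hx hw)) (conj_mem'' (nE (WT hw)) (inv_mem (sq x hx)))) (inv_mem (sq w hw))⟩
  have p0 := cpos E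
  have key : #|W| ≤ 256 * #|E| := by
    have f : ∀ Y n, Y ≤ T → (∀ Y', Y' ≤ T → #|Y'| = #|Y| * 2 → #|(W ⊓ cmod E Y' : Subgroup G)| ≤ n * #|E|) → 2 ≤ n * n →
        #|(W ⊓ cmod E Y : Subgroup G)| ≤ n * n * #|E| := fun Y n h1 h2 h3 => by
      by_cases a : #|Y| < #|T|
      · obtain ⟨Y', y1, y2, y3⟩ := ra_up two WT nW nE EW sq h1 a
        have := h2 Y' y1 y2
        exact Nat.le_of_mul_le_mul_right (y3.trans (by nlinarith [Nat.mul_le_mul this this])) p0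
      · rw [eq_of_cle h1 (not_lt.mp a)]
        nlinarith
    have := f W 16 WT (fun Y1 y1 y2 => f Y1 4 y1 (fun Y2 y3 y4 => f Y2 2 y3 (fun Y3 y5 y6 => by
      rw [eq_of_cle y5 (by omega)]; exact top) (by norm_num)) (by norm_num)) (by norm_num)
    rwa [cv0] at this
  have e8 : #|E| = 8 := by omega
  have j4 := j3 (j1 ▸ e8)
  subst j4
  subst j1
  obtain ⟨z, z1, z2⟩ := ex_not_mem (A := Zs 0) (B := Zs 1) (by omega)
  have z3 : zpowers z = Zs 1 := eq_of_cle (zpowers_le_of_mem z1) (by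
    have := clt (bot_le : ⊥ ≤ zpowers z) (mem_zpowers z) (z0 ▸ z2)
    simp only [card_bot] at this
    omega)
  have cT := cle (B := T) (A := T) le_rfl
  have w8 : #|T| ≤ 8 * #|W| := by omega
  refine ⟨Zs 3, Zs 2, z, syl, by omega, by omega, a3, a2, Invo.of_orderOf (by rw [← Nat.card_zpowers, z3, a1]), ?_,
    z3 ▸ zs 1, zs 2, zs 3 ▸ h4, eW, sq, fun U h1 h2 => hd U h1 (by omega)⟩
  rw [z3, zs 0, z0]
  ext t
  simp only [mem_inf, mem_cmod, mem_cH, mem_bot, comm1, normalizer_eq_top, mem_top, true_and, SetLike.mem_coe]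

end

theorem exists_fr {G : Type u} [Group G] [Finite G]
    (T : Sylow 2 G) (ha : 2 ^ 14 ≤ Nat.card ↥(T : Subgroup G))
    (hb : Nat.card ↥(Subgroup.upperCentralSeries ↥(T : Subgroup G) 4) = 16)
    (W : Subgroup ↥(T : Subgroup G))
    (hW : W = Subgroup.centralizer ((Subgroup.upperCentralSeries ↥(T : Subgroup G) 3 : Subgroup ↥(T : Subgroup G)) : Set ↥(T : Subgroup G)))
    (hc : Nat.card ↥(frattini ↥W) ≤ 8)
    (hd : ∀ U : Subgroup ↥W, U.index ≤ 16 → frattini ↥W ≤ U) :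
    ∃ D Z z, Fr (T : Subgroup G) (W.map (T : Subgroup G).subtype) D Z z := by
  have nrm : ∀ N : Subgroup (T : Subgroup G), N.Normal → (T : Subgroup G) ≤ 𝐍(N.map (T : Subgroup G).subtype) :=
    fun N hN t ht => norm_of (by
      rintro _ ⟨x, hx, rfl⟩
      exact ⟨_, hN.conj_mem x hx ⟨t, ht⟩, rfl⟩)
  have inj := (T : Subgroup G).subtype_injective
  haveI : W.Normal := hW ▸ inferInstance
  refine ra_main (E := ((frattini W).map W.subtype).map (T : Subgroup G).subtype) (isSylowIn_top T) ha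
    (fun n => (Subgroup.upperCentralSeries (T : Subgroup G) n).map (T : Subgroup G).subtype) (by simp) (fun n => ?_)
    (fun n => map_mono (Subgroup.upperCentralSeries_mono _ (Nat.le_succ n))) (by rw [card_map_of_injective inj, hb]) ?_
    (nrm _ inferInstance) (map_mono (map_subtype_le _)) ?_
    (by rwa [card_map_of_injective inj, card_map_of_injective W.subtype_injective]) fun U h1 h2 => ?_
  · ext x
    refine ⟨?_, fun hx => ?_⟩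
    · rintro ⟨x, hx, rfl⟩
      exact mem_inf.mpr ⟨x.2, nrm _ inferInstance x.2, fun t ht =>
        comm_flip ⟨_, Subgroup.mem_upperCentralSeries_succ_iff.mp hx ⟨t, ht⟩, rfl⟩⟩
    · obtain ⟨x1, -, x2⟩ := mem_inf.mp hx
      refine ⟨⟨x, x1⟩, Subgroup.mem_upperCentralSeries_succ_iff.mpr fun t => ?_, rfl⟩
      obtain ⟨y, hy, e⟩ := comm_flip (x2 t t.2)
      exact (inj e : y = ⁅(⟨x, x1⟩ : (T : Subgroup G)), t⁆) ▸ hy
  · ext x
    refine ⟨?_, fun hx => ?_⟩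
    · rintro ⟨x, hx, rfl⟩
      refine mem_inf.mpr ⟨x.2, mem_cH.mpr ?_⟩
      rintro _ ⟨y, hy, rfl⟩
      exact congrArg Subtype.val (mem_centralizer_iff.mp (hW ▸ hx) y hy)
    · obtain ⟨x1, x2⟩ := mem_inf.mp hx
      exact ⟨⟨x, x1⟩, hW ▸ mem_centralizer_iff.mpr fun y hy => Subtype.ext (mem_cH.mp x2 _ ⟨y, hy, rfl⟩), rfl⟩
  · rintro _ ⟨w, hw, rfl⟩
    exact ⟨_, ⟨_, H5.pow_mem_frattini (T.isPGroup'.to_subgroup W) ⟨w, hw⟩, rfl⟩, by simp [pow_two]⟩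
  · rw [map_map, map_le_iff_le_comap]
    refine hd _ ?_
    have f1 : Function.Injective ((T : Subgroup G).subtype.comp W.subtype) := inj.comp W.subtype_injective
    have f2 := card_map_of_injective (K := U.comap ((T : Subgroup G).subtype.comp W.subtype)) f1
    rw [map_comap_eq_self (by rwa [MonoidHom.range_comp, range_subtype])] at f2
    have f3 := (U.comap ((T : Subgroup G).subtype.comp W.subtype)).index_mul_card
    rw [card_map_of_injective inj, ← f3, ← f2] at h2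
    exact Nat.le_of_mul_le_mul_right h2 (cpos U)

end Cfsg.Agent.WA.Rw
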