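import Cfsg.Agent.WA.UkDef

/-! Thompson transfer for a cyclic quotient, extremal form; involutions of type `σ`. -/

set_option autoImplicit false
set_option linter.unusedSectionVars false

namespace Cfsg.Agent.WA.Lk.U0

open Subgroup Cfsg.Agent.H1.U3 Cfsg.Agent.H8

theorem cyc_transfer {G : Type*} [Group G] [Finite G] {H C : Subgroup G} (hH : IsSylowIn 2 H ⊤) {A : Type*} [Group A]
    (cm : ∀ a b : A, a * b = b * a) (τ : G → A) (mul : ∀ a ∈ H, ∀ b ∈ H, τ (a * b) = τ a * τ b) {s : G}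
    (s2 : s * s = 1) (hs : s ∈ commutator G) {a : A} (ha : a ≠ 1)
    (hv : ∀ g, g * s * g⁻¹ ∈ H → τ (g * s * g⁻¹) = 1 ∨ τ (g * s * g⁻¹) = a) (hC : IsPGroup 2 C)
    (hCs : C ≤ centralizer {s}) : ∃ g, g * s * g⁻¹ ∈ H ∧ τ (g * s * g⁻¹) = 1 ∧ cj g C ≤ H := by
  classical
  have : Fact (Nat.Prime 2) := ⟨Nat.prime_two⟩
  letI : CommGroup A := { ‹Group A› with mul_comm := cm }
  let _ := H.fintypeQuotientOfFiniteIndex
  let χ : H →* A := MonoidHom.mk' (fun x => τ x) fun a b => mul a a.2 b b.2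
  have τ1 : τ 1 = 1 := map_one χ
  have si : s⁻¹ = s := inv_eq_of_mul_eq_one_left s2
  by_contra hn
  set X : Set (G ⧸ H) := QuotientGroup.mk '' {g | g⁻¹ * s * g ∈ H ∧ τ (g⁻¹ * s * g) = 1} with hX
  have ev : 2 ∣ Nat.card X := by
    by_contra c
    obtain ⟨y, ⟨g, hg, rfl⟩, hy⟩ := H9.exists_fixed_of_not_dvd hC X (by
      rintro x _ ⟨g, hg, rfl⟩
      refine ⟨x * g, ?_, rfl⟩
      have : ((x : G) * g)⁻¹ * s * (x * g) = g⁻¹ * s * g := by
        calc _ = g⁻¹ * (x : G)⁻¹ * (s * x) * g := by group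
          _ = _ := by rw [← mem_centralizer_singleton_iff.1 (hCs x.2)]; group
      exact (show ((x : G) * g)⁻¹ * s * (x * g) ∈ H ∧ τ (((x : G) * g)⁻¹ * s * (x * g)) = 1 from this ▸ hg)) c
    refine hn ⟨g⁻¹, by rw [inv_inv]; exact hg.1, by rw [inv_inv]; exact hg.2, ?_⟩
    rintro _ ⟨x, hx, rfl⟩
    have h5 : ((x * g : G) : G ⧸ H) = (g : G ⧸ H) := hy ⟨x, hx⟩
    rw [eq_comm, QuotientGroup.eq] at h5
    simpa [mul_assoc] using h5
  let T : H.LeftTransversal := default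
  let α : G ⧸ H → G := fun q => T.2.leftQuotientEquiv q
  have hα : ∀ q, ((α q : G) : G ⧸ H) = q := fun q => T.2.leftQuotientEquiv.symm_apply_apply q
  have mem : ∀ q, (α q)⁻¹ * (s * α (s • q)) ∈ H := fun q => QuotientGroup.eq.1 (by
    rw [← smul_eq_mul, ← MulAction.Quotient.smul_mk, hα, hα, smul_smul, s2, one_smul])
  have e1 : ∏ q, τ ((α q)⁻¹ * (s * α (s • q))) = 1 := by
    rw [← H6.map_eq_one_of_mem_commutator (MonoidHom.transfer χ) hs, MonoidHom.transfer_def χ T]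
    refine Finset.prod_congr rfl fun q _ => ?_
    change _ = τ _
    simp only [smul_apply_eq_smul_apply_inv_smul, si, smul_eq_mul, α]
  have odd : Odd (Fintype.card (G ⧸ H)) := by
    rw [← Nat.card_eq_fintype_card]
    exact Nat.not_even_iff_odd.1 fun e => hH.not_dvd_relIndex (by rw [relIndex_top_right]; exact e.two_dvd)
  have fx : ∀ q, s • q = q → τ ((α q)⁻¹ * (s * α (s • q))) = 1 ∨ τ ((α q)⁻¹ * (s * α (s • q))) = a := fun q e => by
    have := mem q
    rw [e, ← mul_assoc] at this ⊢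
    simpa using hv (α q)⁻¹ (by simpa using this)
  have inX : ∀ q, q ∈ X ↔ s • q = q ∧ τ ((α q)⁻¹ * (s * α (s • q))) = 1 := fun q => by
    constructor
    · rintro ⟨g, hg, rfl⟩
      have e : s • (g : G ⧸ H) = g := by
        rw [MulAction.Quotient.smul_mk, eq_comm, QuotientGroup.eq, smul_eq_mul, ← mul_assoc]; exact hg.1
      have m : g⁻¹ * α g ∈ H := QuotientGroup.eq.1 (hα g).symm
      refine ⟨e, ?_⟩
      rw [e, show (α g)⁻¹ * (s * α g) = (g⁻¹ * α g)⁻¹ * (g⁻¹ * s * g * (g⁻¹ * α g)) by group,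
        mul _ (inv_mem m) _ (mul_mem hg.1 m), mul _ hg.1 _ m, hg.2, one_mul, ← mul _ (inv_mem m) _ m, inv_mul_cancel, τ1]
    · rintro ⟨e, e2⟩
      have := mem q
      rw [e, ← mul_assoc] at this e2
      exact ⟨α q, ⟨this, e2⟩, hα q⟩
  by_cases a2 : a * a = 1
  swap
  · have all : ∀ q, s • q = q → q ∈ X := fun q e => (inX q).2 ⟨e, (fx q e).resolve_right fun c => a2 (by
      have m := mem q
      rw [← c, ← mul _ m _ m, e, ← τ1]
      congr 1
      calc _ = (α q)⁻¹ * (s * s) * α q := by group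
        _ = 1 := by rw [s2]; group)⟩
    have e2 : ∏ q ∈ Finset.univ.filter (fun q : G ⧸ H => q ∉ X), (-1 : ℤ) = 1 :=
      Finset.prod_involution (fun q _ => s • q) (fun _ _ => by norm_num)
        (fun q hq _ e => (Finset.mem_filter.1 hq).2 (all q e))
        (fun q hq => Finset.mem_filter.2 ⟨Finset.mem_univ _, fun e => (Finset.mem_filter.1 hq).2 (all q (by
          rw [← ((inX _).1 e).1, smul_smul, s2, one_smul]))⟩) fun q _ => by rw [smul_smul, s2, one_smul]
    have e3 := Finset.prod_filter_mul_prod_filter_not Finset.univ (fun q : G ⧸ H => q ∈ X) fun _ => (-1 : ℤ)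
    rw [e2, mul_one, Finset.prod_const, Finset.prod_const, Finset.card_univ, odd.neg_one_pow, ← Fintype.card_subtype,
      ← Nat.card_eq_fintype_card, (even_iff_two_dvd.2 ev).neg_one_pow] at e3
    exact absurd e3 (by norm_num)
  have e2 : ∏ q ∈ Finset.univ.filter (fun q : G ⧸ H => q ∉ X), (τ ((α q)⁻¹ * (s * α (s • q))) * a) = 1 := by
    refine Finset.prod_involution (fun q _ => s • q) (fun q hq => ?_) (fun q hq c e => c ?_)
      (fun q hq => Finset.mem_filter.2 ⟨Finset.mem_univ _, fun e => (Finset.mem_filter.1 hq).2 ?_⟩)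
      fun q _ => by rw [smul_smul, s2, one_smul]
    · rw [mul_mul_mul_comm, a2, mul_one, ← mul _ (mem q) _ (mem _), smul_smul, s2, one_smul, ← τ1]
      congr 1
      calc _ = (α q)⁻¹ * (s * s) * α q := by group
        _ = 1 := by rw [s2]; group
    · rw [(fx q e).resolve_left fun c => (Finset.mem_filter.1 hq).2 ((inX q).2 ⟨e, c⟩), a2]
    · have := ((inX _).1 e).1
      rw [smul_smul, s2, one_smul] at this
      rwa [this]
  have e3 := Finset.prod_filter_mul_prod_filter_not Finset.univ (fun q : G ⧸ H => q ∈ X)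
    fun q => τ ((α q)⁻¹ * (s * α (s • q))) * a
  obtain ⟨k, hk⟩ := ev
  obtain ⟨l, hl⟩ := odd
  rw [e2, mul_one, Finset.prod_mul_distrib (s := Finset.univ), e1, one_mul, Finset.prod_const, Finset.card_univ, hl,
    Finset.prod_congr rfl (g := fun _ => a) fun q hq => by rw [((inX q).1 (Finset.mem_filter.1 hq).2).2, one_mul],
    Finset.prod_const, ← Fintype.card_subtype, ← Nat.card_eq_fintype_card] at e3
  rw [show Nat.card {x // x ∈ X} = 2 * k from hk, pow_succ, pow_mul, pow_mul, pow_two, a2, one_pow, one_pow,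
    one_mul] at e3
  exact ha e3.symm

variable {F : Type*} [Field F] [Finite F] {σ : F →+* F} [Ctx σ] {G : Type*} [Group G] [Finite G]
  {f : Fr σ G} {K : Subgroup G} {t x : G}

theorem ringAut_comm (σ : F →+* F) [Ctx σ] (a b : RingAut F) : a * b = b * a := by
  have := charP_two σ
  have := isCyclic_ringAut (F := F)
  exact mul_comm' a b

theorem le_comm (hp : ⁅K, K⁆ = K) : K ≤ commutator G := hp ▸ commutator_mono le_top le_top

theorem inQ (ht : f.Inv t) (o : Out K t) (hx : x ∈ f.T1) (hK : x ∈ K) : x ∈ f.Q := by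
  obtain ⟨e, he, u, rfl⟩ := f.mem_T1.1 hx
  rcases ht.E2 e he with rfl | rfl
  · exact ⟨u, (one_mul _).symm⟩
  · exact absurd ((mul_mem_cancel_right (o.jK f u)).1 hK) o.tn

theorem inV (hx : x ∈ f.Q) (h2 : x * x = 1) : x ∈ f.V := by
  obtain ⟨u, rfl⟩ := hx
  rw [f.j_sq, ← f.vv_zero] at h2
  exact f.j_mem_V.2 (nm_eq_zero.1 (f.vv_inj (nm_fixed _) (map_zero σ) h2))

theorem exists_inv (ht : f.Inv t) (o : Out K t) (hx : x ∈ f.T) (hK : x ∈ K) (h1 : f.tt x ≠ 1) :
    ∃ s ∈ f.T, s ∈ K ∧ s * s = 1 ∧ f.tt s = sigAut σ := by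
  obtain ⟨k, hk⟩ := f.exists_sig hx h1
  have yT := pow_mem hx k
  have yK := pow_mem hK k
  generalize x ^ k = y at hk yT yK
  have m := f.sig_sq_mem yT hk
  have e := (f.ta_conj (f.T_le_D yT) m).2
  rw [show y * (y * y) * y⁻¹ = y * y by group, hk, sigAut_apply] at e
  obtain ⟨-, -, -, h4⟩ := exists_fix (f.nm_cc_of_sig (f.T_N yT) hk (f.ct_T1 m).1).1
  obtain ⟨b, hb⟩ := h4 _ e.symm
  have u1 : f.j (lift σ b) ∈ f.T1 := mem_sup_right ⟨_, rfl⟩
  have u2 : f.ta (f.j (lift σ b)) = b := by simpa using f.ta_eq (one_mem _) (lift σ b)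
  have sT := mul_mem (f.jT (lift σ b)) yT
  have sK := mul_mem (o.jK f (lift σ b)) yK
  have st : f.tt (f.j (lift σ b) * y) = sigAut σ := by
    rw [f.tt_mul (f.T_N (f.jT _)) (f.T_N yT), (f.ct_j _).2, one_mul, hk]
  refine ⟨_, sT, sK, f.sig_sq (f.T_le_D sT) st ?_, st⟩
  obtain ⟨c1, c2⟩ := f.ta_conj (f.T_le_D yT) u1
  have m2 := f.sig_sq_mem sT st
  have a0 := f.ta_mul (mul_mem u1 c1) m
  rw [f.ta_mul u1 c1, c2, u2, hk, sigAut_apply, hb, show f.j (lift σ b) * (y * f.j (lift σ b) * y⁻¹) * (y * y) =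
    f.j (lift σ b) * y * (f.j (lift σ b) * y) by group] at a0
  exact inV (inQ ht o m2 (mul_mem sK sK))
    (f.A_sq ((f.ta_eq_zero m2).1 (by rw [a0]; linear_combination f.ta (y * y) * two σ)))

end Cfsg.Agent.WA.Lk.U0
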