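import Cfsg.Agent.WA.UkDef

/-! Basic facts on `Fr.Amb`. -/

set_option autoImplicit false

namespace Cfsg.Agent.WA.Lk

open Subgroup Cfsg.Agent.H1.U3 Cfsg.Agent.H8

variable {F : Type*} [Field F] [Finite F] {σ : F →+* F} [Ctx σ] {G : Type*} [Group G] [Finite G]

theorem Fr.Amb.not_comm {f : Fr σ G} {K : Subgroup G} (a : f.Amb K) : ¬ K ≤ centralizer (K : Set G) := fun h => by
  obtain ⟨v, hv, v1, -⟩ := f.exists_two_V
  obtain ⟨u, rfl⟩ := f.V_le_Q hv
  exact v1 (a.cen _ (h (a.jK u)))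

theorem Fr.Amb.eq_or {f : Fr σ G} {K N : Subgroup G} (a : f.Amb K) (hN : N.Normal) : N ⊓ K = ⊥ ∨ K ≤ N := by
  have := a.simple
  rcases (hN.subgroupOf K).eq_bot_or_eq_top with h | h
  · exact Or.inl (disjoint_iff.1 (subgroupOf_eq_bot.1 h))
  · exact Or.inr (subgroupOf_eq_top.1 h)

theorem Fr.Amb.le_of {f : Fr σ G} {K N : Subgroup G} (a : f.Amb K) (hN : N.Normal)
    (h : ∀ x ∈ K, ∀ y ∈ K, x * y * x⁻¹ * y⁻¹ ∈ N) : K ≤ N :=
  (a.eq_or hN).resolve_left fun e => a.not_comm fun x hx y hy => by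
    have : y * x * y⁻¹ * x⁻¹ ∈ N ⊓ K :=
      mem_inf.2 ⟨h y hy x hx, mul_mem (mul_mem (mul_mem hy hx) (inv_mem hy)) (inv_mem hx)⟩
    rw [e, mem_bot, mul_inv_eq_one, mul_inv_eq_iff_eq_mul] at this
    exact this

theorem Fr.Amb.perfect {f : Fr σ G} {K : Subgroup G} (a : f.Amb K) : ⁅K, K⁆ = K := by
  have := a.nm
  exact le_antisymm (commutator_le_left _ _) (a.le_of inferInstance fun x hx y hy => commutator_mem_commutator hx hy)

theorem Fr.Amb.out {f : Fr σ G} {K H : Subgroup G} (a : f.Amb K) {t : G} (ht : f.Inv t) (h2 : Nat.card f.E = 2)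
    (hH : IsComplement' f.E H) : Out K t := by
  have i2 : H.index = 2 := by rw [hH.index_eq_card, h2]
  have hN : H.Normal := normal_of_index_eq_two i2
  have tH : t ∉ H := fun e => ht.t1 (disjoint_def.1 hH.disjoint ht.tE e)
  have KH : K ≤ H := a.le_of hN fun x _ y _ => by
    rw [mul_mem_iff_of_index_two i2, inv_mem_iff, mul_mem_iff_of_index_two i2, inv_mem_iff,
      mul_mem_iff_of_index_two i2]
    tauto
  refine ⟨a.nm, fun e => tH (KH e), fun g => ?_⟩
  obtain ⟨k, hk, e, he, rfl⟩ := a.cov g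
  rcases ht.E2 e he with rfl | rfl
  · exact Or.inl (by simpa using hk)
  · refine Or.inr ?_
    have := a.nm.conj_mem k hk e
    rwa [inv_eq_of_mul_eq_one_right (f.E_sq e he), mul_assoc] at this

end Cfsg.Agent.WA.Lk
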