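import Cfsg.Agent.WA.Lk1a1

/-! Definitions and base lemmas for the unitary component theorem, normal subgroup form (see PLAN_UK.md). -/

set_option autoImplicit false
set_option linter.unusedSectionVars false

namespace Cfsg.Agent.WA.Lk

open Subgroup Cfsg.Agent.H1.U3 Cfsg.Agent.H8

/-- there is a nontrivial strongly closed elementary abelian 2-subgroup -/
def SCl (G : Type*) [Group G] : Prop :=
  ∃ (P : Sylow 2 G) (X : Subgroup G), X ≠ ⊥ ∧ IsElementaryAbelian 2 X ∧ IsStronglyClosed X (P : Subgroup G)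

/-- `K` is a normal subgroup of index two that does not contain `t` -/
structure Out {G : Type*} [Group G] (K : Subgroup G) (t : G) : Prop where
  nm : K.Normal
  tn : t ∉ K
  cov : ∀ g, g ∈ K ∨ t * g ∈ K

variable {F : Type*} [Field F] [Finite F] {σ : F →+* F} [Ctx σ] {G : Type*} [Group G] [Finite G]

/-- `G = K E` with `K` simple and self-centralizing, `K` contains the unitary component -/
structure Fr.Amb (f : Fr σ G) (K : Subgroup G) : Prop where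
  nm : K.Normal
  simple : IsSimpleGroup K
  cov : ∀ g, ∃ k ∈ K, ∃ e ∈ f.E, g = k * e
  cen : ∀ g ∈ centralizer (K : Set G), g = 1
  jK : ∀ u, f.j u ∈ K
  ex : ∃ x ∈ K, x ∈ f.U ∧ x ∉ normalizer (f.Q : Set G)

theorem sc_of {R X : Subgroup G} (hR : IsSylowIn 2 R ⊤) (hle : X ≤ R) (h1 : X ≠ ⊥) (h2 : ∀ x ∈ X, x * x = 1)
    (h : ∀ x ∈ X, ∀ g, g * x * g⁻¹ ∈ R → g * x * g⁻¹ ∈ X) : SCl G :=
  ⟨hR.toSylowTop, X, h1, ⟨⟨⟨fun a b => Subtype.ext (H9.comm_of_sq_eq_one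
    (fun x hx => by rw [pow_two, h2 x hx]) a.2 b.2)⟩⟩, fun x hx => by rw [pow_two, h2 x hx]⟩, hle, h⟩

namespace Out

variable {K : Subgroup G} {t a b : G} (o : Out K t)
include o

theorem conj (g : G) (ha : a ∈ K) : g * a * g⁻¹ ∈ K := o.nm.conj_mem a ha g

theorem conj_iff (g : G) : g * a * g⁻¹ ∈ K ↔ a ∈ K :=
  ⟨fun h => by simpa [mul_assoc] using o.conj g⁻¹ h, o.conj g⟩

theorem mul (ha : a ∉ K) (hb : b ∉ K) : a * b ∈ K := by
  have h1 := (o.cov a).resolve_left ha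
  have h2 := (o.cov b⁻¹).resolve_left fun e => hb (inv_mem_iff.1 e)
  have h3 := o.conj b (mul_mem (inv_mem h2) h1)
  have h4 := o.conj b⁻¹ (mul_mem (inv_mem h2) h1)
  rwa [show b⁻¹ * ((t * b⁻¹)⁻¹ * (t * a)) * b⁻¹⁻¹ = a * b by group] at h4

theorem sq (a : G) : a * a ∈ K := by
  by_cases h : a ∈ K
  · exact mul_mem h h
  · exact o.mul h h

theorem cm (a b : G) : a * b * a⁻¹ * b⁻¹ ∈ K := by
  by_cases h : b ∈ K
  · exact mul_mem (o.conj a h) (inv_mem h)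
  · exact o.mul (fun e => h ((o.conj_iff a).1 e)) fun e => h (inv_mem_iff.1 e)

theorem not_TC {f : Fr σ G} (h : f.Inv t) {s : G} (hs : f.TC s) : s ∉ K := by
  obtain ⟨e, he, e1, c⟩ := hs
  obtain ⟨g, rfl⟩ := isConj_iff.1 c
  rw [(h.E2 e he).resolve_left e1, o.conj_iff]; exact o.tn

theorem V_le (f : Fr σ G) : f.V ≤ K := fun v hv => by
  obtain ⟨u, rfl⟩ := f.exists_sq hv
  exact o.sq _

theorem VC {f : Fr σ G} {s : G} (hs : f.VC s) : s ∈ K := by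
  obtain ⟨v, hv, -, c⟩ := hs
  obtain ⟨g, rfl⟩ := isConj_iff.1 c
  exact o.conj g (o.V_le f hv)

theorem jK (f : Fr σ G) (u : US σ) : f.j u ∈ K := by
  obtain ⟨μ, -, h1, -⟩ := f.exists_h0
  have h2 : f.cc (f.d μ) + 1 ≠ 0 := fun e => h1 (by linear_combination e - two σ)
  have hN := (f.d_mem_D μ).2
  have h3 := o.cm (f.d μ) (f.j (lift σ (u.a / (f.cc (f.d μ) + 1))))
  rw [f.conj_j hN, ← map_inv, ← map_mul] at h3
  refine (mul_mem_cancel_right h3).1 (o.V_le f ?_)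
  rw [← map_mul, f.j_mem_V]
  simp only [mul_a, inv_a, f.aut_a, (f.ct_d μ).2.1, RingAut.one_apply, lift_a]
  field_simp
  linear_combination (u.a * f.cc (f.d μ)) * two σ

end Out

/-- a subgroup of a conjugate of `W` can be moved into `W` together with a 2-group that normalizes it -/
theorem ext_gen {S Y W A B : Subgroup G} (hS : IsSylowIn 2 S ⊤) (hY : IsPGroup 2 Y)
    (hW : Y ≤ centralizer (W : Set G)) (wc : ∀ g, cj g Y ≤ S → cj g W = W) {g : G} (hA : A ≤ cj g W)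
    (hB : IsPGroup 2 B) (hN : B ≤ normalizer (A : Set G)) : ∃ k, cj k A ≤ W ∧ cj k B ≤ S := by
  have : Fact (Nat.Prime 2) := ⟨Nat.prime_two⟩
  obtain ⟨P, hP, hBP⟩ := exists_isSylowIn_ge hB hN
  have h1 : cj g Y ≤ normalizer (A : Set G) := (cj_mono g hW).trans (by
    rw [cj_centralizer]; exact (centralizer_le hA).trans (centralizer_le_normalizer _))
  obtain ⟨P', hP', h2⟩ := exists_isSylowIn_ge (pgroup_cj hY g) h1
  obtain ⟨n, hn, h3⟩ := hP'.exists_cj_eq hP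
  obtain ⟨S', hS', h4⟩ := exists_isSylowIn_ge hP.pgroup (le_top : P ≤ ⊤)
  obtain ⟨k, -, h5⟩ := hS'.exists_cj_eq hS
  have h6 : cj k P ≤ S := h5 ▸ cj_mono k h4
  refine ⟨k, ?_, (cj_mono k hBP).trans h6⟩
  rw [← wc (k * n * g) (by
    rw [cj_mul, cj_mul]; exact (cj_mono k (h3 ▸ cj_mono n h2)).trans h6), cj_mul, cj_mul]
  exact cj_mono k (by rw [← cj_eq_self hn]; exact cj_mono n hA)

/-- a subgroup of index at most two of a space over the fixed field still gives all values of the form -/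
theorem idx2 (f : Fr σ G) {N : Type*} [AddCommGroup N] [Module F N] {B : N → N → F} {W H : N → Prop}
    (Wa : ∀ x y, W x → W y → W (x + y)) (Ws : ∀ l x, σ l = l → W x → W (l • x))
    (Ba : ∀ x y z, B x (y + z) = B x y + B x z) (Bs : ∀ l x y, σ l = l → B x (l • y) = l * B x y)
    (Bc : ∀ x y, B x y = B y x) (B0 : ∀ x, B x x = 0)
    (idx : ∀ x y, W x → W y → ¬ H x → ¬ H y → H (x + y)) {a b : N} (ha : W a) (hb : W b) (hab : B a b = 1)
    {c : F} (hc : σ c = c) : ∃ x y, W x ∧ W y ∧ H x ∧ H y ∧ B x y = c := by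
  obtain ⟨ω, ω1, ω0, ω2, -⟩ := f.exists_K 1 1
  have sc : ∀ x, W x → ∃ m, σ m = m ∧ m ≠ 0 ∧ H (m • x) := fun x hx => by
    by_cases h1 : H x
    · exact ⟨1, map_one _, one_ne_zero, by rwa [one_smul]⟩
    by_cases h2 : H (ω • x)
    · exact ⟨ω, ω1, ω0, h2⟩
    exact ⟨1 + ω, by rw [map_add, map_one, ω1], fun e => ω2 (by linear_combination e - two σ),
      by rw [add_smul, one_smul]; exact idx _ _ hx (Ws _ _ ω1 hx) h1 h2⟩
  obtain ⟨m, m1, m0, hm⟩ := sc a ha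
  by_cases h : ∀ l, σ l = l → H (l • a)
  · obtain ⟨k, k1, k0, hk⟩ := sc b hb
    have e : σ (c / k) = c / k := by rw [map_div₀, hc, k1]
    refine ⟨_, _, Ws _ _ e ha, Ws _ _ k1 hb, h _ e, hk, ?_⟩
    rw [Bs _ _ _ k1, Bc, Bs _ _ _ e, Bc, hab]; field_simp
  push Not at h
  obtain ⟨l, l1, hl⟩ := h
  have e : σ (c / m) = c / m := by rw [map_div₀, hc, m1]
  have v : B (m • a) ((c / m) • b) = c := by
    rw [Bs _ _ _ e, Bc, Bs _ _ _ m1, Bc, hab]; field_simp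
  by_cases h1 : H ((c / m) • b)
  · exact ⟨_, _, Ws _ _ m1 ha, Ws _ _ e hb, hm, h1, v⟩
  · refine ⟨_, _, Ws _ _ m1 ha, Wa _ _ (Ws _ _ e hb) (Ws _ _ l1 ha), hm,
      idx _ _ (Ws _ _ e hb) (Ws _ _ l1 ha) h1 hl, ?_⟩
    rw [Ba, v, Bs _ _ _ l1, Bc, Bs _ _ _ m1, B0]; ring

/-- `idx2` for the plane `F` with the polar form of the norm -/
theorem idxF (f : Fr σ G) {H : F → Prop} (idx : ∀ x y, ¬ H x → ¬ H y → H (x + y)) {c : F} (hc : σ c = c) :
    ∃ x y, H x ∧ H y ∧ bl σ x y = c := by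
  obtain ⟨b, hb⟩ := exists_bl (σ := σ) (one_ne_zero (α := F)) (map_one σ)
  obtain ⟨x, y, -, -, h⟩ := idx2 f (N := F) (B := bl σ) (W := fun _ => True) (H := H) (fun _ _ _ _ => trivial)
    (fun _ _ _ _ => trivial) (fun x y z => by simp only [bl, map_add]; ring)
    (fun l x y hl => by simp only [bl, smul_eq_mul, map_mul, hl]; ring) (fun x y => by simp only [bl]; ring)
    (fun x => by simp only [bl]; linear_combination σ x * x * two σ) (fun x y _ _ => idx x y) trivial trivial hb hc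
  exact ⟨x, y, h⟩

/-- `V` is strongly closed in `T` with respect to `C` -/
theorem Fr.conj_V_mem (f : Fr σ G) {g v : G} (hg : g ∈ f.C) (hv : v ∈ f.V) (h : g * v * g⁻¹ ∈ f.T) :
    g * v * g⁻¹ ∈ f.V := by
  have VU : ∀ {v}, v ∈ f.V → v ∈ f.U := fun hv => f.Q_le_U (f.V_le_Q hv)
  have VC : ∀ {v}, v ∈ f.V → v ∈ f.C := fun hv => f.Q_le_C (f.V_le_Q hv)
  have sq : ∀ (k : G) {w}, w ∈ f.V → k * w * k⁻¹ * (k * w * k⁻¹) = 1 := fun k w hw => by
    rw [show k * w * k⁻¹ * (k * w * k⁻¹) = k * (w * w) * k⁻¹ by group, f.V_sq hw]; group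
  have inV : ∀ {k w}, k ∈ f.C → w ∈ f.V → k * w * k⁻¹ ∈ f.D → f.tt (k * w * k⁻¹) = 1 → k * w * k⁻¹ ∈ f.V :=
    fun {k w} hk hw hD h1 => by
      obtain ⟨e, he, x, hx, e1⟩ := f.mem_A.1 (f.mem_A_of_sq (f.mem_T1_of_two hD ⟨1, by
        rw [pow_one, pow_two, sq k hw]⟩ h1) (sq k hw))
      have := f.conj_U hk (VU hw)
      rw [e1] at this ⊢
      rw [f.disj e he ((mul_mem_cancel_right (VU hx)).1 this), one_mul]; exact hx
  have hD := f.T_le_D h
  have t2 : ∀ {x}, x * x = 1 → f.tt (x * x) = 1 := fun e => by rw [e, f.ct_one.2]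
  rcases f.tt_cases hD.2 (t2 (sq g hv)) with h1 | h1
  · exact inV hg hv hD h1
  by_cases v1 : v = 1
  · simp [v1]
  have hc := (f.nm_cc_of_sig hD.2 h1 (by rw [sq g hv, f.ct_one.1])).2
  have hD' : ∀ {w}, w ∈ f.V → g⁻¹ * w * g⁻¹⁻¹ ∈ f.D := fun {w} hw =>
    f.mem_D_of_comm (mul_mem (mul_mem (inv_mem hg) (VC hw)) (inv_mem (inv_mem hg))) hv v1 (by
      rw [show g⁻¹ * w * g⁻¹⁻¹ * v * (g⁻¹ * w * g⁻¹⁻¹)⁻¹ = g⁻¹ * (w * (g * v * g⁻¹)) * w⁻¹ * g by group, hc w hw]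
      simpa [mul_assoc] using hv)
  have fin : ∀ {w}, w ∈ f.V → w ≠ 1 → f.tt (g⁻¹ * w * g⁻¹⁻¹) = 1 → g * v * g⁻¹ ∈ f.V := fun {w} hw w1 e => by
    obtain ⟨u', e'⟩ := f.V_le_Q (inV (inv_mem hg) hw (hD' hw) e)
    obtain ⟨u, rfl⟩ := f.V_le_Q hw
    have := f.ti g⁻¹ (centralizer_le_normalizer _ (inv_mem hg)) u u' (fun e => w1 (by rw [e, map_one])) e'.symm
    exact (mem_normalizer_iff.1 (f.NQ_le_NV (inv_mem_iff.1 this)) v).1 hv
  obtain ⟨a, ha, a1, b, hb, b1, ab⟩ := f.exists_two_V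
  rcases f.tt_cases (hD' ha).2 (t2 (sq _ ha)) with h2 | h2
  · exact fin ha a1 h2
  rcases f.tt_cases (hD' hb).2 (t2 (sq _ hb)) with h3 | h3
  · exact fin hb b1 h3
  refine fin (mul_mem ha hb) ab ?_
  rw [show g⁻¹ * (a * b) * g⁻¹⁻¹ = g⁻¹ * a * g⁻¹⁻¹ * (g⁻¹ * b * g⁻¹⁻¹) by group, f.tt_mul (hD' ha).2 (hD' hb).2, h2, h3,
    sig_mul_sig]

end Cfsg.Agent.WA.Lk
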