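import Cfsg.Agent.WA.UkAmb
import Cfsg.Agent.WA.GMain
import Cfsg.Agent.H7.Mu4
import Cfsg.Agent.H8.Clos6
import Cfsg.Agent.H4.Scn3

/-! Module UkEnd: identification of the unitary group. -/

set_option autoImplicit false

namespace Cfsg.Agent.WA.Lk

open Subgroup Cfsg.Agent.H1.U3 Cfsg.Agent.H8

variable {F : Type*} [Field F] [Finite F] {σ : F →+* F} [Ctx σ] {G : Type*} [Group G] [Finite G]

namespace U6

theorem sq_iff {u : US σ} : u * u = 1 ↔ u.a = 0 :=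
  ⟨fun e => nm_eq_zero.1 ((sq_b u).symm.trans (congrArg US.b e)), fun e => US.ext (sq_a u) (by rw [sq_b, e, mul_zero]; rfl)⟩

theorem us_fix (α : MulAut (US σ)) (h : ∀ u, α (α u) = u) {u : US σ} (hu : u.a = 0) : α u = u := by
  obtain ⟨c, τ, c0, h1, h2⟩ := exists_semilinear α
  have h3 : ∀ a, c * τ c * τ (τ a) = a := fun a => by
    have := congrArg US.a (h (lift σ a))
    rwa [h1, h1, lift_a, map_mul, ← mul_assoc] at this
  have h4 : c * τ c = 1 := by simpa using h3 1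
  refine US.ext (((aut_a_eq_zero α).2 hu).trans hu.symm) ?_
  rw [h2 u hu]
  rcases eq_one_or_sig (σ := σ) τ (RingEquiv.ext fun a => by simpa [h4, pow_two] using h3 a) with e | e <;> rw [e] at h4 ⊢
  · rw [eq_one_of_pow_two_pow σ (c := c) (k := 1) (by simpa [pow_two] using h4)]; simp
  · rw [sigAut_apply] at h4 ⊢
    rw [mul_comm _ c, h4, one_mul, fixed_of_a hu]

theorem unit {S A : Subgroup G} (i : S ≃* US σ) (hA : A ≤ S) (h : ∀ s ∈ S, s ∈ A ↔ s * s = 1) {t : G} (t2 : t * t = 1)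
    (ht : t ∈ normalizer (S : Set G)) : A ≤ centralizer {t} ∧ Nat.card A = Nat.card (KK σ) := by
  have h1 : ∀ s : S, (s : G) ∈ A ↔ (i s).a = 0 := fun s => by
    rw [h s s.2, ← sq_iff, ← map_mul, i.map_eq_one_iff, Subtype.ext_iff]; rfl
  refine ⟨fun x hx => ?_, ?_⟩
  · have := us_fix ((i.symm.trans (S.normalizerMonoidHom ⟨t, ht⟩)).trans i) (fun u => ?_) ((h1 ⟨x, hA hx⟩).1 hx)
    · simp only [MulEquiv.trans_apply, i.symm_apply_apply] at this
      exact mem_centralizer_singleton_iff.2 (mul_inv_eq_iff_eq_mul.1 (congrArg Subtype.val (i.injective this))).symm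
    obtain ⟨s, rfl⟩ := i.surjective u
    simp only [MulEquiv.trans_apply, i.symm_apply_apply]
    refine congrArg i (Subtype.ext ?_)
    change t * (t * s * t⁻¹) * t⁻¹ = s
    rw [show t * (t * s * t⁻¹) * t⁻¹ = t * t * s * (t * t)⁻¹ by group, t2]; simp
  · rw [← card_center, ← Nat.card_congr (subgroupOfEquivOfLe hA).toEquiv]
    exact Nat.card_congr (i.toEquiv.subtypeEquiv fun s => (h1 s).trans H1.U3.mem_center_iff.symm)

theorem mid {f : Fr σ G} {K : Subgroup G} (a : f.Amb K) (h : SCl G) : ∃ P A : Subgroup G, IsSylowIn 2 P ⊤ ∧ f.T ≤ P ∧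
    A ≤ P ⊓ K ∧ P ≤ normalizer (A : Set G) ∧ A ≠ ⊥ ∧ GS.SC A K := by
  have := a.nm
  obtain ⟨P₀, X₀, h1, h2, h3⟩ := h
  obtain ⟨P, hP, hT⟩ := exists_isSylowIn_ge f.T_syl.pgroup le_top
  obtain ⟨g, -, e⟩ := (isSylowIn_top P₀).exists_cj_eq hP
  have sc := (GS.SC.of_sylow (isSylowIn_top P₀) h3.1 (fun x hx => (pow_two x).symm.trans (h2.2 x hx))
    fun x hx g _ => h3.2 x hx g).cj g
  have hX : cj g X₀ ≤ P := e ▸ cj_mono g h3.1
  rw [cj_top] at sc
  replace h1 : cj g X₀ ≠ ⊥ := fun e => h1 (cj_eq_bot_iff.1 e)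
  generalize cj g X₀ = X at sc hX h1
  refine ⟨P, X ⊓ K, hP, hT, inf_le_inf_right K hX, le_normalizer_inf (sc.le_norm hP.pgroup hX le_top)
    le_normalizer_of_normal, fun e => ?_, GS.SC.of_sylow (by simpa using hP.inf_of_le_normalizer (N := K) le_normalizer_of_normal)
      (inf_le_inf_right K hX) (fun x hx => sc.sq x hx.1) fun x hx g _ hg =>
      ⟨sc.mem_two0 hP.pgroup hX le_top hx.1 trivial hg.1, hg.2⟩⟩
  have hO : pPrimeCore 2 G = ⊥ := by
    rcases a.eq_or (N := pPrimeCore 2 G) inferInstance with e | e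
    · exact (eq_bot_iff_forall _).2 fun x hx => a.cen x fun k hk =>
        (commute_of_normal_of_disjoint _ _ inferInstance this (disjoint_iff.2 e) x k hx hk).eq.symm
    · obtain ⟨v, hv, v1, -⟩ := f.exists_two_V
      obtain ⟨u, rfl⟩ := f.V_le_Q hv
      exact absurd (H7.two_dvd_card_of_mem (H7.opp_top (p := 2) (G := G) ▸ e (a.jK u))
        (orderOf_eq_prime ((pow_two _).trans (f.V_sq hv)) v1)) (H7.not_dvd_card_opp ⊤)
  obtain ⟨⟨x, hx⟩, x1⟩ := ne_bot_iff_exists_ne_one.1 h1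
  refine x1 (Subtype.ext (a.cen x fun k _ => mem_center_iff.1 ((H7.Isolated.of_sylow hP.toSylowTop (sc.sq x hx)
    fun g hg => mul_inv_eq_one.1 (mem_bot.1 (e.le (mem_inf.2
      ⟨mul_mem (sc.mem_two0 hP.pgroup hX le_top hx trivial hg) (inv_mem hx), ?_⟩)))).mem_center hO) k))
  obtain ⟨k, hk, e, he, rfl⟩ := a.cov g
  obtain ⟨k', hk', e', he', rfl⟩ := a.cov x
  refine (QuotientGroup.eq_one_iff _).1 ?_
  simp only [QuotientGroup.mk_mul, QuotientGroup.mk_inv, (QuotientGroup.eq_one_iff _).2 hk,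
    (QuotientGroup.eq_one_iff _).2 hk', one_mul]
  rw [← QuotientGroup.mk_mul, f.E_comm he he', QuotientGroup.mk_mul]; group

end U6

theorem Fr.Amb.psu {f : Fr σ G} {K : Subgroup G} (a : f.Amb K) (h : SCl G) :
    Nonempty (K ≃* PSU 3 F (2 ^ f.n)) := by
  have := a.nm
  have := a.simple
  obtain ⟨P, A, hP, hT, hA, hN, A1, sc⟩ := U6.mid a h
  have hS : IsSylowIn 2 (P ⊓ K) K := by simpa using hP.inf_of_le_normalizer (N := K) le_normalizer_of_normal
  have hS' := isSylowIn_top hS.toSylow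
  rw [IsSylowIn.coe_toSylow] at hS'
  have sc' := sc.subgroupOf le_rfl
  rw [subgroupOf_self] at sc'
  have nc : ¬ IsMulCommutative K := fun c => a.not_comm fun x hx y hy =>
    congrArg Subtype.val (c.is_comm.comm (⟨y, hy⟩ : K) ⟨x, hx⟩)
  have A1' : A.subgroupOf K ≠ ⊥ := fun e => A1 (disjoint_self.1 ((subgroupOf_eq_bot.1 e).mono_right sc.le))
  have jS : ∀ u, f.j u ∈ P ⊓ K := fun u => ⟨hT (f.jT u), a.jK u⟩
  have nA : ¬ (P ⊓ K).subgroupOf K ≤ A.subgroupOf K := fun e => one_ne_zero (α := F)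
    ((lift_a 1).symm.trans (U6.sq_iff.1 (f.j_inj ((map_mul _ _ _).trans
      ((sc.sq _ (e (x := ⟨_, a.jK (lift σ 1)⟩) (jS _))).trans (map_one _).symm)))))
  have k : ¬ IsSylowIn 2 (A.subgroupOf K) ⊤ := fun e => nA (e.max _ le_top hS'.pgroup (comap_mono hA)).le
  obtain ⟨X, e1, e2⟩ := sc'.exists_suz0 nc A1' (((GS.gs nc sc' A1').resolve_right fun e => e.elim (k ·.1) (k ·.1)))
  have e3 : X.Q = (P ⊓ K).subgroupOf K := hS'.max _ le_top (Clos.suz_sylow X).pgroup fun s hs => by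
    obtain ⟨k, hk⟩ := H9.exists_pow_eq_one_of_mem hS'.pgroup hs
    exact X.mem_Q_of_two (e1 ▸ sc'.le_norm hS'.pgroup (comap_mono hA) le_top hs) hk
  have inv : ∀ s ∈ P ⊓ K, s ∈ A ↔ s * s = 1 := fun s hs => ⟨sc.sq s, fun e =>
    e2.le (X.mem_Z.2 ⟨e3.ge (show (⟨s, hs.2⟩ : K) ∈ _ from hs), Subtype.ext e⟩)⟩
  have VA : f.V ≤ A := fun v hv => (inv v (by obtain ⟨u, rfl⟩ := f.V_le_Q hv; exact jS u)).2 (f.V_sq hv)
  have AC : ∀ x ∈ A, x ∈ f.C → ∃ e ∈ f.E, ∃ v ∈ f.V, x = e * v := fun x hx hc => by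
    have h1 : x ∈ centralizer (f.Q : Set G) := by
      rintro _ ⟨u, rfl⟩
      exact congrArg Subtype.val (X.Z_comm (z := ⟨x, sc.le hx⟩) (x := ⟨_, a.jK u⟩) (e2.ge hx) (e3.ge (jS u))).symm
    exact f.mem_A.1 (f.mem_A_of_sq (f.mem_T1_of_two ⟨hc, centralizer_le_normalizer _ h1⟩
      ⟨1, (pow_two x).trans (sc.sq x hx)⟩ (f.ct_cen h1).2) (sc.sq x hx))
  have EK : ∀ e ∈ f.E, e ∈ K → e = 1 := fun e he hk => by_contra fun e0 => by
    obtain ⟨x, xK, xU, xN⟩ := a.ex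
    obtain ⟨v, hv, v1, -⟩ := f.exists_two_V
    have xC := f.U_le xU
    have h1 : (⟨e, hk⟩ : K) ∈ X.Q := e3.ge ⟨hT (f.E_le_T he), hk⟩
    have h2 : (⟨x, xK⟩ : K) ∈ X.H := X.hyp.mem_H_of_conj h1 (fun h => e0 (congrArg Subtype.val h)) (by
      rw [mul_inv_eq_iff_eq_mul.2 (show (⟨x, xK⟩ : K) * ⟨e, hk⟩ = ⟨e, hk⟩ * ⟨x, xK⟩ from Subtype.ext (xC e he).symm)]
      exact X.Q_le h1)
    obtain ⟨e', he', w, hw, h3⟩ := AC (x * v * x⁻¹) ((mem_normalizer_iff.1 (e1.le h2) ⟨v, sc.le (VA hv)⟩).1 (VA hv))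
      (mul_mem (mul_mem xC (f.Q_le_C (f.V_le_Q hv))) (inv_mem xC))
    have h4 := f.conj_U xC (f.Q_le_U (f.V_le_Q hv))
    rw [h3] at h4
    rw [f.disj e' he' ((mul_mem_cancel_right (f.Q_le_U (f.V_le_Q hw))).1 h4), one_mul] at h3
    exact xN (f.mem_D_of_comm xC hv v1 (h3 ▸ hw)).2
  have AV : A ⊓ f.C ≤ f.V := fun x hx => by
    obtain ⟨e, he, v, hv, rfl⟩ := AC x hx.1 hx.2
    rwa [EK e he ((mul_mem_cancel_right (sc.le (VA hv))).1 (sc.le hx.1)), one_mul]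
  obtain ⟨⟨t, ht⟩, t1⟩ := ne_bot_iff_exists_ne_one.1 f.E_ne
  have ct : centralizer {t} = f.C := f.cen t ht fun e => t1 (Subtype.ext e)
  have tP := hT (f.E_le_T ht)
  have cA : Nat.card (A.subgroupOf K) = Nat.card A := Nat.card_congr (subgroupOfEquivOfLe sc.le).toEquiv
  rcases H7.Mu.suz_cases X (fun e => nA (by rw [← e3, e, e2])) with ⟨hc, m, -, -, -, -, -, h6, -⟩ | ⟨m, F', _, _, h4, h5, ⟨e⟩⟩
  · exfalso
    rw [BS.Suz.q, e2, cA] at hc h6
    rw [e3, Nat.card_congr (subgroupOfEquivOfLe hS.le).toEquiv] at hc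
    have c1 := (H4.card_le_sq_centralizer ⟨⟨⟨fun a b => Subtype.ext (sc.comm a.2 b.2)⟩⟩,
      fun x hx => (pow_two x).trans (sc.sq x hx)⟩ (f.E_sq t ht) (hN tP)).trans
      (Nat.pow_le_pow_left (card_le_of_le (ct ▸ AV)) 2)
    have QS : f.Q ≤ P ⊓ K := by rintro _ ⟨u, rfl⟩; exact jS u
    have c2 := (card_sup_mul_card_inf ((QS.trans inf_le_left).trans hN)).ge.trans (Nat.mul_le_mul
      ((card_le_of_le (sup_le hA QS)).trans hc.le) (card_le_of_le ((inf_le_inf_left A f.Q_le_C).trans AV)))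
    rw [f.card_V] at c1
    rw [f.card_V, f.card_Q, pow_two, mul_assoc, pow_succ] at c2
    have c3 := le_antisymm c1 (Nat.le_of_mul_le_mul_right (Nat.le_of_mul_le_mul_left c2 Nat.card_pos)
      (by have := f.four_le; omega))
    rw [h6, Fr.q, ← pow_mul] at c3
    have := Nat.pow_right_injective le_rfl c3
    omega
  obtain ⟨σ', _, hq⟩ := exists_ctx (by omega) h5
  have h6 := hS'.map e.toMonoidHom
  rw [← MonoidHom.range_eq_map, MonoidHom.range_eq_top.2 e.surjective] at h6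
  obtain ⟨i⟩ := nonempty_sylow_PSU_equiv hq h6.toSylowTop
  obtain ⟨h7, h8⟩ := U6.unit (((subgroupOfEquivOfLe hS.le).symm.trans (e.subgroupMap _)).trans i) hA inv (f.E_sq t ht)
    (le_normalizer_inf le_normalizer le_normalizer_of_normal tP)
  rw [le_antisymm ((le_inf le_rfl (ct ▸ h7)).trans AV) VA, f.card_V, card_KK h5] at h8
  obtain rfl := Nat.pow_right_injective le_rfl h8
  have := Fintype.ofFinite F
  obtain ⟨e'⟩ := Clos.psu_congr (m := 3) (q := 2 ^ f.n) (FiniteField.ringEquivOfCardEq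
    (h5.trans (f.hF.symm.trans Nat.card_eq_fintype_card)) : F' ≃+* F)
  exact ⟨e.trans e'⟩

end Cfsg.Agent.WA.Lk
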