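import Cfsg.Agent.WA.LkEx

/-! Existence of the frame, with the position of the component. -/

set_option autoImplicit false

namespace Cfsg.Agent.WA.Lk

open Subgroup Cfsg.Agent.H1.U3 Cfsg.Agent.H8

theorem exists_fr3 {F : Type*} [Field F] [Fintype F] {G : Type*} [Group G] [Finite G] (t : G)
    (ht : orderOf t = 2) (E U U₀ : Subgroup G)
    (hEU : IsInternalDirectProduct E U (centralizer ({t} : Set G)))
    (hE : IsElementaryAbelian 2 E) (hE1 : E ≠ ⊥)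
    (hU₀ : U₀ ≤ U) (hU₀n : (U₀.subgroupOf U).Normal) (hq : IsQuasisimple ↥U₀)
    (n : ℕ) (hF : Fintype.card F = 4 ^ n)
    (hUX : Nonempty ((↥U₀ ⧸ center ↥U₀) ≃* PSU 3 F (2 ^ n)))
    (hCU : ∀ z ∈ U ⊓ centralizer (U₀ : Set G), Odd (orderOf z))
    (hC : ∀ e ∈ E, orderOf e = 2 → centralizer ({e} : Set G) = centralizer ({t} : Set G)) :
    ∃ (σ : F →+* F) (_ : Ctx σ) (f : Fr σ G), f.E = E ∧ f.U = U ∧ f.n = n ∧ (∀ u, f.j u ∈ U₀) ∧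
      ∃ x ∈ U₀, x ∉ normalizer (f.Q : Set G) := by
  obtain ⟨σ, i, hs, φ, f, h1, h2, h3, -, hr, hk, hj, -⟩ := exists_fr' t ht E U U₀ hEU hE hE1 hU₀ hU₀n hq n hF hUX hCU hC
  refine ⟨σ, i, f, h1, h2, h3, fun u => by rw [hj, ← hr]; exact ⟨_, rfl⟩, φ (wSU hs), hr ▸ ⟨_, rfl⟩, fun h => ?_⟩
  rw [Fr.Q, hj] at h
  obtain ⟨_, _, e⟩ := LkX.of_nq hs hk h
  exact LkX.w_ne hs e

theorem exists_fr2 {F : Type*} [Field F] [Fintype F] {G : Type*} [Group G] [Finite G] (t : G)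
    (ht : orderOf t = 2) (E U U₀ : Subgroup G)
    (hEU : IsInternalDirectProduct E U (centralizer ({t} : Set G)))
    (hE : IsElementaryAbelian 2 E) (hE1 : E ≠ ⊥)
    (hU₀ : U₀ ≤ U) (hU₀n : (U₀.subgroupOf U).Normal) (hq : IsQuasisimple ↥U₀)
    (n : ℕ) (hF : Fintype.card F = 4 ^ n)
    (hUX : Nonempty ((↥U₀ ⧸ center ↥U₀) ≃* PSU 3 F (2 ^ n)))
    (hCU : U ⊓ centralizer (U₀ : Set G) = (center ↥U₀).map U₀.subtype)
    (hC : ∀ e ∈ E, orderOf e = 2 → centralizer ({e} : Set G) = centralizer ({t} : Set G)) :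
    ∃ (σ : F →+* F) (_ : Ctx σ) (f : Fr σ G), f.E = E ∧ f.U = U ∧ f.n = n ∧ (∀ u, f.j u ∈ U₀) ∧
      ∃ x ∈ U₀, x ∉ normalizer (f.Q : Set G) := by
  refine exists_fr3 t ht E U U₀ hEU hE hE1 hU₀ hU₀n hq n hF hUX ?_ hC
  rw [hCU]
  rintro _ ⟨z, hz, rfl⟩
  rw [orderOf_injective _ U₀.subtype_injective]
  exact odd_center hq hF hUX hz

end Cfsg.Agent.WA.Lk
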