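import Cfsg.Agent.WA.Lk3a
import Cfsg.Agent.WA.Lk3b1
import Cfsg.Agent.WA.UkDef

/-! The storey of order `q ^ 6` lies in the subgroup of index two. -/

set_option autoImplicit false
set_option linter.unusedSectionVars false

namespace Cfsg.Agent.WA.Lk

open Subgroup Cfsg.Agent.H1.U3 Cfsg.Agent.H8

namespace X4

variable {F : Type*} [Field F] [Finite F] {σ : F →+* F} [Ctx σ] {G : Type*} [Group G] [Finite G] {w : Two σ G}
  {g s y u p e : G} {Y : Subgroup G} {b α φ : G → F}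

namespace St

variable (h : St w Y b)
include h

theorem six' : ∃ t a₁ a₂, w.Six t Y w.P0 a₁ a₂ := by
  obtain ⟨α, v, κ, η, a1, a2, v1, v2, v3, hη, k⟩ := h.coord
  have t2 := two σ
  have x1 : Ad w.P0 w.xx := Ad.mono w.xx_mul fun _ hp => hp.1
  have kc : ∀ e ∈ w.E, e ≠ 1 → w.ce e = κ := fun e he e1 => by
    obtain ⟨y, hy, y1⟩ := h.su 1
    have p := h.sqP hy
    have c1 := w.cm e (w.ES he) _ p.1
    obtain ⟨o1, o2, o3⟩ := w.on_E e he
    rw [o1, o2, o3, p.2.1, p.2.2, mul_inv_eq_iff_eq_mul] at c1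
    simp only [bl, map_zero, mul_zero, add_zero] at c1
    have cK : σ (w.ce e * w.xx (y * y)) = w.ce e * w.xx (y * y) := by rw [map_mul, w.ceK e he, w.xxK _ p.1]
    have m := w.mem_V.2 ⟨_, cK, rfl⟩
    have c2 := (k _ (cjS (h.DN (h.ED he)) hy)).2
    rw [conj_mul, c1, v1 _ ⟨w.V_le m, ((w.kerV _ (w.V_le m)).1 m).1, ((w.kerV _ (w.V_le m)).1 m).2.2⟩ _ p, v3 _ cK, (k y hy).1, (k y hy).2,
      (h.eact a1 a2 he hy).1, (h.eact a1 a2 he hy).2, y1] at c2
    simp only [nm, bl, map_add, map_mul, map_one, w.ceK e he] at c2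
    exact mul_left_cancel₀ (fun c => e1 (w.ce_inj e he c)) (by linear_combination -c2)
  obtain ⟨t, ht, t1⟩ := exE w
  have c0 : κ ≠ 0 := fun c => t1 (w.ce_inj t ht ((kc t ht t1).trans c))
  have cK : σ κ = κ := kc t ht t1 ▸ w.ceK t ht
  have ti : t⁻¹ = t := inv_eq_of_mul_eq_one_right (w.E_sq t ht)
  obtain ⟨l0, l1, l2⟩ := root (x := η / κ ^ 2) (by rw [map_div₀, map_pow, hη, cK])
  obtain ⟨l, l3, l4⟩ : ∃ l, l ^ 2 + κ * l = η ∧ (σ l = l ∨ σ l = l + κ) :=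
    ⟨κ * l0, by rw [← div_mul_cancel₀ η (pow_ne_zero 2 c0), ← l1]; ring, l2.imp (fun e => by rw [map_mul, cK, e]) fun e => by
      rw [map_mul, cK, e]; ring⟩
  have inj : ∀ x ∈ w.P0, v x + l * w.xx x = 0 → v x + (l + κ) * w.xx x = 0 → x = 1 := fun x hx e1 e2 => by
    have e3 : w.xx x = 0 := (mul_eq_zero.1 (show κ * w.xx x = 0 by linear_combination e2 - e1)).resolve_left c0
    obtain ⟨z, hz, rfl⟩ := w.mem_V.1 ((w.kerV x hx.1).2 ⟨hx.2.1, e3, hx.2.2⟩)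
    rw [e3, v3 z hz, mul_zero, add_zero] at e1
    rw [e1, w.vv_zero]
  have b0 : ∀ {x y : F}, x + l * y = x + (l + κ) * y → y = 0 := fun e => (mul_eq_zero.1 (by linear_combination -e)).resolve_left c0
  refine ⟨t, fun y => α y + l * b y, fun y => α y + (l + κ) * b y, ⟨ht, t1, fun e he => or_iff_not_imp_left.2 fun e1 => ?_⟩, h.pg,
    P0Y1.trans h.le, fun p hp y hy => h.cP hy p hp, fun p hp => P0sq h.hc hp, w.card_P0, w.T_le_D.trans h.DN,
    fun x hx y hy => by rw [a1 x hx y hy, h.ad x hx y hy]; ring, fun x hx y hy => by rw [a1 x hx y hy, h.ad x hx y hy]; ring,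
    fun y hy => ⟨fun k => by simp [a2 y (P0Y1 k), h.b0 (P0Y1 k), k.2.2], fun ⟨e1, e2⟩ => ?_⟩, fun x y => ?_, fun u => h.le (jY1 u),
    fun u => by simp [a2 _ (jY1 u), h.b0 (jY1 u), (w.on_j u).2.2], fun u => by simp [a2 _ (jY1 u), h.b0 (jY1 u), (w.on_j u).2.2],
    fun y hy e => ?_, fun y hy => ?_, l4.imp (fun e => ⟨fun x => v x + l * w.xx x, fun x => v x + (l + κ) * w.xx x, fun x hx y hy => ?_,
      fun x hx => by simp [v2 x hx, w.xxK x hx.1, e, cK], inj, fun y hy => ?_⟩)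
      fun e => ⟨fun x => v x + l * w.xx x, fun x hx y hy => ?_, fun x hx e1 => inj x hx e1 ?_, fun y hy => ?_⟩⟩
  · rw [← mul_left_inj t, w.E_sq t ht]
    exact w.ce_inj _ (mul_mem he ht) (by rw [w.ce_mul e he t ht, kc e he e1, kc t ht t1]; linear_combination κ * t2)
  · have e3 := b0 (e1.trans e2.symm)
    have m := h.ker y hy e3
    rw [e3, a2 y m, mul_zero, add_zero] at e1
    exact ⟨m.1, (mY1.1 m).2, e1⟩
  · obtain ⟨z, hz, e⟩ := h.su ((x + y) / κ)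
    obtain ⟨s, hs, e1⟩ := suA (w := w) (x + l * b z + α z)
    refine ⟨z * s, mul_mem hz (h.le hs), ?_⟩
    rw [a1 z hz s (h.le hs), h.ad z hz s (h.le hs), a2 s hs, h.b0 hs, e1]
    rw [eq_div_iff c0] at e
    exact ⟨by linear_combination (α z + l * b z) * t2, by linear_combination e + (α z + l * b z + x) * t2⟩
  · have e1 := (h.eact a1 a2 ht hy).2
    rw [← e, mul_inv_cancel_right, left_eq_add, kc t ht t1] at e1
    have m := h.ker y hy ((mul_eq_zero.1 e1).resolve_left c0)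
    have c1 := w.cm t (w.ES ht) _ m.1
    obtain ⟨o1, o2, o3⟩ := w.on_E t ht
    rw [o1, o2, o3, ← e, kc t ht t1, mul_inv_cancel_right, mul_inv_cancel, ← w.vv_zero] at c1
    simp only [bl, map_zero, mul_zero, zero_mul, add_zero] at c1
    exact w.mem_Q.2 ⟨m.1, (mY1.1 m).2, (mul_eq_zero.1 (w.vv_inj (map_zero σ) (by rw [map_mul, cK, w.xxK y m.1]) c1).symm).resolve_left c0⟩
  · have := h.eact a1 a2 ht hy
    rw [ti, kc t ht t1] at this
    rw [this.1, this.2]; ring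
  · beta_reduce; rw [v1 x hx y hy, x1 x hx y hy]; exact ⟨by ring, by ring⟩
  · beta_reduce; rw [(k y hy).1, (k y hy).2, ← l3]
    simp only [nm, bl, map_add, map_mul, e, cK]
    exact ⟨by linear_combination (κ * l * σ (b y) * b y) * t2, by ring⟩
  · beta_reduce; rw [v1 x hx y hy, x1 x hx y hy]; ring
  · simpa [v2 x hx, w.xxK x hx.1, e] using congrArg σ e1
  · beta_reduce; rw [(k y hy).1, (k y hy).2, ← l3]
    simp only [nm, bl, map_add, map_mul, e, cK]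
    linear_combination -(κ * σ (b y) * α y) * t2

theorem le_K {K : Subgroup G} {t : G} (o : Out K t) : Y ≤ K := fun y hy => by
  obtain ⟨t', a₁, a₂, k⟩ := h.six'
  obtain ⟨μ, -, h1, -⟩ := w.exists_h0
  have h2 : w.cc (w.d μ) + 1 ≠ 0 := fun e => h1 (by linear_combination e - two σ)
  obtain ⟨z, hz, e⟩ := h.su (b y / (w.cc (w.d μ) + 1))
  have h3 := o.cm (w.d μ) z
  have h4 := mul_mem (h.dY μ hz) (inv_mem hz)
  have h5 := h.ker _ (mul_mem hy h4) (by
    rw [h.ad _ hy _ h4, h.ad _ (h.dY μ hz) _ (inv_mem hz), h.bd μ hz, h.ad.inv hz, e]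
    field_simp
    linear_combination (b y * w.cc (w.d μ)) * two σ)
  refine (mul_mem_cancel_right h3).1 ?_
  generalize y * (w.d μ * z * (w.d μ)⁻¹ * z⁻¹) = s at h5
  obtain ⟨s1, s2⟩ := mY1.1 h5
  have u1 := w.jS (lift σ (w.aa s))
  obtain ⟨e1, -, e3⟩ := w.on_j (lift σ (w.aa s))
  obtain ⟨x, -, e⟩ := X3b.W_sq k (w := s * w.j (lift σ (w.aa s))) ⟨mul_mem s1 u1, by rw [w.ee_mul _ s1 _ u1, s2, e1, one_mul], by
    rw [w.aa_mul _ s1 _ u1, e3, lift_a]; linear_combination w.aa s * two σ⟩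
  exact (mul_mem_cancel_right (o.jK w.toFr _)).1 (e ▸ o.sq x)

end St

end X4

variable {F : Type*} [Field F] [Finite F] {σ : F →+* F} [Ctx σ] {G : Type*} [Group G] [Finite G]

theorem Two.exists_six' (w : Two σ G) (hc : w.c = 0) {g : G} (hg : g ∈ normalizer (w.S : Set G))
    (hP : g ∈ normalizer (w.P0 : Set G)) (hA : cj g w.A ≠ w.A) {K : Subgroup G} {t : G} (ht : w.Inv t) (o : Out K t) :
    ∃ Y W a₁ a₂, w.Six t Y W a₁ a₂ ∧ Y ≤ K := by
  obtain ⟨k, β, h0, h⟩ := X4.exB hc hg hP hA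
  obtain ⟨Y, b, h⟩ := X4.exSt hc (h.surj h0)
  obtain ⟨t', a₁, a₂, k⟩ := h.six'
  obtain rfl := (ht.E2 t' k.tE).resolve_left k.t1
  exact ⟨Y, _, a₁, a₂, k, h.le_K o⟩

end Cfsg.Agent.WA.Lk
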