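import Cfsg.Agent.WA.UkMid1
import Cfsg.Agent.WA.UkSix0
import Cfsg.Agent.WA.Lk2a4
import Cfsg.Agent.WA.Lk1a

/-! Module UkMid: the case division under a normal subgroup of index two. -/

set_option autoImplicit false
set_option linter.unusedSectionVars false

namespace Cfsg.Agent.WA.Lk

open Subgroup Cfsg.Agent.H1.U3 Cfsg.Agent.H8

variable {F : Type*} [Field F] [Finite F] {σ : F →+* F} [Ctx σ] {G : Type*} [Group G] [Finite G]

namespace U0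

open X2a

variable {f : Fr σ G} {K B P : Subgroup G} {t x s : G} {m : ℕ} (h : Up f t m B P)
include h

theorem TN : f.T ≤ normalizer (P : Set G) := f.T_le_D.trans h.DN

theorem RN : P ⊔ f.T ≤ normalizer (f.Q : Set G) := sup_le h.P_NQ f.T_N

theorem fixd (hR : s ∈ P ⊔ f.T) (e : f.tt s = sigAut σ) {z : G} (hz : z ∈ P ⊔ f.Q) (hc : z * s = s * z) :
    ∃ x ∈ P, ∃ u, x * f.j u = z ∧ f.cc s * σ u.a = u.a := by
  have sP : s ∈ normalizer (P : Set G) := sup_le le_normalizer (TN h) hR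
  obtain ⟨x, hx, u, rfl⟩ := h.mem_PQ.1 hz
  refine ⟨x, hx, u, rfl, ?_⟩
  have e2 : f.j (f.aut s u * u⁻¹) = (s * x * s⁻¹)⁻¹ * x := by
    rw [map_mul, map_inv, ← f.conj_j (RN h hR)]
    calc _ = (s * x * s⁻¹)⁻¹ * (s * (x * f.j u)) * s⁻¹ * (f.j u)⁻¹ := by group
      _ = _ := by rw [← hc]; group
  have e3 := j_cQ (e2 ▸ h.PQ (mul_mem (inv_mem (conj_in sP hx)) hx))
  rwa [mul_a, inv_a, f.aut_a, e, sigAut_apply, ← sub_eq_add_neg, sub_eq_zero] at e3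

theorem PK (o : Out K t) : P ≤ K := fun x hx => by
  have BK : B ≤ K := fun b hb => by
    obtain ⟨p, -, rfl⟩ := h.onto b hb
    exact o.mul o.tn fun e => o.tn ((o.conj_iff p).1 e)
  obtain ⟨μ, hμ, h0⟩ := exists_l f
  obtain ⟨y, hy, e⟩ := h.ξ_surj (y := ξ f t m x / ((μ : F) ^ 2 + 1)) (by
    rw [map_div₀, map_add, map_pow, map_one, hμ, ξ_K])
  have m1 := mul_mem (h.d_P μ hy) (inv_mem hy)
  refine (mul_mem_cancel_right (o.cm (f.d μ) y)).1 (BK ((h.ξ_ker (mul_mem hx m1)).1 ?_))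
  rw [h.ξ_mul (h.W0 hx) (h.W0 m1), h.ξ_mul (h.W0 (h.d_P μ hy)) (h.W0 (inv_mem hy)), h.ξ_inv (h.W0 hy),
    h.ξ_d hμ (h.W0 hy), e]
  rw [← add_one_mul, mul_div_cancel₀ _ h0]
  exact (X1.add0 σ).2 rfl

variable (hab : ∀ a ∈ P, ∀ b ∈ P, a * b = b * a)
include hab

theorem fix_comm (hR : s ∈ P ⊔ f.T) (e : f.tt s = sigAut σ) {z z' : G} (hz : z ∈ P ⊔ f.Q) (hc : z * s = s * z)
    (hz' : z' ∈ P ⊔ f.Q) (hc' : z' * s = s * z') : z * z' = z' * z := by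
  obtain ⟨x, hx, u, rfl, e1⟩ := fixd h hR e hz hc
  obtain ⟨x', hx', u', rfl, e2⟩ := fixd h hR e hz' hc'
  refine h.comm_PQ hab hx hx' ?_
  unfold bl
  linear_combination -σ u.a * e2 - σ u'.a * e1 + f.cc s * σ u.a * σ u'.a * two σ

theorem gam_sq (hx : x ∈ P) : γ t x * γ t x = (x⁻¹ * x⁻¹) * (x⁻¹ * x⁻¹) := by
  have e := h.inv _ (h.sq_B hx)
  have c := hab _ (h.BP (h.gam x hx)) x hx
  rw [show t * (x * x) * t = t * x * t * (t⁻¹ * x * t) by group, t_inv h.toInv, h.txt] at e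
  calc _ = γ t x * (γ t x * x) * x * (x * x)⁻¹ := by group
    _ = γ t x * (x * γ t x) * x * (x * x)⁻¹ := by rw [show γ t x * x = x * γ t x from c]
    _ = γ t x * x * (γ t x * x) * (x * x)⁻¹ := by group
    _ = _ := by rw [e]; group

theorem syl (hT : ∀ x ∈ P, ∀ u, f.TC (t * (x * f.j u)) → x * f.j u ∈ B) : IsSylowIn 2 (P ⊔ f.T) ⊤ := by
  have : Fact (Nat.Prime 2) := ⟨Nat.prime_two⟩
  have TN := TN h
  have TC : f.T ≤ f.C := f.T_syl.le
  have tT : t ∈ f.T := f.E_le_T h.tE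
  have QT : f.Q ≤ f.T := by rintro _ ⟨u, rfl⟩; exact f.jT u
  have pgR : IsPGroup 2 ↥(P ⊔ f.T) := IsPGroup.to_sup_of_normal_left' h.pg f.T_syl.pgroup TN
  have ext : ∀ {s} {X : Subgroup G}, s ∈ P ⊔ f.T → f.TC s → X ≤ P ⊔ f.T → X ≤ centralizer {s} →
      Nat.card f.T ≤ Nat.card X → ∃ b ∈ B, s = t * b := fun {s X} hR hs h1 h2 h3 => by
    rcases f.tt_cases (RN h hR) (by rw [TC_sq h.toInv hs, f.ct_one.2]) with e | e
    · obtain ⟨p, hp, y, hy, rfl⟩ := (H5.mem_sup_of_le_normalizer_left TN).1 hR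
      rw [f.tt_mul (h.P_NQ hp) (f.T_N hy), (f.ct_cen (h.PQ hp)).2, one_mul] at e
      obtain ⟨e', he, u, rfl⟩ := f.mem_T1.1 ((f.mem_T1_iff hy).2 e)
      rcases h.E2 e' he with rfl | rfl
      · exact (h.not_TC hab hp u (by rwa [one_mul] at hs)).elim
      · have e1 : p * (e' * f.j u) = e' * (e' * p * e' * f.j u) := by
          rw [← mul_assoc e', ← mul_assoc e', ← mul_assoc e', t_sq h.toInv]; group
        exact ⟨_, hT _ (h.t_P hp) u (e1 ▸ hs), e1⟩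
    · exfalso
      have h4 := f.ab_lt (card_E h.toInv) hs (h.pgPQ.to_le (inf_le_left (b := X)))
        (fun z hz z' hz' => fix_comm h hab hR e hz.1 (mem_centralizer_singleton_iff.1 (h2 hz.2)) hz'.1
          (mem_centralizer_singleton_iff.1 (h2 hz'.2))) (inf_le_right.trans h2)
      have a1 := H5.card_inf_mul_relIndex (P ⊔ f.Q) X
      have a2 := H5.card_mul_relIndex_of_le (sup_le_sup_left QT P)
      have a3 := H5.card_sup_mul_card_inf TN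
      have a4 := H5.card_sup_mul_card_inf h.Q_NP
      have r0 : (P ⊔ f.Q).relIndex (P ⊔ f.T) ≠ 0 := index_ne_zero_of_finite
      have a5 := relIndex_le_of_le_right h1 r0
      rw [h.inf_C (f.V_le_Q.trans QT) TC] at a3
      rw [h.inf_C f.V_le_Q f.Q_le_C, f.card_Q] at a4
      have a6 : f.q ^ 3 * (P ⊔ f.Q).relIndex (P ⊔ f.T) = Nat.card f.T :=
        Nat.eq_of_mul_eq_mul_left (Nat.card_pos (α := P)) (by rw [← a3, ← a2, ← mul_assoc, ← a4]; ring)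
      have a7 := Nat.mul_lt_mul_of_lt_of_le h4 a5 (Nat.pos_of_ne_zero r0)
      omega
  refine IsSylowIn.of_normalizer le_top ⟨le_inf le_top le_normalizer, pgR, fun S h1 h2 h3 => ?_⟩
  refine le_antisymm (fun g hg => ?_) h3
  have gN := (h1 hg).2
  obtain ⟨b, hb, e⟩ := ext (X := cj g f.T) (conj_in gN (mem_sup_right tT))
    (TC_conj h.toInv ((TC_iff h.toInv).2 (IsConj.refl t)) g)
    (cj_le_of_mem_normalizer gN le_sup_right)
    (cj_centralizer_singleton g t ▸ cj_mono g fun x hx =>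
      mem_centralizer_singleton_iff.2 ((mem_C' h.toInv).1 (TC hx))) (card_cj g _).ge
  obtain ⟨p, hp, e1⟩ := h.onto b hb
  have h4 : p⁻¹ * g ∈ S ⊓ f.C := ⟨S.mul_mem (S.inv_mem (h3 (mem_sup_left hp))) hg,
    h.γ_eq (by rw [γ, γ, e1, e, ← mul_assoc, t_sq h.toInv, one_mul])⟩
  rw [f.T_syl.max (S ⊓ f.C) inf_le_right (h2.to_le inf_le_left)
    (le_inf (le_sup_right.trans h3) TC)] at h4
  exact (mul_mem_cancel_left (inv_mem (mem_sup_left hp))).1 (mem_sup_right h4)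

theorem exZ (hR : s ∈ P ⊔ f.T) (e : f.tt s = sigAut σ) (s2 : s * s = 1) {v : G} (hv : v ∈ f.V) :
    ∃ z ∈ P ⊔ f.Q, z * s = s * z ∧ z * z ∈ f.V ∧ γ t z = v := by
  obtain ⟨n1, sV⟩ := f.nm_cc_of_sig (RN h hR) e (by rw [s2, f.ct_one.1])
  obtain ⟨x, hx, rfl⟩ := h.onto v (h.VB hv)
  change γ t x ∈ f.V at hv
  have x2 : x * x ∈ f.V := h.om _ (h.sq_B hx) (by
    have := gam_sq h hab hx
    rw [f.V_sq hv] at this
    rw [← inv_eq_one, this]; group)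
  have c : x⁻¹ * (s * x * s⁻¹) ∈ f.V := by
    obtain ⟨p, hp, y, hy, rfl⟩ := (H5.mem_sup_of_le_normalizer_left (TN h)).1 hR
    have m1 := conj_in (TN h hy) hx
    have yV := (mul_mem_cancel_left (centralizer_le f.V_le_Q (h.PQ hp))).1 sV
    rw [show p * y * x * (p * y)⁻¹ = p * (y * x * y⁻¹) * p⁻¹ by group, hab p hp _ m1, mul_inv_cancel_right]
    exact h.cen _ (mul_mem (inv_mem hx) m1) ((mem_C' h.toInv).1 (h.γ_eq (by
      rw [h.γ_conj (f.T_syl.le hy), ← yV _ hv, mul_inv_cancel_right])))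
  obtain ⟨a, a0, f1, -⟩ := exists_fix n1
  obtain ⟨b, hb, e1⟩ := f.mem_V.1 c
  obtain ⟨l, hl, e2⟩ := exists_sqrt (σ := σ) (x := b / nm σ a) (by rw [map_div₀, hb, nm_fixed])
  have u2 : f.j (lift σ (l * a)) * f.j (lift σ (l * a)) = f.vv b := by
    rw [f.j_sq, lift_a, ← div_mul_cancel₀ b (mt (nm_eq_zero (σ := σ)).1 a0), ← e2]
    congr 1
    simp only [nm, map_mul, hl]; ring
  have u1 := f.sig_inv (RN h hR) e (by rw [s2]; exact one_mem _) (u := lift σ (l * a)) ((f1 _).2 ⟨l, hl, lift_a _⟩)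
  generalize lift σ (l * a) = u at u1 u2
  have cm : Commute x (f.j u) := (cQ_iff.1 (h.PQ hx) u).symm
  refine ⟨x * f.j u, h.mem_PQ.2 ⟨x, hx, u, rfl⟩, ?_, ?_, ?_⟩
  · rw [eq_comm, ← mul_inv_eq_iff_eq_mul, ← conj_mul, u1]
    calc _ = x * (x⁻¹ * (s * x * s⁻¹)) * (f.j u)⁻¹ := by group
      _ = _ := by rw [← e1, ← u2]; group
  · rw [← pow_two, cm.mul_pow, pow_two, pow_two, u2]; exact mul_mem x2 (f.vv_mem _)
  · rw [h.γ_mul, h.γ_eq_one.2 (f.Q_le_C ⟨u, rfl⟩)]; simp [γ]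

theorem sigm (o : Out K t) (g s : G) (sT : s ∈ f.T) (s2 : s * s = 1) (st : f.tt s = sigAut σ)
    (hR : g * t * g⁻¹ ∈ P ⊔ f.T) (e : f.tt (g * t * g⁻¹) = sigAut σ) (hx : x ∈ P) (u : US σ) :
    x * f.j u ≠ g * s * g⁻¹ := fun e0 => by
  have t2 := cj_sq g (t_sq h.toInv)
  have YK : P ⊔ f.Q ≤ K := sup_le (PK h o) (by rintro _ ⟨u, rfl⟩; exact o.jK f u)
  have sV := (f.nm_cc_of_sig (RN h hR) e (by rw [t2, f.ct_one.1])).2
  let X : Subgroup G :=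
    { carrier := {z | z ∈ P ⊔ f.Q ∧ z * (g * t * g⁻¹) = g * t * g⁻¹ * z ∧ z ^ 4 = 1}
      one_mem' := ⟨one_mem _, by simp, one_pow _⟩
      mul_mem' := fun {a b} ha hb => ⟨mul_mem ha.1 hb.1, Commute.mul_left ha.2.1 hb.2.1, by
        rw [(show Commute a b from fix_comm h hab hR e ha.1 ha.2.1 hb.1 hb.2.1).mul_pow, ha.2.2, hb.2.2, mul_one]⟩
      inv_mem' := fun {a} ha => ⟨inv_mem ha.1, Commute.inv_left ha.2.1, by rw [inv_pow, ha.2.2, inv_one]⟩ }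
  have p4 : ∀ z : G, z * z * (z * z) = z ^ 4 := fun z => by rw [← pow_two, ← pow_two, ← pow_mul]
  have VX : f.V ≤ X := fun v hv => ⟨mem_sup_right (f.V_le_Q hv), sV v hv, by rw [← p4, f.V_sq hv, mul_one]⟩
  choose z z1 z2 z3 z4 using fun v : f.V => exZ h hab hR e t2 v.2
  have cX := Nat.card_le_card_of_injective (fun w : f.V × f.V =>
    (⟨z w.1 * w.2, mul_mem ⟨z1 _, z2 _, by rw [← p4, f.V_sq (z3 _)]⟩ (VX w.2.2)⟩ : X)) (by
    rintro ⟨a, b⟩ ⟨a', b'⟩ e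
    have e : z a * b = z a' * b' := congrArg Subtype.val e
    have e1 := congrArg (γ t) e
    rw [h.γ_mul, h.γ_mul, h.γ_eq_one.2 (f.Q_le_C (f.V_le_Q b.2)), h.γ_eq_one.2 (f.Q_le_C (f.V_le_Q b'.2)), z4, z4] at e1
    obtain rfl : a = a' := Subtype.ext (by simpa using e1)
    rw [Subtype.ext (mul_left_cancel e)])
  rw [Nat.card_prod, f.card_V, ← pow_two] at cX
  obtain ⟨k, e', he, e1, e2, hk⟩ := f.into_T (f.TC_conj (f.TC_E h.tE h.t1) g) (X := X)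
    (h.pgPQ.to_le fun z hz => hz.1) fun z hz => mem_centralizer_singleton_iff.2 hz.2.1
  rw [(h.E2 e' he).resolve_left e1] at e2
  rw [← card_cj k⁻¹] at cX
  have w2 := cj_sq g s2
  have hw := abQ h.toInv o hk (by rintro _ ⟨a, ha, rfl⟩; exact o.conj _ (YK ha.1)) (by
      rintro _ ⟨a, ha, rfl⟩ _ ⟨b, hb, rfl⟩
      rw [← map_mul, fix_comm h hab hR e ha.1 ha.2.1 hb.1 hb.2.1, map_mul]) (by
      rintro _ ⟨a, ha, rfl⟩
      rw [← map_pow, ha.2.2, map_one]) cX (conj_mem_cj k⁻¹ (x := g * s * g⁻¹) ⟨e0 ▸ h.mem_PQ.2 ⟨x, hx, u, rfl⟩, by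
      rw [conj_mul, conj_mul, (mem_C' h.toInv).1 (f.T_syl.le sT)], by rw [← p4, w2, mul_one]⟩)
  refine pair (k := k⁻¹ * g) ((mem_C' h.toInv).2 ?_) sT st (inV (by simpa [mul_assoc] using hw) (cj_sq _ s2))
  calc _ = k⁻¹ * (g * t * g⁻¹) * g := by group
    _ = _ := by rw [← e2]; group

theorem sc (o : Out K t) (hp : ⁅K, K⁆ = K) (hT : ∀ x ∈ P, ∀ u, f.TC (t * (x * f.j u)) → x * f.j u ∈ B) : SCl G := by
  refine Ab.sc (P := P) (m := m) ⟨h.toInv, o, hab, h.VB.trans h.BP, h.PQ, TN h, PK h o, syl h hab hT, h.cen,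
    fun x hx u e => ?_, fun g s a1 a2 a3 a4 a5 _ x hx u => sigm h hab o g s a1 a2 a3 a4 a5 hx u, fun x hx => ?_,
    fun u v hv => ?_⟩ hp
  · obtain ⟨p, hp, e1⟩ := h.onto _ (hT x hx u e)
    exact ⟨p, hp, by rw [← e1, ← mul_assoc, t_sq h.toInv, one_mul]⟩
  · rw [pow_succ', pow_mul, pow_two]; exact h.exp _ (h.sq_B hx)
  · rcases m with _ | m
    · obtain ⟨r, r1, r2⟩ := rt_zero u hv
      exact ⟨1, one_mem _, r, r1, by rwa [one_mul]⟩
    · obtain ⟨b, hb, rfl⟩ := h.sur v hv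
      obtain ⟨x, hx, rfl⟩ := h.onto b hb
      refine ⟨x⁻¹, inv_mem hx, 1, by simp [bl], ?_⟩
      rw [map_one, mul_one, pow_succ' 2 m, pow_mul (t * _), pow_two, show t * (x * t * x⁻¹) = γ t x from rfl,
        gam_sq h hab hx, ← pow_two, ← pow_two, ← pow_mul, ← pow_mul, pow_succ', pow_succ']

theorem step (o : Out K t) (hp : ⁅K, K⁆ = K) (h1 : ∀ x ∈ P, ∀ u : US σ, u.a ≠ 0 → ¬ f.TC (t * (x * f.j u))) :
    Lv f t (m + 1) P ∨ SCl G := by
  by_cases h2 : ∃ x ∈ P, x ∉ B ∧ f.TC (t * x)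
  · obtain ⟨x, hx, hB, hs⟩ := h2
    exact Or.inl (h.next hab hx hB hs)
  · refine Or.inr (sc h hab o hp fun x hx u hs => by_contra fun hB => h2 ⟨_, mul_mem hx ?_, hB, hs⟩)
    exact h.BP (h.VB (f.j_mem_V.2 (by_contra fun h0 => h1 x hx u h0 hs)))

omit h hab in
theorem tower (w : Two σ G) (ht : w.Inv t) (o : Out K t) (hp : ⁅K, K⁆ = K)
    (h : w.c = 0 → ∀ g ∈ normalizer (w.S : Set G), cj g w.A = w.A) : SCl G ∨ ∃ P y ξ κ, w.Top t P y ξ κ := by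
  by_contra hc
  rw [not_or] at hc
  have key : ∀ m, ∃ B, Lv w.toFr t m B := fun m => by
    induction m with
    | zero => exact ⟨_, lv_zero w ht⟩
    | succ m ih =>
      obtain ⟨B, hB⟩ := ih
      obtain ⟨P, hP⟩ := hB.exists_up
      rcases hP.cases with hab | ⟨y, ξ, κ, h1⟩
      · refine ⟨P, (step hP hab o hp fun x hx u hu => ?_).resolve_right hc.1⟩
        by_cases hm : m = 0
        · subst hm; exact not_TC0 w hP h hx hu
        · exact hP.not_TC' hab hm hx hu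
      · exact (hc.2 ⟨_, _, _, _, h1⟩).elim
  obtain ⟨B, hB⟩ := key (Nat.card G)
  obtain ⟨b, hb, e⟩ := hB.β_surj (map_one σ)
  have : Fact (Nat.Prime 2) := ⟨Nat.prime_two⟩
  have h1 : orderOf b = 2 ^ (Nat.card G + 1) := orderOf_eq_prime_pow
    (fun e1 => one_ne_zero (e.symm.trans ((hB.β_eq_zero hb).2 e1))) (hB.exp' hb)
  have h3 := Nat.le_of_dvd Nat.card_pos (h1 ▸ orderOf_dvd_natCard b)
  have h4 := Nat.lt_two_pow_self (n := Nat.card G + 1)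
  omega

end U0

theorem Fr.mid (f : Fr σ G) {K : Subgroup G} {t : G} (ht : f.Inv t) (o : Out K t) (hp : ⁅K, K⁆ = K) :
    SCl G ∨ (∃ P y ξ κ, f.Top t P y ξ κ) ∨ ∃ Y W a₁ a₂, f.Six t Y W a₁ a₂ ∧ Y ≤ K := by
  by_cases h : ∀ s ∈ f.A, f.TC s → s ∈ f.E
  · exact Or.inl (U0.sc_one ht o hp h)
  push Not at h
  obtain ⟨s, hs, h1, h2⟩ := h
  obtain ⟨w, rfl⟩ := f.exists_two hs h1 h2
  by_cases h : w.c = 0 → ∀ g ∈ normalizer (w.S : Set G), cj g w.A = w.A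
  · exact (U0.tower w ht o hp h).imp_right Or.inl
  push Not at h
  obtain ⟨hc, g, hg, hA⟩ := h
  refine Or.inr (Or.inr (w.exists_six' hc hg (w.char_P0 hc (fun e => ?_) hg) hA ht o))
  have := w.four_le
  rw [w.inv_iff.2 ⟨t, ht⟩] at e
  omega

end Cfsg.Agent.WA.Lk
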