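import Cfsg.Agent.WA.UkA0

/-! Module UkMid, first part: an abelian top gives a strongly closed subgroup. -/

set_option autoImplicit false
set_option linter.unusedSectionVars false

namespace Cfsg.Agent.WA.Lk.U0

open Subgroup Cfsg.Agent.H1.U3 Cfsg.Agent.H8

variable {F : Type*} [Field F] [Finite F] {σ : F →+* F} [Ctx σ] {G : Type*} [Group G] [Finite G]
  {f : Fr σ G} {K P X : Subgroup G} {t x a s k : G} {m : ℕ}

theorem cj_sq (g : G) (h : s * s = 1) : g * s * g⁻¹ * (g * s * g⁻¹) = 1 := by rw [conj_mul, h]; simp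

theorem pair (hk : k ∈ f.C) (hs : s ∈ f.T) (h : f.tt s = sigAut σ) (e : k * s * k⁻¹ ∈ f.V) : False := by
  have := f.conj_V_mem (inv_mem hk) e (by simpa [mul_assoc] using hs)
  rw [show k⁻¹ * (k * s * k⁻¹) * k⁻¹⁻¹ = s by group] at this
  exact sig_ne_one (h.symm.trans (f.ct_cen (f.V_cen_Q this)).2)

theorem abQ (ht : f.Inv t) (o : Out K t) (hX : X ≤ f.T) (hK : X ≤ K) (hab : ∀ x ∈ X, ∀ y ∈ X, x * y = y * x)
    (h4 : ∀ x ∈ X, x ^ 4 = 1) (hc : f.q ^ 2 ≤ Nat.card X) (hx : x ∈ X) : x ∈ f.Q := by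
  classical
  refine inQ ht o ((f.mem_T1_iff (hX hx)).2 ?_) (hK hx)
  by_contra h1
  obtain ⟨k, hk⟩ := f.exists_sig (hX hx) h1
  have hy := pow_mem hx k
  generalize x ^ k = y at hk hy
  have y2 : y * y = 1 := f.sig_sq (f.T_le_D (hX hy)) hk (inV (inQ ht o (f.sig_sq_mem (hX hy) hk) (o.sq y)) (by
    rw [← h4 y hy, ← pow_two, ← pow_two, ← pow_mul]))
  have hV : f.T1 ⊓ X ≤ f.V := fun z hz => inV (inQ ht o hz.1 (hK hz.2)) (f.A_sq ((f.ta_eq_zero hz.1).1 (by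
    have := f.sig_comm (hX hy) hk hz.1 (hab y hy z hz.2)
    rwa [y2, (f.ta_eq_zero (one_mem _)).2 (one_mem _), Set.pair_eq_singleton] at this)))
  have q4 := f.four_le
  rw [← H9.card_inf_mul_relIndex f.T1] at hc
  by_cases h2 : ∀ x ∈ X, f.tt x = 1 ∨ f.tt x = sigAut σ
  · have := hc.trans (Nat.mul_le_mul (f.card_V ▸ card_le_of_le hV) (f.relIndex_le_two hX h2))
    nlinarith
  push Not at h2
  obtain ⟨z, hz, h2⟩ := h2
  have c1 : 2 * Nat.card ↥(f.T1 ⊓ X) ≤ f.q := by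
    have e := H9.card_mul_relIndex hV
    have e1 : (f.T1 ⊓ X).relIndex f.V ≠ 1 := fun e1 =>
      (f.tt_of_cen_V (f.T_N (hX hz)) fun v hv => hab v (relIndex_eq_one.1 e1 hv).2 z hz).2.elim h2.1 h2.2
    have e2 : (f.T1 ⊓ X).relIndex f.V ≠ 0 := index_ne_zero_of_finite
    rw [f.card_V] at e
    obtain ⟨r, hr⟩ : ∃ r, (f.T1 ⊓ X).relIndex f.V = r + 2 := ⟨(f.T1 ⊓ X).relIndex f.V - 2, by omega⟩
    rw [hr] at e
    nlinarith
  have c2 : f.T1.relIndex X ≤ 4 := by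
    have := charP_two σ
    have := isCyclic_ringAut (F := F)
    have := Fintype.ofFinite (RingAut F)
    rw [f.relIndex_T1 hX]
    refine le_trans (Set.ncard_le_ncard (s := ((f.ttH hX).range : Set (RingAut F)))
      (t := ↑(Finset.univ.filter fun a : RingAut F => a ^ 4 = 1)) ?_)
      (by rw [Set.ncard_coe_finset]; exact IsCyclic.card_pow_eq_one_le (by norm_num))
    rintro _ ⟨x, rfl⟩
    simp only [Finset.coe_filter, Finset.mem_univ, true_and, Set.mem_setOf_eq]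
    rw [← map_pow, show x ^ 4 = 1 from Subtype.ext (h4 x x.2), map_one]
  have := hc.trans (Nat.mul_le_mul_left _ c2)
  nlinarith

/-- an abelian top `P`; `P T` is a Sylow 2-subgroup -/
structure Ab (f : Fr σ G) (t : G) (K P : Subgroup G) (m : ℕ) : Prop extends f.Inv t where
  o : Out K t
  ab : ∀ a ∈ P, ∀ b ∈ P, a * b = b * a
  VP : f.V ≤ P
  PQ : P ≤ centralizer (f.Q : Set G)
  TN : f.T ≤ normalizer (P : Set G)
  PK : P ≤ K
  syl : IsSylowIn 2 (P ⊔ f.T) ⊤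
  cen : ∀ x ∈ P, x * t = t * x → x ∈ f.V
  tc : ∀ x ∈ P, ∀ u, f.TC (t * (x * f.j u)) → ∃ p ∈ P, p * t * p⁻¹ = t * (x * f.j u)
  sig : ∀ g s, s ∈ f.T → s * s = 1 → f.tt s = sigAut σ → g * t * g⁻¹ ∈ P ⊔ f.T → f.tt (g * t * g⁻¹) = sigAut σ →
    (∀ v ∈ f.V, g * v * g⁻¹ ∈ P ⊔ f.T) → ∀ x ∈ P, ∀ u, x * f.j u ≠ g * s * g⁻¹
  pw : ∀ x ∈ P, x ^ 2 ^ (m + 1) ∈ f.V
  rt : ∀ u : US σ, ∀ v ∈ f.V, ∃ z ∈ P, ∃ r : US σ, bl σ u.a r.a = 0 ∧ (z * f.j r) ^ 2 ^ (m + 1) = v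

namespace Ab

variable (h : Ab f t K P m)
include h

theorem pq (hx : x ∈ P) (u : US σ) : Commute x (f.j u) := (h.PQ hx _ ⟨u, rfl⟩).symm

theorem RN : P ⊔ f.T ≤ normalizer (f.Q : Set G) := sup_le (h.PQ.trans (centralizer_le_normalizer _)) f.T_N

theorem dec (ha : a ∈ P ⊔ f.T) (hK : a ∈ K) : ∃ p ∈ P, ∃ y ∈ f.T, y ∈ K ∧ f.tt y = f.tt a ∧ p * y = a := by
  obtain ⟨p, hp, y, hy, rfl⟩ := (H5.mem_sup_of_le_normalizer_left h.TN).1 ha
  exact ⟨p, hp, y, hy, (mul_mem_cancel_left (h.PK hp)).1 hK, by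
    rw [f.tt_mul (h.RN (mem_sup_left hp)) (f.T_N hy), (f.ct_cen (h.PQ hp)).2, one_mul], rfl⟩

theorem ker (ha : a ∈ P ⊔ f.T) (hK : a ∈ K) (h1 : f.tt a = 1) : ∃ x ∈ P, ∃ u, x * f.j u = a := by
  obtain ⟨p, hp, y, hy, yK, e, rfl⟩ := h.dec ha hK
  obtain ⟨u, rfl⟩ := inQ h.toInv h.o ((f.mem_T1_iff hy).2 (e.trans h1)) yK
  exact ⟨p, hp, u, rfl⟩

theorem noSig (hp : ⁅K, K⁆ = K) (hx : x ∈ f.T) (hK : x ∈ K) : f.tt x = 1 := by
  by_contra h1
  obtain ⟨s, sT, sK, s2, st⟩ := exists_inv h.toInv h.o hx hK h1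
  have tT := f.E_le_T h.tE
  have t2 := f.E_sq t h.tE
  have ts : ∀ a ∈ f.T, a * t = t * a := fun a ha => (f.mem_C h.tE h.t1).1 (f.T_syl.le ha)
  have sV := (f.nm_cc_of_sig (f.T_N sT) st (by rw [s2, f.ct_one.1])).2
  obtain ⟨g, hw, w1, hC⟩ := cyc_transfer h.syl (ringAut_comm σ) f.tt (fun a ha b hb => f.tt_mul (h.RN ha) (h.RN hb))
    s2 (le_comm hp sK) sig_ne_one (fun g hg => f.tt_cases (h.RN hg) (by rw [cj_sq g s2, f.ct_one.2]))
    (C := f.T ⊓ centralizer {s}) (f.T_syl.pgroup.to_le inf_le_left) inf_le_right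
  have t1 := hC (conj_mem_cj g ⟨tT, mem_centralizer_singleton_iff.2 (ts s sT).symm⟩)
  have tc := f.TC_conj (f.TC_E h.tE h.t1) g
  obtain ⟨x, hx, u, e⟩ := h.ker hw (h.o.conj g sK) w1
  rcases f.tt_cases (h.RN t1) (by rw [cj_sq g t2, f.ct_one.2]) with c | c
  swap
  · exact h.sig g s sT s2 st t1 c (fun v hv => hC (conj_mem_cj g ⟨f.T1_le_T (f.A_le_T1 (mem_sup_right hv)),
      mem_centralizer_singleton_iff.2 (sV v hv)⟩)) x hx u e
  obtain ⟨x', hx', u', e'⟩ := h.ker (mul_mem (mem_sup_right tT) t1) (h.o.mul h.o.tn (h.o.not_TC h.toInv tc)) (by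
    rw [f.tt_mul (f.T_N tT) (h.RN t1), c, (f.ct_cen (f.E_cen_Q h.tE)).2, one_mul])
  have e1 : t * (x' * f.j u') = g * t * g⁻¹ := by rw [e', ← mul_assoc, t2, one_mul]
  obtain ⟨p, hp, e2⟩ := h.tc x' hx' u' (e1 ▸ tc)
  have kC : p⁻¹ * g ∈ f.C := (f.mem_C h.tE h.t1).2 (by
    calc _ = p⁻¹ * (g * t * g⁻¹) * g := by group
      _ = _ := by rw [← e1, ← e2]; group)
  have e3 : p⁻¹ * g * s * (p⁻¹ * g)⁻¹ = x * f.j u := by
    calc _ = p⁻¹ * (g * s * g⁻¹ * p) := by group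
      _ = _ := by rw [← e, ← (Commute.mul_right (h.ab p hp x hx) (h.pq hp u)).eq]; group
  have xC : x ∈ f.C := (mul_mem_cancel_right (f.Q_le_C ⟨u, rfl⟩)).1
    (e3 ▸ mul_mem (mul_mem kC (f.T_syl.le sT)) (inv_mem kC))
  refine pair kC sT st (inV ?_ (cj_sq _ s2))
  rw [e3]
  exact mul_mem (f.V_le_Q (h.cen x hx ((f.mem_C h.tE h.t1).1 xC))) ⟨u, rfl⟩

theorem sc (hp : ⁅K, K⁆ = K) : SCl G := by
  have : Fact (Nat.Prime 2) := ⟨Nat.prime_two⟩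
  have RK : ∀ a ∈ P ⊔ f.T, a ∈ K → ∃ x ∈ P, ∃ u, x * f.j u = a := fun a ha hK => by
    obtain ⟨p, -, y, hy, yK, e, -⟩ := h.dec ha hK
    exact h.ker ha hK (e.symm.trans (h.noSig hp hy yK))
  have tV : t ∈ centralizer (f.V : Set G) := centralizer_le f.V_le_Q (f.E_cen_Q h.tE)
  have RV : P ⊔ f.T ≤ centralizer (f.V : Set G) := fun a ha => by
    have key : ∀ a ∈ P ⊔ f.T, a ∈ K → a ∈ centralizer (f.V : Set G) := fun a ha hK => by
      obtain ⟨x, hx, u, rfl⟩ := RK a ha hK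
      exact mul_mem (centralizer_le f.V_le_Q (h.PQ hx)) (f.T1_cen_V (mem_sup_right ⟨u, rfl⟩))
    exact (h.o.cov a).elim (key a ha) fun e =>
      (mul_mem_cancel_left tV).1 (key _ (mul_mem (mem_sup_right (f.E_le_T h.tE)) ha) e)
  refine sc_of h.syl (h.VP.trans le_sup_left) (fun e => ?_) (fun x hx => f.V_sq hx) fun x hx g hs => ?_
  · obtain ⟨v, hv, v1, -⟩ := f.exists_two_V
    exact v1 (mem_bot.1 (e ▸ hv))
  obtain ⟨k, k1, k2⟩ := H9.exists_extremal_conj' (p := 2) (T := P ⊔ f.T) (z := x) (b := g * x * g⁻¹) (g := g)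
    ((h.syl.of_le (fun a ha => mem_centralizer_singleton_iff.2 (RV ha x hx).symm) le_top).not_dvd_relIndex)
    (by group) (R := (P ⊔ f.T) ⊓ centralizer {g * x * g⁻¹}) (h.syl.pgroup.to_le inf_le_left)
    fun r hr => mem_centralizer_singleton_iff.1 hr.2
  obtain ⟨y, hy, u, e⟩ := RK _ hs (h.o.conj g (h.o.V_le f hx))
  have kN : k⁻¹ ∈ normalizer (f.V : Set G) := H9.mem_normalizer_of_conj_mem fun v hv => by
    obtain ⟨z, hz, r, r0, rfl⟩ := h.rt u v hv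
    have c : Commute (f.j r) (f.j u) := by
      have := f.j_cm u r
      rw [r0, f.vv_zero, mul_inv_eq_one, mul_inv_eq_iff_eq_mul] at this
      exact this.symm
    obtain ⟨z', hz', r', e'⟩ := RK _ (k2 (z * f.j r) ⟨mul_mem (mem_sup_left hz) (mem_sup_right (f.jT r)),
      mem_centralizer_singleton_iff.2 (e ▸ Commute.mul_left (Commute.mul_right (h.ab z hz y hy) (h.pq hz u))
        (Commute.mul_right (h.pq hy r).symm c))⟩)
      (by simpa using h.o.conj k⁻¹ (mul_mem (h.PK hz) (h.o.jK f r)))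
    rw [← conj_pow, inv_inv, ← e', (h.pq hz' r').mul_pow, pow_succ' 2 m, pow_mul (f.j r'), pow_two, f.j_sq, ← pow_succ']
    exact mul_mem (h.pw z' hz') (pow_mem (f.vv_mem _) _)
  have := H9.conj_mem_of_mem_normalizer' kN hx
  rwa [← k1, show k⁻¹⁻¹ * (k⁻¹ * (g * x * g⁻¹) * k) * k⁻¹ = g * x * g⁻¹ by group] at this

end Ab

theorem rt_zero (u : US σ) {v : G} (hv : v ∈ f.V) : ∃ r : US σ, bl σ u.a r.a = 0 ∧ f.j r ^ 2 ^ (0 + 1) = v := by
  obtain ⟨c, hc, rfl⟩ := f.mem_V.1 hv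
  obtain ⟨a, a0, ha⟩ : ∃ a : F, a ≠ 0 ∧ bl σ u.a a = 0 := by
    by_cases e : u.a = 0
    · exact ⟨1, one_ne_zero, by simp [bl, e]⟩
    · exact ⟨u.a, e, by unfold bl; linear_combination σ u.a * u.a * two σ⟩
  obtain ⟨l, hl, e⟩ := exists_sqrt (σ := σ) (x := c / nm σ a) (by rw [map_div₀, hc, nm_fixed])
  refine ⟨lift σ (l * a), ?_, ?_⟩
  · rw [lift_a]; unfold bl at ha ⊢; rw [map_mul, hl]; linear_combination l * ha
  · rw [zero_add, pow_one, pow_two, f.j_sq, lift_a, ← div_mul_cancel₀ c (mt (nm_eq_zero (σ := σ)).1 a0), ← e]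
    congr 1
    simp only [nm, map_mul, hl]; ring

theorem sc_one (ht : f.Inv t) (o : Out K t) (hp : ⁅K, K⁆ = K) (h : ∀ s ∈ f.A, f.TC s → s ∈ f.E) : SCl G := by
  have : Fact (Nat.Prime 2) := ⟨Nat.prime_two⟩
  have VT : f.V ≤ f.T := le_sup_right.trans (f.A_le_T1.trans f.T1_le_T)
  have tc := f.TC_conj (f.TC_E ht.tE ht.t1)
  have t2 := f.E_sq t ht.tE
  have key : ∀ s ∈ f.T, f.TC s → f.tt s = 1 → s = t := fun s hs h1 h2 =>
    (ht.E2 s (h s (f.mem_A_of_sq ((f.mem_T1_iff hs).2 h2) (f.TC_sq h1)) h1)).resolve_left fun e =>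
      o.not_TC ht h1 (e ▸ one_mem _)
  have hT : IsSylowIn 2 f.T ⊤ := IsSylowIn.of_normalizer le_top
    ⟨le_inf le_top le_normalizer, f.T_syl.pgroup, fun X h1 h2 h3 => f.T_syl.max X (fun x hx => by
      refine (f.mem_C ht.tE ht.t1).2 (mul_inv_eq_iff_eq_mul.1 (key _
        (H9.conj_mem_of_mem_normalizer (h1 hx).2 (f.E_le_T ht.tE)) (tc x) (f.ct_cen ?_).2))
      rintro _ ⟨u, rfl⟩
      have := f.T_syl.le (H9.conj_mem_of_mem_normalizer' (h1 hx).2 (f.jT u)) t ht.tE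
      calc _ = x * (x⁻¹ * f.j u * x * t) * x⁻¹ := by group
        _ = _ := by rw [← this]; group) h2 h3⟩
  refine Ab.sc (P := f.V) (m := 0) ⟨ht, o, fun a ha b hb => f.V_cen_Q hb a (f.V_le_Q ha), le_rfl, f.V_cen_Q,
    f.T_N.trans f.NQ_le_NV, o.V_le f, by rwa [sup_eq_right.2 VT], fun x hx _ => hx, fun x hx u e => ⟨1, one_mem _, ?_⟩,
    fun g s _ _ _ h1 h2 h3 _ _ _ _ => ?_, fun x hx => pow_mem hx _,
    fun u v hv => let ⟨r, r1, r2⟩ := rt_zero u hv; ⟨1, one_mem _, r, r1, by rwa [one_mul]⟩⟩ hp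
  · have m := mul_mem (mem_sup_left (T := f.Q) ht.tE) (mem_sup_right (mul_mem (f.V_le_Q hx) ⟨u, rfl⟩))
    rw [key _ (f.T1_le_T m) e (f.ct_T1 m).2]; group
  rw [sup_eq_right.2 VT] at h1 h3
  have sg : ∀ v ∈ f.V, v ≠ 1 → f.tt (g * v * g⁻¹) = sigAut σ := fun v hv v1 =>
    (f.tt_cases (f.T_N (h3 v hv)) (by rw [cj_sq g (f.V_sq hv), f.ct_one.2])).resolve_left fun e => by
      obtain ⟨u, hu⟩ := f.sig_conj (f.T_N h1) h2 (by rw [cj_sq g t2]; exact one_mem _) (inV (inQ ht o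
        ((f.mem_T1_iff (h3 v hv)).2 e) (o.conj g (o.V_le f hv))) (cj_sq g (f.V_sq hv)))
      have c := f.TC_conj (f.TC_conj (tc g) (f.j u)) g⁻¹
      rw [hu, show g⁻¹ * (g * t * g⁻¹ * (g * v * g⁻¹)) * g⁻¹⁻¹ = t * v by group] at c
      have m := f.A_le_T1 (mul_mem (mem_sup_left ht.tE) (mem_sup_right hv))
      exact v1 (mul_eq_left.1 (key _ (f.T1_le_T m) c (f.ct_T1 m).2))
  obtain ⟨a, ha, a1, b, hb, b1, ab⟩ := f.exists_two_V
  have := sg _ (mul_mem ha hb) ab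
  rw [← conj_mul, f.tt_mul (f.T_N (h3 a ha)) (f.T_N (h3 b hb)), sg a ha a1, sg b hb b1, sig_mul_sig] at this
  exact sig_ne_one this.symm

end Cfsg.Agent.WA.Lk.U0
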