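import Cfsg.Agent.WA.Lk3b
import Cfsg.Agent.WA.UkMid1

/-! The storey of order `q ^ 6`: the action of a Sylow 2-subgroup of `N(Y)` on `Y / W` is faithful modulo `Y`. -/

set_option autoImplicit false
set_option linter.unusedSectionVars false

namespace Cfsg.Agent.WA.Lk.U4

open Subgroup Cfsg.Agent.H1.U3 Cfsg.Agent.H8 X1 X3b

variable {F : Type*} [Field F] [Finite F] {σ : F →+* F} [Ctx σ] {G : Type*} [Group G] [Finite G]
  {f : Fr σ G} {t : G} {Y W R : Subgroup G} {a₁ a₂ : G → F} (h : f.Six t Y W a₁ a₂)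
include h

theorem exR : ∃ R, IsSylowIn 2 R ⊤ ∧ R ≤ normalizer (Y : Set G) ∧ f.T ≤ R ∧ Y ≤ R := by
  obtain ⟨R, hR, hT⟩ := exists_isSylowIn_ge f.T_syl.pgroup h.TN
  have hY : Y ≤ R := hR.le_of_le_normalizer h.pg le_normalizer hR.le
  exact ⟨R, IsSylowIn.of_normalizer le_top (hR.of_le (le_inf le_top le_normalizer)
    fun g hg => Y_fix h hR.pgroup hR.le hT hY hg.2), hR.le, hT, hY⟩

theorem wd {x p p' : G} (hx : x ∈ normalizer (Y : Set G)) (m : Mp Y a₁ a₁ x) (hp : p ∈ Y) (hp' : p' ∈ Y)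
    (e : a₁ p = a₁ p') : a₁ (x * p * x⁻¹) = a₁ (x * p' * x⁻¹) := by
  have := m _ (mul_mem (inv_mem hp) hp') (by rw [h.a₁_mul _ (inv_mem hp) _ hp', a_inv h hp, e, aa σ])
  rw [show x * (p⁻¹ * p') * x⁻¹ = (x * p * x⁻¹)⁻¹ * (x * p' * x⁻¹) by group,
    h.a₁_mul _ (inv_mem (cjY hx hp)) _ (cjY hx hp'), a_inv h (cjY hx hp)] at this
  exact (add0 σ).1 this

theorem c_one {x : G} {c : F} {k : ℕ} (hx : x ∈ normalizer (Y : Set G)) (hk : x ^ 2 ^ k = 1)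
    (e : ∀ y ∈ Y, a₁ (x * y * x⁻¹) = c * a₁ y) : c = 1 := by
  obtain ⟨p, hp, p1, -⟩ := h.surj 1 0
  have it : ∀ n : ℕ, a₁ (x ^ n * p * (x ^ n)⁻¹) = c ^ n := fun n => by
    induction n with
    | zero => simp [p1]
    | succ n ih =>
      rw [pow_succ', show x * x ^ n * p * (x * x ^ n)⁻¹ = x * (x ^ n * p * (x ^ n)⁻¹) * x⁻¹ by group,
        e _ (cjY (pow_mem hx n) hp), ih, pow_succ']
  have := it (2 ^ k)
  rw [hk, one_mul, inv_one, mul_one, p1] at this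
  exact eq_one_of_pow_two_pow σ this.symm

theorem kerY (hR : IsPGroup 2 R) (hN : R ≤ normalizer (Y : Set G)) (hT : f.T ≤ R) (hY : Y ≤ R) {x : G} (hx : x ∈ R)
    {c₁ c₂ : F} (e1 : ∀ y ∈ Y, a₁ (x * y * x⁻¹) = c₁ * a₁ y) (e2 : ∀ y ∈ Y, a₂ (x * y * x⁻¹) = c₂ * a₂ y) : x ∈ Y := by
  obtain ⟨k, hk⟩ := hR ⟨x, hx⟩
  replace hk : x ^ 2 ^ k = 1 := congrArg Subtype.val hk
  rw [c_one h (hN hx) hk e1] at e1
  rw [c_one (symm h) (hN hx) hk e2] at e2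
  let K : Subgroup G :=
    { carrier := {x | x ∈ R ∧ ∀ y ∈ Y, y⁻¹ * (x * y * x⁻¹) ∈ W}
      one_mem' := ⟨R.one_mem, fun y _ => by simp⟩
      mul_mem' := fun {a b} ha hb => ⟨mul_mem ha.1 hb.1, fun y hy => by
        rw [show y⁻¹ * (a * b * y * (a * b)⁻¹) = y⁻¹ * (a * y * a⁻¹) * (a * (y⁻¹ * (b * y * b⁻¹)) * a⁻¹) by group]
        exact mul_mem (ha.2 y hy) (cjW h (hN ha.1) (hb.2 y hy))⟩
      inv_mem' := fun {a} ha => ⟨inv_mem ha.1, fun y hy => by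
        have := inv_mem (ha.2 _ (cjY (inv_mem (hN ha.1)) hy))
        rwa [show ((a⁻¹ * y * a⁻¹⁻¹)⁻¹ * (a * (a⁻¹ * y * a⁻¹⁻¹) * a⁻¹))⁻¹ = y⁻¹ * (a⁻¹ * y * a⁻¹⁻¹) by group] at this⟩ }
  have hK : K ≤ Y := by
    by_contra hle
    obtain ⟨y, hy, x, hx, hz, hxY⟩ := cent h hR hN hT hY (K := K) (fun _ e => e.1) (fun g hg => mem_normalizer_of_cj_le (by
      rintro _ ⟨a, ha, rfl⟩
      refine ⟨mul_mem (mul_mem hg ha.1) (inv_mem hg), fun y hy => ?_⟩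
      have := cjW h (hN hg) (ha.2 _ (cjY (inv_mem (hN hg)) hy))
      convert this using 1
      simp only [MulEquiv.coe_toMonoidHom, MulAut.conj_apply]; group)) hle
    have key : ∀ p ∈ Y, a₁ (x * p * x⁻¹) = a₁ p := fun p hp => by
      have := a_W h (hz.2 p hp)
      rw [h.a₁_mul _ (inv_mem hp) _ (cjY (hN hz.1) hp), a_inv h hp, a_mul_conj h hy (h.TN hx) hp] at this
      exact ((add0 σ).1 this).symm
    have e := (f.ct_unique (g := x) (c := 1) (τ := 1) fun u => by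
      have := key _ (h.jY u)
      rw [f.conj_j (f.T_N hx), h.a₁_j, h.a₁_j] at this
      rw [this, one_mul]; rfl).2
    obtain ⟨p, hp, p1, p2⟩ := h.surj 1 0
    exact one_ne_zero (p1.symm.trans ((key p hp).symm.trans ((tri h hx e hxY hp).trans p2)))
  exact hK ⟨hx, fun y hy => divW h hy (cjY (hN hx) hy) (by rw [e1 y hy, one_mul]) (by rw [e2 y hy, one_mul])⟩

theorem t_conj {x y : G} (hx : x ∈ normalizer (Y : Set G)) (hy : y ∈ Y) :
    a₁ (t * x * y * (t * x)⁻¹) = a₂ (x * y * x⁻¹) := by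
  rw [← h.swap _ (cjY hx hy), mul_inv_rev, tinv h]; congr 1; group

end Cfsg.Agent.WA.Lk.U4
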