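import Cfsg.Agent.WA.UkSix1

/-! Module UkSixN: the non-split storey of order `q ^ 6` is a Sylow 2-subgroup of `K`. -/

set_option autoImplicit false
set_option linter.unusedSectionVars false

namespace Cfsg.Agent.WA.Lk

open Subgroup Cfsg.Agent.H1.U3 Cfsg.Agent.H8 X1 X3b

variable {F : Type*} [Field F] [Finite F] {σ : F →+* F} [Ctx σ] {G : Type*} [Group G] [Finite G]

namespace U4

theorem iso (A B : F → F) (add : ∀ a b, A (a + b) = A a + A b) (n : A 1 * σ (B 1) ≠ 0)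
    (key : ∀ a b a' b', a * σ b = a' * σ b' → A a * σ (B b) = A a' * σ (B b')) :
    ∃ θ : RingAut F, ∀ a, A a = A 1 * θ a ∧ B a = B 1 * θ a := by
  have n1 := left_ne_zero_of_mul n
  have n2 := right_ne_zero_of_mul n
  have k1 : ∀ b, A b * σ (B 1) = A 1 * σ (B (σ b)) := fun b => key _ _ _ _ (by rw [map_one, invol, mul_comm])
  have k2 : ∀ a b, A (a * b) * A 1 = A a * A b := fun a b => mul_right_cancel₀ n2 (by
    have := key (a * b) 1 a (σ b) (by rw [map_one, invol, mul_one])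
    linear_combination A 1 * this - A a * k1 b)
  let τ0 : F →+* F :=
    { toFun := fun a => A a / A 1
      map_one' := div_self n1
      map_mul' := fun a b => by field_simp; exact k2 a b
      map_zero' := by rw [left_eq_add.1 ((congrArg A (add_zero 0)).symm.trans (add 0 0)), zero_div]
      map_add' := fun a b => by rw [add, add_div] }
  let θ : RingAut F := RingEquiv.ofBijective τ0 (Finite.injective_iff_bijective.mp τ0.injective)
  have e : ∀ a, A a = A 1 * θ a := fun a => (mul_div_cancel₀ _ n1).symm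
  clear_value θ τ0
  refine ⟨θ, fun a => ⟨e a, σ.injective (mul_left_cancel₀ n1 ?_)⟩⟩
  have c : θ (σ a) = σ (θ a) := congrArg (fun φ : RingAut F => φ a) (U0.ringAut_comm σ θ (sigAut σ))
  have := k1 (σ a)
  rw [invol, e, c] at this
  rw [← this, map_mul]; ring

/-- `x` acts on `Y / W` semilinearly -/
def Sm (Y : Subgroup G) (a₁ a₂ b₁ b₂ : G → F) (x : G) (θ : RingAut F) : Prop :=
  ∃ c₁ c₂ : F, ∀ y ∈ Y, a₁ (x * y * x⁻¹) = c₁ * θ (b₁ y) ∧ a₂ (x * y * x⁻¹) = c₂ * θ (b₂ y)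

/-- the action on the product of the coordinates -/
def Pr (Y : Subgroup G) (a₁ a₂ : G → F) (x : G) (θ : RingAut F) : Prop :=
  ∃ c : F, ∀ y ∈ Y, a₁ (x * y * x⁻¹) * a₂ (x * y * x⁻¹) = c * θ (a₁ y * a₂ y)

variable {f : Fr σ G} {t : G} {Y W R : Subgroup G} {a₁ a₂ w : G → F} {x x' : G} {θ θ' : RingAut F}

theorem Pr.mul (hx : x' ∈ normalizer (Y : Set G)) (p : Pr Y a₁ a₂ x θ) (p' : Pr Y a₁ a₂ x' θ') :
    Pr Y a₁ a₂ (x * x') (θ * θ') := by
  obtain ⟨c, e⟩ := p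
  obtain ⟨c', e'⟩ := p'
  refine ⟨c * θ c', fun y hy => ?_⟩
  rw [show x * x' * y * (x * x')⁻¹ = x * (x' * y * x'⁻¹) * x⁻¹ by group, e _ (cjY hx hy), e' y hy, map_mul, mul_assoc]
  rfl

theorem Sm.pr (s : Sm Y a₁ a₂ a₁ a₂ x θ ∨ Sm Y a₁ a₂ a₂ a₁ x θ) : Pr Y a₁ a₂ x θ := by
  rcases s with ⟨c₁, c₂, e⟩ | ⟨c₁, c₂, e⟩ <;>
    exact ⟨c₁ * c₂, fun y hy => by rw [(e y hy).1, (e y hy).2, map_mul]; ring⟩

variable (h : f.Six t Y W a₁ a₂) (k : Ns σ Y W a₁ a₂ w)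
include h k

theorem Pr.uniq (hx : x ∈ normalizer (Y : Set G)) (p : Pr Y a₁ a₂ x θ) (p' : Pr Y a₁ a₂ x θ') : θ = θ' := by
  obtain ⟨c, e⟩ := p
  obtain ⟨c', e'⟩ := p'
  have e1 : ∀ a, c * θ a = c' * θ' a := fun a => by
    obtain ⟨y, hy, y1, y2⟩ := h.surj a 1
    have := (e y hy).symm.trans (e' y hy)
    rwa [y1, y2, mul_one] at this
  have c0 : c ≠ 0 := fun c0 => by
    obtain ⟨y, hy, y1, y2⟩ := h.surj 1 1
    have := e y hy
    rw [c0, zero_mul, mul_eq_zero, ← k.sq_iff h (cjY hx hy), conj_mul, conj_eq_one_iff, k.sq_iff h hy, y1, y2] at this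
    simp at this
  have e2 : c = c' := by simpa using e1 1
  exact RingEquiv.ext fun a => mul_left_cancel₀ c0 (by rw [e1, e2])

theorem semi (hx : x ∈ normalizer (Y : Set G)) (m1 : Mp Y a₁ a₁ x) (m2 : Mp Y a₂ a₂ x) : ∃ θ, Sm Y a₁ a₂ a₁ a₂ x θ := by
  choose e eY e1 e2 using h.surj
  have w1 : ∀ p ∈ Y, a₁ (x * p * x⁻¹) = a₁ (x * e (a₁ p) 0 * x⁻¹) := fun p hp => wd h hx m1 hp (eY _ _) (e1 _ _).symm
  have w2 : ∀ p ∈ Y, a₂ (x * p * x⁻¹) = a₂ (x * e 0 (a₂ p) * x⁻¹) := fun p hp =>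
    wd (symm h) hx m2 hp (eY _ _) (e2 _ _).symm
  have sq : ∀ a b, a₁ (x * e a 0 * x⁻¹) * σ (a₂ (x * e 0 b * x⁻¹)) = w (x * (e a b * e a b) * x⁻¹) := fun a b => by
    rw [← conj_mul, k.sq _ (cjY hx (eY a b)), w1 _ (eY a b), w2 _ (eY a b), e1, e2]
  obtain ⟨θ, H⟩ := iso (σ := σ) (fun a => a₁ (x * e a 0 * x⁻¹)) (fun b => a₂ (x * e 0 b * x⁻¹)) (fun a b => by
      rw [← h.a₁_mul _ (cjY hx (eY _ _)) _ (cjY hx (eY _ _)), conj_mul, w1 _ (mul_mem (eY _ _) (eY _ _)),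
        h.a₁_mul _ (eY _ _) _ (eY _ _), e1, e1])
    (fun c => by
      have := k.inj _ (cjW h hx (sqW h (eY 1 1))) ((sq 1 1).symm.trans c)
      rw [conj_eq_one_iff, k.sq_iff h (eY 1 1), e1, e2] at this
      simp at this)
    fun a b a' b' c => by
      rw [sq, sq, k.ext (sqW h (eY a b)) (sqW h (eY a' b')) (by rw [k.sq _ (eY _ _), k.sq _ (eY _ _), e1, e1, e2, e2, c])]
  exact ⟨θ, _, _, fun y hy => ⟨(w1 y hy).trans (H _).1, (w2 y hy).trans (H _).2⟩⟩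

theorem semi' (hx : x ∈ normalizer (Y : Set G)) : ∃ θ, Sm Y a₁ a₂ a₁ a₂ x θ ∨ Sm Y a₁ a₂ a₂ a₁ x θ := by
  rcases pair h hx with m | m
  · exact (semi h k hx m.1 m.2).imp fun _ => Or.inl
  · have tN := h.TN (tT h)
    obtain ⟨θ, c₁, c₂, e⟩ := semi h k (mul_mem tN hx) (m.1.mul hx (mp_t h)) (m.2.mul hx (mp_t (symm h)))
    exact ⟨θ, Or.inr ⟨c₂, c₁, fun y hy => ⟨(t_conj (symm h) hx hy).symm.trans (e y hy).2,
      (t_conj h hx hy).symm.trans (e y hy).1⟩⟩⟩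

end U4

open U4 U0 in
/-- module UkSixN -/
theorem Fr.Six.syl {f : Fr σ G} {t : G} {Y W K : Subgroup G} {a₁ a₂ w : G → F}
    (h : f.Six t Y W a₁ a₂) (k : X3b.Ns σ Y W a₁ a₂ w) (o : Out K t) (hY : Y ≤ K) (hp : ⁅K, K⁆ = K) :
    IsSylowIn 2 Y K := by
  have : Fact (Nat.Prime 2) := ⟨Nat.prime_two⟩
  obtain ⟨R, hS, hN, hT, hYR⟩ := exR h
  have ex : ∀ x, ∃ θ, x ∈ normalizer (Y : Set G) → Sm Y a₁ a₂ a₁ a₂ x θ ∨ Sm Y a₁ a₂ a₂ a₁ x θ := fun x => by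
    by_cases hx : x ∈ normalizer (Y : Set G)
    · exact (semi' h k hx).imp fun _ e _ => e
    · exact ⟨1, fun e => absurd e hx⟩
  choose τ hτ using ex
  have hc := le_comm hp
  have tR := hT (tT h)
  have uq : ∀ x ∈ R, ∀ θ, Pr Y a₁ a₂ x θ → τ x = θ := fun x hx θ p => (Sm.pr (hτ x (hN hx))).uniq h k (hN hx) p
  have mul : ∀ a ∈ R, ∀ b ∈ R, τ (a * b) = τ a * τ b := fun a ha b hb =>
    uq _ (mul_mem ha hb) _ ((Sm.pr (hτ a (hN ha))).mul (hN hb) (Sm.pr (hτ b (hN hb))))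
  have τY : ∀ y ∈ Y, τ y = 1 := fun y hy => uq y (hYR hy) 1 ⟨1, fun p hp => by
    rw [a_conj h hy hp, a_conj (symm h) hy hp, one_mul]; rfl⟩
  have τT : ∀ x ∈ f.T, τ x = f.tt x := fun x hx => uq x (hT hx) _ (Sm.pr ((pair h (h.TN hx)).imp
    (fun m => ⟨_, _, fun y hy => ⟨act1 h hx m.1 hy, act1 (symm h) hx m.2 hy⟩⟩)
    fun m => ⟨_, _, fun y hy => ⟨act2 h hx m.2 hy, act2 (symm h) hx m.1 hy⟩⟩))
  have τt : τ t = 1 := (τT t (tT h)).trans (f.ct_cen (f.E_cen_Q h.tE)).2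
  have ker : ∀ x ∈ R, τ x = 1 → x ∈ Y ∨ t * x ∈ Y := fun x hx e => (hτ x (hN hx)).imp
    (fun ⟨_, _, c⟩ => kerY h hS.pgroup hN hT hYR hx (fun y hy => by rw [(c y hy).1, e]; rfl)
      fun y hy => by rw [(c y hy).2, e]; rfl)
    fun ⟨_, _, c⟩ => kerY h hS.pgroup hN hT hYR (mul_mem tR hx) (fun y hy => by rw [t_conj h (hN hx) hy, (c y hy).2, e]; rfl)
      fun y hy => by rw [t_conj (symm h) (hN hx) hy, (c y hy).1, e]; rfl
  have tc := f.TC_conj (f.TC_E h.tE h.t1)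
  have back : ∀ g, g * t * g⁻¹ ∈ R → τ (g * t * g⁻¹) = 1 → ∃ p ∈ Y, p⁻¹ * g ∈ f.C := fun g hg e => by
    obtain ⟨p, hp, e1⟩ := conj_t h ((ker _ hg e).resolve_left fun c => o.not_TC h.toInv (tc g) (hY c)) (by
      rw [← mul_assoc t t, t2 h, one_mul, cj_sq g (t2 h)])
    rw [← mul_assoc t t, t2 h, one_mul] at e1
    exact ⟨p, hp, (f.mem_C h.tE h.t1).2 (by
      calc p⁻¹ * g * t = p⁻¹ * (g * t * g⁻¹) * g := by group
        _ = _ := by rw [← e1]; group)⟩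
  have two : ∀ s ∈ R, s * s = 1 → τ s = 1 ∨ τ s = sigAut σ := fun s hs e =>
    eq_one_or_sig _ (by rw [pow_two, ← mul s hs s hs, e, τY 1 (one_mem _)])
  have main : R ⊓ K ≤ Y := fun x hx => by
    obtain ⟨p, hp, hC⟩ := back x (mul_mem (mul_mem hx.1 tR) (inv_mem hx.1)) (by
      rw [mul _ (mul_mem hx.1 tR) _ (inv_mem hx.1), mul _ hx.1 _ tR, τt, mul_one, ← mul _ hx.1 _ (inv_mem hx.1),
        mul_inv_cancel, τY 1 (one_mem _)])
    have xT : p⁻¹ * x ∈ f.T := (f.T_syl.max (R ⊓ f.C) inf_le_right hS.pgroup.to_inf_left (le_inf hT f.T_syl.le)).le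
      ⟨R.mul_mem (inv_mem (hYR hp)) hx.1, hC⟩
    have xK := mul_mem (inv_mem (hY hp)) hx.2
    refine (mul_mem_cancel_left (inv_mem hp)).1 ?_
    by_cases h1 : f.tt (p⁻¹ * x) = 1
    · obtain ⟨u, e⟩ := inQ h.toInv o ((f.mem_T1_iff xT).2 h1) xK
      exact e ▸ h.jY u
    exfalso
    obtain ⟨r, rT, rK, r2, rt⟩ := exists_inv h.toInv o xT xK h1
    have rC := f.T_syl.le rT
    obtain ⟨g, hw, w1, hC⟩ := cyc_transfer hS (ringAut_comm σ) τ mul r2 (hc rK) (sig_ne_one (σ := σ))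
      (fun g hg => two _ hg (cj_sq g r2)) (C := f.T ⊓ centralizer {r}) (f.T_syl.pgroup.to_le inf_le_left) inf_le_right
    have rt' : r * t = t * r := (f.mem_C h.tE h.t1).1 rC
    have sR := hC (conj_mem_cj g ⟨tT h, mem_centralizer_singleton_iff.2 rt'.symm⟩)
    have zY := (ker _ hw w1).resolve_right fun c => o.tn ((mul_mem_cancel_right (o.conj g rK)).1 (hY c))
    have s2 := cj_sq g (t2 h)
    have m := (pair h (hN sR)).resolve_left fun m => noTC h (tc g) (hN sR) m.1 m.2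
    have cz : g * t * g⁻¹ * (g * r * g⁻¹) * (g * t * g⁻¹)⁻¹ = g * r * g⁻¹ := by
      rw [conj_mul, ← rt']; group
    have zW : g * r * g⁻¹ ∈ W := (h.ker _ zY).2 (((k.sq_iff h zY).1 (cj_sq g r2)).elim
      (fun e => ⟨e, cz ▸ m.1 _ zY e⟩) fun e => ⟨cz ▸ m.2 _ zY e, e⟩)
    rcases two _ sR s2 with c | c
    · obtain ⟨p, hp, kC⟩ := back g sR c
      have e : p⁻¹ * g * r * (p⁻¹ * g)⁻¹ = g * r * g⁻¹ := by
        calc _ = p⁻¹ * (g * r * g⁻¹ * p) := by group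
          _ = _ := by rw [h.Wc _ zW p hp]; group
      refine U0.pair kC rT rt (inV (h.CY _ (e ▸ zY) ?_) (cj_sq _ r2))
      exact (f.mem_C h.tE h.t1).1 (mul_mem (mul_mem kC rC) (inv_mem kC))
    · have tc := tc g
      generalize g * t * g⁻¹ = s at c sR s2 m tc
      have sN := hN sR
      obtain ⟨c₁, c₂, e⟩ := (hτ s sN).resolve_left fun ⟨_, _, e⟩ =>
        not_both h sN (fun y hy y1 => by rw [(e y hy).1, y1, map_zero, mul_zero]) m.1
      simp only [c, sigAut_apply] at e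
      obtain ⟨p, hp, p1, -⟩ := h.surj 1 0
      have e1 := (e _ (cjY sN hp)).1
      rw [(e p hp).2, show s * (s * p * s⁻¹) * s⁻¹ = s * s * p * (s * s)⁻¹ by group, s2, one_mul, inv_one, mul_one, p1,
        map_one, mul_one] at e1
      have := big h tc s2 h.Wsq (fun v hv => by
        obtain ⟨y, hy, rfl⟩ := W_sq h hv
        have hy' := cjY sN hy
        have := k.ext (sqW h hy') (sqW h hy) (by
          rw [k.sq _ hy', k.sq _ hy, (e y hy).1, (e y hy).2, map_mul, invol]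
          linear_combination -(a₁ y * σ (a₂ y)) * e1)
        nth_rw 1 [← this]; group) fun c => o.not_TC h.toInv tc (hY (h.WY c))
      rw [h.cardW] at this
      nlinarith [f.four_le]
  have := hS.inf_of_le_normalizer (N := K) (fun g _ => mem_normalizer_iff.2 fun a => (o.conj_iff g).symm)
  rwa [top_inf_eq, le_antisymm main (le_inf hYR hY)] at this

end Cfsg.Agent.WA.Lk
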