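import Cfsg.Agent.WA.UkSixS1

/-! Module UkSixS: in the split storey of order `q ^ 6` the centre `W` is strongly closed. -/

set_option autoImplicit false
set_option linter.unusedSectionVars false

namespace Cfsg.Agent.WA.Lk

open Subgroup Cfsg.Agent.H1.U3 Cfsg.Agent.H8 X1 X3b U4

variable {F : Type*} [Field F] [Finite F] {σ : F →+* F} [Ctx σ] {G : Type*} [Group G] [Finite G]

namespace Sx

variable {f : Fr σ G} {t : G} {Y W R : Subgroup G} {a₁ a₂ v₁ v₂ : G → F} {x y r s g : G} {c : F}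

theorem nrm0 (e : y * s = s * y) : y ∈ normalizer ((zpowers s : Subgroup G) : Set G) := by
  simpa using nrm (U := ⊥) (s := s) (y := y) (by simp [e]) (by simp)

theorem conj_fix (e : g * x * g⁻¹ * (g * y * g⁻¹) * (g * x * g⁻¹)⁻¹ = g * y * g⁻¹) : y * x * y⁻¹ = x := by
  rw [conj_mul, mul_inv_eq_iff_eq_mul, conj_mul, mul_left_inj, mul_right_inj] at e
  rw [← e, mul_inv_cancel_right]

theorem bl_line {a l m : F} (hl : σ l = l) (hm : σ m = m) : bl σ (l * a) (m * a) = 0 := by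
  simp only [bl, map_mul, hl, hm]
  linear_combination (l * m * σ a * a) * two σ

variable (h : f.Six t Y W a₁ a₂)
include h

/-- the elements of `N(Y)` that fix the first coordinate -/
def K1 : Subgroup G where
  carrier := {x | x ∈ normalizer (Y : Set G) ∧ Sl Y a₁ x 1 1}
  one_mem' := ⟨one_mem _, fun y _ => by simp⟩
  mul_mem' := fun ha hb => ⟨mul_mem ha.1 hb.1, by simpa using ha.2.mul hb.1 hb.2⟩
  inv_mem' := fun {a} ha => ⟨inv_mem ha.1, fun y hy => by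
    have := ha.2 _ (cjY (inv_mem ha.1) hy)
    rw [show a * (a⁻¹ * y * a⁻¹⁻¹) * a⁻¹ = y by group] at this
    have _ := h
    simpa using this.symm⟩

variable (k : Sp σ Y W a₁ a₂ v₁ v₂)
include k

theorem invd (hr : r ∈ N0 h) (r2 : r * r = 1) (hn : r ∉ K1 h) : ∃ a₀ : F, ∀ x, σ x = x →
    ∃ y ∈ Y, (∃ l, σ l = l ∧ a₁ y = l * a₀) ∧ a₂ y = 0 ∧ r * y * r⁻¹ = y⁻¹ ∧ nm σ (a₁ y) = x := by
  obtain ⟨c, hc, p⟩ := (dich h k hr (r2 ▸ one_mem _)).resolve_left fun e => hn ⟨hr.1, e⟩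
  obtain ⟨a₀, a0, f1, f2⟩ := exists_fix hc
  refine ⟨a₀, fun x hx => ?_⟩
  obtain ⟨l, hl, e⟩ := exists_sqrt (σ := σ) (x := x / nm σ a₀) (by rw [map_div₀, hx, nmK])
  obtain ⟨b, hb⟩ := f2 _ ((f1 _).2 ⟨l, hl, rfl⟩)
  obtain ⟨u, hu, u1, u2⟩ := h.surj b 0
  have hu' := cjY hr.1 hu
  have e1 : a₁ (u * (r * u * r⁻¹)) = l * a₀ := by rw [h.a₁_mul _ hu _ hu', p u hu, u1, sigAut_apply, hb]
  refine ⟨_, mul_mem hu hu', ⟨l, hl, e1⟩, by rw [h.a₂_mul _ hu _ hu', hr.2.2 u hu u2, u2, add_zero],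
    eq_inv_of_mul_eq_one_left ?_, by rw [e1, nm_mul, nm_K hl, e, div_mul_cancel₀ _ (mt nm0.1 a0)]⟩
  calc _ = r * u * r⁻¹ * (r * r * u * (r * r)⁻¹ * u * (r * u * r⁻¹)) := by group
    _ = r * (u * u) * r⁻¹ * (u * u) := by
      rw [r2, one_mul, inv_one, mul_one, h.Wc _ (sqW h hu) _ hu']; group
    _ = 1 := by rw [cenW h k hr (r2 ▸ one_mem _) (sqW h hu), h.Wsq _ (sqW h hu)]

theorem ss (hr : r ∈ N0 h) (hs : s ∈ N0 h) (r2 : r * r = 1) (s2 : s * s = 1) (e : r * s * (r * s) = 1) (h1 : r ∉ K1 h)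
    (h2 : s ∉ K1 h) : r * s ∈ K1 h := by
  obtain ⟨c, hc, p⟩ := (dich h k hr (r2 ▸ one_mem _)).resolve_left fun e => h1 ⟨hr.1, e⟩
  obtain ⟨c', hc', p'⟩ := (dich h k hs (s2 ▸ one_mem _)).resolve_left fun e => h2 ⟨hs.1, e⟩
  refine ⟨mul_mem hr.1 hs.1, (dich h k (mul_mem hr hs) (e ▸ one_mem _)).resolve_right fun ⟨d, hd, q⟩ => ?_⟩
  have := (Sl.uniq h (fun e => by rw [e, nm_zero] at hd; exact zero_ne_one hd) q (p.mul hs.1 p')).2
  rw [sig_mul_sig] at this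
  exact sig_ne_one this

variable (o : Ov f Y R)
include o

theorem s3 (hs : s ∈ R) (hW : s ∈ cj g W) : s ∈ N0 h := by
  by_contra hn
  have sN := o.hN hs
  have m := sw h sN hn
  have s2 : s * s = 1 := X1.cj_sq h.Wsq g s hW
  have si := inv_eq_of_mul_eq_one_right s2
  obtain ⟨k1, hA, hB⟩ := ext h k o (A := zpowers s) (B := R ⊓ centralizer {s}) (zpowers_le.2 hW)
    o.hS.pgroup.to_inf_left fun x hx => nrm0 (mem_centralizer_singleton_iff.1 hx.2)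
  have hU : ∀ e ∈ W ⊓ centralizer {s}, k1 * e * k1⁻¹ ∈ W := fun e he => by
    obtain ⟨a, b, y, z, ⟨hy, y1, y2⟩, ⟨hz, z1, z2⟩, e1, e2⟩ := fam h k o (g := k1)
      (fun a y => y ∈ Y ∧ a₁ y = a ∧ y ∈ centralizer {s}) (fun a => by
        obtain ⟨u, hu, u1, u2⟩ := h.surj a 0
        have hu' := cjY sN hu
        refine ⟨_, mul_mem hu hu', by rw [h.a₁_mul _ hu _ hu', m.2 u hu u2, u1, add_zero],
          mem_centralizer_singleton_iff.2 ?_⟩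
        nth_rw 2 [(comm h k hu hu' (by rw [m.2 u hu u2, bl_zero]) (by rw [u2, zero_bl])).eq]
        calc _ = s * s * u * s * u := by rw [s2]; group
          _ = _ := by rw [si]; group)
      (fun a b y z hy hz => ⟨mul_mem hy.1 hz.1, by rw [h.a₁_mul y hy.1 z hz.1, hy.2.1, hz.2.1], mul_mem hy.2.2 hz.2.2⟩)
      (fun a y hy => hB (conj_mem_cj k1 ⟨o.hY hy.1, hy.2.2⟩)) (k.fix e he.1).1
    have dW := cmW h hy hz
    have := swp h k sN m.1 (mul_mem (inv_mem dW) he.1) (by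
      rw [← mem_centralizer_singleton_iff.1 (mul_mem (inv_mem (mul_mem (inv_mem y2) (mul_mem (mul_mem z2 y2)
        (inv_mem z2)))) he.2), mul_inv_cancel_right])
      (by rw [(k.mul _ (inv_mem dW) _ he.1).1, add_inv σ (fun x hx y hy => (k.mul x hx y hy).1) dW, k.cm h hy hz, y1, z1,
        e1, aa σ])
    rw [inv_mul_eq_one.1 this] at e2
    exact invW h k e2 (U0.cj_sq k1 (h.Wsq e he.1))
  obtain ⟨k2, hA2, hB2⟩ := ext h k o (g := k1⁻¹) (A := zpowers s ⊔ W ⊓ centralizer {s}) (B := W)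
    (sup_le (cj_le_iff.1 hA) fun e he => mem_cj.2 (by simpa using hU e he)) (h.pg.to_le h.WY) fun w hw => by
      have hw' := cjW h sN hw
      have wi := inv_eq_of_mul_eq_one_right (h.Wsq w hw)
      rw [si] at hw'
      refine nrm ?_ fun u hu => by rw [h.Wc w hw u (h.WY hu.1), mul_inv_cancel_right]
      rw [si, wi, ← mul_assoc, ← mul_assoc]
      refine ⟨mul_mem hw' hw, mem_centralizer_singleton_iff.2 ?_⟩
      nth_rw 2 [h.Wc _ hw' w (h.WY hw)]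
      calc _ = s * w * (s * w * s) := by group
        _ = _ := by group
  have key : ∀ c ∈ W, v₁ c = 0 → k2 * c * k2⁻¹ ∈ N0 h → v₂ c = 0 := fun c hc c1 c0 => by
    rw [swp h k sN m.1 hc (conj_fix (cenW h k c0 (by rw [U0.cj_sq k2 (h.Wsq c hc)]; exact one_mem _)
      (hA2 (conj_mem_cj k2 (mem_sup_left (mem_zpowers s)))))) c1, v_one (symm h) k.symm]
  obtain ⟨l, hl, l0, l1, -⟩ := f.exists_K 1 1
  obtain ⟨a, ha, a1, a2⟩ := exW h k (map_zero σ) (map_one σ)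
  obtain ⟨b, hb, b1, b2⟩ := exW h k (map_zero σ) hl
  have := key _ (mul_mem ha hb) (by rw [(k.mul a ha b hb).1, a1, b1, add_zero]) (by
    rw [← conj_mul]
    exact idx h (o.hN (hB2 (conj_mem_cj k2 ha))) (o.hN (hB2 (conj_mem_cj k2 hb)))
      (fun e => one_ne_zero (a2.symm.trans (key a ha a1 e))) fun e => l0 (b2.symm.trans (key b hb b1 e)))
  rw [(k.mul a ha b hb).2, a2, b2] at this
  exact l1 ((add0 σ).1 this).symm

theorem kill (hr : r ∈ cj g W) : ∃ k', cj k' (W ⊓ cj g W) ≤ W ∧ ∀ y ∈ Y, r * y * r⁻¹ = y⁻¹ → y * y ∈ cj g W →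
    y * y ≠ 1 → k' * y * k'⁻¹ ∈ R ∧ k' * y * k'⁻¹ ∉ N0 h := by
  have r2 : r * r = 1 := X1.cj_sq h.Wsq g r hr
  have ri := inv_eq_of_mul_eq_one_right r2
  obtain ⟨k', hA, hB⟩ := ext h k o (A := zpowers r ⊔ W ⊓ cj g W)
    (B := Y ⊓ normalizer ((zpowers r ⊔ W ⊓ cj g W : Subgroup G) : Set G)) (sup_le (zpowers_le.2 hr) inf_le_right)
    h.pg.to_inf_left inf_le_right
  have hU := (cj_mono k' le_sup_right).trans hA
  refine ⟨k', hU, fun y hy e y2 y1 => ⟨hB (conj_mem_cj k' ⟨hy, nrm ?_ fun u hu => ?_⟩), fun c => y1 ?_⟩⟩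
  · rw [show r⁻¹ * (y * r * y⁻¹) = r⁻¹ * y * r⁻¹⁻¹ * y⁻¹ by group, ri, e, ← mul_inv_rev]
    exact inv_mem ⟨sqW h hy, y2⟩
  · rw [← h.Wc u hu.1 y hy, mul_inv_cancel_right]
  · have := conj_fix (cenW h k c (by rw [conj_mul]; exact h.WY (hU (conj_mem_cj k' ⟨sqW h hy, y2⟩)))
      (hA (conj_mem_cj k' (mem_sup_left (mem_zpowers r)))))
    nth_rw 2 [← this]
    rw [e, mul_inv_cancel]

theorem caseB (hg : cj g W ≤ R) (hr : r ∈ cj g W) (hn : r ∉ K1 h) : Nat.card ↥(W ⊓ cj g W) ≤ f.q := by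
  by_contra hc
  obtain ⟨a₀, H⟩ := invd h k (s3 h k o (hg hr) hr) (X1.cj_sq h.Wsq g r hr) hn
  obtain ⟨k', hU, H'⟩ := kill h k o hr
  have : ¬ ∀ x ∈ W ⊓ cj g W, v₂ x = 0 → x = 1 := fun e => hc (small (symm h) k.symm inf_le_left e)
  push Not at this
  obtain ⟨c, cU, c2, c1⟩ := this
  obtain ⟨y, hy, -, y2, e, y1⟩ := H _ (k.fix c cU.1).1
  have e1 : y * y = c := k.ext (sqW h hy) cU.1 ((k.sq y hy).1.trans y1) (by rw [(k.sq y hy).2, y2, nm_zero, c2])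
  obtain ⟨zR, zn⟩ := H' y hy e (e1 ▸ cU.2) (e1 ▸ c1)
  refine hc (card_cj k' (W ⊓ cj g W) ▸ small h k hU fun x hx => swp h k (o.hN zR) (sw h (o.hN zR) zn).1 (hU hx) ?_)
  obtain ⟨u, hu, rfl⟩ := hx
  change _ * (k' * u * k'⁻¹) * _ = k' * u * k'⁻¹
  rw [conj_mul, ← h.Wc u hu.1 y hy]; group

theorem wcW (hg : cj g W ≤ R) : cj g W = W := by
  have sq := X1.cj_sq h.Wsq g
  have n0 : ∀ r ∈ cj g W, r ∈ N0 h := fun r hr => s3 h k o (hg hr) hr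
  have kk : ∀ r ∈ cj g W, r ∈ K1 h → r ∈ K1 (symm h) → r ∈ W := fun r hr e1 e2 =>
    invW h k (kerY h o.hS.pgroup o.hN o.hT o.hY (hg hr) e1.2 e2.2) (sq r hr)
  have s1 : ∀ a ∈ cj g W, ∀ b ∈ cj g W, a ∉ K1 h → b ∉ K1 h → a * b ∈ K1 h := fun a ha b hb =>
    ss h k (n0 a ha) (n0 b hb) (sq a ha) (sq b hb) (sq _ (mul_mem ha hb))
  have s2 : ∀ a ∈ cj g W, ∀ b ∈ cj g W, a ∉ K1 (symm h) → b ∉ K1 (symm h) → a * b ∈ K1 (symm h) := fun a ha b hb =>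
    ss (symm h) k.symm ((N0_symm h).2 (n0 a ha)) ((N0_symm h).2 (n0 b hb)) (sq a ha) (sq b hb) (sq _ (mul_mem ha hb))
  have q4 := f.four_le
  have cd : Nat.card (cj g W) = f.q ^ 2 := (card_cj g W).trans h.cardW
  refine eq_of_le_of_card_ge (fun r₀ hr₀ => ?_) (card_cj g W).ge
  by_contra hn
  by_cases cs : ∀ r ∈ cj g W, r ∈ K1 h ∨ r ∈ K1 (symm h)
  · have h1 := half (X := cj g W) (N := W) fun a ha b hb a0 b0 => by
      have ab := mul_mem ha hb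
      rcases cs a ha with a1 | a1 <;> rcases cs b hb with b1 | b1
      · exact kk _ ab (mul_mem a1 b1) (s2 a ha b hb (fun e => a0 (kk a ha a1 e)) fun e => b0 (kk b hb b1 e))
      · exact (cs _ ab).elim (fun e => absurd (kk b hb ((mul_mem_cancel_left a1).1 e) b1) b0)
          fun e => absurd (kk a ha a1 ((mul_mem_cancel_right b1).1 e)) a0
      · exact (cs _ ab).elim (fun e => absurd (kk a ha ((mul_mem_cancel_right b1).1 e) a1) a0)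
          fun e => absurd (kk b hb b1 ((mul_mem_cancel_left a1).1 e)) b0
      · exact kk _ ab (s1 a ha b hb (fun e => a0 (kk a ha e a1)) fun e => b0 (kk b hb e b1)) (mul_mem a1 b1)
    have h2 : Nat.card ↥(W ⊓ cj g W) ≤ f.q := by
      by_cases e : r₀ ∈ K1 h
      · exact caseB (symm h) k.symm o hg hr₀ fun e' => hn (kk _ hr₀ e e')
      · exact caseB h k o hg hr₀ e
    nlinarith
  push Not at cs
  obtain ⟨r, hr, r1, r2⟩ := cs
  have h1 := half s1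
  have h2 := half (X := K1 h ⊓ cj g W) fun a ha b hb => s2 a ha.2 b hb.2
  have h3 : Nat.card ↥(K1 (symm h) ⊓ (K1 h ⊓ cj g W)) ≤ Nat.card ↥(W ⊓ cj g W) :=
    card_le_of_le fun a ha => ⟨kk a ha.2.2 ha.2.1 ha.1, ha.2.2⟩
  have := Fintype.ofFinite ↥(W ⊓ cj g W)
  obtain ⟨a, b, c, ab, ac, bc⟩ := (Fintype.two_lt_card_iff (α := ↥(W ⊓ cj g W))).1 (by
    rw [← Nat.card_eq_fintype_card]; nlinarith)
  obtain ⟨a₀, H1⟩ := invd h k (n0 r hr) (sq r hr) r1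
  obtain ⟨b₀, H2⟩ := invd (symm h) k.symm ((N0_symm h).2 (n0 r hr)) (sq r hr) r2
  have ex : ∀ u ∈ W, ∃ y ∈ Y, (∃ l, σ l = l ∧ a₁ y = l * a₀) ∧ (∃ l, σ l = l ∧ a₂ y = l * b₀) ∧ r * y * r⁻¹ = y⁻¹ ∧
      y * y = u := fun u hu => by
    obtain ⟨y, hy, y1, y2, y3, y4⟩ := H1 _ (k.fix u hu).1
    obtain ⟨z, hz, z1, z2, z3, z4⟩ := H2 _ (k.fix u hu).2
    have e1 : a₁ (y * z) = a₁ y := by rw [h.a₁_mul y hy z hz, z2, add_zero]
    have e2 : a₂ (y * z) = a₂ z := by rw [h.a₂_mul y hy z hz, y2, zero_add]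
    have yz := mul_mem hy hz
    exact ⟨_, yz, e1 ▸ y1, e2 ▸ z1, by
      rw [← conj_mul, y3, z3, (comm h k hy hz (by rw [z2, bl_zero]) (by rw [y2, zero_bl])).eq, mul_inv_rev],
      k.ext (sqW h yz) hu (by rw [(k.sq _ yz).1, e1, y4]) (by rw [(k.sq _ yz).2, e2, z4])⟩
  obtain ⟨k', -, H'⟩ := kill h k o hr
  have m1 := (a⁻¹ * b).2
  have m2 := (b⁻¹ * c).2
  obtain ⟨y, hy, ⟨l, hl, y1⟩, ⟨l', hl', y2⟩, y3, y4⟩ := ex _ m1.1
  obtain ⟨z, hz, ⟨m, hm, z1⟩, ⟨m', hm', z2⟩, z3, z4⟩ := ex _ m2.1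
  have cm := comm h k hy hz (by rw [y1, z1, bl_line hl hm]) (by rw [y2, z2, bl_line hl' hm'])
  have ne : ∀ {a b : ↥(W ⊓ cj g W)}, a ≠ b → ((a⁻¹ * b : ↥(W ⊓ cj g W)) : G) ≠ 1 := fun e e' =>
    e (inv_mul_eq_one.1 (Subtype.ext e'))
  have e4 : y * z * (y * z) = ((a⁻¹ * c : ↥(W ⊓ cj g W)) : G) := by
    rw [cm.symm.mul_mul_mul_comm, y4, z4, ← coe_mul, mul_assoc, mul_inv_cancel_left]
  have ky := H' y hy y3 (y4 ▸ m1.2) (y4 ▸ ne ab)
  have kz := H' z hz z3 (z4 ▸ m2.2) (z4 ▸ ne bc)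
  refine (H' _ (mul_mem hy hz) (by rw [← conj_mul, y3, z3, cm.eq, mul_inv_rev]) (e4 ▸ (a⁻¹ * c).2.2) (e4 ▸ ne ac)).2 ?_
  rw [← conj_mul]
  exact idx h (o.hN ky.1) (o.hN kz.1) ky.2 kz.2

end Sx

open Sx in
/-- module UkSixS -/
theorem Fr.Six.sc {f : Fr σ G} {t : G} {Y W : Subgroup G} {a₁ a₂ v₁ v₂ : G → F}
    (h : f.Six t Y W a₁ a₂) (k : X3b.Sp σ Y W a₁ a₂ v₁ v₂) : SCl G := by
  obtain ⟨R, o⟩ : ∃ R, Ov f Y R := let ⟨R, a, b, c, d⟩ := exR h; ⟨R, a, b, c, d⟩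
  refine sc_of o.hS (h.WY.trans o.hY) (fun e => ?_) h.Wsq fun x hx g hs => ?_
  · have := h.cardW
    rw [e, card_bot] at this
    nlinarith [f.four_le]
  have hW := conj_mem_cj g hx
  have s2 := U0.cj_sq g (h.Wsq x hx)
  generalize g * x * g⁻¹ = s at hs hW s2
  obtain ⟨k', hA, hB⟩ := ext h k o (A := zpowers s) (B := W) (zpowers_le.2 hW) (h.pg.to_le h.WY) fun w hw =>
    nrm0 (mul_inv_eq_iff_eq_mul.1 (cenW h k (s3 h k o hs hW) (s2 ▸ one_mem _) hw)).symm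
  rw [← wcW h k o hB, cj_le_cj_iff] at hA
  exact hA (mem_zpowers s)

end Cfsg.Agent.WA.Lk
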