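import Cfsg.Agent.WA.UkSix1

/-! Module UkSixS, first part: the action of `N(Y)` on the split storey of order `q ^ 6`. -/

set_option autoImplicit false
set_option linter.unusedSectionVars false

namespace Cfsg.Agent.WA.Lk.Sx

open Subgroup Cfsg.Agent.H1.U3 Cfsg.Agent.H8 X1 X3b U4

variable {F : Type*} [Field F] [Finite F] {σ : F →+* F} [Ctx σ] {G : Type*} [Group G] [Finite G]

theorem semiF (A : F →+ F) (B : F → F) (hB : ∀ x y, σ x = x → σ y = y → B (x + y) = B x + B y)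
    (hN : ∀ a, nm σ (A a) = B (nm σ a)) (c0 : A 1 ≠ 0) : ∃ θ : RingAut F, ∀ a, A a = A 1 * θ a := by
  have n0 : nm σ (A 1) ≠ 0 := fun h => c0 (nm0.1 h)
  let A' : F →+ F := (AddMonoidHom.mulLeft (A 1)⁻¹).comp A
  have e : ∀ a, A a = A 1 * A' a := fun a => (mul_inv_cancel_left₀ c0 _).symm
  obtain ⟨h1, -⟩ := semilinear (σ := σ) A' (fun x => (nm σ (A 1))⁻¹ * B x) (inv_mul_cancel₀ c0)
    (fun x y hx hy => by rw [hB x y hx hy, mul_add]) fun a => by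
      have := hN a
      rw [e a, nm_mul] at this
      exact (eq_inv_mul_iff_mul_eq₀ n0).2 this
  let τ0 : F →+* F := { A' with map_one' := inv_mul_cancel₀ c0, map_mul' := h1 }
  exact ⟨RingEquiv.ofBijective τ0 (Finite.injective_iff_bijective.mp τ0.injective), e⟩

theorem half {X N : Subgroup G} (h : ∀ a ∈ X, ∀ b ∈ X, a ∉ N → b ∉ N → a * b ∈ N) :
    Nat.card X ≤ Nat.card ↥(N ⊓ X) * 2 := by
  rw [← H9.card_inf_mul_relIndex N X]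
  refine Nat.mul_le_mul_left _ ?_
  by_cases e : X ≤ N
  · rw [relIndex_eq_one.2 e]; norm_num
  · obtain ⟨a, ha, hn⟩ := SetLike.not_le_iff_exists.1 e
    refine (relIndex_eq_two_iff.2 ⟨a, ha, fun b hb => ?_⟩).le
    by_cases c : b ∈ N
    · exact Or.inr ⟨c, fun e => hn ((mul_mem_cancel_left c).1 e)⟩
    · exact Or.inl ⟨h b hb a ha c hn, c⟩

theorem nrm {U : Subgroup G} {s y : G} (hs : s⁻¹ * (y * s * y⁻¹) ∈ U) (hU : ∀ u ∈ U, y * u * y⁻¹ = u) :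
    y ∈ normalizer ((zpowers s ⊔ U : Subgroup G) : Set G) := mem_normalizer_of_cj_le (by
  rw [cj_sup]
  refine sup_le ?_ ?_
  · rw [cj, MonoidHom.map_zpowers, zpowers_le]
    exact (mul_mem_cancel_left (inv_mem (mem_sup_left (mem_zpowers s)))).1 (mem_sup_right hs)
  · rintro _ ⟨u, hu, rfl⟩
    exact mem_sup_right (show y * u * y⁻¹ ∈ U by rwa [hU u hu]))

/-- `R` is a Sylow 2-subgroup of `G` between `Y T` and `N(Y)` -/
structure Ov (f : Fr σ G) (Y R : Subgroup G) : Prop where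
  hS : IsSylowIn 2 R ⊤
  hN : R ≤ normalizer (Y : Set G)
  hT : f.T ≤ R
  hY : Y ≤ R

/-- `x` acts semilinearly on the coordinate `a` -/
def Sl (Y : Subgroup G) (a : G → F) (x : G) (c : F) (θ : RingAut F) : Prop := ∀ y ∈ Y, a (x * y * x⁻¹) = c * θ (a y)

variable {f : Fr σ G} {t : G} {Y W R : Subgroup G} {a₁ a₂ v₁ v₂ : G → F} {x y r s g : G} {c c' : F} {θ θ' : RingAut F}

theorem Sl.mul (hy : y ∈ normalizer (Y : Set G)) (p : Sl Y a₁ x c θ) (p' : Sl Y a₁ y c' θ') :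
    Sl Y a₁ (x * y) (c * θ c') (θ * θ') := fun z hz => by
  rw [show x * y * z * (x * y)⁻¹ = x * (y * z * y⁻¹) * x⁻¹ by group, p _ (cjY hy hz), p' z hz, map_mul, mul_assoc]
  rfl

variable (h : f.Six t Y W a₁ a₂)
include h

theorem Sl.uniq (c0 : c ≠ 0) (p : Sl Y a₁ x c θ) (p' : Sl Y a₁ x c' θ') : c = c' ∧ θ = θ' := by
  have e1 : ∀ a, c * θ a = c' * θ' a := fun a => by
    obtain ⟨y, hy, y1, -⟩ := h.surj a 0
    have := (p y hy).symm.trans (p' y hy)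
    rwa [y1] at this
  have e2 : c = c' := by simpa using e1 1
  exact ⟨e2, RingEquiv.ext fun a => mul_left_cancel₀ c0 (by rw [e1, e2])⟩

/-- the elements of `N(Y)` that fix both coordinate kernels -/
def N0 : Subgroup G where
  carrier := {g | g ∈ normalizer (Y : Set G) ∧ Mp Y a₁ a₁ g ∧ Mp Y a₂ a₂ g}
  one_mem' := ⟨one_mem _, fun y _ e => by simpa using e, fun y _ e => by simpa using e⟩
  mul_mem' := fun ha hb => ⟨mul_mem ha.1 hb.1, hb.2.1.mul hb.1 ha.2.1, hb.2.2.mul hb.1 ha.2.2⟩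
  inv_mem' := fun {a} ha => ⟨inv_mem ha.1, (pair h (inv_mem ha.1)).resolve_right fun m =>
    not_both h (mul_mem (inv_mem ha.1) ha.1) (fun y _ e => by simpa using e) (ha.2.1.mul ha.1 m.1)⟩

theorem N0_symm : g ∈ N0 (symm h) ↔ g ∈ N0 h := ⟨fun e => ⟨e.1, e.2.2, e.2.1⟩, fun e => ⟨e.1, e.2.2, e.2.1⟩⟩

theorem sw (hg : g ∈ normalizer (Y : Set G)) (hn : g ∉ N0 h) : Mp Y a₁ a₂ g ∧ Mp Y a₂ a₁ g :=
  (pair h hg).resolve_left fun m => hn ⟨hg, m⟩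

theorem idx (hx : x ∈ normalizer (Y : Set G)) (hy : y ∈ normalizer (Y : Set G)) (h1 : x ∉ N0 h) (h2 : y ∉ N0 h) :
    x * y ∈ N0 h :=
  ⟨mul_mem hx hy, (sw h hy h2).1.mul hy (sw h hx h1).2, (sw h hy h2).2.mul hy (sw h hx h1).1⟩

variable (k : Sp σ Y W a₁ a₂ v₁ v₂)
include k

theorem exW {a b : F} (ha : σ a = a) (hb : σ b = b) : ∃ w ∈ W, v₁ w = a ∧ v₂ w = b := by
  obtain ⟨a, rfl⟩ := exists_nm ha
  obtain ⟨b, rfl⟩ := exists_nm hb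
  obtain ⟨y, hy, rfl, rfl⟩ := h.surj a b
  exact ⟨_, sqW h hy, k.sq y hy⟩

theorem v_one : v₁ 1 = 0 := add_one fun x hx y hy => (k.mul x hx y hy).1

theorem invW (hy : y ∈ Y) (e : y * y = 1) : y ∈ W := by
  have := k.sq y hy
  rw [e, v_one h k, v_one (symm h) k.symm] at this
  exact (h.ker y hy).2 ⟨nm0.1 this.1.symm, nm0.1 this.2.symm⟩

theorem comm (hx : x ∈ Y) (hy : y ∈ Y) (e1 : bl σ (a₁ x) (a₁ y) = 0) (e2 : bl σ (a₂ x) (a₂ y) = 0) : Commute x y := by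
  have := k.inj _ (cmW h hx hy) ((k.cm h hx hy).trans e1) ((k.symm.cm (symm h) hx hy).trans e2)
  rw [inv_mul_eq_one, eq_mul_inv_iff_mul_eq] at this
  exact this

theorem small {X : Subgroup G} (hX : X ≤ W) (e : ∀ x ∈ X, v₁ x = 0 → x = 1) : Nat.card X ≤ f.q := by
  have := card_le' (X := X) (N := ⊥) (K := KK σ) (ψ := v₁) (fun a ha b hb => (k.mul a (hX ha) b (hX hb)).1)
    (fun a ha => (k.fix a (hX ha)).1) fun a ha c => mem_bot.2 (e a ha c)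
  rwa [card_bot, one_mul, f.card_K] at this

theorem semi1 (hs : s ∈ N0 h) : ∃ c θ, c ≠ 0 ∧ Sl Y a₁ s c θ := by
  obtain ⟨hN, m1, m2⟩ := hs
  choose e eY e1 e2 using fun a => h.surj a 0
  have w1 : ∀ p ∈ Y, a₁ (s * e (a₁ p) * s⁻¹) = a₁ (s * p * s⁻¹) := fun p hp => wd h hN m1 (eY _) hp (e1 _)
  let A : F →+ F := AddMonoidHom.mk' (fun a => a₁ (s * e a * s⁻¹)) fun a b => by
    have := w1 _ (mul_mem (eY a) (eY b))
    rw [h.a₁_mul _ (eY a) _ (eY b), e1, e1] at this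
    rw [this, ← h.a₁_mul _ (cjY hN (eY a)) _ (cjY hN (eY b)), conj_mul]
  have ex : ∀ x, ∃ w ∈ W, σ x = x → v₁ w = x ∧ v₂ w = 0 := fun x => by
    by_cases hx : σ x = x
    · exact (exW h k hx (map_zero σ)).imp fun w hw => ⟨hw.1, fun _ => hw.2⟩
    · exact ⟨1, W.one_mem, fun e => absurd e hx⟩
  choose ω ωW ω1 using ex
  have c0 : A 1 ≠ 0 := fun c => by
    have := cjW h (inv_mem hN) ((h.ker _ (cjY hN (eY 1))).2 ⟨c, m2 _ (eY 1) (e2 1)⟩)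
    rw [show s⁻¹ * (s * e 1 * s⁻¹) * s⁻¹⁻¹ = e 1 by group] at this
    exact one_ne_zero ((e1 1).symm.trans (a_W h this))
  obtain ⟨θ, H⟩ := semiF (σ := σ) A (fun x => v₁ (s * ω x * s⁻¹)) (fun x y hx hy => by
      have hxy : σ (x + y) = x + y := by rw [map_add, hx, hy]
      have km := k.mul _ (ωW x) _ (ωW y)
      rw [k.ext (ωW _) (mul_mem (ωW x) (ωW y)) (by rw [km.1, (ω1 _ hxy).1, (ω1 _ hx).1, (ω1 _ hy).1])
        (by rw [km.2, (ω1 _ hxy).2, (ω1 _ hx).2, (ω1 _ hy).2, add_zero]),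
        ← (k.mul _ (cjW h hN (ωW x)) _ (cjW h hN (ωW y))).1, conj_mul]) (fun a => by
      rw [k.ext (ωW _) (sqW h (eY a)) (by rw [(ω1 _ (nmK a)).1, (k.sq _ (eY a)).1, e1])
        (by rw [(ω1 _ (nmK a)).2, (k.sq _ (eY a)).2, e2, nm_zero]), ← conj_mul]
      exact (k.sq _ (cjY hN (eY a))).1.symm) c0
  exact ⟨A 1, θ, c0, fun y hy => (w1 y hy).symm.trans (H _)⟩

theorem dich (hr : r ∈ N0 h) (r2 : r * r ∈ Y) : Sl Y a₁ r 1 1 ∨ ∃ c, nm σ c = 1 ∧ Sl Y a₁ r c (sigAut σ) := by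
  obtain ⟨c, θ, -, p⟩ := semi1 h k hr
  obtain ⟨e1, e2⟩ := Sl.uniq h (c := 1) (θ := 1) one_ne_zero (fun y hy => by rw [a_conj h r2 hy, one_mul]; rfl)
    (p.mul hr.1 p)
  rcases eq_one_or_sig (σ := σ) θ (by rw [pow_two, ← e2]) with rfl | rfl
  · exact Or.inl (eq_one_of_pow_two_pow σ (c := c) (k := 1) (by simpa [pow_two] using e1.symm) ▸ p)
  · exact Or.inr ⟨c, by rw [nm, mul_comm]; exact e1.symm, p⟩

theorem nm_fix (hr : r ∈ N0 h) (r2 : r * r ∈ Y) (hy : y ∈ Y) : nm σ (a₁ (r * y * r⁻¹)) = nm σ (a₁ y) := by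
  rcases dich h k hr r2 with p | ⟨c, hc, p⟩
  · rw [p y hy, one_mul]; rfl
  · rw [p y hy, nm_mul, hc, one_mul, sigAut_apply, nm_σ]

theorem cenW (hr : r ∈ N0 h) (r2 : r * r ∈ Y) {w : G} (hw : w ∈ W) : r * w * r⁻¹ = w := by
  obtain ⟨p, hp, rfl⟩ := W_sq h hw
  have hp' := cjY hr.1 hp
  rw [← conj_mul]
  exact k.ext (sqW h hp') (sqW h hp) (by rw [(k.sq _ hp').1, (k.sq _ hp).1, nm_fix h k hr r2 hp])
    (by rw [(k.sq _ hp').2, (k.sq _ hp).2, nm_fix (symm h) k.symm ((N0_symm h).2 hr) r2 hp])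

theorem cm1 (hx : x ∈ N0 h) (hy : y ∈ N0 h) : ∃ c, ∀ z ∈ Y, a₁ (x⁻¹ * (y * x * y⁻¹) * z * (x⁻¹ * (y * x * y⁻¹))⁻¹) = c * a₁ z := by
  have hz := mul_mem (inv_mem hx) (mul_mem (mul_mem hy hx) (inv_mem hy))
  obtain ⟨c, θ, c0, p⟩ := semi1 h k hx
  obtain ⟨c', θ', c0', p'⟩ := semi1 h k hy
  obtain ⟨c'', θ'', -, p''⟩ := semi1 h k hz
  have e := (p.mul hz.1 p'').mul hy.1 p'
  rw [show x * (x⁻¹ * (y * x * y⁻¹)) * y = y * x by group] at e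
  have := (Sl.uniq h (mul_ne_zero c0' ((map_ne_zero θ').2 c0)) (p'.mul hx.1 p) e).2
  rw [U0.ringAut_comm σ θ' θ, mul_left_inj, left_eq_mul] at this
  exact ⟨c'', fun z hz => by rw [p'' z hz, this]; rfl⟩

theorem swp (hs : s ∈ normalizer (Y : Set G)) (m : Mp Y a₁ a₂ s) {w : G} (hw : w ∈ W) (e : s * w * s⁻¹ = w)
    (e1 : v₁ w = 0) : w = 1 := by
  obtain ⟨p, hp, rfl⟩ := W_sq h hw
  refine k.inj _ hw e1 ?_
  rw [← e, ← conj_mul, (k.sq _ (cjY hs hp)).2, m p hp (nm0.1 ((k.sq p hp).1.symm.trans e1)), nm_zero]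

variable (o : Ov f Y R)
include o

theorem cmY (hx : x ∈ R) (hy : y ∈ R) (x0 : x ∈ N0 h) (y0 : y ∈ N0 h) : x⁻¹ * (y * x * y⁻¹) ∈ Y := by
  obtain ⟨c, e⟩ := cm1 h k x0 y0
  obtain ⟨c', e'⟩ := cm1 (symm h) k.symm ((N0_symm h).2 x0) ((N0_symm h).2 y0)
  exact kerY h o.hS.pgroup o.hN o.hT o.hY (mul_mem (inv_mem hx) (mul_mem (mul_mem hy hx) (inv_mem hy))) e e'

theorem fam (D : F → G → Prop) (ex : ∀ a, ∃ y, D a y) (mul : ∀ a b y z, D a y → D b z → D (a + b) (y * z))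
    (inR : ∀ a y, D a y → g * y * g⁻¹ ∈ R) (hc : σ c = c) :
    ∃ a b y z, D a y ∧ D b z ∧ bl σ a b = c ∧ g * (y⁻¹ * (z * y * z⁻¹)) * g⁻¹ ∈ Y := by
  obtain ⟨a, b, ⟨y, hy, y0⟩, ⟨z, hz, z0⟩, e⟩ := idxF f (H := fun a => ∃ y, D a y ∧ g * y * g⁻¹ ∈ N0 h) (fun a b ha hb => by
    obtain ⟨y, hy⟩ := ex a
    obtain ⟨z, hz⟩ := ex b
    refine ⟨_, mul a b y z hy hz, ?_⟩
    rw [← conj_mul]
    exact idx h (o.hN (inR a y hy)) (o.hN (inR b z hz)) (fun e => ha ⟨y, hy, e⟩) fun e => hb ⟨z, hz, e⟩) hc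
  refine ⟨a, b, y, z, hy, hz, e, ?_⟩
  have := cmY h k o (inR a y hy) (inR b z hz) y0 z0
  convert this using 1; group

theorem wc1 (hg : cj g Y ≤ R) {w : G} (hw : w ∈ W) (e : v₂ w = 0) : g * w * g⁻¹ ∈ W := by
  obtain ⟨a, b, y, z, ⟨hy, y1, y2⟩, ⟨hz, z1, z2⟩, e1, e2⟩ := fam h k o (g := g) (fun a y => y ∈ Y ∧ a₁ y = a ∧ a₂ y = 0)
    (fun a => h.surj a 0) (fun a b y z hy hz => ⟨mul_mem hy.1 hz.1, by rw [h.a₁_mul y hy.1 z hz.1, hy.2.1, hz.2.1],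
      by rw [h.a₂_mul y hy.1 z hz.1, hy.2.2, hz.2.2, add_zero]⟩) (fun a y hy => hg (conj_mem_cj g hy.1)) (k.fix w hw).1
  rw [k.ext (cmW h hy hz) hw (by rw [k.cm h hy hz, y1, z1, e1]) (by rw [k.symm.cm (symm h) hy hz, y2, zero_bl, e])] at e2
  exact invW h k e2 (U0.cj_sq g (h.Wsq w hw))

theorem wc (g : G) (hg : cj g Y ≤ R) : cj g W = W := by
  refine eq_of_le_of_card_ge ?_ (card_cj g W).ge
  rintro _ ⟨w, hw, rfl⟩
  obtain ⟨x, hx, x1, x2⟩ := exW h k (k.fix w hw).1 (map_zero σ)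
  obtain ⟨y, hy, y1, y2⟩ := exW h k (map_zero σ) (k.fix w hw).2
  have := mul_mem (wc1 h k o hg hx x2) (wc1 (symm h) k.symm o hg hy y1)
  rwa [conj_mul, k.ext (mul_mem hx hy) hw (by rw [(k.mul x hx y hy).1, x1, y1, add_zero])
    (by rw [(k.mul x hx y hy).2, x2, y2, zero_add])] at this

theorem ext {A B : Subgroup G} (hA : A ≤ cj g W) (hB : IsPGroup 2 B) (hN : B ≤ normalizer (A : Set G)) :
    ∃ k, cj k A ≤ W ∧ cj k B ≤ R :=
  ext_gen o.hS h.pg (fun y hy w hw => h.Wc w hw y hy) (wc h k o) hA hB hN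

end Cfsg.Agent.WA.Lk.Sx
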