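import Cfsg.Agent.WA.UkTop3

/-! Module UkTop: `V` is strongly closed in a Sylow 2-subgroup. -/

set_option autoImplicit false
set_option linter.unusedSectionVars false
set_option linter.unusedVariables false

namespace Cfsg.Agent.WA.Lk

open Subgroup Cfsg.Agent.H1.U3 Cfsg.Agent.H8 X2
open Cfsg.Agent.WA.Rw (conj_mem' conj_mem'' norm_of mem_c1 mem_cH)

variable {F : Type*} [Field F] [Finite F] {σ : F →+* F} [Ctx σ] {G : Type*} [Group G] [Finite G]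

namespace U1

open Classical in
/-- the action on `Y / V` -/
noncomputable def act (f : Fr σ G) (P : Subgroup G) (y ξ : G → F) (g : G) (p : F × F × F) : F × F × F :=
  if H : ∃ a ∈ YY f P, pi f P y ξ a = p then pi f P y ξ (g * H.choose * g⁻¹) else 0

/-- the action on `V` -/
noncomputable def gam (f : Fr σ G) (g : G) (c : F) : F := f.co (g * f.vv c * g⁻¹)

variable {f : Fr σ G} {t a b g k n r s u v w x z : G} {P K S X : Subgroup G} {y ξ : G → F} {κ c l : F} {p m : F × F × F}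

local notation "π" => pi f P y ξ
local notation "𝐘" => YY f P
local notation "𝐑" => RR f P
local notation "𝐀" => act f P y ξ s

theorem two_card {H V : Subgroup G} (h : H ≤ V) (hv : v ∈ V) (h1 : v ∉ H) : 2 * Nat.card H ≤ Nat.card V := by
  obtain ⟨m, e⟩ := card_dvd_of_le h
  have h2 : 0 < Nat.card V := Nat.card_pos
  obtain rfl | rfl | h3 : m = 0 ∨ m = 1 ∨ 2 ≤ m := by omega
  · omega
  · exact absurd (eq_of_le_of_card_ge h (by omega) ▸ hv) h1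
  · rw [e, mul_comm]; exact Nat.mul_le_mul_left _ h3

theorem dinv (s2 : s * s = 1) (u : G) : s * (s * u * s⁻¹ * u⁻¹) * s⁻¹ = (s * u * s⁻¹ * u⁻¹)⁻¹ := by
  rw [show s * (s * u * s⁻¹ * u⁻¹) * s⁻¹ = s * s * u * s⁻¹ * u⁻¹ * s⁻¹ by group, s2, mul_inv_rev, mul_inv_rev, mul_inv_rev,
    inv_eq_of_mul_eq_one_right s2, inv_eq_of_mul_eq_one_right s2]; group

theorem dconj (s2 : s * s = 1) (u : G) : u * s * u⁻¹ = s * (s * u * s⁻¹ * u⁻¹) := by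
  rw [show s * (s * u * s⁻¹ * u⁻¹) = s * s * u * s⁻¹ * u⁻¹ by group, s2, inv_eq_of_mul_eq_one_right s2]; group

namespace Cx

variable (C : Cx f t P y ξ κ K S)
include C

theorem backV (ha : a ∈ 𝐘) (h : k * a * k⁻¹ ∈ f.V) : a ∈ f.V := by
  by_cases a1 : a = 1
  · exact a1 ▸ one_mem _
  · exact C.inY ⟨_, h, fun e => a1 (conj_eq_one_iff.1 e), (isConj_iff.2 ⟨k, rfl⟩).symm⟩ ha

theorem fwdV (hv : v ∈ f.V) (h : k * v * k⁻¹ ∈ 𝐘) : k * v * k⁻¹ ∈ f.V := C.backV (k := k⁻¹) h (by simpa [mul_assoc] using hv)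

variable (hs : s ∈ S)
include hs

theorem cY (hu : u ∈ 𝐘) : s * u * s⁻¹ ∈ 𝐘 := conj_mem' (C.SY hs) hu

theorem dY (hu : u ∈ 𝐘) : s * u * s⁻¹ * u⁻¹ ∈ 𝐘 := mul_mem (C.cY hs hu) (inv_mem hu)

theorem act_pi (ha : a ∈ 𝐘) : 𝐀 (π a) = π (s * a * s⁻¹) := by
  have H : ∃ b ∈ 𝐘, π b = π a := ⟨a, ha, rfl⟩
  rw [act, dif_pos H]
  obtain ⟨h1, h2⟩ := H.choose_spec
  have := pi_V C.top (C.SV hs (pi_div C.top h1 ha h2))
  rw [cjm, pi_mul C.top (C.cY hs h1) (C.cY hs (inv_mem ha)), show s * a⁻¹ * s⁻¹ = (s * a * s⁻¹)⁻¹ by group,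
    pi_inv C.top (C.cY hs ha)] at this
  exact eq_of_add σ this

theorem pi_d (hu : u ∈ 𝐘) : π (s * u * s⁻¹ * u⁻¹) = 𝐀 (π u) + π u := by
  rw [pi_mul C.top (C.cY hs hu) (inv_mem hu), pi_inv C.top hu, C.act_pi hs hu]

theorem gam_vv (c : F) : σ (gam f s c) = gam f s c ∧ f.vv (gam f s c) = s * f.vv c * s⁻¹ := f.co_spec (C.SV hs (f.vv_mem c))

theorem iso (s2 : s * s = 1) : Iso σ κ 𝐀 (gam f s) := by
  have h := C.top
  refine ⟨fun z hz => ?_, fun z w hz hw => ?_, fun z hz => ?_, fun z w hz hw => ?_, fun z hz => ?_⟩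
  · obtain ⟨a, ha, rfl⟩ := pi_surj h hz
    rw [C.act_pi hs ha]; exact pi_W h (C.cY hs ha)
  · obtain ⟨a, ha, rfl⟩ := pi_surj h hz
    obtain ⟨b, hb, rfl⟩ := pi_surj h hw
    rw [← pi_mul h ha hb, C.act_pi hs ha, C.act_pi hs hb, C.act_pi hs (mul_mem ha hb), cjm, pi_mul h (C.cY hs ha) (C.cY hs hb)]
  · obtain ⟨a, ha, rfl⟩ := pi_surj h hz
    rw [C.act_pi hs ha, C.act_pi hs (C.cY hs ha), show s * (s * a * s⁻¹) * s⁻¹ = s * s * a * (s * s)⁻¹ by group, s2]; simp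
  · obtain ⟨a, ha, rfl⟩ := pi_surj h hz
    obtain ⟨b, hb, rfl⟩ := pi_surj h hw
    rw [C.act_pi hs ha, C.act_pi hs hb, gam, ← pi_cm h ha hb, cjc, pi_cm h (C.cY hs ha) (C.cY hs hb),
      f.co_vv (B_K (pi_W h (C.cY hs ha)) (pi_W h (C.cY hs hb)))]
  · obtain ⟨a, ha, rfl⟩ := pi_surj h hz
    rw [C.act_pi hs ha, gam, ← pi_sq h ha, cjm, pi_sq h (C.cY hs ha), f.co_vv (Q_K h.κK (pi_W h (C.cY hs ha)))]

/-- an anisotropic quadratic form over the field with two elements has dimension at most two -/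
theorem aniso (sc : f.VC s) (sV : k * s * k⁻¹ ∈ f.V) {N : Subgroup G} (VN : f.V ≤ N) (dN : ∀ u ∈ 𝐘, s * u * s⁻¹ * u⁻¹ ∈ N)
    (idx : ∀ a ∈ N, ∀ b ∈ N, k * a * k⁻¹ ∉ 𝐘 → k * b * k⁻¹ ∉ 𝐘 → k * a * k⁻¹ * (k * b * k⁻¹) ∈ 𝐘)
    {T : F × F × F → Prop} (hT : ∀ p, W0 σ p → T p → 𝐀 p + p ≠ 0) {p₁ p₂ p₃ : F × F × F} (w1 : W0 σ p₁) (w2 : W0 σ p₂) (w3 : W0 σ p₃)
    (t1 : T p₁) (t2 : T p₂) (t3 : T p₃) (t12 : T (p₁ + p₂)) (t13 : T (p₁ + p₃)) (t23 : T (p₂ + p₃)) (t4 : T (p₁ + (p₂ + p₃))) : False := by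
  classical
  have h := C.top
  have s2 := VC_sq sc
  set χ : G → ZMod 2 := fun a => if k * a * k⁻¹ ∈ 𝐘 then 0 else 1 with hχ
  have add : ∀ a ∈ N, ∀ b ∈ N, χ (a * b) = χ a + χ b := fun a ha b hb => by
    simp only [hχ, cjm k a b]
    by_cases a1 : k * a * k⁻¹ ∈ 𝐘 <;> by_cases b1 : k * b * k⁻¹ ∈ 𝐘
    · rw [if_pos a1, if_pos b1, if_pos (mul_mem a1 b1), add_zero]
    · rw [if_pos a1, if_neg b1, if_neg fun e => b1 ((mul_mem_cancel_left a1).1 e), zero_add]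
    · rw [if_neg a1, if_pos b1, if_neg fun e => a1 ((mul_mem_cancel_right b1).1 e), add_zero]
    · rw [if_neg a1, if_neg b1, if_pos (idx a ha b hb a1 b1)]; rfl
  have one : ∀ u ∈ 𝐘, T (π u) → χ (s * u * s⁻¹ * u⁻¹) = 1 := fun u hu tu => if_neg fun e => by
    have e1 := C.inY (VC_cj (VC_cj sc u) k) (by rw [dconj s2, cjm]; exact mul_mem (VY h sV) e)
    rw [dconj s2, cjm, mul_mem_cancel_left sV] at e1
    exact hT _ (pi_W h hu) tu ((C.pi_d hs hu).symm.trans (pi_V h (C.backV (C.dY hs hu) e1)))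
  have q : ∀ u ∈ 𝐘, ∀ w ∈ 𝐘, χ (s * (u * w) * s⁻¹ * (u * w)⁻¹) = χ (s * u * s⁻¹ * u⁻¹) +
      (χ (f.vv (BB σ (π u) (𝐀 (π w) + π w))) + χ (s * w * s⁻¹ * w⁻¹)) := fun u hu w hw => by
    rw [← add _ (VN (f.vv_mem _)) _ (dN w hw), ← add _ (dN u hu) _ (mul_mem (VN (f.vv_mem _)) (dN w hw)), ← C.pi_d hs hw,
      ← pi_cm h hu (C.dY hs hw)]
    congr 1; group
  obtain ⟨u1, h1, rfl⟩ := pi_surj h w1
  obtain ⟨u2, h2, rfl⟩ := pi_surj h w2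
  obtain ⟨u3, h3, rfl⟩ := pi_surj h w3
  have e12 := q u1 h1 u2 h2
  have e13 := q u1 h1 u3 h3
  have e4 := q u1 h1 _ (mul_mem h2 h3)
  have I := C.iso hs s2
  rw [one _ (mul_mem h1 h2) (by rwa [pi_mul h h1 h2]), one _ h1 t1, one _ h2 t2] at e12
  rw [one _ (mul_mem h1 h3) (by rwa [pi_mul h h1 h3]), one _ h1 t1, one _ h3 t3] at e13
  rw [one _ (mul_mem h1 (mul_mem h2 h3)) (by rwa [pi_mul h h1 (mul_mem h2 h3), pi_mul h h2 h3]), one _ h1 t1,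
    one _ (mul_mem h2 h3) (by rwa [pi_mul h h2 h3]), pi_mul h h2 h3, I.Dadd w2 w3, B_add, f.vv_add (B_K w1 (I.DW w2)) (B_K w1 (I.DW w3)),
    add _ (VN (f.vv_mem _)) _ (VN (f.vv_mem _))] at e4
  generalize χ (f.vv (BB σ (π u1) (𝐀 (π u2) + π u2))) = α at e12 e4
  generalize χ (f.vv (BB σ (π u1) (𝐀 (π u3) + π u3))) = β at e13 e4
  revert α β; decide

theorem faith (sK : s ∈ K) (s2 : s * s = 1) (s1 : s ∉ 𝐘) : ∃ z, W0 σ z ∧ 𝐀 z + z ≠ 0 := by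
  have h := C.top
  have o1 := (h.ker 1 (one_mem _)).1 (one_mem _)
  have pj : ∀ u, π (f.j u) = (0, 0, u.a) := fun u => by
    have := pi_eq h (one_mem P) u
    rwa [one_mul, o1.1, o1.2] at this
  by_cases sR : s ∈ 𝐑
  · have e : f.tt s = sigAut σ := (C.typ sR sK (s2 ▸ one_mem _) s1).elim (fun e => e.2.1) fun e => (ttt h sR).symm.trans e.2.1
    obtain ⟨α, hα⟩ := not_fix σ (f.cc s)
    refine ⟨_, pi_W h (jY h (lift σ α)), fun e1 => hα ?_⟩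
    rw [C.act_pi hs (jY h _), f.conj_j (RNQ h sR), pj, pj, f.aut_a, e, lift_a] at e1
    exact congrArg (fun p => p.2.2) (eq_of_add σ e1)
  · obtain ⟨b, hb, b1, b0⟩ := h.surj 1 0 (map_one σ) (map_zero σ)
    obtain ⟨w, -, e⟩ := sw_B h (SN h C.syl.pgroup C.RS hs) (C.sw hs sR) hb b0
    refine ⟨_, pi_W h (PY h hb), fun e1 => ?_⟩
    have e2 := pi_eq h hb 1
    rw [map_one, mul_one, b1] at e2
    rw [C.act_pi hs (PY h hb), e, pj, e2] at e1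
    exact zero_ne_one (congrArg Prod.fst (eq_of_add σ e1))

section lin

variable (sc : f.VC s) (s1 : s ∉ YY f P) (lin : ∀ d : F, σ d = d → gam f s d = d)
include sc s1 lin

theorem sV (hv : v ∈ f.V) : s * v * s⁻¹ = v := by
  obtain ⟨c, hc, rfl⟩ := f.mem_V.1 hv
  rw [← (C.gam_vv hs c).2, lin c hc]

theorem inverts (ha : a ∈ 𝐘) (hp : W0 σ p) (e : π a = 𝐀 p + p) : s * a * s⁻¹ = a⁻¹ := by
  obtain ⟨u, hu, rfl⟩ := pi_surj C.top hp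
  have hv := pi_div C.top ha (C.dY hs hu) (e.trans (C.pi_d hs hu).symm)
  have e1 := dinv (VC_sq sc) u
  have e2 := C.dY hs hu
  generalize s * u * s⁻¹ * u⁻¹ = d at hv e1 e2
  obtain ⟨v, rfl⟩ : ∃ v, a = v * d := ⟨a * d⁻¹, by group⟩
  rw [mul_inv_cancel_right] at hv
  rw [cjm, e1, C.sV hs sc s1 lin hv, mul_inv_rev, inv_eq_of_mul_eq_one_right (f.V_sq hv), vY C.top hv (inv_mem e2)]

theorem cent (ha : a ∈ 𝐘) (hp : W0 σ p) (e : π a = 𝐀 p + p) (q : QQ σ κ (𝐀 p + p) = 0) : a ∈ S ⊓ centralizer {s} :=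
  ⟨C.YS ha, mem_c1.2 (by
    have := C.inverts hs sc s1 lin ha hp e
    rw [inv_eq_of_mul_eq_one_right ((sq_iff C.top ha).2 (e ▸ q)), mul_inv_eq_iff_eq_mul] at this
    exact this.symm)⟩

theorem root (hp : W0 σ p) (q : QQ σ κ (𝐀 p + p) ≠ 0) (hv : v ∈ f.V) :
    ∃ b ∈ 𝐘, ∃ l, σ l = l ∧ π b = l • (𝐀 p + p) ∧ b * b = v ∧ s * b * s⁻¹ = b⁻¹ := by
  have I := C.iso hs (VC_sq sc)
  obtain ⟨c, hc, rfl⟩ := f.mem_V.1 hv
  obtain ⟨l, hl, e⟩ := exists_sqrt (σ := σ) (x := c / QQ σ κ (𝐀 p + p)) (by rw [map_div₀, hc, Q_K C.top.κK (I.DW hp)])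
  obtain ⟨b, hb, e1⟩ := pi_surj C.top ((I.DW hp).smul hl)
  exact ⟨b, hb, l, hl, e1, by rw [pi_sq C.top hb, e1, Q_smul hl, e, div_mul_cancel₀ _ q],
    C.inverts hs sc s1 lin hb (hp.smul hl) (e1.trans (I.Dsmul lin hl hp).symm)⟩

theorem linA {z w : F × F × F} (hz : W0 σ z) (hw : W0 σ w) (q : ∀ w, W0 σ w → QQ σ κ (𝐀 w + w) = 0)
    (e : BB σ w (𝐀 z + z) = 1) : False := by
  have h := C.top
  have I := C.iso hs (VC_sq sc)
  obtain ⟨k, kV, h5⟩ := C.ext1 sc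
  let N : Subgroup G :=
    { carrier := {a | a ∈ 𝐘 ∧ ∃ p, W0 σ p ∧ π a = 𝐀 p + p}
      one_mem' := ⟨one_mem _, 0, W0_zero, by rw [pi_V h (one_mem _), I.zero, add_zero]⟩
      mul_mem' := fun ⟨ha, p, hp, e⟩ ⟨hb, p', hp', e'⟩ => ⟨mul_mem ha hb, p + p', hp.add hp', by
        rw [pi_mul h ha hb, e, e', I.Dadd hp hp']⟩
      inv_mem' := fun ⟨ha, p, hp, e⟩ => ⟨inv_mem ha, p, hp, by rw [pi_inv h ha, e]⟩ }
  have NC : N ≤ S ⊓ centralizer {s} := fun a ⟨ha, p, hp, e⟩ => C.cent hs sc s1 lin ha hp e (q p hp)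
  have VN : f.V ≤ N := fun v hv => ⟨VY h hv, 0, W0_zero, by rw [pi_V h hv, I.zero, add_zero]⟩
  have N2 : ∀ a ∈ cj k N, a * a = 1 := by
    rintro _ ⟨a, ⟨ha, p, hp, e⟩, rfl⟩
    exact cj_sq k ((sq_iff h ha).2 (e ▸ q p hp))
  have hS := (cj_mono k NC).trans h5
  have hK := C.cjK (X := N) (fun a ha => C.YK ha.1) k
  have z0 : ∀ p, W0 σ p → BB σ p (𝐀 p + p) = 0 := fun p hp => (I.DQ lin h.κK hp).trans (q p hp)
  have co : ∀ {l m}, σ l = l → σ m = m → BB σ w (𝐀 (l • z + m • w) + (l • z + m • w)) = l ∧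
      BB σ z (𝐀 (l • z + m • w) + (l • z + m • w)) = m := fun hl hm => by
    rw [I.Dadd (hz.smul hl) (hw.smul hm), I.Dsmul lin hl hz, I.Dsmul lin hm hw, B_add, B_add, B_smul hl, B_smul hl, B_smul hm,
      B_smul hm, e, z0 z hz, z0 w hw, I.Dadj lin hz hw, B_comm, e]
    simp
  rcases C.dich hS hK (fun a ha => N2 a ha ▸ one_mem _) with d | ⟨x, hx, xt, -⟩
  · obtain ⟨ω, ω1, ω0, ω2, -⟩ := f.exists_K 1 1
    have o1 : (1 : F) + ω ≠ 0 := fun e => ω2 (by linear_combination e - two σ)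
    have oK : σ (1 + ω) = 1 + ω := by rw [map_add, map_one, ω1]
    refine C.aniso hs sc kV VN (fun u hu => ⟨C.dY hs hu, _, pi_W h hu, C.pi_d hs hu⟩)
      (fun a ha b hb => d _ (conj_mem_cj k ha) _ (conj_mem_cj k hb))
      (T := fun p => ∃ l m, σ l = l ∧ σ m = m ∧ (l ≠ 0 ∨ m ≠ 0) ∧ p = l • z + m • w) ?_ hz (hz.smul ω1) hw
      ⟨1, 0, map_one σ, map_zero σ, Or.inl one_ne_zero, by simp⟩ ⟨ω, 0, ω1, map_zero σ, Or.inl ω0, by simp⟩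
      ⟨0, 1, map_zero σ, map_one σ, Or.inr one_ne_zero, by simp⟩ ⟨1 + ω, 0, oK, map_zero σ, Or.inl o1, by module⟩
      ⟨1, 1, map_one σ, map_one σ, Or.inr one_ne_zero, by simp⟩ ⟨ω, 1, ω1, map_one σ, Or.inr one_ne_zero, by simp⟩
      ⟨1 + ω, 1, oK, map_one σ, Or.inr one_ne_zero, by module⟩
    rintro _ - ⟨l, m, hl, hm, ne, rfl⟩ e0
    have := co hl hm
    rw [e0, B_zero, B_zero] at this
    exact ne.elim (fun e => e this.1.symm) fun e => e this.2.symm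
  have c1 := C.four hS hK fun a ha => N2 a ha ▸ one_mem _
  have c2 := cardE2 h (X := cj k N ⊓ 𝐘) inf_le_right (fun a ha => N2 a ha.1) fun a ha =>
    (zfix h xt ha.2 (by rw [cm1.2 (H9.comm_of_sq_eq_one (fun x hx => by rw [pow_two, N2 x hx]) hx ha.1)]; exact one_mem _)).1
  have c3 := two_card (inf_le_right : cj k N ⊓ 𝐘 ⊓ f.V ≤ f.V) kV fun e => s1 (by simpa [mul_assoc] using (mem_cj.1 e.1.1).1)
  have c4 := X1.card_ge' (X := N) (N := f.V) (K := (KK σ).prod (KK σ)) (ψ := fun a => (BB σ w (π a), BB σ z (π a)))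
    (fun a ha b hb => by rw [pi_mul h ha.1 hb.1, B_add, B_add]; rfl) (fun c hc => by
      have wp := (hz.smul hc.1).add (hw.smul hc.2)
      obtain ⟨a, ha, e⟩ := pi_surj h (I.DW wp)
      exact ⟨a, ⟨ha, _, wp, e⟩, by rw [e, (co hc.1 hc.2).1, (co hc.1 hc.2).2]⟩)
    fun a ha => ⟨VN ha, by rw [pi_V h ha, B_zero, B_zero]; rfl⟩
  rw [Nat.card_congr ((KK σ).prodEquiv (KK σ)).toEquiv, Nat.card_prod, f.card_K, f.card_V] at c4
  rw [card_cj] at c1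
  rw [f.card_V] at c3
  have q4 := f.four_le
  nlinarith [Nat.mul_le_mul_right f.q c3, Nat.mul_le_mul q4 (le_refl (f.q * f.q)), Nat.mul_le_mul q4 q4]

theorem linB (hp : W0 σ p) (q : QQ σ κ (𝐀 p + p) ≠ 0) (e : ∀ w, W0 σ w → BB σ (𝐀 p + p) w = 0 → 𝐀 w + w = 0) : False := by
  have h := C.top
  have I := C.iso hs (VC_sq sc)
  obtain ⟨k, kV, h5⟩ := C.ext1 sc
  obtain ⟨w, z, h1, h2, h3, h4, h6⟩ := pair1 (I.DW hp) fun e => q (by rw [e]; simp [QQ, nm])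
  refine s1 (VY h (NV_of (fun v hv => C.fwdV hv (C.toY ((cj_mono k (inf_le_inf_right (centralizer {s}) C.YS)).trans h5) ?_)) kV))
  refine rob_of h inf_le_left (W := fun z => W0 σ z ∧ BB σ (𝐀 p + p) z = 0) (m := 𝐀 p + p)
    (fun _ _ a b => ⟨a.1.add b.1, by rw [B_add, a.2, b.2, add_zero]⟩)
    (fun _ _ hl hx => ⟨hx.1.smul hl, by rw [B_smul hl, hx.2, mul_zero]⟩) (fun z hz => (B_comm _ _).trans hz.2) (fun z hz => ?_)
    ⟨h1, h3⟩ ⟨h2, h4⟩ h6 hv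
  obtain ⟨u, hu, rfl⟩ := pi_surj h hz.1
  obtain ⟨b, hb, l, hl, e1, e2, e3⟩ := C.root hs sc s1 lin hp q
    ((pi_zero h (C.dY hs hu)).1 ((C.pi_d hs hu).trans (e _ hz.1 hz.2)))
  refine ⟨b * u, ⟨mul_mem hb hu, mem_c1.2 ?_⟩, l, hl, by rw [pi_mul h hb hu, e1, add_comm]⟩
  calc b * u * s = b⁻¹ * (b * b) * u * s := by group
    _ = _ := by rw [e2, ← e3]; group

theorem linC (hp : W0 σ p) (q : QQ σ κ (𝐀 p + p) ≠ 0) (hm : W0 σ m) (m0 : 𝐀 m + m ≠ 0) (qm : QQ σ κ (𝐀 m + m) = 0) : False := by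
  have h := C.top
  have s2 := VC_sq sc
  have I := C.iso hs s2
  obtain ⟨k, kV, h5⟩ := C.ext1 sc
  let N : Subgroup G :=
    { carrier := {a | a ∈ 𝐘 ∧ ∃ l, σ l = l ∧ π a = l • (𝐀 m + m)}
      one_mem' := ⟨one_mem _, 0, map_zero σ, by rw [pi_V h (one_mem _), zero_smul]⟩
      mul_mem' := fun ⟨ha, p, hp, e⟩ ⟨hb, p', hp', e'⟩ => ⟨mul_mem ha hb, p + p', by rw [map_add, hp, hp'], by
        rw [pi_mul h ha hb, e, e', add_smul]⟩
      inv_mem' := fun ⟨ha, p, hp, e⟩ => ⟨inv_mem ha, p, hp, by rw [pi_inv h ha, e]⟩ }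
  have NC : N ≤ S ⊓ centralizer {s} := fun a ⟨ha, l, hl, e⟩ => C.cent hs sc s1 lin ha (hm.smul hl)
    (e.trans (I.Dsmul lin hl hm).symm) (by rw [I.Dsmul lin hl hm, Q_smul hl, qm, mul_zero])
  have N2 : ∀ a ∈ cj k N, a * a = 1 := by
    rintro _ ⟨a, ⟨ha, l, hl, e⟩, rfl⟩
    exact cj_sq k ((sq_iff h ha).2 (by rw [e, Q_smul hl, qm, mul_zero]))
  have c1 := C.four ((cj_mono k NC).trans h5) (C.cjK (X := N) (fun a ha => C.YK ha.1) k) fun a ha => N2 a ha ▸ one_mem _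
  have c3 := two_card (H := cj k N ⊓ 𝐘) (by
    rintro _ ⟨⟨a, ⟨ha, l, hl, e⟩, rfl⟩, e1⟩
    obtain ⟨u, hu, e2⟩ := pi_surj h (hm.smul hl)
    have hv := pi_div h ha (C.dY hs hu) (by rw [e, C.pi_d hs hu, e2, I.Dsmul lin hl hm])
    obtain ⟨b, hb, -, -, -, e3, e4⟩ := C.root hs sc s1 lin hp q hv
    have e5 : u * (b⁻¹ * s * b⁻¹⁻¹) * u⁻¹ = s * a := by
      have e6 := vY h hv (inv_mem hu)
      have e7 := vY h hv (C.dY hs hu)
      have e8 : b⁻¹ * s = s * b := by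
        rw [← e4, inv_mul_cancel_right]
      calc _ = u * s * (b * b * u⁻¹) := by rw [e8]; group
        _ = u * s * u⁻¹ * (b * b) := by rw [e3, e6]; group
        _ = _ := by rw [dconj s2, e3, mul_assoc, ← e7]; group
    have e9 := C.inY (VC_cj (VC_cj (VC_cj sc b⁻¹) u) k) (by rw [e5, cjm]; exact mul_mem (VY h kV) e1)
    rwa [e5, cjm, mul_mem_cancel_left kV] at e9) kV fun e => s1 (by simpa [mul_assoc] using (mem_cj.1 e.1).1)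
  obtain ⟨w, hw, e⟩ := nondeg (I.DW hm) m0 (map_one σ)
  have c4 := X1.card_ge' (X := N) (N := f.V) (K := KK σ) (ψ := fun a => BB σ (π a) w)
    (fun a ha b hb => by rw [pi_mul h ha.1 hb.1, add_B]) (fun c hc => by
      obtain ⟨a, ha, e1⟩ := pi_surj h ((I.DW hm).smul hc)
      exact ⟨a, ⟨ha, c, hc, e1⟩, by rw [e1, smul_B hc, e, mul_one]⟩)
    fun a ha => ⟨⟨VY h ha, 0, map_zero σ, by rw [pi_V h ha, zero_smul]⟩, by rw [pi_V h ha, B_comm, B_zero]⟩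
  rw [f.card_K, f.card_V] at c4
  rw [card_cj] at c1
  rw [f.card_V] at c3
  have q4 := f.four_le
  nlinarith [Nat.mul_le_mul q4 (le_refl f.q)]

theorem lin_false : False := by
  obtain ⟨z, hz, z0⟩ := C.faith hs (C.out.VC sc) (VC_sq sc) s1
  rcases (C.iso hs (VC_sq sc)).tri lin C.top.κK hz z0 with ⟨q, w, hw, e⟩ | ⟨p, hp, q, e | ⟨m, hm, m0, qm⟩⟩
  · exact C.linA hs sc s1 lin hz hw q e
  · exact C.linB hs sc s1 lin hp q e
  · exact C.linC hs sc s1 lin hp q hm m0 qm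

end lin

theorem semi_false (sc : f.VC s) (hc : σ c = c) (c0 : gam f s c ≠ c) : False := by
  have h := C.top
  have s2 := VC_sq sc
  have I := C.iso hs s2
  obtain ⟨e, he, e1⟩ := I.exe hc c0
  have fx : ∀ {c}, σ c = c → (gam f s c = c ↔ f.vv c ∈ centralizer {s}) := fun {c} hc => by
    rw [mem_c1, eq_comm (a := f.vv c * s), ← mul_inv_eq_iff_eq_mul, ← (C.gam_vv hs c).2]
    exact ⟨fun e => by rw [e], f.vv_inj (C.gam_vv hs c).1 hc⟩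
  have dV : ∀ {u}, s * u * s⁻¹ * u⁻¹ ∈ f.V → s * u * s⁻¹ * u⁻¹ ∈ centralizer {s} := fun {u} hv => mem_c1.2 (by
    have := dinv s2 u
    rw [inv_eq_of_mul_eq_one_right (f.V_sq hv), mul_inv_eq_iff_eq_mul] at this
    exact this.symm)
  have lf : ∀ p, W0 σ p → 𝐀 p = p → ∃ x ∈ 𝐘 ⊓ centralizer {s}, π x = p := fun p hp e2 => by
    obtain ⟨u, hu, rfl⟩ := pi_surj h hp
    have hv := (pi_zero h (C.dY hs hu)).1 (by rw [C.pi_d hs hu, e2, aa σ])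
    obtain ⟨d, hd, e3⟩ := f.mem_V.1 hv
    have e4 := I.tr he e1 hd ((fx hd).2 (e3 ▸ dV hv))
    have eK : σ (e * d) = e * d := by rw [map_mul, he, hd]
    refine ⟨f.vv (e * d) * u, ⟨mul_mem (VY h (f.vv_mem _)) hu, mem_c1.2 ?_⟩, by
      rw [pi_mul h (VY h (f.vv_mem _)) hu, pi_V h (f.vv_mem _), zero_add]⟩
    have e5 : f.vv (e * d) = s * f.vv (e * d) * s⁻¹ * (s * u * s⁻¹ * u⁻¹) := by
      rw [← (C.gam_vv hs _).2, ← e3, ← f.vv_add (C.gam_vv hs _).1 hd]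
      congr 1; linear_combination -e4 + (e * d - d) * two σ
    nth_rw 1 [e5]; group
  have rob : ∀ c, σ c = c → gam f s c = c → c ≠ 0 → Rob (𝐘 ⊓ centralizer {s}) (f.vv c) := fun c hc e2 c0 H idx => by
    obtain ⟨a, b, a', b', ⟨w1, w2, w3, w4⟩, ⟨f1, f2, f3, f4⟩, b1, b2, b3, b4, b5, b6⟩ := I.four he e1 hc e2 c0
    obtain ⟨a, ha, rfl⟩ := lf a w1 f1
    obtain ⟨b, hb, rfl⟩ := lf b w2 f2
    obtain ⟨a', ha', rfl⟩ := lf a' w3 f3
    obtain ⟨b', hb', rfl⟩ := lf b' w4 f4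
    have key : ∀ x ∈ 𝐘 ⊓ centralizer {s}, ∀ z ∈ 𝐘 ⊓ centralizer {s}, ∀ u ∈ 𝐘 ⊓ centralizer {s}, BB σ (π x) (π z) = c →
        BB σ (π x) (π u) = 0 → BB σ (π z) (π u) = 0 → ¬ H x → ¬ H u →
        ∃ x ∈ 𝐘 ⊓ centralizer {s}, ∃ z ∈ 𝐘 ⊓ centralizer {s}, H x ∧ H z ∧ x * z * x⁻¹ * z⁻¹ = f.vv c :=
      fun x hx z hz u hu k1 k2 k3 n1 n2 => by
        by_cases n3 : H z
        · exact ⟨_, mul_mem hx hu, z, hz, idx x hx u hu n1 n2, n3, by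
            rw [pi_cm h (mul_mem hx.1 hu.1) hz.1, pi_mul h hx.1 hu.1, add_B, k1, B_comm, k3, add_zero]⟩
        · exact ⟨_, mul_mem hx hu, _, mul_mem hz hu, idx x hx u hu n1 n2, idx z hz u hu n3 n2, by
            rw [pi_cm h (mul_mem hx.1 hu.1) (mul_mem hz.1 hu.1), pi_mul h hx.1 hu.1, pi_mul h hz.1 hu.1, add_B, B_add, B_add, k1, k2,
              B_self, B_comm, k3]; simp⟩
    by_cases n1 : H a' ∧ H b'
    · exact ⟨a', ha', b', hb', n1.1, n1.2, by rw [pi_cm h ha'.1 hb'.1, b2]⟩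
    obtain ⟨u, hu, k2, k3, n2⟩ : ∃ u ∈ 𝐘 ⊓ centralizer {s}, BB σ (π a) (π u) = 0 ∧ BB σ (π b) (π u) = 0 ∧ ¬ H u :=
      (not_and_or.1 n1).elim (fun n => ⟨a', ha', b3, b4, n⟩) fun n => ⟨b', hb', b5, b6, n⟩
    by_cases n3 : H a
    · by_cases n4 : H b
      · exact ⟨a, ha, b, hb, n3, n4, by rw [pi_cm h ha.1 hb.1, b1]⟩
      · exact key b hb a ha u hu ((B_comm _ _).trans b1) k3 k2 n4 n2
    · exact key a ha b hb u hu b1 k2 k3 n3 n2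
  obtain ⟨k0, kV0, h5⟩ := C.ext1 sc
  set T : Set G := insert s ((f.V ⊓ centralizer {s} : Subgroup G) : Set G) with hT
  have m1 : s ∈ closure T := subset_closure (Set.mem_insert _ _)
  have m2 : ∀ v ∈ f.V, v ∈ centralizer {s} → v ∈ closure T := fun v hv e => subset_closure (Set.mem_insert_of_mem _ ⟨hv, e⟩)
  have N : ∀ x ∈ 𝐘, s * x * s⁻¹ * x⁻¹ ∈ f.V → x ∈ 𝐘 ⊓ normalizer ((closure T : Subgroup G) : Set G) := fun x hx e =>
    ⟨hx, norm_cl (by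
      rintro _ (rfl | hv)
      · rw [dconj s2]; exact mul_mem m1 (m2 _ e (dV e))
      · rw [← vY h hv.1 hx, mul_inv_cancel_right]; exact m2 _ hv.1 hv.2)⟩
  obtain ⟨k, h4, h6⟩ := C.ext (A := closure T) (B := 𝐘 ⊓ normalizer ((closure T : Subgroup G) : Set G)) (g := k0⁻¹)
    ((closure_le _).2 (by
      rintro _ (rfl | ⟨hv, e⟩)
      · exact mem_cj.2 (by simpa using kV0)
      · obtain ⟨d, hd, rfl⟩ := f.mem_V.1 hv
        by_cases d0 : d = 0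
        · rw [d0, f.vv_zero]; exact one_mem _
        · exact mem_cj.2 (by
            simpa using C.fwdV hv (C.toY ((cj_mono k0 (inf_le_inf_right (centralizer {s}) C.YS)).trans h5)
              (rob d hd ((fx hd).2 e) d0))))) (inf_le_left.trans C.YS) inf_le_right
  have kV := h4 (conj_mem_cj k m1)
  have kV1 : ∀ v ∈ f.V, v ∈ centralizer {s} → k * v * k⁻¹ ∈ f.V := fun v hv e => h4 (conj_mem_cj k (m2 v hv e))
  have XS : ∀ x ∈ 𝐘 ⊓ centralizer {s}, k * x * k⁻¹ ∈ S := fun x hx =>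
    h6 (conj_mem_cj k (N x hx.1 (by rw [cm1.2 (mem_c1.1 hx.2).symm]; exact one_mem _)))
  have VS : ∀ v ∈ f.V, k * v * k⁻¹ ∈ S := fun v hv => h6 (conj_mem_cj k (N v (VY h hv) (mul_mem (C.SV hs hv) (inv_mem hv))))
  have cR : ∀ a, k * a * k⁻¹ ∈ 𝐑 → a * a ∈ f.V ⊓ centralizer {s} → a ∈ centralizer {s} := fun a aR a2 =>
    mem_c1.2 (cj_back (cenV h aR ((cjm k a a) ▸ VY h (kV1 _ a2.1 a2.2)) kV)).symm
  have vR : ∀ v ∈ f.V, v ∉ centralizer {s} → k * v * k⁻¹ ∉ 𝐑 := fun v hv n e => n (cR v e (f.V_sq hv ▸ one_mem _))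
  have n2 : f.vv c ∉ centralizer {s} := fun e => c0 ((fx hc).2 e)
  have X2 : ∀ x ∈ 𝐘 ⊓ centralizer {s}, x * x ∈ f.V ⊓ centralizer {s} := fun x hx => ⟨sqY h hx.1, mul_mem hx.2 hx.2⟩
  have XR : ∀ x ∈ 𝐘 ⊓ centralizer {s}, k * x * k⁻¹ ∈ 𝐑 := fun x hx => by_contra fun n =>
    n2 ((mul_mem_cancel_left (mem_inf.1 hx).2).1 (cR _ ((cjm k _ _) ▸ C.idx (XS x hx) (VS _ (f.vv_mem c)) n (vR _ (f.vv_mem c) n2)) (by
      rw [show x * f.vv c * (x * f.vv c) = x * (f.vv c * x) * f.vv c by group, vY h (f.vv_mem c) hx.1,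
        show x * (x * f.vv c) * f.vv c = x * x * (f.vv c * f.vv c) by group, f.V_sq (f.vv_mem c), mul_one]
      exact X2 x hx)))
  have XK : ∀ x ∈ 𝐘 ⊓ centralizer {s}, k * x * k⁻¹ ∈ K := fun x hx => C.out.conj k (C.YK hx.1)
  have XQ : ∀ x ∈ 𝐘 ⊓ centralizer {s}, k * x * k⁻¹ * (k * x * k⁻¹) ∈ 𝐘 := fun x hx => (cjm k x x) ▸ VY h (kV1 _ (X2 x hx).1 (X2 x hx).2)
  have dK : σ (gam f s c + c) = gam f s c + c := by rw [map_add, I.ΓK hc, hc]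
  have dF : gam f s (gam f s c + c) = gam f s c + c := by rw [I.Γadd (I.ΓK hc) hc, I.ΓΓ hc, add_comm]
  have d0 : gam f s c + c ≠ 0 := fun e => c0 (by linear_combination e - c * two σ)
  have XY : ∀ x ∈ 𝐘 ⊓ centralizer {s}, k * x * k⁻¹ ∈ 𝐘 := fun x hx => by_contra fun n => by
    have xt := (C.typ (XR x hx) (XK x hx) (XQ x hx) n).resolve_left fun e =>
      C.noRt (VS _ (f.vv_mem c)) (vR _ (f.vv_mem c) n2) e (XK x hx)
    obtain ⟨a, ha, b, hb, a1, b1, e⟩ := rob _ dK dF d0 (fun x => k * x * k⁻¹ ∈ 𝐘) fun a ha b hb a1 b1 => by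
      rw [cjm]; exact C.I2 (XR a ha) (XK a ha) (XQ a ha) a1 (XR b hb) (XK b hb) (XQ b hb) b1
    have zf : ∀ a ∈ 𝐘 ⊓ centralizer {s}, k * x * k⁻¹ * (k * a * k⁻¹) * (k * x * k⁻¹)⁻¹ * (k * a * k⁻¹)⁻¹ ∈ f.V := fun a ha =>
      (cjc k x a) ▸ kV1 _ (cmY h hx.1 ha.1) (mul_mem (mul_mem (mul_mem hx.2 ha.2) (inv_mem hx.2)) (inv_mem ha.2))
    obtain ⟨z1, z2⟩ := zfix h xt a1 (zf a ha)
    obtain ⟨z3, z4⟩ := zfix h xt b1 (zf b hb)
    rw [cm1.2 (cj_back ((comm_iff h a1 b1).2 (by rw [BB, z1, z3, X4.bl_fix (f.cc_ne _) z2 z4]; simp)))] at e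
    exact d0 (vv_eq_one dK e.symm)
  let M : Subgroup G :=
    { carrier := {a | a ∈ 𝐘 ∧ 𝐀 (π a) = π a}
      one_mem' := ⟨one_mem _, by rw [pi_V h (one_mem _), I.zero]⟩
      mul_mem' := fun ⟨ha, e⟩ ⟨hb, e'⟩ => ⟨mul_mem ha hb, by rw [pi_mul h ha hb, I.add _ _ (pi_W h ha) (pi_W h hb), e, e']⟩
      inv_mem' := fun ⟨ha, e⟩ => ⟨inv_mem ha, by rw [pi_inv h ha, e]⟩ }
  have dec : ∀ a ∈ M, k * a * k⁻¹ ∉ 𝐘 → ∃ v ∈ f.V, v ∉ centralizer {s} ∧ ∃ x ∈ 𝐘 ⊓ centralizer {s}, a = v * x := fun a ha n => by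
    obtain ⟨x, hx, e⟩ := lf _ (pi_W h ha.1) ha.2
    have hv := pi_div h ha.1 hx.1 e.symm
    refine ⟨_, hv, fun e => n ?_, x, hx, by group⟩
    rw [show a = a * x⁻¹ * x by group, cjm]
    exact mul_mem (VY h (kV1 _ hv e)) (XY x hx)
  obtain ⟨a, b, a', b', ⟨w1, w2, w3, w4⟩, ⟨f1, f2, f3, f4⟩, b1, b2, b3, b4, b5, b6⟩ := I.four he e1 dK dF d0
  have ne : ∀ {p q}, BB σ q p ≠ 0 → p ≠ 0 := fun n e => n (by rw [e, B_zero])
  refine C.aniso hs sc kV (N := M) (fun v hv => ⟨VY h hv, by rw [pi_V h hv, I.zero]⟩)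
    (fun u hu => ⟨C.dY hs hu, by rw [C.pi_d hs hu, I.Dfix (pi_W h hu)]⟩) (fun a ha b hb a1 b1 => ?_)
    (T := fun p => ∃ a, W0 σ a ∧ 𝐀 a = a ∧ a ≠ 0 ∧ p = e • a) (by
      rintro _ - ⟨a, w, f1, a0, rfl⟩
      rwa [I.De he e1 w f1]) (w1.smul he) (w2.smul he) (w3.smul he)
    ⟨a, w1, f1, ne (q := b) (by rwa [B_comm, b1]), rfl⟩ ⟨b, w2, f2, ne (q := a) (by rwa [b1]), rfl⟩
    ⟨a', w3, f3, ne (q := b') (by rwa [B_comm, b2]), rfl⟩
    ⟨a + b, w1.add w2, by rw [I.add _ _ w1 w2, f1, f2], ne (q := a) (by rwa [B_add, B_self, zero_add, b1]), by module⟩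
    ⟨a + a', w1.add w3, by rw [I.add _ _ w1 w3, f1, f3], ne (q := b) (by rwa [B_add, b4, add_zero, B_comm, b1]), by module⟩
    ⟨b + a', w2.add w3, by rw [I.add _ _ w2 w3, f2, f3], ne (q := a) (by rwa [B_add, b3, add_zero, b1]), by module⟩
    ⟨a + (b + a'), w1.add (w2.add w3), by rw [I.add _ _ w1 (w2.add w3), I.add _ _ w2 w3, f1, f2, f3],
      ne (q := a) (by rwa [B_add, B_add, B_self, b3, add_zero, zero_add, b1]), by module⟩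
  obtain ⟨v, hv, n, x, hx, rfl⟩ := dec a ha a1
  obtain ⟨v', hv', n', x', hx', rfl⟩ := dec b hb b1
  have e3 := cR (v * v') ((cjm k _ _) ▸ C.idx (VS v hv) (VS v' hv') (vR v hv n) (vR v' hv' n')) (f.V_sq (mul_mem hv hv') ▸ one_mem _)
  rw [← cjm, show v * x * (v' * x') = v * (x * v') * x' by group, ← vY h hv' hx.1, show v * (v' * x) * x' = v * v' * (x * x') by group, cjm]
  exact mul_mem (VY h (kV1 _ (mul_mem hv hv') e3)) (XY _ (mul_mem hx hx'))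

theorem inS (sc : f.VC s) : s ∈ f.V := by
  refine C.inY sc (by_contra fun s1 => C.lin_false hs sc s1 fun c hc => by_contra fun e => C.semi_false hs sc hc e)

end Cx

end U1

open U1 in
/-- module UkTop -/
theorem Fr.Top.sc {f : Fr σ G} {t : G} {P K : Subgroup G} {y ξ : G → F} {κ : F}
    (h : f.Top t P y ξ κ) (o : Out K t) : SCl G := by
  obtain ⟨S, hS, RS⟩ := exists_isSylowIn_ge (Rpg h) (le_top : _ ≤ ⊤)
  have C : Cx f t P y ξ κ K S := ⟨h, o, hS, RS⟩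
  obtain ⟨v, hv, v1, -⟩ := f.exists_two_V
  refine sc_of hS ((VY h).trans C.YS) (fun e => v1 (by rwa [e] at hv)) (fun x => f.V_sq) fun x hx g hg => ?_
  by_cases x1 : x = 1
  · simp [x1]
  · exact C.inS hg ⟨x, hx, x1, isConj_iff.2 ⟨g, rfl⟩⟩

end Cfsg.Agent.WA.Lk
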