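import Cfsg.Agent.WA.UkDef

/-! Module UkTop, linear algebra: the quadratic space `K × K × F` over the fixed field. -/

set_option autoImplicit false
set_option linter.unusedSectionVars false

namespace Cfsg.Agent.WA.Lk.U1

open Cfsg.Agent.H1.U3

variable {F : Type*} [Field F] [Finite F] (σ : F →+* F) [Ctx σ]

def W0 (z : F × F × F) : Prop := σ z.1 = z.1 ∧ σ z.2.1 = z.2.1

def BB (z w : F × F × F) : F := z.1 * w.2.1 + w.1 * z.2.1 + bl σ z.2.2 w.2.2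

def QQ (κ : F) (z : F × F × F) : F := z.1 ^ 2 + z.1 * z.2.1 + κ * z.2.1 ^ 2 + nm σ z.2.2

include σ in
theorem aa (z : F × F × F) : z + z = 0 := by rw [← two_smul F, two σ, zero_smul]

include σ in
theorem af (x : F) : x + x = 0 := by linear_combination x * two σ

include σ in
theorem eq_of_add {z w : F × F × F} (h : z + w = 0) : z = w := by
  rw [← add_zero z, ← aa σ w, ← add_assoc, h, zero_add]

variable {σ} {κ l c : F} {a b w x z : F × F × F}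

theorem W0.add (h : W0 σ z) (k : W0 σ w) : W0 σ (z + w) :=
  ⟨by simp [h.1, k.1], by simp [h.2, k.2]⟩

theorem W0.smul (h : W0 σ z) (hl : σ l = l) : W0 σ (l • z) :=
  ⟨by simp [h.1, hl], by simp [h.2, hl]⟩

theorem W0_zero : W0 σ 0 := ⟨by simp, by simp⟩

theorem B_comm (z w : F × F × F) : BB σ z w = BB σ w z := by simp only [BB, bl]; ring

theorem B_add (x z w : F × F × F) : BB σ x (z + w) = BB σ x z + BB σ x w := by
  simp only [BB, bl, Prod.fst_add, Prod.snd_add, map_add]; ring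

theorem add_B (x z w : F × F × F) : BB σ (x + z) w = BB σ x w + BB σ z w := by
  rw [B_comm, B_add, B_comm w, B_comm w]

theorem B_smul (hl : σ l = l) (z w : F × F × F) : BB σ z (l • w) = l * BB σ z w := by
  simp only [BB, bl, Prod.smul_fst, Prod.smul_snd, smul_eq_mul, map_mul, hl]; ring

theorem smul_B (hl : σ l = l) (z w : F × F × F) : BB σ (l • z) w = l * BB σ z w := by
  rw [B_comm, B_smul hl, B_comm]

theorem B_self (z : F × F × F) : BB σ z z = 0 := by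
  simp only [BB, bl]; linear_combination (z.1 * z.2.1 + σ z.2.2 * z.2.2) * two σ

theorem B_zero (z : F × F × F) : BB σ z 0 = 0 := by simp [BB, bl]

theorem B_K (h : W0 σ z) (k : W0 σ w) : σ (BB σ z w) = BB σ z w := by
  simp only [BB, map_add, map_mul, h.1, h.2, k.1, k.2, bl_fixed]

theorem Q_K (hκ : σ κ = κ) (h : W0 σ z) : σ (QQ σ κ z) = QQ σ κ z := by
  simp only [QQ, map_add, map_mul, map_pow, h.1, h.2, hκ, nm_fixed]

theorem Q_add (z w : F × F × F) : QQ σ κ (z + w) = QQ σ κ z + QQ σ κ w + BB σ z w := by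
  simp only [QQ, BB, bl, nm, Prod.fst_add, Prod.snd_add, map_add]
  linear_combination (z.1 * w.1 + κ * z.2.1 * w.2.1) * two σ

theorem Q_smul (hl : σ l = l) (z : F × F × F) : QQ σ κ (l • z) = l ^ 2 * QQ σ κ z := by
  simp only [QQ, nm, Prod.smul_fst, Prod.smul_snd, smul_eq_mul, map_mul, hl]; ring

theorem nondeg (h : W0 σ z) (h0 : z ≠ 0) (hc : σ c = c) : ∃ w, W0 σ w ∧ BB σ z w = c := by
  by_cases h1 : z.1 = 0
  · by_cases h2 : z.2.1 = 0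
    · obtain ⟨b, hb⟩ := exists_bl (σ := σ) (a := z.2.2) (fun e => h0 (Prod.ext h1 (Prod.ext h2 e))) hc
      exact ⟨(0, 0, b), ⟨map_zero σ, map_zero σ⟩, by simp [BB, hb]⟩
    · exact ⟨(c / z.2.1, 0, 0), ⟨by simp [hc, h.2], map_zero σ⟩, by simp [BB, bl, h2]⟩
  · exact ⟨(0, c / z.1, 0), ⟨map_zero σ, by simp [hc, h.1]⟩, by simp [BB, bl]; field_simp⟩

theorem eq_zero (h : W0 σ z) (k : ∀ w, W0 σ w → BB σ z w = 0) : z = 0 := by
  by_contra h0
  obtain ⟨w, h1, h2⟩ := nondeg h h0 (map_one σ)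
  exact one_ne_zero (h2.symm.trans (k w h1))

theorem dperp (ha : W0 σ a) (hw : W0 σ w) (h0 : a ≠ 0) (k : ∀ x, W0 σ x → BB σ a x = 0 → BB σ w x = 0) :
    ∃ m, σ m = m ∧ w = m • a := by
  obtain ⟨b, hb, e⟩ := nondeg ha h0 (map_one σ)
  refine ⟨BB σ w b, B_K hw hb, eq_of_add σ (eq_zero (hw.add (ha.smul (B_K hw hb))) fun x hx => ?_)⟩
  have := k _ (hx.add (hb.smul (B_K ha hx))) (by rw [B_add, B_smul (B_K ha hx), e, mul_one, af σ])
  rw [B_add, B_smul (B_K ha hx)] at this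
  rw [add_B, smul_B (B_K hw hb), mul_comm, this]

/-- the projection to the orthogonal complement of a hyperbolic pair -/
theorem proj (ha : W0 σ a) (hb : W0 σ b) (h0 : BB σ a b ≠ 0) (hz : W0 σ z) :
    ∃ l m, σ l = l ∧ σ m = m ∧ BB σ a (z + l • a + m • b) = 0 ∧ BB σ b (z + l • a + m • b) = 0 := by
  have e1 : σ (BB σ b z / BB σ a b) = BB σ b z / BB σ a b := by rw [map_div₀, B_K hb hz, B_K ha hb]
  have e2 : σ (BB σ a z / BB σ a b) = BB σ a z / BB σ a b := by rw [map_div₀, B_K ha hz, B_K ha hb]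
  refine ⟨_, _, e1, e2, ?_, ?_⟩
  · rw [B_add, B_add, B_smul e1, B_smul e2, B_self, div_mul_cancel₀ _ h0, mul_zero, add_zero, af σ]
  · rw [B_add, B_add, B_smul e1, B_smul e2, B_self, B_comm b a, div_mul_cancel₀ _ h0, mul_zero, add_zero, af σ]

theorem perp2 (ha : W0 σ a) (hb : W0 σ b) (h0 : BB σ a b ≠ 0) :
    ∃ w, W0 σ w ∧ w ≠ 0 ∧ BB σ a w = 0 ∧ BB σ b w = 0 := by
  by_contra h
  push Not at h
  have k : ∀ z, W0 σ z → ∃ l m, σ l = l ∧ σ m = m ∧ z = l • a + m • b := fun z hz => by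
    obtain ⟨l, m, h1, h2, h3, h4⟩ := proj ha hb h0 hz
    refine ⟨l, m, h1, h2, eq_of_add σ ?_⟩
    by_contra e
    rw [← add_assoc] at e
    exact h _ ((hz.add (ha.smul h1)).add (hb.smul h2)) e h3 h4
  have pl : ∀ {l m l' m'}, σ l = l → σ m = m → σ l' = l' → σ m' = m' →
      BB σ (l • a + m • b) (l' • a + m' • b) = (l * m' + m * l') * BB σ a b := fun h1 h2 h3 h4 => by
    rw [add_B, B_add, B_add, smul_B h1, smul_B h1, smul_B h2, smul_B h2, B_smul h3, B_smul h3, B_smul h4, B_smul h4,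
      B_self, B_self, B_comm b a]; ring
  obtain ⟨β, hβ⟩ := exists_bl (σ := σ) (one_ne_zero (α := F)) (map_one σ)
  obtain ⟨l1, m1, a1, b1, e1⟩ := k (1, 0, 0) ⟨map_one σ, map_zero σ⟩
  obtain ⟨l2, m2, a2, b2, e2⟩ := k (0, 1, 0) ⟨map_zero σ, map_one σ⟩
  obtain ⟨l3, m3, a3, b3, e3⟩ := k (0, 0, 1) ⟨map_zero σ, map_zero σ⟩
  obtain ⟨l4, m4, a4, b4, e4⟩ := k (0, 0, β) ⟨map_zero σ, map_zero σ⟩
  have p12 := pl a1 b1 a2 b2
  have p34 := pl a3 b3 a4 b4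
  have p13 := pl a1 b1 a3 b3
  have p14 := pl a1 b1 a4 b4
  rw [← e1, ← e2] at p12
  rw [← e3, ← e4] at p34
  rw [← e1, ← e3] at p13
  rw [← e1, ← e4] at p14
  generalize BB σ a b = c at p12 p34 p13 p14
  simp only [BB, hβ] at p34
  simp only [BB, bl, map_zero, map_one] at p12 p13 p14
  refine one_ne_zero (α := F) ?_
  linear_combination p12 * ((l3 * m4 + m3 * l4) * c) + p34 + ((l2 * m4 + m2 * l4) * c) * p13 + ((l2 * m3 + m2 * l3) * c) * p14 +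
    (c ^ 2 * (l1 * m2 * l3 * m4 + l1 * m2 * m3 * l4 + m1 * l2 * l3 * m4 + m1 * l2 * m3 * l4 + l1 * l2 * m3 * m4 + m1 * m2 * l3 * l4)) * two σ

/-- a hyperbolic pair orthogonal to a given one -/
theorem pair2 (ha : W0 σ a) (hb : W0 σ b) (h0 : BB σ a b ≠ 0) (hw : W0 σ w) (w0 : w ≠ 0) (h1 : BB σ a w = 0)
    (h2 : BB σ b w = 0) (hc : σ c = c) : ∃ z, W0 σ z ∧ BB σ a z = 0 ∧ BB σ b z = 0 ∧ BB σ w z = c := by
  obtain ⟨z, hz, e⟩ := nondeg hw w0 hc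
  obtain ⟨l, m, k1, k2, k3, k4⟩ := proj ha hb h0 hz
  exact ⟨_, (hz.add (ha.smul k1)).add (hb.smul k2), k3, k4, by
    rw [B_add, B_add, B_smul k1, B_smul k2, B_comm w a, B_comm w b, h1, h2, e]; ring⟩

theorem pair1 (ha : W0 σ a) (h0 : a ≠ 0) : ∃ w z, W0 σ w ∧ W0 σ z ∧ BB σ a w = 0 ∧ BB σ a z = 0 ∧ BB σ w z = 1 := by
  obtain ⟨b, hb, e⟩ := nondeg ha h0 (map_one σ)
  have e1 : BB σ a b ≠ 0 := e ▸ one_ne_zero
  obtain ⟨w, h1, h2, h3, h4⟩ := perp2 ha hb e1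
  obtain ⟨z, k1, k2, -, k4⟩ := pair2 ha hb e1 h1 h2 h3 h4 (map_one σ)
  exact ⟨w, z, h1, k1, h3, k2, k4⟩

variable (σ) in
/-- an involutory semi-similitude -/
structure Iso (κ : F) (A : F × F × F → F × F × F) (Γ : F → F) : Prop where
  W : ∀ z, W0 σ z → W0 σ (A z)
  add : ∀ z w, W0 σ z → W0 σ w → A (z + w) = A z + A w
  inv : ∀ z, W0 σ z → A (A z) = z
  B : ∀ z w, W0 σ z → W0 σ w → BB σ (A z) (A w) = Γ (BB σ z w)
  Q : ∀ z, W0 σ z → QQ σ κ (A z) = Γ (QQ σ κ z)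

namespace Iso

variable {A : F × F × F → F × F × F} {Γ : F → F} (h : Iso σ κ A Γ)
include h

theorem zero : A 0 = 0 := by
  have := h.add 0 0 W0_zero W0_zero
  rwa [add_zero, aa σ] at this

theorem Γc (hc : σ c = c) : Γ c = BB σ (A (1, 0, 0)) (A (0, c, 0)) := by
  rw [h.B _ _ ⟨map_one σ, map_zero σ⟩ ⟨map_zero σ, hc⟩]; simp [BB, bl]

theorem ΓK (hc : σ c = c) : σ (Γ c) = Γ c := by
  rw [h.Γc hc]; exact B_K (h.W _ ⟨map_one σ, map_zero σ⟩) (h.W _ ⟨map_zero σ, hc⟩)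

theorem Γ0 : Γ 0 = 0 := by rw [← B_zero (σ := σ) 0, ← h.B _ _ W0_zero W0_zero, B_self, B_self]

theorem Γadd (hc : σ c = c) (hl : σ l = l) : Γ (c + l) = Γ c + Γ l := by
  rw [h.Γc hc, h.Γc hl, h.Γc (by rw [map_add, hc, hl]), ← B_add, ← h.add _ _ ⟨map_zero σ, hc⟩ ⟨map_zero σ, hl⟩]; simp

theorem ΓΓ (hc : σ c = c) : Γ (Γ c) = c := by
  have w1 : W0 σ ((1, 0, 0) : F × F × F) := ⟨map_one σ, map_zero σ⟩
  have w2 : W0 σ ((0, c, 0) : F × F × F) := ⟨map_zero σ, hc⟩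
  rw [h.Γc hc, ← h.B _ _ (h.W _ w1) (h.W _ w2), h.inv _ w1, h.inv _ w2]; simp [BB, bl]

theorem Γ1 : Γ 1 ≠ 0 := fun e => by
  have := h.ΓΓ (map_one σ)
  rw [e, h.Γ0] at this
  exact zero_ne_one this

theorem Γmul (hl : σ l = l) (hc : σ c = c) : Γ (l * c) = Γ l / Γ 1 * Γ c := by
  have w1 : W0 σ ((1, 0, 0) : F × F × F) := ⟨map_one σ, map_zero σ⟩
  obtain ⟨m, hm, e⟩ := dperp (h.W _ w1) (h.W _ (w1.smul hl)) (fun e => by
    have := h.inv _ w1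
    rw [e, h.zero] at this
    exact zero_ne_one (congrArg Prod.fst this)) fun x hx e => by
      have hx' := h.W x hx
      rw [← h.inv x hx, h.B _ _ w1 hx'] at e
      have e1 := congrArg Γ e
      rw [h.ΓΓ (B_K w1 hx'), h.Γ0] at e1
      rw [← h.inv x hx, h.B _ _ (w1.smul hl) hx', smul_B hl, e1, mul_zero, h.Γ0]
  have k : ∀ c, σ c = c → Γ (l * c) = m * Γ c := fun c hc => by
    have := h.B _ (0, c, 0) (w1.smul hl) ⟨map_zero σ, hc⟩
    rw [e, smul_B hm, ← h.Γc hc, smul_B hl] at this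
    rw [this]; simp [BB, bl]
  have := k 1 (map_one σ)
  rw [mul_one] at this
  rw [k c hc, this, mul_div_cancel_right₀ _ h.Γ1]

theorem τK (hl : σ l = l) : σ (Γ l / Γ 1) = Γ l / Γ 1 := by rw [map_div₀, h.ΓK hl, h.ΓK (map_one σ)]

theorem smul (hl : σ l = l) (hz : W0 σ z) : A (l • z) = (Γ l / Γ 1) • A z :=
  eq_of_add σ (eq_zero ((h.W _ (hz.smul hl)).add ((h.W _ hz).smul (h.τK hl))) fun x hx => by
    have hx' := h.W x hx
    rw [← h.inv x hx, add_B, smul_B (h.τK hl), h.B _ _ (hz.smul hl) hx', h.B _ _ hz hx', smul_B hl,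
      h.Γmul hl (B_K hz hx'), af σ])

theorem DW (hz : W0 σ z) : W0 σ (A z + z) := (h.W z hz).add hz

theorem Dfix (hz : W0 σ z) : A (A z + z) = A z + z := by rw [h.add _ _ (h.W z hz) hz, h.inv z hz, add_comm]

theorem Dadd (hz : W0 σ z) (hw : W0 σ w) : A (z + w) + (z + w) = A z + z + (A w + w) := by
  rw [h.add _ _ hz hw]; abel

section lin

variable (k : ∀ c, σ c = c → Γ c = c)
include k

theorem Dsmul (hl : σ l = l) (hz : W0 σ z) : A (l • z) + l • z = l • (A z + z) := by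
  rw [h.smul hl hz, k l hl, k 1 (map_one σ), div_one, smul_add]

theorem Dadj (hz : W0 σ z) (hw : W0 σ w) : BB σ z (A w + w) = BB σ (A z + z) w := by
  have := h.B _ _ (h.W z hz) hw
  rw [h.inv z hz, k _ (B_K (h.W z hz) hw)] at this
  rw [B_add, add_B, this]

theorem DD (hz : W0 σ z) (hw : W0 σ w) : BB σ (A z + z) (A w + w) = 0 := by
  rw [h.Dadj k (h.DW hz) hw, h.Dfix hz, aa σ, B_comm, B_zero]

theorem DQ (hκ : σ κ = κ) (hz : W0 σ z) : BB σ z (A z + z) = QQ σ κ (A z + z) := by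
  rw [Q_add, h.Q z hz, k _ (Q_K hκ hz), af σ, zero_add, B_add, B_self, add_zero, B_comm]

/-- the three types of linear involutions -/
theorem tri (hκ : σ κ = κ) (hz : W0 σ z) (h0 : A z + z ≠ 0) :
    ((∀ w, W0 σ w → QQ σ κ (A w + w) = 0) ∧ ∃ w, W0 σ w ∧ BB σ w (A z + z) = 1) ∨
    ∃ x, W0 σ x ∧ QQ σ κ (A x + x) ≠ 0 ∧ ((∀ w, W0 σ w → BB σ (A x + x) w = 0 → A w + w = 0) ∨
      ∃ w, W0 σ w ∧ A w + w ≠ 0 ∧ QQ σ κ (A w + w) = 0) := by
  by_cases h1 : ∀ w, W0 σ w → QQ σ κ (A w + w) = 0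
  · obtain ⟨w, hw, e⟩ := nondeg (h.DW hz) h0 (map_one σ)
    exact Or.inl ⟨h1, w, hw, by rw [B_comm, e]⟩
  push Not at h1
  obtain ⟨x, hx, h1⟩ := h1
  refine Or.inr ⟨x, hx, h1, or_iff_not_imp_left.2 fun h2 => ?_⟩
  push Not at h2
  obtain ⟨w, hw, e, w0⟩ := h2
  obtain ⟨l, hl, e1⟩ := exists_sqrt (σ := σ) (x := QQ σ κ (A w + w) / QQ σ κ (A x + x)) (by
    rw [map_div₀, Q_K hκ (h.DW hw), Q_K hκ (h.DW hx)])
  refine ⟨w + l • x, hw.add (hx.smul hl), fun e2 => ?_, ?_⟩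
  · rw [h.Dadd hw (hx.smul hl), h.Dsmul k hl hx] at e2
    have e3 := h.Dadj k hx hw
    rw [e, eq_of_add σ e2, B_smul hl, h.DQ k hκ hx] at e3
    rw [eq_of_add σ e2, (mul_eq_zero.1 e3).resolve_right h1, zero_smul] at w0
    exact w0 rfl
  · rw [h.Dadd hw (hx.smul hl), h.Dsmul k hl hx, Q_add, Q_smul hl, e1, B_smul hl, h.DD k hw hx, div_mul_cancel₀ _ h1,
      af σ, mul_zero, add_zero]

end lin

section semi

theorem exe (hc : σ c = c) (h0 : Γ c ≠ c) : ∃ e, σ e = e ∧ Γ e / Γ 1 = 1 + e := by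
  have s1 := map_one σ
  by_cases h1 : ∀ l, σ l = l → Γ l / Γ 1 = l
  · have e1 := h.Γmul (h.ΓK s1) s1
    rw [mul_one, h1 _ (h.ΓK s1), h.ΓΓ s1] at e1
    have e2 : Γ 1 = 1 := by
      have : (Γ 1 + 1) ^ 2 = 0 := by linear_combination -e1 + (Γ 1 + 1) * two σ
      linear_combination (pow_eq_zero_iff two_ne_zero).1 this - two σ
    have := h1 c hc
    rw [e2, div_one] at this
    exact absurd this h0
  push Not at h1
  obtain ⟨l, hl, h1⟩ := h1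
  have hm := h.τK hl
  have d0 : l + Γ l / Γ 1 ≠ 0 := fun e => h1 (by linear_combination e - l * two σ)
  have dK : σ (l + Γ l / Γ 1) = l + Γ l / Γ 1 := by rw [map_add, hl, hm]
  have eK : σ (l / (l + Γ l / Γ 1)) = l / (l + Γ l / Γ 1) := by rw [map_div₀, hl, dK]
  refine ⟨_, eK, ?_⟩
  have e1 : Γ (Γ l / Γ 1 * Γ 1) = Γ (Γ l / Γ 1) / Γ 1 * Γ (Γ 1) := h.Γmul hm (h.ΓK s1)
  rw [div_mul_cancel₀ _ h.Γ1, h.ΓΓ hl, h.ΓΓ s1, mul_one] at e1
  have e2 := h.Γmul eK dK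
  rw [div_mul_cancel₀ _ d0, h.Γadd hl hm] at e2
  have g1 := h.Γ1
  generalize Γ (l / (l + Γ l / Γ 1)) / Γ 1 = x at e2 ⊢
  rw [eq_div_iff g1] at e1
  rw [← e1] at e2
  have e3 : Γ l = Γ l / Γ 1 * Γ 1 := (div_mul_cancel₀ _ g1).symm
  generalize Γ l / Γ 1 = m at *
  rw [e3] at e2
  have e4 : m = x * (m + l) := mul_right_cancel₀ g1 (by linear_combination e2)
  field_simp
  linear_combination -e4 - l * two σ

variable {e : F} (he : σ e = e) (h1 : Γ e / Γ 1 = 1 + e)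
include he h1

theorem tr (hc : σ c = c) (k : Γ c = c) : Γ (e * c) + e * c = c := by
  rw [h.Γmul he hc, h1, k]; linear_combination e * c * two σ

theorem De (ha : W0 σ a) (k : A a = a) : A (e • a) + e • a = a := by
  rw [h.smul he ha, h1, k, add_smul, one_smul, add_assoc, aa σ, add_zero]

theorem pr (hz : W0 σ z) : A (z + e • (A z + z)) = z + e • (A z + z) := by
  rw [h.add _ _ hz ((h.DW hz).smul he), h.smul he (h.DW hz), h1, h.Dfix hz, add_smul, one_smul, ← add_assoc, ← add_assoc,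
    aa σ, zero_add]

theorem prB (ha : W0 σ a) (k : A a = a) (hz : W0 σ z) (k1 : Γ (BB σ a z) = BB σ a z) :
    BB σ a (z + e • (A z + z)) = BB σ a z := by
  have := h.B _ _ ha hz
  rw [k, k1] at this
  rw [B_add, B_smul he, B_add, this, af σ, mul_zero, add_zero]

theorem fixne (hw : W0 σ w) (w0 : w ≠ 0) {T : F × F × F → Prop} (hT : ∀ a, T a → W0 σ a ∧ A a = a ∧ BB σ a w = 0) :
    ∃ x, W0 σ x ∧ x ≠ 0 ∧ A x = x ∧ ∀ a, T a → BB σ a x = 0 := by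
  by_cases h0 : A w + w = 0
  · exact ⟨w, hw, w0, eq_of_add σ h0, fun a ha => (hT a ha).2.2⟩
  · refine ⟨_, h.DW hw, h0, h.Dfix hw, fun a ha => ?_⟩
    obtain ⟨a1, a2, a3⟩ := hT a ha
    have := h.B _ _ a1 hw
    rw [a2, a3, h.Γ0] at this
    rw [B_add, this, a3, add_zero]

/-- two orthogonal hyperbolic pairs of fixed vectors -/
theorem four (hc : σ c = c) (k : Γ c = c) (c0 : c ≠ 0) : ∃ a b a' b', (W0 σ a ∧ W0 σ b ∧ W0 σ a' ∧ W0 σ b') ∧
    (A a = a ∧ A b = b ∧ A a' = a' ∧ A b' = b') ∧ BB σ a b = c ∧ BB σ a' b' = c ∧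
    BB σ a a' = 0 ∧ BB σ b a' = 0 ∧ BB σ a b' = 0 ∧ BB σ b b' = 0 := by
  obtain ⟨a, a1, a0, a2, -⟩ := h.fixne he h1 (w := (1, 0, 0)) ⟨map_one σ, map_zero σ⟩ (by simp) (T := fun _ => False)
    fun _ => False.elim
  obtain ⟨z, hz, e1⟩ := nondeg a1 a0 hc
  have b1 := hz.add ((h.DW hz).smul he)
  have b2 := h.pr he h1 hz
  have b3 := (h.prB he h1 a1 a2 hz (by rw [e1, k])).trans e1
  generalize z + e • (A z + z) = b at b1 b2 b3
  obtain ⟨w, w1, w0, w2, w3⟩ := perp2 a1 b1 (b3 ▸ c0)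
  obtain ⟨x, x1, x0, x2, x3⟩ := h.fixne he h1 w1 w0 (T := fun u => u = a ∨ u = b) (by
    rintro _ (rfl | rfl)
    exacts [⟨a1, a2, w2⟩, ⟨b1, b2, w3⟩])
  obtain ⟨u, u1, u2, u3, u4⟩ := pair2 a1 b1 (b3 ▸ c0) x1 x0 (x3 a (Or.inl rfl)) (x3 b (Or.inr rfl)) hc
  exact ⟨a, b, x, _, ⟨a1, b1, x1, u1.add ((h.DW u1).smul he)⟩, ⟨a2, b2, x2, h.pr he h1 u1⟩, b3,
    (h.prB he h1 x1 x2 u1 (by rw [u4, k])).trans u4, x3 a (Or.inl rfl), x3 b (Or.inr rfl),
    (h.prB he h1 a1 a2 u1 (by rw [u2, h.Γ0])).trans u2, (h.prB he h1 b1 b2 u1 (by rw [u3, h.Γ0])).trans u3⟩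

end semi

end Iso

end Cfsg.Agent.WA.Lk.U1
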