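import Cfsg.Agent.WA.UkTop1
import Cfsg.Agent.WA.Lk2b

/-! Module UkTop: coordinates on `Y = P Q`, weak closure of `V`. -/

set_option autoImplicit false
set_option linter.unusedSectionVars false
set_option linter.unusedVariables false

namespace Cfsg.Agent.WA.Lk.U1

open Subgroup Cfsg.Agent.H1.U3 Cfsg.Agent.H8 X2
open Cfsg.Agent.WA.Rw (conj_mem' conj_mem'' norm_of mem_c1 mem_cH)

variable {F : Type*} [Field F] [Finite F] {σ : F →+* F} [Ctx σ] {G : Type*} [Group G] [Finite G]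

open Classical in
/-- coordinates on `Y / V` -/
noncomputable def pi (f : Fr σ G) (P : Subgroup G) (y ξ : G → F) (g : G) : F × F × F :=
  if H : ∃ x ∈ P, ∃ u, x * f.j u = g then (y H.choose, ξ H.choose, H.choose_spec.2.choose.a) else 0

/-- `v` is a commutator of two elements of any subgroup of index at most two of `X` -/
def Rob (X : Subgroup G) (v : G) : Prop :=
  ∀ H : G → Prop, (∀ x ∈ X, ∀ z ∈ X, ¬ H x → ¬ H z → H (x * z)) → ∃ x ∈ X, ∃ z ∈ X, H x ∧ H z ∧ x * z * x⁻¹ * z⁻¹ = v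

structure Cx (f : Fr σ G) (t : G) (P : Subgroup G) (y ξ : G → F) (κ : F) (K S : Subgroup G) : Prop where
  top : f.Top t P y ξ κ
  out : Out K t
  syl : IsSylowIn 2 S ⊤
  RS : RR f P ≤ S

theorem card_two {X H : Subgroup G} (h : ∀ a ∈ X, ∀ b ∈ X, a ∉ H → b ∉ H → a * b ∈ H) :
    Nat.card X ≤ 2 * Nat.card ↥(X ⊓ H) := by
  by_cases c : X ≤ H
  · rw [inf_eq_left.2 c]; omega
  obtain ⟨b, hb, b1⟩ := SetLike.not_le_iff_exists.1 c
  rw [← H9.card_mul_relIndex (inf_le_left : X ⊓ H ≤ X), H9.relIndex_eq_two_of (M := X ⊓ H) hb (fun e => b1 e.2)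
    fun s hs s1 => ⟨mul_mem hs hb, h s hs b hb (fun e => s1 ⟨hs, e⟩) b1⟩, mul_comm]

theorem cjm (g a b : G) : g * (a * b) * g⁻¹ = g * a * g⁻¹ * (g * b * g⁻¹) := by group

theorem cjc (g a b : G) : g * (a * b * a⁻¹ * b⁻¹) * g⁻¹ =
    g * a * g⁻¹ * (g * b * g⁻¹) * (g * a * g⁻¹)⁻¹ * (g * b * g⁻¹)⁻¹ := by group

theorem cm1 {a b : G} : a * b * a⁻¹ * b⁻¹ = 1 ↔ a * b = b * a := by rw [mul_inv_eq_one, mul_inv_eq_iff_eq_mul]

theorem norm_cl {T : Set G} {g : G} (h : ∀ x ∈ T, g * x * g⁻¹ ∈ closure T) : g ∈ normalizer ((closure T : Subgroup G) : Set G) :=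
  mem_normalizer_of_cj_le (by rw [cj, MonoidHom.map_closure, closure_le]; rintro _ ⟨x, hx, rfl⟩; exact h x hx)

variable {f : Fr σ G} {t a b g k n r s v w x z : G} {P K S X : Subgroup G} {y ξ : G → F} {κ c l : F} {p m : F × F × F}

local notation "π" => pi f P y ξ
local notation "𝐘" => YY f P
local notation "𝐑" => RR f P

section top

variable (h : f.Top t P y ξ κ)
include h

theorem pi_eq (hx : x ∈ P) (u : US σ) : π (x * f.j u) = (y x, ξ x, u.a) := by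
  have H : ∃ x' ∈ P, ∃ u', x' * f.j u' = x * f.j u := ⟨x, hx, u, rfl⟩
  rw [pi, dif_pos H]
  have e := H.choose_spec.2.choose_spec
  have h1 := H.choose_spec.1
  generalize H.choose_spec.2.choose = u' at e
  generalize H.choose = x' at e h1
  have e1 : x' * x⁻¹ * f.j (u' * u⁻¹) = 1 := by
    rw [map_mul, map_inv, mul_assoc, ← mul_assoc x⁻¹, pq h (inv_mem hx), ← mul_assoc, ← mul_assoc, e, pq h hx]; group
  have e2 := (mulV h (mul_mem h1 (inv_mem hx))).1 (e1 ▸ one_mem f.V)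
  obtain ⟨e3, e4⟩ := (h.ker _ (mul_mem h1 (inv_mem hx))).1 e2.1
  rw [(quot_c h h1 hx).1] at e3
  rw [(quot_c h h1 hx).2] at e4
  have e5 := e2.2
  rw [mul_a, inv_a] at e5
  rw [show y x' = y x by linear_combination e3 - y x * two σ, show ξ x' = ξ x by linear_combination e4 - ξ x * two σ,
    show u'.a = u.a by linear_combination e5]

theorem pi_mul (ha : a ∈ 𝐘) (hb : b ∈ 𝐘) : π (a * b) = π a + π b := by
  obtain ⟨x, hx, u, rfl⟩ := (memY h).1 ha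
  obtain ⟨z, hz, w, rfl⟩ := (memY h).1 hb
  rw [show x * f.j u * (z * f.j w) = x * z * f.j (u * w) by
    rw [map_mul, mul_assoc, ← mul_assoc (f.j u), ← pq h hz]; group, pi_eq h (mul_mem hx hz), pi_eq h hx, pi_eq h hz,
    h.y_mul x hx z hz, h.ξ_mul x hx z hz, mul_a]
  rfl

theorem pi_W (ha : a ∈ 𝐘) : W0 σ (π a) := by
  obtain ⟨x, hx, u, rfl⟩ := (memY h).1 ha
  rw [pi_eq h hx]; exact ⟨h.yK x hx, h.ξK x hx⟩

theorem pi_zero (ha : a ∈ 𝐘) : π a = 0 ↔ a ∈ f.V := by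
  obtain ⟨x, hx, u, rfl⟩ := (memY h).1 ha
  rw [pi_eq h hx, mulV h hx, h.ker x hx]
  simp [and_assoc]

theorem pi_V (ha : a ∈ f.V) : π a = 0 := (pi_zero h (VY h ha)).2 ha

theorem pi_inv (ha : a ∈ 𝐘) : π a⁻¹ = π a := by
  have := pi_mul h (inv_mem ha) ha
  rw [inv_mul_cancel, pi_V h (one_mem _)] at this
  exact eq_of_add σ this.symm

theorem pi_surj (hp : W0 σ p) : ∃ a ∈ 𝐘, π a = p := by
  obtain ⟨x, hx, e1, e2⟩ := h.surj _ _ hp.1 hp.2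
  exact ⟨_, mul_mem (PY h hx) (jY h (lift σ p.2.2)), by rw [pi_eq h hx, e1, e2, lift_a]⟩

theorem pi_div (ha : a ∈ 𝐘) (hb : b ∈ 𝐘) (e : π a = π b) : a * b⁻¹ ∈ f.V :=
  (pi_zero h (mul_mem ha (inv_mem hb))).1 (by rw [pi_mul h ha (inv_mem hb), pi_inv h hb, e, aa σ])

theorem pi_cm (ha : a ∈ 𝐘) (hb : b ∈ 𝐘) : a * b * a⁻¹ * b⁻¹ = f.vv (BB σ (π a) (π b)) := by
  obtain ⟨x, hx, u, rfl⟩ := (memY h).1 ha
  obtain ⟨z, hz, w, rfl⟩ := (memY h).1 hb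
  rw [cmYe h hx hz, pi_eq h hx, pi_eq h hz]; rfl

theorem pi_sq (ha : a ∈ 𝐘) : a * a = f.vv (QQ σ κ (π a)) := by
  obtain ⟨x, hx, u, rfl⟩ := (memY h).1 ha
  rw [sqYe h hx, pi_eq h hx, h.sq x hx, f.j_sq, ← f.vv_add (by
    simp only [map_add, map_mul, map_pow, h.yK x hx, h.ξK x hx, h.κK]) (nm_fixed _)]; rfl

theorem comm_iff (ha : a ∈ 𝐘) (hb : b ∈ 𝐘) : a * b = b * a ↔ BB σ (π a) (π b) = 0 := by
  rw [← cm1, pi_cm h ha hb]
  exact ⟨vv_eq_one (B_K (pi_W h ha) (pi_W h hb)), fun e => by rw [e, f.vv_zero]⟩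

theorem sq_iff (ha : a ∈ 𝐘) : a * a = 1 ↔ QQ σ κ (π a) = 0 := by
  rw [pi_sq h ha]
  exact ⟨vv_eq_one (Q_K h.κK (pi_W h ha)), fun e => by rw [e, f.vv_zero]⟩

theorem vY (hv : v ∈ f.V) (ha : a ∈ 𝐘) : v * a = a * v := YV h ha v hv

theorem Ypg : IsPGroup 2 𝐘 := (Rpg h).to_le (YR h)

theorem rob_of (hX : X ≤ 𝐘) {W : F × F × F → Prop} (Wa : ∀ x z, W x → W z → W (x + z))
    (Ws : ∀ l x, σ l = l → W x → W (l • x)) (hm : ∀ z, W z → BB σ z m = 0)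
    (cov : ∀ z, W z → ∃ x ∈ X, ∃ l, σ l = l ∧ π x = z + l • m) {p p' : F × F × F} (h1 : W p) (h2 : W p')
    (e : BB σ p p' = 1) (hv : v ∈ f.V) : Rob X v := fun H idx => by
  obtain ⟨c, hc, rfl⟩ := f.mem_V.1 hv
  obtain ⟨a, b, wa, wb, ⟨x, hx, ⟨l, hl, ex⟩, x1⟩, ⟨z, hz, ⟨l', hl', ez⟩, z1⟩, e⟩ := idx2 f (B := BB σ)
    (H := fun z => ∃ x ∈ X, (∃ l, σ l = l ∧ π x = z + l • m) ∧ H x) Wa Ws B_add (fun l x y hl => B_smul hl x y) B_comm B_self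
    (fun a b wa wb ha hb => by
      obtain ⟨x, hx, l, hl, ex⟩ := cov a wa
      obtain ⟨z, hz, l', hl', ez⟩ := cov b wb
      exact ⟨x * z, mul_mem hx hz, ⟨l + l', by rw [map_add, hl, hl'], by
        rw [pi_mul h (hX hx) (hX hz), ex, ez, add_smul]; abel⟩,
        idx x hx z hz (fun e => ha ⟨x, hx, ⟨l, hl, ex⟩, e⟩) fun e => hb ⟨z, hz, ⟨l', hl', ez⟩, e⟩⟩) h1 h2 e hc
  refine ⟨x, hx, z, hz, x1, z1, ?_⟩
  rw [pi_cm h (hX hx) (hX hz), ex, ez, add_B, B_add, B_add, B_smul hl', smul_B hl, smul_B hl, B_smul hl', B_self, hm a wa,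
    B_comm m, hm b wb, e]
  simp

theorem robY (hv : v ∈ f.V) : Rob 𝐘 v :=
  rob_of h le_rfl (W := W0 σ) (m := 0) (fun _ _ => W0.add) (fun _ _ hl hx => hx.smul hl) (fun z _ => B_zero z)
    (fun z hz => (pi_surj h hz).imp fun a ha => ⟨ha.1, 0, map_zero σ, by rw [ha.2]; simp⟩)
    (p := (1, 0, 0)) (p' := (0, 1, 0)) ⟨map_one σ, map_zero σ⟩ ⟨map_zero σ, map_one σ⟩ (by simp [BB, bl]) hv

theorem robC (hs : s ∈ 𝐘) (s1 : s ∉ f.V) (hv : v ∈ f.V) : Rob (𝐘 ⊓ centralizer {s}) v := by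
  obtain ⟨w, z, h1, h2, h3, h4, h5⟩ := pair1 (pi_W h hs) fun e => s1 ((pi_zero h hs).1 e)
  exact rob_of h inf_le_left (W := fun z => W0 σ z ∧ BB σ (π s) z = 0) (m := 0)
    (fun _ _ a b => ⟨a.1.add b.1, by rw [B_add, a.2, b.2, add_zero]⟩)
    (fun _ _ hl hx => ⟨hx.1.smul hl, by rw [B_smul hl, hx.2, mul_zero]⟩) (fun z _ => B_zero z) (fun z hz => by
      obtain ⟨a, ha, rfl⟩ := pi_surj h hz.1
      exact ⟨a, ⟨ha, mem_c1.2 ((comm_iff h hs ha).2 hz.2).symm⟩, 0, map_zero σ, by simp⟩) ⟨h1, h3⟩ ⟨h2, h4⟩ h5 hv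

theorem cardC (hs : s ∈ 𝐘) : Nat.card 𝐘 ≤ Nat.card ↥(𝐘 ⊓ centralizer {s}) * f.q :=
  f.card_K ▸ X1.card_le' (K := KK σ) (ψ := fun a => BB σ (π s) (π a)) (fun a ha b hb => by rw [pi_mul h ha hb, B_add])
    (fun a ha => B_K (pi_W h hs) (pi_W h ha)) fun a ha e => ⟨ha, mem_c1.2 ((comm_iff h hs ha).2 e).symm⟩

theorem cardC' (hs : s ∈ 𝐘) (s1 : s ∉ f.V) : Nat.card ↥(𝐘 ⊓ centralizer {s}) * f.q ≤ Nat.card 𝐘 :=
  f.card_K ▸ X1.card_ge' (K := KK σ) (ψ := fun a => BB σ (π s) (π a)) (fun a ha b hb => by rw [pi_mul h ha hb, B_add])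
    (fun c hc => by
      obtain ⟨w, h1, h2⟩ := nondeg (pi_W h hs) (fun e => s1 ((pi_zero h hs).1 e)) hc
      obtain ⟨a, ha, rfl⟩ := pi_surj h h1
      exact ⟨a, ha, h2⟩) fun a ha => ⟨ha.1, (comm_iff h hs ha.1).1 (mem_c1.1 ha.2).symm⟩

theorem cardY : f.q ^ 5 ≤ Nat.card 𝐘 := by
  have h1 := X1.card_ge' (X := 𝐘) (N := P) (K := (⊤ : AddSubgroup F)) (ψ := fun a => (π a).2.2)
    (fun a ha b hb => by rw [pi_mul h ha hb]; rfl) (fun c _ => by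
      obtain ⟨a, ha, e⟩ := pi_surj h (p := (0, 0, c)) ⟨map_zero σ, map_zero σ⟩
      exact ⟨a, ha, by rw [e]⟩) fun a ha => ⟨PY h ha, by
      have := pi_eq h ha 1
      rw [map_one, mul_one] at this
      rw [this]; rfl⟩
  rw [AddSubgroup.card_top, f.card_F] at h1
  calc _ = f.q ^ 3 * f.q ^ 2 := by ring
    _ ≤ _ := (Nat.mul_le_mul_right _ (cardP h)).trans h1

theorem memV (ha : a ∈ 𝐘) (a2 : a * a = 1) (h1 : (π a).1 = 0) (h2 : (π a).2.1 = 0) : a ∈ f.V := by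
  have := (sq_iff h ha).1 a2
  rw [QQ, h1, h2] at this
  exact (pi_zero h ha).1 (Prod.ext h1 (Prod.ext h2 (nm_eq_zero.1 (by simpa using this))))

theorem cardE2 (hX : X ≤ 𝐘) (h2 : ∀ a ∈ X, a * a = 1) (h0 : ∀ a ∈ X, (π a).2.1 = 0) :
    Nat.card X ≤ Nat.card ↥(X ⊓ f.V) * f.q :=
  f.card_K ▸ X1.card_le' (K := KK σ) (ψ := fun a => (π a).1) (fun a ha b hb => by rw [pi_mul h (hX ha) (hX hb)]; rfl)
    (fun a ha => (pi_W h (hX ha)).1) fun a ha e => ⟨ha, memV h (hX ha) (h2 a ha) e (h0 a ha)⟩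

theorem cardE3 (hX : X ≤ 𝐘) (h2 : ∀ a ∈ X, a * a = 1) : Nat.card X ≤ Nat.card ↥(X ⊓ f.V) * (f.q * f.q) := by
  have := X1.card_le' (X := X) (N := X ⊓ f.V) (K := (KK σ).prod (KK σ)) (ψ := fun a => ((π a).1, (π a).2.1))
    (fun a ha b hb => by rw [pi_mul h (hX ha) (hX hb)]; rfl) (fun a ha => pi_W h (hX ha))
    fun a ha e => ⟨ha, memV h (hX ha) (h2 a ha) (congrArg Prod.fst e) (congrArg Prod.snd e)⟩
  rwa [Nat.card_congr ((KK σ).prodEquiv (KK σ)).toEquiv, Nat.card_prod, f.card_K] at this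

theorem cenV (ha : a ∈ 𝐑) (h1 : a * a ∈ 𝐘) (hv : v ∈ f.V) : v * a = a * v :=
  (f.tt_cases (RNQ h ha) (ctY h h1).2).elim (fun e => f.cen_V_of_ct (RNQ h ha) (cc_one h ha e) e v hv) fun e => (sigV h ha e).2 v hv

/-- elements of `Y` that commute modulo `V` with an element of `t r Y` -/
theorem zfix (hx : Rt f P (t * x)) (ha : a ∈ 𝐘) (e : x * a * x⁻¹ * a⁻¹ ∈ f.V) :
    (π a).2.1 = 0 ∧ f.cc (t * x) * σ (π a).2.2 = (π a).2.2 := by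
  obtain ⟨z, hz, u, rfl⟩ := (memY h).1 ha
  have xR : x ∈ 𝐑 := (mul_mem_cancel_left (tR h)).1 hx.1
  obtain ⟨e1, e2⟩ := splitV h xR hz e
  rw [pi_eq h hz]
  refine ⟨(tact_zero h hx.2.2 hz e1 :), ?_⟩
  rw [← ttt h xR, hx.2.1] at e2
  rw [cc_eq h hx.1 xR (ttt h xR)]; exact e2

theorem tconj (ha : a ∈ 𝐘) (h0 : (π a).2.1 = 0) : t * a * t⁻¹ = f.vv ((π a).1 ^ 2) * a := by
  obtain ⟨z, hz, u, rfl⟩ := (memY h).1 ha
  rw [pi_eq h hz] at h0 ⊢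
  have e1 := h.inv z hz h0
  have e2 := sqB h hz h0
  have e3 : t * f.j u = f.j u * t := ((memC h).1 (f.Q_le_C ⟨u, rfl⟩)).symm
  have e4 := f.V_sq (f.vv_mem (y z ^ 2))
  rw [← e2] at e4 ⊢
  rw [ti h, mul_assoc, mul_assoc, ← e3, ← mul_assoc, ← mul_assoc, e1, ← mul_assoc, mul_left_inj, inv_eq_iff_mul_eq_one, ← e4]
  group

end top

end Cfsg.Agent.WA.Lk.U1
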