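import Cfsg.Agent.WA.UkTop2

/-! Module UkTop: `V` is strongly closed in `Y`. -/

set_option autoImplicit false
set_option linter.unusedSectionVars false
set_option linter.unusedVariables false

namespace Cfsg.Agent.WA.Lk.U1

open Subgroup Cfsg.Agent.H1.U3 Cfsg.Agent.H8 X2
open Cfsg.Agent.WA.Rw (conj_mem' conj_mem'' norm_of mem_c1 mem_cH)

variable {F : Type*} [Field F] [Finite F] {σ : F →+* F} [Ctx σ] {G : Type*} [Group G] [Finite G]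
variable {f : Fr σ G} {t a b g k n r s v w x z : G} {P K S X : Subgroup G} {y ξ : G → F} {κ c l : F} {p m : F × F × F}

local notation "π" => pi f P y ξ
local notation "𝐘" => YY f P
local notation "𝐑" => RR f P

theorem cj_sq (g : G) (h : a * a = 1) : g * a * g⁻¹ * (g * a * g⁻¹) = 1 := by rw [← cjm, h]; group

theorem cj_back (h : g * a * g⁻¹ * (g * b * g⁻¹) = g * b * g⁻¹ * (g * a * g⁻¹)) : a * b = b * a := by
  rw [← cjm, ← cjm] at h; simpa using h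

theorem VC_cj (hs : f.VC s) (g : G) : f.VC (g * s * g⁻¹) := by
  obtain ⟨v, h1, h2, h3⟩ := hs
  exact ⟨v, h1, h2, h3.trans (isConj_iff.2 ⟨g, rfl⟩)⟩

theorem VC_sq (hs : f.VC s) : s * s = 1 := by
  obtain ⟨v, h1, h2, h3⟩ := hs
  obtain ⟨g, rfl⟩ := isConj_iff.1 h3
  exact cj_sq g (f.V_sq h1)

theorem NV_of (h : ∀ v ∈ f.V, g * v * g⁻¹ ∈ f.V) (hs : g * s * g⁻¹ ∈ f.V) : s ∈ f.V := by
  simpa [mul_assoc] using conj_mem'' (norm_of h) hs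

theorem PK (h : f.Top t P y ξ κ) (o : Out K t) : P ≤ K := by
  have hB : ∀ b ∈ P, ξ b = 0 → b ∈ K := fun b hb b0 => by
    obtain ⟨p, hp, rfl⟩ := exB h hb b0
    simpa [ti h] using o.cm t p
  obtain ⟨ω, ω1, ω0, ω2, -⟩ := f.exists_K 1 1
  set d := f.d (Units.mk0 ω ω0) with hd
  have dD : d ∈ f.D := f.d_mem_D _
  have dt : d * t = t * d := (memC h).1 dD.1
  have dP := fun x (hx : x ∈ P) => conj_mem' (h.DN dD) hx
  have dv : ∀ c, σ c = c → d * f.vv c * d⁻¹ = f.vv (ω ^ 2 * c) := fun c hc => by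
    rw [f.conj_vv dD.2 hc, (f.ct_d _).2.1, f.cc_d_K (μ := Units.mk0 ω ω0) ω1]
    simp [nm, ω1, sq]
  have td : ∀ x, t * (d * x * d⁻¹) * t = d * (t * x * t) * d⁻¹ := fun x => by
    calc _ = t * d * x * (d⁻¹ * t * d) * d⁻¹ := by group
      _ = _ := by rw [mul_assoc d⁻¹, ← dt]; group
  have dξ : ∀ x ∈ P, ξ (d * x * d⁻¹) = ω * ξ x := fun x hx => by
    obtain ⟨b1, b2, b3⟩ := tcm h hx
    obtain ⟨c1, c2, c3⟩ := tcm h (dP x hx)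
    have e := sqB h c1 c3
    rw [c2, td, show d * (t * x * t) * d⁻¹ * (d * x * d⁻¹)⁻¹ = d * (t * x * t * x⁻¹) * d⁻¹ by group, ← cjm, sqB h b1 b3, b2,
      dv _ (by rw [map_pow, h.ξK x hx])] at e
    have := f.vv_inj (by rw [map_mul, map_pow, map_pow, ω1, h.ξK x hx]) (by rw [map_pow, h.ξK _ (dP x hx)]) e
    have e2 : (ξ (d * x * d⁻¹) + ω * ξ x) ^ 2 = 0 := by
      linear_combination -this + (ω ^ 2 * ξ x ^ 2 + ω * ξ x * ξ (d * x * d⁻¹)) * two σ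
    linear_combination (pow_eq_zero_iff two_ne_zero).1 e2 - ω * ξ x * two σ
  intro x hx
  have w1 : ω + 1 ≠ 0 := fun e => ω2 (by linear_combination e - two σ)
  obtain ⟨z, hz, -, e⟩ := h.surj 0 (ξ x / (ω + 1)) (map_zero σ) (by rw [map_div₀, map_add, map_one, ω1, h.ξK x hx])
  have m := mul_mem (dP z hz) (inv_mem hz)
  refine (mul_mem_cancel_right (o.cm d z)).1 (hB _ (mul_mem hx m) ?_)
  rw [h.ξ_mul _ hx _ m, (quot_c h (dP z hz) hz).2, dξ z hz, e]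
  field_simp
  linear_combination ξ x * two σ

namespace Cx

variable (C : Cx f t P y ξ κ K S)
include C

theorem YK : 𝐘 ≤ K := sup_le (PK C.top C.out) (by rintro _ ⟨u, rfl⟩; exact C.out.jK f u)

theorem YS : 𝐘 ≤ S := (YR C.top).trans C.RS

theorem idx (ha : a ∈ S) (hb : b ∈ S) (a1 : a ∉ 𝐑) (b1 : b ∉ 𝐑) : a * b ∈ 𝐑 := idxS' C.top C.syl.pgroup C.RS a ha b hb a1 b1

theorem sw (hn : n ∈ S) (n1 : n ∉ 𝐑) : Rt f P (n * t * n⁻¹) := isSw C.top C.syl.pgroup C.RS hn (SN C.top C.syl.pgroup C.RS hn) n1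

theorem SY (hn : n ∈ S) : n ∈ normalizer (𝐘 : Set G) := by
  by_cases c : n ∈ 𝐑
  · exact RNY C.top c
  · exact NY C.top (SN C.top C.syl.pgroup C.RS hn) (C.sw hn c)

theorem SV (hn : n ∈ S) (hv : v ∈ f.V) : n * v * n⁻¹ ∈ f.V := by
  obtain ⟨a, ha, b, hb, -, -, rfl⟩ := robY C.top hv (fun _ => True) fun _ _ _ _ _ _ => trivial
  rw [cjc]; exact cmY C.top (conj_mem' (C.SY hn) ha) (conj_mem' (C.SY hn) hb)

theorem noRt (hn : n ∈ S) (n1 : n ∉ 𝐑) (hr : Rt f P r) : r ∉ K := fun e =>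
  C.out.tn ((C.out.conj_iff n).1 ((mul_mem_cancel_left (inv_mem e)).1 (C.YK (Rt_div C.top hr (C.sw hn n1)))))

theorem typ (ha : a ∈ 𝐑) (aK : a ∈ K) (a2 : a * a ∈ 𝐘) (a1 : a ∉ 𝐘) : Rt f P a ∨ Rt f P (t * a) :=
  (((types' C.top ha a2).resolve_left a1).resolve_left fun e => C.out.tn ((mul_mem_cancel_right aK).1 (C.YK e)))

theorem I2 (ha : a ∈ 𝐑) (aK : a ∈ K) (a2 : a * a ∈ 𝐘) (a1 : a ∉ 𝐘) (hb : b ∈ 𝐑) (bK : b ∈ K) (b2 : b * b ∈ 𝐘) (b1 : b ∉ 𝐘) :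
    a * b ∈ 𝐘 := by
  have k : a⁻¹ * b ∈ 𝐘 := by
    rcases C.typ ha aK a2 a1 with e | e <;> rcases C.typ hb bK b2 b1 with e' | e'
    · exact Rt_div C.top e e'
    · exact absurd ((mul_mem_cancel_right bK).1 ((mul_mem_cancel_left (inv_mem aK)).1 (C.YK (Rt_div C.top e e')))) C.out.tn
    · exact absurd ((mul_mem_cancel_right aK).1 ((mul_mem_cancel_left (inv_mem bK)).1 (C.YK (Rt_div C.top e' e)))) C.out.tn
    · simpa [mul_assoc] using Rt_div C.top e e'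
  simpa [mul_assoc] using mul_mem a2 k

theorem four (hS : X ≤ S) (hK : X ≤ K) (h2 : ∀ a ∈ X, a * a ∈ 𝐘) : Nat.card X ≤ 4 * Nat.card ↥(X ⊓ 𝐘) := by
  have h1 := card_two (X := X) (H := 𝐑) fun a ha b hb => C.idx (hS ha) (hS hb)
  have h3 := card_two (X := X ⊓ 𝐑) (H := 𝐘) fun a ha b hb a1 b1 => C.I2 ha.2 (hK ha.1) (h2 a ha.1) a1 hb.2 (hK hb.1) (h2 b hb.1) b1
  rw [inf_assoc, inf_eq_right.2 (YR C.top)] at h3
  omega

theorem dich (hS : X ≤ S) (hK : X ≤ K) (h2 : ∀ a ∈ X, a * a ∈ 𝐘) :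
    (∀ a ∈ X, ∀ b ∈ X, a ∉ 𝐘 → b ∉ 𝐘 → a * b ∈ 𝐘) ∨ ∃ x ∈ X, Rt f P (t * x) ∧ x ∈ 𝐑 ∧ x ∉ 𝐘 ∧ ∃ n ∈ X, n ∉ 𝐑 := by
  refine or_iff_not_imp_left.2 fun h => ?_
  push Not at h
  obtain ⟨a, ha, b, hb, a1, b1, c1⟩ := h
  have k : ∀ x ∈ X, x ∈ 𝐑 → x ∉ 𝐘 → ∀ n ∈ X, n ∉ 𝐑 → ∃ x ∈ X, Rt f P (t * x) ∧ x ∈ 𝐑 ∧ x ∉ 𝐘 ∧ ∃ n ∈ X, n ∉ 𝐑 :=
    fun x hx x1 x2 n hn n1 => ⟨x, hx, (C.typ x1 (hK hx) (h2 x hx) x2).resolve_left fun e => C.noRt (hS hn) n1 e (hK hx),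
      x1, x2, n, hn, n1⟩
  by_cases aR : a ∈ 𝐑 <;> by_cases bR : b ∈ 𝐑
  · exact absurd (C.I2 aR (hK ha) (h2 a ha) a1 bR (hK hb) (h2 b hb) b1) c1
  · exact k a ha aR a1 b hb bR
  · exact k b hb bR b1 a ha aR
  · exact k _ (mul_mem ha hb) (C.idx (hS ha) (hS hb) aR bR) c1 a ha aR

theorem toY (hk : cj k X ≤ S) (hv : Rob X v) : k * v * k⁻¹ ∈ 𝐘 := by
  obtain ⟨a, -, b, -, ha, hb, rfl⟩ := hv (fun x => k * x * k⁻¹ ∈ 𝐑) fun a ha b hb a1 b1 => by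
    rw [cjm]; exact C.idx (hk (conj_mem_cj k ha)) (hk (conj_mem_cj k hb)) a1 b1
  rw [cjc]; exact cmR C.top ha hb

theorem toV (hk : ∀ a ∈ cj k X, ∀ b ∈ cj k X, a ∉ 𝐘 → b ∉ 𝐘 → a * b ∈ 𝐘) (hv : Rob X v) : k * v * k⁻¹ ∈ f.V := by
  obtain ⟨a, -, b, -, ha, hb, rfl⟩ := hv (fun x => k * x * k⁻¹ ∈ 𝐘) fun a ha b hb a1 b1 => by
    rw [cjm]; exact hk _ (conj_mem_cj k ha) _ (conj_mem_cj k hb) a1 b1
  rw [cjc]; exact cmY C.top ha hb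

theorem cjK (hX : X ≤ K) (k : G) : cj k X ≤ K := by
  rintro _ ⟨x, hx, rfl⟩; exact C.out.conj k (hX hx)

theorem cjsq (hX : X ≤ 𝐘) (hV : ∀ v ∈ f.V, k * v * k⁻¹ ∈ 𝐘) : ∀ a ∈ cj k X, a * a ∈ 𝐘 := by
  rintro _ ⟨x, hx, rfl⟩
  exact (cjm k x x) ▸ hV _ (sqY C.top (hX hx))

theorem wc (g : G) (hg : cj g 𝐘 ≤ S) : cj g f.V = f.V := by
  have h := C.top
  have h1 : ∀ v ∈ f.V, g * v * g⁻¹ ∈ 𝐘 := fun v hv => C.toY hg (robY h hv)
  refine cj_eq_self (norm_of fun v hv => by_contra fun w1 => ?_)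
  have h2 := C.four hg (C.cjK C.YK g) (C.cjsq le_rfl h1)
  have h3 := cardC' h (h1 v hv) w1
  have h4 : cj g 𝐘 ⊓ 𝐘 ≤ 𝐘 ⊓ centralizer {g * v * g⁻¹} := by
    rintro _ ⟨⟨x, hx, rfl⟩, e⟩
    exact ⟨e, mem_c1.2 (cj_comm g (vY h hv hx).symm)⟩
  rw [card_cj] at h2
  have h5 := eq_of_le_of_card_ge h4 (by nlinarith [f.four_le])
  have h6 : f.V ≤ cj g f.V := fun u hu => by
    obtain ⟨a, ha, b, hb, -, -, rfl⟩ := robC h (h1 v hv) w1 hu (fun _ => True) fun _ _ _ _ _ _ => trivial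
    rw [← h5] at ha hb
    obtain ⟨⟨a, ha, rfl⟩, -⟩ := ha
    obtain ⟨⟨b, hb, rfl⟩, -⟩ := hb
    exact (cjc g a b) ▸ conj_mem_cj g (cmY h ha hb)
  exact w1 (by rw [eq_of_le_of_card_ge h6 (card_cj g _).le]; exact conj_mem_cj g hv)

theorem ext {A B : Subgroup G} (hA : A ≤ cj g f.V) (hB : B ≤ S) (hN : B ≤ normalizer (A : Set G)) :
    ∃ k, cj k A ≤ f.V ∧ cj k B ≤ S :=
  ext_gen C.syl (Ypg C.top) (YV C.top) C.wc hA (C.syl.pgroup.to_le hB) hN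

theorem ext1 (hs : f.VC s) : ∃ k, k * s * k⁻¹ ∈ f.V ∧ cj k (S ⊓ centralizer {s}) ≤ S := by
  obtain ⟨v, h1, -, h3⟩ := hs
  obtain ⟨g, rfl⟩ := isConj_iff.1 h3
  obtain ⟨k, h4, h5⟩ := C.ext (A := closure {g * v * g⁻¹}) (B := S ⊓ centralizer {g * v * g⁻¹})
    ((closure_le _).2 (Set.singleton_subset_iff.2 (conj_mem_cj g h1))) inf_le_left fun x hx => norm_cl (by
      rintro _ rfl
      rw [mem_c1.1 hx.2, mul_inv_cancel_right]; exact subset_closure rfl)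
  exact ⟨k, h4 (conj_mem_cj k (subset_closure rfl)), h5⟩

/-- two conjugates of `V` in `Y` meet trivially -/
theorem ti1 (hs : s ∈ cj g f.V) (sY : s ∈ 𝐘) (s1 : s ∉ f.V) (hv : v ∈ cj g f.V) (vV : v ∈ f.V) : v = 1 := by
  have h := C.top
  obtain ⟨c, hc, rfl⟩ := f.mem_V.1 vV
  obtain ⟨p, hp, e⟩ := nondeg (pi_W h sY) (fun e => s1 ((pi_zero h sY).1 e)) hc
  obtain ⟨u, hu, rfl⟩ := pi_surj h hp
  have e1 := pi_cm h hu sY
  rw [B_comm, e, mul_inv_eq_iff_eq_mul] at e1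
  have m1 : s ∈ closure {s, f.vv c} := subset_closure (by simp)
  have m2 : f.vv c ∈ closure {s, f.vv c} := subset_closure (by simp)
  have N : ∀ x ∈ 𝐘, x * s * x⁻¹ ∈ closure {s, f.vv c} → x ∈ normalizer ((closure {s, f.vv c} : Subgroup G) : Set G) :=
    fun x hx e => norm_cl (by
      rintro _ (rfl | rfl)
      · exact e
      · rwa [← vY h vV hx, mul_inv_cancel_right])
  have hX : 𝐘 ⊓ centralizer {s} ≤ 𝐘 ⊓ normalizer ((closure {s, f.vv c} : Subgroup G) : Set G) := fun x hx =>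
    ⟨hx.1, N x hx.1 (by rwa [mem_c1.1 hx.2, mul_inv_cancel_right])⟩
  obtain ⟨k, h4, h5⟩ := C.ext (A := closure {s, f.vv c}) (B := 𝐘 ⊓ normalizer ((closure {s, f.vv c} : Subgroup G) : Set G))
    ((closure_le _).2 (by rintro _ (rfl | rfl); exacts [hs, hv])) (inf_le_left.trans C.YS) inf_le_right
  have h6 := (cj_mono k hX).trans h5
  have h1 : ∀ v ∈ f.V, k * v * k⁻¹ ∈ 𝐘 := fun v hv => C.toY h6 (robC h sY s1 hv)
  have sV := h4 (conj_mem_cj k m1)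
  rcases C.dich h6 (C.cjK (inf_le_left.trans C.YK) k) (C.cjsq inf_le_left h1) with d | ⟨x, hx, -, xR, x1, n, hn, n1⟩
  · exact absurd (NV_of (fun v hv => C.toV d (robC h sY s1 hv)) sV) s1
  have uB := conj_mem_cj k (show u ∈ 𝐘 ⊓ normalizer ((closure {s, f.vv c} : Subgroup G) : Set G) from
    ⟨hu, N u hu (e1 ▸ mul_mem m2 m1)⟩)
  have cs : ∀ x ∈ cj k (𝐘 ⊓ centralizer {s}), x * (k * s * k⁻¹) = k * s * k⁻¹ * x := by
    rintro _ ⟨x, hx, rfl⟩; exact cj_comm k (mem_c1.1 hx.2)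
  have cR : ∀ a ∈ cj k (𝐘 ⊓ normalizer ((closure {s, f.vv c} : Subgroup G) : Set G)), a ∈ 𝐑 → a * (k * s * k⁻¹) = k * s * k⁻¹ * a :=
    fun a ha aR => (cenV h aR (C.cjsq inf_le_left h1 a ha) sV).symm
  have e2 : k * u * k⁻¹ * (k * s * k⁻¹) = k * s * k⁻¹ * (k * u * k⁻¹) := by
    by_cases uR : k * u * k⁻¹ ∈ 𝐑
    · exact cR _ uB uR
    · have := cR _ (mul_mem uB (cj_mono k hX hn)) (C.idx (h5 uB) (h6 hn) uR n1)
      rw [mul_assoc, cs n hn, ← mul_assoc _ _ n, ← mul_assoc _ _ n, mul_left_inj] at this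
      exact this
  rw [cj_back e2, mul_inv_cancel_right] at e1
  exact right_eq_mul.1 e1

theorem zline (hx : Rt f P (t * x)) (ha : a ∈ 𝐘) (hb : b ∈ 𝐘) (a2 : a * a = 1) (b2 : b * b = 1) (a1 : a ∉ f.V)
    (ca : x * a = a * x) (cb : x * b = b * x) : (π a).1 ≠ 0 ∧ ∃ l, σ l = l ∧ π b = l • π a := by
  have h := C.top
  obtain ⟨e1, e2⟩ := zfix h hx ha (by rw [cm1.2 ca]; exact one_mem _)
  obtain ⟨e3, e4⟩ := zfix h hx hb (by rw [cm1.2 cb]; exact one_mem _)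
  have y0 : (π a).1 ≠ 0 := fun e => a1 (memV h ha a2 e e1)
  have q1 := (sq_iff h ha).1 a2
  have q2 := (sq_iff h hb).1 b2
  have w1 := (pi_W h ha).1
  have w2 := (pi_W h hb).1
  simp only [QQ, e1, e3, mul_zero, add_zero, ne_eq, OfNat.ofNat_ne_zero, not_false_eq_true, zero_pow] at q1 q2
  have a0 : (π a).2.2 ≠ 0 := fun e => y0 (by simpa [e, nm] using q1)
  have c0 := f.cc_ne (t * x)
  have lK : σ ((π b).2.2 / (π a).2.2) = (π b).2.2 / (π a).2.2 := by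
    rw [map_div₀, div_eq_div_iff ((map_ne_zero σ).2 a0) a0]
    exact mul_left_cancel₀ c0 (by linear_combination (π a).2.2 * e4 - (π b).2.2 * e2)
  refine ⟨y0, _, lK, ?_⟩
  have e5 : (π b).2.2 = (π b).2.2 / (π a).2.2 * (π a).2.2 := (div_mul_cancel₀ _ a0).symm
  generalize (π b).2.2 / (π a).2.2 = l at lK e5
  refine Prod.ext ?_ (Prod.ext (by simp [e1, e3]) e5)
  rw [e5] at q2
  simp only [nm, map_mul, lK] at q1 q2
  have e6 : ((π b).1 + l * (π a).1) ^ 2 = 0 := by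
    linear_combination q2 + l ^ 2 * q1 + (l * (π a).1 * (π b).1 - l ^ 2 * σ (π a).2.2 * (π a).2.2) * two σ
  simp only [Prod.smul_fst, smul_eq_mul]
  linear_combination (pow_eq_zero_iff two_ne_zero).1 e6 - l * (π a).1 * two σ

/-- `V` is strongly closed in `Y` -/
theorem inY (hs : f.VC s) (sY : s ∈ 𝐘) : s ∈ f.V := by
  have h := C.top
  by_contra s1
  obtain ⟨k, sV, h5⟩ := C.ext1 hs
  have h6 := (cj_mono k (inf_le_inf_right (centralizer {s}) C.YS)).trans h5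
  have h1 : ∀ v ∈ f.V, k * v * k⁻¹ ∈ 𝐘 := fun v hv => C.toY h6 (robC h sY s1 hv)
  have h2 := C.cjsq (inf_le_left (b := centralizer {s})) h1
  have hK := C.cjK ((inf_le_left (b := centralizer {s})).trans C.YK) k
  rcases C.dich h6 hK h2 with d | ⟨x, hx, xt, -⟩
  · exact s1 (NV_of (fun v hv => C.toV d (robC h sY s1 hv)) sV)
  obtain ⟨v0, hv0, n0⟩ : ∃ v ∈ f.V, k * v * k⁻¹ ∉ f.V := by
    by_contra c
    push Not at c
    exact s1 (NV_of c sV)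
  have ti : ∀ v ∈ cj k f.V, v ∈ f.V → v = 1 := fun v => C.ti1 (conj_mem_cj k hv0) (h1 _ hv0) n0
  have VY' : cj k f.V ≤ 𝐘 := by rintro _ ⟨v, hv, rfl⟩; exact h1 v hv
  have V2 : ∀ v ∈ cj k f.V, v * v = 1 := by rintro _ ⟨v, hv, rfl⟩; exact cj_sq k (f.V_sq hv)
  have xc : ∀ v ∈ cj k f.V, x * v = v * x := by
    obtain ⟨x, hx, rfl⟩ := hx
    rintro _ ⟨v, hv, rfl⟩; exact cj_comm k (vY h hv hx.1).symm
  have c1 := C.four h6 hK h2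
  have c2 := cardE3 h (X := cj k (𝐘 ⊓ centralizer {s}) ⊓ 𝐘) inf_le_right (by
    rintro _ ⟨⟨a, ha, rfl⟩, e⟩
    exact ti _ ((cjm k a a) ▸ conj_mem_cj k (sqY h ha.1)) (sqY h e))
  have c3 := (cardY h).trans (cardC h sY)
  rw [card_cj] at c1
  have c4 := eq_of_le_of_card_ge (inf_le_right : cj k (𝐘 ⊓ centralizer {s}) ⊓ 𝐘 ⊓ f.V ≤ f.V) (by
    rw [f.card_V]
    have q4 := f.four_le
    generalize Nat.card ↥(cj k (𝐘 ⊓ centralizer {s}) ⊓ 𝐘 ⊓ f.V) = m at c2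
    have c5 : f.q ^ 3 * (f.q * f.q) ≤ f.q ^ 3 * (4 * m) := by
      calc _ = f.q ^ 5 := by ring
        _ ≤ 4 * (m * (f.q * f.q)) * f.q := c3.trans (Nat.mul_le_mul_right _ (c1.trans (Nat.mul_le_mul_left _ c2)))
        _ = _ := by ring
    have := Nat.le_of_mul_le_mul_left c5 (by positivity)
    nlinarith)
  have VY2 : f.V ≤ cj k 𝐘 := fun v hv => by rw [← c4] at hv; exact cj_mono k inf_le_left hv.1.1
  obtain ⟨a, ha, a1, b, hb, b1, ab⟩ := f.exists_two_V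
  have ne : ∀ {v}, v ≠ 1 → k * v * k⁻¹ ≠ 1 := fun e e' => e (by simpa using e')
  have m1 := conj_mem_cj k ha
  have m2 := conj_mem_cj k hb
  have ab' : k * a * k⁻¹ * (k * b * k⁻¹) ≠ 1 := (cjm k a b) ▸ ne ab
  have n1 := ne a1
  have n2 := ne b1
  generalize k * a * k⁻¹ = w1 at m1 ab' n1
  generalize k * b * k⁻¹ = w2 at m2 ab' n2
  have nV : ∀ w ∈ cj k f.V, w ≠ 1 → w ∉ f.V := fun w hw w1 e => w1 (ti w hw e)
  obtain ⟨y0, l, hl, el⟩ := C.zline xt (VY' m1) (VY' m2) (V2 _ m1) (V2 _ m2) (nV _ m1 n1) (xc _ m1) (xc _ m2)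
  have tw : ∀ w ∈ cj k f.V, t * w * t⁻¹ = f.vv ((π w).1 ^ 2) * w := fun w hw =>
    tconj h (VY' hw) (zfix h xt (VY' hw) (by rw [cm1.2 (xc w hw)]; exact one_mem _)).1
  obtain ⟨p, hp, e⟩ := nondeg (pi_W h (VY' m1)) (fun e => y0 (by rw [e]; rfl)) (c := (π w1).1 ^ 2)
    (by rw [map_pow, (pi_W h (VY' m1)).1])
  obtain ⟨u, hu, rfl⟩ := pi_surj h hp
  have uw : ∀ w ∈ cj k f.V, u * w * u⁻¹ = f.vv (BB σ (π w) (π u)) * w := fun w hw => by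
    rw [B_comm, ← pi_cm h hu (VY' hw)]; group
  have cjV : ∀ {g w}, w ∈ cj k f.V → (t * k)⁻¹ * (g * w * g⁻¹) * (t * k)⁻¹⁻¹ ∈ cj ((t * k)⁻¹ * g * k) f.V := fun {g w} hw => by
    rw [cj_mul, cj_mul]; exact conj_mem_cj _ (conj_mem_cj _ hw)
  have bk : ∀ {A : Subgroup G} {w}, (t * k)⁻¹ * w * (t * k)⁻¹⁻¹ ∈ A ↔ t⁻¹ * w * t ∈ cj k A := fun {A w} => by
    rw [mem_cj, show (t * k)⁻¹ * w * (t * k)⁻¹⁻¹ = k⁻¹ * (t⁻¹ * w * t) * k by group]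
  have e3 : t⁻¹ * (u * w2 * u⁻¹) * t ∈ cj k f.V := by
    by_contra c
    have := C.ti1 (cjV (g := u) m2) (bk.2 (by
      have vt := fun v (hv : v ∈ f.V) => (memC h).1 (f.Q_le_C (f.V_le_Q hv))
      rw [uw _ m2, ← mul_assoc, X2.ti h, ← vt _ (f.vv_mem _), mul_assoc, mul_assoc, ← mul_assoc t, show t * w2 * t = t * w2 * t⁻¹ by rw [X2.ti h],
        tw _ m2]
      exact mul_mem (VY2 (f.vv_mem _)) (mul_mem (VY2 (f.vv_mem _)) (cj_mono k (VY h) m2)))) (fun e => c (bk.1 e)) (cjV (g := u) m1)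
      (bk.2 (by rw [uw _ m1, e, ← tw _ m1]; simpa [mul_assoc] using m1))
    exact n1 (conj_eq_one_iff.1 (conj_eq_one_iff.1 this))
  have e4 := tw _ e3
  rw [show t * (t⁻¹ * (u * w2 * u⁻¹) * t) * t⁻¹ = u * w2 * u⁻¹ by group] at e4
  generalize t⁻¹ * (u * w2 * u⁻¹) * t = w3 at e3 e4
  rw [uw _ m2] at e4
  have e5 : w2 * w3⁻¹ = 1 := ti _ (mul_mem m2 (inv_mem e3)) (by
    rw [show w2 * w3⁻¹ = (f.vv (BB σ (π w2) (π u)))⁻¹ * f.vv ((π w3).1 ^ 2) by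
      rw [eq_inv_mul_iff_mul_eq, ← mul_assoc, e4]; group]
    exact mul_mem (inv_mem (f.vv_mem _)) (f.vv_mem _))
  obtain rfl := mul_inv_eq_one.1 e5
  have e6 := f.vv_inj (B_K (pi_W h (VY' m2)) hp) (by rw [map_pow, (pi_W h (VY' m2)).1]) (mul_right_cancel e4)
  rw [el, smul_B hl, e] at e6
  simp only [Prod.smul_fst, smul_eq_mul] at e6
  have l0 : l ≠ 0 := fun e => nV _ m2 n2 ((pi_zero h (VY' m2)).1 (by rw [el, e, zero_smul]))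
  have l1 : l = 1 := mul_left_cancel₀ (mul_ne_zero l0 (pow_ne_zero 2 y0)) (by linear_combination -e6)
  exact ab' (ti _ (mul_mem m1 m2) ((pi_zero h (VY' (mul_mem m1 m2))).1 (by
    rw [pi_mul h (VY' m1) (VY' m2), el, l1, one_smul, aa σ])))

end Cx

end Cfsg.Agent.WA.Lk.U1
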