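import Cfsg.Agent.WA.YaGen

/-! S3298: the centraliser of `W4` in `H`. -/

set_option autoImplicit false

namespace Cfsg.Agent.WA.Ya

open Subgroup Equiv

namespace R5

theorem v4_of {q : P} (hq : q ∈ H) (h : ∀ i : Fin 6, i ∉ ({0, 1} : Finset (Fin 6)) → q (ev i) = ev i) :
    ∃ k, q = v4 k := by
  have := gen {0, 1} hq h
  clear hq h
  induction this using closure_induction with
  | mem x hx =>
    obtain ⟨i, hi, j, hj, hij, e⟩ := hx
    have : ∀ i ∈ ({0, 1} : Finset (Fin 6)), ∀ j ∈ ({0, 1} : Finset (Fin 6)), i ≠ j →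
        (∃ k, r i j = v4 k) ∧ ∃ k, y i j = v4 k := by decide +kernel
    rcases e with rfl | rfl
    · exact (this i hi j hj hij).1
    · exact (this i hi j hj hij).2
  | one => exact ⟨0, rfl⟩
  | mul a b _ _ ha hb =>
    obtain ⟨k, rfl⟩ := ha
    obtain ⟨l, rfl⟩ := hb
    exact (by decide +kernel : ∀ k l, ∃ m, v4 k * v4 l = v4 m) k l
  | inv a _ ha =>
    obtain ⟨k, rfl⟩ := ha
    exact (by decide +kernel : ∀ k, ∃ m, (v4 k)⁻¹ = v4 m) k

theorem cenW4' {p : P} (hp : p ∈ H) (h : ∀ w ∈ W4, p * w = w * p) : ∃ k, p = v4 k ∨ p = v4 k * u := by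
  have m : ∀ w : P, (w ∈ H ∧ w 0 = 0 ∧ w 1 = 1 ∧ w 2 = 2 ∧ w 3 = 3) → ∀ a, p (w a) = w (p a) :=
    fun w hw a => by rw [← Perm.mul_apply, h w hw, Perm.mul_apply]
  have a1 := m (y 3 4) (by decide +kernel) 4
  have a2 := m (y 3 5) (by decide +kernel) 4
  have a3 := m (y 2 3) (by decide +kernel) 4
  have b3 := m (r 2 3) (by decide +kernel) 4
  have b4 := m (r 2 4) (by decide +kernel) 4
  have b5 := m (r 2 5) (by decide +kernel) 4
  have n5 : p 5 ≠ p 4 := fun e => absurd (p.injective e) (by decide)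
  rw [show y 3 4 4 = 4 by decide +kernel] at a1
  rw [show y 3 5 4 = 4 by decide +kernel] at a2
  rw [show y 2 3 4 = 5 by decide +kernel] at a3
  rw [show r 2 3 4 = 6 by decide +kernel] at b3
  rw [show r 2 4 4 = 8 by decide +kernel] at b4
  rw [show r 2 5 4 = 10 by decide +kernel] at b5
  rw [a3] at n5
  have k : ∀ t : Fin 12, t = y 3 4 t → t = y 3 5 t → y 2 3 t ≠ t → t = 4 ∨ t = 5 := by decide +kernel
  have hu : u ∈ H := by decide +kernel
  have ca : ∀ a, p (al a) = al (p a) := fun a => by
    rw [← Perm.mul_apply, ← (mem_H.1 hp).2, Perm.mul_apply]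
  rcases k _ a1 a2 n5 with e | e
  · rw [e] at b3 b4 b5
    obtain ⟨k, hk⟩ := v4_of hp (fun i hi => by
      fin_cases i
      · simp at hi
      · simp at hi
      · exact e
      · exact b3.trans (by decide +kernel)
      · exact b4.trans (by decide +kernel)
      · exact b5.trans (by decide +kernel))
    exact ⟨k, Or.inl hk⟩
  · rw [e] at b3 b4 b5
    obtain ⟨k, hk⟩ := v4_of (mul_mem hp hu) (fun i hi => by
      have c4 := ca 4
      have c6 := ca 6
      have c8 := ca 8
      have c10 := ca 10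
      rw [e] at c4
      rw [b3] at c6
      rw [b4] at c8
      rw [b5] at c10
      fin_cases i
      · simp at hi
      · simp at hi
      · exact (congrArg p (by decide +kernel)).trans (c4.trans (by decide +kernel))
      · exact (congrArg p (by decide +kernel)).trans (c6.trans (by decide +kernel))
      · exact (congrArg p (by decide +kernel)).trans (c8.trans (by decide +kernel))
      · exact (congrArg p (by decide +kernel)).trans (c10.trans (by decide +kernel)))
    refine ⟨k, Or.inr ?_⟩
    rw [← hk, mul_assoc, show u * u = 1 by decide +kernel, mul_one]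

end R5

end Cfsg.Agent.WA.Ya
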