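import Mathlib.GroupTheory.SpecificGroups.Alternating
import Mathlib.Logic.Equiv.Fin.Basic

/-! S3298: number codes for the elements of `C_{A12}(t) = W(D6)`. -/

set_option autoImplicit false
set_option linter.unusedSimpArgs false

namespace Cfsg.Agent.WA.Ya.K

open Subgroup Equiv

def t0 : Perm (Fin 12) :=
  swap (0 : Fin 12) 1 * swap (2 : Fin 12) 3 * swap (4 : Fin 12) 5 * swap (6 : Fin 12) 7 * swap (8 : Fin 12) 9 *
    swap (10 : Fin 12) 11

abbrev H0 : Subgroup (Perm (Fin 12)) := alternatingGroup (Fin 12) ⊓ centralizer ({t0} : Set (Perm (Fin 12)))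

def dg (c i : ℕ) : ℕ := Nat.mod (Nat.shiftRight c (Nat.mul 4 i)) 16
def ap (c x : ℕ) : ℕ := Nat.xor (dg c (Nat.div x 2)) (Nat.mod x 2)
def mk6 (a b c d e f : ℕ) : ℕ :=
  Nat.add a (Nat.mul 16 (Nat.add b (Nat.mul 16 (Nat.add c (Nat.mul 16 (Nat.add d (Nat.mul 16 (Nat.add e
    (Nat.mul 16 f)))))))))
theorem dg_eq (c i : ℕ) : dg c i = (c >>> (4 * i)) % 16 := rfl
theorem ap_eq (c x : ℕ) : ap c x = dg c (x / 2) ^^^ (x % 2) := rfl
theorem mk6_eq (a b c d e f : ℕ) : mk6 a b c d e f = a + 16 * (b + 16 * (c + 16 * (d + 16 * (e + 16 * f)))) := rfl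
def mu (c d : ℕ) : ℕ :=
  mk6 (ap c (dg d 0)) (ap c (dg d 1)) (ap c (dg d 2)) (ap c (dg d 3)) (ap c (dg d 4)) (ap c (dg d 5))
def cp (p : Perm (Fin 12)) : ℕ := mk6 (p 0).val (p 2).val (p 4).val (p 6).val (p 8).val (p 10).val
/-- the code of an element -/
def cd (p : H0) : ℕ := cp p.1

theorem dg_mk {a b c d e f : ℕ} (ha : a < 16) (hb : b < 16) (hc : c < 16) (hd : d < 16) (he : e < 16) (hf : f < 16) :
    dg (mk6 a b c d e f) 0 = a ∧ dg (mk6 a b c d e f) 1 = b ∧ dg (mk6 a b c d e f) 2 = c ∧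
      dg (mk6 a b c d e f) 3 = d ∧ dg (mk6 a b c d e f) 4 = e ∧ dg (mk6 a b c d e f) 5 = f := by
  simp only [dg_eq, mk6_eq, Nat.shiftRight_eq_div_pow]
  omega

theorem dg_cp (p : Perm (Fin 12)) : dg (cp p) 0 = (p 0).val ∧ dg (cp p) 1 = (p 2).val ∧ dg (cp p) 2 = (p 4).val ∧
    dg (cp p) 3 = (p 6).val ∧ dg (cp p) 4 = (p 8).val ∧ dg (cp p) 5 = (p 10).val :=
  dg_mk (by omega) (by omega) (by omega) (by omega) (by omega) (by omega)

theorem t0_val : ∀ x : Fin 12, (t0 x).val = x.val ^^^ 1 := by decide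

theorem cm_ap {p : Perm (Fin 12)} (h : p * t0 = t0 * p) (x : Fin 12) : p (t0 x) = t0 (p x) :=
  congrArg (fun q : Perm (Fin 12) => q x) h

theorem ap_cp {p : Perm (Fin 12)} (h : p * t0 = t0 * p) (x : Fin 12) : ap (cp p) x.val = (p x).val := by
  obtain ⟨h0, h1, h2, h3, h4, h5⟩ := dg_cp p
  have e : ∀ y : Fin 12, (p (t0 y)).val = (p y).val ^^^ 1 := fun y => by rw [cm_ap h, t0_val]
  have e1 := e 0
  have e3 := e 2
  have e5 := e 4
  have e7 := e 6
  have e9 := e 8
  have e11 := e 10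
  rw [show t0 0 = 1 by decide] at e1
  rw [show t0 2 = 3 by decide] at e3
  rw [show t0 4 = 5 by decide] at e5
  rw [show t0 6 = 7 by decide] at e7
  rw [show t0 8 = 9 by decide] at e9
  rw [show t0 10 = 11 by decide] at e11
  fin_cases x <;> simp [ap_eq, *]

theorem cm (p : H0) : p.1 * t0 = t0 * p.1 := mem_centralizer_singleton_iff.mp p.2.2

theorem cp_mul {p : Perm (Fin 12)} (h : p * t0 = t0 * p) (q : Perm (Fin 12)) : cp (p * q) = mu (cp p) (cp q) := by
  obtain ⟨h0, h1, h2, h3, h4, h5⟩ := dg_cp q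
  rw [mu, h0, h1, h2, h3, h4, h5, ap_cp h, ap_cp h, ap_cp h, ap_cp h, ap_cp h, ap_cp h]
  rfl

theorem cd_mul (p q : H0) : cd (p * q) = mu (cd p) (cd q) := cp_mul (cm p) q.1

theorem cd_inj {p q : H0} (h : cd p = cd q) : p = q :=
  Subtype.ext (Equiv.ext fun x => Fin.ext (by
    rw [← ap_cp (cm p), ← ap_cp (cm q)]; exact congrArg (ap · x.val) h))

theorem cd_eq {p q : H0} : p = q ↔ cd p = cd q := ⟨fun h => h ▸ rfl, cd_inj⟩

/-- the code of the identity -/
def one : ℕ := 11035680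

theorem cd_one : cd 1 = one := by decide

theorem sign_cm {p : Perm (Fin 12)} (h : p * t0 = t0 * p) :
    Perm.sign p = ∏ i : Fin 6, if (p (finProdFinEquiv (i, (0 : Fin 2)))).val % 2 = 1 then -1 else 1 := by
  let e : Fin 6 × Fin 2 ≃ Fin 12 := finProdFinEquiv
  have et : ∀ i : Fin 6, e (i, 1) = t0 (e (i, 0)) := by decide
  have hv : ∀ x : Fin 12, ((e.symm x).2 = 1 ↔ x.val % 2 = 1) ∧ (e.symm (t0 x)).1 = (e.symm x).1 ∧
      (e.symm (t0 x)).2 = swap 0 1 (e.symm x).2 := by decide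
  have h2 : ∀ x y : Fin 12, (e.symm x).1 = (e.symm y).1 → x = y ∨ x = t0 y := by decide
  let π0 : Fin 6 → Fin 6 := fun i => (e.symm (p (e (i, 0)))).1
  have hi : Function.Injective π0 := by
    intro i j hij
    rcases h2 _ _ hij with h3 | h3
    · exact (Prod.ext_iff.mp (e.injective (p.injective h3))).1
    · rw [← cm_ap h, ← et] at h3
      exact (Prod.ext_iff.mp (e.injective (p.injective h3))).1
  let π : Perm (Fin 6) := Equiv.ofBijective π0 (Finite.injective_iff_bijective.mp hi)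
  have key : e.symm.permCongr p = (prodCongrLeft fun _ : Fin 2 => π) *
      (prodCongrRight fun i : Fin 6 => if (p (e (i, 0))).val % 2 = 1 then swap (0 : Fin 2) 1 else 1) := by
    ext1 ⟨i, k⟩
    have a1 := hv (p (e (i, 0)))
    have b2 : ∀ z : Fin 2, z = 1 ∨ z = 0 := by decide
    rw [permCongr_apply, symm_symm, Perm.mul_apply, prodCongrRight_apply, prodCongrLeft_apply]
    rcases b2 k with rfl | rfl
    · rw [et, cm_ap h]
      refine Prod.ext a1.2.1 ?_
      rw [a1.2.2]
      split_ifs with h3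
      · rw [a1.1.mpr h3]
      · rw [(b2 _).resolve_left (mt a1.1.mp h3)]; rfl
    · refine Prod.ext rfl ?_
      split_ifs with h3
      · rw [a1.1.mpr h3]; rfl
      · rw [(b2 _).resolve_left (mt a1.1.mp h3)]; rfl
  have := congrArg Perm.sign key
  rw [Perm.sign_permCongr, map_mul, Perm.sign_prodCongrLeft, Perm.sign_prodCongrRight, Fin.prod_univ_two,
    Int.units_mul_self, one_mul] at this
  rw [this]
  refine Finset.prod_congr rfl fun i _ => ?_
  split_ifs
  · decide
  · exact map_one _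

theorem sign_iff {p : Perm (Fin 12)} (h : p * t0 = t0 * p) : Perm.sign p = 1 ↔
    ((p 0).val + (p 2).val + (p 4).val + (p 6).val + (p 8).val + (p 10).val) % 2 = 0 := by
  rw [sign_cm h, Fin.prod_univ_six]
  have e : ∀ a b c d e f : ℕ, (((if a % 2 = 1 then -1 else 1) * (if b % 2 = 1 then -1 else 1) *
      (if c % 2 = 1 then -1 else 1) * (if d % 2 = 1 then -1 else 1) * (if e % 2 = 1 then -1 else 1) *
      (if f % 2 = 1 then -1 else 1) : ℤˣ) = 1) ↔ (a + b + c + d + e + f) % 2 = 0 := by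
    intro a b c d e f
    split_ifs <;> simp <;> omega
  exact e _ _ _ _ _ _

def L12 : List ℕ := [0, 1, 2, 3, 4, 5, 6, 7, 8, 9, 10, 11]

theorem mem_L12 (x : Fin 12) : x.val ∈ L12 := by revert x; decide

noncomputable def allL (l : List ℕ) (P : ℕ → Bool) : Bool := List.rec true (fun a _ ih => Bool.rec false ih (P a)) l
/-- evaluate `n` before it is used -/
noncomputable def frc (n : ℕ) (k : ℕ → Bool) : Bool := Nat.rec (k 0) (fun m _ => k (Nat.succ m)) n
noncomputable def sk (a b : ℕ) (r : Bool) : Bool := Bool.rec r true (Nat.beq a b)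
/-- `a → b` -/
noncomputable def imp (a b : Bool) : Bool := Bool.rec true b a

theorem allL_spec {l : List ℕ} {P : ℕ → Bool} (h : allL l P = true) : ∀ a ∈ l, P a = true := by
  induction l with
  | nil => simp
  | cons a l ih =>
    have e : allL (a :: l) P = Bool.rec false (allL l P) (P a) := rfl
    rw [e] at h
    cases hp : P a
    · rw [hp] at h; cases h
    · rw [hp] at h
      intro b hb
      rcases List.mem_cons.mp hb with rfl | hb
      · exact hp
      · exact ih h b hb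

theorem frc_eq (n : ℕ) (k : ℕ → Bool) : frc n k = k n := by cases n <;> rfl

theorem sk_spec {a b : ℕ} {r : Bool} (h : sk a b r = true) (ne : a ≠ b) : r = true := by
  unfold sk at h
  cases e : Nat.beq a b
  · rw [e] at h; exact h
  · exact (ne (Nat.eq_of_beq_eq_true e)).elim

theorem imp_spec {a b : Bool} (h : imp a b = true) (ha : a = true) : b = true := by
  subst ha; exact h

def L6 : List ℕ := [0, 2, 4, 6, 8, 10]
def S32 : List ℕ := [0, 1114112, 1052672, 69632, 1048832, 65792, 4352, 1118464, 1048592, 65552, 4112, 1118224, 272, 1114384, 1052944, 69904, 1048577, 65537, 4097, 1118209, 257, 1114369, 1052929, 69889, 17, 1114129, 1052689, 69649, 1048849, 65809, 4369, 1118481]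

/-- check a property of all codes -/
noncomputable def allW (P : ℕ → Bool) : Bool :=
  allL L6 fun a => allL L6 fun b => sk a b <| allL L6 fun c => sk a c <| sk b c <|
    allL L6 fun d => sk a d <| sk b d <| sk c d <|
    allL L6 fun e => sk a e <| sk b e <| sk c e <| sk d e <|
    allL L6 fun f => sk a f <| sk b f <| sk c f <| sk d f <| sk e f <|
      frc (mk6 a b c d e f) fun n => allL S32 fun s => frc (Nat.add n s) P

theorem allW_spec {P : ℕ → Bool} (h : allW P = true) (p : H0) : P (cd p) = true := by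
  have h2 : ∀ x y : Fin 12, x.val / 2 * 2 = y.val / 2 * 2 → x = y ∨ x = t0 y := by decide
  have ne : ∀ x y : Fin 12, x ≠ y → x ≠ t0 y → (p.1 x).val / 2 * 2 ≠ (p.1 y).val / 2 * 2 := by
    intro x y h1 h3 e
    rcases h2 _ _ e with e | e
    · exact h1 (p.1.injective e)
    · rw [← cm_ap (cm p)] at e; exact h3 (p.1.injective e)
  have m : ∀ x : Fin 12, x.val / 2 * 2 ∈ L6 := by decide
  have hs := (sign_iff (cm p)).mp p.2.1
  have a1 := sk_spec (allL_spec (allL_spec h _ (m (p.1 0))) _ (m (p.1 2))) (ne _ _ (by decide) (by decide))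
  have a2 := sk_spec (sk_spec (allL_spec a1 _ (m (p.1 4))) (ne _ _ (by decide) (by decide)))
    (ne _ _ (by decide) (by decide))
  have a3 := sk_spec (sk_spec (sk_spec (allL_spec a2 _ (m (p.1 6))) (ne _ _ (by decide) (by decide)))
    (ne _ _ (by decide) (by decide))) (ne _ _ (by decide) (by decide))
  have a4 := sk_spec (sk_spec (sk_spec (sk_spec (allL_spec a3 _ (m (p.1 8))) (ne _ _ (by decide) (by decide)))
    (ne _ _ (by decide) (by decide))) (ne _ _ (by decide) (by decide))) (ne _ _ (by decide) (by decide))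
  have a5 := sk_spec (sk_spec (sk_spec (sk_spec (sk_spec (allL_spec a4 _ (m (p.1 10)))
    (ne _ _ (by decide) (by decide))) (ne _ _ (by decide) (by decide))) (ne _ _ (by decide) (by decide)))
    (ne _ _ (by decide) (by decide))) (ne _ _ (by decide) (by decide))
  rw [frc_eq] at a5
  have ms : ∀ a b c d e f : Fin 2, (a.val + b.val + c.val + d.val + e.val + f.val) % 2 = 0 →
      mk6 a.val b.val c.val d.val e.val f.val ∈ S32 := by decide
  have a6 := allL_spec a5 _ (ms ⟨(p.1 0).val % 2, by omega⟩ ⟨(p.1 2).val % 2, by omega⟩ ⟨(p.1 4).val % 2, by omega⟩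
    ⟨(p.1 6).val % 2, by omega⟩ ⟨(p.1 8).val % 2, by omega⟩ ⟨(p.1 10).val % 2, by omega⟩ (by simp only; omega))
  rw [frc_eq] at a6
  convert a6 using 2
  simp only [cd, cp, mk6_eq, Nat.add_eq]
  omega

/-- `c` is the code of an element -/
def ok (c : ℕ) : Bool :=
  (L12.all fun x => decide (ap c x < 12) && L12.all fun y => x == y || ap c x != ap c y) &&
    c == mk6 (ap c 0) (ap c 2) (ap c 4) (ap c 6) (ap c 8) (ap c 10) &&
    (ap c 0 + ap c 2 + ap c 4 + ap c 6 + ap c 8 + ap c 10) % 2 == 0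

theorem ex_of_ok {c : ℕ} (h : ok c = true) : ∃ p : H0, cd p = c := by
  simp only [ok, List.all_eq_true, Bool.and_eq_true, Bool.or_eq_true, beq_iff_eq, decide_eq_true_eq, bne_iff_ne] at h
  obtain ⟨⟨h1, h2⟩, h3⟩ := h
  let φ : Fin 12 → Fin 12 := fun x => ⟨ap c x.val, (h1 _ (mem_L12 x)).1⟩
  have hi : Function.Injective φ := fun x y e =>
    Fin.ext (((h1 _ (mem_L12 x)).2 _ (mem_L12 y)).resolve_right (not_not.mpr (congrArg Fin.val e)))
  let p : Perm (Fin 12) := Equiv.ofBijective φ (Finite.injective_iff_bijective.mp hi)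
  have hp : p * t0 = t0 * p := by
    refine Equiv.ext fun x => Fin.ext ?_
    rw [Perm.mul_apply, Perm.mul_apply, t0_val]
    show ap c (t0 x).val = ap c x.val ^^^ 1
    have : ∀ x : Fin 12, (t0 x).val / 2 = x.val / 2 ∧ (t0 x).val % 2 = x.val % 2 ^^^ 1 := by decide
    rw [ap_eq, ap_eq, (this x).1, (this x).2, Nat.xor_assoc]
  exact ⟨⟨p, (sign_iff hp).mpr h3, mem_centralizer_singleton_iff.mpr hp⟩, h2.symm⟩

end Cfsg.Agent.WA.Ya.K
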