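import Cfsg.Agent.WA.YaDef
import Cfsg.Agent.WA.YaK

/-! S3298: finite facts for the cross relation. -/

set_option autoImplicit false

namespace Cfsg.Agent.WA.Ya.Cr

open Subgroup Equiv K

def a0 : P := r 0 1 * y 0 1
def k0 : P := y 0 2 * y 3 4

theorem cmH {p : P} (hp : p ∈ H) : p * t0 = t0 * p := (mem_H.1 hp).2.symm
theorem cp_inj {p q : P} (hp : p ∈ H) (hq : q ∈ H) (h : cp p = cp q) : p = q :=
  congrArg Subtype.val (cd_inj (p := ⟨p, hp⟩) (q := ⟨q, hq⟩) h)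

def bt (c i : ℕ) : ℕ := if ap c i = i then 0 else 1
def sc (c : ℕ) : ℕ := bt c 0 + (bt c 1 + (bt c 2 + (bt c 3 + (bt c 4 + (bt c 5 + (bt c 6 + (bt c 7 + (bt c 8 + (bt c 9 +
  (bt c 10 + bt c 11))))))))))

theorem sc_cp {p : P} (hp : p ∈ H) : sc (cp p) = p.support.card := by
  have h : ∀ i : Fin 12, (if p i ≠ i then 1 else 0) = bt (cp p) i := fun i => by
    rw [bt, ap_cp (cmH hp), ite_not]
    simp only [Fin.val_inj]
  rw [Perm.support, Finset.card_filter, Finset.sum_congr rfl fun i _ => h i]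
  simp only [Fin.sum_univ_succ, Finset.univ_eq_empty, Finset.sum_empty, add_zero]
  rfl

def cmm (c d : ℕ) : Bool := mu c d == mu d c
def L16 : List ℕ := [11035680, 12154144, 11035667, 12154131, 11035922, 12153874, 11035952, 12153904, 11035697, 12154161, 11035650, 12154114, 11035907, 12153859, 11035937, 12153889]
def p1 (c : ℕ) : Bool := !(cmm c 11105312 && cmm c 10912800) ||
  ((!(cmm c 11035697) || L16.elem c) && ((!(cmm c 11035667) || mu (mu c c) (mu c c) == one) &&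
    (mu c 11035697 == mu 11035697 c || (mu c 11035697 == mu 11035937 c || mu c 11035697 == mu 11035952 c))))
def p2 (c : ℕ) : Bool := !(cmm c 11035697 && cmm c 11035650) || (mu c c == one &&
  (!(sc c == 4 && (sc (mu c 11035697) == 8 && (sc (mu c 12149792) == 8 && sc (mu c 11105569) == 4))) || c == 11040032))
def pp (c : ℕ) : Bool := !(cmm c 12149792 && cmm c 9069600) || (p1 c && p2 c)

theorem chk : allW pp = true := by decide +kernel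

theorem l16 : ∀ c ∈ L16, ∃ i : Fin 4, ∃ j : Fin 2, ∃ l : Fin 2, cp ((a0 * y 0 2) ^ (i : ℕ) * a0 ^ (j : ℕ) * u ^ (l : ℕ)) = c := by
  decide +kernel

theorem codes : cp (y 4 5) = 12149792 ∧ cp (r 4 5) = 9069600 ∧ cp (y 3 4) = 11105312 ∧ cp (r 3 4) = 10912800 ∧ cp (y 0 1) = 11035697 ∧
    cp (r 0 1) = 11035650 ∧ cp a0 = 11035667 ∧ cp (y 0 2) = 11035937 ∧ cp (y 1 2) = 11035952 ∧ cp k0 = 11105569 ∧ cp (y 2 3) = 11040032 := by
  decide +kernel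

theorem mems : y 4 5 ∈ H ∧ r 4 5 ∈ H ∧ y 3 4 ∈ H ∧ r 3 4 ∈ H ∧ y 0 1 ∈ H ∧ r 0 1 ∈ H ∧ a0 ∈ H ∧ y 0 2 ∈ H ∧ y 1 2 ∈ H ∧
    k0 ∈ H ∧ y 2 3 ∈ H ∧ r 2 3 ∈ H ∧ u ∈ H ∧ r 1 2 ∈ H ∧ al ∈ H ∧ r 0 2 * r 1 3 ∈ H := by
  decide +kernel

theorem cmm_of {p q : P} (hp : p ∈ H) (hq : q ∈ H) (h : p * q = q * p) : cmm (cp p) (cp q) = true := by
  rw [cmm, ← cp_mul (cmH hp), ← cp_mul (cmH hq), h, beq_self_eq_true]

theorem pp_of {p : P} (hp : p ∈ H) (h1 : p * y 4 5 = y 4 5 * p) (h2 : p * r 4 5 = r 4 5 * p) :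
    p1 (cp p) = true ∧ p2 (cp p) = true := by
  obtain ⟨c1, c2, -⟩ := codes
  obtain ⟨m1, m2, -⟩ := mems
  have h := allW_spec chk ⟨p, hp⟩
  rw [pp, ← c1, ← c2, cd, cmm_of hp m1 h1, cmm_of hp m2 h2] at h
  simpa using h

theorem cp_one : cp 1 = one := cd_one

theorem M1 {p : P} (hp : p ∈ H) (h1 : p * y 4 5 = y 4 5 * p) (h2 : p * r 4 5 = r 4 5 * p)
    (h3 : p * y 3 4 = y 3 4 * p) (h4 : p * r 3 4 = r 3 4 * p) :
    (p * y 0 1 = y 0 1 * p → ∃ i j l : ℕ, p = (a0 * y 0 2) ^ i * a0 ^ j * u ^ l) ∧ (p * a0 = a0 * p → p ^ 4 = 1) ∧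
      (p * y 0 1 = y 0 1 * p ∨ p * y 0 1 = y 0 2 * p ∨ p * y 0 1 = y 1 2 * p) := by
  obtain ⟨-, -, c3, c4, c5, -, c7, c8, c9, -⟩ := codes
  obtain ⟨-, -, m3, m4, m5, -, m7, m8, m9, -, -, -, mu', -⟩ := mems
  have h := (pp_of hp h1 h2).1
  rw [p1, ← c3, ← c4, ← c5, ← c7, ← c8, ← c9, cmm_of hp m3 h3, cmm_of hp m4 h4] at h
  simp only [Bool.and_self, Bool.not_true, Bool.false_or, Bool.and_eq_true, Bool.or_eq_true, Bool.not_eq_true',
    beq_iff_eq, List.elem_eq_mem, decide_eq_true_eq] at h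
  obtain ⟨g1, g2, g3⟩ := h
  refine ⟨fun e => ?_, fun e => ?_, ?_⟩
  · rw [cmm_of hp m5 e] at g1
    obtain ⟨i, j, l, h⟩ := l16 _ (g1.resolve_left (by simp))
    exact ⟨i, j, l, cp_inj hp (mul_mem (mul_mem (pow_mem (mul_mem m7 m8) _) (pow_mem m7 _)) (pow_mem mu' _)) h.symm⟩
  · rw [cmm_of hp m7 e, ← cp_mul (cmH hp), ← cp_mul (cmH (mul_mem hp hp)), ← cp_one] at g2
    have := cp_inj (mul_mem (mul_mem hp hp) (mul_mem hp hp)) (one_mem _) (g2.resolve_left (by simp))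
    rw [← this]
    simp only [pow_succ, pow_zero, one_mul, mul_assoc]
  · rw [← cp_mul (cmH hp), ← cp_mul (cmH m5), ← cp_mul (cmH m8), ← cp_mul (cmH m9)] at g3
    exact g3.imp (cp_inj (mul_mem hp m5) (mul_mem m5 hp))
      (Or.imp (cp_inj (mul_mem hp m5) (mul_mem m8 hp)) (cp_inj (mul_mem hp m5) (mul_mem m9 hp)))

theorem M2 {p : P} (hp : p ∈ H) (h1 : p * y 4 5 = y 4 5 * p) (h2 : p * r 4 5 = r 4 5 * p)
    (h3 : p * y 0 1 = y 0 1 * p) (h4 : p * r 0 1 = r 0 1 * p) :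
    p * p = 1 ∧ (p.support.card = 4 → (p * y 0 1).support.card = 8 → (p * y 4 5).support.card = 8 →
      (p * k0).support.card = 4 → p = y 2 3) := by
  obtain ⟨c1, -, -, -, c5, c6, -, -, -, c10, c11⟩ := codes
  obtain ⟨m1, -, -, -, m5, m6, -, -, -, m10, m11, -⟩ := mems
  have h := (pp_of hp h1 h2).2
  rw [p2, ← c1, ← c5, ← c6, ← c10, ← c11, cmm_of hp m5 h3, cmm_of hp m6 h4, ← cp_mul (cmH hp), ← cp_mul (cmH hp),
    ← cp_mul (cmH hp), ← cp_mul (cmH hp), sc_cp hp, sc_cp (mul_mem hp m5), sc_cp (mul_mem hp m1),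
    sc_cp (mul_mem hp m10), ← cp_one] at h
  simp only [Bool.and_self, Bool.not_true, Bool.false_or, Bool.and_eq_true, Bool.or_eq_true, Bool.not_eq_true',
    beq_iff_eq] at h
  refine ⟨cp_inj (mul_mem hp hp) (one_mem _) h.1, fun e1 e2 e3 e4 => cp_inj hp m11 (h.2.resolve_left ?_)⟩
  simp [e1, e2, e3, e4]

end Cfsg.Agent.WA.Ya.Cr
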