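import Cfsg.Agent.WA.YaS8
import Cfsg.Agent.WA.YaK

/-! S3298: `N(A)` controls fusion in `A`; the three 2-central classes are distinct. -/

set_option autoImplicit false
set_option linter.unusedSimpArgs false
set_option maxRecDepth 100000

namespace Cfsg.Agent.WA.Ya

open Subgroup Equiv H8 S8

universe u

namespace Ctl

/-- `av a` commutes with `bv b` -/
def tab (a : Fin 4 × Fin 4 × Fin 4) (b : Fin 8) : Bool :=
  ![true, decide (a.1 ≤ 1 ∧ a.2.1 ≤ 1), decide (a.1 ≤ 1 ∧ a.2.2 ≤ 1), decide (a.2.1 ≤ 1 ∧ a.2.2 ≤ 1),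
    decide (a.1 = a.2.1), decide (a.2.1 = ![0, 1, 3, 2] a.1), decide (a.1 = a.2.1 ∧ a.1 ≤ 1 ∧ a.2.2 ≤ 1),
    decide (a.1 = a.2.1 ∧ a.1 ≤ 1 ∧ a.2.2 ≤ 1)] b

theorem tab_spec : ∀ a b, av a * bv b = bv b * av a → tab a b = true := by decide +kernel

theorem inv6 : ∀ a, av a * bv 6 * (av a * bv 6) ≠ 1 ∧ av a * bv 7 * (av a * bv 7) ≠ 1 := by decide +kernel

theorem cnt1 : ∀ b, b ≠ 0 → (Finset.univ.filter fun a => tab a b = true).card ≤ 16 := by decide +kernel

theorem cnt2 : ∀ b b', b ≠ 0 → b' ≠ 0 → b ≠ b' →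
    (Finset.univ.filter fun a => tab a b = true ∧ tab a b' = true).card ≤ 8 := by decide +kernel

theorem A_sq {p : P} (hp : p ∈ A) : p * p = 1 := by
  obtain ⟨a, rfl⟩ := mem_A.mp hp
  exact (by decide +kernel : ∀ a, av a * av a = 1) a

theorem cm_of_sq {X : Type*} [Group X] {E : Subgroup X} (h : ∀ x ∈ E, x * x = 1) {x y : X} (hx : x ∈ E) (hy : y ∈ E) :
    x * y = y * x := by
  have h1 := h _ (E.mul_mem hx hy)
  rw [← mul_left_inj y, ← mul_right_inj x, mul_assoc x y, h y hy, mul_one, h x hx, mul_assoc, ← mul_assoc x y, h1]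

theorem uniq {E : Subgroup P} (hE : E ≤ S0) (h2 : ∀ x ∈ E, x * x = 1) (hc : Nat.card E = 64) : E = A := by
  classical
  choose α β hαβ using fun x : E => mem_S0.mp (hE x.2)
  have bound : ∀ (T : Finset (Fin 8)) (U : Finset (Fin 4 × Fin 4 × Fin 4)), (∀ x, β x ∈ T) →
      (∀ a, av a ∈ E → a ∈ U) → 64 ≤ T.card * U.card := by
    intro T U hT hU
    let ρ : Fin 8 → E := fun b => if h : ∃ x, β x = b then h.choose else 1
    have hρ : ∀ x, β (ρ (β x)) = β x := fun x => by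
      have h : ∃ x', β x' = β x := ⟨x, rfl⟩
      simp only [ρ, dif_pos h]; exact h.choose_spec
    have hA : ∀ x : E, ∃ a, av a = (x * (ρ (β x))⁻¹).1 := fun x => mem_A.mp (by
      rw [Subgroup.coe_mul, Subgroup.coe_inv, ← hαβ x, ← hαβ (ρ (β x)), hρ, mul_inv_rev, mul_assoc,
        mul_inv_cancel_left]
      exact A.mul_mem (mem_A.mpr ⟨_, rfl⟩) (A.inv_mem (mem_A.mpr ⟨_, rfl⟩)))
    choose γ hγ using hA
    let φ : E → T × U := fun x => (⟨β x, hT x⟩, ⟨γ x, hU _ (hγ x ▸ Subtype.prop _)⟩)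
    have hφ : Function.Injective φ := by
      intro x x' e
      have e1 : β x = β x' := congrArg (fun z : T × U => z.1.1) e
      have e2 : γ x = γ x' := congrArg (fun z : T × U => z.2.1) e
      have := (hγ x).symm.trans (e2 ▸ hγ x')
      rw [e1] at this
      exact mul_right_cancel (Subtype.ext this)
    have := Nat.card_le_card_of_injective φ hφ
    rwa [hc, Nat.card_prod, Nat.card_eq_fintype_card, Nat.card_eq_fintype_card, Fintype.card_coe,
      Fintype.card_coe] at this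
  have ct : ∀ a, av a ∈ E → ∀ x : E, tab a (β x) = true := by
    intro a ha x
    refine tab_spec _ _ ?_
    have h1 := cm_of_sq h2 ha x.2
    have h3 : av a * av (α x) = av (α x) * av a :=
      cm_of_sq (fun _ => A_sq) (mem_A.mpr ⟨_, rfl⟩) (mem_A.mpr ⟨_, rfl⟩)
    rw [← hαβ x, ← mul_assoc, h3, mul_assoc, mul_assoc] at h1
    exact mul_left_cancel h1
  by_cases h0 : ∀ x, β x = 0
  · refine eq_of_le_of_card_ge (fun x hx => mem_A.mpr ⟨α ⟨x, hx⟩, ?_⟩) (by rw [hc, card_A])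
    have := hαβ ⟨x, hx⟩
    rw [h0] at this
    exact (mul_one _).symm.trans this
  exfalso
  rw [not_forall] at h0
  obtain ⟨x, hx⟩ := h0
  by_cases h1 : ∀ x', β x' = 0 ∨ β x' = β x
  · have := bound {0, β x} (Finset.univ.filter fun a => tab a (β x) = true)
      (fun x' => by simpa using h1 x') (fun a ha => by simpa using ct a ha x)
    have c1 := cnt1 _ hx
    have c2 : ({0, β x} : Finset (Fin 8)).card ≤ 2 := Finset.card_le_two
    nlinarith
  · rw [not_forall] at h1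
    obtain ⟨x', hx'⟩ := h1
    rw [not_or] at hx'
    have := bound {0, 1, 2, 3, 4, 5} (Finset.univ.filter fun a => tab a (β x) = true ∧ tab a (β x') = true)
      (fun z => by
        have h3 := h2 z.1 z.2
        rw [← hαβ z] at h3
        have h6 : β z ≠ 6 := fun e => (inv6 (α z)).1 (e ▸ h3)
        have h7 : β z ≠ 7 := fun e => (inv6 (α z)).2 (e ▸ h3)
        revert h6 h7; generalize β z = b; revert b; decide)
      (fun a ha => by simpa using ⟨ct a ha x, ct a ha x'⟩)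
    have c1 := cnt2 _ _ hx hx'.1 (Ne.symm hx'.2)
    have c2 : ({0, 1, 2, 3, 4, 5} : Finset (Fin 8)).card = 6 := by decide
    rw [c2] at this
    omega

theorem nsq0 : K.allW (fun c => K.imp (Nat.beq (K.ap c (K.dg c 0)) 1) (Bool.not (Nat.beq (K.mu c c) 12154161))) = true := by
  decide +kernel

theorem nsq {p : P} (hp : p ∈ H) : p * p ≠ al := by
  intro h
  have h1 := K.allW_spec nsq0 ⟨p, hp⟩
  have h2 : K.mu (K.cd ⟨p, hp⟩) (K.cd ⟨p, hp⟩) = 12154161 := by
    rw [← K.cd_mul]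
    show K.cp (p * p) = _
    rw [h]; decide
  have h3 : K.ap (K.cd ⟨p, hp⟩) (K.dg (K.cd ⟨p, hp⟩) 0) = 1 := by
    have := congrArg (K.dg · 0) h2
    rw [← show K.dg 12154161 0 = 1 by decide, ← h2]
    show K.ap (K.cp p) (K.dg (K.cp p) 0) = K.dg (K.mu (K.cp p) (K.cp p)) 0
    rw [← K.cp_mul (K.cm ⟨p, hp⟩), (K.dg_cp p).1, K.ap_cp (K.cm ⟨p, hp⟩), (K.dg_cp _).1]
    rfl
  have h4 := K.imp_spec h1 (by rw [h3]; rfl)
  rw [h2] at h4
  exact absurd h4 (by decide)

variable {G : Type u} [Group G] [Finite G] (C : Ch G)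

theorem hom_inj : Function.Injective C.hom := fun p q h => Subtype.ext (C.ext p.2 q.2 h)

theorem card_im {K : Subgroup P} (hK : K ≤ H) : Nat.card (C.im K) = Nat.card K := by
  rw [Ch.im, card_map_of_injective (hom_inj C)]
  exact Nat.card_congr (subgroupOfEquivOfLe hK).toEquiv

theorem mem_im' {K : Subgroup P} (hK : K ≤ H) {p : P} (hp : p ∈ K) : C.f p ∈ C.im K := C.mem_im.mpr ⟨p, hK hp, hp, rfl⟩

theorem syl : IsSylowIn 2 (C.im S0) ⊤ := by
  have hc : Nat.card (C.im S0) = 2 ^ 9 := by rw [card_im C S0_le, card_S0]; rfl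
  exact ⟨le_top, IsPGroup.of_card hc, fun Q hQ hp hle =>
    (eq_of_le_of_card_ge hle (by rw [hc]; exact C.syl Q hp hQ)).symm⟩

theorem imA_sq {g : G} (hg : g ∈ C.im A) : g * g = 1 := by
  obtain ⟨p, hp, hA, rfl⟩ := C.mem_im.mp hg
  rw [← C.mul _ _ hp hp, A_sq hA, C.one]

theorem uniqG {E : Subgroup G} (hE : E ≤ C.im S0) (h2 : ∀ x ∈ E, x * x = 1) (hc : Nat.card E = 64) : E = C.im A := by
  have hr : E ≤ C.hom.range := hE.trans (map_le_range _ _)
  have e : (E.comap C.hom).map H.subtype = A := by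
    refine uniq ?_ ?_ ?_
    · rintro _ ⟨p, hp, rfl⟩
      obtain ⟨q, hq, hS, e⟩ := C.mem_im.mp (hE hp)
      rw [C.ext hq p.2 e] at hS
      exact hS
    · rintro _ ⟨p, hp, rfl⟩
      exact C.inj _ (mul_mem p.2 p.2) ((C.mul _ _ p.2 p.2).trans (h2 _ hp))
    · rw [card_map_of_injective (subtype_injective _), ← card_map_of_injective (hom_inj C), map_comap_eq_self hr, hc]
  rw [Ch.im, ← e, subgroupOf, comap_map_eq_self_of_injective (subtype_injective _), map_comap_eq_self hr]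

/-- two conjugates of `A` in a 2-group coincide -/
theorem wc {Q : Subgroup G} (hQ : IsPGroup 2 Q) {g : G} (h1 : C.im A ≤ Q) (h2 : cj g (C.im A) ≤ Q) :
    cj g (C.im A) = C.im A := by
  haveI : Fact (Nat.Prime 2) := ⟨Nat.prime_two⟩
  obtain ⟨S, hS, hle⟩ := exists_isSylowIn_ge hQ (le_top : Q ≤ ⊤)
  obtain ⟨k, -, hk⟩ := hS.exists_cj_eq (syl C)
  have key : ∀ x : G, cj x (C.im A) ≤ Q → cj k (cj x (C.im A)) = C.im A := fun x hx =>
    uniqG C (hk ▸ cj_mono k (hx.trans hle)) (by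
      rintro _ ⟨_, ⟨z, hz, rfl⟩, rfl⟩
      rw [← map_mul, ← map_mul, imA_sq C hz, map_one, map_one])
      (by rw [card_cj, card_cj, card_im C (A_le.trans S0_le), card_A])
  have := key 1 (by rwa [cj_one])
  rw [cj_one] at this
  exact cj_injective k ((key g h2).trans this.symm)

theorem nsqG {g s : G} (h : IsConj (s * s) (C.f al)) : False := by
  obtain ⟨c, hc⟩ := isConj_iff.mp h
  have h1 : (c * s * c⁻¹) * (c * s * c⁻¹) = C.f al := by rw [conj_mul, hc]
  obtain ⟨p, hp, e⟩ := (C.cen (c * s * c⁻¹)).mp (by rw [← h1]; exact mul_assoc _ _ _ |>.symm)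
  have hal : al ∈ H := by decide
  exact nsq hp (C.ext (mul_mem hp hp) hal (by rw [C.mul _ _ hp hp, e, h1]))

theorem nsqH {p s : P} (hs : s ∈ H) (e : s * s = p) : ¬ IsConj (C.f p) (C.f al) := fun h =>
  nsqG C (g := 1) (s := C.f s) (by rw [← C.mul _ _ hs hs, e]; exact h)

end Ctl

open Ctl

theorem ctl {G : Type u} [Group G] [Finite G] (C : Ch G) : C.Ctl := by
  haveI : Fact (Nat.Prime 2) := ⟨Nat.prime_two⟩
  intro p hp q hq h
  obtain ⟨g, hg⟩ := isConj_iff.mp h
  have AH : A ≤ H := A_le.trans S0_le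
  have c0 : ∀ z ∈ A, C.im A ≤ centralizer ({C.f z} : Set G) := fun z hz x hx =>
    mem_centralizer_singleton_iff.mpr (cm_of_sq (fun _ => imA_sq C) hx (mem_im' C AH hz))
  have pA : IsPGroup 2 (C.im A) := IsPGroup.of_card (n := 6) (by rw [card_im C AH, card_A]; rfl)
  have c1 : cj g (C.im A) ≤ centralizer ({C.f q} : Set G) := by
    rw [← hg, ← cj_centralizer_singleton]; exact cj_mono g (c0 p hp)
  obtain ⟨Q, hQ, l1⟩ := exists_isSylowIn_ge pA (c0 q hq)
  obtain ⟨Q', hQ', l2⟩ := exists_isSylowIn_ge (pgroup_cj pA g) c1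
  obtain ⟨c, hc, e⟩ := hQ'.exists_cj_eq hQ
  refine ⟨c * g, cj_eq_self_iff.mp (wc C hQ.pgroup l1 (by rw [cj_mul, ← e]; exact cj_mono c l2)), ?_⟩
  rw [mul_inv_rev, mul_assoc c, mul_assoc c, ← mul_assoc (g * C.f p), hg, ← mul_assoc,
    mem_centralizer_singleton_iff.mp hc, mul_inv_cancel_right]

theorem nf {G : Type u} [Group G] [Finite G] (C : Ch G) : C.NF := by
  haveI : Fact (Nat.Prime 2) := ⟨Nat.prime_two⟩
  have n1 : ¬ IsConj (C.f (y 4 5)) (C.f al) := nsqH C (s := r 4 5 * y 0 4) (by decide) (by decide)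
  have n2 : ¬ IsConj (C.f (y 0 1 * y 2 3)) (C.f al) := nsqH C (s := r 0 2 * r 1 3 * y 0 1) (by decide) (by decide)
  have hal : al ∈ H := by decide
  have e0 : IsConj (C.f (y 4 5)) (C.f (y 0 1)) := isConj_iff.mpr ⟨C.f (r 0 4 * r 1 5), by
    rw [← C.cj (by decide) (by decide)]; exact congrArg C.f (by decide)⟩
  refine ⟨fun h => ?_, fun h => n1 (e0.trans h), n2⟩
  obtain ⟨g, hg⟩ := isConj_iff.mp (e0.trans h)
  have cS : ∀ z ∈ H, (∀ x ∈ ({y 0 1, r 0 1, y 2 3, r 2 3, y 4 5, r 4 5, y 0 2, y 0 4, r 0 2 * r 1 3} : Set P),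
      x * z = z * x) → C.im S0 ≤ centralizer ({C.f z} : Set G) := by
    intro z hz h x hx
    obtain ⟨p, hp, hS, rfl⟩ := C.mem_im.mp hx
    have : S0 ≤ centralizer ({z} : Set P) := (closure_le _).mpr fun x hx => mem_centralizer_singleton_iff.mpr (h x hx)
    rw [mem_centralizer_singleton_iff, ← C.mul _ _ hp hz, ← C.mul _ _ hz hp, mem_centralizer_singleton_iff.mp (this hS)]
  have c1 := cS (y 4 5) (by decide) (by
    simp only [Set.mem_insert_iff, Set.mem_singleton_iff, forall_eq_or_imp, forall_eq]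
    decide +kernel)
  have c2 := cS (y 0 1 * y 2 3) (by decide) (by
    simp only [Set.mem_insert_iff, Set.mem_singleton_iff, forall_eq_or_imp, forall_eq]
    decide +kernel)
  have c3 := cS al hal (by
    simp only [Set.mem_insert_iff, Set.mem_singleton_iff, forall_eq_or_imp, forall_eq]
    decide +kernel)
  have hg' : g * C.f (y 4 5) * g⁻¹ = C.f (y 0 1 * y 2 3) := hg
  have s1 := (syl C).of_le c2 le_top
  have s2 := ((syl C).of_le c1 le_top).cj g
  rw [cj_centralizer_singleton, hg'] at s2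
  obtain ⟨c, hc, e⟩ := s2.exists_cj_eq s1
  rw [← cj_mul] at e
  have hn : c * g * C.f (y 4 5) * (c * g)⁻¹ = C.f (y 0 1 * y 2 3) := by
    rw [mul_inv_rev, mul_assoc c, mul_assoc c, ← mul_assoc (g * C.f _), hg', ← mul_assoc,
      mem_centralizer_singleton_iff.mp hc, mul_inv_cancel_right]
  generalize c * g = n at e hn
  have aS : al ∈ S0 := A_le (mem_A.mpr ⟨(1, 1, 1), by decide⟩)
  have m1 : n * C.f al * n⁻¹ ∈ C.im S0 := e ▸ conj_mem_cj n (mem_im' C S0_le aS)
  have m2 : C.im S0 ≤ centralizer ({n * C.f al * n⁻¹} : Set G) := by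
    rw [← cj_centralizer_singleton, ← e]; exact cj_mono n c3
  obtain ⟨z, hz, zS, ez⟩ := C.mem_im.mp m1
  have cz : ∀ x ∈ S0, z * x = x * z := fun x hx => C.ext (mul_mem hz (S0_le hx)) (mul_mem (S0_le hx) hz) (by
    rw [C.mul _ _ hz (S0_le hx), C.mul _ _ (S0_le hx) hz, ez]
    exact (mem_centralizer_singleton_iff.mp (m2 (mem_im' C S0_le hx))).symm)
  obtain ⟨a, rfl⟩ := mem_A.mp (cenA hz fun x hx => cz x (A_le hx))
  have t6 := tab_spec a 6 (cz _ (mem_S0.mpr ⟨(0, 0, 0), 6, by decide⟩))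
  have cj1 : IsConj (C.f (av a)) (C.f al) := (isConj_iff.mpr ⟨n, ez.symm⟩).symm
  have d : ∀ a, tab a 6 = true → av a = 1 ∨ av a = y 4 5 ∨ av a = y 0 1 * y 2 3 ∨ av a = al := by decide +kernel
  rcases d a t6 with h1 | h1 | h1 | h1 <;> rw [h1] at cj1 ez
  · exact nsqH C (s := 1) (one_mem _) (mul_one _) cj1
  · exact n1 cj1
  · exact n2 cj1
  · obtain ⟨p, hp, rfl⟩ := (C.cen n).mp (mul_inv_eq_iff_eq_mul.mp ez.symm)
    rw [← C.cj hp (by decide)] at hn
    have := congrArg (fun x : P => x.support.card)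
      (C.ext (mul_mem (mul_mem hp (by decide)) (inv_mem hp)) (by decide) hn)
    simp only [Perm.card_support_conj] at this
    revert this; decide

end Cfsg.Agent.WA.Ya
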