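import Cfsg.Agent.WA.AlDef

/-! Frames for S3298 (see PLAN_YA.md). Points `2i, 2i+1` form coordinate `i : Fin 6`. -/

set_option autoImplicit false

namespace Cfsg.Agent.WA.Ya

open Subgroup Equiv

abbrev P : Type := Perm (Fin 12)

def al : P := swap 0 1 * swap 2 3 * swap 4 5 * swap 6 7 * swap 8 9 * swap 10 11
/-- the model of `C(α)`, the Weyl group of type `D₆` -/
def H : Subgroup P := alternatingGroup (Fin 12) ⊓ centralizer {al}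

theorem mem_H {p : P} : p ∈ H ↔ Perm.sign p = 1 ∧ al * p = p * al := by
  simp [H, Perm.mem_alternatingGroup, mem_centralizer_iff]

instance decH (p : P) : Decidable (p ∈ H) := decidable_of_iff _ mem_H.symm

def ev (i : Fin 6) : Fin 12 := ⟨2 * i.1, by omega⟩
def od (i : Fin 6) : Fin 12 := ⟨2 * i.1 + 1, by omega⟩
def fl (i : Fin 6) : P := swap (ev i) (od i)
/-- flip the coordinates `i, j` -/
def y (i j : Fin 6) : P := fl i * fl j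
/-- swap the coordinates `i, j` -/
def r (i j : Fin 6) : P := swap (ev i) (ev j) * swap (od i) (od j)
def u : P := y 2 3 * y 4 5
/-- the four-group on the points `0..3` -/
def v4 : Fin 4 → P := ![1, y 0 1, r 0 1, r 0 1 * y 0 1]
def vv (i j : Fin 6) : Fin 4 → P := ![1, y i j, r i j, r i j * y i j]
/-- the elements of `A` -/
def av (a : Fin 4 × Fin 4 × Fin 4) : P := vv 0 1 a.1 * vv 2 3 a.2.1 * vv 4 5 a.2.2
def A : Subgroup P := closure {y 0 1, r 0 1, y 2 3, r 2 3, y 4 5, r 4 5}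
/-- coset representatives of `A` in `S0` -/
def bv : Fin 8 → P := ![1, y 0 2, y 0 4, y 2 4, r 0 2 * r 1 3, y 0 2 * (r 0 2 * r 1 3), y 0 4 * (r 0 2 * r 1 3),
  y 2 4 * (r 0 2 * r 1 3)]
def S0 : Subgroup P := closure {y 0 1, r 0 1, y 2 3, r 2 3, y 4 5, r 4 5, y 0 2, y 0 4, r 0 2 * r 1 3}
/-- `W(D₄)` on the coordinates `2..5` -/
def W4 : Set P := {p | p ∈ H ∧ p 0 = 0 ∧ p 1 = 1 ∧ p 2 = 2 ∧ p 3 = 3}
/-- `W(D₅)` on the coordinates `1..5` -/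
def W5 : Set P := {p | p ∈ H ∧ p 0 = 0 ∧ p 1 = 1}
/-- the classes of involutions of `H`: y, yy, α, a, ay, six, aa, aay, T, T' -/
def rep : Fin 10 → P := ![y 0 1, y 0 1 * y 2 3, al, r 0 1, r 0 1 * y 2 3, r 0 1 * u, r 0 1 * r 2 3,
  r 0 1 * r 2 3 * y 4 5, r 0 1 * r 2 3 * r 4 5, r 0 1 * r 2 3 * r 4 5 * y 0 1]
def c27 : Fin 10 → ℕ := ![4, 8, 12, 4, 8, 12, 8, 12, 12, 12]
def c7 : Fin 10 → ℕ := ![21, 1, 7, 21, 28, 7, 21, 28, 1, 28]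
/-- the twist `g ↦ g α^sgn` on classes -/
def s1 : Fin 10 → Fin 10 := ![0, 1, 2, 5, 4, 3, 6, 7, 9, 8]
/-- conjugation by `swap 0 1` on classes -/
def s2 : Fin 10 → Fin 10 := ![0, 1, 2, 3, 4, 5, 6, 7, 9, 8]

/-- an isomorphism of `H` onto `C(α)`, `α` being 2-central -/
structure Ch (G : Type*) [Group G] where
  f : P → G
  mul : ∀ p q, p ∈ H → q ∈ H → f (p * q) = f p * f q
  inj : ∀ p, p ∈ H → f p = 1 → p = 1
  cen : ∀ g, g * f al = f al * g ↔ ∃ p, p ∈ H ∧ f p = g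
  syl : Al.Bd (⊤ : Subgroup G) 512

namespace Ch

variable {G : Type*} [Group G] (C : Ch G)

def hom : H →* G := MonoidHom.mk' (fun p => C.f p.1) fun p q => C.mul _ _ p.2 q.2
theorem one : C.f 1 = 1 := map_one C.hom
theorem inv {p : P} (hp : p ∈ H) : C.f p⁻¹ = (C.f p)⁻¹ := map_inv C.hom ⟨p, hp⟩
theorem ext {p q : P} (hp : p ∈ H) (hq : q ∈ H) (h : C.f p = C.f q) : p = q := by
  have := C.inj (p * q⁻¹) (mul_mem hp (inv_mem hq)) (by rw [C.mul _ _ hp (inv_mem hq), C.inv hq, h, mul_inv_cancel])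
  exact mul_inv_eq_one.1 this
theorem cj {h p : P} (hh : h ∈ H) (hp : p ∈ H) : C.f (h * p * h⁻¹) = C.f h * C.f p * (C.f h)⁻¹ := by
  rw [C.mul _ _ (mul_mem hh hp) (inv_mem hh), C.mul _ _ hh hp, C.inv hh]
/-- the image of a subgroup of the model -/
def im (K : Subgroup P) : Subgroup G := (K.subgroupOf H).map C.hom
theorem mem_im {K : Subgroup P} {g : G} : g ∈ C.im K ↔ ∃ p, p ∈ H ∧ p ∈ K ∧ C.f p = g :=
  ⟨fun ⟨p, h1, h2⟩ => ⟨p.1, p.2, h1, h2⟩, fun ⟨p, h0, h1, h2⟩ => ⟨⟨p, h0⟩, h1, h2⟩⟩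
/-- `N(A)` controls the fusion of elements of `A` -/
def Ctl : Prop := ∀ p ∈ A, ∀ q ∈ A, IsConj (C.f p) (C.f q) →
  ∃ n ∈ normalizer (C.im A : Set G), n * C.f p * n⁻¹ = C.f q
def NF : Prop := ¬ IsConj (C.f (rep 0)) (C.f (rep 1)) ∧ ¬ IsConj (C.f (rep 0)) (C.f (rep 2)) ∧
  ¬ IsConj (C.f (rep 1)) (C.f (rep 2))
def Iso : Prop := ∀ i, IsConj (C.f al) (C.f (rep i)) → i = 2
def Fus (c : Fin 10 → ℕ) : Prop := ∀ i j, IsConj (C.f (rep i)) (C.f (rep j)) ↔ c i = c j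
/-- fusion is given by the support -/
def W27 : Prop := ∀ p q, p ∈ H → q ∈ H → p * p = 1 → q * q = 1 →
  (IsConj (C.f p) (C.f q) ↔ p.support.card = q.support.card)
/-- `x` plays the 3-cycle `0 ↦ 1 ↦ 2 ↦ 0` -/
structure X3 (x : G) : Prop where
  x3 : x ^ 3 = 1
  cr : x * C.f (r 0 1) * x⁻¹ = C.f (y 0 1)
  cy : x * C.f (y 0 1) * x⁻¹ = C.f (r 0 1 * y 0 1)
  iv : C.f (y 0 2) * x * C.f (y 0 2) = x⁻¹
  cW : ∀ p ∈ W4, x * C.f p = C.f p * x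
/-- `Φ` extends the chart -/
structure Tw (x : G) (Φ : Al.Alt (Fin 12) →* G) : Prop where
  ext : ∀ p : Al.Alt (Fin 12), p.1 ∈ H → Φ p = C.f p.1
  hx : Φ (Al.c3 0 1 2 (by decide) (by decide)) = x
  inj : Function.Injective Φ
def R : Subgroup G := centralizer (C.f '' W4)
/-- `R/⟨u⟩` is `A₅`; `o` plays the 3-cycle `0 ↦ 1 ↦ ∞ ↦ 0` -/
structure O5 (x o : G) : Prop where
  mem : o ∈ C.R
  o3 : o ^ 3 = 1
  ne : o ≠ 1
  iv : C.f (y 0 1) * o * C.f (y 0 1) = o⁻¹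
  ox : (o * x) ^ 2 = 1
  gen : C.R ≤ closure {C.f u, C.f (y 0 1), C.f (r 0 1), x, o}
  un : ∀ t ∈ C.R, t ^ 3 = 1 → t ≠ 1 → C.f (y 0 1) * t * C.f (y 0 1) = t⁻¹ →
    t = o ∨ t = o⁻¹ ∨ t = C.f (r 0 1) * o * C.f (r 0 1) ∨ t = C.f (r 0 1) * o⁻¹ * C.f (r 0 1)
  ux : ∀ t ∈ C.R, t ^ 3 = 1 → t ≠ 1 → C.f (y 0 1) * t * C.f (y 0 1) = t⁻¹ → (t * x) ^ 2 = 1 → t = o

end Ch

end Cfsg.Agent.WA.Ya
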