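import Cfsg.Agent.WA.YaG1
import Cfsg.Agent.WA.AlSur

/-! The centralizer of the involution with 8 moved points. -/

set_option autoImplicit false

namespace Cfsg.Agent.WA.Ya

open Subgroup Equiv

universe u

namespace E8

open Al Al.Sur G1

theorem tri0 : ∀ a b c d : Fin 12, a.1 < 4 → b.1 < 4 → c.1 < 4 → d.1 < 4 → a ≠ 0 → b ≠ 1 → c ≠ 2 → d ≠ 3 →
    (a = 1 ↔ b = 0) → (a = 2 ↔ c = 0) → (a = 3 ↔ d = 0) → (b = 2 ↔ c = 1) → (b = 3 ↔ d = 1) → (c = 3 ↔ d = 2) →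
    (a = 1 ∧ b = 0 ∧ c = 3 ∧ d = 2) ∨ (a = 2 ∧ b = 3 ∧ c = 0 ∧ d = 1) ∨ (a = 3 ∧ b = 2 ∧ c = 1 ∧ d = 0) := by
  intro a b c d
  simp only [Fin.ext_iff, ne_eq]
  change _ → _ → _ → _ → ¬ a.1 = 0 → ¬ b.1 = 1 → ¬ c.1 = 2 → ¬ d.1 = 3 →
    (a.1 = 1 ↔ b.1 = 0) → (a.1 = 2 ↔ c.1 = 0) → (a.1 = 3 ↔ d.1 = 0) → (b.1 = 2 ↔ c.1 = 1) → (b.1 = 3 ↔ d.1 = 1) →
    (c.1 = 3 ↔ d.1 = 2) → (a.1 = 1 ∧ b.1 = 0 ∧ c.1 = 3 ∧ d.1 = 2) ∨ (a.1 = 2 ∧ b.1 = 3 ∧ c.1 = 0 ∧ d.1 = 1) ∨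
    (a.1 = 3 ∧ b.1 = 2 ∧ c.1 = 1 ∧ d.1 = 0)
  omega

theorem u_fix : ∀ a : Fin 12, a.1 < 4 → u a = a := by decide +kernel
theorem mem4 : ∀ a : Fin 12, a ∈ ({0, 1, 2, 3} : Finset (Fin 12)) ↔ a.1 < 4 := by decide +kernel
theorem v_fix : ∀ a : Fin 12, ¬ a.1 < 4 → y 0 1 a = a ∧ r 0 1 a = a ∧ (r 0 1 * y 0 1) a = a := by decide +kernel
theorem lt4 : ∀ a : Fin 12, a.1 < 4 → a = 0 ∨ a = 1 ∨ a = 2 ∨ a = 3 := by decide +kernel

theorem tri {t : P} (h2 : t * t = 1) (h4 : t.support.card = 4) (h12 : (t * u).support.card = 12) :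
    t = y 0 1 ∨ t = r 0 1 ∨ t = r 0 1 * y 0 1 := by
  have hu : (t * u).support = Finset.univ := Finset.eq_univ_of_card _ (by simpa using h12)
  have mv : ∀ a : Fin 12, a.1 < 4 → t a ≠ a := fun a ha => by
    have : a ∈ (t * u).support := hu ▸ Finset.mem_univ a
    rwa [Perm.mem_support, Perm.mul_apply, u_fix a ha] at this
  have hs : ({0, 1, 2, 3} : Finset (Fin 12)) = t.support :=
    Finset.eq_of_subset_of_card_le (fun a ha => Perm.mem_support.2 (mv a ((mem4 a).1 ha))) (by rw [h4]; decide)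
  have fx : ∀ a : Fin 12, ¬ a.1 < 4 → t a = a := fun a ha => by
    by_contra e
    exact ha ((mem4 a).1 (hs ▸ Perm.mem_support.2 e))
  have lt : ∀ a : Fin 12, a.1 < 4 → (t a).1 < 4 := fun a ha =>
    (mem4 _).1 (hs ▸ Perm.apply_mem_support.2 (Perm.mem_support.2 (mv a ha)))
  have tt : ∀ a b, t a = b ↔ t b = a := by
    have : ∀ a, t (t a) = a := fun a => by rw [← Perm.mul_apply, h2]; rfl
    intro a b
    exact ⟨fun e => by rw [← e, this], fun e => by rw [← e, this]⟩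
  have key : ∀ q : P, (∀ a : Fin 12, ¬ a.1 < 4 → q a = a) → t 0 = q 0 → t 1 = q 1 → t 2 = q 2 → t 3 = q 3 → t = q := by
    intro q hq e0 e1 e2 e3
    ext1 a
    by_cases ha : a.1 < 4
    · rcases lt4 a ha with rfl | rfl | rfl | rfl <;> assumption
    · rw [fx a ha, hq a ha]
  rcases tri0 (t 0) (t 1) (t 2) (t 3) (lt _ (by decide)) (lt _ (by decide)) (lt _ (by decide)) (lt _ (by decide))
    (mv _ (by decide)) (mv _ (by decide)) (mv _ (by decide)) (mv _ (by decide)) (tt _ _) (tt _ _) (tt _ _) (tt _ _)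
    (tt _ _) (tt _ _) with ⟨e0, e1, e2, e3⟩ | ⟨e0, e1, e2, e3⟩ | ⟨e0, e1, e2, e3⟩
  · exact Or.inl (key _ (fun a ha => (v_fix a ha).1) (e0.trans (by decide +kernel)) (e1.trans (by decide +kernel))
      (e2.trans (by decide +kernel)) (e3.trans (by decide +kernel)))
  · exact Or.inr (Or.inl (key _ (fun a ha => (v_fix a ha).2.1) (e0.trans (by decide +kernel))
      (e1.trans (by decide +kernel)) (e2.trans (by decide +kernel)) (e3.trans (by decide +kernel))))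
  · exact Or.inr (Or.inr (key _ (fun a ha => (v_fix a ha).2.2) (e0.trans (by decide +kernel))
      (e1.trans (by decide +kernel)) (e2.trans (by decide +kernel)) (e3.trans (by decide +kernel))))

/-- the reflections -/
def rf (i j : Fin 6) (b : Bool) : P := bif b then r i j * y i j else r i j

theorem rf_mem {i j : Fin 6} (h : i ≠ j) (b : Bool) : rf i j b ∈ H := by
  cases b
  · exact r_mem h
  · exact mul_mem (r_mem h) (y_mem _ _)

theorem F1 : ∀ (i j : Fin 6) (b : Bool), 2 ≤ i.1 → 2 ≤ j.1 → i ≠ j →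
    al * rf i j b * (al * rf i j b) = 1 ∧ al * rf i j b * u = u * (al * rf i j b) ∧
      al * rf i j b * y 0 1 = rf i j b * u := by decide +kernel
theorem F2 : ∀ (i j : Fin 6) (b : Bool), 2 ≤ i.1 → 2 ≤ j.1 → i ≠ j →
    (al * rf i j b).support.card = 12 ∧ (al * rf i j b * u).support.card = 8 ∧
      (al * rf i j b * r 0 1).support.card = 12 ∧ (al * rf i j b * (r 0 1 * y 0 1)).support.card = 12 := by
  decide +kernel
theorem F3 : al * al = 1 ∧ u * u = 1 ∧ al * u = u * al ∧ al * y 0 1 = u := by decide +kernel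
theorem F4 : al.support.card = 12 ∧ (al * u).support.card = 4 ∧ (al * r 0 1).support.card = 12 ∧
    (al * (r 0 1 * y 0 1)).support.card = 12 := by decide +kernel
theorem F5 : ∀ i j : Fin 6, rf i j false * rf i j true = y i j := by decide +kernel
def st : Fin 4 → P := ![1, y 0 1, u, al]
theorem F6 : ∀ k, st k ∈ H ∧ st k * st k = 1 ∧ (st k).support.card = 4 * k.1 := by decide +kernel
theorem al_mem : al ∈ H := (F6 3).1
theorem u_mem : u ∈ H := (F6 2).1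

/-- elements of `H` as even permutations -/
def A (p : P) (hp : p ∈ H) : Alt (Fin 12) := ⟨p, hp.1⟩

variable {G : Type u} [Group G] [Finite G] {Φ : Alt (Fin 12) →* G}

theorem core (hΦ : Function.Injective Φ)
    (h3 : ∀ p q : Alt (Fin 12), p * p = 1 → q * q = 1 → IsConj (Φ p) (Φ q) → w p = w q)
    (gd : ∀ v : Alt (Fin 12), v * v = 1 → w v = 12 → Good Φ v) {a U p : Alt (Fin 12)} (ha : a.1 = al) (hU : U.1 = u)
    {i j : Fin 6} {b : Bool} (hi : 2 ≤ i.1) (hj : 2 ≤ j.1) (hij : i ≠ j) (hp : p.1 = rf i j b) {g : G}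
    (hg : g * Φ U = Φ U * g) (ng : g ∉ Φ.range) : Φ a * (g⁻¹ * Φ p * g) = g⁻¹ * Φ p * g * Φ a := by
  obtain ⟨f1, f2, f3⟩ := F1 i j b hi hj hij
  obtain ⟨f4, f5, f6, f7⟩ := F2 i j b hi hj hij
  obtain ⟨f8, f9, f10, f11⟩ := F3
  obtain ⟨f12, f13, f14, f15⟩ := F4
  rw [← hp, ← ha] at f1 f2 f3 f4 f5 f6 f7
  rw [← ha] at f8 f10 f11 f12 f13 f14 f15
  rw [← hU] at f2 f3 f5 f9 f10 f11 f13
  have a2 : a * a = 1 := Subtype.ext f8
  have U2 : U * U = 1 := Subtype.ext f9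
  have aU : a * U = U * a := Subtype.ext f10
  have h2 : a * p * (a * p) = 1 := Subtype.ext f1
  have hU' : a * p * U = U * (a * p) := Subtype.ext f2
  have mX : ∀ {k : G}, k ∈ centralizer ({Φ U} : Set G) ↔ k * Φ U = Φ U * k := mem_centralizer_singleton_iff
  have cU : ∀ {k : G} {s t : Alt (Fin 12)}, k * Φ U = Φ U * k → k * Φ s * k⁻¹ = Φ t → k * Φ (s * U) * k⁻¹ = Φ (t * U) := by
    intro k s t hk e
    rw [map_mul, map_mul, ← e]
    calc k * (Φ s * Φ U) * k⁻¹ = k * Φ s * k⁻¹ * (k * Φ U) * k⁻¹ := by group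
      _ = _ := by rw [hk]; group
  have gi : g⁻¹ * Φ U = Φ U * g⁻¹ := mX.1 (inv_mem (mX.2 hg))
  have my : g⁻¹ * Φ (a * p) * g ∈ centralizer ({Φ U} : Set G) :=
    mul_mem (mul_mem (mX.2 gi) (mX.2 (by rw [← map_mul, hU', ← map_mul]))) (mX.2 hg)
  have W : ∀ k ∈ centralizer ({Φ U} : Set G), ∀ s : Alt (Fin 12), s * s = 1 → s * U = U * s → k * Φ a * k⁻¹ = Φ s →
      w s = 12 ∧ w (s * U) = 4 := fun k hk s s2 sU e =>
    ⟨(h3 a s a2 s2 (isConj_iff.2 ⟨k, e⟩)).symm.trans f12,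
      (h3 _ _ (sq_mul a2 U2 aU) (sq_mul s2 U2 sU) (isConj_iff.2 ⟨k, cU (mX.1 hk) e⟩)).symm.trans f13⟩
  have T : ∀ k ∈ centralizer ({Φ U} : Set G), ∀ s : Alt (Fin 12), s * s = 1 → s * U = U * s → k * Φ a * k⁻¹ = Φ s →
      (s * U).1 = y 0 1 ∨ (s * U).1 = r 0 1 ∨ (s * U).1 = r 0 1 * y 0 1 := fun k hk s s2 sU e => by
    obtain ⟨w1, w2⟩ := W k hk s s2 sU e
    refine tri (congrArg Subtype.val (sq_mul s2 U2 sU)) w2 ?_
    have : s * U * U = s := by rw [mul_assoc, U2, mul_one]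
    rw [← hU]
    exact (congrArg w this).trans w1
  obtain ⟨z, mz, z1, z2, c1, c2, hk⟩ := dih (centralizer ({Φ U} : Set G)) (x := Φ a) (y := g⁻¹ * Φ (a * p) * g)
    (by rw [← map_mul, a2, map_one])
    (by calc _ = g⁻¹ * (Φ (a * p) * Φ (a * p)) * g := by group
      _ = 1 := by rw [← map_mul, h2]; simp)
    (mX.2 (by rw [← map_mul, aU, map_mul])) my (fun k mk e => by
      have := (W (g * k) (mul_mem (mX.2 hg) mk) (a * p) h2 hU' (by
        calc g * k * Φ a * (g * k)⁻¹ = g * (k * Φ a * k⁻¹) * g⁻¹ := by group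
          _ = _ := by rw [e]; group)).2
      have e2 : w (a * p * U) = 8 := f5
      omega)
  obtain ⟨s, rfl⟩ := gd a a2 f12 (mem_centralizer_singleton_iff.2 c1.symm)
  have c3 : g * Φ s * g⁻¹ * Φ (a * p) = Φ (a * p) * (g * Φ s * g⁻¹) := by
    calc g * Φ s * g⁻¹ * Φ (a * p) = g * (Φ s * (g⁻¹ * Φ (a * p) * g)) * g⁻¹ := by group
      _ = _ := by rw [← c2]; group
  obtain ⟨t, ht⟩ := gd (a * p) h2 f4 (mem_centralizer_singleton_iff.2 c3)
  have s2 : s * s = 1 := hΦ (by rw [map_mul, z2, map_one])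
  have t2 : t * t = 1 := hΦ (by rw [map_mul, ht, conj_mul, z2]; simp)
  have sU : s * U = U * s := hΦ (by rw [map_mul, map_mul]; exact mX.1 mz)
  have tU : t * U = U * t := hΦ (by
    rw [map_mul, map_mul, ht]; exact mX.1 (mul_mem (mul_mem (mX.2 hg) mz) (mX.2 gi)))
  have as : a * s = s * a := hΦ (by rw [map_mul, map_mul]; exact c1)
  have ht' : a * p * t = t * (a * p) := hΦ (by rw [map_mul _ (a * p), map_mul _ t, ht]; exact c3.symm)
  have n12 : w (s * U) ≠ 12 := fun e =>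
    ng (pt hΦ h3 (sq_mul s2 U2 sU) (gd _ (sq_mul s2 U2 sU) e) (cU hg ht.symm))
  have n12' : w (t * U) ≠ 12 := fun e => n12
    ((h3 _ _ (sq_mul s2 U2 sU) (sq_mul t2 U2 tU) (isConj_iff.2 ⟨g, cU hg ht.symm⟩)).trans e)
  rcases hk with ⟨⟨k, mk, e⟩, -⟩ | ⟨-, k, mk, e⟩
  · exfalso
    have e1 : s * U = a * (a * s * U) := by rw [mul_assoc a s, ← mul_assoc a a, a2, one_mul]
    have e2 : (s * U).1 = a.1 * (a * s * U).1 := congrArg Subtype.val e1
    rcases T k mk (a * s) (sq_mul a2 s2 as) (by rw [mul_assoc, sU, ← mul_assoc, aU, mul_assoc])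
      (by rw [e, map_mul]) with h | h | h
    · rw [h, f11] at e2
      have : s * U = U := Subtype.ext e2
      rw [mul_eq_right] at this
      exact z1 (by rw [this, map_one])
    · exact n12 (by unfold w; rw [e2, h]; exact f14)
    · exact n12 (by unfold w; rw [e2, h]; exact f15)
  · have e1 : t * U = a * p * (a * p * t * U) := by rw [mul_assoc (a * p) t, ← mul_assoc (a * p) (a * p), h2, one_mul]
    have e2 : (t * U).1 = a.1 * p.1 * (a * p * t * U).1 := congrArg Subtype.val e1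
    rcases T (g * k) (mul_mem (mX.2 hg) mk) (a * p * t) (sq_mul h2 t2 ht')
      (by rw [mul_assoc, tU, ← mul_assoc, hU', mul_assoc U]) (by
        calc g * k * Φ a * (g * k)⁻¹ = g * (k * Φ a * k⁻¹) * g⁻¹ := by group
          _ = _ := by rw [e, map_mul _ (a * p) t, ht]; group) with h | h | h
    · rw [h, f3] at e2
      have e3 : t * U = p * U := Subtype.ext e2
      have e4 : g⁻¹ * Φ p * g = Φ s := by rw [← mul_right_cancel e3, ht]; group
      rw [e4]; exact c1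
    · exact absurd (by unfold w; rw [e2, h]; exact f6) n12'
    · exact absurd (by unfold w; rw [e2, h]; exact f7) n12'

omit [Finite G] in
theorem h3 (C : Ch G) (h : C.W27) {x : G} (hΦ : C.Tw x Φ) (p q : Alt (Fin 12)) (p2 : p * p = 1) (q2 : q * q = 1)
    (e : IsConj (Φ p) (Φ q)) : w p = w q := by
  have key : ∀ p : Alt (Fin 12), p * p = 1 → ∃ k, (st k).support.card = w p ∧ IsConj (Φ p) (C.f (st k)) := by
    intro p p2
    obtain ⟨n, hn⟩ := four_dvd p2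
    have : w p ≤ 12 := by simpa [w] using Finset.card_le_univ p.1.support
    obtain ⟨m, s, c⟩ := F6 ⟨n, by omega⟩
    refine ⟨_, c.trans hn.symm, ?_⟩
    obtain ⟨c, hc⟩ := conj_supp (q := A _ m) p2 (Subtype.ext s) (hn.trans c.symm)
    refine isConj_iff.2 ⟨Φ c, ?_⟩
    rw [← map_inv, ← map_mul, ← map_mul, hc]
    exact hΦ.ext _ m
  obtain ⟨k, k1, k2⟩ := key p p2
  obtain ⟨l, l1, l2⟩ := key q q2
  rw [← k1, ← l1]
  exact (h _ _ (F6 k).1 (F6 l).1 (F6 k).2.1 (F6 l).2.1).1 ((k2.symm.trans e).trans l2)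

omit [Finite G] in
theorem gd (C : Ch G) {x : G} (hΦ : C.Tw x Φ) (v : Alt (Fin 12)) (v2 : v * v = 1) (hv : w v = 12) : Good Φ v := by
  intro g hg
  rw [mem_centralizer_singleton_iff] at hg
  obtain ⟨c, hc⟩ := conj_supp (p := A _ al_mem) (Subtype.ext F3.1) v2 (F4.1.trans hv.symm)
  have e : Φ v = Φ c * C.f al * (Φ c)⁻¹ := by
    rw [← hc, map_mul, map_mul, map_inv, hΦ.ext (A _ al_mem) al_mem]; rfl
  rw [e] at hg
  obtain ⟨p, hp, e'⟩ := (C.cen ((Φ c)⁻¹ * g * Φ c)).1 (by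
    calc (Φ c)⁻¹ * g * Φ c * C.f al = (Φ c)⁻¹ * (g * (Φ c * C.f al * (Φ c)⁻¹)) * Φ c := by group
      _ = _ := by rw [hg]; group)
  refine ⟨c * A p hp * c⁻¹, ?_⟩
  rw [map_mul, map_mul, map_inv, hΦ.ext (A p hp) hp]
  change Φ c * C.f p * _ = _
  rw [e']; group

end E8

open E8 G1

theorem eight {G : Type u} [Group G] [Finite G] (C : Ch G) (h : C.W27) {x : G} {Φ : Al.Alt (Fin 12) →* G}
    (hΦ : C.Tw x Φ) {g : G} (hg : g * C.f u = C.f u * g) : g ∈ Φ.range ∨ g * C.f al * g⁻¹ ∈ C.R := by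
  by_cases ng : g ∈ Φ.range
  · exact Or.inl ng
  right
  have eA : ∀ (p : P) (hp : p ∈ H), Φ (E8.A p hp) = C.f p := fun p hp => hΦ.ext (E8.A p hp) hp
  have key : ∀ (i j : Fin 6) (b : Bool), 2 ≤ i.1 → 2 ≤ j.1 → i ≠ j →
      C.f (rf i j b) * (g * C.f al * g⁻¹) = g * C.f al * g⁻¹ * C.f (rf i j b) := by
    intro i j b hi hj hij
    have := core hΦ.inj (h3 C h hΦ) (gd C hΦ) (a := E8.A _ al_mem) (U := E8.A _ u_mem) (p := E8.A _ (rf_mem hij b))
      rfl rfl hi hj hij rfl (g := g) (by rw [eA]; exact hg) ng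
    rw [eA, eA] at this
    calc _ = g * (g⁻¹ * C.f (rf i j b) * g * C.f al) * g⁻¹ := by group
      _ = _ := by rw [← this]; group
  rintro _ ⟨p, hp, rfl⟩
  have m := gen {2, 3, 4, 5} hp.1 (fun i hi => by
    have : i = 0 ∨ i = 1 := by revert i; decide
    rcases this with rfl | rfl
    · exact hp.2.1
    · exact hp.2.2.2.1)
  have two : ∀ i : Fin 6, i ∈ ({2, 3, 4, 5} : Finset (Fin 6)) → 2 ≤ i.1 := by decide
  refine (closure_induction (p := fun q _ => q ∈ H ∧ C.f q * (g * C.f al * g⁻¹) = g * C.f al * g⁻¹ * C.f q)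
    ?_ ?_ ?_ ?_ m).2
  · rintro q ⟨i, hi, j, hj, hij, rfl | rfl⟩
    · exact ⟨r_mem hij, key i j false (two i hi) (two j hj) hij⟩
    · refine ⟨y_mem _ _, ?_⟩
      rw [← F5, C.mul _ _ (rf_mem hij _) (rf_mem hij _), mul_assoc, key i j true (two i hi) (two j hj) hij,
        ← mul_assoc, key i j false (two i hi) (two j hj) hij, mul_assoc]
  · exact ⟨one_mem _, by rw [C.one, one_mul, mul_one]⟩
  · rintro a b - - ⟨ha, ea⟩ ⟨hb, eb⟩
    exact ⟨mul_mem ha hb, by rw [C.mul _ _ ha hb, mul_assoc, eb, ← mul_assoc, ea, mul_assoc]⟩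
  · rintro a - ⟨ha, ea⟩
    refine ⟨inv_mem ha, ?_⟩
    rw [C.inv ha, inv_mul_eq_iff_eq_mul, ← mul_assoc, ea]; group

end Cfsg.Agent.WA.Ya
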