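import Cfsg.Agent.WA.YaDef

/-! `gen`: the subgroup of `H` fixing the coordinates outside `S` is generated by the `r i j`, `y i j`. -/

set_option autoImplicit false

namespace Cfsg.Agent.WA.Ya

open Subgroup Equiv

namespace G1

theorem al_ev : ∀ i, al (ev i) = od i := by decide +kernel
theorem al_od : ∀ i, al (od i) = ev i := by decide +kernel
theorem pts : ∀ a : Fin 12, ∃ i, a = ev i ∨ a = od i := by decide +kernel
theorem ev_ne_od : ∀ i j, ev i ≠ od j := by decide +kernel
theorem ev_inj : ∀ i j, ev i = ev j → i = j := by decide +kernel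
theorem od_inj : ∀ i j, od i = od j → i = j := by decide +kernel
theorem al_r : ∀ i j, al * r i j = r i j * al := by decide +kernel
theorem al_fl : ∀ i, al * fl i = fl i * al := by decide +kernel
theorem sign_fl (i : Fin 6) : Perm.sign (fl i) = -1 := Perm.sign_swap (ev_ne_od i i)
theorem y_mem (i j : Fin 6) : y i j ∈ H := by
  refine mem_H.2 ⟨?_, ?_⟩
  · simp [y, sign_fl]
  · rw [y, ← mul_assoc, al_fl, mul_assoc, al_fl, mul_assoc]
theorem r_mem {i j : Fin 6} (h : i ≠ j) : r i j ∈ H := by
  refine mem_H.2 ⟨?_, al_r i j⟩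
  have h1 : ev i ≠ ev j := fun e => h (ev_inj _ _ e)
  have h2 : od i ≠ od j := fun e => h (od_inj _ _ e)
  simp [r, Perm.sign_swap h1, Perm.sign_swap h2]
theorem r_ev : ∀ i j k, r i j (ev k) = ev (swap i j k) := by decide +kernel
theorem r_od : ∀ i j k, r i j (od k) = od (swap i j k) := by decide +kernel
theorem y_ev : ∀ i j k, k ≠ i → k ≠ j → y i j (ev k) = ev k := by decide +kernel
theorem y_od : ∀ i j, i ≠ j → y i j (od i) = ev i := by decide +kernel
theorem fl_ev : ∀ i k, k ≠ i → fl i (ev k) = ev k := by decide +kernel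
theorem fl_ev' : ∀ i, fl i (ev i) = od i := by decide +kernel

theorem app_od {p : P} (hp : al * p = p * al) (i : Fin 6) : p (od i) = al (p (ev i)) := by
  rw [← al_ev, ← Perm.mul_apply, ← hp, Perm.mul_apply]

theorem ext' {p q : P} (hp : al * p = p * al) (hq : al * q = q * al) (h : ∀ i, p (ev i) = q (ev i)) : p = q := by
  ext1 a
  obtain ⟨i, rfl | rfl⟩ := pts a
  · exact h i
  · rw [app_od hp, app_od hq, h]

end G1

open G1

theorem gen (S : Finset (Fin 6)) {p : P} (hp : p ∈ H) (hS : ∀ i, i ∉ S → p (ev i) = ev i) :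
    p ∈ closure {q : P | ∃ i ∈ S, ∃ j ∈ S, i ≠ j ∧ (q = r i j ∨ q = y i j)} := by
  induction S using Finset.induction_on generalizing p with
  | empty =>
    have : p = 1 := ext' (mem_H.1 hp).2 (by simp) fun i => hS i (by simp)
    rw [this]; exact one_mem _
  | insert k T hk ih =>
    have hc := (mem_H.1 hp).2
    have key : ∀ q : P, q ∈ closure {q : P | ∃ i ∈ insert k T, ∃ j ∈ insert k T, i ≠ j ∧ (q = r i j ∨ q = y i j)} →
        q ∈ H → (∀ i, i ∉ insert k T → q (ev i) = ev i) → q (p (ev k)) = ev k →
        p ∈ closure {q : P | ∃ i ∈ insert k T, ∃ j ∈ insert k T, i ≠ j ∧ (q = r i j ∨ q = y i j)} := by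
      intro q h1 h2 h3 h4
      have h5 := ih (mul_mem h2 hp) (fun i hi => by
        by_cases e : i = k
        · rw [e]; exact h4
        · have : i ∉ insert k T := by simp [e, hi]
          rw [Perm.mul_apply, hS i this, h3 i this])
      have h6 := closure_mono (show {q : P | ∃ i ∈ T, ∃ j ∈ T, i ≠ j ∧ (q = r i j ∨ q = y i j)} ⊆
        {q : P | ∃ i ∈ insert k T, ∃ j ∈ insert k T, i ≠ j ∧ (q = r i j ∨ q = y i j)} from
        fun q ⟨i, hi, j, hj, h⟩ => ⟨i, Finset.mem_insert_of_mem hi, j, Finset.mem_insert_of_mem hj, h⟩) h5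
      have := mul_mem (inv_mem h1) h6
      rwa [inv_mul_cancel_left] at this
    have hr : ∀ j, j ∈ insert k T → k ≠ j →
        r k j ∈ closure {q : P | ∃ i ∈ insert k T, ∃ j ∈ insert k T, i ≠ j ∧ (q = r i j ∨ q = y i j)} :=
      fun j hj e => subset_closure ⟨k, Finset.mem_insert_self _ _, j, hj, e, Or.inl rfl⟩
    have hy : ∀ j, j ∈ insert k T → k ≠ j →
        y k j ∈ closure {q : P | ∃ i ∈ insert k T, ∃ j ∈ insert k T, i ≠ j ∧ (q = r i j ∨ q = y i j)} :=
      fun j hj e => subset_closure ⟨k, Finset.mem_insert_self _ _, j, hj, e, Or.inr rfl⟩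
    have fr : ∀ j, j ∈ insert k T → ∀ i, i ∉ insert k T → r k j (ev i) = ev i := by
      intro j hj i hi
      rw [r_ev, swap_apply_of_ne_of_ne]
      · rintro rfl; exact hi (Finset.mem_insert_self _ _)
      · rintro rfl; exact hi hj
    have fy : ∀ j, j ∈ insert k T → ∀ i, i ∉ insert k T → y k j (ev i) = ev i := by
      intro j hj i hi
      apply y_ev
      · rintro rfl; exact hi (Finset.mem_insert_self _ _)
      · rintro rfl; exact hi hj
    obtain ⟨j, hj | hj⟩ := pts (p (ev k))
    · have hjS : j ∈ insert k T := by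
        by_contra h
        have := ev_inj _ _ (p.injective (hj.trans (hS j h).symm))
        exact h (this ▸ Finset.mem_insert_self _ _)
      by_cases e : k = j
      · exact key 1 (one_mem _) (one_mem _) (fun _ _ => rfl) (by rw [hj, ← e]; rfl)
      · exact key _ (hr j hjS e) (r_mem e) (fr j hjS) (by rw [hj, r_ev, swap_apply_right])
    · have hjS : j ∈ insert k T := by
        by_contra h
        have h1 : p (od j) = od j := by rw [app_od hc, hS j h, al_ev]
        exact ev_ne_od _ _ (p.injective (hj.trans h1.symm))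
      by_cases e : k = j
      · subst e
        rcases T.eq_empty_or_nonempty with rfl | ⟨l, hl⟩
        · exfalso
          have : p = fl k := ext' hc (al_fl k) fun i => by
            by_cases e : i = k
            · rw [e, hj, fl_ev']
            · rw [hS i (by simp [e]), fl_ev _ _ e]
          have h1 := (mem_H.1 hp).1
          rw [this, sign_fl] at h1
          exact absurd h1 (by decide)
        · have e : k ≠ l := by rintro rfl; exact hk hl
          have hl' : l ∈ insert k T := Finset.mem_insert_of_mem hl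
          exact key _ (hy l hl' e) (y_mem _ _) (fy l hl') (by rw [hj, y_od _ _ e])
      · exact key (y k j * r k j) (mul_mem (hy j hjS e) (hr j hjS e)) (mul_mem (y_mem _ _) (r_mem e))
          (fun i hi => by rw [Perm.mul_apply, fr j hjS i hi, fy j hjS i hi])
          (by rw [hj, Perm.mul_apply, r_od, swap_apply_right, y_od _ _ e])

end Cfsg.Agent.WA.Ya
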