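import Cfsg.Agent.WA.AlPres

/-! S3298, module YaGlue: extension of a chart of `C(σ)` to the alternating group (Carmichael's presentation). -/

set_option autoImplicit false

namespace Cfsg.Agent.WA.Al

open Subgroup Equiv

universe u

namespace Glue

variable {α : Type} [Fintype α] [DecidableEq α]

/-- even permutations commuting with `σ` -/
def HH (σ : Perm α) : Subgroup (Perm α) := alternatingGroup α ⊓ centralizer {σ}

theorem mem_HH {σ h : Perm α} : h ∈ HH σ ↔ Perm.sign h = 1 ∧ h * σ = σ * h := by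
  simp [HH, mem_centralizer_singleton_iff, Perm.mem_alternatingGroup]

/-- the reflection `(p q)(p' q')` -/
def D (σ : Perm α) (p q : α) : Perm α := swap p q * swap (σ p) (σ q)

theorem app {σ h : Perm α} (hh : h ∈ HH σ) (p : α) : h (σ p) = σ (h p) := by
  have := DFunLike.congr_fun (mem_HH.1 hh).2 p
  simpa using this

theorem ss {σ : Perm α} (hσ : σ * σ = 1) (p : α) : σ (σ p) = p := by
  have := DFunLike.congr_fun hσ p
  simpa using this

theorem conj_swap (h : Perm α) (p q : α) : h * swap p q * h⁻¹ = swap (h p) (h q) := (swap_apply_apply h p q).symm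

theorem conj_D {σ h : Perm α} (hh : h ∈ HH σ) (p q : α) : h * D σ p q * h⁻¹ = D σ (h p) (h q) := by
  unfold D
  rw [← app hh, ← app hh, ← conj_swap h p q, ← conj_swap h (σ p) (σ q)]
  group

theorem swc {a b c d : α} (hac : a ≠ c) (had : a ≠ d) (hbc : b ≠ c) (hbd : b ≠ d) :
    swap a b * swap c d = swap c d * swap a b := by
  rw [mul_swap_eq_swap_mul, swap_apply_of_ne_of_ne hac.symm hbc.symm, swap_apply_of_ne_of_ne had.symm hbd.symm]

/-- `p`, `q` are non-fixed points in different pairs -/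
structure Ap (σ : Perm α) (p q : α) : Prop where
  p1 : σ p ≠ p
  q1 : σ q ≠ q
  n1 : p ≠ q
  n2 : σ p ≠ q

theorem Ap.n3 {σ : Perm α} (hσ : σ * σ = 1) {p q : α} (h : Ap σ p q) : p ≠ σ q := fun e => h.n2 (by rw [e, ss hσ])
theorem Ap.n4 {σ : Perm α} {p q : α} (h : Ap σ p q) : σ p ≠ σ q := fun e => h.n1 (σ.injective e)
theorem Ap.symm {σ : Perm α} (hσ : σ * σ = 1) {p q : α} (h : Ap σ p q) : Ap σ q p :=
  ⟨h.q1, h.p1, h.n1.symm, (h.n3 hσ).symm⟩
theorem Ap.right {σ : Perm α} (hσ : σ * σ = 1) {p q : α} (h : Ap σ p q) : Ap σ p (σ q) :=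
  ⟨h.p1, by rw [ss hσ]; exact h.q1.symm, h.n3 hσ, h.n4⟩
theorem Ap.left {σ : Perm α} (hσ : σ * σ = 1) {p q : α} (h : Ap σ p q) : Ap σ (σ p) q :=
  ((h.symm hσ).right hσ).symm hσ

theorem D_comm {σ : Perm α} (hσ : σ * σ = 1) {p q : α} (h : Ap σ p q) : D σ (σ p) (σ q) = D σ p q := by
  unfold D
  rw [ss hσ, ss hσ]
  exact swc h.p1 h.n2 (h.n3 hσ).symm h.q1

theorem D_symm (σ : Perm α) (p q : α) : D σ p q = D σ q p := by
  unfold D; rw [swap_comm p q, swap_comm (σ p)]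

theorem D_mem {σ : Perm α} (hσ : σ * σ = 1) {p q : α} (h : Ap σ p q) : D σ p q ∈ HH σ := by
  rw [mem_HH]
  refine ⟨by rw [D, map_mul, Perm.sign_swap h.n1, Perm.sign_swap h.n4]; decide, ?_⟩
  have e : σ * D σ p q * σ⁻¹ = D σ (σ p) (σ q) := by
    calc σ * D σ p q * σ⁻¹ = (σ * swap p q * σ⁻¹) * (σ * swap (σ p) (σ q) * σ⁻¹) := by unfold D; group
      _ = _ := by rw [conj_swap, conj_swap]; rfl
  rw [D_comm hσ h] at e
  exact (mul_inv_eq_iff_eq_mul.1 e).symm

theorem D_p {σ : Perm α} (hσ : σ * σ = 1) {p q : α} (h : Ap σ p q) : D σ p q p = q := by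
  simp [D, swap_apply_of_ne_of_ne h.p1.symm (h.n3 hσ)]

theorem D_q {σ : Perm α} (hσ : σ * σ = 1) {p q : α} (h : Ap σ p q) : D σ p q q = p := by
  rw [D_symm]; exact D_p hσ (h.symm hσ)

theorem D_o {σ : Perm α} {p q x : α} (h1 : x ≠ p) (h2 : x ≠ q) (h3 : x ≠ σ p) (h4 : x ≠ σ q) : D σ p q x = x := by
  simp [D, swap_apply_of_ne_of_ne h1 h2, swap_apply_of_ne_of_ne h3 h4]

/-- the sign change `(p p')(q q')` -/
def E (σ : Perm α) (p q : α) : Perm α := swap p (σ p) * swap q (σ q)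

theorem DD {σ : Perm α} (hσ : σ * σ = 1) {p q : α} (h : Ap σ p q) : D σ p q * D σ p (σ q) = E σ p q := by
  have := h.p1; have := h.q1; have := h.n1; have := h.n2; have := h.n3 hσ; have := h.n4
  unfold D E
  rw [ss hσ]
  generalize σ p = p' at *
  generalize σ q = q' at *
  ext x
  simp only [Perm.mul_apply, swap_apply_def]
  split_ifs <;> simp_all

theorem E_mem {σ : Perm α} (hσ : σ * σ = 1) {p q : α} (h : Ap σ p q) : E σ p q ∈ HH σ :=
  DD hσ h ▸ mul_mem (D_mem hσ h) (D_mem hσ (h.right hσ))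

theorem E_p {σ : Perm α} (hσ : σ * σ = 1) {p q : α} (h : Ap σ p q) : E σ p q p = σ p := by
  simp [E, swap_apply_of_ne_of_ne h.n1 (h.n3 hσ)]

theorem E_o {σ : Perm α} {p q x : α} (h1 : x ≠ p) (h2 : x ≠ q) (h3 : x ≠ σ p) (h4 : x ≠ σ q) : E σ p q x = x := by
  simp [E, swap_apply_of_ne_of_ne h1 h3, swap_apply_of_ne_of_ne h2 h4]

theorem shrink {σ h k : Perm α} (hσ : σ * σ = 1) (hh : h ∈ HH σ) {p q : α} (hp : h p ≠ p) (hq : h q ≠ q)
    (hk : ∀ x, x ≠ p → x ≠ q → x ≠ σ p → x ≠ σ q → k x = x) (e : k (h p) = p) :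
    (k * h).support.card < h.support.card := by
  refine Finset.card_lt_card ⟨fun x hx => ?_, fun c => ?_⟩
  · rw [Perm.mem_support] at hx ⊢
    intro e'
    refine hx ?_
    rw [Perm.mul_apply, e']
    refine hk x ?_ ?_ ?_ ?_ <;> rintro rfl
    · exact hp e'
    · exact hq e'
    · exact hp (σ.injective (by rw [← app hh, e']))
    · exact hq (σ.injective (by rw [← app hh, e']))
  · exact Perm.mem_support.1 (c (Perm.mem_support.2 hp)) e

/-- the reflections generate `HH σ` -/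
theorem gen {σ : Perm α} (hσ : σ * σ = 1) (hu : ∀ p q, σ p = p → σ q = q → p = q) (K : Subgroup (Perm α))
    (hK : ∀ p q, Ap σ p q → D σ p q ∈ K) : HH σ ≤ K := by
  intro h hh
  induction hn : h.support.card using Nat.strong_induction_on generalizing h with
  | _ n ih =>
  have nf : ∀ p, h p ≠ p → σ p ≠ p := fun p hp e => hp (hu _ _ (by rw [← app hh, e]) e)
  have fin : ∀ k, k ∈ HH σ → k ∈ K → (k * h).support.card < h.support.card → h ∈ K := fun k k1 k2 lt => by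
    have := ih _ (hn ▸ lt) (mul_mem k1 hh) rfl
    simpa using K.mul_mem (K.inv_mem k2) this
  by_cases c1 : ∃ p, h p ≠ p ∧ h p ≠ σ p
  · obtain ⟨p, h1, h2⟩ := c1
    have h3 : h (h p) ≠ h p := fun e => h1 (h.injective e)
    have A : Ap σ p (h p) := ⟨nf p h1, nf _ h3, h1.symm, h2.symm⟩
    exact fin _ (D_mem hσ A) (hK _ _ A) (shrink hσ hh h1 h3 (fun x => D_o) (D_q hσ A))
  push Not at c1
  by_cases c2 : h = 1
  · exact c2 ▸ K.one_mem
  obtain ⟨p, h1⟩ : ∃ p, h p ≠ p := by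
    by_contra! k
    exact c2 (Perm.ext k)
  by_cases c3 : ∃ q, h q ≠ q ∧ q ≠ p ∧ q ≠ σ p
  · obtain ⟨q, h2, h3, h4⟩ := c3
    have A : Ap σ p q := ⟨nf p h1, nf q h2, h3.symm, h4.symm⟩
    refine fin _ (E_mem hσ A) (DD hσ A ▸ K.mul_mem (hK _ _ A) (hK _ _ (A.right hσ))) (shrink hσ hh h1 h2 (fun x => E_o) ?_)
    rw [c1 p h1, app (E_mem hσ A), E_p hσ A, ss hσ]
  push Not at c3
  exfalso
  have e : h = swap p (σ p) := by
    ext x
    by_cases x1 : x = p
    · rw [x1, swap_apply_left, c1 p h1]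
    by_cases x2 : x = σ p
    · rw [x2, swap_apply_right, app hh, c1 p h1, ss hσ]
    rw [swap_apply_of_ne_of_ne x1 x2]
    by_contra k
    exact x2 (c3 x k x1)
  have := (mem_HH.1 hh).1
  rw [e, Perm.sign_swap (nf p h1).symm] at this
  exact absurd this (by decide)

end Glue

end Cfsg.Agent.WA.Al
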