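import Cfsg.Agent.WA.YaDef
import Cfsg.Agent.WA.YaGlue
import Mathlib.GroupTheory.SpecificGroups.Alternating.Simple

/-! S3298, module YaP12: the chart extends to `A₁₂`. -/

set_option autoImplicit false

namespace Cfsg.Agent.WA.Ya

open Subgroup Equiv Al

universe u

namespace P12

theorem al2 : al * al = 1 := by decide +kernel
theorem alf : ∀ p, al p ≠ p := by decide +kernel
theorem al0 : al 0 = 1 ∧ al 1 = 0 ∧ al 2 = 3 ∧ al 4 = 5 := by decide +kernel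
theorem HH : Glue.HH al = H := rfl

/-- an element of `W5` taking `2` to `i` -/
def kk (i : Fin 12) : P := if i = 2 then 1 else if i = 3 then y 1 2 else Glue.D al 2 i
def k2 (j : Fin 12) : P := if j = 3 ∨ j = 4 then 1 else if j = 5 then y 2 3 else Glue.D al 4 j

theorem kk_spec : ∀ i : Fin 12, 0 ≠ i → 1 ≠ i → kk i ∈ H ∧ kk i 0 = 0 ∧ kk i 2 = i := by decide +kernel
theorem k2_spec : ∀ j : Fin 12, 0 ≠ j → 1 ≠ j → 2 ≠ j →
    k2 j ∈ H ∧ k2 j 0 = 0 ∧ k2 j 2 = 2 ∧ (k2 j 3 = j ∨ k2 j 4 = j) := by decide +kernel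

theorem fix1 {h : P} (hh : h ∈ H) (h0 : h 0 = 0) : h 1 = 1 := by
  rw [← al0.1, Glue.app (HH ▸ hh), h0]
theorem fix3 {h : P} (hh : h ∈ H) (h0 : h 2 = 2) : h 3 = 3 := by
  rw [← al0.2.2.1, Glue.app (HH ▸ hh), h0]

theorem ne0 {h : P} (h0 : h 0 = 0) {i : Fin 12} (hi : 0 ≠ i) : 0 ≠ h i := fun e => hi (h.injective (h0.trans e))
theorem ne1 {h : P} (hh : h ∈ H) (h0 : h 0 = 0) {i : Fin 12} (hi : 1 ≠ i) : 1 ≠ h i :=
  fun e => hi (h.injective ((fix1 hh h0).trans e))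

theorem pair {i j : Fin 12} (i0 : 0 ≠ i) (i1 : 1 ≠ i) (j0 : 0 ≠ j) (j1 : 1 ≠ j) (e : i ≠ j) :
    ∃ h ∈ H, h 0 = 0 ∧ h 2 = i ∧ (h 3 = j ∨ h 4 = j) := by
  obtain ⟨a1, a2, a3⟩ := kk_spec i i0 i1
  have z0 : (kk i)⁻¹ 0 = 0 := by rw [Perm.inv_eq_iff_eq, a2]
  obtain ⟨b1, b2, b3, b4⟩ := k2_spec ((kk i)⁻¹ j) (ne0 z0 j0) (ne1 (inv_mem a1) z0 j1) (fun c => e (by
    rw [← a3, c]; simp))
  refine ⟨kk i * k2 ((kk i)⁻¹ j), mul_mem a1 b1, by rw [Perm.mul_apply, b2, a2], by rw [Perm.mul_apply, b3, a3], ?_⟩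
  rcases b4 with b | b
  · left; rw [Perm.mul_apply, b]; simp
  · right; rw [Perm.mul_apply, b]; simp

variable {G : Type u} [Group G] (C : Ch G) (x : G)

def X (i : Fin 12) : G := C.f (kk i) * x * (C.f (kk i))⁻¹

variable {C x}

theorem eqv (hx : C.X3 x) {h : P} (hh : h ∈ H) (h0 : h 0 = 0) {i : Fin 12} (i0 : 0 ≠ i) (i1 : 1 ≠ i) :
    C.f h * X C x i * (C.f h)⁻¹ = X C x (h i) := by
  obtain ⟨a1, a2, a3⟩ := kk_spec i i0 i1
  obtain ⟨b1, b2, b3⟩ := kk_spec (h i) (ne0 h0 i0) (ne1 hh h0 i1)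
  have m : (kk (h i))⁻¹ * (h * kk i) ∈ H := mul_mem (inv_mem b1) (mul_mem hh a1)
  have f0 : ((kk (h i))⁻¹ * (h * kk i)) 0 = 0 := by
    rw [Perm.mul_apply, Perm.mul_apply, a2, h0, Perm.inv_eq_iff_eq, b2]
  have f2 : ((kk (h i))⁻¹ * (h * kk i)) 2 = 2 := by
    rw [Perm.mul_apply, Perm.mul_apply, a3, Perm.inv_eq_iff_eq, b3]
  have c := hx.cW _ ⟨m, f0, fix1 m f0, f2, fix3 m f2⟩
  rw [C.mul _ _ (inv_mem b1) (mul_mem hh a1), C.mul _ _ hh a1, C.inv b1] at c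
  unfold X
  calc _ = C.f (kk (h i)) * (((C.f (kk (h i)))⁻¹ * (C.f h * C.f (kk i))) * x) * (C.f h * C.f (kk i))⁻¹ := by group
    _ = _ := by rw [← c]; group

theorem X2 : X C x 2 = x := by simp [X, kk, C.one]

theorem mem1 : y 0 1 ∈ H ∧ y 0 2 ∈ H ∧ r 0 1 ∈ H ∧ r 1 2 ∈ H ∧ kk 3 = y 0 1 * y 0 2 ∧ kk 4 = r 1 2 ∧
    y 0 1 * y 0 1 = 1 ∧ y 0 2 * y 0 2 = 1 ∧ r 0 1 * r 0 1 = 1 ∧ r 1 2 * r 1 2 = 1 ∧ r 0 1 * y 0 1 * y 0 1 = r 0 1 ∧
    Glue.D al 0 2 = r 0 1 := by decide +kernel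

theorem finv {p : P} (hp : p ∈ H) (h : p * p = 1) : (C.f p)⁻¹ = C.f p := by
  rw [← C.inv hp, inv_eq_of_mul_eq_one_right h]

theorem X23 (hx : C.X3 x) : x * X C x 3 = C.f (r 0 1) := by
  obtain ⟨m1, m2, m3, m4, e1, e2, s1, s2, s3, s4, e3, -⟩ := mem1
  have := hx.iv
  rw [X, e1, C.mul _ _ m1 m2, mul_inv_rev, finv m1 s1, finv m2 s2, ← e3, C.mul _ _ (mul_mem m3 m1) m1, ← hx.cy, ← this]
  group

theorem rels (hx : C.X3 x) (hc : (x * (C.f (r 1 2) * x * C.f (r 1 2))) ^ 2 = 1) {i j : Fin 12} (i0 : 0 ≠ i) (i1 : 1 ≠ i)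
    (j0 : 0 ≠ j) (j1 : 1 ≠ j) (e : i ≠ j) : (X C x i * X C x j) ^ 2 = 1 := by
  obtain ⟨m1, m2, m3, m4, e1, e2, s1, s2, s3, s4, e3, -⟩ := mem1
  obtain ⟨h, hh, h0, h2, h3⟩ := pair i0 i1 j0 j1 e
  rw [← h2, ← eqv hx hh h0 (by decide) (by decide), X2]
  rcases h3 with h3 | h3
  · rw [← h3, ← eqv hx hh h0 (by decide) (by decide), conj_mul, X23 hx, conj_pow, pow_two, ← C.mul _ _ m3 m3, s3, C.one]
    simp
  · rw [← h3, ← eqv hx hh h0 (by decide) (by decide), conj_mul, conj_pow, X, e2, finv m4 s4, hc]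
    simp

theorem inj {α : Type} [Fintype α] [DecidableEq α] (h5 : 5 ≤ Fintype.card α) (Φ : Alt α →* G) {p : Alt α} (hp : Φ p ≠ 1) :
    Function.Injective Φ := by
  haveI := alternatingGroup.isSimpleGroup (α := α) (by rwa [Nat.card_eq_fintype_card])
  rcases Φ.normal_ker.eq_bot_or_eq_top with h | h
  · exact (MonoidHom.ker_eq_bot_iff Φ).1 h
  · exact absurd (MonoidHom.mem_ker.1 (h ▸ mem_top p)) hp

theorem c23 : swap (0 : Fin 12) 2 * swap 0 1 * (swap 0 3 * swap 0 1) = r 0 1 := by decide +kernel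

theorem c3_conj {α : Type} [Fintype α] [DecidableEq α] (k : Perm α) (a b i : α) :
    k * (swap a i * swap a b) * k⁻¹ = swap (k a) (k i) * swap (k a) (k b) := by
  rw [← Glue.conj_swap, ← Glue.conj_swap]; group

end P12

open P12 in
theorem p12 {G : Type u} [Group G] (C : Ch G) {x : G} (hx : C.X3 x)
    (hc : (x * (C.f (r 1 2) * x * C.f (r 1 2))) ^ 2 = 1) : ∃ Φ, C.Tw x Φ := by
  have h01 : (0 : Fin 12) ≠ 1 := by decide
  obtain ⟨Φ, hΦ⟩ := pres h01 (X C x) (fun i _ _ => by rw [X, conj_pow, hx.x3]; simp)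
    fun i j a b c d e => rels hx hc a b c d e
  obtain ⟨m1, m2, m3, m4, e1, e2, s1, s2, s3, s4, e3, e4⟩ := mem1
  have ev : ∀ {h : P}, h ∈ H → h ∈ alternatingGroup (Fin 12) := fun hh => hh.1
  have eq : ∀ h (hh : h ∈ H), h 0 = 0 → ∀ p : Alt (Fin 12),
      Φ (⟨h, ev hh⟩ * p * ⟨h, ev hh⟩⁻¹) = C.f h * Φ p * (C.f h)⁻¹ := by
    intro h hh h0 p
    refine closure_induction (p := fun p _ => Φ (⟨h, ev hh⟩ * p * ⟨h, ev hh⟩⁻¹) = C.f h * Φ p * (C.f h)⁻¹) ?_ (by simp)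
      (fun p q _ _ a b => ?_) (fun p _ a => ?_) (closure_c3 h01 Finset.univ (by simp) (by simp) (Finset.subset_univ _))
    · rintro _ ⟨i, i0, i1, -, rfl⟩
      rw [hΦ i i0 i1, eqv hx hh h0 i0 i1, ← hΦ (h i) (ne0 h0 i0) (ne1 hh h0 i1)]
      congr 1
      refine Subtype.ext ?_
      change h * (swap 0 i * swap 0 1) * h⁻¹ = swap 0 (h i) * swap 0 1
      rw [c3_conj, h0, fix1 hh h0]
    · rw [← conj_mul, map_mul, a, b, map_mul, conj_mul]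
    · rw [← conj_inv, map_inv, a, map_inv, conj_inv]
  have r01 : Φ ⟨r 0 1, ev m3⟩ = C.f (r 0 1) := by
    rw [← X23 hx, ← hΦ 3 (by decide) (by decide), ← X2 (C := C) (x := x), ← hΦ 2 (by decide) (by decide), ← map_mul]
    congr 1
    exact Subtype.ext c23.symm
  let K : Subgroup P :=
    { carrier := {h | ∃ hh : h ∈ H, Φ ⟨h, ev hh⟩ = C.f h}
      one_mem' := ⟨one_mem _, by rw [C.one]; exact map_one Φ⟩
      mul_mem' := by
        rintro p q ⟨hp, a⟩ ⟨hq, b⟩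
        exact ⟨mul_mem hp hq, by rw [C.mul _ _ hp hq, ← a, ← b, ← map_mul]; rfl⟩
      inv_mem' := by
        rintro p ⟨hp, a⟩
        exact ⟨inv_mem hp, by rw [C.inv hp, ← a, ← map_inv]; rfl⟩ }
  have k0 : ∀ q, Glue.Ap al 0 q → Glue.D al 0 q ∈ K := fun q A => by
    obtain ⟨a1, a2, a3⟩ := kk_spec q A.n1 (al0.1 ▸ A.n2)
    have e : kk q * r 0 1 * (kk q)⁻¹ = Glue.D al 0 q := by rw [← e4, Glue.conj_D (HH ▸ a1), a2, a3]
    refine ⟨Glue.D_mem al2 A, ?_⟩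
    have := eq _ a1 a2 ⟨r 0 1, ev m3⟩
    rw [r01, ← C.cj a1 m3, e] at this
    rw [← this]
    congr 1
    exact Subtype.ext e.symm
  have k1 : ∀ q, Glue.Ap al 1 q → Glue.D al 1 q ∈ K := fun q A => by
    have := k0 _ (al0.2.1 ▸ (A.left al2).right al2)
    rwa [← al0.2.1, Glue.D_comm al2 A] at this
  have kall : ∀ p q, Glue.Ap al p q → Glue.D al p q ∈ K := fun p q A => by
    by_cases p0 : p = 0
    · exact p0 ▸ k0 q (p0 ▸ A)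
    by_cases p1 : p = 1
    · exact p1 ▸ k1 q (p1 ▸ A)
    by_cases q0 : q = 0
    · rw [Glue.D_symm]; exact q0 ▸ k0 p (q0 ▸ A.symm al2)
    by_cases q1 : q = 1
    · rw [Glue.D_symm]; exact q1 ▸ k1 p (q1 ▸ A.symm al2)
    have A1 : Glue.Ap al 0 p := ⟨alf _, alf _, Ne.symm p0, al0.1 ▸ Ne.symm p1⟩
    have A2 : Glue.Ap al 0 q := ⟨alf _, alf _, Ne.symm q0, al0.1 ▸ Ne.symm q1⟩
    have := K.mul_mem (K.mul_mem (k0 p A1) (k0 q A2)) (K.inv_mem (k0 p A1))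
    rwa [Glue.conj_D (Glue.D_mem al2 A1), Glue.D_p al2 A1, Glue.D_o q0 A.n1.symm (al0.1 ▸ q1) A.n2.symm] at this
  have hK := Glue.gen al2 (fun p _ h => absurd h (alf p)) K kall
  refine ⟨Φ, fun p hp => (hK hp).2, by rw [hΦ 2 (by decide) (by decide), X2], inj (by simp) Φ (p := ⟨r 0 1, ev m3⟩) ?_⟩
  rw [r01]
  exact fun e => absurd (C.inj _ m3 e) (by decide +kernel)

end Cfsg.Agent.WA.Ya
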