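import Cfsg.Agent.WA.YaS8
import Cfsg.Agent.WA.YaG1
import Cfsg.Agent.WA.YaCr0

/-! S3298, module YaRot: the element of order three rotating the first four-group. -/

set_option autoImplicit false

namespace Cfsg.Agent.WA.Ya

open Subgroup Equiv

universe u

namespace Rot

theorem yH : ∀ i j : Fin 6, i ≠ j → y i j ∈ H := by decide +kernel
theorem rH : ∀ i j : Fin 6, i ≠ j → r i j ∈ H := by decide +kernel
theorem av2 : ∀ a, av a * av a = 1 := by decide +kernel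

theorem blk1 : ∀ a, (av a).support.card = 4 → (y 0 1 * av a).support.card = 4 →
    av a = r 0 1 ∨ av a = r 0 1 * y 0 1 := by decide +kernel

def Gn (i j : Fin 6) (p q : P) : Prop :=
  (y i j = p ∨ y i j = q ∨ y i j = p * q) ∧ (r i j = p ∨ r i j = q ∨ r i j = p * q)

instance (i j : Fin 6) (p q : P) : Decidable (Gn i j p q) := by unfold Gn; infer_instance

theorem blk2 : ∀ a, (av a).support.card = 4 → (y 0 1 * av a).support.card = 8 → ∀ b, (av b).support.card = 4 →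
    (av a * av b).support.card = 4 →
    (Gn 2 3 (av a) (av b) ∧ y 0 4 * av a = av a * y 0 4 ∧ y 0 4 * av b = av b * y 0 4 ∧ a.2.2 = 0 ∧ a.1 = 0) ∨
    (Gn 4 5 (av a) (av b) ∧ y 0 2 * av a = av a * y 0 2 ∧ y 0 2 * av b = av b * y 0 2 ∧ a.2.1 = 0 ∧ a.1 = 0) := by
  decide +kernel

theorem blk3 : ∀ i j : Fin 4, (av (0, i, 0) * av (0, j, 0)).support.card ≠ 8 ∧
    (av (0, 0, i) * av (0, 0, j)).support.card ≠ 8 := by decide +kernel

def L12 : List ℕ := [11028000, 11032352, 10774560, 10840352, 4745760, 5794592, 10912800, 10982432, 6857760, 7910432, 9069600, 10183712]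

def pr (c : ℕ) : Bool := !(Cr.cmm c 11035697 && (Cr.cmm c 11035650 && (Cr.sc c == 4 &&
  (Cr.sc (K.mu c 11035697) == 8 && Cr.sc (K.mu c 12154144) == 8)))) || L12.elem c

theorem chk : K.allW pr = true := by decide +kernel

theorem l12 : ∀ c ∈ L12, ∃ i j : Fin 6, 2 ≤ i ∧ i < j ∧ (K.cp (r i j) = c ∨ K.cp (r i j * y i j) = c) := by
  decide +kernel

theorem refl {p : P} (hp : p ∈ H) (hy : p * y 0 1 = y 0 1 * p) (hr : p * r 0 1 = r 0 1 * p)
    (h4 : p.support.card = 4) (h8 : (p * y 0 1).support.card = 8) (h8' : (p * u).support.card = 8) :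
    ∃ i j : Fin 6, 2 ≤ i ∧ i < j ∧ (p = r i j ∨ p = r i j * y i j) := by
  have Y : y 0 1 ∈ H := yH _ _ (by decide)
  have R : r 0 1 ∈ H := rH _ _ (by decide)
  have U : u ∈ H := mul_mem (yH _ _ (by decide)) (yH _ _ (by decide))
  have c1 : K.cp (y 0 1) = 11035697 := by decide +kernel
  have c2 : K.cp (r 0 1) = 11035650 := by decide +kernel
  have c3 : K.cp u = 12154144 := by decide +kernel
  have h := K.allW_spec chk ⟨p, hp⟩
  rw [pr, ← c1, ← c2, ← c3, K.cd, Cr.cmm_of hp Y hy, Cr.cmm_of hp R hr, ← K.cp_mul (Cr.cmH hp), ← K.cp_mul (Cr.cmH hp),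
    Cr.sc_cp hp, Cr.sc_cp (mul_mem hp Y), Cr.sc_cp (mul_mem hp U), h4, h8, h8'] at h
  obtain ⟨i, j, h1, h2, h3⟩ := l12 (K.cp p) (by simpa using h)
  exact ⟨i, j, h1, h2, h3.imp (fun e => Cr.cp_inj hp (rH _ _ h2.ne) e.symm)
    fun e => Cr.cp_inj hp (mul_mem (rH _ _ h2.ne) (yH _ _ h2.ne)) e.symm⟩

variable {G : Type u} [Group G] (C : Ch G)

/-- the elements of the model commuting with `g` -/
def K (g : G) : Subgroup P where
  carrier := {p | p ∈ H ∧ g * C.f p = C.f p * g}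
  one_mem' := ⟨one_mem _, by rw [C.one, mul_one, one_mul]⟩
  mul_mem' := fun {p q} hp hq => ⟨mul_mem hp.1 hq.1, by
    rw [C.mul _ _ hp.1 hq.1, ← mul_assoc, hp.2, mul_assoc, hq.2, mul_assoc]⟩
  inv_mem' := fun {p} hp => ⟨inv_mem hp.1, by
    rw [C.inv hp.1, mul_inv_eq_iff_eq_mul, mul_assoc, hp.2, inv_mul_cancel_left]⟩

theorem mem_K {g : G} {p : P} : p ∈ K C g ↔ p ∈ H ∧ g * C.f p = C.f p * g := Iff.rfl

theorem K_of {g : G} {p : P} (hp : p ∈ H) (e : g * C.f p * g⁻¹ = C.f p) : p ∈ K C g :=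
  ⟨hp, mul_inv_eq_iff_eq_mul.1 e⟩

theorem K_cj {g : G} {p : P} (hp : p ∈ K C g) : g * C.f p * g⁻¹ = C.f p := mul_inv_eq_iff_eq_mul.2 hp.2

theorem K_mul {g h : G} {p : P} (hg : p ∈ K C g) (hh : p ∈ K C h) : p ∈ K C (g * h) :=
  ⟨hg.1, by rw [mul_assoc, hh.2, ← mul_assoc, hg.2, mul_assoc]⟩

theorem K_inv {g : G} {p : P} (hg : p ∈ K C g) : p ∈ K C g⁻¹ :=
  ⟨hg.1, by rw [inv_mul_eq_iff_eq_mul, ← mul_assoc, hg.2, mul_inv_cancel_right]⟩

theorem K_f {e p : P} (he : e ∈ H) (hp : p ∈ H) (h : e * p = p * e) : p ∈ K C (C.f e) :=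
  ⟨hp, by rw [← C.mul _ _ he hp, h, C.mul _ _ hp he]⟩

theorem cmul {g : G} {p q p' q' : P} (hp : p ∈ H) (hq : q ∈ H) (hp' : p' ∈ H) (hq' : q' ∈ H)
    (e1 : g * C.f p * g⁻¹ = C.f p') (e2 : g * C.f q * g⁻¹ = C.f q') : g * C.f (p * q) * g⁻¹ = C.f (p' * q') := by
  rw [C.mul _ _ hp hq, C.mul _ _ hp' hq', ← e1, ← e2]; group

theorem ccomp {g h : G} {p q s : P} (e1 : g * C.f p * g⁻¹ = C.f q) (e2 : h * C.f q * h⁻¹ = C.f s) :
    (h * g) * C.f p * (h * g)⁻¹ = C.f s := by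
  rw [← e2, ← e1]; group

theorem cf {e p q : P} (he : e ∈ H) (hp : p ∈ H) (h : e * p * e⁻¹ = q) : C.f e * C.f p * (C.f e)⁻¹ = C.f q := by
  rw [← C.cj he hp, h]

theorem sq1 {g : G} {p q : P} (hp : p ∈ H) (hq : q ∈ H) (p2 : p * p = 1) (e : g * C.f p * g⁻¹ = C.f q) :
    q * q = 1 := by
  refine C.inj _ (mul_mem hq hq) ?_
  rw [← cmul C hp hp hq hq e e, p2, C.one]; group

theorem wt (h : C.W27) {g : G} {p q : P} (hp : p ∈ H) (hq : q ∈ H) (p2 : p * p = 1)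
    (e : g * C.f p * g⁻¹ = C.f q) : q.support.card = p.support.card :=
  ((h p q hp hq p2 (sq1 C hp hq p2 e)).1 (isConj_iff.2 ⟨g, e⟩)).symm

/-- a transvection has order two -/
theorem tv {g : G} {p q : P} (hp : p ∈ H) (hq : q ∈ H) (p2 : p * p = 1) (e1 : g * C.f p * g⁻¹ = C.f p)
    (e2 : g * C.f q * g⁻¹ = C.f (q * p)) : p ∈ K C (g * g) ∧ q ∈ K C (g * g) := by
  refine ⟨K_of C hp (ccomp C e1 e1), K_of C hq (ccomp C e2 ?_)⟩
  rw [cmul C hq hp (mul_mem hq hp) hp e2 e1, mul_assoc, p2, mul_one]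

theorem Gn.mem {i j : Fin 6} {p q : P} (h : Gn i j p q) {L : Subgroup P} (hp : p ∈ L) (hq : q ∈ L) :
    y i j ∈ L ∧ r i j ∈ L := by
  refine ⟨?_, ?_⟩
  · rcases h.1 with e | e | e <;> rw [e]
    exacts [hp, hq, mul_mem hp hq]
  · rcases h.2 with e | e | e <;> rw [e]
    exacts [hp, hq, mul_mem hp hq]

theorem orb : ∀ i j : Fin 6, 2 ≤ i → i < j → ∀ w : P, (w = r i j ∨ w = r i j * y i j) →
    (w = r 2 3 ∨ w = r 2 3 * y 2 3 ∨ w = r 4 5 ∨ w = r 4 5 * y 4 5) ∨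
      ∃ a b : Fin 4, w = (vv 2 3 a * vv 4 5 b) * r 2 4 * (vv 2 3 a * vv 4 5 b)⁻¹ := by
  have : ∀ i j : Fin 6, 2 ≤ i → i < j →
      ((r i j = r 2 3 ∨ r i j = r 2 3 * y 2 3 ∨ r i j = r 4 5 ∨ r i j = r 4 5 * y 4 5) ∨
      ∃ a b : Fin 4, r i j = (vv 2 3 a * vv 4 5 b) * r 2 4 * (vv 2 3 a * vv 4 5 b)⁻¹) ∧
      ((r i j * y i j = r 2 3 ∨ r i j * y i j = r 2 3 * y 2 3 ∨ r i j * y i j = r 4 5 ∨
        r i j * y i j = r 4 5 * y 4 5) ∨
      ∃ a b : Fin 4, r i j * y i j = (vv 2 3 a * vv 4 5 b) * r 2 4 * (vv 2 3 a * vv 4 5 b)⁻¹) := by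
    decide +kernel
  rintro i j h1 h2 w (rfl | rfl)
  exacts [(this i j h1 h2).1, (this i j h1 h2).2]

theorem cW (h : C.W27) {x : G} (x3 : x ^ 3 = 1) (cr : x * C.f (r 0 1) * x⁻¹ = C.f (y 0 1))
    (cy : x * C.f (y 0 1) * x⁻¹ = C.f (r 0 1 * y 0 1)) (k1 : y 2 3 ∈ K C x) (k2 : r 2 3 ∈ K C x)
    (k3 : y 4 5 ∈ K C x) (k4 : r 4 5 ∈ K C x) : ∀ p ∈ W4, p ∈ K C x := by
  have Y : y 0 1 ∈ H := yH _ _ (by decide)
  have R : r 0 1 ∈ H := rH _ _ (by decide)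
  have W : r 2 4 ∈ H := rH _ _ (by decide)
  have U : u ∈ K C x := mul_mem k1 k3
  have cry : x * C.f (r 0 1 * y 0 1) * x⁻¹ = C.f (r 0 1) := by
    rw [cmul C R Y Y (mul_mem R Y) cr cy]; congr 1; decide +kernel
  have cm : ∀ {p q : P}, p ∈ H → p * r 2 4 = r 2 4 * p → x * C.f p * x⁻¹ = C.f q →
      x * C.f (r 2 4) * x⁻¹ * C.f q = C.f q * (x * C.f (r 2 4) * x⁻¹) := by
    intro p q hp e1 e2
    have := (K_f C hp W e1).2
    rw [← e2]
    calc x * C.f (r 2 4) * x⁻¹ * (x * C.f p * x⁻¹) = x * (C.f (r 2 4) * C.f p) * x⁻¹ := by group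
      _ = x * (C.f p * C.f (r 2 4)) * x⁻¹ := by rw [this]
      _ = _ := by group
  have eal : x * C.f (r 0 1 * u) * x⁻¹ = C.f al := by
    rw [cmul C R U.1 Y U.1 cr (K_cj C U), show y 0 1 * u = al by decide +kernel]
  obtain ⟨w, hp, ep⟩ := (C.cen _).1 (cm (mul_mem R U.1) (by decide +kernel) eal)
  have c1 := cm R (by decide +kernel) cr
  have c2 := cm (mul_mem R Y) (by decide +kernel) cry
  rw [← ep, ← C.mul _ _ hp Y, ← C.mul _ _ Y hp] at c1
  rw [← ep, ← C.mul _ _ hp R, ← C.mul _ _ R hp] at c2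
  obtain ⟨i, j, h1, h2, h3⟩ := refl hp (C.ext (mul_mem hp Y) (mul_mem Y hp) c1)
    (C.ext (mul_mem hp R) (mul_mem R hp) c2) (by rw [wt C h W hp (by decide +kernel) ep.symm]; decide +kernel)
    (by rw [wt C h (mul_mem W R) (mul_mem hp Y) (by decide +kernel) (cmul C W R hp Y ep.symm cr)]; decide +kernel)
    (by rw [wt C h (mul_mem W U.1) (mul_mem hp U.1) (by decide +kernel) (cmul C W U.1 hp U.1 ep.symm (K_cj C U))]
        decide +kernel)
  have kv : ∀ a b : Fin 4, vv 2 3 a * vv 4 5 b ∈ K C x := by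
    intro a b
    refine mul_mem ?_ ?_
    · fin_cases a
      exacts [one_mem _, k1, k2, mul_mem k2 k1]
    · fin_cases b
      exacts [one_mem _, k3, k4, mul_mem k4 k3]
  have k5 : r 2 4 ∈ K C x := by
    rcases orb i j h1 h2 w h3 with h4 | ⟨a, b, h4⟩
    · have hK : w ∈ K C x := by
        rcases h4 with e | e | e | e <;> rw [e]
        exacts [k2, mul_mem k2 k1, k4, mul_mem k4 k3]
      have : C.f (r 2 4) = C.f w := by
        have h5 := K_cj C hK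
        calc C.f (r 2 4) = x⁻¹ * (x * C.f (r 2 4) * x⁻¹) * x := by group
          _ = x⁻¹ * (x * C.f w * x⁻¹) * x := by rw [h5, ← ep]
          _ = C.f w := by group
      rw [C.ext W hp this]; exact hK
    · have hv := kv a b
      have v2 : ∀ a b : Fin 4, (vv 2 3 a * vv 4 5 b) * ((vv 2 3 a * vv 4 5 b) * r 2 4 * (vv 2 3 a * vv 4 5 b)⁻¹) *
          (vv 2 3 a * vv 4 5 b)⁻¹ = r 2 4 := by decide +kernel
      have s2 : x * C.f w * x⁻¹ = C.f (r 2 4) := by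
        conv_lhs => rw [h4]
        rw [cmul C (mul_mem hv.1 W) (inv_mem hv.1) (mul_mem hv.1 hp) (inv_mem hv.1)
          (cmul C hv.1 W hv.1 hp (K_cj C hv) ep.symm) (K_cj C (inv_mem hv)), h4, v2]
      have s3 := K_of C W (ccomp C ep.symm s2)
      have : x = (x * x) * (x * x) := by
        calc x = x * x ^ 3 := by rw [x3, mul_one]
          _ = _ := by simp only [pow_succ, pow_zero, one_mul, mul_assoc]
      rw [this]; exact K_mul C s3 s3
  intro p hp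
  have hS : ∀ i : Fin 6, i ∉ ({2, 3, 4, 5} : Finset (Fin 6)) → p (ev i) = ev i := by
    intro i hi
    have : ∀ i : Fin 6, i ∉ ({2, 3, 4, 5} : Finset (Fin 6)) → ev i = 0 ∨ ev i = 2 := by decide
    rcases this i hi with e | e <;> rw [e]
    exacts [hp.2.1, hp.2.2.2.1]
  refine (closure_le (K C x)).2 ?_ (gen {2, 3, 4, 5} hp.1 hS)
  have cj : ∀ {a b : P}, a ∈ K C x → b ∈ K C x → a * b * a ∈ K C x := fun ha hb => mul_mem (mul_mem ha hb) ha
  have r34 : r 3 4 ∈ K C x := by rw [show r 3 4 = r 2 3 * r 2 4 * r 2 3 by decide +kernel]; exact cj k2 k5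
  have r25 : r 2 5 ∈ K C x := by rw [show r 2 5 = r 4 5 * r 2 4 * r 4 5 by decide +kernel]; exact cj k4 k5
  have r35 : r 3 5 ∈ K C x := by rw [show r 3 5 = r 4 5 * r 3 4 * r 4 5 by decide +kernel]; exact cj k4 r34
  have y24 : y 2 4 ∈ K C x := by rw [show y 2 4 = r 3 4 * y 2 3 * r 3 4 by decide +kernel]; exact cj r34 k1
  have y25 : y 2 5 ∈ K C x := by rw [show y 2 5 = r 3 5 * y 2 3 * r 3 5 by decide +kernel]; exact cj r35 k1
  have y34 : y 3 4 ∈ K C x := by rw [show y 3 4 = r 2 4 * y 2 3 * r 2 4 by decide +kernel]; exact cj k5 k1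
  have y35 : y 3 5 ∈ K C x := by rw [show y 3 5 = r 2 5 * y 2 3 * r 2 5 by decide +kernel]; exact cj r25 k1
  have sy : ∀ i j : Fin 6, r i j = r j i ∧ y i j = y j i := by decide +kernel
  have all : ∀ i j : Fin 6, 2 ≤ i → i < j → r i j ∈ K C x ∧ y i j ∈ K C x := by
    intro i j hi hj
    fin_cases i <;> fin_cases j <;> first | exact absurd hi (by decide) | exact absurd hj (by decide) | skip
    exacts [⟨k2, k1⟩, ⟨k5, y24⟩, ⟨r25, y25⟩, ⟨r34, y34⟩, ⟨r35, y35⟩, ⟨k4, k3⟩]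
  have two : ∀ i ∈ ({2, 3, 4, 5} : Finset (Fin 6)), 2 ≤ i := by decide
  rintro q ⟨i, hi, j, hj, hij, hq⟩
  rcases lt_or_gt_of_ne hij with hl | hl
  · rcases hq with rfl | rfl
    exacts [(all i j (two i hi) hl).1, (all i j (two i hi) hl).2]
  · rcases hq with rfl | rfl
    · rw [(sy i j).1]; exact (all j i (two j hj) hl).1
    · rw [(sy i j).2]; exact (all j i (two j hj) hl).2

theorem fin (h : C.W27) {x : G} {e : P} (he : e ∈ H) (hw : e⁻¹ * y 0 2 ∈ W4) (ie : C.f e * x * (C.f e)⁻¹ = x⁻¹)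
    (x3 : x ^ 3 = 1) (cr : x * C.f (r 0 1) * x⁻¹ = C.f (y 0 1))
    (cy : x * C.f (y 0 1) * x⁻¹ = C.f (r 0 1 * y 0 1)) (k1 : y 2 3 ∈ K C x) (k2 : r 2 3 ∈ K C x)
    (k3 : y 4 5 ∈ K C x) (k4 : r 4 5 ∈ K C x) : C.X3 x := by
  have hc := cW C h x3 cr cy k1 k2 k3 k4
  refine ⟨x3, cr, cy, ?_, fun p hp => (hc p hp).2⟩
  have E : y 0 2 ∈ H := yH _ _ (by decide)
  have e1 : C.f (y 0 2) = C.f e * C.f (e⁻¹ * y 0 2) := by rw [← C.mul _ _ he hw.1, mul_inv_cancel_left]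
  have e2 : C.f (y 0 2) = (C.f (y 0 2))⁻¹ := by
    rw [← C.inv E]; congr 1; decide +kernel
  have e3 := (hc _ hw).2
  calc C.f (y 0 2) * x * C.f (y 0 2) = C.f (y 0 2) * x * (C.f (y 0 2))⁻¹ := by rw [← e2]
    _ = C.f e * (C.f (e⁻¹ * y 0 2) * x) * (C.f (e⁻¹ * y 0 2))⁻¹ * (C.f e)⁻¹ := by rw [e1]; group
    _ = C.f e * x * (C.f e)⁻¹ := by rw [← e3]; group
    _ = _ := ie

theorem core (h : C.W27) {t : G} {e Z : P} (hZ : Z = r 0 1 ∨ Z = r 0 1 * y 0 1) (t2 : t * t = 1)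
    (tZ : t * C.f Z * t⁻¹ = C.f Z) (tY : t * C.f (y 0 1) * t⁻¹ = C.f (Z * y 0 1)) (he : e = y 0 2 ∨ e = y 0 4)
    (k1 : y 2 3 ∈ K C (t * C.f e * (t * C.f e))) (k2 : r 2 3 ∈ K C (t * C.f e * (t * C.f e)))
    (k3 : y 4 5 ∈ K C (t * C.f e * (t * C.f e))) (k4 : r 4 5 ∈ K C (t * C.f e * (t * C.f e))) : ∃ x, C.X3 x := by
  have Y : y 0 1 ∈ H := yH _ _ (by decide)
  have R : r 0 1 ∈ H := rH _ _ (by decide)
  have ZH : Z ∈ H := by rcases hZ with rfl | rfl; exacts [R, mul_mem R Y]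
  have eH : e ∈ H := by rcases he with rfl | rfl <;> exact yH _ _ (by decide)
  have hw : e⁻¹ * y 0 2 ∈ W4 := ⟨mul_mem (inv_mem eH) (yH _ _ (by decide)), by
    rcases he with rfl | rfl <;> decide +kernel⟩
  have e2 : C.f e * C.f e = 1 := by
    rw [← C.mul _ _ eH eH, ← C.one]; congr 1; rcases he with rfl | rfl <;> decide +kernel
  obtain ⟨g, hg⟩ : ∃ g, g = t * C.f e := ⟨_, rfl⟩
  have ie : C.f e * g * (C.f e)⁻¹ = g⁻¹ := by
    rw [hg, mul_inv_rev, inv_eq_of_mul_eq_one_right e2, inv_eq_of_mul_eq_one_right t2, ← mul_assoc, mul_assoc _ (C.f e),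
      e2, mul_one]
  have g1 : g * C.f (y 0 1) * g⁻¹ = C.f (Z * y 0 1) :=
    hg ▸ ccomp C (cf C eH Y (by rcases he with rfl | rfl <;> decide +kernel)) tY
  have g2 : g * C.f (Z * y 0 1) * g⁻¹ = C.f Z :=
    hg ▸ ccomp C (cf C eH (mul_mem ZH Y) (by
      rcases he with rfl | rfl <;> rcases hZ with rfl | rfl <;> decide +kernel)) tZ
  have g3 : g * C.f Z * g⁻¹ = C.f (y 0 1) := by
    have := cmul C (mul_mem ZH Y) Y ZH (mul_mem ZH Y) g2 g1
    rw [show Z * y 0 1 * y 0 1 = Z by rcases hZ with rfl | rfl <;> decide +kernel,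
      show Z * (Z * y 0 1) = y 0 1 by rcases hZ with rfl | rfl <;> decide +kernel] at this
    exact this
  rw [← hg] at k1 k2 k3 k4
  have c1 := K_of C Y (ccomp C (ccomp C g1 g2) g3)
  have c2 := K_of C ZH (ccomp C (ccomp C g3 g1) g2)
  have c3 : r 0 1 ∈ K C (g * (g * g)) := by
    rcases hZ with rfl | rfl
    · exact c2
    · rw [show r 0 1 = r 0 1 * y 0 1 * y 0 1 by decide +kernel]; exact mul_mem c2 c1
  have s6 : g * g * (g * g) * (g * g) = g * (g * g) * (g * (g * g)) := by group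
  have hA : A ≤ K C (g * g * (g * g) * (g * g)) := by
    refine (closure_le _).2 ?_
    intro p hp
    simp only [Set.mem_insert_iff, Set.mem_singleton_iff] at hp
    rcases hp with rfl | rfl | rfl | rfl | rfl | rfl
    · rw [s6]; exact K_mul C c1 c1
    · rw [s6]; exact K_mul C c3 c3
    · exact K_mul C (K_mul C k1 k1) k1
    · exact K_mul C (K_mul C k2 k2) k2
    · exact K_mul C (K_mul C k3 k3) k3
    · exact K_mul C (K_mul C k4 k4) k4
  have alA : al ∈ A := S8.mem_A.2 ⟨(1, 1, 1), by decide +kernel⟩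
  obtain ⟨p, hp, ep⟩ := (C.cen _).1 (hA alA).2
  have pA : p ∈ A := S8.cenA hp fun a ha => by
    have := (hA ha).2
    have aH := (hA ha).1
    rw [← ep, ← C.mul _ _ hp aH, ← C.mul _ _ aH hp] at this
    exact C.ext (mul_mem hp aH) (mul_mem aH hp) this
  obtain ⟨a, rfl⟩ := S8.mem_A.1 pA
  have x3 : (g * g * (g * g)) ^ 3 = 1 := by
    calc (g * g * (g * g)) ^ 3 = (g * g * (g * g) * (g * g)) * (g * g * (g * g) * (g * g)) := by
          simp only [pow_succ, pow_zero, one_mul, mul_assoc]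
      _ = 1 := by rw [← ep, ← C.mul _ _ hp hp, av2, C.one]
  have ie4 : C.f e * (g * g * (g * g)) * (C.f e)⁻¹ = (g * g * (g * g))⁻¹ := by
    calc C.f e * (g * g * (g * g)) * (C.f e)⁻¹ = (C.f e * g * (C.f e)⁻¹) * (C.f e * g * (C.f e)⁻¹) *
          (C.f e * g * (C.f e)⁻¹) * (C.f e * g * (C.f e)⁻¹) := by group
      _ = _ := by rw [ie]; group
  have d1 : g * g * (g * g) * C.f (y 0 1) * (g * g * (g * g))⁻¹ = C.f (Z * y 0 1) := ccomp C (ccomp C g1 g2) (ccomp C g3 g1)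
  have d2 : g * g * (g * g) * C.f (Z * y 0 1) * (g * g * (g * g))⁻¹ = C.f Z := ccomp C (ccomp C g2 g3) (ccomp C g1 g2)
  have d3 : g * g * (g * g) * C.f Z * (g * g * (g * g))⁻¹ = C.f (y 0 1) := ccomp C (ccomp C g3 g1) (ccomp C g2 g3)
  rcases hZ with rfl | rfl
  · exact ⟨_, fin C h eH hw ie4 x3 d3 d1 (K_mul C k1 k1) (K_mul C k2 k2) (K_mul C k3 k3) (K_mul C k4 k4)⟩
  · refine ⟨(g * g * (g * g))⁻¹, fin C h eH hw ?_ (by rw [inv_pow, x3, inv_one]) ?_ ?_ (K_inv C (K_mul C k1 k1))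
      (K_inv C (K_mul C k2 k2)) (K_inv C (K_mul C k3 k3)) (K_inv C (K_mul C k4 k4))⟩
    · calc _ = (C.f e * (g * g * (g * g)) * (C.f e)⁻¹)⁻¹ := by group
        _ = _ := by rw [ie4]
    · rw [show r 0 1 * y 0 1 * y 0 1 = r 0 1 by decide +kernel] at d1
      rw [← d1]; group
    · rw [← d3]; group

end Rot

open Rot in
theorem rot {G : Type u} [Group G] [Finite G] (C : Ch G) (h1 : C.Ctl) (h : C.W27) : ∃ x, C.X3 x := by
  have Y : y 0 1 ∈ H := yH _ _ (by decide)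
  have R : r 0 1 ∈ H := rH _ _ (by decide)
  have E : y 0 2 ∈ H := yH _ _ (by decide)
  have E4 : y 0 4 ∈ H := yH _ _ (by decide)
  have Y2 : y 2 3 ∈ H := yH _ _ (by decide)
  have R2 : r 2 3 ∈ H := rH _ _ (by decide)
  have Y3 : y 4 5 ∈ H := yH _ _ (by decide)
  have R3 : r 4 5 ∈ H := rH _ _ (by decide)
  have aH : ∀ a, av a ∈ H := fun a => S8.S0_le (S8.A_le (S8.mem_A.2 ⟨a, rfl⟩))
  obtain ⟨n, hn, nr⟩ := h1 (r 0 1) (subset_closure (by simp)) (y 0 1) (subset_closure (by simp))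
    ((h _ _ R Y (by decide +kernel) (by decide +kernel)).2 (by decide +kernel))
  have act : ∀ p ∈ A, ∃ a, n * C.f p * n⁻¹ = C.f (av a) := by
    intro p hp
    obtain ⟨q, _, hq, e⟩ := C.mem_im.1 ((mem_normalizer_iff.1 hn _).1 (C.mem_im.2 ⟨p, S8.S0_le (S8.A_le hp), hp, rfl⟩))
    obtain ⟨a, rfl⟩ := S8.mem_A.1 hq
    exact ⟨a, e.symm⟩
  obtain ⟨z, nz⟩ := act (y 0 1) (subset_closure (by simp))
  obtain ⟨a, na⟩ := act (y 2 3) (subset_closure (by simp))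
  obtain ⟨b, nb⟩ := act (r 2 3) (subset_closure (by simp))
  obtain ⟨c, nc⟩ := act (y 4 5) (subset_closure (by simp))
  obtain ⟨d, nd⟩ := act (r 4 5) (subset_closure (by simp))
  have w1 : ∀ {p q : P} {k : ℕ}, p ∈ H → q ∈ H → n * C.f p * n⁻¹ = C.f q → p * p = 1 ∧ p.support.card = k →
      q.support.card = k := fun hp hq e hk => by rw [wt C h hp hq hk.1 e, hk.2]
  have w2 : ∀ {p q p' q' : P} {k : ℕ}, p ∈ H → q ∈ H → p' ∈ H → q' ∈ H → n * C.f p * n⁻¹ = C.f p' →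
      n * C.f q * n⁻¹ = C.f q' → p * q * (p * q) = 1 ∧ (p * q).support.card = k → (p' * q').support.card = k :=
    fun hp hq hp' hq' e1 e2 hk => w1 (mul_mem hp hq) (mul_mem hp' hq') (cmul C hp hq hp' hq' e1 e2) hk
  have hZ := blk1 z (w1 Y (aH _) nz (by decide +kernel)) (w2 R Y Y (aH _) nr nz (by decide +kernel))
  have hab := blk2 a (w1 Y2 (aH _) na (by decide +kernel)) (w2 R Y2 Y (aH _) nr na (by decide +kernel)) b
    (w1 R2 (aH _) nb (by decide +kernel)) (w2 Y2 R2 (aH _) (aH _) na nb (by decide +kernel))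
  have hcd := blk2 c (w1 Y3 (aH _) nc (by decide +kernel)) (w2 R Y3 Y (aH _) nr nc (by decide +kernel)) d
    (w1 R3 (aH _) nd (by decide +kernel)) (w2 Y3 R3 (aH _) (aH _) nc nd (by decide +kernel))
  have hac : (av a * av c).support.card = 8 := w2 Y2 Y3 (aH _) (aH _) na nc (by decide +kernel)
  obtain ⟨t, ht⟩ : ∃ t, t = n * C.f (y 0 2) * n⁻¹ := ⟨_, rfl⟩
  have tc : ∀ {p q p' q' : P}, p ∈ H → y 0 2 * p * (y 0 2)⁻¹ = q → n * C.f p * n⁻¹ = C.f p' →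
      n * C.f q * n⁻¹ = C.f q' → t * C.f p' * t⁻¹ = C.f q' := by
    intro p q p' q' hp e e1 e2
    rw [← e1, ← e2, ← cf C E hp e, ht]; group
  have t2 : t * t = 1 := by
    have : C.f (y 0 2) * C.f (y 0 2) = 1 := by rw [← C.mul _ _ E E, ← C.one]; congr 1; decide +kernel
    calc t * t = n * (C.f (y 0 2) * C.f (y 0 2)) * n⁻¹ := by rw [ht]; group
      _ = 1 := by rw [this]; group
  have tZ := tc Y (by decide +kernel) nz nz
  have tY := tc R (show _ = y 0 1 * r 0 1 by decide +kernel) nr (cmul C Y R (aH _) Y nz nr)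
  have ta := tc Y2 (by decide +kernel) na na
  have tb := tc R2 (show _ = r 2 3 * y 2 3 by decide +kernel) nb (cmul C R2 Y2 (aH _) (aH _) nb na)
  have tc' := K_of C (aH _) (tc Y3 (by decide +kernel) nc nc)
  have td := K_of C (aH _) (tc R3 (by decide +kernel) nd nd)
  have fx : ∀ {e p : P}, e ∈ H → p ∈ H → e * p = p * e → C.f e * C.f p * (C.f e)⁻¹ = C.f p :=
    fun he hp e => K_cj C (K_f C he hp e)
  rcases hab with ⟨g1, e1, e2, a1, a2⟩ | ⟨g1, e1, e2, a1, a2⟩ <;>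
    rcases hcd with ⟨g2, e3, e4, c1, c2⟩ | ⟨g2, e3, e4, c1, c2⟩
  · obtain ⟨a3, a4, a5⟩ := a
    obtain ⟨c3, c4, c5⟩ := c
    simp only at a1 a2 c1 c2
    subst a1 a2 c1 c2
    exact absurd hac (blk3 _ _).1
  · have p1 := tv C (aH _) (aH _) (av2 a) (ccomp C (fx E4 (aH _) e1) ta) (ccomp C (fx E4 (aH _) e2) tb)
    have p2 := g1.mem p1.1 p1.2
    have p3 := g2.mem tc' td
    have p4 := tv C Y3 R3 (by decide +kernel) (ccomp C (cf C E4 Y3 (by decide +kernel)) (K_cj C p3.1))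
      (ccomp C (cf C E4 R3 (show _ = r 4 5 * y 4 5 by decide +kernel)) (K_cj C (mul_mem p3.2 p3.1)))
    exact core C h hZ t2 tZ tY (Or.inr rfl) p2.1 p2.2 p4.1 p4.2
  · have p1 := tv C (aH _) (aH _) (av2 a) (ccomp C (fx E (aH _) e1) ta) (ccomp C (fx E (aH _) e2) tb)
    have p2 := g1.mem p1.1 p1.2
    have p3 := g2.mem tc' td
    have p4 := tv C Y2 R2 (by decide +kernel) (ccomp C (cf C E Y2 (by decide +kernel)) (K_cj C p3.1))
      (ccomp C (cf C E R2 (show _ = r 2 3 * y 2 3 by decide +kernel)) (K_cj C (mul_mem p3.2 p3.1)))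
    exact core C h hZ t2 tZ tY (Or.inl rfl) p4.1 p4.2 p2.1 p2.2
  · obtain ⟨a3, a4, a5⟩ := a
    obtain ⟨c3, c4, c5⟩ := c
    simp only at a1 a2 c1 c2
    subst a1 a2 c1 c2
    exact absurd hac (blk3 _ _).2

end Cfsg.Agent.WA.Ya
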