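import Cfsg.Agent.WA.YaG1
import Cfsg.Agent.WA.YaK

/-! S3298: the subgroups `A ≤ S0` of the model. -/

set_option autoImplicit false
set_option maxRecDepth 100000

namespace Cfsg.Agent.WA.Ya.S8

open Subgroup Equiv

abbrev I3 : Type := Fin 4 × Fin 4 × Fin 4

def ac (a : I3) : ℕ := (0x9b57138a5713b95713a857139b46138a4613b94613a846139b75138a7513b97513a875139b64138a6413b96413a864139b57028a5702b95702a857029b46028a4602b94602a846029b75028a7502b97502a875029b64028a6402b96402a864029b57318a5731b95731a857319b46318a4631b94631a846319b75318a7531b97531a875319b64318a6431b96431a864319b57208a5720b95720a857209b46208a4620b94620a846209b75208a7520b97520a875209b64208a6420b96420a86420 >>> (24 * (16 * a.1.1 + 4 * a.2.1.1 + a.2.2.1))) % 16777216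
def bc (b : Fin 8) : ℕ := (0xa92065a92164a82165a82064a96520a96421a86521a86420 >>> (24 * b.1)) % 16777216
def x4 (k l : Fin 4) : Fin 4 := ⟨(k.1 ^^^ l.1) % 4, Nat.mod_lt _ (by decide)⟩
def xa (a b : I3) : I3 := (x4 a.1 b.1, x4 a.2.1 b.2.1, x4 a.2.2 b.2.2)

theorem cpm {p : P} (hp : p ∈ H) (q : P) : K.cp (p * q) = K.mu (K.cp p) (K.cp q) := K.cp_mul (mem_H.1 hp).2.symm q
theorem cpi {p q : P} (hp : p ∈ H) (hq : q ∈ H) (h : K.cp p = K.cp q) : p = q :=
  congrArg Subtype.val (K.cd_inj (p := ⟨p, hp⟩) (q := ⟨q, hq⟩) h)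

theorem cp_av : ∀ a, K.cp (av a) = ac a := by decide +kernel
theorem cp_bv : ∀ b, K.cp (bv b) = bc b := by decide +kernel
theorem t1 : ∀ a b, K.mu (ac a) (ac b) = ac (xa a b) := by decide +kernel
theorem t2 : ∀ a b, ac a = ac b → a = b := by decide +kernel
theorem t3 : ∀ a b b', K.mu (ac a) (bc b) = bc b' → b = b' := by decide +kernel
theorem t4 : ∀ c : Fin 8, c = 1 ∨ c = 2 ∨ c = 4 → (∀ a, ∃ a', K.mu (bc c) (ac a) = K.mu (ac a') (bc c)) ∧
    ∀ b, ∃ a' b', K.mu (bc c) (bc b) = K.mu (ac a') (bc b') := by decide +kernel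
theorem t5 : ∀ a, xa a a = (0, 0, 0) := by decide +kernel

theorem S0_le : S0 ≤ H := (closure_le _).mpr (by
  intro x hx
  simp only [Set.mem_insert_iff, Set.mem_singleton_iff] at hx
  rcases hx with rfl | rfl | rfl | rfl | rfl | rfl | rfl | rfl | rfl
  exacts [G1.y_mem _ _, G1.r_mem (by decide), G1.y_mem _ _, G1.r_mem (by decide), G1.y_mem _ _, G1.r_mem (by decide),
    G1.y_mem _ _, G1.y_mem _ _, mul_mem (G1.r_mem (by decide)) (G1.r_mem (by decide))])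

theorem A_le : A ≤ S0 := closure_mono (by
  intro x hx
  simp only [Set.mem_insert_iff, Set.mem_singleton_iff] at hx ⊢
  tauto)

theorem vv_mem {K : Subgroup P} {i j : Fin 6} (h1 : y i j ∈ K) (h2 : r i j ∈ K) (k : Fin 4) : vv i j k ∈ K := by
  fin_cases k
  exacts [one_mem _, h1, h2, mul_mem h2 h1]

theorem av_A (a : I3) : av a ∈ A :=
  mul_mem (mul_mem (vv_mem (subset_closure (by simp)) (subset_closure (by simp)) _)
    (vv_mem (subset_closure (by simp)) (subset_closure (by simp)) _))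
    (vv_mem (subset_closure (by simp)) (subset_closure (by simp)) _)

theorem av_H (a : I3) : av a ∈ H := S0_le (A_le (av_A a))

theorem bv_S (b : Fin 8) : bv b ∈ S0 := by
  have h1 : y 0 2 ∈ S0 := subset_closure (by simp)
  have h2 : y 0 4 ∈ S0 := subset_closure (by simp)
  have h3 : r 0 2 * r 1 3 ∈ S0 := subset_closure (by simp)
  have h4 : y 2 4 ∈ S0 := by
    rw [show y 2 4 = y 0 2 * y 0 4 by decide +kernel]; exact mul_mem h1 h2
  fin_cases b
  exacts [one_mem _, h1, h2, h4, h3, mul_mem h1 h3, mul_mem h2 h3, mul_mem h4 h3]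

theorem bv_H (b : Fin 8) : bv b ∈ H := S0_le (bv_S b)

theorem av_mul (a b : I3) : av a * av b = av (xa a b) :=
  cpi (mul_mem (av_H a) (av_H b)) (av_H _) (by rw [cpm (av_H a), cp_av, cp_av, cp_av, t1])
theorem av0 : av (0, 0, 0) = 1 := by decide +kernel
theorem av_inv (a : I3) : (av a)⁻¹ = av a := inv_eq_of_mul_eq_one_right (by rw [av_mul, t5, av0])
theorem av_inj : Function.Injective av := fun a b h => t2 a b (by rw [← cp_av, ← cp_av, h])

theorem gA : y 0 1 = av (1, 0, 0) ∧ r 0 1 = av (2, 0, 0) ∧ y 2 3 = av (0, 1, 0) ∧ r 2 3 = av (0, 2, 0) ∧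
    y 4 5 = av (0, 0, 1) ∧ r 4 5 = av (0, 0, 2) := by decide +kernel

theorem mem_A {p : P} : p ∈ A ↔ ∃ a, av a = p := by
  refine ⟨fun h => ?_, fun ⟨a, e⟩ => e ▸ av_A a⟩
  refine closure_induction (p := fun p _ => ∃ a, av a = p) ?_ ⟨_, av0⟩ ?_ ?_ h
  · intro x hx
    simp only [Set.mem_insert_iff, Set.mem_singleton_iff] at hx
    obtain ⟨h1, h2, h3, h4, h5, h6⟩ := gA
    rcases hx with rfl | rfl | rfl | rfl | rfl | rfl
    exacts [⟨_, h1.symm⟩, ⟨_, h2.symm⟩, ⟨_, h3.symm⟩, ⟨_, h4.symm⟩, ⟨_, h5.symm⟩, ⟨_, h6.symm⟩]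
  · rintro _ _ _ _ ⟨a, rfl⟩ ⟨b, rfl⟩
    exact ⟨_, (av_mul a b).symm⟩
  · rintro _ _ ⟨a, rfl⟩
    exact ⟨_, (av_inv a).symm⟩

theorem step {x : P} (hx : x ∈ ({y 0 1, r 0 1, y 2 3, r 2 3, y 4 5, r 4 5, y 0 2, y 0 4, r 0 2 * r 1 3} : Set P)) :
    x⁻¹ = x ∧ ∀ a b, ∃ a' b', av a' * bv b' = x * (av a * bv b) := by
  have k1 : ∀ c, (av c)⁻¹ = av c ∧ ∀ a b, ∃ a' b', av a' * bv b' = av c * (av a * bv b) := fun c =>
    ⟨av_inv c, fun a b => ⟨_, b, by rw [← av_mul, mul_assoc]⟩⟩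
  have k2 : ∀ c : Fin 8, c = 1 ∨ c = 2 ∨ c = 4 → (bv c)⁻¹ = bv c ∧ ∀ a b, ∃ a' b', av a' * bv b' = bv c * (av a * bv b) := by
    intro c hc
    refine ⟨inv_eq_of_mul_eq_one_right (by rcases hc with rfl | rfl | rfl <;> decide +kernel), fun a b => ?_⟩
    obtain ⟨a1, e1⟩ := (t4 c hc).1 a
    obtain ⟨a2, b2, e2⟩ := (t4 c hc).2 b
    have e3 : bv c * av a = av a1 * bv c := cpi (mul_mem (bv_H _) (av_H _)) (mul_mem (av_H _) (bv_H _)) (by
      rw [cpm (bv_H _), cpm (av_H _), cp_av, cp_av, cp_bv, e1])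
    have e4 : bv c * bv b = av a2 * bv b2 := cpi (mul_mem (bv_H _) (bv_H _)) (mul_mem (av_H _) (bv_H _)) (by
      rw [cpm (bv_H _), cpm (av_H _), cp_av, cp_bv, cp_bv, cp_bv, e2])
    exact ⟨xa a1 a2, b2, by rw [← mul_assoc, e3, mul_assoc, e4, ← av_mul, mul_assoc]⟩
  simp only [Set.mem_insert_iff, Set.mem_singleton_iff] at hx
  obtain ⟨h1, h2, h3, h4, h5, h6⟩ := gA
  rcases hx with rfl | rfl | rfl | rfl | rfl | rfl | rfl | rfl | rfl
  exacts [h1 ▸ k1 _, h2 ▸ k1 _, h3 ▸ k1 _, h4 ▸ k1 _, h5 ▸ k1 _, h6 ▸ k1 _, k2 1 (by decide), k2 2 (by decide),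
    k2 4 (by decide)]

theorem mem_S0 {p : P} : p ∈ S0 ↔ ∃ a b, av a * bv b = p := by
  refine ⟨fun h => ?_, fun ⟨a, b, e⟩ => e ▸ mul_mem (A_le (av_A a)) (bv_S b)⟩
  refine closure_induction_left (p := fun p _ => ∃ a b, av a * bv b = p) ⟨_, 0, by rw [av0]; exact mul_one _⟩ ?_ ?_ h
  · rintro x hx _ _ ⟨a, b, rfl⟩
    exact (step hx).2 a b
  · rintro x hx _ _ ⟨a, b, rfl⟩
    rw [(step hx).1]
    exact (step hx).2 a b

theorem card_A : Nat.card A = 64 := by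
  rw [← Nat.card_congr (Equiv.ofBijective (fun a : I3 => (⟨av a, av_A a⟩ : A))
    ⟨fun a b e => av_inj (congrArg Subtype.val e), fun x => (mem_A.mp x.2).imp fun a e => Subtype.ext e⟩)]
  simp

theorem card_S0 : Nat.card S0 = 512 := by
  rw [← Nat.card_congr (Equiv.ofBijective (fun a : I3 × Fin 8 => (⟨av a.1 * bv a.2, mem_S0.mpr ⟨_, _, rfl⟩⟩ : S0))
    ⟨fun a b e => ?_, fun x => ?_⟩)]
  · simp
  · have e1 : av a.1 * bv a.2 = av b.1 * bv b.2 := congrArg Subtype.val e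
    have e2 : av (xa b.1 a.1) * bv a.2 = bv b.2 := by
      rw [← av_mul, mul_assoc, e1, ← mul_assoc, av_mul, t5, av0, one_mul]
    have e3 := t3 (xa b.1 a.1) a.2 b.2 (by rw [← cp_av, ← cp_bv, ← cp_bv, ← cpm (av_H _), e2])
    rw [e3] at e1
    exact Prod.ext (av_inj (mul_right_cancel e1)) e3
  · obtain ⟨a, b, e⟩ := mem_S0.mp x.2
    exact ⟨(a, b), Subtype.ext e⟩

theorem cenA {p : P} (hp : p ∈ H) (h : ∀ a ∈ A, p * a = a * p) : p ∈ A := by
  have hc := (mem_H.1 hp).2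
  have ap : ∀ q ∈ A, ∀ w, p (q w) = q (p w) := fun q hq w => by rw [← Perm.mul_apply, h q hq, Perm.mul_apply]
  have d1 : ∀ i j : Fin 6, i ≠ j → ∀ x : Fin 12, y i j x = al x → ∃ k, x = vv i j k (ev i) := by decide +kernel
  have d2 : ∀ i j : Fin 6, i ≠ j → y i j (ev i) = od i := by decide +kernel
  have key : ∀ i j : Fin 6, i ≠ j → y i j ∈ A → r i j ∈ A → ∃ k, p (ev i) = vv i j k (ev i) ∧
      p (ev j) = r i j (vv i j k (ev i)) := by
    intro i j hij h1 h2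
    obtain ⟨k, e⟩ := d1 i j hij (p (ev i)) (by rw [← ap _ h1, d2 i j hij, G1.app_od hc])
    exact ⟨k, e, by rw [← e, ← ap _ h2, G1.r_ev, swap_apply_left]⟩
  obtain ⟨a, a1, a2⟩ := key 0 1 (by decide) (subset_closure (by simp)) (subset_closure (by simp))
  obtain ⟨b, b1, b2⟩ := key 2 3 (by decide) (subset_closure (by simp)) (subset_closure (by simp))
  obtain ⟨c, c1, c2⟩ := key 4 5 (by decide) (subset_closure (by simp)) (subset_closure (by simp))
  have d3 : ∀ a b c : Fin 4, ∀ i, av (a, b, c) (ev i) = ![vv 0 1 a (ev 0), r 0 1 (vv 0 1 a (ev 0)), vv 2 3 b (ev 2),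
      r 2 3 (vv 2 3 b (ev 2)), vv 4 5 c (ev 4), r 4 5 (vv 4 5 c (ev 4))] i := by decide +kernel
  rw [G1.ext' hc (mem_H.1 (av_H (a, b, c))).2 fun i => by
    rw [d3]; fin_cases i
    exacts [a1, a2, b1, b2, c1, c2]]
  exact av_A _

end Cfsg.Agent.WA.Ya.S8
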