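import Cfsg.Agent.WA.YaSR2

/-! S3298, module YaSR: the fusion of involutions (Schur ring of `N(A)` on `A`). -/

set_option autoImplicit false
set_option maxRecDepth 100000

namespace Cfsg.Agent.WA.Ya

open Subgroup Equiv S8

universe u

namespace SR

variable {G : Type u} [Group G] (C : Ch G)

def E (i j : Fin 10) : Prop := IsConj (C.f (rep i)) (C.f (rep j))
def Sat (F : ℕ → ℕ) : Prop := ∀ i j : Fin 10, E C i j → F i = F j

theorem sat_cv (h1 : C.Ctl) {F F' : ℕ → ℕ} (hF : Sat C F) (hF' : Sat C F') : Sat C (cv F F') := by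
  intro k k' e
  obtain ⟨n, hn, e⟩ := h1 _ (av_rq k ▸ av_A _) _ (av_rq k' ▸ av_A _) e
  have ex : ∀ a, ∃ b, C.f (av b) = n * C.f (av a) * n⁻¹ := fun a => by
    obtain ⟨p, -, hp, e⟩ := C.mem_im.1 ((mem_normalizer_iff.1 hn _).1 (C.mem_im.2 ⟨_, av_H a, av_A a, rfl⟩))
    obtain ⟨b, rfl⟩ := mem_A.1 hp
    exact ⟨b, e⟩
  choose φ hφ using ex
  have inj : ∀ {a b}, C.f (av a) = C.f (av b) → a = b := fun h => av_inj (C.ext (av_H _) (av_H _) h)
  have φi : Function.Injective φ := fun a b h => inj (by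
    have := hφ a
    rw [h, hφ] at this
    exact (mul_left_cancel (mul_right_cancel this)).symm)
  have φm : ∀ a, φ (xa a (rq k)) = xa (φ a) (rq k') := fun a => inj (by
    rw [hφ, ← av_mul, ← av_mul, C.mul _ _ (av_H _) (av_H _), C.mul _ _ (av_H _) (av_H _), hφ, av_rq, av_rq, ← e, conj_mul])
  have φ0 : φ (0, 0, 0) = (0, 0, 0) := inj (by rw [hφ, av0, C.one, mul_one, mul_inv_cancel])
  have φc : ∀ {F : ℕ → ℕ}, Sat C F → ∀ a, F (cl a) = F (cl (φ a)) := fun {F} hF a => by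
    rcases cl_lt a with ⟨rfl, -⟩ | ⟨a0, h⟩
    · rw [φ0]
    rcases cl_lt (φ a) with ⟨b0, -⟩ | ⟨-, h'⟩
    · exact (a0 (φi (b0.trans φ0.symm))).elim
    exact hF ⟨_, h⟩ ⟨_, h'⟩ (((cj_av C a _ rfl).trans (isConj_iff.2 ⟨n, (hφ a).symm⟩)).trans (cj_av C _ _ rfl).symm)
  rw [← cv_eq, ← cv_eq]
  refine Eq.trans ?_ (Equiv.sum_comp (Equiv.ofBijective φ φi.bijective_of_finite) _)
  exact Finset.sum_congr rfl fun a _ => by rw [φc hF a, φc hF' (xa a _), φm]; rfl

open Classical in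
/-- the block of `i` -/
noncomputable def bl (i : Fin 10) : ℕ := Nat.ofBits fun j : Fin 10 => decide (E C i j)

theorem tb_eq : ∀ m < 1024, ∀ j : Fin 10, tb m j = m.testBit j ∧ bt m j = (tb m j).toNat := by decide +kernel

theorem bl_lt (i : Fin 10) : bl C i < 1024 := Nat.ofBits_lt_two_pow _

theorem tb_bl {i j : Fin 10} : tb (bl C i) j = true ↔ E C i j := by
  rw [(tb_eq _ (bl_lt C i) j).1, bl, Nat.testBit_ofBits_lt _ _ j.2]
  exact @decide_eq_true_iff _ (Classical.propDecidable _)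

theorem sat_bl (i : Fin 10) : Sat C (bt (bl C i)) := fun j k e => by
  rw [(tb_eq _ (bl_lt C i) j).2, (tb_eq _ (bl_lt C i) k).2, Bool.eq_iff_iff.2 (show tb (bl C i) j = true ↔ tb (bl C i) k = true by
    rw [tb_bl, tb_bl]; exact ⟨fun h => IsConj.trans h e, fun h => IsConj.trans h e.symm⟩)]

theorem cn_bl {F : ℕ → ℕ} (hF : Sat C F) (i : Fin 10) : cn (bl C i) F i = true := by
  have : ∀ j : Fin 10, (!tb (bl C i) j || Nat.beq (F j) (F i)) = true := fun j => by
    cases h : tb (bl C i) j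
    · rfl
    · rw [hF i j ((tb_bl C).1 h)]; simp
  exact List.all_eq_true.2 fun k hk => this ⟨k, by revert k; decide⟩

theorem dj_t : ∀ a < 1024, ∀ b < 1024, (∀ j : Fin 10, tb a j = true → tb b j = true → False) → dj a b = true := by
  intro a ha b hb h
  refine Nat.beq_eq ▸ Nat.eq_of_testBit_eq fun j => ?_
  rw [Nat.land_eq, Nat.testBit_and, Nat.zero_testBit]
  by_cases hj : j < 10
  · have := h ⟨j, hj⟩
    rw [(tb_eq a ha _).1, (tb_eq b hb _).1] at this
    simpa using this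
  · rw [Nat.testBit_lt_two_pow (ha.trans_le (Nat.pow_le_pow_right (n := 2) (by decide) (not_lt.1 hj))), Bool.false_and]

theorem dj_bl {i j : Fin 10} (h : ¬ E C i j) : dj (bl C i) (bl C j) = true :=
  dj_t _ (bl_lt C i) _ (bl_lt C j) fun _ h1 h2 => h (IsConj.trans ((tb_bl C).1 h1) ((tb_bl C).1 h2).symm)

theorem nt {i j : Fin 10} (h : ¬ E C i j) : tb (bl C i) j = false := Bool.eq_false_iff.2 fun e => h ((tb_bl C).1 e)
theorem yt (i : Fin 10) : tb (bl C i) i = true := (tb_bl C).2 (IsConj.refl _)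

theorem fus (c : Fin 10 → ℕ) (l : List (Fin 10 × ℕ)) (h : ∀ t ∈ l, bl C t.1 = t.2)
    (h' : ∀ i : Fin 10, ∃ t ∈ l, tb t.2 i = true ∧ ∀ j : Fin 10, tb t.2 j = true ↔ c i = c j) : C.Fus c := fun i j => by
  obtain ⟨t, ht, h1, h2⟩ := h' i
  rw [← h2, ← h t ht, tb_bl]
  rw [← h t ht, tb_bl] at h1
  exact ⟨fun e => IsConj.trans h1 e, fun e => IsConj.trans h1.symm e⟩

end SR

open SR in
theorem sr {G : Type u} [Group G] [Finite G] (C : Ch G) (h1 : C.Ctl) (h2 : C.NF) :
    C.Iso ∨ C.Fus c27 ∨ C.Fus (c27 ∘ s1) ∨ C.Fus c7 ∨ C.Fus (c7 ∘ s1) ∨ C.Fus (c7 ∘ s2) ∨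
      C.Fus (c7 ∘ s1 ∘ s2) := by
  have n01 : ¬ E C 0 1 := h2.1
  have n20 : ¬ E C 2 0 := fun e => h2.2.1 e.symm
  have n21 : ¬ E C 2 1 := fun e => h2.2.2 e.symm
  have n10 : ¬ E C 1 0 := fun e => n01 e.symm
  have cc : ∀ i j k : Fin 10, cn (bl C k) (cv (bt (bl C i)) (bt (bl C j))) k = true := fun i j k =>
    cn_bl C (sat_cv C h1 (sat_bl C i) (sat_bl C j)) k
  have r : ∀ i, bl C i ∈ List.range 1024 := fun i => List.mem_range.2 (bl_lt C i)
  have a1 := List.all_eq_true.1 st1 _ (r 2)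
  have c3 := cn_bl C (sat_cv C h1 (sat_bl C 2) (sat_cv C h1 (sat_bl C 2) (sat_bl C 2))) 2
  have y0 : tb (bl C 0) 0 = true := yt C 0
  have y1 : tb (bl C 1) 1 = true := yt C 1
  have y2 : tb (bl C 2) 2 = true := yt C 2
  have y4 : tb (bl C 4) 4 = true := yt C 4
  have t01 : tb (bl C 0) 1 = false := nt C n01
  have t10 : tb (bl C 1) 0 = false := nt C n10
  have t20 : tb (bl C 2) 0 = false := nt C n20
  have t21 : tb (bl C 2) 1 = false := nt C n21
  have d20 := dj_bl C n20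
  have d21 := dj_bl C n21
  have d01 := dj_bl C n01
  have c222 : cn _ _ 2 = true := cc 2 2 2
  have c220 : cn _ _ 0 = true := cc 2 2 0
  have c200 : cn _ _ 0 = true := cc 2 0 0
  have c202 : cn _ _ 2 = true := cc 2 0 2
  have c221 : cn _ _ 1 = true := cc 2 2 1
  have c211 : cn _ _ 1 = true := cc 2 1 1
  have c212 : cn _ _ 2 = true := cc 2 1 2
  have c210 : cn _ _ 0 = true := cc 2 1 0
  have c244 : cn _ _ 4 = true := cc 2 4 4
  have c242 : cn _ _ 2 = true := cc 2 4 2
  have c240 : cn _ _ 0 = true := cc 2 4 0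
  change cn _ _ 2 = true at c3
  have s2 : ∀ t ∈ [(12, 97), (36, 73), (908, 33), (932, 9)], bl C 2 = t.1 → bl C 0 = t.2 := fun t ht e => by
    have := List.all_eq_true.1 (List.all_eq_true.1 st2 t ht) _ (r 0)
    rw [← e, y0, t01, d20, c220, c200, c202] at this
    exact Nat.eq_of_beq_eq_true this
  have s3 : ∀ t ∈ [908, 932], bl C 2 = t → bl C 1 = 82 := fun t ht e => by
    have := List.all_eq_true.1 (List.all_eq_true.1 st3 t ht) _ (r 1)
    rw [← e, y1, t10, d21, c221, c211, c212] at this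
    exact Nat.eq_of_beq_eq_true this
  have s4 : ∀ (s : Fin 10) (a y : ℕ), s = 3 ∨ s = 5 → (∀ i : Fin 10, tb a i = true ↔ i = 2 ∨ i = s) → tb y 4 = false →
      (a, y, 1, 258, 514) ∈ [(12, 97, 1, 258, 514), (36, 73, 1, 258, 514), (12, 97, 4, 400, 656), (36, 73, 4, 400, 656)] →
      (a, y, 4, 400, 656) ∈ [(12, 97, 1, 258, 514), (36, 73, 1, 258, 514), (12, 97, 4, 400, 656), (36, 73, 4, 400, 656)] →
      bl C 2 = a → bl C 0 = y → (bl C 1 = 258 ∧ bl C 4 = 656) ∨ (bl C 1 = 514 ∧ bl C 4 = 400) := by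
    intro s a y hs hX y4' m1 m4 e e'
    have n17 : ¬ E C 1 7 := no35 C h1 s hs fun i => by rw [← hX, ← e]; exact (tb_bl C).symm
    have t17 : tb (bl C 1) 7 = false := nt C n17
    have t4 : (tb (bl C 4) 1 && tb (bl C 4) 7) = false := Bool.eq_false_iff.2 fun h => by
      rw [Bool.and_eq_true] at h
      exact n17 (IsConj.trans ((tb_bl C (j := 1)).1 h.1).symm ((tb_bl C (j := 7)).1 h.2))
    have d24 := dj_bl C (i := 2) (j := 4) fun h => by
      have := (hX 4).1 (e ▸ (tb_bl C).2 h)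
      rcases hs with rfl | rfl <;> exact absurd this (by decide)
    have d04 := dj_bl C (i := 0) (j := 4) fun h => by
      have : tb (bl C 0) 4 = true := (tb_bl C).2 h
      rw [e', y4'] at this; exact absurd this (by decide)
    have k1 := List.all_eq_true.1 (List.all_eq_true.1 st4 _ m1) _ (r 1)
    have k4 := List.all_eq_true.1 (List.all_eq_true.1 st4 _ m4) _ (r 4)
    simp only [← e, ← e', y1, y4, t17, t4, d21, d01, d24, d04, c211, c212, c210, c244, c242, c240, Bool.not_true, Bool.and_false,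
      Bool.or_false, Bool.false_or, Bool.or_eq_true, Nat.beq_eq] at k1 k4
    have d14 : dj (bl C 1) (bl C 4) = true := dj_bl C fun h => by
      have : tb (bl C 1) 4 = true := (tb_bl C).2 h
      rcases k1 with k | k <;> rw [k] at this <;> exact absurd this (by decide)
    rcases k1 with k | k <;> rcases k4 with k' | k' <;> first
      | exact Or.inl ⟨k, k'⟩
      | exact Or.inr ⟨k, k'⟩
      | (rw [k, k'] at d14; exact absurd d14 (by decide))
  rw [y2, t20, t21, c222, c3] at a1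
  simp only [Bool.not_true, Bool.or_false, Bool.false_or, List.contains_eq_mem, List.mem_cons, List.not_mem_nil, or_false,
    decide_eq_true_eq] at a1
  rcases a1 with a | a | a | a | a
  · refine Or.inl fun i e => ?_
    have : tb (bl C 2) i = true := (tb_bl C).2 (show IsConj (C.f (rep 2)) _ from e)
    rw [a] at this
    clear e; revert i; decide
  · have b := s2 (12, 97) (by simp) a
    rcases s4 3 12 97 (Or.inl rfl) (by decide) (by decide) (by simp) (by simp) a b with ⟨c, d⟩ | ⟨c, d⟩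
    · exact Or.inr (Or.inr (Or.inr (Or.inr (Or.inr (Or.inr (fus C _ [(2, 12), (0, 97), (1, 258), (4, 656)] (by simp [a, b, c, d]) (by decide)))))))
    · exact Or.inr (Or.inr (Or.inr (Or.inr (Or.inl (fus C _ [(2, 12), (0, 97), (1, 514), (4, 400)] (by simp [a, b, c, d]) (by decide))))))
  · have b := s2 (36, 73) (by simp) a
    rcases s4 5 36 73 (Or.inr rfl) (by decide) (by decide) (by simp) (by simp) a b with ⟨c, d⟩ | ⟨c, d⟩
    · exact Or.inr (Or.inr (Or.inr (Or.inl (fus C _ [(2, 36), (0, 73), (1, 258), (4, 656)] (by simp [a, b, c, d]) (by decide)))))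
    · exact Or.inr (Or.inr (Or.inr (Or.inr (Or.inr (Or.inl (fus C _ [(2, 36), (0, 73), (1, 514), (4, 400)] (by simp [a, b, c, d]) (by decide)))))))
  · exact Or.inr (Or.inr (Or.inl (fus C _ [(2, 908), (0, 33), (1, 82)] (by simp [a, s2 (908, 33) (by simp) a, s3 908 (by simp) a]) (by decide))))
  · exact Or.inr (Or.inl (fus C _ [(2, 932), (0, 9), (1, 82)] (by simp [a, s2 (932, 9) (by simp) a, s3 932 (by simp) a]) (by decide)))

end Cfsg.Agent.WA.Ya
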