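import Cfsg.Agent.WA.YaSR1

/-! S3298, module YaSR: the pattern 7, 21, 35 does not occur. -/

set_option autoImplicit false
set_option synthInstance.maxSize 4096
set_option maxRecDepth 100000

namespace Cfsg.Agent.WA.Ya.SR

open Subgroup Equiv S8

variable {G : Type*} [Group G] (C : Ch G)

theorem rH (i : Fin 10) : rep i ∈ H := av_rq i ▸ av_H _

theorem cj_av (a : I3) (k : Fin 10) (h : cl a = k) : IsConj (C.f (rep k)) (C.f (av a)) := by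
  obtain ⟨g, hg, e⟩ := cl_rep a k h
  exact isConj_iff.2 ⟨C.f g, by rw [← C.cj hg (rH k), e]⟩

theorem finj {a b : I3} (h : C.f (av a) = C.f (av b)) : a = b := av_inj (C.ext (av_H _) (av_H _) h)

theorem exφ {n : G} (hn : n ∈ normalizer (C.im A : Set G)) : ∃ φ : I3 → I3, (∀ a, C.f (av (φ a)) = n * C.f (av a) * n⁻¹) ∧
    Function.Injective φ ∧ ∀ a b, φ (xa a b) = xa (φ a) (φ b) := by
  have ex : ∀ a, ∃ b, C.f (av b) = n * C.f (av a) * n⁻¹ := fun a => by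
    obtain ⟨p, -, hp, e⟩ := C.mem_im.1 ((mem_normalizer_iff.1 hn _).1 (C.mem_im.2 ⟨_, av_H a, av_A a, rfl⟩))
    obtain ⟨b, rfl⟩ := mem_A.1 hp
    exact ⟨b, e⟩
  choose φ hφ using ex
  refine ⟨φ, hφ, fun a b h => finj C ?_, fun a b => finj C ?_⟩
  · have := hφ a
    rw [h, hφ] at this
    exact (mul_left_cancel (mul_right_cancel this)).symm
  · rw [hφ, ← av_mul, ← av_mul, C.mul _ _ (av_H _) (av_H _), C.mul _ _ (av_H _) (av_H _), hφ, hφ, conj_mul]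

def wt (a : I3) : ℕ := (if a.1 = 0 then 0 else 1) + (if a.2.1 = 0 then 0 else 1) + (if a.2.2 = 0 then 0 else 1)
theorem av_wt : ∀ a, (av a).support.card = 4 * wt a := by decide +kernel
/-- the seven points -/
def X (s : ℕ) (a : I3) : Prop := cl a = 2 ∨ cl a = s
instance (s : ℕ) (a : I3) : Decidable (X s a) := by unfold X; infer_instance
def pt (s : ℕ) (a : I3) : I3 := if s = 3 then a else xa (1, 1, 1) a

theorem k1 : ∀ s ∈ [3, 5], ∀ a, X s a → ∀ b, X s b → ∀ c, X s c → xa a (xa b c) = (2, 2, 1) →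
    a = (1, 1, 1) ∨ b = (1, 1, 1) ∨ c = (1, 1, 1) := by decide +kernel
theorem k2 : ∀ s ∈ [3, 5], ∀ b, X s b → ∀ c, X s c → xa (1, 1, 1) (xa b c) = (2, 2, 1) → ∀ x, X s x → ∀ z, X s z →
    (x = (1, 1, 1) → z = (1, 1, 1)) → (x = b → z = b) → (x = c → z = c) → wt (xa (1, 1, 1) (xa b z)) = wt (xa (1, 1, 1) (xa b x)) →
    wt (xa (1, 1, 1) (xa c z)) = wt (xa (1, 1, 1) (xa c x)) → z = x ∨ x = pt s (0, 0, 2) ∨ x = pt s (0, 0, 3) := by decide +kernel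
theorem k3 : ∀ s ∈ [3, 5], (xa (pt s (0, 0, 2)) (xa (1, 1, 1) (pt s (0, 0, 3))) = (1, 1, 0) ∧
      xa (pt s (0, 0, 3)) (xa (1, 1, 1) (pt s (0, 0, 2))) = (1, 1, 0) ∧ xa (1, 1, 1) (xa (pt s (0, 0, 2)) (pt s (0, 0, 3))) = (1, 1, 0)) ∧
    (X s (1, 1, 1) ∧ X s (pt s (0, 0, 2)) ∧ X s (pt s (0, 0, 3)) ∧ X s (pt s (0, 2, 0)) ∧ X s (pt s (0, 3, 0)) ∧ X s (pt s (2, 0, 0))) ∧
    (pt s (0, 2, 0) ≠ pt s (0, 3, 0) ∧ pt s (0, 2, 0) ≠ pt s (2, 0, 0) ∧ pt s (0, 3, 0) ≠ pt s (2, 0, 0)) ∧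
    (∀ a ∈ [(1, 1, 1), pt s (0, 0, 2), pt s (0, 0, 3)], bv 1 * av a = av a * bv 1) ∧
    ∀ a ∈ [pt s (0, 2, 0), pt s (0, 3, 0), pt s (2, 0, 0)], bv 1 * av a ≠ av a * bv 1 := by decide +kernel
theorem k4 : av (1, 1, 1) = al := by decide +kernel

theorem cen_wt {k : G} {ψ : I3 → I3} (h : ∀ a, C.f (av (ψ a)) = k * C.f (av a) * k⁻¹) (h1 : ψ (1, 1, 1) = (1, 1, 1)) (a : I3) :
    wt (ψ a) = wt a := by
  have := h (1, 1, 1)
  rw [h1, k4, eq_mul_inv_iff_mul_eq] at this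
  obtain ⟨p, hp, rfl⟩ := (C.cen k).1 this.symm
  have e := h a
  rw [← C.cj hp (av_H a)] at e
  have e' := congrArg (fun q : P => q.support.card) (C.ext (av_H _) (mul_mem (mul_mem hp (av_H a)) (inv_mem hp)) e)
  simp only [Perm.support_conj, Finset.card_map, av_wt] at e'
  omega

theorem no35 [Finite G] (h1 : C.Ctl) (s : Fin 10) (hs : s = 3 ∨ s = 5)
    (hX : ∀ i, IsConj (C.f (rep 2)) (C.f (rep i)) ↔ i = 2 ∨ i = s) : ¬ IsConj (C.f (rep 1)) (C.f (rep 7)) := by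
  intro e
  have ms : s.1 ∈ [3, 5] := by rcases hs with rfl | rfl <;> decide
  have xi : ∀ a, X s a ↔ IsConj (C.f (rep 2)) (C.f (av a)) := fun a => by
    refine ⟨fun h => h.elim (cj_av C a 2) fun h => ((hX s).2 (Or.inr rfl)).trans (cj_av C a s h), fun h => ?_⟩
    rcases cl_lt a with ⟨rfl, -⟩ | ⟨-, l⟩
    · rw [av0, C.one, isConj_one_left] at h
      exact absurd (C.inj _ (rH 2) h) (by decide +kernel)
    exact ((hX ⟨_, l⟩).1 (h.trans (cj_av C a _ rfl).symm)).imp (congrArg Fin.val) (congrArg Fin.val)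
  have xφ : ∀ {k : G} {ψ : I3 → I3}, (∀ a, C.f (av (ψ a)) = k * C.f (av a) * k⁻¹) → ∀ {a}, X s a → X s (ψ a) := fun h a x =>
    (xi _).2 (((xi a).1 x).trans (isConj_iff.2 ⟨_, (h a).symm⟩))
  obtain ⟨n, hn, e⟩ := h1 _ (av_rq 1 ▸ av_A _) _ (av_rq 7 ▸ av_A _) e
  obtain ⟨φ, hφ, φi, φm⟩ := exφ C hn
  have e1 : φ (1, 1, 0) = (2, 2, 1) := finj C (by rw [hφ]; exact (av_rq 1).symm ▸ (av_rq 7).symm ▸ e)
  obtain ⟨⟨q1, q2, q3⟩, ⟨x0, x1, x2, x3, x4, x5⟩, ⟨n1, n2, n3⟩, c1, c2⟩ := k3 s ms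
  have gN : C.f (bv 1) ∈ normalizer (C.im A : Set G) := H8.mem_normalizer_of_cj_le (by
    rintro _ ⟨g, hg, rfl⟩
    obtain ⟨p, -, hp, rfl⟩ := C.mem_im.1 hg
    obtain ⟨a, rfl⟩ := mem_A.1 hp
    obtain ⟨b, e⟩ := (t4 1 (Or.inl rfl)).1 a
    have e3 : bv 1 * av a = av b * bv 1 := cpi (mul_mem (bv_H _) (av_H _)) (mul_mem (av_H _) (bv_H _)) (by
      rw [cpm (bv_H _), cpm (av_H _), cp_av, cp_av, cp_bv, e])
    exact C.mem_im.2 ⟨_, av_H b, av_A b, by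
      rw [← mul_inv_eq_iff_eq_mul.2 e3, C.cj (bv_H _) (av_H _)]; rfl⟩)
  obtain ⟨ψ, hψ, -, ψm⟩ := exφ C (mul_mem (mul_mem hn gN) (inv_mem hn))
  have fx : ∀ a, ψ (φ a) = φ a ↔ bv 1 * av a = av a * bv 1 := fun a => by
    have : C.f (av (ψ (φ a))) = n * C.f (bv 1 * av a * (bv 1)⁻¹) * n⁻¹ := by rw [hψ, hφ, C.cj (bv_H _) (av_H _)]; group
    refine ⟨fun h => mul_inv_eq_iff_eq_mul.1 (C.ext (mul_mem (mul_mem (bv_H _) (av_H _)) (inv_mem (bv_H _))) (av_H _) ?_), fun h => finj C ?_⟩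
    · rw [h, hφ] at this
      exact (mul_left_cancel (mul_right_cancel this)).symm
    · rw [this, h, mul_inv_cancel_right, hφ]
  have main : ∀ p b c, p ∈ [(1, 1, 1), pt s (0, 0, 2), pt s (0, 0, 3)] → b ∈ [(1, 1, 1), pt s (0, 0, 2), pt s (0, 0, 3)] →
      c ∈ [(1, 1, 1), pt s (0, 0, 2), pt s (0, 0, 3)] → X s b → X s c → xa p (xa b c) = (1, 1, 0) → φ p = (1, 1, 1) → False := by
    intro p b c mp mb mc xb xc q e
    have f1 : ψ (1, 1, 1) = (1, 1, 1) := e ▸ (fx p).2 (c1 p mp)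
    have fb := (fx b).2 (c1 b mb)
    have fc := (fx c).2 (c1 c mc)
    have w := cen_wt C hψ f1
    have mv : ∀ x ∈ [pt s (0, 2, 0), pt s (0, 3, 0), pt s (2, 0, 0)], X s x → φ x = pt s (0, 0, 2) ∨ φ x = pt s (0, 0, 3) := fun x mx xx =>
      (k2 s ms _ (xφ hφ xb) _ (xφ hφ xc) (by rw [← e, ← φm, ← φm, q, e1]) _ (xφ hφ xx) _ (xφ hψ (xφ hφ xx))
        (fun h => by rw [h, f1]) (fun h => by rw [h, fb]) (fun h => by rw [h, fc])
        (by rw [← w (xa _ (xa (φ b) (φ x))), ψm, ψm, f1, fb]) (by rw [← w (xa _ (xa (φ c) (φ x))), ψm, ψm, f1, fc])).resolve_left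
        fun h => c2 x mx ((fx x).1 h)
    rcases mv _ (by simp) x3 with a | a <;> rcases mv _ (by simp) x4 with b | b <;> rcases mv _ (by simp) x5 with c | c <;> first
      | exact n1 (φi (a.trans b.symm))
      | exact n2 (φi (a.trans c.symm))
      | exact n3 (φi (b.trans c.symm))
  rcases k1 s ms _ (xφ hφ x0) _ (xφ hφ x1) _ (xφ hφ x2) (by rw [← φm, ← φm, q3, e1]) with h | h | h
  · have := cen_wt C hφ h (1, 1, 0)
    rw [e1] at this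
    exact absurd this (by decide)
  · exact main _ _ _ (by simp) (by simp) (by simp) x0 x2 q1 h
  · exact main _ _ _ (by simp) (by simp) (by simp) x0 x1 q2 h

end Cfsg.Agent.WA.Ya.SR
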