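import Cfsg.Agent.WA.YaG1
import Cfsg.Agent.WA.AlCs0

/-! S3298: the chart and its twists. -/

set_option autoImplicit false

namespace Cfsg.Agent.WA.Ya

open Subgroup Equiv G1

universe u

namespace St

theorem al_mem : al ∈ H := by decide +kernel
theorem al_sq : al * al = 1 := by decide +kernel
theorem rep_mem : ∀ i, rep i ∈ H := by decide +kernel
theorem sep : ∀ w : Fin 12, w = ev 0 ∨ w = od 0 ∨ ∃ j, y 0 j (ev 0) ≠ ev 0 ∧ y 0 j w = w := by decide +kernel

theorem centre {p : P} (hp : p ∈ H) (h : ∀ q ∈ H, p * q = q * p) : p = 1 ∨ p = al := by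
  have ap : ∀ q ∈ H, ∀ w, p (q w) = q (p w) := fun q hq w => by rw [← Perm.mul_apply, h q hq, Perm.mul_apply]
  have e : ∀ j : Fin 6, j ≠ 0 → p (ev j) = r 0 j (p (ev 0)) := fun j hj => by
    rw [← ap _ (r_mem hj.symm), r_ev, swap_apply_left]
  rcases sep (p (ev 0)) with e0 | e0 | ⟨j, h1, h2⟩
  · refine Or.inl (ext' (mem_H.1 hp).2 (by simp) fun j => ?_)
    by_cases hj : j = 0
    · rw [hj, e0]; rfl
    · rw [e j hj, e0, r_ev, swap_apply_left]; rfl
  · refine Or.inr (ext' (mem_H.1 hp).2 rfl fun j => ?_)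
    by_cases hj : j = 0
    · rw [hj, e0, al_ev]
    · rw [e j hj, e0, r_od, swap_apply_left, al_ev]
  · exact absurd (p.injective (by rw [ap _ (y_mem 0 j), h2])) h1

variable {G : Type u} [Group G]

/-- compose a chart with an involutive automorphism of `H` -/
def comp (C : Ch G) (τ : P → P) (hm : ∀ p ∈ H, τ p ∈ H) (mul : ∀ p ∈ H, ∀ q ∈ H, τ (p * q) = τ p * τ q)
    (inv : ∀ p ∈ H, τ (τ p) = p) (h1 : τ 1 = 1) (ha : τ al = al) : Ch G where
  f p := C.f (τ p)
  mul p q hp hq := by rw [mul p hp q hq, C.mul _ _ (hm p hp) (hm q hq)]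
  inj p hp h := by rw [← inv p hp, C.inj _ (hm p hp) h, h1]
  cen g := by
    rw [ha, C.cen]
    exact ⟨fun ⟨p, hp, e⟩ => ⟨τ p, hm p hp, by rw [inv p hp, e]⟩, fun ⟨p, hp, e⟩ => ⟨τ p, hm p hp, e⟩⟩
  syl := C.syl

theorem cj_of (C : Ch G) {h p q : P} (hh : h ∈ H) (hp : p ∈ H) (e : h * p * h⁻¹ = q) : IsConj (C.f p) (C.f q) :=
  isConj_iff.2 ⟨C.f h, by rw [← C.cj hh hp, e]⟩

def rr (x : Fin 12) : Fin 12 := ⟨x.1 - x.1 % 2, by omega⟩
def qq : Fin 10 → P := ![1, 1, 1, swap 0 2, swap 0 2, swap 0 2, swap 0 2 * swap 4 6, swap 0 2 * swap 4 6,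
  swap 0 2 * swap 4 6 * swap 8 10, swap 0 2 * swap 4 6 * swap 8 10]

theorem exists_sg : ∃ χ : P → ℤˣ, (∀ p ∈ H, ∀ q ∈ H, χ (p * q) = χ p * χ q) ∧ ∀ i, χ (rep i) = Perm.sign (qq i) := by
  classical
  have h3 : ∀ x : Fin 12, (rr x = x ∨ rr x = al x) ∧ rr (al x) = rr x := by decide +kernel
  obtain ⟨χ, m, v⟩ := Al.Cs.exists_chi (Ω := Fin 12) ⟨al, al_mem.1⟩ (fun x => x.1 % 2 = 0) rr (by decide +kernel)
    (fun p _ x _ => by simp only [rr]; omega) (fun p hp x => by
      rcases (h3 x).1 with e | e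
      · rw [e]
      · have : p.1 * al = al * p.1 := congrArg Subtype.val hp
        rw [e, ← Perm.mul_apply, this, Perm.mul_apply, (h3 _).2])
  have cm : ∀ {p : P} (hp : p ∈ H), (⟨p, hp.1⟩ : Al.Alt (Fin 12)) * ⟨al, al_mem.1⟩ = ⟨al, al_mem.1⟩ * ⟨p, hp.1⟩ :=
    fun hp => Subtype.ext (mem_H.1 hp).2.symm
  refine ⟨fun p => if h : p ∈ H then χ ⟨p, h.1⟩ else 1, fun p hp q hq => ?_, fun i => ?_⟩
  · simp only [dif_pos hp, dif_pos hq, dif_pos (mul_mem hp hq)]
    exact m _ _ (cm hp) (cm hq)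
  · simp only [dif_pos (rep_mem i)]
    refine v _ (cm (rep_mem i)) _ ?_
    change ∀ x : Fin 12, qq i x = if x.1 % 2 = 0 then rr (rep i x) else x
    revert i
    decide +kernel

end St

open St

theorem setup {G : Type u} [Group G] [Finite G] (α : G) (hα : orderOf α = 2) (S : Sylow 2 G)
    (hαS : α ∈ (S : Subgroup G) ⊓ centralizer ((S : Subgroup G) : Set G))
    (hC : Nonempty (centralizer ({α} : Set G) ≃* H)) : ∃ C : Ch G, C.f al = α := by
  classical
  obtain ⟨e⟩ := hC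
  have ma : α ∈ centralizer ({α} : Set G) := mem_centralizer_singleton_iff.2 rfl
  have ea : e.symm ⟨al, al_mem⟩ = ⟨α, ma⟩ := by
    rw [MulEquiv.symm_apply_eq]
    rcases centre (e ⟨α, ma⟩).2 (fun q hq => by
      have : e ⟨α, ma⟩ * ⟨q, hq⟩ = ⟨q, hq⟩ * e ⟨α, ma⟩ := by
        rw [← e.apply_symm_apply ⟨q, hq⟩, ← map_mul, ← map_mul]
        congr 1
        exact Subtype.ext (mem_centralizer_singleton_iff.1 (e.symm ⟨q, hq⟩).2).symm
      exact congrArg Subtype.val this) with h | h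
    · have : (⟨α, ma⟩ : centralizer ({α} : Set G)) = 1 := (map_eq_one_iff e e.injective).1 (Subtype.ext h)
      rw [show α = 1 from congrArg Subtype.val this, orderOf_one] at hα
      omega
    · exact Subtype.ext h.symm
  have fa : (if h : al ∈ H then (e.symm ⟨al, h⟩ : G) else 1) = α := by rw [dif_pos al_mem, ea]
  refine ⟨⟨fun p => if h : p ∈ H then (e.symm ⟨p, h⟩ : G) else 1, fun p q hp hq => ?_, fun p hp h => ?_, fun g => ?_,
    fun Q hQ _ => ?_⟩, fa⟩
  · simp only [dif_pos hp, dif_pos hq, dif_pos (mul_mem hp hq)]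
    rw [← coe_mul, ← map_mul]; rfl
  · simp only [dif_pos hp] at h
    exact congrArg Subtype.val ((map_eq_one_iff e.symm e.symm.injective).1 (Subtype.ext h))
  · simp only [fa]
    constructor
    · intro h
      refine ⟨(e ⟨g, mem_centralizer_singleton_iff.2 h⟩).1, (e _).2, ?_⟩
      simp only [SetLike.coe_mem, dif_pos, Subtype.coe_eta, MulEquiv.symm_apply_apply]
    · rintro ⟨p, hp, rfl⟩
      simp only [dif_pos hp]
      exact mem_centralizer_singleton_iff.1 (e.symm ⟨p, hp⟩).2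
  · haveI : Fact (Nat.Prime 2) := ⟨Nat.prime_two⟩
    obtain ⟨T, hT⟩ := hQ.exists_le_sylow
    have h1 : Nat.card Q ≤ Nat.card S := (card_le_of_le hT).trans (Nat.card_congr (T.equiv S).toEquiv).le
    have h2 : (S : Subgroup G) ≤ centralizer ({α} : Set G) := fun x hx =>
      mem_centralizer_singleton_iff.2 (hαS.2 x hx)
    have h3 : Nat.card S ∣ Nat.card (alternatingGroup (Fin 12)) :=
      (card_dvd_of_le h2).trans ((Nat.card_congr e.toEquiv).symm ▸ card_dvd_of_le inf_le_left)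
    obtain ⟨k, hk⟩ := IsPGroup.iff_card.1 S.isPGroup'
    rw [nat_card_alternatingGroup, Nat.card_eq_fintype_card (α := Fin 12), Fintype.card_fin, hk] at h3
    have : k ≤ 9 := by
      by_contra hn
      exact absurd ((pow_dvd_pow 2 (show 10 ≤ k by omega)).trans h3) (by norm_num [Nat.factorial])
    calc Nat.card Q ≤ 2 ^ k := hk ▸ h1
      _ ≤ 2 ^ 9 := Nat.pow_le_pow_right (by norm_num) this

theorem twist1 {G : Type u} [Group G] (C : Ch G) :
    ∃ D : Ch G, D.f al = C.f al ∧ ∀ i, IsConj (D.f (rep i)) (C.f (rep (s1 i))) := by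
  obtain ⟨χ, m, v⟩ := exists_sg
  have ca : χ al = 1 := (v 2).trans (map_one _)
  have c1 : χ 1 = 1 := by simpa using m 1 (one_mem _) 1 (one_mem _)
  have hm : ∀ p ∈ H, p * (if χ p = 1 then 1 else al) ∈ H := fun p hp => mul_mem hp (by
    split_ifs
    exacts [one_mem _, al_mem])
  have ta : al * (if χ al = 1 then 1 else al) = al := by rw [if_pos ca, mul_one]
  refine ⟨comp C (fun p => p * (if χ p = 1 then 1 else al)) hm (fun p hp q hq => ?_) (fun p hp => ?_)
    (by simp only [if_pos c1, mul_one]) ta, congrArg C.f ta, fun i => ?_⟩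
  · have e := (mem_H.1 hq).2
    rw [m p hp q hq]
    rcases Int.units_eq_one_or (χ p) with a | a <;> rcases Int.units_eq_one_or (χ q) with b | b <;> rw [a, b]
    · simp
    · simp [mul_assoc]
    · simp [mul_assoc, e]
    · simp only [neg_mul_neg, one_mul, if_true, mul_one, if_neg (by decide : ¬ (-1 : ℤˣ) = 1)]
      rw [mul_assoc p, ← mul_assoc al, e, mul_assoc q, al_sq, mul_one]
  · by_cases a : χ p = 1
    · simp only [if_pos a, mul_one]
    · simp only [if_neg a, m p hp al al_mem, ca, mul_one, mul_assoc, al_sq]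
  · have : ∀ i, ∃ h ∈ [1, y 0 4, y 0 2 * (r 2 4 * r 3 5), y 2 4], h ∈ H ∧
        h * (rep i * (if Perm.sign (qq i) = 1 then 1 else al)) * h⁻¹ = rep (s1 i) := by decide +kernel
    obtain ⟨h, -, hh, e⟩ := this i
    rw [← v] at e
    exact cj_of C hh (hm _ (rep_mem i)) e

theorem twist2 {G : Type u} [Group G] (C : Ch G) :
    ∃ D : Ch G, D.f al = C.f al ∧ ∀ i, IsConj (D.f (rep i)) (C.f (rep (s2 i))) := by
  have f2 : fl 0 * fl 0 = 1 := swap_mul_self _ _
  have hm : ∀ p ∈ H, fl 0 * p * (fl 0)⁻¹ ∈ H := fun p hp => mem_H.2 ⟨by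
    simp [(mem_H.1 hp).1], (((show Commute al (fl 0) from al_fl 0).mul_right (mem_H.1 hp).2).mul_right
      (show Commute al (fl 0) from al_fl 0).inv_right).eq⟩
  have ta : fl 0 * al * (fl 0)⁻¹ = al := by rw [← al_fl, mul_inv_cancel_right]
  refine ⟨comp C (fun p => fl 0 * p * (fl 0)⁻¹) hm (fun p _ q _ => by group) (fun p _ => ?_) (by group) ta,
    congrArg C.f ta, fun i => ?_⟩
  · calc _ = (fl 0 * fl 0) * p * (fl 0 * fl 0)⁻¹ := by group
      _ = p := by rw [f2]; group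
  · have : ∀ i, ∃ h ∈ [1, y 0 4], h ∈ H ∧ h * (fl 0 * rep i * (fl 0)⁻¹) * h⁻¹ = rep (s2 i) := by decide +kernel
    obtain ⟨h, -, hh, e⟩ := this i
    exact cj_of C hh (hm _ (rep_mem i)) e

end Cfsg.Agent.WA.Ya
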