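import Cfsg.Agent.WA.YsDef
import Cfsg.Agent.WA.YaK

/-! S3298, the `Sp₆(2)` branch: table facts (fast version of `t_four`). -/

set_option autoImplicit false

namespace Cfsg.Agent.WA.Ys

open Ya.K

namespace T4

def cn (k l : ℕ) : ℕ := Nat.mod (Nat.mod (Nat.shiftRight cjT (Nat.mul 5 (Nat.add (Nat.mul 30 k) l))) 32) 30
theorem cn_eq (k l : Fin 30) : cn k.1 l.1 = (cj k l).1 := rfl
def L30 : List ℕ := [0, 1, 2, 3, 4, 5, 6, 7, 8, 9, 10, 11, 12, 13, 14, 15, 16, 17, 18, 19, 20, 21, 22, 23, 24, 25, 26,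
  27, 28, 29]
theorem mem30 : ∀ k : Fin 30, k.1 ∈ L30 := by decide
theorem lt30 : ∀ k ∈ L30, k < 30 := by decide

theorem nall {l : List ℕ} {P : ℕ → Bool} (h : Bool.not (allL l P) = true) : ∃ a ∈ l, P a = false := by
  induction l with
  | nil => cases h
  | cons a l ih =>
    have e : allL (a :: l) P = Bool.rec false (allL l P) (P a) := rfl
    rw [e] at h
    cases hp : P a
    · exact ⟨a, List.mem_cons_self, hp⟩
    · rw [hp] at h
      obtain ⟨b, hb, e⟩ := ih h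
      exact ⟨b, List.mem_cons_of_mem _ hb, e⟩

theorem chk : allL L30 (fun a => allL L30 fun b => imp (Nat.beq (cn a b) b) <| sk a b <| allL L30 fun c =>
    imp (Nat.beq (cn a c) c) <| imp (Nat.beq (cn b c) c) <| sk c a <| sk c b <| allL L30 fun q =>
      Bool.not (allL L30 fun x => Nat.beq (cn a (cn b x)) (cn q (cn c x)))) = true := by decide +kernel

end T4

open T4

theorem t_four : ∀ a b : Fin 30, cj a b = b → a ≠ b → ∀ c, cj a c = c → cj b c = c → c ≠ a → c ≠ b →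
    ∀ q, ∃ x, cj a (cj b x) ≠ cj q (cj c x) := by
  intro a b h1 h2 c h3 h4 h5 h6 q
  have bq : ∀ {k l : Fin 30}, cj k l = l → Nat.beq (cn k.1 l.1) l.1 = true := fun h => by
    rw [cn_eq, h]; exact Nat.beq_refl _
  obtain ⟨x, hx, e⟩ := nall (allL_spec (sk_spec (sk_spec (imp_spec (imp_spec (allL_spec (sk_spec (imp_spec
    (allL_spec (allL_spec chk _ (mem30 a)) _ (mem30 b)) (bq h1)) (Fin.val_ne_of_ne h2)) _ (mem30 c)) (bq h3)) (bq h4))
    (Fin.val_ne_of_ne h5)) (Fin.val_ne_of_ne h6)) _ (mem30 q))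
  refine ⟨⟨x, lt30 x hx⟩, fun h => ?_⟩
  have e1 : cn a.1 (cn b.1 x) = cn q.1 (cn c.1 x) := congrArg Fin.val h
  rw [e1, Nat.beq_refl] at e
  cases e

end Cfsg.Agent.WA.Ys
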