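import Cfsg.Agent.WA.YsA
import Cfsg.Agent.WA.YsT3
import Cfsg.Agent.WA.AlSur
import Cfsg.Agent.KO.Tv

/-! S3298, the `Sp₆(2)` branch: the commuting graph on `D` is connected. -/

set_option autoImplicit false

namespace Cfsg.Agent.WA.Ys

open Subgroup

variable {G : Type*} [Group G]

namespace Con

variable {D : Set G} {d : G} {r : Fin 30 → G}

theorem braid (L : Loc D d r) {p q : G} (hp : p ∈ D) (hq : q ∈ D) (cp : Commute p d) (cq : Commute q d) :
    Commute p q ∨ p * q * p = q * p * q := by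
  rcases (L.mem p).1 ⟨hp, cp⟩ with rfl | ⟨k, rfl⟩
  · exact Or.inl cq.symm
  rcases (L.mem q).1 ⟨hq, cq⟩ with rfl | ⟨l, rfl⟩
  · exact Or.inl cp
  by_cases h : cj k l = l
  · exact Or.inl ((L.cm k l).2 h)
  · exact Or.inr (by rw [L.cj, L.cj, t_braid k l h])

theorem act2 (L : Loc D d r) (a b x : Fin 30) : r a * r b * r x * (r a * r b)⁻¹ = r (cj a (cj b x)) := by
  rw [← L.cj, ← L.cj, mul_inv_rev, inv_eq_of_mul_eq_one_right (L.sq a), inv_eq_of_mul_eq_one_right (L.sq b)]
  group

theorem sg (L : Loc D d r) : ∃ χ : G → ℤˣ, (∀ g h, Commute g d → Commute h d → χ (g * h) = χ g * χ h) ∧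
    (∀ k, χ (r k) = -1) ∧ χ d = 1 := by
  obtain ⟨χ, m, v⟩ := L.sgn
  refine ⟨χ, m, v, ?_⟩
  have c := L.rc
  have h := L.prod 0
  rw [← h, m _ _ (((((c _).mul_left (c _)).mul_left (c _)).mul_left (c _)).mul_left (c _)) (c _),
    m _ _ ((((c _).mul_left (c _)).mul_left (c _)).mul_left (c _)) (c _),
    m _ _ (((c _).mul_left (c _)).mul_left (c _)) (c _), m _ _ ((c _).mul_left (c _)) (c _), m _ _ (c _) (c _)]
  simp [v]

/-- `d a` is not in `D` -/
theorem not2 (L : Loc D d r) (k : Fin 30) : d * r k ∉ D := by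
  intro h
  obtain ⟨χ, m, v, v1⟩ := sg L
  have c : Commute (d * r k) d := (Commute.refl d).mul_left (L.rc k)
  rcases (L.mem _).1 ⟨h, c⟩ with e | ⟨y, e⟩
  · have := m _ _ (Commute.refl d) (L.rc k)
    rw [e, v, v1] at this
    exact absurd this (by decide)
  · have e' : r k * r y = d := by rw [← e, ← mul_assoc, (L.rc k).eq, mul_assoc, L.sq, mul_one]
    obtain ⟨x, hx⟩ := t_two k y (by
      rintro rfl
      exact L.ne1 (by rw [← e', L.sq]))
    exact hx (L.inj (by rw [← act2 L, e', ← (L.rc x).eq, mul_inv_cancel_right]))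

/-- `x d a` is not in `D` -/
theorem not3 (L : Loc D d r) {k l : Fin 30} (h : l ≠ k) : r l * (d * r k) ∉ D := by
  intro hD
  obtain ⟨χ, m, v, v1⟩ := sg L
  have c0 : Commute (d * r k) d := (Commute.refl d).mul_left (L.rc k)
  have e0 : χ (r l * (d * r k)) = 1 := by
    rw [m _ _ (L.rc l) c0, m _ _ (Commute.refl d) (L.rc k), v, v, v1]; decide
  rcases (L.mem _).1 ⟨hD, (L.rc l).mul_left c0⟩ with e | ⟨y, e⟩
  · rw [← (L.rc k).eq, ← mul_assoc, mul_eq_right] at e
    exact h (L.inj (by rw [← mul_one (r l), ← L.sq k, ← mul_assoc, e, one_mul]))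
  · rw [e, v] at e0
    exact absurd e0 (by decide)

theorem c3 (L : Loc D d r) {a b c : G} (ha : a ∈ D) (hb : b ∈ D) (hc : c ∈ D) (ca : Commute a d) (cb : Commute b d)
    (cc : Commute c d) (a2 : a * a = 1) (c2 : c * c = 1) (ne : a ≠ b) (h : Commute c (a * b)) : Commute c a := by
  rcases braid L hc ha cc ca with h1 | h1
  · exact h1
  have e : c * b * c = a * c * b := by
    calc c * b * c = (a * c * a) * (c * a * c) * (c * b * c) := by
          rw [← h1]
          calc c * b * c = c * (a * (c * c) * a) * (c * c) * b * c := by simp only [c2, mul_one, a2]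
            _ = _ := by group
      _ = (a * c * a) * (c * (a * (c * c) * b) * c) := by group
      _ = (a * c * a) * (a * b) := by rw [c2, mul_one, h.eq, mul_assoc (a * b), c2, mul_one]
      _ = a * c * (a * a) * b := by group
      _ = _ := by rw [a2, mul_one]
  rcases braid L hc hb cc cb with h2 | h2
  · rw [h2.eq, mul_assoc, c2, mul_one, eq_comm, mul_eq_right] at e
    have : a = c := by rw [← mul_one a, ← c2, ← mul_assoc, e, one_mul]
    rw [this]
  · rw [h2] at e
    exact absurd (mul_right_cancel (mul_right_cancel e)).symm ne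

variable [Finite G] (X : Ctx G)

theorem into {K Q : Subgroup G} (hK : ∀ g, Commute g X.α → g ∈ K) (hQ : IsPGroup 2 Q) (h : Q ≤ K) :
    ∃ k ∈ K, ∀ x ∈ Q, Commute (k * x * k⁻¹) X.α := by
  haveI : Fact (Nat.Prime 2) := ⟨Nat.prime_two⟩
  obtain ⟨S, hS⟩ := X.syl
  obtain ⟨P, hP, hQP⟩ := H8.exists_isSylowIn_ge hQ h
  obtain ⟨k, hk, e⟩ := hP.exists_cj_eq ((H8.isSylowIn_top S).of_le (fun s hs => hK s (hS s hs)) le_top)
  exact ⟨k, hk, fun x hx => hS _ (e ▸ H8.conj_mem_cj k (hQP hx))⟩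

theorem aD : X.α ∈ X.D := (X.hD _).2 (IsConj.refl _)

theorem two {Q : Subgroup G} (hQ : IsPGroup 2 Q) {p q : G} (mp : p ∈ Q) (mq : q ∈ Q) (hp : p ∈ X.D) (hq : q ∈ X.D) :
    Commute p q := by
  obtain ⟨k, -, hk⟩ := into X (K := ⊤) (fun _ _ => mem_top _) hQ le_top
  obtain ⟨r, L⟩ := X.loc _ (aD X)
  rcases braid L (X.conj hp k) (X.conj hq k) (hk p mp) (hk q mq) with h | h
  · have := h.eq
    rw [conj_mul, conj_mul] at this
    exact mul_left_cancel (mul_right_cancel this)
  · rw [conj_mul, conj_mul, conj_mul, conj_mul] at h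
    have h' : p * q * p = q * p * q := mul_left_cancel (mul_right_cancel h)
    have h3 : (p * q) ^ 3 = 1 := by
      calc (p * q) ^ 3 = p * q * p * (q * p * q) := by simp only [pow_succ, pow_zero, one_mul, mul_assoc]
        _ = p * (q * (p * p) * q) * p := by rw [← h']; group
        _ = 1 := by rw [X.sq hp, mul_one, X.sq hq, mul_one, X.sq hp]
    obtain ⟨n, hn⟩ := hQ ⟨p * q, mul_mem mp mq⟩
    have hn' : (p * q) ^ 2 ^ n = 1 := congrArg Subtype.val hn
    have h1 : p * q = 1 := by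
      have := Nat.dvd_gcd (orderOf_dvd_of_pow_eq_one h3) (orderOf_dvd_of_pow_eq_one hn')
      rw [Nat.Coprime.pow_right n (by norm_num : Nat.Coprime 3 2), Nat.dvd_one] at this
      exact orderOf_eq_one_iff.1 this
    have : p = q := by rw [← mul_one p, ← X.sq hq, ← mul_assoc, h1, one_mul]
    rw [this]

theorem nc {d a b c p q : G} (hd : d ∈ X.D) (ha : a ∈ X.D) (hb : b ∈ X.D) (hc : c ∈ X.D) (ad : Commute a d)
    (bd : Commute b d) (cd : Commute c d) (ab : Commute a b) (ac : Commute a c) (bc : Commute b c) (n1 : a ≠ d)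
    (n2 : b ≠ d) (n3 : c ≠ d) (n4 : a ≠ b) (n5 : c ≠ a) (n6 : c ≠ b) (hp : p ∈ X.D) (hq : q ∈ X.D) (pq : Commute p q)
    (e : d * a * b * c = p * q) : False := by
  haveI : Fact (Nat.Prime 2) := ⟨Nat.prime_two⟩
  have g1 : IsPGroup 2 (closure ({d, a, b, c} : Set G)) := KO.pgroup_closure_of_comm (by
    rintro x (rfl | rfl | rfl | rfl) <;> exact X.sq ‹_›) (by
    rintro x (rfl | rfl | rfl | rfl) y (rfl | rfl | rfl | rfl) <;>
      first | rfl | exact Commute.eq ‹_› | exact Commute.eq (Commute.symm ‹_›))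
  have g2 : IsPGroup 2 (closure ({p, q} : Set G)) := KO.pgroup_closure_of_comm (by
    rintro x (rfl | rfl) <;> exact X.sq ‹_›) (by
    rintro x (rfl | rfl) y (rfl | rfl) <;> first | rfl | exact pq.eq | exact pq.symm.eq)
  have l1 : closure ({d, a, b, c} : Set G) ≤ centralizer {p * q} := by
    rw [closure_le, ← e]
    rintro x (rfl | rfl | rfl | rfl) <;> refine mem_centralizer_singleton_iff.2 (Commute.eq ?_)
    · exact (((Commute.refl _).mul_right ad.symm).mul_right bd.symm).mul_right cd.symm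
    · exact ((ad.mul_right (Commute.refl _)).mul_right ab).mul_right ac
    · exact ((bd.mul_right ab.symm).mul_right (Commute.refl _)).mul_right bc
    · exact ((cd.mul_right ac.symm).mul_right bc.symm).mul_right (Commute.refl _)
  have l2 : closure ({p, q} : Set G) ≤ centralizer {p * q} := by
    rw [closure_le]
    rintro x (rfl | rfl) <;> refine mem_centralizer_singleton_iff.2 (Commute.eq ?_)
    · exact (Commute.refl _).mul_right pq
    · exact pq.symm.mul_right (Commute.refl _)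
  obtain ⟨P, hP, le1⟩ := H8.exists_isSylowIn_ge g1 l1
  obtain ⟨P', hP', le2⟩ := H8.exists_isSylowIn_ge g2 l2
  obtain ⟨k, hk, ek⟩ := hP'.exists_cj_eq hP
  have md : d ∈ P := le1 (subset_closure (by simp))
  have mp : k * p * k⁻¹ ∈ P := ek ▸ H8.conj_mem_cj k (le2 (subset_closure (by simp)))
  have mq : k * q * k⁻¹ ∈ P := ek ▸ H8.conj_mem_cj k (le2 (subset_closure (by simp)))
  have e' : d * a * b * c = k * p * k⁻¹ * (k * q * k⁻¹) := by
    rw [conj_mul, mem_centralizer_singleton_iff.1 hk, mul_inv_cancel_right, e]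
  have cp := two X hP.pgroup mp md (X.conj hp k) hd
  have cq := two X hP.pgroup mq md (X.conj hq k) hd
  obtain ⟨r, L⟩ := X.loc d hd
  obtain ⟨χ, m, v, v1⟩ := sg L
  have key : ∀ y, d * a * b * c = d * r y → False := by
    intro y ey
    obtain ⟨i, rfl⟩ := L.ex ha ad n1
    obtain ⟨j, rfl⟩ := L.ex hb bd n2
    obtain ⟨l, rfl⟩ := L.ex hc cd n3
    rw [mul_assoc, mul_assoc, mul_right_inj] at ey
    obtain ⟨x, hx⟩ := t_four i j ((L.cm _ _).1 ab) (fun h => n4 (by rw [h])) l ((L.cm _ _).1 ac) ((L.cm _ _).1 bc)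
      (fun h => n5 (by rw [h])) (fun h => n6 (by rw [h])) y
    have : r i * r j = r y * r l := by
      rw [← ey, mul_assoc, mul_assoc, L.sq, mul_one]
    exact hx (L.inj (by rw [← act2 L, ← act2 L, this]))
  have e0 : χ (d * a * b * c) = -1 := by
    rw [m _ _ (((Commute.refl d).mul_left ad).mul_left bd) cd, m _ _ ((Commute.refl d).mul_left ad) bd,
      m _ _ (Commute.refl d) ad, v1]
    obtain ⟨i, rfl⟩ := L.ex ha ad n1
    obtain ⟨j, rfl⟩ := L.ex hb bd n2
    obtain ⟨l, rfl⟩ := L.ex hc cd n3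
    rw [v, v, v]; decide
  rcases (L.mem _).1 ⟨X.conj hp k, cp⟩ with e1 | ⟨i, e1⟩ <;> rcases (L.mem _).1 ⟨X.conj hq k, cq⟩ with e2 | ⟨j, e2⟩ <;>
    rw [e1, e2] at e'
  · rw [e', m _ _ (Commute.refl d) (Commute.refl d), v1] at e0
    exact absurd e0 (by decide)
  · exact key j e'
  · exact key i (e'.trans (L.rc i).eq)
  · rw [e', m _ _ (L.rc i) (L.rc j), v, v] at e0
    exact absurd e0 (by decide)

theorem dihD {K : Subgroup G} {x e : G} (hx : x ∈ X.D) (he : e ∈ X.D) (mx : x ∈ K) (me : e ∈ K)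
    (n : ∀ k ∈ K, k * x * k⁻¹ ≠ e) :
    ∃ z ∈ K, z ≠ 1 ∧ z * z = 1 ∧ Commute x z ∧ Commute e z ∧ x * z ∈ X.D ∧ e * z ∈ X.D := by
  obtain ⟨z, mz, z1, z2, c1, c2, h⟩ := Al.Sur.dih K (X.sq hx) (X.sq he) mx me n
  refine ⟨z, mz, z1, z2, c1, c2, ?_⟩
  rcases h with ⟨⟨k, -, h1⟩, k', -, h2⟩ | ⟨⟨k, -, h1⟩, k', -, h2⟩
  · exact ⟨h1 ▸ X.conj hx k, h2 ▸ X.conj he k'⟩
  · exact ⟨h1 ▸ X.conj he k, h2 ▸ X.conj hx k'⟩

theorem uu {d a e : G} (hd : d ∈ X.D) (ha : a ∈ X.D) (ad : Commute a d) (n : a ≠ d) (he : e ∈ X.D)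
    (eu : Commute e (d * a)) (heu : e * (d * a) ∈ X.D) : Commute e d := by
  obtain ⟨r, L⟩ := X.loc d hd
  obtain ⟨k, rfl⟩ := L.ex ha ad n
  have key : ∀ l, l ≠ k → cj k l = l → Commute e (r l * d) := by
    intro l hl hc
    have xa : Commute (r k) (r l) := (L.cm k l).2 hc
    have xu : Commute (r l) (d * r k) := (L.rc l).mul_right xa.symm
    obtain ⟨z, mz, z1, z2, c1, c2, h1, h2⟩ := dihD X (K := centralizer {d * r k}) (L.rD l) he
      (mem_centralizer_singleton_iff.2 xu) (mem_centralizer_singleton_iff.2 eu) (fun g hg eg => not3 L hl (by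
        have := X.conj heu g⁻¹
        rw [← eg] at this
        convert this using 1
        calc r l * (d * r k) = r l * (g⁻¹ * (g * (d * r k))) := by group
          _ = _ := by rw [mem_centralizer_singleton_iff.1 hg]; group))
    have zu : Commute z (d * r k) := mem_centralizer_singleton_iff.1 mz
    obtain ⟨s, M⟩ := X.loc _ (L.rD l)
    have x1x : Commute (r l * z) (r l) := (Commute.refl _).mul_left c1.symm
    have x1d : Commute (r l * z) d := c3 M hd ha h1 (L.rc l).symm xa x1x (X.sq hd) (X.sq h1) n.symm (xu.mul_left zu)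
    have x1a : Commute (r l * z) (r k) :=
      c3 M ha hd h1 xa (L.rc l).symm x1x (X.sq ha) (X.sq h1) n (ad.eq ▸ xu.mul_left zu)
    have ez : z = r l * (r l * z) := by rw [← mul_assoc, L.sq, one_mul]
    by_cases e1 : r l * z = d
    · rw [← e1, ← ez]; exact c2
    by_cases e2 : r l * z = r k
    · have : r l * d = z * (d * r k) := by
        rw [ez, e2, ← ad.eq, mul_assoc, ← mul_assoc (r k), L.sq, one_mul]
      rw [this]; exact c2.mul_right eu
    exfalso
    refine nc X (L.rD l) hd ha h1 (L.rc l).symm xa x1x ad.symm x1d.symm x1a.symm (L.ne l).symm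
      (fun h => hl (L.inj h).symm) (fun h => z1 (by simpa using h)) n.symm e1 e2 heu h2
      (((Commute.refl e).mul_right c2).mul_left (eu.symm.mul_right zu.symm)) ?_
    calc r l * d * r k * (r l * z) = (r l * (d * r k) * r l) * z := by group
      _ = (d * r k) * z := by rw [xu.eq, mul_assoc (d * r k), L.sq, mul_one]
      _ = (e * (d * r k) * e) * z := by rw [eu.eq, mul_assoc (d * r k), X.sq he, mul_one]
      _ = _ := by group
  obtain ⟨f1, f2, f3, f4, f5, f6⟩ := t_fr k
  have pc : ∀ l, cj k l = l → cj k (pa l) = pa l := fun l h => (t_pac l k).2 h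
  have h5 := ((((key _ (t_pa k).1 (t_pa k).2.2).mul_right (key _ f2 f1)).mul_right (key _ f3 (pc _ f1))).mul_right
    (key _ f5 f4)).mul_right (key _ f6 (pc _ f4))
  have mv : ∀ l (w : G), d * (r l * w) = r l * (d * w) := fun l w => by rw [← mul_assoc, ← (L.rc l).eq, mul_assoc]
  have dd : ∀ w : G, d * (d * w) = w := fun w => by rw [← mul_assoc, X.sq hd, one_mul]
  have e5 : r (pa k) * d * (r (Ys.f1 k) * d) * (r (pa (Ys.f1 k)) * d) * (r (Ys.f2 k) * d) * (r (pa (Ys.f2 k)) * d) =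
      r k := by
    have := L.prod k
    simp only [mul_assoc, mv, dd] at this ⊢
    calc _ = r k * (r k * (r (pa k) * (r (Ys.f1 k) * (r (pa (Ys.f1 k)) * (r (Ys.f2 k) * r (pa (Ys.f2 k))))))) * d := by
          rw [← mul_assoc (r k), L.sq, one_mul]; simp only [mul_assoc]
      _ = r k := by rw [this, mul_assoc, X.sq hd, mul_one]
  rw [e5] at h5
  have : d = d * r k * r k := by rw [mul_assoc, L.sq, mul_one]
  rw [this]
  exact eu.mul_right h5

/-- the commuting component of `α` -/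
def Del : Set G := {x | Relation.ReflTransGen (fun p q => p ∈ X.D ∧ q ∈ X.D ∧ Commute q p) X.α x}

theorem Del_D {x : G} (h : x ∈ Del X) : x ∈ X.D := by
  induction h with
  | refl => exact aD X
  | tail _ h _ => exact h.2.1

theorem Del_step {x y : G} (h : x ∈ Del X) (hy : y ∈ X.D) (c : Commute y x) : y ∈ Del X :=
  Relation.ReflTransGen.tail h ⟨Del_D X h, hy, c⟩

theorem Del_conj {g x : G} (hg : g * X.α * g⁻¹ ∈ Del X) (h : x ∈ Del X) : g * x * g⁻¹ ∈ Del X := by
  induction h with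
  | refl => exact hg
  | tail _ h ih =>
    refine Del_step X ih (X.conj h.2.1 g) ?_
    change _ * _ = _ * _
    rw [conj_mul, conj_mul, h.2.2.eq]

theorem Del_back {g x : G} (h : x ∈ Del X) : g * x * g⁻¹ ∈ Del X → g * X.α * g⁻¹ ∈ Del X := by
  induction h with
  | refl => exact id
  | tail _ h ih =>
    refine fun h' => ih (Del_step X h' (X.conj h.1 g) ?_)
    change _ * _ = _ * _
    rw [conj_mul, conj_mul, h.2.2.eq]

/-- the stabiliser of the component -/
def H0 : Subgroup G where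
  carrier := {g | g * X.α * g⁻¹ ∈ Del X}
  one_mem' := by
    change 1 * X.α * 1⁻¹ ∈ Del X
    rw [one_mul, inv_one, mul_one]
    exact Relation.ReflTransGen.refl
  mul_mem' := by
    intro a b ha hb
    change a * b * X.α * (a * b)⁻¹ ∈ Del X
    have := Del_conj X ha hb
    convert this using 1
    group
  inv_mem' := by
    intro g hg
    refine Del_back X (g := g⁻¹) hg ?_
    have : g⁻¹ * (g * X.α * g⁻¹) * g⁻¹⁻¹ = X.α := by group
    rw [this]
    exact Relation.ReflTransGen.refl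

theorem one' {K : Subgroup G} {d e : G} (hd : d ∈ Del X) (he : e ∈ X.D) (md : d ∈ K) (me : e ∈ K)
    (n : ∀ k ∈ K, k * d * k⁻¹ ≠ e) : e ∈ Del X := by
  have hd' := Del_D X hd
  obtain ⟨z, -, z1, -, c1, c2, h1, h2⟩ := dihD X hd' he md me n
  have ez : d * (d * z) = z := by rw [← mul_assoc, X.sq hd', one_mul]
  exact Del_step X hd he (uu X hd' h1 ((Commute.refl d).mul_left c1.symm) (fun h => z1 (by simpa using h)) he
    (ez.symm ▸ c2) (ez.symm ▸ h2))

theorem all {e : G} (he : e ∈ X.D) : e ∈ Del X := by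
  obtain ⟨r, L⟩ := X.loc _ (aD X)
  have a0 : X.α ∈ Del X := Relation.ReflTransGen.refl
  have α2 := X.sq (aD X)
  have u2 : X.α * r 0 * (X.α * r 0) = 1 := by
    rw [mul_assoc, ← mul_assoc (r 0), (L.rc 0).eq, mul_assoc, L.sq, mul_one, α2]
  have cu : ∀ g, Commute g (X.α * r 0) → Commute (g * X.α * g⁻¹) X.α := by
    intro g hg
    have e1 : g * (X.α * r 0) * g⁻¹ = X.α * r 0 := by rw [hg.eq, mul_inv_cancel_right]
    refine uu X (aD X) (L.rD 0) (L.rc 0) (L.ne 0) (X.conj (aD X) g) ?_ ?_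
    · rw [← e1]
      change _ * _ = _ * _
      rw [conj_mul, conj_mul, ((Commute.refl X.α).mul_right (L.rc 0).symm).eq]
    · rw [← e1, conj_mul, ← mul_assoc X.α, α2, one_mul]
      exact X.conj (L.rD 0) g
  obtain ⟨z, -, z1, z2, c1, c2, h⟩ := Al.Sur.dih ⊤ (X.sq he) u2 (mem_top _) (mem_top _)
    (fun k _ h => not2 L 0 (h ▸ X.conj he k))
  have c1' : Commute e z := c1
  have c2' : Commute (X.α * r 0) z := c2
  rcases h with ⟨⟨k, -, h1⟩, -⟩ | ⟨⟨k, -, h1⟩, k', -, h2⟩
  · have mz : z ∈ H0 X := Del_step X a0 (X.conj (aD X) z) (cu z c2'.symm)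
    obtain ⟨g, hg, cg⟩ := into X (K := H0 X) (Q := closure {z}) (fun g c => by
      change g * X.α * g⁻¹ ∈ Del X
      rw [c.eq, mul_inv_cancel_right]; exact a0)
      (KO.pgroup_closure_of_comm (by rintro x rfl; exact z2) (by rintro x rfl y rfl; rfl))
      ((closure_le _).2 (by rintro x rfl; exact mz))
    have cz := cg z (subset_closure rfl)
    have he' := X.conj he g
    have hez : g * e * g⁻¹ * (g * z * g⁻¹) ∈ X.D := by rw [conj_mul, ← h1]; exact X.conj (X.conj he k) g
    have cez : Commute (g * e * g⁻¹) (g * z * g⁻¹) := by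
      change _ * _ = _ * _
      rw [conj_mul, conj_mul, c1]
    have goal : g * e * g⁻¹ ∈ Del X := by
      by_cases hc : ∀ t ∈ centralizer {g * z * g⁻¹}, t * X.α * t⁻¹ ≠ g * e * g⁻¹
      · exact one' X a0 he' (mem_centralizer_singleton_iff.2 cz.symm) (mem_centralizer_singleton_iff.2 cez) hc
      · push Not at hc
        obtain ⟨t, ht, et⟩ := hc
        have ez : g * e * g⁻¹ * (g * e * g⁻¹ * (g * z * g⁻¹)) = g * z * g⁻¹ := by rw [← mul_assoc, X.sq he', one_mul]
        refine Del_step X a0 he' (uu X he' hez ((Commute.refl _).mul_left cez.symm) (fun h => z1 ?_) (aD X)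
          (ez.symm ▸ cz.symm) ?_).symm
        · simpa using h
        · rw [ez]
          have := X.conj hez t⁻¹
          rw [← et] at this
          convert this using 1
          calc X.α * (g * z * g⁻¹) = X.α * (t⁻¹ * (t * (g * z * g⁻¹))) := by group
            _ = _ := by rw [mem_centralizer_singleton_iff.1 ht]; group
    have := Del_conj X (inv_mem hg : g⁻¹ ∈ H0 X) goal
    convert this using 1
    group
  · have hx : X.α * r 0 * z ∈ X.D := h2 ▸ X.conj he k'
    obtain ⟨x, ex⟩ : ∃ x, X.α * r 0 * z = x := ⟨_, rfl⟩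
    have xu : Commute x (X.α * r 0) := ex ▸ (Commute.refl _).mul_left c2'.symm
    have ez : z = X.α * r 0 * x := by rw [← ex, ← mul_assoc, u2, one_mul]
    rw [ex] at hx
    have xα : Commute x X.α := by
      have h4 := cu x xu
      rw [X.inv hx] at h4
      refine two X (H4.isPGroup_two_closure_involutions (X.sq hx) α2 ⟨2, ?_⟩) (subset_closure (by simp))
        (subset_closure (by simp)) hx (aD X)
      calc (x * X.α) ^ 2 ^ 2 = (x * X.α * x) * (X.α * (x * X.α * x)) * X.α := by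
            simp only [pow_succ, pow_zero, one_mul, mul_assoc, Nat.reduceMul]
        _ = x * (X.α * (x * x) * X.α) * x * (X.α * X.α) := by rw [← h4.eq]; group
        _ = 1 := by simp only [X.sq hx, mul_one, α2]
    have xa : Commute x (r 0) := by
      have : r 0 = X.α * (X.α * r 0) := by rw [← mul_assoc, α2, one_mul]
      rw [this]; exact xα.mul_right xu
    rcases (L.mem x).1 ⟨hx, xα⟩ with e1 | ⟨b, rfl⟩
    · have : z = r 0 := by rw [ez, e1, mul_assoc, (L.rc 0).eq, ← mul_assoc, α2, one_mul]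
      exact Del_step X (Del_step X a0 (L.rD 0) (L.rc 0)) he (this ▸ c1')
    by_cases hb : b = 0
    · have : z = X.α := by rw [ez, hb, mul_assoc, L.sq, mul_one]
      exact Del_step X a0 he (this ▸ c1')
    obtain ⟨c, k1, k2, k3, k4⟩ := t_third 0 b ((L.cm _ _).1 xa.symm)
    have ca : Commute (r 0) (r c) := (L.cm _ _).2 k1
    have cb : Commute (r b) (r c) := (L.cm _ _).2 k2
    have cz : Commute (r c) z := ez ▸ ((L.rc c).mul_right ca.symm).mul_right cb.symm
    refine one' X (K := centralizer {z}) (Del_step X a0 (L.rD c) (L.rc c)) he (mem_centralizer_singleton_iff.2 cz)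
      (mem_centralizer_singleton_iff.2 c1) fun t ht et => ?_
    refine nc X (aD X) (L.rD 0) (L.rD b) (L.rD c) (L.rc 0) (L.rc b) (L.rc c) xa.symm ca cb (L.ne 0) (L.ne b) (L.ne c)
      (fun h => hb (L.inj h).symm) (fun h => k3 (L.inj h)) (fun h => k4 (L.inj h)) (X.conj (aD X) (t⁻¹ * k))
      (X.conj (L.rD 0) (t⁻¹ * k)) ?_ ?_
    · change _ * _ = _ * _
      rw [conj_mul, conj_mul, (L.rc 0).eq]
    · rw [conj_mul, ← ez, ← cz.eq]
      calc r c * z = t⁻¹ * (t * r c * t⁻¹ * (t * z)) := by group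
        _ = t⁻¹ * (k * (X.α * r 0) * k⁻¹) * t := by rw [et, mem_centralizer_singleton_iff.1 ht, h1]; group
        _ = _ := by group

end Con

theorem Ctx.conn (X : Ctx G) [Finite G] (T : Set G) (h0 : X.α ∈ T)
    (hcl : ∀ x ∈ T, ∀ y ∈ X.D, x ∈ X.D → y * x = x * y → y ∈ T) : X.D ⊆ T := by
  intro e he
  have h := Con.all X he
  clear he
  induction h with
  | refl => exact h0
  | tail _ h ih => exact hcl _ ih _ h.2.1 h.1 h.2.2

end Cfsg.Agent.WA.Ys
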