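import Cfsg.Prelude.Def_Classical

/-! S3298: a group generated by a system of "transvections" of `F₂⁶` is `Sp₆(2)`. -/

set_option autoImplicit false

namespace Cfsg.Agent.WA.YaSp

open Subgroup Matrix Sum

abbrev Ix : Type := Fin 3 ⊕ Fin 3
abbrev V : Type := Ix → ZMod 2
abbrev Sp : Type := Matrix.symplecticGroup (Fin 3) (ZMod 2)

/-- the alternating form -/
def B (u v : V) : ZMod 2 :=
  u (inl 0) * v (inr 0) + u (inl 1) * v (inr 1) + u (inl 2) * v (inr 2) +
    u (inr 0) * v (inl 0) + u (inr 1) * v (inl 1) + u (inr 2) * v (inl 2)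

theorem B_eq (u v : V) : u ⬝ᵥ (Matrix.J (Fin 3) (ZMod 2) *ᵥ v) = B u v := by
  simp [dotProduct, mulVec, Fintype.sum_sum_type, Fin.sum_univ_three, Matrix.J, B, Matrix.one_apply,
    ZMod.neg_eq_self_mod_two]
  ring

theorem two (x : ZMod 2) : x + x = 0 := by revert x; decide
theorem two' (x : V) : x + x = 0 := funext fun i => two (x i)
theorem zo (x : ZMod 2) : x = 0 ∨ x = 1 := by revert x; decide

theorem B_comm (u v : V) : B u v = B v u := by unfold B; ring
theorem B_self (u : V) : B u u = 0 := by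
  have := two (u (inl 0) * u (inr 0) + u (inl 1) * u (inr 1) + u (inl 2) * u (inr 2))
  rw [← this]; unfold B; ring
theorem B_add (u v w : V) : B u (v + w) = B u v + B u w := by simp only [B, Pi.add_apply]; ring
theorem add_B (u v w : V) : B (u + v) w = B u w + B v w := by simp only [B, Pi.add_apply]; ring
theorem B_smul (c : ZMod 2) (u v : V) : B u (c • v) = c * B u v := by simp only [B, Pi.smul_apply, smul_eq_mul]; ring
theorem smul_B (c : ZMod 2) (u v : V) : B (c • u) v = c * B u v := by simp only [B, Pi.smul_apply, smul_eq_mul]; ring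

/-- the basis -/
def e (i : Ix) : V := Pi.single i 1

theorem e_ne (i : Ix) : e i ≠ 0 := fun h => by simpa [e] using congrFun h i

theorem nondeg {u : V} (h : u ≠ 0) : ∃ v, B u v = 1 := by
  by_contra hn
  have h0 : ∀ v, B u v = 0 := fun v => (zo _).resolve_right fun e => hn ⟨v, e⟩
  refine h (funext ?_)
  rintro (i | i)
  · have := h0 (e (inr i))
    fin_cases i <;> simpa [B, e] using this
  · have := h0 (e (inl i))
    fin_cases i <;> simpa [B, e] using this

theorem mem_of {A : Matrix Ix Ix (ZMod 2)} (h : ∀ u v, B (A *ᵥ u) (A *ᵥ v) = B u v) :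
    A ∈ Matrix.symplecticGroup (Fin 3) (ZMod 2) := by
  rw [SymplecticGroup.mem_iff']
  ext i j
  have := h (Pi.single i 1) (Pi.single j 1)
  rw [← B_eq, ← B_eq, mulVec_mulVec, ← vecMul_transpose, ← dotProduct_mulVec, mulVec_mulVec, ← Matrix.mul_assoc] at this
  simpa [single_dotProduct] using this

theorem pres (A : Sp) (u v : V) : B (A.1 *ᵥ u) (A.1 *ᵥ v) = B u v := by
  have h := SymplecticGroup.mem_iff'.1 A.2
  rw [← B_eq, ← B_eq, mulVec_mulVec, ← vecMul_transpose, ← dotProduct_mulVec, mulVec_mulVec, ← Matrix.mul_assoc, h]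

theorem ap_ne (A : Sp) {u : V} (h : u ≠ 0) : A.1 *ᵥ u ≠ 0 := by
  obtain ⟨v, hv⟩ := nondeg h
  intro e
  rw [← pres A, e] at hv
  simp [B] at hv

theorem ap_mul (A C : Sp) (u : V) : (A * C).1 *ᵥ u = A.1 *ᵥ (C.1 *ᵥ u) := (mulVec_mulVec _ _ _).symm

theorem ext_e {A C : Sp} (h : ∀ i, A.1 *ᵥ e i = C.1 *ᵥ e i) : A = C := by
  refine Subtype.ext (Matrix.ext fun i j => ?_)
  simpa [e] using congrFun (h j) i

def Tm (u : V) : Matrix Ix Ix (ZMod 2) := 1 + vecMulVec u (u ᵥ* Matrix.J (Fin 3) (ZMod 2))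

theorem Tm_ap (u v : V) : Tm u *ᵥ v = v + B u v • u := by
  rw [Tm, add_mulVec, one_mulVec, vecMulVec_mulVec, ← dotProduct_mulVec, B_eq]
  funext i
  simp [mul_comm]

/-- the transvection -/
def T (u : V) : Sp := ⟨Tm u, mem_of fun v w => by
  rw [Tm_ap, Tm_ap, B_add, add_B, add_B, B_smul, B_smul, smul_B, smul_B, B_self, B_comm v u]
  linear_combination two (B u v * B u w)⟩

theorem T_ap (u v : V) : (T u).1 *ᵥ v = v + B u v • u := Tm_ap u v

theorem T_mv {x y : V} (h : B x y = 1) : (T (x + y)).1 *ᵥ x = y := by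
  rw [T_ap, add_B, B_self, B_comm y, h, zero_add, one_smul, ← add_assoc, two', zero_add]

theorem T_fix {x y s : V} (h : B x s = B y s) : (T (x + y)).1 *ᵥ s = s := by
  rw [T_ap, add_B, h, two, zero_smul, add_zero]

def H : Subgroup Sp := closure (Set.range T)

theorem T_mem (u : V) : T u ∈ H := subset_closure ⟨u, rfl⟩

def vec (a b c d f g : ZMod 2) : V := Sum.elim ![a, b, c] ![d, f, g]

theorem eq_vec (y : V) : y = vec (y (inl 0)) (y (inl 1)) (y (inl 2)) (y (inr 0)) (y (inr 1)) (y (inr 2)) := by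
  funext i
  rcases i with i | i <;> fin_cases i <;> rfl

theorem step (S : List Ix) (k : Ix)
    (hz : ∀ a b c d f g : ZMod 2, (∀ i ∈ S, B (vec a b c d f g) (e i) = B (e k) (e i)) →
      (a = 1 ∨ b = 1 ∨ c = 1 ∨ d = 1 ∨ f = 1 ∨ g = 1) → B (vec a b c d f g) (e k) = 1 ∨ ∃ a' b' c' d' f' g' : ZMod 2,
        B (e k) (vec a' b' c' d' f' g') = 1 ∧ B (vec a b c d f g) (vec a' b' c' d' f' g') = 1 ∧
          ∀ i ∈ S, B (vec a' b' c' d' f' g') (e i) = B (e k) (e i))
    (ih : ∀ M : Sp, (∀ i ∈ k :: S, M.1 *ᵥ e i = e i) → M ∈ H) (M : Sp) (hM : ∀ i ∈ S, M.1 *ᵥ e i = e i) : M ∈ H := by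
  have h1 : ∀ i ∈ S, B (M.1 *ᵥ e k) (e i) = B (e k) (e i) := fun i hi => by
    conv_lhs => rw [← hM i hi]
    exact pres M _ _
  have h0 := ap_ne M (e_ne k)
  obtain ⟨y, hy⟩ : ∃ y, M.1 *ᵥ e k = y := ⟨_, rfl⟩
  rw [hy] at h0 h1
  obtain z0 | ⟨a', b', c', d', f', g', z1, z2, z3⟩ := hz _ _ _ _ _ _ (by rw [← eq_vec y]; exact h1) (by
    by_contra hn
    simp only [not_or] at hn
    obtain ⟨n1, n2, n3, n4, n5, n6⟩ := hn
    refine h0 ?_
    rw [eq_vec y, (zo _).resolve_right n1, (zo _).resolve_right n2, (zo _).resolve_right n3, (zo _).resolve_right n4,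
      (zo _).resolve_right n5, (zo _).resolve_right n6]
    funext i
    rcases i with i | i <;> fin_cases i <;> rfl)
  · rw [← eq_vec y] at z0
    have := ih (T (y + e k) * M) (by
      intro i hi
      rcases List.mem_cons.1 hi with rfl | hi
      · rw [ap_mul, hy, T_mv z0]
      · rw [ap_mul, hM i hi, T_fix (h1 i hi)])
    exact (mul_mem_cancel_left (T_mem _)).1 this
  rw [← eq_vec y] at z2
  obtain ⟨z, hz'⟩ : ∃ z, vec a' b' c' d' f' g' = z := ⟨_, rfl⟩
  rw [hz'] at z1 z2 z3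
  have := ih (T (z + e k) * T (y + z) * M) (by
    intro i hi
    rcases List.mem_cons.1 hi with rfl | hi
    · rw [ap_mul, ap_mul, hy, T_mv z2, T_mv (by rw [B_comm, z1])]
    · rw [ap_mul, ap_mul, hM i hi, T_fix ((h1 i hi).trans (z3 i hi).symm), T_fix (z3 i hi)])
  exact (mul_mem_cancel_left (mul_mem (T_mem _) (T_mem _))).1 this

set_option synthInstance.maxSize 1000 in
theorem gen (M : Sp) : M ∈ H := by
  refine step [] (inl 0) (by decide +kernel) ?_ M (by simp)
  refine step _ (inr 0) (by decide +kernel) ?_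
  refine step _ (inl 1) (by decide +kernel) ?_
  refine step _ (inr 1) (by decide +kernel) ?_
  refine step _ (inl 2) (by decide +kernel) ?_
  refine step _ (inr 2) (by decide +kernel) ?_
  intro M hM
  have : M = 1 := ext_e fun i => by
    rw [hM i (by rcases i with i | i <;> fin_cases i <;> simp)]
    exact (one_mulVec _).symm
  rw [this]; exact one_mem _

theorem center_eq : center Sp = ⊥ := by
  rw [eq_bot_iff]
  intro M hM
  rw [mem_bot]
  refine ext_e fun i => ?_
  obtain ⟨v, hv⟩ := nondeg (e_ne i)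
  have h := congrArg (fun A : Sp => A.1 *ᵥ v) (mem_center_iff.1 hM (T (e i)))
  simp only [ap_mul, T_ap, mulVec_add, mulVec_smul, hv, one_smul, add_right_inj] at h
  rcases zo (B (e i) (M.1 *ᵥ v)) with h0 | h0
  · rw [h0, zero_smul] at h
    exact absurd h.symm (ap_ne M (e_ne i))
  · rw [h0, one_smul] at h
    rw [← h]; exact (one_mulVec _).symm

theorem B_mulVec (c : Ix → V) (v w : V) : B (Matrix.of (fun i j => c j i) *ᵥ v) w = ∑ j, v j * B (c j) w := by
  simp only [B, mulVec, dotProduct, Matrix.of_apply, Fintype.sum_sum_type, Fin.sum_univ_three]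
  ring

theorem B_sum (v w : V) : ∑ j, v j * B (e j) w = B v w := by
  simp [B, e, Fintype.sum_sum_type, Fin.sum_univ_three]
  ring

theorem lin (π : V → V) (h0 : ∀ v, v ≠ 0 → π v ≠ 0) (hB : ∀ u v, u ≠ 0 → v ≠ 0 → B (π u) (π v) = B u v) :
    ∃ M : Sp, ∀ v, v ≠ 0 → M.1 *ᵥ v = π v := by
  let π' : {v : V // v ≠ 0} → {v : V // v ≠ 0} := fun v => ⟨π v.1, h0 v.1 v.2⟩
  have eqB : ∀ {x y : V}, (∀ w, w ≠ 0 → B x w = B y w) → x = y := by
    intro x y h
    by_contra hne
    have : x + y ≠ 0 := fun e => hne (by rw [← add_zero x, ← two' y, ← add_assoc, e, zero_add])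
    obtain ⟨w, hw⟩ := nondeg this
    have w0 : w ≠ 0 := by rintro rfl; simp [B] at hw
    rw [add_B, h w w0, two] at hw
    exact zero_ne_one hw
  have pi : Function.Injective π' := fun u v e => Subtype.ext (eqB fun w hw => by
    have e' : π u.1 = π v.1 := congrArg Subtype.val e
    rw [← hB _ _ u.2 hw, ← hB _ _ v.2 hw, e'])
  have ps := Finite.surjective_of_injective pi
  have key : ∀ v, v ≠ 0 → Matrix.of (fun i j => π (e j) i) *ᵥ v = π v := fun v hv => eqB fun w hw => by
    obtain ⟨⟨w', hw'⟩, e'⟩ := ps ⟨w, hw⟩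
    have e'' : π w' = w := congrArg Subtype.val e'
    rw [← e'', B_mulVec, hB _ _ hv hw', ← B_sum]
    exact Finset.sum_congr rfl fun j _ => by rw [hB _ _ (e_ne j) hw']
  refine ⟨⟨_, mem_of fun u v => ?_⟩, key⟩
  by_cases hu : u = 0
  · simp [hu, B]
  by_cases hv : v = 0
  · simp [hv, B]
  rw [key u hu, key v hv, hB u v hu hv]

theorem ident {G : Type*} [Group G] (t : V → G)
    (rel : ∀ u v, u ≠ 0 → v ≠ 0 → t u * t v * (t u)⁻¹ = t (v + B u v • u))
    (inj : ∀ u v, u ≠ 0 → v ≠ 0 → t u = t v → u = v)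
    (nrm : ∀ (g : G) v, v ≠ 0 → ∃ w, w ≠ 0 ∧ g * t v * g⁻¹ = t w)
    (cen : ∀ g, (∀ v, v ≠ 0 → g * t v = t v * g) → g = 1) : Nonempty (G ≃* Cfsg.PSp 3 (ZMod 2)) := by
  have cm : ∀ u v, u ≠ 0 → v ≠ 0 → (t u * t v * (t u)⁻¹ = t v ↔ B u v = 0) := by
    intro u v hu hv
    rw [rel u v hu hv]
    refine ⟨fun h => (zo _).resolve_right fun e => ?_, fun h => by rw [h, zero_smul, add_zero]⟩
    rw [e, one_smul] at h
    have n : v + u ≠ 0 := fun e' => by
      have : u = v := by rw [← add_zero u, ← e', add_comm v, ← add_assoc, two', zero_add]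
      rw [this, B_self] at e
      exact zero_ne_one e
    exact hu (by simpa using inj _ _ n hv h)
  have ex : ∀ g : G, ∃ M : Sp, ∀ v, v ≠ 0 → g * t v * g⁻¹ = t (M.1 *ᵥ v) := by
    intro g
    choose! π h0 hπ using nrm g
    obtain ⟨M, hM⟩ := lin π h0 fun u v hu hv => by
      have : B (π u) (π v) = 0 ↔ B u v = 0 := by
        rw [← cm _ _ (h0 u hu) (h0 v hv), ← cm _ _ hu hv, ← hπ u hu, ← hπ v hv]
        constructor
        · intro h
          calc _ = g⁻¹ * (g * t u * g⁻¹ * (g * t v * g⁻¹) * (g * t u * g⁻¹)⁻¹) * g := by group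
            _ = _ := by rw [h]; group
        · intro h
          calc _ = g * (t u * t v * (t u)⁻¹) * g⁻¹ := by group
            _ = _ := by rw [h]
      rcases zo (B u v) with e | e
      · rw [e, this.2 e]
      · rw [e]
        exact (zo _).resolve_left fun e' => zero_ne_one ((this.1 e').symm.trans e)
    exact ⟨M, fun v hv => by rw [hM v hv, hπ v hv]⟩
  choose φ hφ using ex
  have uq : ∀ (g : G) (M : Sp), (∀ v, v ≠ 0 → g * t v * g⁻¹ = t (M.1 *ᵥ v)) → φ g = M := fun g M h =>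
    ext_e fun i => inj _ _ (ap_ne _ (e_ne i)) (ap_ne _ (e_ne i)) (by rw [← hφ g _ (e_ne i), h _ (e_ne i)])
  let Φ : G →* Sp := MonoidHom.mk' φ fun x y => uq _ _ fun v hv => by
    rw [ap_mul, ← hφ x _ (ap_ne _ hv), ← hφ y v hv]; group
  have hi : Function.Injective Φ := by
    rw [injective_iff_map_eq_one]
    intro g hg
    refine cen g fun v hv => ?_
    have := hφ g v hv
    rw [show φ g = 1 from hg] at this
    change _ = t ((1 : Matrix Ix Ix (ZMod 2)) *ᵥ v) at this
    rw [one_mulVec] at this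
    exact mul_inv_eq_iff_eq_mul.1 this
  have hs : Function.Surjective Φ := by
    rw [← MonoidHom.range_eq_top, eq_top_iff]
    intro M _
    refine (closure_le _).2 ?_ (gen M)
    rintro _ ⟨u, rfl⟩
    by_cases hu : u = 0
    · have : T u = 1 := ext_e fun i => by
        rw [T_ap, hu, smul_zero, add_zero]; exact (one_mulVec _).symm
      rw [this]; exact one_mem _
    · exact ⟨t u, uq _ _ fun v hv => by rw [T_ap]; exact rel u v hu hv⟩
  exact ⟨(MulEquiv.ofBijective Φ ⟨hi, hs⟩).trans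
    ((QuotientGroup.quotientMulEquivOfEq center_eq).trans QuotientGroup.quotientBot).symm⟩

end Cfsg.Agent.WA.YaSp
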