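import Cfsg.Agent.WA.YsA
import Cfsg.Agent.WA.YaSpG

/-! S3298, the `Sp₆(2)` branch: the class `D` is the set of nonzero vectors of a symplectic space. -/

set_option autoImplicit false

namespace Cfsg.Agent.WA.Ys

open YaSp Sum

variable {G : Type*} [Group G]

open Classical in
/-- the form -/
noncomputable def ph (x y : G) : ZMod 2 := if Commute x y then 0 else 1

theorem ph0 {x y : G} (h : Commute x y) : ph x y = 0 := if_pos h
theorem ph1 {x y : G} (h : ¬ Commute x y) : ph x y = 1 := if_neg h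
theorem ph_comm (x y : G) : ph x y = ph y x := by
  by_cases h : Commute x y
  · rw [ph0 h, ph0 h.symm]
  · rw [ph1 h, ph1 fun h' => h h'.symm]
theorem cm_of {x y : G} (h : ph x y = 0) : Commute x y := by
  by_contra h'
  rw [ph1 h'] at h
  exact one_ne_zero h

theorem t_nc : ∀ k : Fin 30, ∃ m, cj m k ≠ k := by decide +kernel
theorem t_01 : ∀ k l : Fin 30, (k = 0 ∨ k = 1) → (l = 2 ∨ l = 3) → cj k l ≠ l := by decide +kernel
theorem t_no : ∀ k1 : Fin 30, (k1 = 0 ∨ k1 = 1) → ∀ k2 : Fin 30, (k2 = 10 ∨ k2 = 11) → ∀ k4 : Fin 30,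
    (k4 = 24 ∨ k4 = 25) → ∀ k5 : Fin 30, (k5 = 28 ∨ k5 = 29) →
    (cj k1 k2 ≠ k2 ∧ cj k1 k4 = k4 ∧ cj k1 k5 = k5 ∧ cj k2 k4 = k4 ∧ cj k2 k5 = k5 ∧ cj k4 k5 ≠ k5) ∧
    ∀ m, cj m k1 = k1 → cj m k2 = k2 → cj m k4 = k4 → cj m k5 ≠ k5 := by
  rintro k1 (rfl | rfl) k2 (rfl | rfl) k4 (rfl | rfl) k5 (rfl | rfl) <;> decide +kernel

namespace Ctx

variable (X : Ctx G)

/-- the commuting graph on `D` is connected -/
def Conn : Prop := ∀ T : Set G, X.α ∈ T → (∀ x ∈ T, ∀ y ∈ X.D, x ∈ X.D → y * x = x * y → y ∈ T) → X.D ⊆ T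

theorem αD : X.α ∈ X.D := (X.hD _).2 (IsConj.refl _)

theorem pick {d e : G} {r : Fin 30 → G} (hd : d ∈ X.D) (L : Loc X.D d r) (he : e ∈ X.D) (hn : ¬ Commute e d)
    {x : Fin 30} (hx : Commute e (r x)) (a b : Fin 30) (h : pa a = b) : ∃ k, (k = a ∨ k = b) ∧ Commute e (r k) := by
  rcases X.k1 hd L he hn hx a with h' | h'
  · exact ⟨a, Or.inl rfl, h'⟩
  · exact ⟨pa a, Or.inr h, h'⟩

theorem near0 (hc : X.Conn) {e : G} (he : e ∈ X.D) : Commute e X.α ∨ ∃ x ∈ X.D, Commute x X.α ∧ Commute e x := by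
  obtain ⟨r, L⟩ := X.loc _ X.αD
  refine hc {e | Commute e X.α ∨ ∃ x ∈ X.D, Commute x X.α ∧ Commute e x} (Or.inl (Commute.refl _)) ?_ he
  intro x hx y hy hxD hyx
  by_cases h : Commute x X.α
  · exact Or.inr ⟨x, hxD, h, hyx⟩
  obtain ⟨w, hw, h1, h2⟩ := hx.resolve_left h
  obtain ⟨j, rfl⟩ := L.ex hw h1 (fun e => h (e ▸ h2))
  obtain ⟨k, hk, ck⟩ := X.pick X.αD L hxD h h2 0 1 (by decide +kernel)
  obtain ⟨l, hl, cl⟩ := X.pick X.αD L hxD h h2 2 3 (by decide +kernel)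
  have := (X.m4 hxD (L.rD k) (L.rD l) hy ck.symm cl.symm hyx (fun h => t_01 k l hk hl ((L.cm _ _).1 h))).2
  rw [L.cj] at this
  rcases this with h | h | h
  · exact Or.inr ⟨_, L.rD _, L.rc _, h⟩
  · exact Or.inr ⟨_, L.rD _, L.rc _, h⟩
  · exact Or.inr ⟨_, L.rD _, L.rc _, h⟩

theorem near (hc : X.Conn) {d e : G} {r : Fin 30 → G} (hd : d ∈ X.D) (L : Loc X.D d r) (he : e ∈ X.D)
    (hn : ¬ Commute e d) : ∃ k, Commute e (r k) := by
  obtain ⟨g, rfl⟩ := isConj_iff.1 ((X.hD d).1 hd)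
  have h := X.conj he g⁻¹
  have key : ∀ x y : G, Commute (g⁻¹ * x * g⁻¹⁻¹) y → Commute x (g * y * g⁻¹) := fun x y h => by
    show x * (g * y * g⁻¹) = g * y * g⁻¹ * x
    calc x * (g * y * g⁻¹) = g * (g⁻¹ * x * g⁻¹⁻¹ * y) * g⁻¹ := by group
      _ = g * (y * (g⁻¹ * x * g⁻¹⁻¹)) * g⁻¹ := by rw [h.eq]
      _ = _ := by group
  rcases X.near0 hc h with h1 | ⟨x, hx, h1, h2⟩
  · exact absurd (key _ _ h1) hn
  · have h3 : Commute (g * x * g⁻¹) (g * X.α * g⁻¹) := key _ _ (by simpa [mul_assoc] using h1)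
    obtain ⟨k, hk⟩ := L.ex (X.conj hx g) h3 (fun e => hn (e ▸ key _ _ h2))
    exact ⟨k, hk ▸ key _ _ h2⟩

theorem add (hc : X.Conn) {d e : G} (hd : d ∈ X.D) (he : e ∈ X.D) (hne : d ≠ e) :
    ∃ s ∈ X.D, (¬ Commute d e → s = d * e * d) ∧ ∀ x ∈ X.D, ph s x = ph d x + ph e x := by
  obtain ⟨r, L⟩ := X.loc d hd
  by_cases h : Commute d e
  · obtain ⟨k, rfl⟩ := L.ex he h.symm hne.symm
    refine ⟨r (pa k), L.rD _, fun h' => absurd h h', fun x hx => ?_⟩
    by_cases h1 : Commute x d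
    · have := (L.par k).2.2.2.2.2.2.2 x hx h1
      rw [ph0 h1.symm, zero_add]
      by_cases h2 : Commute x (r k)
      · rw [ph0 h2.symm, ph0 (this.1 h2).symm]
      · rw [ph1 fun h => h2 h.symm, ph1 fun h => h2 (this.2 h.symm)]
    · obtain ⟨j, hj⟩ := X.near hc hd L hx h1
      have := X.k1' hd L hx h1 hj k
      rw [ph1 (x := d) fun h => h1 h.symm]
      by_cases h2 : Commute x (r k)
      · rw [ph0 h2.symm, ph1 fun h => this.1 h.symm h2, add_zero]
      · rw [ph1 (x := r k) fun h => h2 h.symm, ph0 (this.2 h2).symm]; decide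
  · have h' : ¬ Commute e d := fun h' => h h'.symm
    obtain ⟨j, hj⟩ := X.near hc hd L he h'
    have br := (X.m4 (L.rD j) hd he hd (L.rc j).symm hj (L.rc j).symm h).1
    have d2 := X.sq hd
    have e2 := X.sq he
    refine ⟨d * e * d, X.cj3 hd he, fun _ => rfl, fun x hx => ?_⟩
    by_cases h1 : Commute x d
    · rw [ph0 h1.symm, zero_add]
      by_cases h2 : Commute x e
      · rw [ph0 h2.symm, ph0 ((h1.mul_right h2).mul_right h1).symm]
      · rw [ph1 (x := e) fun h => h2 h.symm, ph1 fun h3 => h2 ?_]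
        have : e = d * (d * e * d) * d := by
          calc e = (d * d) * e * (d * d) := by rw [d2, one_mul, mul_one]
            _ = _ := by group
        rw [this]; exact (h1.mul_right h3.symm).mul_right h1
    · rw [ph1 (x := d) fun h => h1 h.symm]
      by_cases h2 : Commute x e
      · rw [ph0 h2.symm, add_zero, ph1 fun h3 => h1 ?_]
        have : d = e * (d * e * d) * e := by
          rw [br]
          calc d = (e * e) * d * (e * e) := by rw [e2, one_mul, mul_one]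
            _ = _ := by group
        rw [this]; exact (h2.mul_right h3.symm).mul_right h2
      · rw [ph1 (x := e) fun h => h2 h.symm]
        have : ∃ k, Commute x (r k) ∧ Commute e (r k) := by
          obtain ⟨i, hi⟩ := X.near hc hd L hx h1
          obtain ⟨k, hk, ck⟩ := X.pick hd L he h' hj 0 1 (by decide +kernel)
          obtain ⟨l, hl, cl⟩ := X.pick hd L he h' hj 2 3 (by decide +kernel)
          rcases X.k1 hd L hx h1 hi k with h3 | h3
          · exact ⟨k, h3, ck⟩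
          rcases X.k1 hd L hx h1 hi l with h4 | h4
          · exact ⟨l, h4, cl⟩
          refine ⟨cj k l, ?_, ?_⟩
          · rw [← t_pp.2 k l hk hl, ← L.cj]; exact (h3.mul_right h4).mul_right h3
          · rw [← L.cj]; exact (ck.mul_right cl).mul_right ck
        obtain ⟨k, k1, k2⟩ := this
        rcases (X.m4 (L.rD k) hd he hx (L.rc k).symm k2 k1 h).2 with h3 | h3 | h3
        · exact absurd h3 h1
        · exact absurd h3 h2
        · rw [ph0 h3.symm]; decide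

theorem basis (hc : X.Conn) : ∃ b : Ix → G, (∀ i, b i ∈ X.D) ∧ (∀ i j, ph (b i) (b j.swap) = e i j) ∧
    (∀ x ∈ X.D, ¬ ∀ i, Commute x (b i)) ∧ ∀ g, (∀ x ∈ X.D, Commute g x) → g = 1 := by
  obtain ⟨r, L⟩ := X.loc _ X.αD
  obtain ⟨s, M⟩ := X.loc _ (L.rD 0)
  obtain ⟨k, hk⟩ := M.ex X.αD (L.rc 0).symm (L.ne 0).symm
  obtain ⟨m, hm⟩ := t_nc k
  have hn : ¬ Commute (s m) X.α := fun h => hm ((M.cm _ _).1 (hk ▸ h))
  clear hk
  have he := M.rD m
  have h0 := M.rc m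
  obtain ⟨k1, a1, c1⟩ := X.pick X.αD L he hn h0 0 1 (by decide +kernel)
  obtain ⟨k2, a2, c2⟩ := X.pick X.αD L he hn h0 10 11 (by decide +kernel)
  obtain ⟨k4, a4, c4⟩ := X.pick X.αD L he hn h0 24 25 (by decide +kernel)
  obtain ⟨k5, a5, c5⟩ := X.pick X.αD L he hn h0 28 29 (by decide +kernel)
  obtain ⟨⟨n12, c14, c15, c24, c25, n45⟩, no⟩ := t_no k1 a1 k2 a2 k4 a4 k5 a5
  have p12 : ph (r k1) (r k2) = 1 := ph1 fun h => n12 ((L.cm _ _).1 h)
  have p45 : ph (r k4) (r k5) = 1 := ph1 fun h => n45 ((L.cm _ _).1 h)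
  have p14 := ph0 ((L.cm _ _).2 c14)
  have p15 := ph0 ((L.cm _ _).2 c15)
  have p24 := ph0 ((L.cm _ _).2 c24)
  have p25 := ph0 ((L.cm _ _).2 c25)
  have pa : ∀ k, ph (r k) X.α = 0 := fun k => ph0 (L.rc k)
  have pa' : ∀ k, ph X.α (r k) = 0 := fun k => ph0 (L.rc k).symm
  have pe := ph1 hn
  have ps : ∀ x : G, ph x x = 0 := fun x => ph0 (Commute.refl x)
  refine ⟨Sum.elim ![X.α, r k1, r k4] ![s m, r k2, r k5], ?_, ?_, ?_, ?_⟩
  · rintro (i | i) <;> fin_cases i <;> first | exact X.αD | exact he | exact L.rD _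
  · have q12 := (ph_comm _ _).trans p12
    have q45 := (ph_comm _ _).trans p45
    have q14 := (ph_comm _ _).trans p14
    have q15 := (ph_comm _ _).trans p15
    have q24 := (ph_comm _ _).trans p24
    have q25 := (ph_comm _ _).trans p25
    have qe := (ph_comm _ _).trans pe
    have e1 := ph0 c1
    have e2 := ph0 c2
    have e4 := ph0 c4
    have e5 := ph0 c5
    have f1 := ph0 c1.symm
    have f2 := ph0 c2.symm
    have f4 := ph0 c4.symm
    have f5 := ph0 c5.symm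
    rintro (i | i) (j | j) <;> fin_cases i <;> fin_cases j <;> simp [e, *]
  · intro x hx h
    have h1 : Commute x X.α := h (inl 0)
    have h2 : Commute x (s m) := h (inr 0)
    obtain ⟨n, rfl⟩ := L.ex hx h1 (fun e => hn (e ▸ h2.symm))
    exact no n ((L.cm _ _).1 (h (inl 1))) ((L.cm _ _).1 (h (inr 1))) ((L.cm _ _).1 (h (inl 2)))
      ((L.cm _ _).1 (h (inr 2)))
  · intro g hg
    refine (L.cen g (hg _ X.αD) fun k => hg _ (L.rD k)).resolve_right fun e => hn ?_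
    exact (e ▸ hg _ he).symm

theorem main0 (hc : X.Conn) : Nonempty (G ≃* Cfsg.PSp 3 (ZMod 2)) := by
  classical
  obtain ⟨b, hb, gram, nz, cen⟩ := X.basis hc
  let c : G → V := fun x i => ph x (b i.swap)
  have c0 : ∀ x ∈ X.D, c x ≠ 0 := fun x hx h => nz x hx fun i => cm_of (by simpa [c] using congrFun h i.swap)
  have cadd : ∀ {d e s : G}, (∀ x ∈ X.D, ph s x = ph d x + ph e x) → c s = c d + c e := fun h =>
    funext fun i => h _ (hb _)
  have cinj : ∀ x ∈ X.D, ∀ y ∈ X.D, c x = c y → x = y := fun x hx y hy h => by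
    by_contra hne
    obtain ⟨s, hs, -, h1⟩ := X.add hc hx hy hne
    exact c0 s hs (by rw [cadd h1, h, two'])
  let P : V → Prop := fun v => v = 0 ∨ ∃ x ∈ X.D, c x = v ∧ ∀ y ∈ X.D, ph x y = B v (c y)
  have Padd : ∀ v w, P v → P w → P (v + w) := by
    rintro v w (rfl | ⟨x, hx, rfl, h1⟩) hw
    · rwa [zero_add]
    rcases hw with rfl | ⟨y, hy, rfl, h2⟩
    · rw [add_zero]; exact Or.inr ⟨x, hx, rfl, h1⟩
    by_cases e : x = y
    · left; rw [e, two']
    obtain ⟨s, hs, -, h3⟩ := X.add hc hx hy e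
    exact Or.inr ⟨s, hs, cadd h3, fun z hz => by rw [h3 z hz, h1 z hz, h2 z hz, add_B]⟩
  have Pe : ∀ i, P (e i) := fun i => Or.inr ⟨b i, hb i, funext fun j => gram i j, fun y _ => by
    rw [ph_comm]
    rcases i with i | i <;> fin_cases i <;> simp [B, e, c]⟩
  have Pall : ∀ v, P v := fun v => by
    rw [← Finset.univ_sum_single v]
    refine Finset.sum_induction _ P Padd (Or.inl rfl) fun i _ => ?_
    rcases zo (v i) with h | h <;> rw [h]
    · left; simp
    · exact Pe i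
  have ex : ∀ v, v ≠ 0 → ∃ x, x ∈ X.D ∧ c x = v ∧ ∀ y ∈ X.D, ph x y = B v (c y) := fun v hv =>
    (Pall v).resolve_left hv
  choose! t tD tc tB using ex
  have tx : ∀ x ∈ X.D, t (c x) = x := fun x hx => cinj _ (tD _ (c0 x hx)) _ hx (tc _ (c0 x hx))
  refine ident t (fun u v hu hv => ?_) (fun u v hu hv h => by rw [← tc u hu, h, tc v hv])
    (fun g v hv => ⟨c (g * t v * g⁻¹), c0 _ (X.conj (tD v hv) g), (tx _ (X.conj (tD v hv) g)).symm⟩)
    (fun g hg => cen g fun x hx => by rw [← tx x hx]; exact hg _ (c0 x hx))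
  have h1 := tB u hu _ (tD v hv)
  rw [tc v hv] at h1
  by_cases h : Commute (t u) (t v)
  · rw [← h1, ph0 h, zero_smul, add_zero, h.eq, mul_inv_cancel_right]
  · obtain ⟨s, hs, h2, h3⟩ := X.add hc (tD u hu) (tD v hv) (fun e => h (e ▸ Commute.refl _))
    rw [← h1, ph1 h, one_smul, X.inv (tD u hu), ← h2 h, add_comm, ← tx s hs, cadd h3, tc u hu, tc v hv]

end Ctx

end Cfsg.Agent.WA.Ys
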