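import Cfsg.Agent.WA.YsMod
import Cfsg.Agent.WA.YsGeo0
import Cfsg.Agent.WA.YsCon

/-! S3298, the `Sp₆(2)` branch. -/

set_option autoImplicit false

namespace Cfsg.Agent.WA.Ya

universe u

theorem sp {G : Type u} [Group G] [Finite G] (C : Ch G) (_h1 : C.Ctl) (h : C.Fus c7) :
    ∃ (F : Type) (_ : Field F) (_ : Fintype F), Fintype.card F = 2 ∧ Nonempty (G ≃* Cfsg.PSp 3 F) := by
  obtain ⟨X⟩ := Ys.ctx C h
  exact ⟨ZMod 2, inferInstance, inferInstance, ZMod.card 2, X.main0 (fun T h0 hcl => X.conn T h0 hcl)⟩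

end Cfsg.Agent.WA.Ya
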