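import Mathlib.GroupTheory.SpecificGroups.Alternating
import Mathlib.GroupTheory.Perm.Cycle.Type
import Mathlib.Tactic

/-! S3298: a finite check in the symmetric group of degree seven. -/

set_option autoImplicit false

namespace Cfsg.Agent.WA.YaX

open Equiv

def ap (P i : ℕ) : ℕ := P / 8 ^ i % 8
def cd (a b c d e f g : ℕ) : ℕ := a + 8 * b + 64 * c + 512 * d + 4096 * e + 32768 * f + 262144 * g
def mu (P Q : ℕ) : ℕ :=
  cd (ap P (ap Q 0)) (ap P (ap Q 1)) (ap P (ap Q 2)) (ap P (ap Q 3)) (ap P (ap Q 4)) (ap P (ap Q 5)) (ap P (ap Q 6))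
def enc (p : Perm (Fin 7)) : ℕ := cd (p 0) (p 1) (p 2) (p 3) (p 4) (p 5) (p 6)

theorem ap_enc (p : Perm (Fin 7)) (i : Fin 7) : ap (enc p) i = p i := by
  have h0 := (p 0).2; have h1 := (p 1).2; have h2 := (p 2).2; have h3 := (p 3).2
  have h4 := (p 4).2; have h5 := (p 5).2; have h6 := (p 6).2
  fin_cases i <;> simp only [ap, enc, cd, Fin.zero_eta, Fin.mk_one, Fin.reduceFinMk, Fin.isValue] <;> norm_num <;> omega

theorem enc_mul (p q : Perm (Fin 7)) : enc (p * q) = mu (enc p) (enc q) := by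
  have h := ap_enc q
  have e0 : ap (enc q) 0 = q 0 := h 0
  have e1 : ap (enc q) 1 = q 1 := h 1
  have e2 : ap (enc q) 2 = q 2 := h 2
  have e3 : ap (enc q) 3 = q 3 := h 3
  have e4 : ap (enc q) 4 = q 4 := h 4
  have e5 : ap (enc q) 5 = q 5 := h 5
  have e6 : ap (enc q) 6 = q 6 := h 6
  rw [mu, e0, e1, e2, e3, e4, e5, e6]
  simp only [ap_enc]
  rfl

theorem enc_inj {p q : Perm (Fin 7)} (h : enc p = enc q) : p = q := by
  ext i
  rw [← ap_enc, ← ap_enc, h]

def y7 : Perm (Fin 7) := swap 0 1 * swap 2 3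

theorem enc_one : enc 1 = 1754760 := by decide +kernel
theorem enc_y : enc y7 = 1754305 := by decide +kernel

def L3 : List ℕ := [1753808, 1266384, 1467088, 1754200, 1266776, 1467480, 1754641, 1267217, 1467921, 1753241, 1265817, 1466521, 1754690, 1267266, 1467970, 1753290, 1265866, 1466570, 1608474, 429338, 1579354, 281946, 170394, 52122, 1753731, 1266307, 1467011, 1754123, 1266699, 1467403, 1579795, 171283, 1608019, 52563, 428435, 281491, 1679916, 1650796, 959028, 700532, 1651237, 1679461, 868917, 639093, 700966, 958566, 639534, 868462]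
def L2 : List ℕ := [1754760, 1525384, 1726088, 1238664, 1754312, 1524936, 1725640, 1238216, 1682184, 961800, 1653064, 871752, 702856, 641928, 1754704, 1525328, 1726032, 1238608, 1753752, 1524376, 1725080, 1237656, 1754753, 1525377, 1726081, 1238657, 1754305, 1524929, 1725633, 1238209, 1682177, 961793, 1653057, 871745, 702849, 641921, 1754634, 1525258, 1725962, 1238538, 1753626, 1524250, 1724954, 1237530, 1753227, 1523851, 1724555, 1237131, 1753171, 1523795, 1724499, 1237075, 1607340, 1606892, 427700, 427252, 1578661, 1578213, 280245, 279797, 169638, 169190, 50862, 50414]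

def c3 (T : ℕ) : Bool :=
  !(mu T (mu T T) == 1754760) ||
    (!(mu (mu T (mu (mu T 1754305) (mu T T))) (mu T T) == mu 1754305 (mu (mu T 1754305) (mu T T))) || L3.elem T)
def c2 (S : ℕ) : Bool :=
  !(mu S S == 1754760) ||
    (!(mu S (mu (mu (mu S 1754305) S) 1754305) == mu (mu (mu (mu S 1754305) S) 1754305) S) || L2.elem S)

set_option synthInstance.maxSize 4096 in
set_option synthInstance.maxHeartbeats 200000 in
theorem all3 : ∀ a b : Fin 7, b ≠ a → ∀ c : Fin 7, c ≠ a → c ≠ b → ∀ d : Fin 7, d ≠ a → d ≠ b → d ≠ c →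
    ∀ e : Fin 7, e ≠ a → e ≠ b → e ≠ c → e ≠ d → ∀ f : Fin 7, f ≠ a → f ≠ b → f ≠ c → f ≠ d → f ≠ e →
    ∀ g : Fin 7, g ≠ a → g ≠ b → g ≠ c → g ≠ d → g ≠ e → g ≠ f →
    (c3 (cd a b c d e f g) && c2 (cd a b c d e f g)) = true := by
  decide +kernel

theorem all_enc (p : Perm (Fin 7)) : c3 (enc p) = true ∧ c2 (enc p) = true := by
  have n : ∀ s t : Fin 7, s ≠ t → p s ≠ p t := fun s t e e' => e (p.injective e')
  rw [← Bool.and_eq_true]
  exact all3 (p 0) (p 1) (n _ _ (by decide)) (p 2) (n _ _ (by decide)) (n _ _ (by decide))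
    (p 3) (n _ _ (by decide)) (n _ _ (by decide)) (n _ _ (by decide))
    (p 4) (n _ _ (by decide)) (n _ _ (by decide)) (n _ _ (by decide)) (n _ _ (by decide))
    (p 5) (n _ _ (by decide)) (n _ _ (by decide)) (n _ _ (by decide)) (n _ _ (by decide)) (n _ _ (by decide))
    (p 6) (n _ _ (by decide)) (n _ _ (by decide)) (n _ _ (by decide)) (n _ _ (by decide)) (n _ _ (by decide))
    (n _ _ (by decide))

def cu (P : ℕ) : ℕ := mu P (mu P P)
def fin (T S A E : ℕ) : Bool :=
  !(mu (mu A E) (mu A E) == 1754305) || (!(mu (mu (mu E T) E) T == 1754760) || (!(cu (mu S A) == 1754760) ||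
    (!((cu (mu (mu (mu A T) A) S) == 1754760) == (cu (mu (mu (mu A T) A) (mu S (mu E 1754305))) == 1754760)) ||
      (mu (mu (mu T S) (mu T S)) (mu (mu T S) (mu T S)) == 1754760))))

theorem chk : (L3.all fun T => L2.all fun S => fin T S (mu (mu T 1754305) (mu T T)) (mu (mu S 1754305) S)) = true := by
  decide +kernel

theorem s7 {a e t s : Perm (Fin 7)} (t3 : t * (t * t) = 1) (ty : t * y7 * (t * t) = a) (ta : t * a * (t * t) = y7 * a)
    (s2 : s * s = 1) (sy : s * y7 * s = e) (se : s * (e * y7) = e * y7 * s) (ae : a * e * (a * e) = y7)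
    (et : e * t * e * t = 1) (sa : s * a * (s * a * (s * a)) = 1)
    (h : a * t * a * s * (a * t * a * s * (a * t * a * s)) = 1 ↔
      a * t * a * (s * (e * y7)) * (a * t * a * (s * (e * y7)) * (a * t * a * (s * (e * y7)))) = 1) :
    t * s * (t * s) * (t * s * (t * s)) = 1 := by
  have one : ∀ p : Perm (Fin 7), enc p = 1754760 ↔ p = 1 := fun p =>
    ⟨fun h => enc_inj (h.trans enc_one.symm), fun h => h ▸ enc_one⟩
  have h3 := (all_enc t).1
  have h2 := (all_enc s).2
  simp only [c3, c2, ← enc_y, ← enc_mul, t3, ty, ta, s2, sy, se, enc_one, beq_self_eq_true, Bool.not_true,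
    Bool.false_or, List.elem_eq_mem, decide_eq_true_eq] at h3 h2
  have h4 := List.all_eq_true.1 (List.all_eq_true.1 chk _ h3) _ h2
  simp only [fin, cu, ← enc_y, ← enc_mul, ty, sy, ae, et, sa, enc_one, beq_self_eq_true, Bool.not_true,
    Bool.false_or, Bool.or_eq_true, Bool.not_eq_true', beq_eq_false_iff_ne, beq_iff_eq, one] at h4
  refine h4.resolve_left fun h5 => h5 ?_
  rw [Bool.eq_iff_iff, beq_iff_eq, beq_iff_eq, one, one]
  exact h

theorem ct : y7.cycleType = {2, 2} := by decide +kernel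

theorem conj_y {y : Perm (Fin 7)} (h1 : orderOf y = 2) (hs : Perm.sign y = 1) : ∃ g : Perm (Fin 7), g * y * g⁻¹ = y7 := by
  rw [← isConj_iff]
  obtain ⟨n, hn⟩ := Perm.cycleType_prime_order (σ := y) (h1 ▸ Nat.prime_two)
  have h2 := Perm.sum_cycleType_le y
  have h3 := Perm.sign_of_cycleType y
  rw [hs, hn, h1, Multiset.sum_replicate, Multiset.card_replicate, smul_eq_mul] at h3
  rw [hn, h1, Multiset.sum_replicate, smul_eq_mul, Fintype.card_fin] at h2
  have : n = 1 := by
    have : n ≤ 2 := by omega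
    interval_cases n
    · exact absurd h3 (by decide)
    · rfl
    · exact absurd h3 (by decide)
  rw [Perm.isConj_iff_cycleType_eq, ct, hn, h1, this]
  rfl

/-- the relation holds in every group embedded in `S₇` -/
theorem emb {Γ : Type*} [Group Γ] (φ : Γ →* Perm (Fin 7)) (hφ : Function.Injective φ) {y a e t s : Γ}
    (hy : orderOf y = 2) (t3 : t ^ 3 = 1) (ty : t * y * t⁻¹ = a) (ta : t * a * t⁻¹ = y * a)
    (s2 : s * s = 1) (sy : s * y * s = e) (se : s * (e * y) = e * y * s) (ae : a * e * (a * e) = y)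
    (et : e * t * e * t = 1) (sa : (s * a) ^ 3 = 1)
    (h : (a * t * a * s) ^ 3 = 1 ↔ (a * t * a * (s * (e * y))) ^ 3 = 1) : (t * s) ^ 4 = 1 := by
  obtain ⟨g, hg⟩ := conj_y (y := φ y) (by rw [orderOf_injective φ hφ, hy])
    (by rw [← ae, map_mul, map_mul, Int.units_mul_self])
  let ψ : Γ →* Perm (Fin 7) := (MulAut.conj g).toMonoidHom.comp φ
  have hψ : Function.Injective ψ := (MulAut.conj g).injective.comp hφ
  have hy7 : y7 = ψ y := hg.symm
  have ti : t⁻¹ = t * t := inv_eq_of_mul_eq_one_right (by rw [← pow_three, t3])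
  have one : ∀ x, ψ x = 1 ↔ x = 1 := fun x => map_eq_one_iff ψ hψ
  rw [ti] at ty ta
  simp only [pow_three] at t3 sa h
  have := s7 (a := ψ a) (e := ψ e) (t := ψ t) (s := ψ s) (by simp only [← map_mul, t3, map_one])
    (by simp only [hy7, ← map_mul, ty]) (by simp only [hy7, ← map_mul, ta]) (by simp only [← map_mul, s2, map_one])
    (by simp only [hy7, ← map_mul, sy]) (by simp only [hy7, ← map_mul, se]) (by simp only [hy7, ← map_mul, ae])
    (by simp only [← map_mul, et, map_one]) (by simp only [← map_mul, sa, map_one])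
    (by simp only [hy7, ← map_mul, one]; exact h)
  simp only [← map_mul, one] at this
  rw [← this]
  simp only [pow_succ, pow_zero, one_mul, mul_assoc]

end Cfsg.Agent.WA.YaX
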