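import Cfsg.Agent.WA.YaGen
import Cfsg.Agent.H7.ZStar
import Cfsg.Prelude.Def_CaseTheorems
import Mathlib.GroupTheory.FixedPointFree

/-! S3298: the case that `α` is isolated. -/

set_option autoImplicit false

namespace Cfsg.Agent.WA.Ya

open Subgroup Equiv

universe u

namespace Z

theorem al_mem : al ∈ H := by decide +kernel
theorem al_sq : al * al = 1 := by decide +kernel
theorem y_mem : ∀ i j, y i j ∈ H := by decide +kernel
theorem rep_mem : ∀ i, rep i ∈ H := by decide +kernel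
theorem al_ev : ∀ i, al (ev i) = od i := by decide +kernel
theorem sw_fl : ∀ w : Fin 12, ∃ j, swap w (al w) = fl j := by decide +kernel
theorem yy_sq : ∀ a b i j, y a b * y i j * (y a b * y i j) = 1 := by decide +kernel
theorem y_inv : ∀ i j, (y i j)⁻¹ = y i j := by decide +kernel
theorem sep : ∀ w w' : Fin 12, w' = w ∨ w' = al w ∨ ∃ i j, y i j w ≠ w ∧ y i j w' = w' := by decide +kernel

theorem cj_fl {p : P} (hp : p ∈ H) (i : Fin 6) : ∃ j, p * fl i * p⁻¹ = fl j := by
  obtain ⟨j, hj⟩ := sw_fl (p (ev i))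
  refine ⟨j, ?_⟩
  have : al (p (ev i)) = p (od i) := by rw [← al_ev, ← Perm.mul_apply, (mem_H.1 hp).2, Perm.mul_apply]
  rw [← hj, this, fl, swap_apply_apply]

theorem cj_y {p : P} (hp : p ∈ H) (i j : Fin 6) : ∃ a b, p * y i j * p⁻¹ = y a b := by
  obtain ⟨a, ha⟩ := cj_fl hp i
  obtain ⟨b, hb⟩ := cj_fl hp j
  exact ⟨a, b, by rw [y, y, ← ha, ← hb]; group⟩

theorem sq_of_comm {p : P} (hp : p ∈ H) (h : ∀ i j, p * y i j = y i j * p) : p * p = 1 := by
  have ha : ∀ w, p (al w) = al (p w) := fun w => by rw [← Perm.mul_apply, ← (mem_H.1 hp).2, Perm.mul_apply]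
  have aa : ∀ w, al (al w) = w := fun w => by rw [← Perm.mul_apply, al_sq, Perm.one_apply]
  ext1 w
  rw [Perm.mul_apply, Perm.one_apply]
  rcases sep w (p w) with e | e | ⟨i, j, h1, h2⟩
  · rw [e, e]
  · rw [e, ha, e, aa]
  · refine absurd (p.injective ?_) h1
    rw [← Perm.mul_apply, h, Perm.mul_apply, h2]

variable {G : Type u} [Group G] [Finite G]

theorem eq_one {N : Subgroup G} (hN : ¬ 2 ∣ Nat.card N) {x : G} (hx : x ∈ N) (h : x * x = 1) : x = 1 := by
  by_contra hne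
  exact hN (H4.orderOf_eq_two_of h hne ▸ Subgroup.orderOf_dvd_natCard N hx)

/-- a subgroup of odd order normalized by the flips meets `C(α)` trivially -/
theorem odd_triv (C : Ch G) {N : Subgroup G} (hN : ¬ 2 ∣ Nat.card N)
    (hn : ∀ i j, ∀ x ∈ N, C.f (y i j) * x * (C.f (y i j))⁻¹ ∈ N) {x : G} (hx : x ∈ N)
    (h : x * C.f al = C.f al * x) : x = 1 := by
  obtain ⟨p, hp, rfl⟩ := (C.cen x).1 h
  refine eq_one hN hx ?_
  rw [← C.mul _ _ hp hp, sq_of_comm hp fun i j => ?_, C.one]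
  obtain ⟨a, b, e⟩ := cj_y hp i j
  have m : y a b * y i j ∈ H := mul_mem (y_mem _ _) (y_mem _ _)
  have e1 : C.f (y a b * y i j) = C.f p * (C.f (y i j) * (C.f p)⁻¹ * (C.f (y i j))⁻¹) := by
    rw [C.mul _ _ (y_mem _ _) (y_mem _ _), ← e, C.cj hp (y_mem _ _), ← C.inv (y_mem i j), y_inv]
    group
  have e2 : C.f (y a b * y i j) = 1 :=
    eq_one hN (e1 ▸ mul_mem hx (hn i j _ (inv_mem hx))) (by rw [← C.mul _ _ m m, yy_sq, C.one])
  have e3 := C.inj _ m e2
  rw [← e] at e3
  calc p * y i j = (p * y i j * p⁻¹ * y i j) * ((y i j)⁻¹ * p) := by group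
    _ = _ := by rw [e3, one_mul, y_inv]

end Z

open Z

theorem iso {G : Type u} [Group G] [Finite G] (C : Ch G) (h : C.Iso) :
    Cfsg.oddCore G ⊔ centralizer ({C.f al} : Set G) = ⊤ ∧ IsMulCommutative (Cfsg.oddCore G) := by
  have a2 : C.f al * C.f al = 1 := by rw [← C.mul _ _ al_mem al_mem, al_sq, C.one]
  have hi : H7.Isolated (C.f al) := by
    refine H7.Isolated.of_commute a2 fun g hc => ?_
    obtain ⟨p, hp, e⟩ := (C.cen _).1 hc.symm.eq
    have p2 : p * p = 1 := C.inj _ (mul_mem hp hp) (by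
      rw [C.mul _ _ hp hp, e]
      calc _ = g * (C.f al * C.f al) * g⁻¹ := by group
        _ = 1 := by rw [a2]; group)
    have p1 : p ≠ 1 := by
      rintro rfl
      rw [C.one] at e
      have : C.f al = 1 := by
        calc C.f al = g⁻¹ * (g * C.f al * g⁻¹) * g := by group
          _ = 1 := by rw [← e]; group
      exact absurd (C.inj _ al_mem this) (by decide +kernel)
    obtain ⟨i, k, hk, e'⟩ := inv_rep hp p2 p1
    have hi : i = 2 := h i (isConj_iff.2 ⟨(C.f k)⁻¹ * g, by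
      calc _ = (C.f k)⁻¹ * (g * C.f al * g⁻¹) * C.f k := by group
        _ = _ := by rw [← e, ← e', C.cj hk (rep_mem i)]; group⟩)
    subst hi
    rw [← e, ← e']
    congr 1
    change k * al * k⁻¹ = al
    rw [← (mem_H.1 hk).2, mul_inv_cancel_right]
  refine ⟨by rw [sup_comm]; exact hi.centralizer_sup, ?_⟩
  haveI : (pPrimeCore 2 G).Normal := inferInstance
  haveI : Fact (Nat.Prime 2) := ⟨Nat.prime_two⟩
  let φ : pPrimeCore 2 G ≃* pPrimeCore 2 G := MulAut.conjNormal (C.f al)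
  have hφ : MonoidHom.FixedPointFree φ := fun x hx => Subtype.ext
    (odd_triv C L0.not_dvd_card_pPrimeCore (fun i j x hx => Normal.conj_mem inferInstance x hx _) x.2
      (mul_inv_eq_iff_eq_mul.1 (congrArg Subtype.val hx : C.f al * x * (C.f al)⁻¹ = x)).symm)
  have h2 : Function.Involutive φ := fun x => Subtype.ext (by
    change C.f al * (C.f al * x * (C.f al)⁻¹) * (C.f al)⁻¹ = x
    calc _ = (C.f al * C.f al) * x * (C.f al * C.f al)⁻¹ := by group
      _ = x := by rw [a2]; group)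
  exact ⟨⟨fun a b => (hφ.commute_all_of_involutive h2 a b).eq⟩⟩

end Cfsg.Agent.WA.Ya
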