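import Cfsg.Agent.WA.YsDef

/-! S3298, the `Sp₆(2)` branch: table facts. -/

set_option autoImplicit false

namespace Cfsg.Agent.WA.Ys

theorem t_m5 : ∀ k l : Fin 30, cj k l = l → k ≠ l → l ≠ pa k → ∀ m, cj k m = m → cj l m = m → m ≠ k → m ≠ l →
    m ≠ pa k → m ≠ pa l → ∀ n, cj n k = k ∨ cj n l = l ∨ cj n m = m := by decide +kernel

end Cfsg.Agent.WA.Ys
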