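import Cfsg.Agent.WA.YsT1
import Cfsg.Agent.WA.YsT2

/-! S3298, the `Sp₆(2)` branch: lines and the neighbours of a point at distance two. -/

set_option autoImplicit false

namespace Cfsg.Agent.WA.Ys

variable {G : Type*} [Group G] {D : Set G} {d : G} {r : Fin 30 → G}

namespace Loc

theorem rD (L : Loc D d r) (k : Fin 30) : r k ∈ D := ((L.mem _).2 (Or.inr ⟨k, rfl⟩)).1
theorem rc (L : Loc D d r) (k : Fin 30) : Commute (r k) d := ((L.mem _).2 (Or.inr ⟨k, rfl⟩)).2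
theorem cm (L : Loc D d r) (k l : Fin 30) : Commute (r k) (r l) ↔ Ys.cj k l = l := by
  constructor
  · intro h
    apply L.inj
    rw [← L.cj, h.eq, mul_assoc, L.sq, mul_one]
  · intro h
    have := L.cj k l
    rw [h] at this
    show r k * r l = r l * r k
    calc r k * r l = r k * r l * (r k * r k) := by rw [L.sq, mul_one]
      _ = r k * r l * r k * r k := by group
      _ = r l * r k := by rw [this]
theorem ex (L : Loc D d r) {x : G} (hx : x ∈ D) (hc : Commute x d) (hne : x ≠ d) : ∃ k, x = r k :=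
  ((L.mem x).1 ⟨hx, hc⟩).resolve_left hne
theorem d2 (L : Loc D d r) : d * d = 1 := by
  have h := L.prod 0
  have c : ∀ k, r k * d * r k = d := fun k => by rw [(L.rc k).eq, mul_assoc, L.sq, mul_one]
  have i : ∀ k, (r k)⁻¹ = r k := fun k => inv_eq_of_mul_eq_one_right (L.sq k)
  have c01 : Commute (r 0) (r (pa 0)) := (L.cm _ _).2 (by decide +kernel)
  have c02 : Commute (r 0) (r (f1 0)) := (L.cm _ _).2 (by decide +kernel)
  have c03 : Commute (r 0) (r (pa (f1 0))) := (L.cm _ _).2 (by decide +kernel)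
  have c04 : Commute (r 0) (r (f2 0)) := (L.cm _ _).2 (by decide +kernel)
  have c05 : Commute (r 0) (r (pa (f2 0))) := (L.cm _ _).2 (by decide +kernel)
  have c12 : Commute (r (pa 0)) (r (f1 0)) := (L.cm _ _).2 (by decide +kernel)
  have c13 : Commute (r (pa 0)) (r (pa (f1 0))) := (L.cm _ _).2 (by decide +kernel)
  have c14 : Commute (r (pa 0)) (r (f2 0)) := (L.cm _ _).2 (by decide +kernel)
  have c15 : Commute (r (pa 0)) (r (pa (f2 0))) := (L.cm _ _).2 (by decide +kernel)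
  have c23 : Commute (r (f1 0)) (r (pa (f1 0))) := (L.cm _ _).2 (by decide +kernel)
  have c24 : Commute (r (f1 0)) (r (f2 0)) := (L.cm _ _).2 (by decide +kernel)
  have c25 : Commute (r (f1 0)) (r (pa (f2 0))) := (L.cm _ _).2 (by decide +kernel)
  have c34 : Commute (r (pa (f1 0))) (r (f2 0)) := (L.cm _ _).2 (by decide +kernel)
  have c35 : Commute (r (pa (f1 0))) (r (pa (f2 0))) := (L.cm _ _).2 (by decide +kernel)
  have c45 : Commute (r (f2 0)) (r (pa (f2 0))) := (L.cm _ _).2 (by decide +kernel)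
  have s : ∀ k, r k ^ 2 = 1 := fun k => by rw [pow_two, L.sq]
  rw [← pow_two, ← h, Commute.mul_pow ((((c05.mul_left c15).mul_left c25).mul_left c35).mul_left c45),
    Commute.mul_pow (((c04.mul_left c14).mul_left c24).mul_left c34),
    Commute.mul_pow ((c03.mul_left c13).mul_left c23), Commute.mul_pow (c02.mul_left c12), Commute.mul_pow c01]
  simp [s]

end Loc

/-- `{d, a, b}` is a line, seen from `d` -/
def Par (D : Set G) (d a b : G) : Prop :=
  a ∈ D ∧ b ∈ D ∧ Commute a d ∧ Commute b d ∧ a ≠ d ∧ b ≠ d ∧ a ≠ b ∧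
    ∀ x ∈ D, Commute x d → (Commute x a ↔ Commute x b)

theorem Par.symm {a b : G} (h : Par D d a b) : Par D d b a :=
  ⟨h.2.1, h.1, h.2.2.2.1, h.2.2.1, h.2.2.2.2.2.1, h.2.2.2.2.1, h.2.2.2.2.2.2.1.symm,
    fun x hx hc => (h.2.2.2.2.2.2.2 x hx hc).symm⟩

theorem Par.ab {a b : G} (h : Par D d a b) : Commute a b := (h.2.2.2.2.2.2.2 a h.1 h.2.2.1).1 (Commute.refl a)

theorem Loc.par (L : Loc D d r) (k : Fin 30) : Par D d (r k) (r (pa k)) := by
  refine ⟨L.rD _, L.rD _, L.rc _, L.rc _, L.ne _, L.ne _, fun h => (t_pa k).1 (L.inj h).symm, fun x hx hc => ?_⟩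
  rcases (L.mem x).1 ⟨hx, hc⟩ with rfl | ⟨m, rfl⟩
  · exact ⟨fun _ => (L.rc _).symm, fun _ => (L.rc _).symm⟩
  · rw [L.cm, L.cm, t_pac]

theorem Loc.par_of (L : Loc D d r) {k l : Fin 30} (hne : l ≠ k)
    (h : ∀ x ∈ D, Commute x d → Commute x (r k) → Commute x (r l)) : l = pa k :=
  t_pau k l hne fun m hm => (L.cm _ _).1 (h _ (L.rD m) (L.rc m) ((L.cm _ _).2 hm))

theorem Loc.par_eq (L : Loc D d r) {k l : Fin 30} (h : Par D d (r k) (r l)) : l = pa k :=
  L.par_of (fun e => h.2.2.2.2.2.2.1 (by rw [e])) fun x hx hc => (h.2.2.2.2.2.2.2 x hx hc).1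

namespace Ctx

variable (X : Ctx G)

theorem sq {x : G} (hx : x ∈ X.D) : x * x = 1 := by
  obtain ⟨r, L⟩ := X.loc x hx
  exact L.d2

theorem inv {x : G} (hx : x ∈ X.D) : x⁻¹ = x := inv_eq_of_mul_eq_one_right (X.sq hx)

theorem conj {x : G} (hx : x ∈ X.D) (g : G) : g * x * g⁻¹ ∈ X.D :=
  (X.hD _).2 (((X.hD x).1 hx).trans (isConj_iff.2 ⟨g, rfl⟩))

theorem cj3 {x y : G} (hx : x ∈ X.D) (hy : y ∈ X.D) : x * y * x ∈ X.D := by
  have := X.conj hy x
  rwa [X.inv hx] at this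

/-- line symmetry -/
theorem ls {d a b : G} (hd : d ∈ X.D) (h : Par X.D d a b) : Par X.D a d b := by
  obtain ⟨r, L⟩ := X.loc a h.1
  obtain ⟨k, rfl⟩ := L.ex hd h.2.2.1.symm h.2.2.2.2.1.symm
  obtain ⟨l, rfl⟩ := L.ex h.2.1 h.ab.symm h.2.2.2.2.2.2.1.symm
  have : l = pa k := L.par_of (fun e => h.2.2.2.2.2.1 (by rw [e])) fun x hx h1 h2 =>
    (h.2.2.2.2.2.2.2 x hx h2).1 h1
  rw [this]
  exact L.par k

theorem par_uniq {d a b c : G} (hd : d ∈ X.D) (h : Par X.D d a b) (h' : Par X.D d a c) : b = c := by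
  obtain ⟨r, L⟩ := X.loc d hd
  obtain ⟨k, rfl⟩ := L.ex h.1 h.2.2.1 h.2.2.2.2.1
  obtain ⟨l, rfl⟩ := L.ex h.2.1 h.2.2.2.1 h.2.2.2.2.2.1
  obtain ⟨m, rfl⟩ := L.ex h'.2.1 h'.2.2.2.1 h'.2.2.2.2.2.1
  rw [L.par_eq h, L.par_eq h']

/-- a point commuting with two points of a line commutes with the third -/
theorem atmost {d a b e : G} (hd : d ∈ X.D) (h : Par X.D d a b) (he : e ∈ X.D) (h1 : Commute e a) (h2 : Commute e b) :
    Commute e d :=
  ((X.ls hd h).2.2.2.2.2.2.2 e he h1).2 h2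

theorem step {d e : G} {r : Fin 30 → G} (hd : d ∈ X.D) (L : Loc X.D d r) (he : e ∈ X.D) (hn : ¬ Commute e d)
    {x a : Fin 30} (hx : Commute e (r x)) (hc : cj x a = a) (h1 : a ≠ x) (h2 : a ≠ pa x) :
    Commute e (r a) ∨ Commute e (r (pa a)) := by
  obtain ⟨s, M⟩ := X.loc (r x) (L.rD x)
  have hc' : cj x (pa a) = pa a := (t_pac a x).2 hc
  have h3 : pa a ≠ x := fun e => h2 (by rw [← e, (t_pa a).2.1])
  have h4 : pa a ≠ pa x := fun e => h1 (by rw [← (t_pa a).2.1, e, (t_pa x).2.1])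
  obtain ⟨k, hk⟩ := M.ex hd (L.rc x).symm (L.ne x).symm
  obtain ⟨l, hl⟩ := M.ex (L.rD a) ((L.cm x a).2 hc).symm (fun e => h1 (L.inj e))
  obtain ⟨m, hm⟩ := M.ex (L.rD (pa a)) ((L.cm x _).2 hc').symm (fun e => h3 (L.inj e))
  obtain ⟨n, hn'⟩ := M.ex he hx (fun e => hn (e ▸ L.rc x))
  have px : Par X.D (r x) d (r (pa x)) := X.ls hd (L.par x)
  have q1 : l ≠ pa k := fun e => by
    have : Par X.D (r x) d (r a) := by rw [hl, e]; nth_rw 1 [hk]; exact M.par k
    exact h2 (L.inj (X.par_uniq (L.rD x) this px))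
  have q2 : m ≠ pa k := fun e => by
    have : Par X.D (r x) d (r (pa a)) := by rw [hm, e]; nth_rw 1 [hk]; exact M.par k
    exact h4 (L.inj (X.par_uniq (L.rD x) this px))
  have q3 : m ≠ pa l := fun e => by
    have p1 : Par X.D (r x) (r a) (r (pa a)) := by rw [hm, e, hl]; exact M.par l
    have p2 := (X.ls (L.rD x) p1).symm
    have p3 := (X.ls hd (L.par a)).symm
    exact L.ne x (X.par_uniq (L.rD a) p2 p3)
  have := t_m5 k l ((M.cm _ _).1 (by rw [← hk, ← hl]; exact (L.rc a).symm))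
    (fun e => L.ne a (by rw [hl, hk, e])) q1 m ((M.cm _ _).1 (by rw [← hk, ← hm]; exact (L.rc _).symm))
    ((M.cm _ _).1 (by rw [← hl, ← hm]; exact (L.cm _ _).2 (t_pa a).2.2))
    (fun e => L.ne (pa a) (by rw [hm, hk, e])) (fun e => (t_pa a).1 (L.inj (by rw [hm, hl, e]))) q2 q3 n
  rcases this with h | h | h
  · exact absurd (by rw [hn', hk]; exact (M.cm _ _).2 h) hn
  · left; rw [hn', hl]; exact (M.cm _ _).2 h
  · right; rw [hn', hm]; exact (M.cm _ _).2 h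

/-- a point at distance two commutes with one point of each line through `d` -/
theorem k1 {d e : G} {r : Fin 30 → G} (hd : d ∈ X.D) (L : Loc X.D d r) (he : e ∈ X.D) (hn : ¬ Commute e d)
    {x : Fin 30} (hx : Commute e (r x)) (a : Fin 30) : Commute e (r a) ∨ Commute e (r (pa a)) := by
  obtain ⟨m, h1, h2, h3, h4, h5, h6⟩ := t_mid x a
  rcases X.step hd L he hn hx (t_sym _ _ h1) h2 h3 with h | h
  · exact X.step hd L he hn h h4 h5 h6
  · refine X.step hd L he hn h ?_ h6 (by rw [(t_pa m).2.1]; exact h5)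
    exact t_sym _ _ ((t_pac m a).2 (t_sym _ _ h4))

theorem k1' {d e : G} {r : Fin 30 → G} (hd : d ∈ X.D) (L : Loc X.D d r) (he : e ∈ X.D) (hn : ¬ Commute e d)
    {x : Fin 30} (hx : Commute e (r x)) (a : Fin 30) : Commute e (r (pa a)) ↔ ¬ Commute e (r a) :=
  ⟨fun h h' => hn (X.atmost hd (L.par a) he h' h), fun h => (X.k1 hd L he hn hx a).resolve_left h⟩

/-- three points `a, b, aba` in a common neighbourhood -/
theorem m4 {c a b y : G} (hc : c ∈ X.D) (ha : a ∈ X.D) (hb : b ∈ X.D) (hy : y ∈ X.D) (ca : Commute a c)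
    (cb : Commute b c) (cy : Commute y c) (hn : ¬ Commute a b) :
    a * b * a = b * a * b ∧ (Commute y a ∨ Commute y b ∨ Commute y (a * b * a)) := by
  obtain ⟨s, M⟩ := X.loc c hc
  obtain ⟨k, rfl⟩ := M.ex ha ca (fun e => hn (e ▸ cb.symm))
  obtain ⟨l, rfl⟩ := M.ex hb cb (fun e => hn (e ▸ ca))
  have hkl : cj k l ≠ l := fun e => hn ((M.cm _ _).2 e)
  refine ⟨by rw [M.cj, M.cj, t_braid k l hkl], ?_⟩
  by_cases e : y = c
  · left; rw [e]; exact ca.symm
  obtain ⟨n, rfl⟩ := M.ex hy cy e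
  rw [M.cj, M.cm, M.cm, M.cm]
  exact t_m4 k l hkl n

end Ctx

end Cfsg.Agent.WA.Ys
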