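import Cfsg.Agent.WA.YaCtl
import Cfsg.Agent.WA.YaGen
import Cfsg.Agent.WA.YaSet
import Cfsg.Agent.WA.YsDef

/-! S3298, the `Sp₆(2)` branch: the chart gives a `Ctx`. -/

set_option autoImplicit false
set_option maxRecDepth 100000

namespace Cfsg.Agent.WA.Ys

open Subgroup Equiv Ya

universe u

namespace Md

def p1 : Fin 15 → Fin 6 := ![0, 0, 0, 0, 0, 1, 1, 1, 1, 2, 2, 2, 3, 3, 4]
def p2 : Fin 15 → Fin 6 := ![1, 2, 3, 4, 5, 2, 3, 4, 5, 3, 4, 5, 4, 5, 5]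
def hf (k : Fin 30) : Fin 15 := ⟨k.1 / 2, by omega⟩
def rho (k : Fin 30) : P :=
  if k.1 % 2 = 0 then r (p1 (hf k)) (p2 (hf k)) else r (p1 (hf k)) (p2 (hf k)) * y (p1 (hf k)) (p2 (hf k))
def R (k : Fin 30) : P := al * rho k
def rc (k : Fin 30) : ℕ := (0x8a75319b753169a53179b531b68531b79531497a31597b31b47831b57931b94631b957312975a13975b1b27581b37591b92561b93571b97241b9735109753a19753bb07538b17539b90536b91537b97034b97135b97502b97513 >>> (24 * k.1)) % 16777216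

theorem p12 : ∀ k, p1 (hf k) ≠ p2 (hf k) := by decide
theorem R_mem (k : Fin 30) : R k ∈ H := by
  refine mul_mem St.al_mem ?_
  unfold rho
  split_ifs
  · exact G1.r_mem (p12 k)
  · exact mul_mem (G1.r_mem (p12 k)) (G1.y_mem _ _)
theorem cp_R : ∀ k, K.cp (R k) = rc k := by decide +kernel
theorem cp_al : K.cp al = 12154161 := by decide +kernel
theorem cpm {p : P} (hp : p ∈ H) (q : P) : K.cp (p * q) = K.mu (K.cp p) (K.cp q) := K.cp_mul (mem_H.1 hp).2.symm q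
theorem cpi {p q : P} (hp : p ∈ H) (hq : q ∈ H) (h : K.cp p = K.cp q) : p = q :=
  congrArg Subtype.val (K.cd_inj (p := ⟨p, hp⟩) (q := ⟨q, hq⟩) h)

theorem t1 : ∀ k l, K.mu (K.mu (rc k) (rc l)) (rc k) = rc (cj k l) := by decide +kernel
theorem t2 : ∀ k, K.mu (rc k) (rc k) = K.one ∧ rc k ≠ 12154161 ∧ K.mu (K.mu (K.mu (K.mu (K.mu (rc k) (rc (pa k)))
    (rc (f1 k))) (rc (pa (f1 k)))) (rc (f2 k))) (rc (pa (f2 k))) = 12154161 := by decide +kernel
theorem t3 : ∀ k l, rc k = rc l → k = l := by decide +kernel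
theorem t4 : ∀ k, ∃ a b, cj a (cj b 1) = k := by decide +kernel
theorem t5 : ∀ i j, i ≠ j → ∃ k, K.cp (r i j) = K.mu 12154161 (rc k) ∧ K.cp (y i j) = K.mu (rc k) (rc (pa k)) := by
  decide +kernel
theorem R1 : R 1 = rep 5 := by decide +kernel

theorem R_cj (k l : Fin 30) : R k * R l * R k = R (cj k l) :=
  cpi (mul_mem (mul_mem (R_mem k) (R_mem l)) (R_mem k)) (R_mem _) (by
    rw [cpm (mul_mem (R_mem k) (R_mem l)), cpm (R_mem k), cp_R, cp_R, cp_R, t1])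
theorem R_sq (k : Fin 30) : R k * R k = 1 :=
  cpi (mul_mem (R_mem k) (R_mem k)) (one_mem _) (by rw [cpm (R_mem k), cp_R, (t2 k).1]; exact K.cd_one.symm)
theorem R_inv (k : Fin 30) : (R k)⁻¹ = R k := inv_eq_of_mul_eq_one_right (R_sq k)
theorem R_ne (k : Fin 30) : R k ≠ al := fun h => (t2 k).2.1 (by rw [← cp_R, h, cp_al])
theorem R_prod (k : Fin 30) : R k * R (pa k) * R (f1 k) * R (pa (f1 k)) * R (f2 k) * R (pa (f2 k)) = al := by
  have m2 := mul_mem (R_mem k) (R_mem (pa k))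
  have m3 := mul_mem m2 (R_mem (f1 k))
  have m4 := mul_mem m3 (R_mem (pa (f1 k)))
  have m5 := mul_mem m4 (R_mem (f2 k))
  refine cpi (mul_mem m5 (R_mem _)) St.al_mem ?_
  rw [cpm m5, cpm m4, cpm m3, cpm m2, cpm (R_mem k), cp_R, cp_R, cp_R, cp_R, cp_R, cp_R, cp_al, (t2 k).2.2]

theorem genR {p : P} (hp : p ∈ H) : p ∈ closure (Set.range R) := by
  have m : ∀ k, R k ∈ closure (Set.range R) := fun k => subset_closure ⟨k, rfl⟩
  refine (closure_le _).mpr ?_ (gen Finset.univ hp (by simp))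
  rintro q ⟨i, -, j, -, hij, hq⟩
  obtain ⟨k, h1, h2⟩ := t5 i j hij
  rcases hq with rfl | rfl
  · rw [cpi (G1.r_mem hij) (mul_mem St.al_mem (R_mem k)) (by rw [cpm St.al_mem, cp_al, cp_R, h1]), ← R_prod 0]
    exact mul_mem (mul_mem (mul_mem (mul_mem (mul_mem (mul_mem (m _) (m _)) (m _)) (m _)) (m _)) (m _)) (m _)
  · rw [cpi (G1.y_mem i j) (mul_mem (R_mem k) (R_mem (pa k))) (by rw [cpm (R_mem k), cp_R, cp_R, h2])]
    exact mul_mem (m _) (m _)

theorem cjR {h : P} (hh : h ∈ H) : ∀ k, ∃ l, h * R k * h⁻¹ = R l := by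
  refine closure_induction'' (p := fun h _ => ∀ k, ∃ l, h * R k * h⁻¹ = R l) ?_ ?_ ?_ ?_ (genR hh)
  · rintro _ ⟨a, rfl⟩ k
    exact ⟨_, by rw [R_inv, R_cj]⟩
  · rintro _ ⟨a, rfl⟩ k
    exact ⟨_, by rw [R_inv, R_inv, R_cj]⟩
  · exact fun k => ⟨k, by simp⟩
  · intro x y _ _ h1 h2 k
    obtain ⟨l, e⟩ := h2 k
    obtain ⟨m, e'⟩ := h1 l
    exact ⟨m, by rw [← e', ← e]; group⟩

theorem toR (k : Fin 30) : ∃ h ∈ H, h * rep 5 * h⁻¹ = R k := by
  obtain ⟨a, b, rfl⟩ := t4 k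
  refine ⟨R a * R b, mul_mem (R_mem a) (R_mem b), ?_⟩
  rw [← R_cj, ← R_cj, R1, mul_inv_rev, R_inv, R_inv]
  simp only [mul_assoc]

variable {G : Type u} [Group G]

theorem loc0 (C : Ch G) (h : C.Fus c7) : Loc {x | IsConj (C.f al) x} (C.f al) fun k => C.f (R k) where
  mem x := by
    have c7' : ∀ i, c7 2 = c7 i → i = 2 ∨ i = 5 := by decide
    have sq : C.f al * C.f al = 1 := by rw [← C.mul _ _ St.al_mem St.al_mem, St.al_sq, C.one]
    constructor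
    · rintro ⟨h1, h2⟩
      obtain ⟨p, hp, rfl⟩ := (C.cen x).mp h2
      obtain ⟨c, hc⟩ := isConj_iff.mp h1
      have p2 : p * p = 1 := C.inj _ (mul_mem hp hp) (by rw [C.mul _ _ hp hp, ← hc, conj_mul, sq]; simp)
      have p1 : p ≠ 1 := by
        rintro rfl
        rw [C.one, conj_eq_one_iff] at hc
        exact G1.rep_ne 2 (C.inj _ St.al_mem hc)
      obtain ⟨i, a, ha, rfl⟩ := inv_rep hp p2 p1
      rcases c7' i ((h 2 i).mp (IsConj.trans h1 (St.cj_of C ha (G1.rep_mem i) rfl).symm)) with rfl | rfl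
      · refine Or.inl (congrArg C.f ?_)
        exact mul_inv_eq_iff_eq_mul.mpr (mem_H.1 ha).2.symm
      · obtain ⟨l, e⟩ := cjR ha 1
        exact Or.inr ⟨l, by rw [← R1, e]⟩
    · rintro (rfl | ⟨k, rfl⟩)
      · exact ⟨IsConj.refl _, rfl⟩
      · obtain ⟨a, ha, e⟩ := toR k
        exact ⟨IsConj.trans ((h 2 5).mpr rfl) (St.cj_of C ha (G1.rep_mem 5) e), (C.cen _).mpr ⟨_, R_mem k, rfl⟩⟩
  ne k e := R_ne k (C.ext (R_mem k) St.al_mem e)
  inj k l e := t3 k l (by rw [← cp_R, ← cp_R, C.ext (R_mem k) (R_mem l) e])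
  sq k := by rw [← C.mul _ _ (R_mem k) (R_mem k), R_sq, C.one]
  cj k l := by rw [← C.mul _ _ (R_mem k) (R_mem l), ← C.mul _ _ (mul_mem (R_mem k) (R_mem l)) (R_mem k), R_cj]
  prod k := by
    have m2 := mul_mem (R_mem k) (R_mem (pa k))
    have m3 := mul_mem m2 (R_mem (f1 k))
    have m4 := mul_mem m3 (R_mem (pa (f1 k)))
    have m5 := mul_mem m4 (R_mem (f2 k))
    rw [← R_prod k, C.mul _ _ m5 (R_mem _), C.mul _ _ m4 (R_mem _), C.mul _ _ m3 (R_mem _), C.mul _ _ m2 (R_mem _),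
      C.mul _ _ (R_mem _) (R_mem _)]
  sgn := by
    obtain ⟨χ, m, v⟩ := St.exists_sg
    have hi : Function.Injective C.hom := fun p q h => Subtype.ext (C.ext p.2 q.2 h)
    have e : ∀ p ∈ H, (Function.invFun C.hom (C.f p)).1 = p := fun p hp =>
      congrArg Subtype.val (Function.leftInverse_invFun hi ⟨p, hp⟩)
    refine ⟨fun g => χ (Function.invFun C.hom g).1, fun g g' hg hg' => ?_, fun k => ?_⟩
    · obtain ⟨p, hp, rfl⟩ := (C.cen g).mp hg
      obtain ⟨q, hq, rfl⟩ := (C.cen g').mp hg'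
      beta_reduce
      rw [← C.mul _ _ hp hq, e _ hp, e _ hq, e _ (mul_mem hp hq), m _ hp _ hq]
    · obtain ⟨a, ha, ea⟩ := toR k
      have h1 := m _ (R_mem k) _ ha
      rw [← mul_inv_eq_iff_eq_mul.mp ea, m _ ha _ (G1.rep_mem 5), v, mul_comm] at h1
      beta_reduce
      rw [e _ (R_mem k), ← mul_right_cancel h1]
      decide
  cen g h1 h2 := by
    obtain ⟨p, hp, rfl⟩ := (C.cen g).mp h1
    have : closure (Set.range R) ≤ centralizer ({p} : Set P) := (closure_le _).mpr (by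
      rintro _ ⟨k, rfl⟩
      refine mem_centralizer_singleton_iff.mpr (C.ext (mul_mem (R_mem k) hp) (mul_mem hp (R_mem k)) ?_)
      rw [C.mul _ _ (R_mem k) hp, C.mul _ _ hp (R_mem k), h2 k])
    rcases St.centre hp (fun q hq => (mem_centralizer_singleton_iff.mp (this (genR hq))).symm) with rfl | rfl
    · exact Or.inl C.one
    · exact Or.inr rfl
  ne1 e := G1.rep_ne 2 (C.inj _ St.al_mem e)

theorem Loc_cj {D : Set G} {d : G} {r : Fin 30 → G} (L : Loc D d r) (hD : ∀ g x, x ∈ D → g * x * g⁻¹ ∈ D) (g : G) :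
    Loc D (g * d * g⁻¹) fun k => g * r k * g⁻¹ := by
  have key : ∀ x y : G, x * (g * y * g⁻¹) = g * y * g⁻¹ * x ↔ g⁻¹ * x * g * y = y * (g⁻¹ * x * g) := fun x y =>
    ⟨fun h => by
      have : g⁻¹ * x * g * y = g⁻¹ * (x * (g * y * g⁻¹)) * g := by group
      rw [this, h]; group, fun h => by
      have : x * (g * y * g⁻¹) = g * (g⁻¹ * x * g * y) * g⁻¹ := by group
      rw [this, h]; group⟩
  have k2 : ∀ x y : G, g⁻¹ * x * g = y ↔ x = g * y * g⁻¹ := fun x y =>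
    ⟨fun h => by rw [← h]; group, fun h => by rw [h]; group⟩
  have ci : ∀ x y : G, g * x * g⁻¹ = g * y * g⁻¹ → x = y := fun x y e => mul_left_cancel (mul_right_cancel e)
  refine ⟨fun x => ?_, fun k e => L.ne k (ci _ _ e), fun k l e => L.inj (ci _ _ e), fun k => ?_,
    fun k l => ?_, fun k => ?_, ?_, fun x h1 h2 => ?_, fun e => L.ne1 (conj_eq_one_iff.mp e)⟩
  · have : x ∈ D ↔ g⁻¹ * x * g ∈ D := ⟨fun h => by simpa using hD g⁻¹ x h, fun h => by
      have := hD g _ h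
      rwa [← (k2 _ _).mp rfl] at this⟩
    rw [this, key, L.mem]
    simp only [k2]
  · rw [conj_mul, L.sq]; simp
  · simp only [conj_mul, L.cj]
  · simp only [conj_mul, L.prod]
  · obtain ⟨χ, m, v⟩ := L.sgn
    refine ⟨fun x => χ (g⁻¹ * x * g), fun x y hx hy => ?_, fun k => ?_⟩
    · rw [← m _ _ ((key _ _).mp hx) ((key _ _).mp hy)]
      congr 1; group
    · rw [← v k]; congr 1; group
  · rcases L.cen _ ((key _ _).mp h1) (fun k => (key _ _).mp (h2 k)) with e | e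
    · exact Or.inl (by rw [(k2 _ _).mp e]; simp)
    · exact Or.inr ((k2 _ _).mp e)

end Md

open Md

theorem ctx {G : Type u} [Group G] [Finite G] (C : Ya.Ch G) (h : C.Fus Ya.c7) : Nonempty (Ctx G) := by
  refine ⟨⟨{x | IsConj (C.f al) x}, C.f al, fun _ => Iff.rfl, fun d hd => ?_, ?_⟩⟩
  · obtain ⟨g, rfl⟩ := isConj_iff.mp hd
    exact ⟨_, Loc_cj (loc0 C h) (fun g x hx => IsConj.trans hx (isConj_iff.mpr ⟨g, rfl⟩)) g⟩
  · have s := Ctl.syl C
    refine ⟨⟨C.im S0, s.pgroup, fun hQ hle => s.max _ le_top hQ hle⟩, fun x hx => ?_⟩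
    obtain ⟨p, hp, -, rfl⟩ := C.mem_im.mp hx
    exact (C.cen _).mpr ⟨p, hp, rfl⟩

end Cfsg.Agent.WA.Ys
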