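import Cfsg.Agent.WA.YsDef

/-! S3298, the `Sp₆(2)` branch: table facts. -/

set_option autoImplicit false

namespace Cfsg.Agent.WA.Ys

theorem t_cc : ∀ k l : Fin 30, cj k (cj k l) = l := by decide +kernel
theorem t_self : ∀ k : Fin 30, cj k k = k := by decide +kernel
theorem t_sym : ∀ k l : Fin 30, cj k l = l → cj l k = k := by decide +kernel
theorem t_braid : ∀ k l : Fin 30, cj k l ≠ l → cj k l = cj l k := by decide +kernel
theorem t_pa : ∀ k : Fin 30, pa k ≠ k ∧ pa (pa k) = k ∧ cj k (pa k) = pa k := by decide +kernel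
theorem t_pac : ∀ k m : Fin 30, cj m (pa k) = pa k ↔ cj m k = k := by decide +kernel
theorem t_pau : ∀ k l : Fin 30, l ≠ k → (∀ m, cj m k = k → cj m l = l) → l = pa k := by decide +kernel
theorem t_m4 : ∀ a b : Fin 30, cj a b ≠ b → ∀ y, cj y a = a ∨ cj y b = b ∨ cj y (cj a b) = cj a b := by
  decide +kernel
theorem t_mid : ∀ x a : Fin 30, ∃ m, cj m x = x ∧ m ≠ x ∧ m ≠ pa x ∧ cj m a = a ∧ a ≠ m ∧ a ≠ pa m := by
  decide +kernel
theorem t_pp : cj 0 2 ≠ 2 ∧ ∀ k l : Fin 30, (k = 0 ∨ k = 1) → (l = 2 ∨ l = 3) → cj (pa k) (pa l) = cj k l := by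
  decide +kernel
theorem t_fr : ∀ k : Fin 30, cj k (f1 k) = f1 k ∧ f1 k ≠ k ∧ pa (f1 k) ≠ k ∧ cj k (f2 k) = f2 k ∧ f2 k ≠ k ∧
    pa (f2 k) ≠ k := by decide +kernel
theorem t_two : ∀ a y : Fin 30, a ≠ y → ∃ x, cj a (cj y x) ≠ x := by decide +kernel
theorem t_third : ∀ a b : Fin 30, cj a b = b → ∃ c, cj a c = c ∧ cj b c = c ∧ c ≠ a ∧ c ≠ b := by decide +kernel


end Cfsg.Agent.WA.Ys
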