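import Cfsg.Agent.WA.IZdB
import Cfsg.Agent.H5.PBasic

/-! Some involution outside `D` centralizes a four-subgroup of `D ∪ 1` (PLAN_ZD.md, IZd1). -/

set_option autoImplicit false
set_option linter.unusedSectionVars false
set_option linter.unusedVariables false

namespace Cfsg.Agent.WA.Zd

open Subgroup MulAction Cfsg.Agent.FT Cfsg.Agent.L0 Cfsg.Agent.H8 Cfsg.Agent.BS Cfsg.Agent.WA.Te
open Cfsg.Agent.H7 (opp)
open scoped Pointwise commutatorElement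

universe u

variable {G Ω : Type u} [Group G] [Finite G] [MulAction G Ω] {𝒮 D : Set G} {a b c : Ω} {d e g k s t u w x y z : G}
  {L P T : Subgroup G} {A R : Ω → Subgroup G} {q r m lam : ℕ}
  [IsSimpleGroup G]

omit [IsSimpleGroup G] in
theorem z1_card_le {X : Set G} (h : ∀ g ∈ T, g * d * g⁻¹ ∈ X) : #|T| ≤ X.ncard * #|(T ⊓ 𝐂[d] : Subgroup G)| := by
  rw [← ncard_conj_mul T d]
  exact Nat.mul_le_mul_right _ (Set.ncard_le_ncard (fun u ⟨g, hg, e⟩ => e ▸ h g hg) (Set.toFinite _))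

omit [IsSimpleGroup G] in
theorem z1_four (hP : IsPGroup 2 P) (hy : y ∈ P) (h : y * y ≠ 1) : ∃ n : ℕ, Invo (y ^ n * y ^ n) := by
  obtain ⟨n, hn⟩ := exists_invo_pow_of_two_elt (H5.IsPGroup_pow_eq_one hP (mul_mem hy hy)) h
  exact ⟨n, by rwa [← (Commute.refl y).mul_pow]⟩

/-- the situation of the proof by contradiction -/
structure Z1 (Ω : Type u) [MulAction G Ω] (𝒮 D : Set G) (T S : Subgroup G) (z : G) : Prop where
  pz : Pz Ω 𝒮 D
  no : ∀ t, Invo t → ∀ d ∈ D, ∀ e ∈ D, d ≠ e → d * e = e * d → t * d = d * t → t * e = e * t → t ∈ D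
  syl : IsSylowIn 2 T ⊤
  mem : ∀ x, x ∈ S ↔ x ∈ 𝒮 ∧ x ∈ T
  norm : T ≤ 𝐍(S)
  zD : z ∈ D
  zT : z ∈ T
  zc : ∀ x ∈ T, x * z = z * x

namespace Z1

variable {S : Subgroup G} (h : Z1 Ω 𝒮 D T S z)
include h

theorem iz : Invo z := h.pz.zd.td.invo z h.zD
theorem le : S ≤ T := fun x hx => ((h.mem x).mp hx).2
theorem memS (hd : d ∈ D) (hT : d ∈ T) : d ∈ S := (h.mem d).mpr ⟨h.pz.zd.mem hd, hT⟩
theorem memD (hx : x ∈ S) (hi : Invo x) : x ∈ D := (h.pz.zd.memD x).mpr ⟨((h.mem x).mp hx).1, hi⟩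

theorem th (hP : P ≤ T) (h2 : #|T| ≤ 2 * #|P|) : ∃ t ∈ P, Invo t ∧ t ∉ D := by
  obtain ⟨t, ht, hn⟩ := h.pz.ex
  obtain ⟨g, hg⟩ := h.pz.thompson h.syl hP h2 ht
  refine ⟨_, hg, ht.conj g, fun e => hn ?_⟩
  have := h.pz.zd.td.conj _ e g⁻¹
  rwa [show g⁻¹ * (g * t * g⁻¹) * g⁻¹⁻¹ = t by group] at this

theorem i (hd : d ∈ D) (hT : d ∈ T) (hne : d ≠ z) (hc : ∀ g ∈ T, g * d * g⁻¹ = d ∨ g * d * g⁻¹ = z * d) : False := by
  have h1 := z1_card_le (T := T) (d := d) (X := {d, z * d}) hc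
  have h2 : ({d, z * d} : Set G).ncard ≤ 2 := (Set.ncard_insert_le _ _).trans (by simp)
  obtain ⟨t, ht, i, hn⟩ := h.th (P := T ⊓ 𝐂[d]) inf_le_left (h1.trans (Nat.mul_le_mul_right _ h2))
  exact hn (h.no t i d hd z h.zD hne (h.zc d hT) (mem_centralizer_singleton_iff.mp ht.2) (h.zc t ht.1))

theorem ii : ∃ u ∈ S, u * u = z ∧ ∀ g ∈ T, g * u * g⁻¹ = u ∨ g * u * g⁻¹ = u⁻¹ := by
  have hn : ¬ S ≤ zpowers z := fun e => by
    obtain ⟨d, hd, e', he, h1, h2, h3⟩ := h.pz.nc_sylow h.syl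
    rcases h.iz.mem_zpowers_iff.mp (e (h.memS hd h1)) with r | r
    · exact (h.pz.zd.td.invo d hd).2 r
    · exact h3 (r ▸ (h.zc e' h2).symm)
  obtain ⟨u, hu, h1, h2, h3⟩ := H5.exists_mem_not_mem_central_mod h.syl.pgroup h.le h.norm hn
  have h4 : ∀ g ∈ T, g * u * g⁻¹ = u ∨ g * u * g⁻¹ = z * u := fun g hg => by
    have := inv_mem (h3 g hg)
    rw [commutatorElement_inv, commutatorElement_def] at this
    exact (h.iz.mem_zpowers_iff.mp this).imp (fun e => mul_inv_eq_one.mp e) fun e => mul_inv_eq_iff_eq_mul.mp e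
  rw [pow_two] at h2
  rcases h.iz.mem_zpowers_iff.mp h2 with e | e
  · exact (h.i (h.memD hu ⟨e, fun r => h1 (r ▸ one_mem _)⟩) (h.le hu) (fun r => h1 (r ▸ mem_zpowers _)) h4).elim
  · refine ⟨u, hu, e, fun g hg => (h4 g hg).imp_right fun r => r.trans (eq_inv_of_mul_eq_one_left ?_)⟩
    rw [mul_assoc, e, h.iz.1]

section U

variable (hu : u ∈ S) (h2 : u * u = z) (hc : ∀ g ∈ T, g * u * g⁻¹ = u ∨ g * u * g⁻¹ = u⁻¹)
include hu h2 hc

theorem nS0 : T ≤ 𝐍(S ⊓ 𝐂[u]) := fun g hg => by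
  refine mem_normalizer_of_cj_le ?_
  rw [cj_inf, cj_eq_self (h.norm hg), cj_centralizer_singleton]
  refine inf_le_inf_left _ fun x hx => ?_
  rw [mem_centralizer_singleton_iff] at hx ⊢
  rcases hc g hg with e | e <;> rw [e] at hx
  · exact hx
  · exact Commute.inv_right_iff.mp hx

theorem iii (hy : y ∈ S ⊓ 𝐂[u]) (h1 : y * y = 1) : y = 1 ∨ y = z := by
  have hz := h.iz
  let 𝒬 : Set (Subgroup G) := {Q | T ≤ 𝐍(Q) ∧ u ∈ Q ∧ Q ≤ S ⊓ 𝐂[u] ∧ ∀ y ∈ Q, y * y = 1 → y = 1 ∨ y = z}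
  have h0 : zpowers u ∈ 𝒬 := by
    refine ⟨fun g hg => mem_normalizer_of_cj_le ?_, mem_zpowers u,
      zpowers_le.mpr ⟨hu, mem_centralizer_singleton_iff.mpr rfl⟩, ?_⟩
    · rw [cj, MonoidHom.map_zpowers, zpowers_le]
      change g * u * g⁻¹ ∈ _
      rcases hc g hg with e | e <;> rw [e]
      exacts [mem_zpowers u, inv_mem (mem_zpowers u)]
    · rintro _ ⟨n, rfl⟩ hn
      have e : z ^ n = 1 := by rw [← h2, (Commute.refl u).mul_zpow]; exact hn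
      have := orderOf_dvd_iff_zpow_eq_one.mpr e
      rw [hz.orderOf_eq] at this
      obtain ⟨j, rfl⟩ := this
      refine hz.mem_zpowers_iff.mp ⟨j, ?_⟩
      simp only [← h2]
      rw [zpow_mul]; norm_cast; rw [pow_two]
  obtain ⟨Q, ⟨q1, q2, q3, q4⟩, hm⟩ := (Set.toFinite 𝒬).exists_maximal ⟨_, h0⟩
  rcases q3.eq_or_lt with e | e
  · exact q4 y (e ▸ hy) h1
  exfalso
  obtain ⟨L, l1, l2, l3, l4, l5, -⟩ := H5.exists_invariant_relIndex_eq h.syl.pgroup (inf_le_left.trans h.le)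
    (h.nS0 hu h2 hc) q1 e
  have : ¬ L ∈ 𝒬 := fun e => by
    have := card_le_of_le (hm e l1)
    have := Nat.card_pos (α := Q)
    omega
  simp only [𝒬, Set.mem_ofPred_eq, not_and, not_forall, not_or] at this
  obtain ⟨d, dL, d2, d1, dz⟩ := this l3 (l1 q2) l2
  have dT := h.le (l2 dL).1
  refine h.i (h.memD (l2 dL).1 ⟨d2, d1⟩) dT dz fun g hg => ?_
  have hv : g * d * g⁻¹ * d⁻¹ ∈ Q := by
    have := inv_mem (l4 (commutator_mem_commutator dL hg))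
    rwa [commutatorElement_inv, commutatorElement_def] at this
  set v := g * d * g⁻¹ * d⁻¹ with ev
  have hi : d * v * d = v⁻¹ := by
    have e1 : d⁻¹ = d := inv_eq_of_mul_eq_one_right d2
    rw [ev]
    calc d * (g * d * g⁻¹ * d⁻¹) * d = d * g * d * g⁻¹ := by group
      _ = d * g * d⁻¹ * g⁻¹ := by rw [e1]
      _ = _ := by group
  by_cases hv2 : v * v = 1
  · exact (q4 v hv hv2).imp (fun e => mul_inv_eq_one.mp e) fun e => mul_inv_eq_iff_eq_mul.mp e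
  exfalso
  obtain ⟨n, hn⟩ := z1_four (h.syl.pgroup.to_le (q3.trans (inf_le_left.trans h.le))) hv hv2
  have hw := pow_mem hv n
  have hi' := inverts_pow d2 hi n
  generalize v ^ n = w at hn hw hi'
  have w2 : w * w = z := (q4 _ (mul_mem hw hw) hn.1).resolve_left hn.2
  have wu : w * u = u * w := mem_centralizer_singleton_iff.mp (q3 hw).2
  have du : Commute d u := mem_centralizer_singleton_iff.mp (l2 dL).2
  have : w * u * (w * u) = 1 := by
    calc w * u * (w * u) = w * (u * w) * u := by group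
      _ = w * w * (u * u) := by rw [← wu]; group
      _ = 1 := by rw [w2, h2, hz.1]
  have dw : Commute d w := by
    rcases q4 _ (mul_mem hw q2) this with e | e
    · rw [eq_inv_of_mul_eq_one_left e]; exact du.inv_right
    · rw [← h2] at e; rw [mul_right_cancel e]; exact du
  rw [dw.eq, mul_assoc, d2, mul_one] at hi'
  exact hn.2 (eq_inv_iff_mul_eq_one.mp hi')

theorem iv (hd : d ∈ D) (hT : d ∈ T) (hne : d ≠ z) : d * u * d⁻¹ = u⁻¹ := by
  have i := h.pz.zd.td.invo d hd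
  refine (hc d hT).resolve_left fun e => ?_
  exact (h.iii hu h2 hc ⟨h.memS hd hT, mem_centralizer_singleton_iff.mpr (mul_inv_eq_iff_eq_mul.mp e)⟩ i.1).elim i.2 hne

theorem mul_mem0 (hd : d ∈ D) (hT : d ∈ T) (hne : d ≠ z) (he : e ∈ D) (hT' : e ∈ T) (hne' : e ≠ z) :
    d * e ∈ S ⊓ 𝐂[u] := by
  refine ⟨mul_mem (h.memS hd hT) (h.memS he hT'), mem_centralizer_singleton_iff.mpr (mul_inv_eq_iff_eq_mul.mp ?_)⟩
  calc d * e * u * (d * e)⁻¹ = d * (e * u * e⁻¹) * d⁻¹ := by group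
    _ = (d * u * d⁻¹)⁻¹ := by rw [h.iv hu h2 hc he hT' hne']; group
    _ = u := by rw [h.iv hu h2 hc hd hT hne, inv_inv]

theorem nsq (hx : x ∈ T) (hd : x * x ∈ D) : x * x = z := by
  by_contra hne
  have e1 := h.iv hu h2 hc hd (mul_mem hx hx) hne
  have e2 : x * x * u * (x * x)⁻¹ = u := by
    rw [show x * x * u * (x * x)⁻¹ = x * (x * u * x⁻¹) * x⁻¹ by group]
    rcases hc x hx with e | e
    · rw [e, e]
    · rw [e, show x * u⁻¹ * x⁻¹ = (x * u * x⁻¹)⁻¹ by group, e, inv_inv]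
  rw [e2] at e1
  exact h.iz.2 (h2 ▸ eq_inv_iff_mul_eq_one.mp e1)

theorem v (hd : d ∈ D) (hT : d ∈ T) (hne : d ≠ z) (hy : y ∈ T ⊓ 𝐂[d]) : y ∈ ({1, z, d, z * d} : Set G) := by
  have i := h.pz.zd.td.invo d hd
  have hD : ∀ y ∈ T ⊓ 𝐂[d], Invo y → y ∈ D := fun y hy iy =>
    h.no y iy d hd z h.zD hne (h.zc d hT) (mem_centralizer_singleton_iff.mp hy.2) (h.zc y hy.1)
  by_cases y2 : y * y = 1
  · simp only [Set.mem_insert_iff, Set.mem_singleton_iff]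
    by_cases y1 : y = 1
    · exact Or.inl y1
    by_cases yz : y = z
    · exact Or.inr (Or.inl yz)
    have c : y * d = d * y := mem_centralizer_singleton_iff.mp hy.2
    have := h.iii hu h2 hc (h.mul_mem0 hu h2 hc (hD y hy ⟨y2, y1⟩) hy.1 yz hd hT hne) (by
      calc y * d * (y * d) = y * (d * y) * d := by group
        _ = y * y * (d * d) := by rw [← c]; group
        _ = 1 := by rw [y2, i.1, mul_one])
    refine Or.inr (Or.inr (this.imp (fun e => ?_) fun e => ?_))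
    · rw [eq_inv_of_mul_eq_one_left e, i.inv_eq]
    · rw [← e, i.mul_mul']
  exfalso
  obtain ⟨n, hn⟩ := z1_four (h.syl.pgroup.to_le inf_le_left) hy y2
  have hw := pow_mem hy n
  generalize y ^ n = w at hn hw
  have w2 := h.nsq hu h2 hc hw.1 (hD _ (mul_mem hw hw) hn)
  obtain ⟨g, hg⟩ := h.pz.isConj hd h.zD
  have hTz : T ≤ 𝐂[z] := fun x hx => mem_centralizer_singleton_iff.mpr (h.zc x hx)
  obtain ⟨T', t1, t2⟩ := exists_isSylowIn_ge (K := 𝐂[z]) (pgroup_cj (h.syl.pgroup.to_le (inf_le_left (b := 𝐂[d]))) g)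
    (by rw [← hg, ← cj_centralizer_singleton]; exact cj_mono g inf_le_right)
  obtain ⟨k, hk, ek⟩ := t1.exists_cj_eq (h.syl.of_le hTz le_top)
  have m : k * (g * w * g⁻¹) * k⁻¹ ∈ T := ek ▸ conj_mem_cj k (t2 (conj_mem_cj g hw))
  have e1 : k * (g * w * g⁻¹) * k⁻¹ * (k * (g * w * g⁻¹) * k⁻¹) = k * g * z * (k * g)⁻¹ := by
    rw [← w2]; group
  have e2 := h.nsq hu h2 hc m (e1 ▸ h.pz.zd.td.conj z h.zD _)
  have e3 : k * g * d * (k * g)⁻¹ = z := by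
    rw [show k * g * d * (k * g)⁻¹ = k * (g * d * g⁻¹) * k⁻¹ by group, hg, mem_centralizer_singleton_iff.mp hk]; group
  rw [e1] at e2
  exact hne (mul_left_cancel (mul_right_cancel (e3.trans e2.symm)))

end U

theorem false : False := by
  obtain ⟨u, hu, h2, hc⟩ := h.ii
  obtain ⟨d, hd, hT, hne⟩ : ∃ d ∈ D, d ∈ T ∧ d ≠ z := by
    obtain ⟨d, hd, e', he, h1, h2, h3⟩ := h.pz.nc_sylow h.syl
    exact ⟨d, hd, h1, fun r => h3 (r ▸ (h.zc e' h2).symm)⟩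
  have i := h.pz.zd.td.invo d hd
  have c1 : #|(T ⊓ 𝐂[d] : Subgroup G)| ≤ 4 := by
    have : ({1, z, d, z * d} : Set G).ncard ≤ 4 :=
      (Set.ncard_insert_le _ _).trans (Nat.succ_le_succ ((Set.ncard_insert_le _ _).trans (Nat.succ_le_succ
        ((Set.ncard_insert_le _ _).trans (by simp)))))
    exact (Set.ncard_le_ncard (fun y hy => h.v hu h2 hc hd hT hne hy) (Set.toFinite _)).trans this
  have c2 := z1_card_le (T := T) (d := d) (X := (fun x => d * x) '' (S ⊓ 𝐂[u] : Subgroup G)) fun g hg =>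
    ⟨d * (g * d * g⁻¹), h.mul_mem0 hu h2 hc hd hT hne (h.pz.zd.td.conj d hd g) (mul_mem (mul_mem hg hT) (inv_mem hg))
      (fun e => hne (by rw [mul_inv_eq_iff_eq_mul, ← h.zc g hg] at e; exact mul_left_cancel e)), i.mul_mul _⟩
  rw [Set.ncard_image_of_injective _ (mul_right_injective d)] at c2
  have c3 : 2 * #|(S ⊓ 𝐂[u] : Subgroup G)| ≤ #|S| := by
    obtain ⟨j, hj⟩ := card_dvd_of_le (inf_le_left : S ⊓ 𝐂[u] ≤ S)
    have : j ≠ 1 := fun e => by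
      rw [e, mul_one] at hj
      have := eq_of_le_of_card_ge (inf_le_left : S ⊓ 𝐂[u] ≤ S) hj.le
      exact (h.iii hu h2 hc (this.symm ▸ h.memS hd hT) i.1).elim i.2 hne
    have h0 : j ≠ 0 := fun e => by rw [e, mul_zero] at hj; exact Nat.card_pos.ne' hj
    rw [hj, mul_comm]
    exact Nat.mul_le_mul_left _ (by omega)
  obtain ⟨t, ht, it, hn⟩ := h.th h.le (c2.trans ((Nat.mul_le_mul_left _ c1).trans (by
    change #|(S ⊓ 𝐂[u] : Subgroup G)| * 4 ≤ _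
    omega)))
  exact hn (h.memD ht it)

end Z1

theorem Pz.type1 (h : Pz Ω 𝒮 D) : ∃ t, Invo t ∧ t ∉ D ∧ ∃ d ∈ D, ∃ e ∈ D, d ≠ e ∧ d * e = e * d ∧ t * d = d * t ∧
    t * e = e * t := by
  by_contra hn
  obtain ⟨T, hT⟩ := exists_isSylowIn 2 (⊤ : Subgroup G)
  obtain ⟨S, h1, h2, h3⟩ := h.zd.exists_S hT.pgroup
  obtain ⟨d, hd, -, -, hdT, -⟩ := h.nc_sylow hT
  obtain ⟨z, z1, z2, z3⟩ := h.zd.exists_center hT.pgroup (h.zd.mem hd) hdT (h.zd.td.invo d hd).2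
  exact Z1.false (S := S) ⟨h, fun t ht d hd e he a1 a2 a3 a4 => by_contra fun r =>
    hn ⟨t, ht, r, d, hd, e, he, a1, a2, a3, a4⟩, hT, h1, le_normalizer.trans h3, z1, z2, z3⟩

end Cfsg.Agent.WA.Zd
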