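import Cfsg.Agent.WA.ZdDef

/-! Basic facts (PLAN_ZD.md). -/

set_option autoImplicit false
set_option linter.unusedSectionVars false
set_option linter.unusedVariables false

namespace Cfsg.Agent.WA.Zd

open Subgroup MulAction Cfsg.Agent.FT Cfsg.Agent.L0 Cfsg.Agent.H8 Cfsg.Agent.BS Cfsg.Agent.WA.Te
open Cfsg.Agent.H7 (opp)
open scoped Pointwise commutatorElement

universe u

variable {G Ω : Type u} [Group G] [Finite G] [MulAction G Ω] {𝒮 D : Set G} {a b c : Ω} {d e g k s t u w x y z : G}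
  {L P T : Subgroup G} {A R : Ω → Subgroup G} {q r m lam : ℕ}

theorem TD.eq_of_fix (h : TD Ω D) (hd : d ∈ D) (ha : d • a = a) (hb : d • b = b) : a = b :=
  (h.fix d hd).unique ha hb

theorem TD.fix_of_comm (h : TD Ω D) (hd : d ∈ D) (ha : d • a = a) (hc : g * d = d * g) : g • a = a :=
  h.eq_of_fix hd (by rw [← mul_smul, ← hc, mul_smul, ha]) ha

theorem TD.mem_of_pow (h : TD Ω D) (hd : d ∈ D) (he : e ∈ D) {n : ℕ} (hn : Invo ((d * e) ^ n)) : (d * e) ^ n ∈ D := by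
  have h1 := (h.invo d hd).1
  have h2 := (h.invo e he).1
  have c := comm_of_invo h1 hn.1 (inv_de h1 h2 n)
  have hm : d * (d * e) ^ n ∈ D := by
    rcases dihedral (n := n) h1 h2 with ⟨⟨g, e1⟩, -⟩ | ⟨⟨g, e1⟩, -⟩ <;> rw [e1]
    · exact h.conj d hd g
    · exact h.conj e he g
  have := h.mul d hd _ hm (by rw [mul_assoc, c]) (fun e1 => hn.2 (left_eq_mul.mp e1))
  rwa [← mul_assoc, h1, one_mul] at this

theorem TD.odd_mul (h : TD Ω D) (hd : d ∈ D) (he : e ∈ D) (ha : d • a = a) (hb : e • b = b) (hab : a ≠ b) :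
    Odd (orderOf (d * e)) := by
  by_contra hn
  obtain ⟨n, hn⟩ := exists_invo_pow_of_even (Nat.not_odd_iff_even.1 hn)
  have h1 := (h.invo d hd).1
  have h2 := (h.invo e he).1
  exact hab (h.eq_of_fix (h.mem_of_pow hd he hn) (h.fix_of_comm hd ha (comm_of_invo h1 hn.1 (inv_de h1 h2 n)))
    (h.fix_of_comm he hb (comm_of_invo h2 hn.1 (inv_de' h1 h2 n))))

theorem TD.exists_swap (h : TD Ω D) (hd : d ∈ D) (he : e ∈ D) (ha : d • a = a) (hb : e • b = b) (hab : a ≠ b) :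
    ∃ w ∈ D, w ∈ closure ({d, e} : Set G) ∧ w * d * w = e ∧ w • a = b ∧ w • b = a := by
  obtain ⟨n, hn⟩ := exists_swap_of_odd (h.invo d hd).1 (h.invo e he).1 (h.odd_mul hd he ha hb hab)
  have hw : ((d * e) ^ n)⁻¹ * d * (d * e) ^ n ∈ D := by simpa using h.conj d hd ((d * e) ^ n)⁻¹
  have m1 : d ∈ closure ({d, e} : Set G) := subset_closure (by simp)
  have m2 : (d * e) ^ n ∈ closure ({d, e} : Set G) := pow_mem (mul_mem m1 (subset_closure (by simp))) n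
  have m3 := mul_mem (mul_mem (inv_mem m2) m1) m2
  generalize ((d * e) ^ n)⁻¹ * d * (d * e) ^ n = w at hn hw m3
  have i := h.invo w hw
  have h1 : w • a = b := h.eq_of_fix he (by rw [← hn, mul_smul, mul_smul, i.smul_smul, ha]) hb
  exact ⟨w, hw, m3, hn, h1, by rw [← h1, i.smul_smul]⟩

theorem TD.swap_unique (h : TD Ω D) (hd : d ∈ D) (ha : d • a = a) {w' : G} (hw : w ∈ D) (hw' : w' ∈ D) (h1 : w • a ≠ a)
    (e : w * d * w = w' * d * w') : w = w' := by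
  have i := h.invo w hw
  have i' := h.invo w' hw'
  have hm : w * d * w ∈ D := by simpa [i.inv_eq] using h.conj d hd w
  have h2 : w • a = w' • a := h.eq_of_fix hm (by rw [mul_smul, mul_smul, i.smul_smul, ha])
    (by rw [e, mul_smul, mul_smul, i'.smul_smul, ha])
  obtain ⟨c, hc, -⟩ := h.fix w hw
  obtain ⟨c', hc', -⟩ := h.fix w' hw'
  have o1 := h.odd_mul hw hd hc ha (by rintro rfl; exact h1 hc)
  have o2 := h.odd_mul hw' hd hc' ha (by rintro rfl; exact h1 (h2.trans hc'))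
  exact mul_right_cancel (eq_of_sq_eq_of_odd o1 o2 (by rw [← mul_assoc, ← mul_assoc, e]))

theorem TD.exists_swap_in (h : TD Ω D) (ha : a ∈ Cov Ω (D ∩ L)) (hb : b ∈ Cov Ω (D ∩ L)) (hab : a ≠ b) :
    ∃ w ∈ D, w ∈ L ∧ w • a = b ∧ w • b = a := by
  obtain ⟨d, ⟨hd, hdL⟩, ha⟩ := ha
  obtain ⟨e, ⟨he, heL⟩, hb⟩ := hb
  obtain ⟨w, hw, m, -, h1, h2⟩ := h.exists_swap hd he ha hb hab
  refine ⟨w, hw, (closure_le L).2 ?_ m, h1, h2⟩
  rintro x (rfl | rfl) <;> assumption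

theorem TD.conj_in_aux (h : TD Ω D) (hd : d ∈ D) (hdL : d ∈ L) (he : e ∈ D) (heL : e ∈ L) (ha : d • a = a)
    (hb : e • b = b) (hab : a ≠ b) : ∃ g ∈ closure (D ∩ L), g * d * g⁻¹ = e := by
  obtain ⟨w, hw, m, h1, -⟩ := h.exists_swap hd he ha hb hab
  refine ⟨w, closure_mono ?_ m, by rwa [(h.invo w hw).inv_eq]⟩
  rintro x (rfl | rfl)
  exacts [⟨hd, hdL⟩, ⟨he, heL⟩]

theorem TD.conj_in (h : TD Ω D) (ha : a ∈ Cov Ω (D ∩ L)) (hb : b ∈ Cov Ω (D ∩ L)) (hab : a ≠ b) (hd : d ∈ D)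
    (hdL : d ∈ L) (he : e ∈ D) (heL : e ∈ L) : ∃ g ∈ closure (D ∩ L), g * d * g⁻¹ = e := by
  obtain ⟨c, hc, -⟩ := h.fix d hd
  obtain ⟨c', hc', -⟩ := h.fix e he
  by_cases hcc : c = c'
  · subst hcc
    obtain ⟨c', ⟨v, ⟨hv, hvL⟩, hv'⟩, hne⟩ : ∃ c' ∈ Cov Ω (D ∩ L), c ≠ c' := by
      by_cases h1 : c = a
      · exact ⟨b, hb, h1 ▸ hab⟩
      · exact ⟨a, ha, h1⟩
    obtain ⟨g, hg, e1⟩ := h.conj_in_aux hd hdL hv hvL hc hv' hne
    obtain ⟨g', hg', e2⟩ := h.conj_in_aux hv hvL he heL hv' hc' hne.symm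
    exact ⟨g' * g, mul_mem hg' hg, by rw [← e2, ← e1]; group⟩
  · exact h.conj_in_aux hd hdL he heL hc hc' hcc

theorem TD.cov_smul (h : TD Ω D) (hg : g ∈ L) (ha : a ∈ Cov Ω (D ∩ L)) : g • a ∈ Cov Ω (D ∩ L) := by
  obtain ⟨d, ⟨hd, hdL⟩, ha⟩ := ha
  exact ⟨g * d * g⁻¹, ⟨h.conj d hd g, mul_mem (mul_mem hg hdL) (inv_mem hg)⟩, by rw [conj_smul_smul, ha]⟩

theorem TD.mul_not_mem (h : TD Ω D) (ht : Invo t) (ht' : t ∉ D) (hd : d ∈ D) (hc : t * d = d * t) :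
    Invo (t * d) ∧ t * d ∉ D := by
  have i := h.invo d hd
  refine ⟨ht.mul_of_comm i hc (by rintro rfl; exact ht' hd), fun hm => ht' ?_⟩
  have := h.mul _ hm d hd (by rw [← mul_assoc, ← hc]) (fun e => ht.2 (mul_eq_right.mp e))
  rwa [i.mul_mul'] at this

theorem TD.trans (h : TD Ω D) (hc : ∀ a : Ω, a ∈ Cov Ω D) (a b : Ω) : ∃ g ∈ closure D, g • a = b := by
  by_cases hab : a = b
  · exact ⟨1, one_mem _, by rw [one_smul, hab]⟩
  · obtain ⟨w, hw, -, e, -⟩ := h.exists_swap_in (L := ⊤) (by simpa using hc a) (by simpa using hc b) hab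
    exact ⟨w, subset_closure hw, e⟩

theorem TD.se (h : TD Ω D) (co : Co Ω D) (hc : ∀ a : Ω, a ∈ Cov Ω D) (h2 : ∃ a b : Ω, a ≠ b) : SE (closure D) Ω where
  trans a b := by
    obtain ⟨g, hg, e⟩ := h.trans hc a b
    exact ⟨⟨g, hg⟩, e⟩
  two := h2
  ex := by
    obtain ⟨a, -⟩ := h2
    obtain ⟨d, hd, -⟩ := hc a
    exact ⟨⟨d, subset_closure hd⟩, Subtype.ext (h.invo d hd).1, fun e => (h.invo d hd).2 (congrArg Subtype.val e)⟩
  fix1 s hs := by
    have i : Invo (s : G) := ⟨congrArg Subtype.val hs.1, fun e => hs.2 (Subtype.ext e)⟩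
    obtain ⟨a, -⟩ := h2
    obtain ⟨x, hd, hx⟩ := hc a
    have ix := h.invo x hd
    have : ∃ c : Ω, (s : G) • c = c := by
      by_cases ho : Odd (orderOf (x * s))
      · obtain ⟨w, hw, e, -⟩ := exists_invo_conj ix i ho
        exact ⟨w • a, by rw [← e, mul_smul, mul_smul, hw.smul_smul, hx]⟩
      · obtain ⟨n, hn⟩ := exists_invo_pow_of_even (Nat.not_odd_iff_even.1 ho)
        have f := h.fix_of_comm hd hx (comm_of_invo ix.1 hn.1 (inv_de ix.1 i.1 n))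
        have c := comm_of_invo i.1 hn.1 (inv_de' ix.1 i.1 n)
        exact ⟨a, co _ (pow_mem (mul_mem (subset_closure hd) s.2) n) hn _ (hc _) a (hc a) (smul_fix_of_comm c.symm f) f⟩
    obtain ⟨c, e⟩ := this
    exact ⟨c, e, fun y hy => co s s.2 i y (hc y) c (hc c) hy e⟩

theorem TD.comm_ker (h : TD Ω D) (co : Co Ω D) (hc : ∀ a : Ω, a ∈ Cov Ω D) (h2 : ∃ a b : Ω, a ≠ b)
    (hr : ∃ d ∈ D, ∃ e ∈ D, d ≠ e ∧ d * e = e * d) (hd : d ∈ D) (he : e ∈ D) (ha : d • a = a) (hb : e • a = a)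
    (c : Ω) : ⁅d, e⁆ • c = c := by
  have se := h.se co hc h2
  have iv : ∀ d (hd : d ∈ D), Invo (⟨d, subset_closure hd⟩ : closure D) := fun d hd =>
    ⟨Subtype.ext (h.invo d hd).1, fun e => (h.invo d hd).2 (congrArg Subtype.val e)⟩
  obtain ⟨x, hx, y, hy, hne, hxy⟩ := hr
  obtain ⟨S, hS⟩ := (se.brc ⟨_, trivial, _, trivial, iv x hx, iv y hy, fun e => hne (congrArg Subtype.val e),
    Subtype.ext hxy⟩ a).exists_BRS
  obtain ⟨b, hab⟩ := se.exists_ne a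
  obtain ⟨g, rfl⟩ := se.trans a b
  obtain ⟨g', rfl⟩ := se.trans a c
  exact (hS.invo_comm_invo se trivial hab ⟨iv d hd, ha⟩ trivial ⟨iv e he, hb⟩ trivial).2 g' trivial

theorem TD.c1_exists (h : TD Ω D) (ht : Invo t) (ht' : t ∉ D) (he : e ∈ D) (hc : e • c = c) (hn : t • c ≠ c) :
    ∃ w ∈ D, t * w = w * t ∧ t * w * e = e * (t * w) := by
  have h2 := (h.invo e he).1
  have hev : Even (orderOf (t * e)) := by
    by_contra ho
    obtain ⟨n, hn⟩ := exists_swap_of_odd ht.1 h2 (Nat.not_even_iff_odd.mp ho)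
    have i : ((t * e) ^ n)⁻¹ * t * (t * e) ^ n * (((t * e) ^ n)⁻¹ * t * (t * e) ^ n) = 1 := by
      calc _ = ((t * e) ^ n)⁻¹ * (t * t) * (t * e) ^ n := by group
        _ = 1 := by rw [ht.1]; group
    generalize ((t * e) ^ n)⁻¹ * t * (t * e) ^ n = y at hn i
    have := h.conj e he y
    rw [← hn, inv_eq_of_mul_eq_one_right i, show y * (y * t * y) * y = (y * y) * t * (y * y) by group, i, one_mul,
      mul_one] at this
    exact ht' this
  obtain ⟨n, hv⟩ := exists_invo_pow_of_even hev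
  have c1 := comm_of_invo ht.1 hv.1 (inv_de ht.1 h2 n)
  have c2 := comm_of_invo h2 hv.1 (inv_de' ht.1 h2 n)
  have key := dihedral (n := n) ht.1 h2
  generalize (t * e) ^ n = v at hv c1 c2 key
  rcases key with ⟨-, g, e1⟩ | ⟨⟨g, e1⟩, -⟩
  · exfalso
    have m : e * v ∈ D := e1 ▸ h.conj e he g
    have := h.mul e he _ m (by rw [mul_assoc, c2]) (fun e2 => hv.2 (left_eq_mul.mp e2))
    rw [← mul_assoc, h2, one_mul] at this
    exact hn (h.fix_of_comm this (h.fix_of_comm he hc c2) c1.symm)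
  · refine ⟨t * v, e1 ▸ h.conj e he g, by rw [mul_assoc, c1], ?_⟩
    rw [← mul_assoc, ht.1, one_mul, c2]

theorem TD.c1_pow (h : TD Ω D) (ht : Invo t) (ht' : t ∉ D) (he : e ∈ D) (hc : e • c = c) (hn : t • c ≠ c) (hw : w ∈ D)
    (h1 : t * w = w * t) (h2 : t * w * e = e * (t * w)) : ∃ m, Odd m ∧ (t * e) ^ m = t * w := by
  obtain ⟨b, hb, -⟩ := h.fix w hw
  have ho := h.odd_mul hw he hb hc (by rintro rfl; exact hn (h.fix_of_comm hw hb h1))
  have hv := (h.mul_not_mem ht ht' hw h1).1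
  have iw := (h.invo w hw).1
  have c1 : t * w * w = w * (t * w) := by rw [← mul_assoc, h1]
  have e1 : t * e = t * w * (w * e) := by rw [mul_assoc, ← mul_assoc w, iw, one_mul]
  have cm : Commute (t * w) (w * e) := (show Commute (t * w) w from c1).mul_right h2
  refine ⟨_, ho, ?_⟩
  rw [e1, cm.mul_pow, pow_orderOf_eq_one, mul_one]
  obtain ⟨j, hj⟩ := ho
  rw [hj, pow_succ, pow_mul, pow_two, hv.1, one_pow, one_mul]

theorem TD.c1_unique (h : TD Ω D) (ht : Invo t) (ht' : t ∉ D) (he : e ∈ D) (hc : e • c = c) (hn : t • c ≠ c) (hw : w ∈ D)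
    (h1 : t * w = w * t) (h2 : t * w * e = e * (t * w)) {w' : G} (hw' : w' ∈ D)
    (h1' : t * w' = w' * t) (h2' : t * w' * e = e * (t * w')) : w = w' := by
  obtain ⟨m, ⟨j, hj⟩, e1⟩ := h.c1_pow ht ht' he hc hn hw h1 h2
  obtain ⟨m', ⟨j', hj'⟩, e2⟩ := h.c1_pow ht ht' he hc hn hw' h1' h2'
  have hv := (h.mul_not_mem ht ht' hw h1).1
  have hv' := (h.mul_not_mem ht ht' hw' h1').1
  have a1 : (t * e) ^ (m * m') = t * w := by
    rw [pow_mul, e1, hj', pow_succ, pow_mul, pow_two, hv.1, one_pow, one_mul]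
  have a2 : (t * e) ^ (m * m') = t * w' := by
    rw [mul_comm m, pow_mul, e2, hj, pow_succ, pow_mul, pow_two, hv'.1, one_pow, one_mul]
  exact mul_left_cancel (a1.symm.trans a2)

theorem TD.c1_transport (h : TD Ω D) (g s : G) (a : Ω) :
    {d | d ∈ D ∧ d ∈ 𝐂[g * s * g⁻¹] ∧ d • (g • a) = g • a}.ncard = {d | d ∈ D ∧ d ∈ 𝐂[s] ∧ d • a = a}.ncard := by
  symm
  refine Set.ncard_congr (fun d _ => g * d * g⁻¹) ?_ ?_ ?_
  · rintro d ⟨h1, h2, h3⟩
    refine ⟨h.conj d h1 g, mem_centralizer_singleton_iff.mpr ?_, by rw [mul_smul, mul_smul, inv_smul_smul, h3]⟩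
    have := mem_centralizer_singleton_iff.mp h2
    calc g * d * g⁻¹ * (g * s * g⁻¹) = g * (d * s) * g⁻¹ := by group
      _ = _ := by rw [this]; group
  · intro d d' _ _ e
    simpa using e
  · rintro d ⟨h1, h2, h3⟩
    refine ⟨g⁻¹ * d * g, ⟨by simpa using h.conj d h1 g⁻¹, mem_centralizer_singleton_iff.mpr ?_, ?_⟩, by group⟩
    · have := mem_centralizer_singleton_iff.mp h2
      calc g⁻¹ * d * g * s = g⁻¹ * (d * (g * s * g⁻¹)) * g := by group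
        _ = _ := by rw [this]; group
    · rw [mul_smul, mul_smul, h3, inv_smul_smul]

theorem TD.mul_mem_of_inv (h : TD Ω D) (hd : d ∈ D) (ho : Odd (orderOf y)) (hi : d * y * d = y⁻¹) : d * y ∈ D := by
  obtain ⟨n, hn⟩ := exists_sq_eq_of_odd ho
  rw [← hn, mul_sq_conj (h.invo d hd).1 (inverts_pow (h.invo d hd).1 hi n)]
  exact h.conj d hd _

theorem TD.norm_closure (h : TD Ω D) (L : Subgroup G) : L ≤ 𝐍(closure (D ∩ L)) := fun g hg =>
  mem_normalizer_of_cj_le (by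
    rw [cj, MonoidHom.map_closure, closure_le]
    rintro _ ⟨x, hx, rfl⟩
    exact subset_closure ⟨h.conj x hx.1 g, mul_mem (mul_mem hg hx.2) (inv_mem hg)⟩)

theorem TD.sub (h : TD Ω D) (L : Subgroup G) : TD Ω {x : L | (x : G) ∈ D} where
  invo d hd := ⟨Subtype.ext (h.invo d hd).1, fun e => (h.invo d hd).2 (congrArg Subtype.val e)⟩
  conj d hd g := h.conj d hd g
  fix d hd := h.fix d hd
  mul d hd e he hc hne := h.mul d hd e he (congrArg Subtype.val hc) fun e1 => hne (Subtype.ext e1)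

theorem TD.subAct (h : TD Ω D) (S : SubMulAction G Ω) (hS : ∀ c ∈ Cov Ω D, c ∈ S) : TD S D where
  invo := h.invo
  conj := h.conj
  fix d hd := by
    obtain ⟨c, hc, hu⟩ := h.fix d hd
    exact ⟨⟨c, hS c ⟨d, hd, hc⟩⟩, Subtype.ext hc, fun y hy => Subtype.ext (hu y (congrArg Subtype.val hy))⟩
  mul := h.mul

theorem TD.te (h : TD Ω D) (hm : ∀ d ∈ D, ∀ e ∈ D, ∀ a : Ω, d • a = a → e • a = a → d * e = e * d) : TE Ω D :=
  ⟨h.invo, h.conj, h.fix, h.mul, fun d hd e he a ha hb => by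
    rw [show d * e * (d * e) = d * (e * d) * e by group, ← hm d hd e he a ha hb, (h.invo d hd).mul_mul, (h.invo e he).1]
    exact one_mem _⟩

theorem eq_one_of_odd_two (ho : Odd (orderOf x)) (h2 : ∃ n, x ^ 2 ^ n = 1) : x = 1 := by
  obtain ⟨n, hn⟩ := h2
  exact orderOf_eq_one_iff.mp (((Nat.coprime_two_right.mpr ho).pow_right n).eq_one_of_dvd (orderOf_dvd_of_pow_eq_one hn))

theorem TD.same_pt (h : TD Ω D) (hd : d ∈ D) (he : e ∈ D) (ha : d • a = a) (h2 : ∃ n, (d * e) ^ 2 ^ n = 1) :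
    e • a = a := by
  obtain ⟨b, hb, -⟩ := h.fix e he
  by_cases hab : a = b
  · rwa [hab]
  have := eq_one_of_odd_two (h.odd_mul hd he ha hb hab) h2
  rwa [← (h.invo d hd).mul_mul e, this, mul_one]

theorem TD.odd_of_fix (h : TD Ω D) (hd : d ∈ D) (he : e ∈ D) (hab : a ≠ b) (ha : (d * e) • a = a)
    (hb : (d * e) • b = b) : Odd (orderOf (d * e)) := by
  by_contra hn
  obtain ⟨n, hn⟩ := exists_invo_pow_of_even (Nat.not_odd_iff_even.1 hn)
  exact hab (h.eq_of_fix (h.mem_of_pow hd he hn) (pow_smul_eq ha n) (pow_smul_eq hb n))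

theorem TD.l1_aux (h : TD Ω D) (hz : z ∈ D) (ha : z • a = a) (ho : Odd (orderOf y)) (h1 : y ≠ 1) (hi : z * y * z = y⁻¹)
    (hu : u ∈ D) (hc : u * y = y * u) : u • a = a := by
  obtain ⟨b, hb, -⟩ := h.fix u hu
  by_contra hne
  have hab : a ≠ b := fun e => hne (e ▸ hb)
  have e1 : z * u * y = y⁻¹ * (z * u) := by
    rw [mul_assoc, hc, ← hi]; simp only [mul_assoc, (h.invo z hz).mul_mul]
  have e2 : z * u * y⁻¹ = y * (z * u) := by
    rw [mul_inv_eq_iff_eq_mul, mul_assoc, e1, mul_inv_cancel_left]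
  have h2 : z * u ∈ 𝐂[y] := T4.mem_of_sq_mem (h.odd_mul hz hu ha hb hab) (mem_centralizer_singleton_iff.2 (by
    rw [mul_assoc, e1, ← mul_assoc, e2, mul_assoc]))
  rw [mem_centralizer_singleton_iff, e1] at h2
  exact h1 (eq_one_of_eq_inv_of_odd ho (mul_right_cancel h2).symm)

theorem TD.l1 (h : TD Ω D) (hz : z ∈ D) (ha : z • a = a) (ho : Odd (orderOf y)) (h1 : y ≠ 1) (hi : z * y * z = y⁻¹)
    (hu : u ∈ D) (hc : u * y = y * u) : u • a = a ∧ 𝐂[y] ≤ stabilizer G a := by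
  refine ⟨h.l1_aux hz ha ho h1 hi hu hc, fun g hg => ?_⟩
  have hg' : g * y = y * g := mem_centralizer_singleton_iff.1 hg
  have h2 := h.l1_aux (h.conj z hz g) (a := g • a) (by rw [conj_smul_smul, ha]) ho h1 (by
    calc g * z * g⁻¹ * y * (g * z * g⁻¹) = g * z * g⁻¹ * (y * g) * z * g⁻¹ := by group
      _ = g * (z * y * z) * g⁻¹ := by rw [← hg']; group
      _ = (g * y * g⁻¹)⁻¹ := by rw [hi]; group
      _ = _ := by rw [hg']; group) hu hc
  exact h.eq_of_fix hu h2 (h.l1_aux hz ha ho h1 hi hu hc)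

theorem TD.sw_fix (h : TD Ω D) {w' : G} (hw : w ∈ D) (hw' : w' ∈ D) (h1 : w • a = b) (h2 : w' • a = b) :
    (w * w') • a = a ∧ (w * w') • b = b :=
  ⟨by rw [mul_smul, h2, ← h1, (h.invo w hw).smul_smul], by rw [mul_smul, ← h2, (h.invo w' hw').smul_smul, h1, h2]⟩

theorem TD.sw_comm (h : TD Ω D) (hab : a ≠ b) {w' : G} (hw : w ∈ D) (hw' : w' ∈ D) (h1 : w • a = b) (h2 : w' • a = b)
    (hd : d ∈ D) (ha : d • a = a) (hc : w * w' * d = d * (w * w')) : w = w' := by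
  by_contra hne
  obtain ⟨f1, f2⟩ := h.sw_fix hw hw' h1 h2
  obtain ⟨c, hc', -⟩ := h.fix w hw
  have i := h.invo w hw
  have i' := h.invo w' hw'
  have := (h.l1 hw hc' (h.odd_of_fix hw hw' hab f1 f2) (fun e => hne (by rw [← i.mul_mul w', e, mul_one]))
    (by simpa using inv_de i.1 i'.1 1) hd hc.symm).1
  rw [h.eq_of_fix hd this ha, h1] at hc'
  exact hab hc'.symm

theorem TD.exists_st2_conj (h : TD Ω D) (hab : a ≠ b) (hb : b ∈ Cov Ω D) (hd : d ∈ D) (he : e ∈ D) (ha : d • a = a)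
    (ha' : e • a = a) : ∃ k ∈ st2 G a b, k * d * k⁻¹ = e := by
  obtain ⟨v, hv, hvb⟩ := hb
  obtain ⟨w, hw, -, e1, h1, h2⟩ := h.exists_swap hd hv ha hvb hab
  obtain ⟨w', hw', -, e2, h3, h4⟩ := h.exists_swap hv he hvb ha' hab.symm
  refine ⟨w' * w, h.sw_fix hw' hw h4 h1, ?_⟩
  rw [← e2, ← e1, mul_inv_rev, (h.invo w hw).inv_eq, (h.invo w' hw').inv_eq]; group

theorem TD.sw_conj (h : TD Ω D) (hab : a ≠ b) {w' : G} (hw : w ∈ D) (hw' : w' ∈ D) (h1 : w • a = b) (h2 : w' • a = b) :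
    ∃ k ∈ zpowers (w' * w), k * w * k⁻¹ = w' := by
  obtain ⟨f1, f2⟩ := h.sw_fix hw' hw h2 h1
  obtain ⟨n, hn⟩ := exists_sq_eq_of_odd (h.odd_of_fix hw' hw hab f1 f2)
  have i := h.invo w hw
  have i' := h.invo w' hw'
  refine ⟨(w' * w) ^ n, pow_mem (mem_zpowers _) n, ?_⟩
  rw [← inv_de' i'.1 i.1 n, mul_assoc, ← mul_assoc w, i.mul_mul, ← mul_assoc, hn, i.mul_mul']

theorem TD.ncard_sw (h : TD Ω D) (hab : a ≠ b) (ha : a ∈ Cov Ω D) (hb : b ∈ Cov Ω D) :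
    {w | w ∈ D ∧ w • a = b}.ncard = {d | d ∈ D ∧ d • a = a}.ncard := by
  obtain ⟨v, hv, hvb⟩ := hb
  have sy : ∀ w ∈ D, w • a = b → w • b = a := fun w hw e => by rw [← e, (h.invo w hw).smul_smul]
  refine Set.ncard_congr (fun w _ => w * v * w) ?_ ?_ ?_
  · rintro w ⟨hw, e⟩
    exact ⟨by simpa [(h.invo w hw).inv_eq] using h.conj v hv w, by rw [mul_smul, mul_smul, e, hvb, sy w hw e]⟩
  · rintro w w' ⟨hw, e⟩ ⟨hw', e'⟩ e1
    exact h.swap_unique hv hvb hw hw' (by rw [sy w hw e]; exact hab) e1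
  · rintro d ⟨hd, e⟩
    obtain ⟨w, hw, -, e1, -, h2⟩ := h.exists_swap hv hd hvb e hab.symm
    exact ⟨w, ⟨hw, h2⟩, e1⟩

theorem TD.card_st2_smul (h : TD Ω D) (hc : ∀ a : Ω, a ∈ Cov Ω D) (hab : a ≠ b) (hz : z ∈ D) (ha : z • a = a) :
    #|st2 G a b| = #|st2 G b (z • b)| := by
  have i := h.invo z hz
  have hb : b ≠ z • b := fun e => hab (h.eq_of_fix hz ha e.symm)
  have e1 : {u | ∃ e ∈ st2 G a b, e * z * e⁻¹ = u} = {d | d ∈ D ∧ d • a = a} := by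
    ext u
    constructor
    · rintro ⟨g, hg, rfl⟩
      exact ⟨h.conj z hz g, by rw [mul_smul, mul_smul, inv_smul_eq_of_smul_eq hg.1, ha, hg.1]⟩
    · exact fun hu => h.exists_st2_conj hab (hc b) hz hu.1 ha hu.2
  have e2 : {u | ∃ e ∈ st2 G b (z • b), e * z * e⁻¹ = u} = {w | w ∈ D ∧ w • b = z • b} := by
    ext u
    constructor
    · rintro ⟨g, hg, rfl⟩
      exact ⟨h.conj z hz g, by rw [mul_smul, mul_smul, inv_smul_eq_of_smul_eq hg.1, hg.2]⟩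
    · intro hu
      obtain ⟨k, hk, e⟩ := h.sw_conj hb hz hu.1 rfl hu.2
      exact ⟨k, zpowers_le.2 (show u * z ∈ st2 G b (z • b) from h.sw_fix hu.1 hz hu.2 rfl) hk, e⟩
  have e3 : st2 G a b ⊓ 𝐂[z] = st2 G b (z • b) ⊓ 𝐂[z] := by
    ext g
    constructor
    · rintro ⟨hg, c⟩
      refine ⟨⟨hg.2, ?_⟩, c⟩
      show g • z • b = z • b
      rw [← mul_smul, mem_centralizer_singleton_iff.1 c, mul_smul, hg.2]
    · rintro ⟨hg, c⟩
      exact ⟨⟨h.fix_of_comm hz ha (mem_centralizer_singleton_iff.1 c), hg.1⟩, c⟩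
  obtain ⟨g, -, hg⟩ := h.trans hc a b
  have e4 := h.c1_transport g 1 a
  simp only [mul_one, mul_inv_cancel, mem_centralizer_singleton_iff, one_mul, true_and, hg] at e4
  rw [← ncard_conj_mul (st2 G a b) z, ← ncard_conj_mul (st2 G b (z • b)) z, e1, e2, e3, h.ncard_sw hb (hc _) (hc _), e4]

end Cfsg.Agent.WA.Zd
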