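import Cfsg.Agent.WA.ZdB1

/-! Basic facts, II (PLAN_ZD.md). -/

set_option autoImplicit false
set_option linter.unusedSectionVars false
set_option linter.unusedVariables false

namespace Cfsg.Agent.WA.Zd

open Subgroup MulAction Cfsg.Agent.FT Cfsg.Agent.L0 Cfsg.Agent.H8 Cfsg.Agent.BS Cfsg.Agent.WA.Te
open Cfsg.Agent.H7 (opp)
open scoped Pointwise commutatorElement

universe u

variable {G Ω : Type u} [Group G] [Finite G] [MulAction G Ω] {𝒮 D : Set G} {a b c : Ω} {d e g k s t u w x y z : G}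
  {L P T : Subgroup G} {A R : Ω → Subgroup G} {q r m lam : ℕ}

theorem pgroup_zpowers_of_pow (h : ∃ n, s ^ 2 ^ n = 1) : IsPGroup 2 (zpowers s) := by
  obtain ⟨n, hn⟩ := h
  rintro ⟨_, k, rfl⟩
  exact ⟨n, Subtype.ext (by
    show (s ^ k) ^ 2 ^ n = 1
    rw [← zpow_natCast, ← zpow_mul, mul_comm, zpow_mul, zpow_natCast, hn, one_zpow])⟩

omit [Finite G] in
theorem pow_of_mem (hP : IsPGroup 2 P) (hx : x ∈ P) : ∃ n, x ^ 2 ^ n = 1 :=
  (hP ⟨x, hx⟩).imp fun n hn => congrArg Subtype.val hn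

theorem ZD.mem (h : ZD Ω 𝒮 D) (hd : d ∈ D) : d ∈ 𝒮 := ((h.memD d).1 hd).1

theorem ZD.pow_mem (h : ZD Ω 𝒮 D) (hs : s ∈ 𝒮) (n : ℕ) : s ^ n ∈ 𝒮 := by
  induction n with
  | zero => rw [pow_zero]; exact h.one
  | succ n ih =>
    rw [pow_succ]
    exact h.mul _ (pgroup_zpowers_of_pow (h.two s hs)) _ ih s hs (npow_mem_zpowers s n) (mem_zpowers s)

theorem ZD.inv_mem (h : ZD Ω 𝒮 D) (hs : s ∈ 𝒮) : s⁻¹ ∈ 𝒮 := by
  have := h.pow_mem hs (orderOf s - 1)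
  rwa [eq_inv_of_mul_eq_one_left (show s ^ (orderOf s - 1) * s = 1 by
    rw [← pow_succ, Nat.sub_add_cancel (orderOf_pos s), pow_orderOf_eq_one])] at this

theorem ZD.exists_S (h : ZD Ω 𝒮 D) (hP : IsPGroup 2 P) :
    ∃ S : Subgroup G, (∀ x, x ∈ S ↔ x ∈ 𝒮 ∧ x ∈ P) ∧ S ≤ P ∧ 𝐍(P) ≤ 𝐍(S) := by
  refine ⟨⟨⟨⟨{x | x ∈ 𝒮 ∧ x ∈ P}, fun hx hy => ⟨h.mul P hP _ hx.1 _ hy.1 hx.2 hy.2, mul_mem hx.2 hy.2⟩⟩, h.one, one_mem _⟩,
    fun hx => ⟨h.inv_mem hx.1, P.inv_mem hx.2⟩⟩, fun _ => Iff.rfl, fun _ hx => hx.2, fun g hg => mem_normalizer_of_cj_le ?_⟩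
  rintro _ ⟨x, hx, rfl⟩
  exact ⟨h.conj x hx.1 g, (mem_normalizer_iff.1 hg x).1 hx.2⟩

theorem ZD.eq_one (h : ZD Ω 𝒮 D) (hs : s ∈ 𝒮) (hab : a ≠ b) (ha : s • a = a) (hb : s • b = b) : s = 1 := by
  by_contra h1
  obtain ⟨n, hn⟩ := exists_invo_pow_of_two_elt (h.two s hs) h1
  exact hab (h.td.eq_of_fix ((h.memD _).2 ⟨h.pow_mem hs n, hn⟩) (pow_smul_eq ha n) (pow_smul_eq hb n))

theorem ZD.exists_center (h : ZD Ω 𝒮 D) (hP : IsPGroup 2 P) (hs : s ∈ 𝒮) (hsP : s ∈ P) (h1 : s ≠ 1) :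
    ∃ z ∈ D, z ∈ P ∧ ∀ x ∈ P, x * z = z * x := by
  obtain ⟨S, hS, hle, hn⟩ := h.exists_S hP
  obtain ⟨z, hz, hz1, c⟩ := exists_cent_two hP (hP.to_le hle) (ne_bot_of_mem ((hS s).2 ⟨hs, hsP⟩) h1)
    (le_normalizer.trans hn)
  obtain ⟨n, hn⟩ := exists_invo_pow_of_two_elt (pow_of_mem hP (hle hz)) hz1
  exact ⟨z ^ n, (h.memD _).2 ⟨h.pow_mem ((hS z).1 hz).1 n, hn⟩, P.pow_mem (hle hz) n,
    fun x hx => (Commute.pow_right (c x hx) n).eq⟩

theorem ZD.fix_of_two (h : ZD Ω 𝒮 D) (hP : IsPGroup 2 P) (hd : d ∈ D) (hdP : d ∈ P) (ha : d • a = a) (hx : x ∈ P) :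
    x • a = a := by
  obtain ⟨z, hz, hzP, c⟩ := h.exists_center hP (h.mem hd) hdP (h.td.invo d hd).2
  exact h.td.fix_of_comm hz (h.td.fix_of_comm hd ha (c d hdP).symm) (c x hx)

theorem ZD.exists_cent (h : ZD Ω 𝒮 D) (hc : a ∈ Cov Ω D) (hP : IsPGroup 2 P) (ha : ∀ x ∈ P, x • a = a) :
    ∃ d ∈ D, d • a = a ∧ ∀ x ∈ P, x * d = d * x := by
  obtain ⟨d, hd, hda⟩ := hc
  obtain ⟨S, hS, hdS⟩ := exists_isSylowIn_ge (K := stabilizer G a) (h.td.invo d hd).pgroup_zpowers (zpowers_le.2 hda)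
  obtain ⟨S', hS', hPS⟩ := exists_isSylowIn_ge (K := stabilizer G a) hP ha
  obtain ⟨k, hk, rfl⟩ := hS.exists_cj_eq hS'
  obtain ⟨z, hz, hzP, c⟩ := h.exists_center hS'.pgroup (h.mem (h.td.conj d hd k)) (conj_mem_cj k (hdS (mem_zpowers d)))
    ((h.td.invo d hd).conj k).2
  exact ⟨z, hz, hS'.le hzP, fun x hx => c x (hPS hx)⟩

theorem ZD.cov_cent (h : ZD Ω 𝒮 D) (hc : ∀ a : Ω, a ∈ Cov Ω D) (ht : Invo t) : Cov Ω (D ∩ 𝐂[t]) = fixedBy Ω t := by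
  ext a
  constructor
  · rintro ⟨d, ⟨hd, c⟩, ha⟩
    exact h.td.fix_of_comm hd ha (mem_centralizer_singleton_iff.mp c).symm
  · intro ha
    obtain ⟨d, hd, hda, c⟩ := h.exists_cent (hc a) ht.pgroup_zpowers (zpowers_le (H := stabilizer G a).mpr ha)
    exact ⟨d, ⟨hd, mem_centralizer_singleton_iff.mpr (c t (mem_zpowers t)).symm⟩, hda⟩

omit [Finite G] in
/-- a dihedral group is the union of the rotations and the reflections -/
theorem dihedral_two (h1 : d * d = 1) (h2 : e * e = 1) (h : ∃ n, (d * e) ^ 2 ^ n = 1) [Finite G] :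
    ∃ P : Subgroup G, IsPGroup 2 P ∧ d ∈ P ∧ e ∈ P := by
  have hn : zpowers d ≤ 𝐍(zpowers (d * e)) := zpowers_le.2 (mem_normalizer_of_cj_le (by
    rw [cj, MonoidHom.map_zpowers, zpowers_le]
    show d * (d * e) * d⁻¹ ∈ _
    rw [inv_eq_of_mul_eq_one_right h1, show d * (d * e) * d = (d * e)⁻¹ by simpa using inv_de h1 h2 1]
    exact inv_mem (mem_zpowers _)))
  refine ⟨zpowers (d * e) ⊔ zpowers d, IsPGroup.to_sup_of_normal_left' (pgroup_zpowers_of_pow h)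
    (pgroup_zpowers_of_pow ⟨1, by rwa [pow_one, pow_two]⟩) hn, mem_sup_right (mem_zpowers d), ?_⟩
  have := mul_mem (mem_sup_right (S := zpowers (d * e)) (mem_zpowers d)) (mem_sup_left (T := zpowers d) (mem_zpowers (d * e)))
  rwa [← mul_assoc, h1, one_mul] at this

variable [IsSimpleGroup G]

theorem Pz.td (h : Pz Ω 𝒮 D) : TD Ω D := h.zd.td
theorem Pz.trans (h : Pz Ω 𝒮 D) (a b : Ω) : ∃ g : G, g • a = b := by
  obtain ⟨g, -, e⟩ := h.td.trans h.cov a b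
  exact ⟨g, e⟩
theorem Pz.ncomm (h : Pz Ω 𝒮 D) : ¬ IsMulCommutative G := fun hc => by
  obtain ⟨d, -, e, -, hn, -⟩ := h.nc
  exact hn (hc.is_comm.comm d e)
theorem Pz.finite (h : Pz Ω 𝒮 D) : Finite Ω := finite_of_trans h.trans
theorem Pz.faith (h : Pz Ω 𝒮 D) (hg : ∀ c : Ω, g • c = c) : g = 1 := by
  rcases (inferInstance : (toPermHom G Ω).ker.Normal).eq_bot_or_eq_top with e | e
  · exact mem_bot.mp (e ▸ (Equiv.ext hg : g ∈ (toPermHom G Ω).ker))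
  · obtain ⟨a, b, hab⟩ := h.two
    obtain ⟨g, rfl⟩ := h.trans a b
    exact (hab (congrFun (congrArg DFunLike.coe (e ▸ mem_top g : g ∈ (toPermHom G Ω).ker)) a).symm).elim
theorem Pz.norm_ne_top (h : Pz Ω 𝒮 D) (h1 : L ≠ ⊥) (h2 : ∀ x ∈ L, x • a = a) : 𝐍(L) ≠ ⊤ := fun e => by
  refine h1 (eq_bot_iff.mpr fun x hx => h.faith fun c => ?_)
  obtain ⟨g, rfl⟩ := h.trans a c
  exact smul_mem_Fx (e ▸ mem_top g) (mem_Fx.mpr h2) x hx
theorem Pz.cent_ne_top (h : Pz Ω 𝒮 D) (h1 : x ≠ 1) : 𝐂[x] ≠ ⊤ := fun e => by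
  have : x ∈ center G := mem_center_iff.mpr fun g => mem_centralizer_singleton_iff.mp (e ▸ mem_top g)
  rcases (inferInstance : (center G).Normal).eq_bot_or_eq_top with e | e
  · exact h1 (mem_bot.mp (e ▸ this))
  · exact h.ncomm ⟨⟨fun x y => (mem_center_iff.mp (e ▸ mem_top y) x)⟩⟩
theorem Pz.isConj (h : Pz Ω 𝒮 D) (hd : d ∈ D) (he : e ∈ D) : ∃ g : G, g * d * g⁻¹ = e := by
  obtain ⟨a, b, hab⟩ := h.two
  obtain ⟨g, -, e1⟩ := h.td.conj_in (L := ⊤) (by simpa using h.cov a) (by simpa using h.cov b) hab hd trivial he trivial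
  exact ⟨g, e1⟩

omit [IsSimpleGroup G] [Finite G] in
theorem conj_nc (g : G) (hn : d * e ≠ e * d) : g * d * g⁻¹ * (g * e * g⁻¹) ≠ g * e * g⁻¹ * (g * d * g⁻¹) := fun e1 =>
  hn (by rw [conj_mul, conj_mul] at e1; simpa using e1)

theorem Pz.nc_at (h : Pz Ω 𝒮 D) (a : Ω) :
    ∃ d ∈ D, ∃ e ∈ D, d • a = a ∧ e • a = a ∧ d * e ≠ e * d ∧ ∃ n, (d * e) ^ 2 ^ n = 1 := by
  obtain ⟨d, hd, e, he, hn, n, h2⟩ := h.nc
  obtain ⟨b, hb, -⟩ := h.td.fix d hd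
  obtain ⟨g, rfl⟩ := h.trans b a
  exact ⟨_, h.td.conj d hd g, _, h.td.conj e he g, by rw [conj_smul_smul, hb],
    by rw [conj_smul_smul, h.td.same_pt hd he hb ⟨n, h2⟩], conj_nc g hn, n, by rw [conj_mul, conj_pow, h2]; group⟩
theorem Pz.nc_sylow (h : Pz Ω 𝒮 D) (hT : IsSylowIn 2 T ⊤) : ∃ d ∈ D, ∃ e ∈ D, d ∈ T ∧ e ∈ T ∧ d * e ≠ e * d := by
  obtain ⟨d, hd, e, he, hn, h2⟩ := h.nc
  obtain ⟨P, hP, h3, h4⟩ := dihedral_two (h.td.invo d hd).1 (h.td.invo e he).1 h2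
  obtain ⟨Q, hQ, hle⟩ := exists_isSylowIn_ge hP (le_top (a := P))
  obtain ⟨g, -, rfl⟩ := hQ.exists_cj_eq hT
  exact ⟨_, h.td.conj d hd g, _, h.td.conj e he g, conj_mem_cj g (hle h3), conj_mem_cj g (hle h4), conj_nc g hn⟩
theorem Pz.not_central (h : Pz Ω 𝒮 D) (hz : z ∈ D) (ha : z • a = a) : ∃ e ∈ D, e • a = a ∧ z * e ≠ e * z := by
  obtain ⟨d, hd, e, he, h1, h2, hn, -⟩ := h.nc_at a
  obtain ⟨g, rfl⟩ := h.isConj hd hz
  have hg : g • a = a := h.td.eq_of_fix hz (by rw [conj_smul_smul, h1]) ha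
  exact ⟨_, h.td.conj e he g, by rw [← hg, conj_smul_smul, h2], conj_nc g hn⟩

theorem Pz.c1_exists (h : Pz Ω 𝒮 D) (ht : Invo t) (ht' : t ∉ D) :
    ∃ w ∈ D, t * w = w * t ∧ ∃ a b : Ω, a ≠ b ∧ (t * w) • a = a ∧ (t * w) • b = b := by
  obtain ⟨c, hc⟩ : ∃ c : Ω, t • c ≠ c := by
    by_contra hn
    push Not at hn
    exact ht.2 (h.faith hn)
  obtain ⟨e, he, hec⟩ := h.cov c
  obtain ⟨w, hw, h1, h2⟩ := h.td.c1_exists ht ht' he hec hc
  obtain ⟨b, hb, -⟩ := h.td.fix w hw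
  refine ⟨w, hw, h1, c, b, ?_, h.td.fix_of_comm he hec h2, h.td.fix_of_comm hw hb (by rw [← mul_assoc, h1])⟩
  rintro rfl
  exact hc (h.td.fix_of_comm hw hb h1)

theorem Pz.two_fix (h : Pz Ω 𝒮 D) (ht : Invo t) (ht' : t ∉ D) (a : Ω) : ∃ b, b ≠ a ∧ t • b = b := by
  obtain ⟨w, hw, h1, a, b, hab, ha, hb⟩ := h.c1_exists ht ht'
  obtain ⟨hs, hs'⟩ := h.td.mul_not_mem ht ht' hw h1
  obtain ⟨w', hw', h1', a', b', hab', ha', hb'⟩ := h.c1_exists hs hs'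
  have e := h.zd.cov_cent h.cov hs
  obtain ⟨g, hg, e1⟩ := h.td.conj_in (L := 𝐂[t * w]) (a := a) (b := b) (e ▸ ha) (e ▸ hb) hab hw'
    (mem_centralizer_singleton_iff.mpr h1'.symm) hw (mem_centralizer_singleton_iff.mpr (by rw [← mul_assoc, h1]))
  have hg' : g * (t * w) = t * w * g :=
    mem_centralizer_singleton_iff.mp ((closure_le _).mpr Set.inter_subset_right hg)
  have e2 : t = g * (t * w * w') * g⁻¹ := by
    calc t = t * w * w := by rw [mul_assoc, (h.td.invo w hw).1, mul_one]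
      _ = t * w * (g * w' * g⁻¹) := by rw [e1]
      _ = t * w * g * w' * g⁻¹ := by group
      _ = _ := by rw [← hg']; group
  rename_i c
  by_cases hc : g • a' = c
  · exact ⟨g • b', fun e => hab' (MulAction.injective g (hc.trans e.symm)), by rw [e2, conj_smul_smul, hb']⟩
  · exact ⟨g • a', hc, by rw [e2, conj_smul_smul, ha']⟩

theorem Pz.thompson (h : Pz Ω 𝒮 D) (hT : IsSylowIn 2 T ⊤) (hP : P ≤ T) (h2 : #|T| ≤ 2 * #|P|) (ht : Invo t) :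
    ∃ g : G, g * t * g⁻¹ ∈ P := by
  have e : P.relIndex T * #|P| = #|T| := by
    rw [← Nat.card_congr (subgroupOfEquivOfLe hP).toEquiv]; exact index_mul_card _
  have h0 : 0 < #|P| := Nat.card_pos
  have h1 : P.relIndex T ≤ 2 := by nlinarith
  have h3 : P.relIndex T ≠ 0 := by rintro e0; rw [e0] at e; have : 0 < #|T| := Nat.card_pos; omega
  by_cases h4 : P.relIndex T = 1
  · obtain ⟨Q, hQ, hle⟩ := exists_isSylowIn_ge ht.pgroup_zpowers (le_top (a := zpowers t))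
    obtain ⟨g, -, rfl⟩ := hQ.exists_cj_eq hT
    exact ⟨g, relIndex_eq_one.1 h4 (conj_mem_cj g (hle (mem_zpowers t)))⟩
  obtain ⟨g, hg⟩ := H6.thompson_transfer (fun K hK => by
    rcases (normal_of_index_eq_two hK).eq_bot_or_eq_top with rfl | rfl
    · rw [index_bot] at hK
      have := isCyclic_of_prime_card hK
      exact h.ncomm inferInstance
    · simp at hK) (H := T) (M := P)
    (by rw [← relIndex_top_right]; exact Nat.odd_iff.mpr (Nat.two_dvd_ne_zero.mp hT.not_dvd_relIndex)) (by omega)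
    (t := t) (by rw [sq, ht.1])
  exact ⟨g⁻¹, by rwa [inv_inv]⟩

omit [IsSimpleGroup G]

theorem Lt.four (h : Lt D t A R q r) : 4 ≤ q := by
  obtain ⟨n, hn, rfl⟩ := h.pow
  exact Nat.pow_le_pow_right (n := 2) (by norm_num) hn
theorem Lt.memD (h : Lt D t A R q r) (hx : x ∈ A c) (h1 : x ≠ 1) : x ∈ D := (((h.memA c x).1 hx).resolve_left h1).1
theorem Lt.comm_t (h : Lt D t A R q r) (hx : x ∈ A c) : t * x = x * t := by
  rcases (h.memA c x).1 hx with rfl | m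
  exacts [by simp, m.2.1]
theorem Lt.fixA (h : Lt D t A R q r) (hx : x ∈ A c) : x • c = c := by
  rcases (h.memA c x).1 hx with rfl | m
  exacts [one_smul _ _, m.2.2]
theorem Lt.sqA (h : Lt D t A R q r) (hd : TD Ω D) (hx : x ∈ A c) : x * x = 1 := by
  rcases (h.memA c x).1 hx with rfl | m
  exacts [one_mul _, (hd.invo x m.1).1]
theorem Lt.comm (h : Lt D t A R q r) (hd : TD Ω D) (hx : x ∈ A c) (hy : y ∈ A c) : x * y = y * x :=
  comm_of_sq_one (h.sqA hd hx) (h.sqA hd hy) (h.sqA hd (mul_mem hx hy))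
theorem Lt.twoA (h : Lt D t A R q r) (hd : TD Ω D) (c : Ω) : IsPGroup 2 (A c) := two_of_sq fun x hx => h.sqA hd hx
theorem Lt.ncardA (h : Lt D t A R q r) (hc : t • c = c) : (A c : Set G).ncard = q := by
  rw [← h.cardA c hc, ← Nat.card_coe_set_eq]; rfl
theorem Lt.exists_ne (h : Lt D t A R q r) (hc : t • c = c) (y z : G) : ∃ x ∈ A c, x ≠ 1 ∧ x ≠ y ∧ x ≠ z := by
  by_contra hn
  push Not at hn
  have h1 : (A c : Set G) ⊆ {1, y, z} := fun x hx => by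
    by_cases h1 : x = 1
    · exact Or.inl h1
    by_cases h2 : x = y
    · exact Or.inr (Or.inl h2)
    · exact Or.inr (Or.inr (hn x hx h1 h2))
  have h2 := Set.ncard_le_ncard h1
  have h3 := h.ncardA hc
  have h4 : ({1, y, z} : Set G).ncard ≤ 3 :=
    (Set.ncard_insert_le _ _).trans (Nat.succ_le_succ ((Set.ncard_insert_le _ _).trans (by simp)))
  have := h.four
  omega
theorem Lt.X_le (h : Lt D t A R q r) (hx : x ∈ closure (D ∩ 𝐂[t])) : t * x = x * t :=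
  (mem_centralizer_singleton_iff.1 ((closure_le _).2 Set.inter_subset_right hx)).symm
theorem Lt.conjA (h : Lt D t A R q r) (hd : TD Ω D) (hg : g * t = t * g) (hx : x ∈ A c) : g * x * g⁻¹ ∈ A (g • c) := by
  rcases (h.memA c x).1 hx with rfl | m
  · simp
  refine (h.memA _ _).2 (Or.inr ⟨hd.conj x m.1 g, ?_, by rw [conj_smul_smul, m.2.2]⟩)
  calc t * (g * x * g⁻¹) = g * (t * x) * g⁻¹ := by rw [← mul_assoc, ← mul_assoc, ← hg]; group
    _ = g * x * g⁻¹ * (g * t * g⁻¹) := by rw [m.2.1]; group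
    _ = _ := by rw [hg]; group
theorem Lt.normA (h : Lt D t A R q r) (hd : TD Ω D) (hg : g * t = t * g) (hc : g • c = c) : g ∈ 𝐍(A c) :=
  mem_normalizer_of_cj_le (by
    rintro _ ⟨x, hx, rfl⟩
    have := h.conjA hd hg hx
    rwa [hc] at this)
theorem Lt.fix_of_norm (h : Lt D t A R q r) (hz : ZD Ω 𝒮 D) (hc : t • c = c) (hg : g ∈ 𝐍(A c)) : g • c = c := by
  obtain ⟨x, hx, h1, -⟩ := h.exists_ne hc 1 1
  exact hz.td.eq_of_fix (hz.td.conj x (h.memD hx h1) g) (by rw [conj_smul_smul, h.fixA hx])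
    (h.fixA ((mem_normalizer_iff.1 hg x).1 hx))
theorem Lt.free (h : Lt D t A R q r) (hd : TD Ω D) (hc : t • c = c) (hx : x ∈ R c) (hb : b ≠ c) (e : x • b = b) :
    x = 1 := by
  by_contra h1
  obtain ⟨n, hn⟩ := exists_invo_pow_of_two_elt (pow_of_mem (h.two c hc) hx) h1
  have m := h.inv c hc _ (pow_mem hx n) hn.1
  exact hb (hd.eq_of_fix (h.memD m hn.2) (pow_smul_eq e n) (h.fixA m))
theorem Lt.R_eq (h : Lt D t A R q r) (hr : r = q) (hc : t • c = c) : R c = A c :=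
  (eq_of_le_of_card_ge (h.le c hc) (by rw [h.cardR c hc, h.cardA c hc, hr])).symm
theorem Lt.le_r (h : Lt D t A R q r) : q ≤ r := by
  have := h.four
  rcases h.cases with rfl | rfl | rfl
  exacts [le_rfl, Nat.le_self_pow two_ne_zero _, Nat.le_self_pow three_ne_zero _]
theorem Lt.exists_pt (h : Lt D t A R q r) (c : Ω) : ∃ b, b ≠ c ∧ t • b = b := by
  have := h.four
  have := h.le_r
  obtain ⟨b, hb, hn⟩ := Set.exists_ne_of_one_lt_ncard (s := fixedBy Ω t) (by rw [h.cardF]; omega) c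
  exact ⟨b, hn, hb⟩
theorem Lt.fibre (h : Lt D t A R q r) (hd : TD Ω D) (hc : t • c = c) (hz : z ∈ A c) (h1 : z ≠ 1) :
    {x | x ∈ R c ∧ x * x = z}.ncard * (q - 1) = r - q := by
  obtain ⟨b, hb, htb⟩ := h.exists_pt c
  obtain ⟨K, -, -, hn, htr, -⟩ := h.K c b hc htb hb.symm
  have := ncard_rel ((A c : Set G) \ {1}) ((R c : Set G) \ A c) (fun y x => x * x = y)
    (m := {x | x ∈ R c ∧ x * x = z}.ncard) (n := 1) (fun y hy => by
      obtain ⟨k, hk, rfl⟩ := htr z hz h1 y hy.1 hy.2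
      symm
      refine Set.ncard_congr (fun x _ => k * x * k⁻¹) ?_ (fun x y _ _ e => by simpa using e) ?_
      · rintro x ⟨hx, rfl⟩
        exact ⟨⟨(mem_normalizer_iff.1 (hn hk) x).1 hx, fun m => hy.2 (by rw [← conj_mul]; exact h.sqA hd m)⟩, conj_mul⟩
      · rintro x ⟨hx, e⟩
        refine ⟨k⁻¹ * x * k, ⟨by simpa using (mem_normalizer_iff.1 (inv_mem (hn hk)) x).1 hx.1, ?_⟩, by group⟩
        calc _ = k⁻¹ * (x * x) * k := by group
          _ = z := by rw [e]; group)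
    (fun x hx => Set.ncard_eq_one.2 ⟨x * x, Set.eq_singleton_iff_unique_mem.2
      ⟨⟨⟨h.sq c hc x hx.1, fun e => hx.2 (h.inv c hc x hx.1 e)⟩, rfl⟩, fun y m => m.2.symm⟩⟩)
  rw [Set.ncard_sdiff_singleton_of_mem (one_mem _), Set.ncard_diff (h.le c hc), h.ncardA hc,
    show (R c : Set G).ncard = r by rw [← h.cardR c hc, ← Nat.card_coe_set_eq]; rfl, mul_one, mul_comm] at this
  exact this

end Cfsg.Agent.WA.Zd
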