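import Cfsg.Agent.WA.IZdB

/-! The counting arguments (PLAN_ZD.md). -/

set_option autoImplicit false
set_option linter.unusedSectionVars false
set_option linter.unusedVariables false

namespace Cfsg.Agent.WA.Zd

open Subgroup MulAction Cfsg.Agent.FT Cfsg.Agent.L0 Cfsg.Agent.H8 Cfsg.Agent.BS Cfsg.Agent.WA.Te
open Cfsg.Agent.H7 (opp)
open scoped Pointwise commutatorElement

universe u

variable {G Ω : Type u} [Group G] [Finite G] [MulAction G Ω] {𝒮 D : Set G} {a b c : Ω} {d e g k s t u w x y z : G}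
  {L P T : Subgroup G} {A R : Ω → Subgroup G} {q r m lam : ℕ}
  [IsSimpleGroup G]

theorem Lt.twoE (hl : Lt D t A R q r) (hd : TD Ω D) (ha : t • a = a) : IsPGroup 2 (A a ⊔ zpowers t : Subgroup G) :=
  IsPGroup.to_sup_of_normal_left' (hl.twoA hd a) hl.invo.pgroup_zpowers (zpowers_le.2 (hl.normA hd rfl ha))

theorem Pz.fus0 (h : Pz Ω 𝒮 D) (hl : Lt D t A R q r) (ha : t • a = a) :
    ∃ s ∈ 𝐍(A a), ∃ x ∈ A a, x ≠ 1 ∧ s * t * s⁻¹ = t * x := by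
  obtain ⟨T, hT, hle⟩ := exists_isSylowIn_ge (hl.twoE h.td ha) le_top
  obtain ⟨S, hS, hST, hn⟩ := h.zd.exists_S hT.pgroup
  obtain ⟨z, hz, hz1, -⟩ := hl.exists_ne ha 1 1
  have htT : t ∈ T := hle (mem_sup_right (mem_zpowers t))
  have hfix : ∀ x ∈ T, x • a = a := fun x hx =>
    h.zd.fix_of_two hT.pgroup (hl.memD hz hz1) (hle (mem_sup_left hz)) (hl.fixA hz) hx
  have hA : ∀ x ∈ D, x ∈ T → x ∈ 𝐂[t] → x ∈ A a := fun x hx h1 h2 =>
    (hl.memA a x).2 (Or.inr ⟨hx, (mem_centralizer_singleton_iff.1 h2).symm, hfix x h1⟩)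
  have hP : (S ⊓ 𝐂[t]) ⊔ zpowers t ≤ 𝐂[t] := sup_le inf_le_right (zpowers_le.2 (mem_centralizer_singleton_iff.2 rfl))
  have htS : zpowers t ≤ 𝐍(S) := zpowers_le.2 (hn (le_normalizer htT))
  have hlt : (S ⊓ 𝐂[t]) ⊔ zpowers t < S ⊔ zpowers t := (sup_le_sup_right inf_le_left _).lt_of_ne fun e => by
    obtain ⟨d, hd, e', he, h1, h2, hne⟩ := h.nc_sylow hT
    have key : ∀ d ∈ D, d ∈ T → d ∈ A a := fun d hd h1 =>
      hA d hd h1 (hP (e ▸ mem_sup_left ((hS d).2 ⟨h.zd.mem hd, h1⟩)))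
    exact hne (hl.comm h.td (key d hd h1) (key e' he h2))
  obtain ⟨y, hy, hy'⟩ := SetLike.exists_of_lt
    (lt_inf_normalizer_of_pgroup (hT.pgroup.to_le (sup_le hST (zpowers_le.2 htT))) hlt)
  obtain ⟨s, hs, u, hu, rfl⟩ := (mem_sup_of_le_normalizer htS).1 hy.1
  have hsN : s ∈ 𝐍(S ⊓ 𝐂[t] ⊔ zpowers t) :=
    (mul_mem_cancel_right (le_normalizer (mem_sup_right hu))).1 hy.2
  have hc : s * t * s⁻¹ * t = t * (s * t * s⁻¹) :=
    mem_centralizer_singleton_iff.1 (hP ((mem_normalizer_iff.1 hsN t).1 (mem_sup_right (mem_zpowers t))))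
  have hne : t ≠ s * t * s⁻¹ := fun e => hy' (mul_mem_sup ⟨hs, mem_centralizer_singleton_iff.2 (by
    rw [eq_comm, ← mul_inv_eq_iff_eq_mul.1 e.symm])⟩ hu)
  have hx : t * (s * t * s⁻¹) ∈ S := by
    have := mul_mem ((mem_normalizer_iff.1 (htS (mem_zpowers t)) s).1 hs) (inv_mem hs)
    rwa [hl.invo.inv_eq, show t * s * t * s⁻¹ = t * (s * t * s⁻¹) by group] at this
  have ix := hl.invo.mul_of_comm (hl.invo.conj s) hc.symm hne
  refine ⟨s, mem_normalizer_of_cj_le ?_, _, hA _ ((h.zd.memD _).2 ⟨((hS _).1 hx).1, ix⟩) (hST hx)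
    (mem_centralizer_singleton_iff.2 (by rw [mul_assoc, hc])), ix.2, (hl.invo.mul_mul _).symm⟩
  rintro _ ⟨x, hx, rfl⟩
  by_cases h1 : x = 1
  · rw [h1, map_one]; exact one_mem _
  have hxT := hle (mem_sup_left hx)
  exact hA _ (h.td.conj x (hl.memD hx h1) s) (mul_mem (mul_mem (hST hs) hxT) (inv_mem (hST hs)))
    (hP ((mem_normalizer_iff.1 hsN x).1 (mem_sup_left ⟨(hS x).2 ⟨h.zd.mem (hl.memD hx h1), hxT⟩,
      mem_centralizer_singleton_iff.2 (hl.comm_t hx).symm⟩)))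

theorem Pz.fus (h : Pz Ω 𝒮 D) (hl : Lt D t A R q r) (c : Ω) (hc : t • c = c) (z : G) (hz : z ∈ A c) :
    ∃ g ∈ 𝐍(A c), g • c = c ∧ g * t * g⁻¹ = t * z := by
  by_cases h1 : z = 1
  · exact ⟨1, one_mem _, one_smul _ _, by simp [h1]⟩
  obtain ⟨s, hs, x, hx, hx1, e⟩ := h.fus0 hl hc
  obtain ⟨b, hb, htb⟩ := hl.exists_pt c
  obtain ⟨K, hK, -, -, htr, -⟩ := hl.K c b hc htb hb.symm
  obtain ⟨k, hk, rfl⟩ := htr x hx hx1 z hz h1
  have c1 : k * t = t * k := mem_centralizer_singleton_iff.1 (hK hk).1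
  have m := mul_mem (hl.normA h.td c1 (hK hk).2.1) hs
  refine ⟨k * s, m, hl.fix_of_norm h.zd hc m, ?_⟩
  calc k * s * t * (k * s)⁻¹ = k * (s * t * s⁻¹) * k⁻¹ := by group
    _ = _ := by rw [e, ← mul_assoc, c1]; group

omit [IsSimpleGroup G] in
theorem Lt.set_eq (hl : Lt D t A R q r) (hd : TD Ω D) (c : Ω) :
    {d | d ∈ D ∧ d ∈ 𝐂[t] ∧ d • c = c} = (A c : Set G) \ {1} := by
  ext x
  exact ⟨fun m => ⟨(hl.memA c x).2 (Or.inr ⟨m.1, (mem_centralizer_singleton_iff.1 m.2.1).symm, m.2.2⟩), (hd.invo x m.1).2⟩,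
    fun m => ⟨hl.memD m.1 m.2, mem_centralizer_singleton_iff.2 (hl.comm_t m.1).symm, hl.fixA m.1⟩⟩

omit [IsSimpleGroup G] in
theorem Lt.ncardA' (hl : Lt D t A R q r) (hc : t • c = c) : ((A c : Set G) \ {1}).ncard = q - 1 := by
  rw [Set.ncard_sdiff_singleton_of_mem (one_mem _), hl.ncardA hc]

theorem Pz.conj_tw (h : Pz Ω 𝒮 D) (hl : Lt D t A R q r) (hw : w ∈ D) (hc : t * w = w * t) : ∃ g, g * t * g⁻¹ = t * w := by
  obtain ⟨b, hb, -⟩ := h.td.fix w hw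
  obtain ⟨g, -, -, e⟩ := h.fus hl b (h.td.fix_of_comm hw hb hc) w ((hl.memA b w).2 (Or.inr ⟨hw, hc, hb⟩))
  exact ⟨g, e⟩

theorem Pz.n_conj (h : Pz Ω 𝒮 D) (hl : Lt D t A R q r) (hc : (g * t * g⁻¹) • c = c) :
    {d | d ∈ D ∧ d ∈ 𝐂[g * t * g⁻¹] ∧ d • c = c}.ncard = q - 1 := by
  obtain ⟨c, rfl⟩ : ∃ c', g • c' = c := ⟨g⁻¹ • c, smul_inv_smul _ _⟩
  rw [conj_smul_smul] at hc
  rw [h.td.c1_transport, hl.set_eq h.td, hl.ncardA' (MulAction.injective g hc)]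

theorem Pz.sig0 (h : Pz Ω 𝒮 D) (hl : Lt D t A R q r) (hc : t • c ≠ c) :
    (Sg D t c).ncard * (q - 1) = {d | d ∈ D ∧ d • c = c}.ncard := by
  rw [← mul_one (Set.ncard {d | d ∈ D ∧ d • c = c})]
  refine ncard_rel _ _ (fun w d => t * w * d = d * (t * w)) (fun w hw => ?_) fun d hd => ?_
  · obtain ⟨g, e⟩ := h.conj_tw hl hw.1 hw.2.1
    rw [← h.n_conj hl (g := g) (c := c) (by rw [e, mul_smul, hw.2.2, hl.invo.smul_smul]), e]
    congr 1
    ext d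
    exact ⟨fun m => ⟨m.1.1, mem_centralizer_singleton_iff.2 m.2.symm, m.1.2⟩,
      fun m => ⟨⟨m.1, m.2.2⟩, (mem_centralizer_singleton_iff.1 m.2.1).symm⟩⟩
  · obtain ⟨w, hw, h1, h2⟩ := h.td.c1_exists hl.invo hl.nD hd.1 hd.2 hc
    have := h.td.fix_of_comm hd.1 hd.2 h2
    rw [mul_smul] at this
    exact Set.ncard_eq_one.2 ⟨w, Set.eq_singleton_iff_unique_mem.2 ⟨⟨⟨hw, h1, by rw [← hl.invo.smul_smul (w • c), this]⟩, h2⟩,
      fun w' m => h.td.c1_unique hl.invo hl.nD hd.1 hd.2 hc m.1.1 m.1.2.1 m.2 hw h1 h2⟩⟩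

theorem Pz.n_eq (h : Pz Ω 𝒮 D) (a b : Ω) : {d | d ∈ D ∧ d • a = a}.ncard = {d | d ∈ D ∧ d • b = b}.ncard := by
  obtain ⟨g, rfl⟩ := h.trans b a
  simpa only [mul_one, mul_inv_cancel, mem_centralizer_singleton_iff, one_mul, true_and] using h.td.c1_transport g 1 b

theorem Pz.exists_mv (h : Pz Ω 𝒮 D) (ht : t ≠ 1) : ∃ c : Ω, t • c ≠ c := by
  by_contra hn
  push Not at hn
  exact ht (h.faith hn)

theorem Pz.ct (h : Pz Ω 𝒮 D) (hl : Lt D t A R q r) : ∃ m lam, Ct 𝒮 D t A R q r m lam := by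
  have := h.finite
  have h4 := hl.four
  have hr := hl.le_r
  obtain ⟨c0, hc0⟩ := h.exists_mv hl.invo.2
  obtain ⟨a, -, ha⟩ := hl.exists_pt c0
  set m := (Sg D t c0).ncard
  have hn : ∀ a : Ω, {d | d ∈ D ∧ d • a = a}.ncard = (q - 1) * m := fun a => by
    rw [h.n_eq a c0, ← h.sig0 hl hc0, mul_comm]
  have hs : ∀ c : Ω, t • c ≠ c → (Sg D t c).ncard = m := fun c hc =>
    Nat.eq_of_mul_eq_mul_right (show 0 < q - 1 by omega) (by rw [h.sig0 hl hc, hn, mul_comm])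
  have s1 : (fixedBy Ω t).ncard * (q - 1) = {w | w ∈ D ∧ t * w = w * t}.ncard * 1 := by
    refine ncard_rel _ _ (fun c e => e • c = c) (fun c hc => ?_) fun e he => ?_
    · rw [← hl.ncardA' hc, ← hl.set_eq h.td]
      congr 1
      ext e
      exact ⟨fun m => ⟨m.1.1, mem_centralizer_singleton_iff.2 m.1.2.symm, m.2⟩,
        fun m => ⟨⟨m.1, (mem_centralizer_singleton_iff.1 m.2.1).symm⟩, m.2.2⟩⟩
    · obtain ⟨c, h1, h2⟩ := h.td.fix e he.1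
      exact Set.ncard_eq_one.2 ⟨c, Set.eq_singleton_iff_unique_mem.2
        ⟨⟨h.td.fix_of_comm he.1 h1 he.2, h1⟩, fun c' m => h2 c' m.2⟩⟩
  have s2 : (fixedBy Ω t)ᶜ.ncard * m = {w | w ∈ D ∧ t * w = w * t}.ncard * r := by
    refine ncard_rel _ _ (fun c e => e • c = t • c) (fun c hc => ?_) fun e he => ?_
    · rw [← hs c hc]
      congr 1
      ext e
      exact ⟨fun m => ⟨m.1.1, m.1.2, m.2⟩, fun m => ⟨⟨m.1, m.2.1⟩, m.2.2⟩⟩
    · obtain ⟨g, e1⟩ := h.conj_tw hl he.1 he.2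
      obtain ⟨b, h1, h2⟩ := h.td.fix e he.1
      have h3 := h.td.fix_of_comm he.1 h1 he.2
      have : {c | c ∈ (fixedBy Ω t)ᶜ ∧ e • c = t • c} = fixedBy Ω (t * e) \ {b} := by
        ext c
        refine ⟨fun m => ⟨show (t * e) • c = c by rw [mul_smul, m.2, hl.invo.smul_smul], ?_⟩, fun m => ?_⟩
        · rintro rfl; exact m.1 h3
        · have h5 : e • c = t • c := by rw [← hl.invo.smul_smul (e • c), ← mul_smul t e, m.1]
          exact ⟨fun h6 => m.2 (h2 c (h5.trans h6)), h5⟩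
      rw [this, Set.ncard_sdiff_singleton_of_mem (a := b) (s := fixedBy Ω (t * e))
        (show (t * e) • b = b by rw [mul_smul, h1, h3]), ← e1, c1_ncard_fixedBy,
        hl.cardF, Nat.add_sub_cancel]
  obtain ⟨j, hj⟩ := card_dvd_ncard (P := R a) (S := ({a} : Set Ω)ᶜ)
    (fun g hg x hx e => hx (MulAction.injective g (e.trans (hl.fix a ha g hg).symm)))
    fun g hg x hx e => hl.free h.td ha hg hx e
  have s3 := Set.ncard_add_ncard_compl (fixedBy Ω t)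
  have s4 := Set.ncard_add_ncard_compl ({a} : Set Ω)
  rw [Set.ncard_singleton, hj, hl.cardR a ha] at s4
  rw [hl.cardF] at s1 s3
  obtain ⟨lam, rfl⟩ : ∃ lam, j = 1 + lam := ⟨j - 1, by
    rcases j with _ | j
    · omega
    · omega⟩
  refine ⟨m, lam, h, hl, h.fus hl, hn, hs, by omega, Nat.eq_of_mul_eq_mul_left (show 0 < r by omega) ?_, ?_⟩
  · rw [← mul_assoc, show r * lam = (fixedBy Ω t)ᶜ.ncard by rw [mul_add] at s4; omega, s2, s1, mul_one, mul_comm]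
  · by_contra hm
    obtain ⟨z, hz, hz1, -⟩ := hl.exists_ne ha 1 1
    obtain ⟨e, he, hea, hne⟩ := h.not_central (hl.memD hz hz1) (hl.fixA hz)
    have := Set.eq_of_subset_of_ncard_le (s := (A a : Set G) \ {1}) (t := {d | d ∈ D ∧ d • a = a})
      (fun x hx => ⟨hl.memD hx.1 hx.2, hl.fixA hx.1⟩) (by
        rw [hn, hl.ncardA' ha]; exact (Nat.mul_le_mul_left _ (by omega : m ≤ 1)).trans (mul_one _).le)
    exact hne (hl.comm h.td hz (this.ge ⟨he, hea⟩).1)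

theorem Ct.mem_tz (h : Ct 𝒮 D t A R q r m lam) (ha : t • a = a) (hz : z ∈ A a) (hd : d ∈ D) (hda : d • a = a)
    (hc : t * z * d = d * (t * z)) : d ∈ A a := by
  obtain ⟨g, -, -, e⟩ := h.fus a ha z hz
  have := Set.eq_of_subset_of_ncard_le (s := (A a : Set G) \ {1}) (t := {d | d ∈ D ∧ d ∈ 𝐂[t * z] ∧ d • a = a})
    (fun x hx => ⟨h.lt.memD hx.1 hx.2, mem_centralizer_singleton_iff.2 (by
      rw [← mul_assoc, ← h.lt.comm_t hx.1, mul_assoc, h.lt.comm h.pz.td hx.1 hz, mul_assoc]), h.lt.fixA hx.1⟩) (by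
      rw [← e, h.pz.n_conj h.lt (by rw [e, mul_smul, h.lt.fixA hz, ha]), h.lt.ncardA' ha])
  exact (this.ge ⟨hd, mem_centralizer_singleton_iff.2 hc.symm, hda⟩).1

theorem Ct.Sg_smul (h : Ct 𝒮 D t A R q r m lam) (he : e ∈ Sg D t c) : e • t • c = c := by
  rw [← he.2.2, (h.pz.td.invo e he.1).smul_smul]

theorem Ct.J_le (h : Ct 𝒮 D t A R q r m lam) (hx : x ∈ JJ D t c) :
    x ∈ closure (D ∩ 𝐂[t]) ∧ x • c = c ∧ x • t • c = t • c := by
  refine (closure_le (closure (D ∩ 𝐂[t]) ⊓ st2 G c (t • c))).2 ?_ hx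
  rintro _ ⟨e, he, e', he', rfl⟩
  exact ⟨mul_mem (subset_closure ⟨he.1, mem_centralizer_singleton_iff.2 he.2.1.symm⟩)
    (subset_closure ⟨he'.1, mem_centralizer_singleton_iff.2 he'.2.1.symm⟩), h.pz.td.sw_fix he.1 he'.1 he.2.2 he'.2.2⟩

theorem Ct.odd_J (h : Ct 𝒮 D t A R q r m lam) (hc : t • c ≠ c) : Odd #|JJ D t c| :=
  odd_card_of_no_invo fun s hs i => hc (h.pz.td.fix_of_comm (h.lt.invX s (h.J_le hs).1 i) (h.J_le hs).2.1
    (h.lt.X_le (h.J_le hs).1))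

theorem Ct.norm_J (h : Ct 𝒮 D t A R q r m lam) (hg : ∀ e ∈ Sg D t c, g * e * g⁻¹ ∈ Sg D t c) : g ∈ 𝐍(JJ D t c) :=
  mem_normalizer_of_cj_le (by
    rw [cj, JJ, MonoidHom.map_closure, closure_le]
    rintro _ ⟨_, ⟨e, he, e', he', rfl⟩, rfl⟩
    exact subset_closure ⟨_, hg e he, _, hg e' he', conj_mul.symm⟩)

theorem Ct.Sg_conj (h : Ct 𝒮 D t A R q r m lam) (hg : g * t = t * g) (he : e ∈ Sg D t c) :
    g * e * g⁻¹ ∈ Sg D t (g • c) := by
  refine ⟨h.pz.td.conj e he.1 g, ?_, by rw [conj_smul_smul, he.2.2, ← mul_smul, hg, mul_smul]⟩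
  calc t * (g * e * g⁻¹) = g * (t * e) * g⁻¹ := by rw [← mul_assoc, ← mul_assoc, ← hg]; group
    _ = g * e * g⁻¹ * (g * t * g⁻¹) := by rw [he.2.1]; group
    _ = _ := by rw [hg]; group

theorem Ct.Sg_norm (h : Ct 𝒮 D t A R q r m lam) (he : e ∈ Sg D t c) : e ∈ 𝐍(JJ D t c) :=
  h.norm_J fun d hd => by
    have := h.Sg_conj he.2.1.symm hd
    refine ⟨this.1, this.2.1, ?_⟩
    rw [mul_smul, mul_smul, (h.pz.td.invo e he.1).inv_eq, he.2.2, h.Sg_smul hd, he.2.2]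

theorem Ct.Sg_inj (h : Ct 𝒮 D t A R q r m lam) (hc : t • c ≠ c) (hd : d ∈ Sg D t c) (he : e ∈ Sg D t c) (ha : d • a = a)
    (hb : e • a = a) : d = e := by
  have m := mul_mem ((h.lt.memA a d).2 (Or.inr ⟨hd.1, hd.2.1, ha⟩)) ((h.lt.memA a e).2 (Or.inr ⟨he.1, he.2.1, hb⟩))
  by_contra hne
  have h1 : d * e ≠ 1 := fun e1 => hne (by rw [← (h.pz.td.invo e he.1).mul_mul' d, e1, one_mul])
  exact hc (h.pz.td.fix_of_comm (h.lt.memD m h1) (h.pz.td.sw_fix hd.1 he.1 hd.2.2 he.2.2).1 (h.lt.comm_t m))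

theorem Ct.prime (h : Ct 𝒮 D t A R q r m lam) {p : ℕ} (hp : p.Prime) (hm : p ∣ m) :
    p ≠ 2 ∧ ∃ d ∈ D, ∃ e ∈ D, t * d = d * t ∧ t * e = e * t ∧ p ∣ orderOf (d * e) := by
  have := Fact.mk hp
  obtain ⟨c, hc⟩ := h.pz.exists_mv h.lt.invo.2
  obtain ⟨e, he⟩ := Set.nonempty_of_ncard_ne_zero (s := Sg D t c) (by rw [h.sig c hc]; have := h.m2; omega)
  have i := h.pz.td.invo e he.1
  have ho := h.odd_J hc
  have key : ∀ y ∈ invSet e (JJ D t c), e * y ∈ Sg D t c := fun y hy =>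
    ⟨h.pz.td.mul_mem_of_inv he.1 (odd_orderOf_of_mem ho hy.1) hy.2,
      by rw [← mul_assoc, he.2.1, mul_assoc, h.lt.X_le (h.J_le hy.1).1, mul_assoc],
      by rw [mul_smul, (h.J_le hy.1).2.1, he.2.2]⟩
  have e1 : (invSet e (JJ D t c)).ncard = m := by
    rw [← h.sig c hc]
    refine Set.ncard_congr (fun y _ => e * y) key (fun x y _ _ e1 => mul_left_cancel e1) fun d hd =>
      ⟨e * d, ⟨subset_closure ⟨e, he, d, hd, rfl⟩, ?_⟩, i.mul_mul d⟩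
    rw [i.mul_mul, mul_inv_rev, i.inv_eq, (h.pz.td.invo d hd.1).inv_eq]
  obtain ⟨y, hy, e2⟩ := exists_invSet_prime i (h.Sg_norm he) ho (e1 ▸ hm)
  refine ⟨?_, e, he.1, _, (key y hy).1, he.2.1, (key y hy).2.1, by rw [i.mul_mul, e2]⟩
  rintro rfl
  exact (odd_orderOf_of_mem ho hy.1).not_two_dvd_nat e2.symm.dvd

theorem Ct.cz (h : Ct 𝒮 D t A R q r m lam) (hm : m ≤ q + 1) (ha : t • a = a) (he : e ∈ D) (hc : e ∈ 𝐂(A a)) :
    e ∈ A a := by
  by_contra hn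
  have td := h.pz.td
  have hl := h.lt
  obtain ⟨z, hz, hz1, -⟩ := hl.exists_ne ha 1 1
  obtain ⟨b, hb, htb⟩ := hl.exists_pt a
  obtain ⟨K, hK, cK, -, -, hf⟩ := hl.K a b ha htb hb.symm
  have hN : K ≤ 𝐍(A a) := fun k hk => hl.normA td (mem_centralizer_singleton_iff.1 (hK hk).1) (hK hk).2.1
  have hD : ∀ e ∈ D, e ∈ 𝐂(A a) → e ∉ A a → ∀ x ∈ A a, e * x ∈ D := fun e he hc hn x hx => by
    by_cases h1 : x = 1
    · rwa [h1, mul_one]
    · exact td.mul e he x (hl.memD hx h1) (mem_centralizer_iff.1 hc x hx).symm (by rintro rfl; exact hn hx)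
  have hfx : ∀ e ∈ 𝐂(A a), e • a = a := fun e he => hl.fix_of_norm h.pz.zd ha (centralizer_le_normalizer _ he)
  have hAC : A a ≤ 𝐂(A a) := fun x hx => mem_centralizer_iff.2 fun y hy => hl.comm td hy hx
  have hC : ∀ k ∈ K, k * e * k⁻¹ ∈ 𝐂(A a) := fun k hk =>
    (mem_normalizer_iff.1 (normalizer_le_normalizer_centralizer _ (hN hk)) e).1 hc
  have key : ∀ k ∈ K, ∀ x ∈ A a, k * e * k⁻¹ = e * x → k = 1 := fun k hk x hx e1 => by
    by_contra k1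
    let f : A a → A a := fun y => ⟨y * (k * y * k⁻¹), mul_mem y.2 ((mem_normalizer_iff.1 (hN hk) y).1 y.2)⟩
    have inj : Function.Injective f := fun y y' e2 => by
      have e3 : (y : G) * (k * y * k⁻¹) = y' * (k * y' * k⁻¹) := congrArg Subtype.val e2
      have m := mul_mem (inv_mem y'.2) y.2
      by_contra hne
      refine k1 (hf k hk _ (hl.memD m fun e4 => hne (Subtype.ext (inv_mul_eq_one.1 e4).symm)) (hl.fixA m) ?_)
      have e4 : k * ((y' : G)⁻¹ * y) * k⁻¹ = ((y' : G)⁻¹ * y)⁻¹ := by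
        rw [← conj_mul, hl.comm td ((mem_normalizer_iff.1 (hN hk) _).1 (inv_mem y'.2))
          ((mem_normalizer_iff.1 (hN hk) _).1 y.2)]
        calc _ = (y : G)⁻¹ * (y * (k * y * k⁻¹)) * (k * (y' : G)⁻¹ * k⁻¹) := by group
          _ = _ := by rw [e3]; group
      rw [inv_eq_of_mul_eq_one_right (hl.sqA td m)] at e4
      exact mul_inv_eq_iff_eq_mul.1 e4
    obtain ⟨y, e2⟩ := Finite.surjective_of_injective inj ⟨x, hx⟩
    have e3 : (y : G) * (k * y * k⁻¹) = x := congrArg Subtype.val e2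
    refine k1 (hf k hk _ (hD e he hc hn y y.2) (hfx _ (mul_mem hc (hAC y.2))) (mul_inv_eq_iff_eq_mul.1 ?_))
    rw [← conj_mul, e1, ← e3, mul_assoc, mul_assoc, hl.sqA td ((mem_normalizer_iff.1 (hN hk) _).1 y.2), mul_one]
  let φ : K × A a → G := fun p => p.1 * e * (p.1 : G)⁻¹ * p.2
  have inj : Function.Injective φ := fun p p' e1 => by
    have e2 : (p.1 : G) * e * (p.1 : G)⁻¹ * p.2 = p'.1 * e * (p'.1 : G)⁻¹ * p'.2 := e1
    have := key _ (mul_mem (inv_mem p'.1.2) p.1.2) _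
      ((mem_normalizer_iff.1 (hN (inv_mem p'.1.2)) _).1 (mul_mem p'.2.2 (inv_mem p.2.2))) (by
        calc _ = (p'.1 : G)⁻¹ * (p.1 * e * (p.1 : G)⁻¹ * p.2) * (p.2 : G)⁻¹ * p'.1 := by group
          _ = _ := by rw [e2]; group)
    have e3 : p.1 = p'.1 := Subtype.ext (inv_mul_eq_one.1 this).symm
    rw [e3] at e2
    exact Prod.ext e3 (Subtype.ext (mul_left_cancel e2))
  have hsub : (A a : Set G) \ {1} ⊆ {d | d ∈ D ∧ d • a = a} := fun x hx => ⟨hl.memD hx.1 hx.2, hl.fixA hx.1⟩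
  have := Set.eq_of_subset_of_ncard_le (s := Set.range φ) (t := {d | d ∈ D ∧ d • a = a} \ ((A a : Set G) \ {1})) (by
    rintro _ ⟨p, rfl⟩
    have h1 : (p.1 : G) * e * (p.1 : G)⁻¹ ∉ A a := fun m => hn ((mem_normalizer_iff.1 (hN p.1.2) e).2 m)
    exact ⟨⟨hD _ (td.conj e he _) (hC _ p.1.2) h1 _ p.2.2, hfx _ (mul_mem (hC _ p.1.2) (hAC p.2.2))⟩,
      fun m => h1 ((mul_mem_cancel_right p.2.2).1 m.1)⟩) (by
    rw [Set.ncard_diff hsub, h.n, hl.ncardA' ha, ← Set.image_univ, Set.ncard_image_of_injective _ inj, Set.ncard_univ,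
      Nat.card_prod, hl.cardA a ha, show #|K| = q - 1 by omega]
    exact Nat.sub_le_of_le_add ((Nat.mul_le_mul_left _ hm).trans (Nat.mul_succ _ _).le))
  obtain ⟨d, hd, hda, hne⟩ := h.pz.not_central (hl.memD hz hz1) (hl.fixA hz)
  obtain ⟨p, rfl⟩ := this.ge ⟨⟨hd, hda⟩, fun m => hne (hl.comm td hz m.1)⟩
  exact hne (mem_centralizer_iff.1 (mul_mem (hC _ p.1.2) (hAC p.2.2)) z hz)

end Cfsg.Agent.WA.Zd
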