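import Cfsg.Agent.WA.ITeL
import Cfsg.Agent.WA.TeC1a
import Cfsg.Agent.BS.T4D

/-! A strongly closed set of `2`-elements whose involutions fix exactly one point: definitions (PLAN_ZD.md). -/

set_option autoImplicit false
set_option linter.unusedSectionVars false
set_option linter.unusedVariables false

namespace Cfsg.Agent.WA.Zd

open Subgroup MulAction Cfsg.Agent.FT Cfsg.Agent.L0 Cfsg.Agent.H8 Cfsg.Agent.BS Cfsg.Agent.WA.Te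
open Cfsg.Agent.H7 (opp)
open scoped Pointwise commutatorElement

universe u

variable {G Ω : Type u} [Group G] [MulAction G Ω]

/-- a class of involutions, closed under commuting products, each fixing one point -/
structure TD (Ω : Type u) [MulAction G Ω] (D : Set G) : Prop where
  invo : ∀ d ∈ D, Invo d
  conj : ∀ d ∈ D, ∀ g : G, g * d * g⁻¹ ∈ D
  fix : ∀ d ∈ D, ∃! a : Ω, d • a = a
  mul : ∀ d ∈ D, ∀ e ∈ D, d * e = e * d → d ≠ e → d * e ∈ D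

/-- the hypothesis: `𝒮` is a normal set of `2`-elements meeting every `2`-subgroup in a subgroup, `D` = involutions of `𝒮` -/
structure ZD (Ω : Type u) [MulAction G Ω] (𝒮 D : Set G) : Prop where
  td : TD Ω D
  memD : ∀ d, d ∈ D ↔ d ∈ 𝒮 ∧ Invo d
  one : (1 : G) ∈ 𝒮
  two : ∀ s ∈ 𝒮, ∃ n, s ^ 2 ^ n = 1
  conj : ∀ s ∈ 𝒮, ∀ g : G, g * s * g⁻¹ ∈ 𝒮
  mul : ∀ P : Subgroup G, IsPGroup 2 P → ∀ s ∈ 𝒮, ∀ s' ∈ 𝒮, s ∈ P → s' ∈ P → s * s' ∈ 𝒮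

/-- the simple minimal counterexample (`G` is also assumed simple) -/
structure Pz (Ω : Type u) [MulAction G Ω] (𝒮 D : Set G) : Prop where
  zd : ZD Ω 𝒮 D
  loc : ∀ L : Subgroup G, L ≠ ⊤ → Co Ω (D ∩ L)
  cov : ∀ a : Ω, a ∈ Cov Ω D
  two : ∃ a b : Ω, a ≠ b
  ex : ∃ t, Invo t ∧ t ∉ D
  nc : ∃ d ∈ D, ∃ e ∈ D, d * e ≠ e * d ∧ ∃ n, (d * e) ^ 2 ^ n = 1

/-- the centralizer of an involution `t ∉ D` that centralizes a four-subgroup of `D ∪ 1` -/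
structure Lt (D : Set G) (t : G) (A R : Ω → Subgroup G) (q r : ℕ) : Prop where
  invo : Invo t
  nD : t ∉ D
  memA : ∀ c x, x ∈ A c ↔ x = 1 ∨ (x ∈ D ∧ t * x = x * t ∧ x • c = c)
  cardA : ∀ c, t • c = c → #|A c| = q
  pow : ∃ n, 2 ≤ n ∧ q = 2 ^ n
  le : ∀ c, t • c = c → A c ≤ R c
  leX : ∀ c, t • c = c → R c ≤ closure (D ∩ 𝐂[t])
  two : ∀ c, t • c = c → IsPGroup 2 (R c)
  fix : ∀ c, t • c = c → ∀ x ∈ R c, x • c = c
  cent : ∀ c, t • c = c → R c ≤ 𝐂(A c)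
  inv : ∀ c, t • c = c → ∀ x ∈ R c, x * x = 1 → x ∈ A c
  sq : ∀ c, t • c = c → ∀ x ∈ R c, x * x ∈ A c
  trans : ∀ c b b', t • c = c → t • b = b → t • b' = b' → b ≠ c → b' ≠ c → ∃ x ∈ R c, x • b = b'
  cardR : ∀ c, t • c = c → #|R c| = r
  cardF : (fixedBy Ω t).ncard = r + 1
  cases : r = q ∨ r = q ^ 2 ∨ r = q ^ 3
  invX : ∀ s ∈ closure (D ∩ 𝐂[t]), Invo s → s ∈ D
  K : ∀ a b, t • a = a → t • b = b → a ≠ b → ∃ K : Subgroup G, K ≤ 𝐂[t] ⊓ st2 G a b ∧ #|K| + 1 = q ∧ K ≤ 𝐍(R a) ∧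
    (∀ y ∈ A a, y ≠ 1 → ∀ z ∈ A a, z ≠ 1 → ∃ k ∈ K, k * y * k⁻¹ = z) ∧
    ∀ k ∈ K, ∀ d ∈ D, d • a = a → k * d = d * k → k = 1
  sz : r = q ^ 2 → ∀ g ∈ closure (D ∩ 𝐂[t]), Odd (orderOf g) → ∀ e ∈ D, t * e = e * t → g * e = e * g →
    ∀ c : Ω, t • c = c → g • c = c
  u3 : r = q ^ 3 → ∀ d ∈ D, ∀ e ∈ D, t * d = d * t → t * e = e * t → ∀ p : ℕ, p.Prime → p ≠ 2 → p ∣ orderOf (d * e) →
    p ∣ q ^ 2 - 1

/-- the elements of `C_D(t)` that interchange `c` and `t c` -/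
def Sg (D : Set G) (t : G) (c : Ω) : Set G := {e | e ∈ D ∧ t * e = e * t ∧ e • c = t • c}

/-- the subgroup generated by the products of two elements of `Sg` -/
def JJ (D : Set G) (t : G) (c : Ω) : Subgroup G := closure {j | ∃ e ∈ Sg D t c, ∃ e' ∈ Sg D t c, j = e * e'}

/-- the configuration after the counting arguments -/
structure Ct (𝒮 D : Set G) (t : G) (A R : Ω → Subgroup G) (q r m lam : ℕ) : Prop where
  pz : Pz Ω 𝒮 D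
  lt : Lt D t A R q r
  fus : ∀ c, t • c = c → ∀ z ∈ A c, ∃ g ∈ 𝐍(A c), g • c = c ∧ g * t * g⁻¹ = t * z
  n : ∀ a : Ω, {d | d ∈ D ∧ d • a = a}.ncard = (q - 1) * m
  sig : ∀ c : Ω, t • c ≠ c → (Sg D t c).ncard = m
  card : Nat.card Ω = r * (1 + lam) + 1
  lam : lam * m = (r + 1) * (q - 1)
  m2 : 2 ≤ m

end Cfsg.Agent.WA.Zd
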