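import Cfsg.Agent.WA.ZdLa

/-! The local structure (PLAN_ZD.md, IZdL). -/

set_option autoImplicit false
set_option linter.unusedSectionVars false
set_option linter.unusedVariables false

namespace Cfsg.Agent.WA.Zd

open Subgroup MulAction Cfsg.Agent.FT Cfsg.Agent.L0 Cfsg.Agent.H8 Cfsg.Agent.BS Cfsg.Agent.WA.Te
open Cfsg.Agent.H7 (opp)
open scoped Pointwise commutatorElement

universe u

variable {G Ω : Type u} [Group G] [Finite G] [MulAction G Ω] {𝒮 D : Set G} {a b c : Ω} {d e g k s t u w x y z : G}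
  {L P T : Subgroup G} {A R : Ω → Subgroup G} {q r m lam : ℕ}
  [IsSimpleGroup G]

/-- the fixed points of `t` under `C(t)` -/
abbrev FtL (Ω : Type u) [MulAction G Ω] (t : G) : SubMulAction 𝐂[t] Ω :=
  subAct 𝐂[t] (fixedBy Ω t) fun _ hg => mem_NF_of_comm (mem_cent1.mp hg)

theorem Pz.exists_clL (h : Pz Ω 𝒮 D) (ht : Invo t) (ht' : t ∉ D) (hd : d ∈ D) (he : e ∈ D) (hne : d ≠ e)
    (hc : d * e = e * d) (h1 : t * d = d * t) (h2 : t * e = e * t) :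
    ∃ (𝒜 : FtL Ω t → Subgroup 𝐂[t]) (q : ℕ), CL 𝒜 q ∧ DD 𝒜 = {x : 𝐂[t] | (x : G) ∈ D} := by
  have hcov := h.zd.cov_cent h.cov ht
  obtain ⟨a, ha, -⟩ := h.td.fix d hd
  obtain ⟨b, hba, hb⟩ := h.two_fix ht ht' a
  have ta : t • a = a := h.td.fix_of_comm hd ha h1
  have td := (h.td.sub 𝐂[t]).subAct (FtL Ω t) fun c ⟨x, hx, e⟩ =>
    (h.td.fix_of_comm (d := (x : G)) (g := t) hx e (mem_cent1.mp x.2).symm : t • c = c)
  have hm : ∀ x ∈ {x : 𝐂[t] | (x : G) ∈ D}, ∀ y ∈ {x : 𝐂[t] | (x : G) ∈ D}, ∀ c : FtL Ω t, x • c = c → y • c = c →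
      x * y = y * x := fun x hx y hy c e1 e2 => Subtype.ext (h.comm (h.cent_ne_top ht.2) (a := a) (b := b)
    (by rw [hcov]; exact ta) (by rw [hcov]; exact hb) hba.symm
    ⟨d, ⟨hd, mem_cent1.mpr h1.symm⟩, e, ⟨he, mem_cent1.mpr h2.symm⟩, hne, hc⟩ hx x.2 hy y.2
    (congrArg Subtype.val e1) (congrArg Subtype.val e2))
  refine (td.te hm).exists_cl (fun c => ?_) ⟨⟨d, mem_cent1.mpr h1.symm⟩, hd, ⟨e, mem_cent1.mpr h2.symm⟩, he,
    fun e1 => hne (congrArg Subtype.val e1), Subtype.ext hc⟩ hm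
  obtain ⟨x, hx, e⟩ : (c : Ω) ∈ Cov Ω (D ∩ 𝐂[t]) := by rw [hcov]; exact c.2
  exact ⟨⟨x, hx.2⟩, hx.1, Subtype.ext e⟩

open Classical in
/-- a family of subgroups of `C(t)` as a family of subgroups of `G` -/
noncomputable def extL (B : FtL Ω t → Subgroup 𝐂[t]) (c : Ω) : Subgroup G :=
  if hc : t • c = c then (B ⟨c, hc⟩).map (𝐂[t]).subtype else ⊥

theorem extL_eq (B : FtL Ω t → Subgroup 𝐂[t]) (hc : t • c = c) : extL B c = (B ⟨c, hc⟩).map (𝐂[t]).subtype :=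
  dif_pos hc

theorem Pz.lt (h : Pz Ω 𝒮 D) (ht : Invo t) (ht' : t ∉ D) (hd : d ∈ D) (he : e ∈ D) (hne : d ≠ e) (hc : d * e = e * d)
    (h1 : t * d = d * t) (h2 : t * e = e * t) : ∃ (A R : Ω → Subgroup G) (q r : ℕ), Lt D t A R q r := by
  obtain ⟨𝒜, q, cl, hD⟩ := h.exists_clL ht ht' hd he hne hc h1 h2
  have hcov := h.zd.cov_cent h.cov ht
  have mD : ∀ x : 𝐂[t], x ∈ DD 𝒜 ↔ (x : G) ∈ D := fun x => by rw [hD]; rfl
  have hY : (YY 𝒜 Set.univ).map (𝐂[t]).subtype = closure (D ∩ 𝐂[t]) := by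
    refine le_antisymm (map_le_iff_le_comap.mpr (YY_le fun c _ x hx => ?_)) ((closure_le _).2 fun x hx => ?_)
    · by_cases e : x = 1
      · rw [e]; exact one_mem _
      · exact subset_closure ⟨(mD x).mp (CL.mem_DD hx e), x.2⟩
    · obtain ⟨-, c, m⟩ := (mD ⟨x, hx.2⟩).mpr hx.1
      exact ⟨_, le_YY (Set.mem_univ c) m, rfl⟩
  have ln : Ln 𝒜 Set.univ := ⟨fun _ _ _ _ _ _ => trivial, fun s hs i c _ c' _ e1 e2 => Subtype.ext
    (h.loc _ (h.cent_ne_top ht.2) s (hY ▸ ⟨s, hs, rfl⟩) ⟨congrArg Subtype.val i.1, fun e => i.2 (Subtype.ext e)⟩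
      c (by rw [hcov]; exact c.2) c' (by rw [hcov]; exact c'.2) (congrArg Subtype.val e1) (congrArg Subtype.val e2))⟩
  have pk : ∀ {c c' : FtL Ω t}, c ≠ c' → Pk 𝒜 q Set.univ c c' := fun hne => ⟨cl, ln, trivial, trivial, hne⟩
  have pk' : ∀ c : FtL Ω t, ∃ c', Pk 𝒜 q Set.univ c c' := fun c => by
    obtain ⟨b, hb, e⟩ := h.two_fix ht ht' c
    exact ⟨⟨b, e⟩, pk fun e1 => hb (congrArg Subtype.val e1).symm⟩
  obtain ⟨a, ha, -⟩ := h.td.fix d hd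
  have ta : t • a = a := h.td.fix_of_comm hd ha h1
  obtain ⟨b, pab⟩ := pk' ⟨a, ta⟩
  have cR : ∀ c : FtL Ω t, #|RR 𝒜 Set.univ c| = #|RR 𝒜 Set.univ ⟨a, ta⟩| := fun c => by
    obtain ⟨c', p⟩ := pk' c
    have := p.ncard_F
    rw [pab.ncard_F] at this
    omega
  have mA : ∀ x : 𝐂[t], (x : G) ∈ D → ∀ c : FtL Ω t, (x : G) • (c : Ω) = c → x ∈ 𝒜 c := fun x hx c e =>
    cl.mem_of_fix ((mD x).mpr hx) (Subtype.ext e)
  refine ⟨extL 𝒜, extL (RR 𝒜 Set.univ), q, #|RR 𝒜 Set.univ ⟨a, ta⟩|, ht, ht', fun c x => ?_, fun c hc => ?_,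
    cl.exists_pow ⟨a, ta⟩, fun c hc => ?_, fun c hc => ?_, fun c hc => ?_, fun c hc => ?_, fun c hc => ?_,
    fun c hc => ?_, fun c hc => ?_, fun c b b' hc hb hb' n1 n2 => ?_, fun c hc => ?_, ?_, ?_, fun s hs i => ?_,
    fun a b ha hb hab => ?_, fun hr g hg ho e he h3 h4 c hc => ?_, fun hr d hd e he h3 h4 p hp p2 hdv => ?_⟩
  · by_cases hc : t • c = c
    · rw [extL_eq _ hc]
      constructor
      · rintro ⟨x, hx, rfl⟩
        by_cases e : x = 1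
        · exact Or.inl (by rw [e]; rfl)
        · exact Or.inr ⟨(mD x).mp (CL.mem_DD hx e), (mem_cent1.mp x.2).symm, congrArg Subtype.val (cl.fix _ x hx)⟩
      · rintro (rfl | ⟨m, e1, e2⟩)
        · exact one_mem _
        · exact ⟨⟨x, mem_cent1.mpr e1.symm⟩, mA _ m ⟨c, hc⟩ e2, rfl⟩
    · rw [extL, dif_neg hc, mem_bot]
      exact ⟨Or.inl, fun e => e.resolve_right fun e => hc (h.td.fix_of_comm e.1 e.2.2 e.2.1)⟩
  · rw [extL_eq _ hc, card_map_subtype, cl.card]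
  · obtain ⟨c', p⟩ := pk' ⟨c, hc⟩
    rw [extL_eq _ hc, extL_eq _ hc]
    exact map_mono p.A_le
  · obtain ⟨c', p⟩ := pk' ⟨c, hc⟩
    rw [extL_eq _ hc, ← hY]
    exact map_mono p.R_le_Y
  · obtain ⟨c', p⟩ := pk' ⟨c, hc⟩
    rw [extL_eq _ hc]
    exact p.R_two.map _
  · obtain ⟨c', p⟩ := pk' ⟨c, hc⟩
    rw [extL_eq _ hc]
    rintro _ ⟨x, hx, rfl⟩
    exact congrArg Subtype.val (p.R_fix hx)
  · obtain ⟨c', p⟩ := pk' ⟨c, hc⟩
    rw [extL_eq _ hc, extL_eq _ hc]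
    rintro _ ⟨x, hx, rfl⟩
    refine mem_centralizer_iff.mpr ?_
    rintro _ ⟨z, hz, rfl⟩
    exact congrArg Subtype.val (mem_centralizer_iff.mp (p.R_cent hx) z hz)
  · obtain ⟨c', p⟩ := pk' ⟨c, hc⟩
    rw [extL_eq _ hc, extL_eq _ hc]
    rintro _ ⟨x, hx, rfl⟩ e
    exact ⟨x, p.mem_A hx (Subtype.ext e), rfl⟩
  · obtain ⟨c', p⟩ := pk' ⟨c, hc⟩
    rw [extL_eq _ hc, extL_eq _ hc]
    rintro _ ⟨x, hx, rfl⟩
    exact ⟨x * x, p.sq_mem hx, rfl⟩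
  · obtain ⟨x, hx, e⟩ := (pk (c := ⟨c, hc⟩) (c' := ⟨b, hb⟩) fun e => n1 (congrArg Subtype.val e).symm).R_trans
      (c := ⟨b', hb'⟩) trivial fun e => n2 (congrArg Subtype.val e)
    rw [extL_eq _ hc]
    exact ⟨x, ⟨x, hx, rfl⟩, congrArg Subtype.val e⟩
  · rw [extL_eq _ hc, card_map_subtype, cR]
  · rw [← pab.ncard_F, Set.ncard_univ, ← Nat.card_coe_set_eq]
    rfl
  · rcases pab.cases with e | ⟨e, -⟩ | ⟨e, -⟩
    exacts [Or.inl (by rw [e, cl.card]), Or.inr (Or.inl e), Or.inr (Or.inr e)]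
  · rw [← hY] at hs
    obtain ⟨s, hs, rfl⟩ := hs
    have i' : Invo (⟨s, hs⟩ : YY 𝒜 Set.univ) :=
      ⟨Subtype.ext (Subtype.ext i.1), fun e => i.2 (congrArg Subtype.val (congrArg Subtype.val e))⟩
    obtain ⟨c, hc, -⟩ := pab.se.fix1 _ i'
    obtain ⟨c', p⟩ := pk' c
    have e2 : s * s = 1 := Subtype.ext i.1
    exact (mD s).mp (CL.mem_DD (p.mem_A (p.mem_R hs (congrArg Subtype.val hc) ⟨1, by rw [pow_one, pow_two, e2]⟩) e2)
      fun e => i.2 (congrArg Subtype.val e))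
  · have p := pk (c := ⟨a, ha⟩) (c' := ⟨b, hb⟩) fun e => hab (congrArg Subtype.val e)
    rw [extL_eq _ ha, extL_eq _ ha]
    refine ⟨(KK 𝒜 ⟨a, ha⟩ ⟨b, hb⟩).map (𝐂[t]).subtype, ?_, by rw [card_map_subtype, p.card_K],
      (map_mono p.K_norm_R).trans (le_normalizer_map _), ?_, ?_⟩
    · rintro _ ⟨k, hk, rfl⟩
      exact ⟨k.2, congrArg Subtype.val (p.K_le hk).2.1, congrArg Subtype.val (p.K_le hk).2.2⟩
    · rintro _ ⟨y, hy, rfl⟩ y1 _ ⟨z, hz, rfl⟩ z1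
      obtain ⟨k, hk, e⟩ := p.K_trans hy (fun e => y1 (congrArg Subtype.val e)) hz fun e => z1 (congrArg Subtype.val e)
      exact ⟨k, ⟨k, hk, rfl⟩, congrArg Subtype.val e⟩
    · rintro _ ⟨k, hk, rfl⟩ d hd da e
      obtain ⟨w, hw⟩ := cl.exists_Sw p.ne
      have hw' := p.K_mul hk hw
      have i := h.td.invo _ ((mD w).mp hw.1)
      have := h.td.sw_comm hab ((mD _).mp hw'.1) ((mD w).mp hw.1) (congrArg Subtype.val hw'.2)
        (congrArg Subtype.val hw.2) hd da (by rw [coe_mul, i.mul_mul']; exact e)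
      rw [coe_mul] at this
      exact mul_eq_right.mp this
  · rw [← hY] at hg
    obtain ⟨g, hg, rfl⟩ := hg
    obtain ⟨a', ha', -⟩ := h.td.fix e he
    have ta' : t • a' = a' := h.td.fix_of_comm he ha' h3
    obtain ⟨b', p⟩ := pk' ⟨a', ta'⟩
    exact congrArg Subtype.val (pk_sz p (by rw [cR, hr]) hg (by rwa [← orderOf_coe])
      (mA ⟨e, mem_cent1.mpr h3.symm⟩ he _ ha') (fun e1 => (h.td.invo e he).2 (congrArg Subtype.val e1))
      (Subtype.ext h4) (c := ⟨c, hc⟩) trivial)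
  · obtain ⟨a', ha', -⟩ := h.td.fix d hd
    obtain ⟨b', hb', -⟩ := h.td.fix e he
    have ta' : t • a' = a' := h.td.fix_of_comm hd ha' h3
    have tb' : t • b' = b' := h.td.fix_of_comm he hb' h4
    have m1 := mA ⟨d, mem_cent1.mpr h3.symm⟩ hd ⟨a', ta'⟩ ha'
    have m2 := mA ⟨e, mem_cent1.mpr h4.symm⟩ he ⟨b', tb'⟩ hb'
    by_cases hab : a' = b'
    · subst hab
      have : (d * e) ^ 2 = 1 := by rw [pow_two]; exact congrArg Subtype.val (cl.sq _ _ (mul_mem m1 m2))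
      exact (p2 ((Nat.prime_dvd_prime_iff_eq hp Nat.prime_two).mp (hdv.trans (orderOf_dvd_of_pow_eq_one this)))).elim
    · exact pk_u3 (pk fun e => hab (congrArg Subtype.val e)) (by rw [cR, hr]) m1 m2 hp p2 (by rwa [← orderOf_coe])

end Cfsg.Agent.WA.Zd
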