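import Cfsg.Agent.WA.IZdU

/-! Two facts about lines: `Sz(q)` and `U₃(q)` (PLAN_ZD.md, IZdL). -/

set_option autoImplicit false
set_option linter.unusedSectionVars false
set_option linter.unusedVariables false

namespace Cfsg.Agent.WA.Zd

open Subgroup MulAction Cfsg.Agent.FT Cfsg.Agent.L0 Cfsg.Agent.H8 Cfsg.Agent.BS Cfsg.Agent.WA.Te
open Cfsg.Agent.H7 (opp)
open scoped Pointwise commutatorElement

universe u

variable {G Ω : Type u} [Group G] [Finite G] [MulAction G Ω] {A : Ω → Subgroup G} {q : ℕ} {F : Set Ω} {a b c : Ω}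
  {d e g x : G}

omit [MulAction G Ω] in
theorem l_card_map {G' : Type u} [Group G'] (f : G →* G') {X : Subgroup G} (h : ∀ x ∈ X, f x = 1 → x = 1) :
    #|X.map f| = #|X| := by
  have := Set.InjOn.ncard_image (f := f) (s := (X : Set G)) fun x hx y hy e =>
    mul_inv_eq_one.mp (h _ (mul_mem hx (inv_mem hy)) (by rw [map_mul, map_inv, e, mul_inv_cancel]))
  rwa [← Nat.card_coe_set_eq, ← Nat.card_coe_set_eq] at this

/-- in the Suzuki case `V` centralizes `Q` if `G` is generated by its involutions -/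
theorem suz_V_cent (X : Suz G) (hG : invClos G = ⊤) (hc : #|X.Q| = X.q ^ 2) {v : G} (hv : v ∈ X.V) :
    ∀ x ∈ X.Q, v * x = x * v := by
  let f := QuotientGroup.mk' X.H.normalCore
  have hf : Function.Surjective f := QuotientGroup.mk'_surjective _
  have hk : f.ker ≤ X.H := by rw [QuotientGroup.ker_mk']; exact normalCore_le _
  let Y := X.quo f hf hk
  have hcore : Y.H.normalCore = ⊥ := eq_bot_iff.2 fun y hy => by
    obtain ⟨g, rfl⟩ := hf y
    have : g ∈ X.H.normalCore := fun b => (X.mem_map_H f hk).1 (by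
      rw [map_mul, map_mul, map_inv]; exact hy (f b))
    exact (QuotientGroup.eq_one_iff g).2 this
  have hZ : Y.Z = X.Z.map f := by
    ext z
    rw [Y.mem_Z]
    constructor
    · rintro ⟨⟨x, hx, rfl⟩, e⟩
      exact ⟨x, X.mem_Z.2 ⟨hx, X.quo_inj f hk (mul_mem hx hx) (by rw [map_mul, e])⟩, rfl⟩
    · rintro ⟨x, hx, rfl⟩
      exact ⟨⟨x, X.Z_le hx, rfl⟩, by rw [← map_mul, (X.mem_Z.1 hx).2, map_one]⟩
  have cQ : #|Y.Q| = #|X.Q| := l_card_map f fun x hx => X.quo_inj f hk hx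
  have cZ : #|Y.Z| = X.q := by
    rw [hZ]; exact l_card_map f fun x hx => X.quo_inj f hk (X.Z_le hx)
  have hY : invClos (G ⧸ X.H.normalCore) = ⊤ := eq_top_iff.2 fun y _ => by
    obtain ⟨g, rfl⟩ := hf y
    have : invClos G ≤ (invClos (G ⧸ X.H.normalCore)).comap f := (closure_le _).2 fun s hs =>
      subset_closure (show f s * f s = 1 by rw [← map_mul, show s * s = 1 from hs, map_one])
    exact this (hG ▸ mem_top g)
  have hc' : #|Y.Q| = #|Y.Z| ^ 2 := by rw [cQ, cZ, hc]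
  have h4 := X.four_le_q
  have h := (Rec.rec_Sz (Y.rk1 hcore) Y.struct.two hc' fun a => by
    have h5 := Y.struct.ab fun x hx y hy => congrArg Subtype.val (a.is_comm.comm (⟨x, hx⟩ : Y.Q) ⟨y, hy⟩)
    rw [h5, cZ] at hc'
    nlinarith).1
  rw [← Y.invClos_eq hcore, hY, top_inf_eq] at h
  have m : f v ∈ Y.K := by
    rw [← h, show Y.D = X.D.map f from X.quo_D f hf hk]
    exact ⟨v, X.V_le hv, rfl⟩
  have e1 : f X.t * f v * f X.t = (f v)⁻¹ := (Y.mem_K.1 m).2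
  rw [← map_mul, ← map_mul, (X.mem_V.1 hv).2] at e1
  have e2 : f v = 1 := eq_one_of_odd_of_sq (Y.odd_orderOf (Y.K_le m)) (by
    nth_rw 1 [e1]; exact inv_mul_cancel _)
  exact (X.mem_core.1 ((QuotientGroup.eq_one_iff v).1 e2)).2

theorem pk_invClos (h : Pk A q F a b) : invClos (YY A F) = ⊤ := eq_top_iff.2 fun y _ => by
  have : YY A F ≤ (invClos (YY A F)).map (YY A F).subtype := YY_le fun c hc x hx =>
    ⟨⟨x, le_YY hc hx⟩, subset_closure (Subtype.ext (h.cl.sq c x hx)), rfl⟩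
  obtain ⟨z, hz, e⟩ := this y.2
  rwa [← Subtype.ext e]

/-- in `Sz(q)` the centralizer of an involution is a `2`-group modulo the kernel -/
theorem pk_sz (h : Pk A q F a b) (hR : #|RR A F a| = q ^ 2) (hg : g ∈ YY A F) (ho : Odd (orderOf g)) (hx : x ∈ A a)
    (h1 : x ≠ 1) (hc : g * x = x * g) (hF : c ∈ F) : g • c = c := by
  obtain ⟨w, X, hw, s⟩ := h.suz'
  have ga := h.cl.fix_of_comm hx h1 hc
  obtain ⟨ρ, hρ, e⟩ := h.R_trans ((mem_stabilizer_set.mp (h.ln.YY_le hg) b).mpr h.hb) (fun e => h.ne (by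
    rw [← ga] at e
    exact (smul_left_cancel g e).symm))
  have m : ρ⁻¹ * g ∈ YY A F := mul_mem (inv_mem (h.R_le_Y hρ)) hg
  obtain ⟨k, hk, v, hv, e1⟩ := X.sdp_D.exists_mul ((s.D ⟨_, m⟩).mpr
    ⟨by rw [mul_smul, ga, h.R_fix (inv_mem hρ)], by rw [mul_smul, ← e, inv_smul_smul]⟩)
  have e2 : (k : G) * v = ρ⁻¹ * g := congrArg Subtype.val e1
  have hcent : (v : G) ∈ 𝐂(RR A F a) := mem_centralizer_iff.mpr fun y hy => (congrArg Subtype.val
    (suz_V_cent X (pk_invClos h) (by rw [card_of_iff s.Q h.R_le_Y, s.q_eq h, hR]) hv ⟨y, h.R_le_Y hy⟩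
      ((s.Q _).mpr hy))).symm
  have c1 : x * v = v * x := mem_centralizer_iff.mp hcent x (h.A_le hx)
  have c2 : x * ρ⁻¹ = ρ⁻¹ * x := mem_centralizer_iff.mp (h.R_cent (inv_mem hρ)) x hx
  have k1 : (k : G) = 1 := (h.K_fpf ((s.K k).mp hk) (h.A_le hx) (by
    have : (k : G) = ρ⁻¹ * g * (v : G)⁻¹ := by rw [← e2, mul_inv_cancel_right]
    rw [this]
    calc ρ⁻¹ * g * (v : G)⁻¹ * x = ρ⁻¹ * g * ((v : G)⁻¹ * (x * v)) * (v : G)⁻¹ := by group
      _ = ρ⁻¹ * (g * x) * (v : G)⁻¹ := by rw [c1]; group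
      _ = x * (ρ⁻¹ * g * (v : G)⁻¹) := by rw [hc, ← mul_assoc, ← c2]; group)).resolve_right h1
  rw [k1, one_mul] at e2
  have hv' := (s.D v).mp (X.V_le hv)
  have ov : Odd (orderOf (v : G)) := odd_orderOf_of_mem h.odd_Y ⟨v.2, hv'⟩
  have cρ : Commute ρ (v : G) := mem_centralizer_iff.mp hcent ρ hρ
  have e3 : g = ρ * v := by rw [e2, mul_inv_cancel_left]
  have cg : Commute g (v : G)⁻¹ := by
    rw [e3]; exact (cρ.mul_left (Commute.refl _)).inv_right
  have e4 : ρ = 1 := eq_one_of_two_odd h.R_two hρ (by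
    rw [show ρ = g * (v : G)⁻¹ by rw [e3, mul_inv_cancel_right]]
    exact (ho.mul (by rwa [orderOf_inv])).of_dvd_nat cg.orderOf_mul_dvd_mul_orderOf)
  rw [e3, e4, one_mul]
  exact h.fix_of_cent hcent hv'.2 hF

/-- a line with `R = A` -/
theorem pk_l2 (h : Pk A q F a b) (hR : RR A F a = A a) (hg : g ∈ YY A F) {p : ℕ} (hp : p.Prime) (h2 : p ≠ 2)
    (hd : p ∣ orderOf g) : p ∣ q ^ 2 - 1 := by
  have := Fact.mk hp
  have h4 := h.cl.four
  have hF : F.ncard = q + 1 := by rw [h.ncard_F, hR, h.cl.card]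
  have hy : orderOf (g ^ (orderOf g / p)) = p := orderOf_pow_orderOf_div (orderOf_pos g).ne' hd
  have my : g ^ (orderOf g / p) ∈ YY A F := pow_mem hg _
  generalize g ^ (orderOf g / p) = y at hy my
  have hP : IsPGroup p (zpowers y) := IsPGroup.of_card (n := 1) (by rw [Nat.card_zpowers, hy, pow_one])
  have hfin : F.Finite := Set.finite_of_ncard_ne_zero (by omega)
  have hm := ncard_fixed_modEq hP hfin fun z hz c hc =>
    (mem_stabilizer_set.mp (h.ln.YY_le (zpowers_le.mpr my hz)) c).mpr hc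
  have e : q ^ 2 - 1 = (q + 1) * (q - 1) := by rw [← Nat.sq_sub_sq, one_pow]
  rw [e]
  rw [hF] at hm
  by_cases h3 : 1 < {c | c ∈ F ∧ ∀ z ∈ zpowers y, z • c = c}.ncard
  · obtain ⟨c, hc, c', hc', hne⟩ := (Set.one_lt_ncard (hfin.subset fun c hc => hc.1)).mp h3
    have h' := h.of_mem hc.1 hc'.1 hne
    have hR' : RR A F c = A c := (eq_of_le_of_card_ge h'.A_le (by
      have := h'.ncard_F
      rw [h.cl.card]; omega)).symm
    have m : y ∈ KK A c c' := by
      rw [← h'.Y_inf_eq hR']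
      exact ⟨my, hc.2 y (mem_zpowers y), hc'.2 y (mem_zpowers y)⟩
    have h5 := orderOf_dvd_natCard (⟨y, m⟩ : KK A c c')
    rw [← orderOf_coe, hy, show #|KK A c c'| = q - 1 by have := h'.card_K; omega] at h5
    exact h5.mul_left _
  · rcases Nat.le_one_iff_eq_zero_or_eq_one.mp (not_lt.mp h3) with h5 | h5 <;> rw [h5] at hm
    · exact ((Nat.modEq_zero_iff_dvd).mp hm).mul_right _
    · obtain ⟨n, -, hn⟩ := h.cl.exists_pow a
      have h6 : p ∣ q := by
        have := (Nat.modEq_iff_dvd' (by omega)).mp hm.symm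
        simpa using this
      rw [hn] at h6
      exact (h2 ((Nat.prime_dvd_prime_iff_eq hp Nat.prime_two).mp (hp.dvd_of_dvd_pow h6))).elim

/-- in `U₃(q)` two involutions generate a subgroup of an `L₂(q)` -/
theorem pk_u3 (h : Pk A q F a b) (hR : #|RR A F a| = q ^ 3) (hd : d ∈ A a) (he : e ∈ A b) {p : ℕ} (hp : p.Prime)
    (h2 : p ≠ 2) (hdv : p ∣ orderOf (d * e)) : p ∣ q ^ 2 - 1 := by
  obtain ⟨n1, n2, n3⟩ := pow_ne_of_four h.cl.four
  rcases h.cases with e | ⟨e, -⟩ | ⟨-, w, hw, hw', ho, hn⟩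
  · rw [e, h.cl.card] at hR; exact (n2 hR).elim
  · rw [e] at hR; exact (n3 hR).elim
  obtain ⟨wF, wa, wb, wc⟩ := mem_CH.mp hw'
  have key : ∀ c ∈ F, w • c = c → c ≠ a → ∃ x ∈ A a, x • b = c := fun c hc hwc hca => by
    obtain ⟨x, hx, rfl⟩ := h.R_trans hc hca
    have := h.R_free (mul_mem (inv_mem hx) ((mem_normalizer_iff.mp (h.cl.norm_RR wF wa) x).mp hx)) h.ne.symm (by
      rw [mul_smul, mul_smul, mul_smul, inv_smul_eq_of_smul_eq wb, hwc, inv_smul_smul])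
    exact ⟨x, (h.u1 hR hw' ho hn).1 x hx (this ▸ one_mem _), rfl⟩
  have cent : ∀ c ∈ F, w • c = c → ∀ y ∈ A c, y * w = w * y := fun c hc hwc y hy => by
    by_cases hca : c = a
    · exact mem_centralizer_iff.mp wc y (hca ▸ hy)
    obtain ⟨x, hx, rfl⟩ := key c hc hwc hca
    rw [← h.cl.eqv] at hy
    obtain ⟨z, hz, rfl⟩ := hy
    have c1 : Commute x w := mem_centralizer_iff.mp wc x hx
    have c2 : Commute z w := mem_centralizer_iff.mp (h.cent_b hw') z hz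
    exact ((c1.mul_left c2).mul_left c1.inv_left).eq
  have h' : Pk A q {c | c ∈ F ∧ w • c = c} a b := ⟨h.cl, ⟨fun c hc x hx e he => ⟨h.ln.inv c hc.1 x hx e he.1, by
    rw [← mul_smul, ← cent c hc.1 hc.2 x hx, mul_smul, he.2]⟩, fun t ht i c hc e he =>
      h.ln.one t (YY_le (fun c hc => le_YY hc.1) ht) i c hc.1 e he.1⟩, ⟨h.ha, wa⟩, ⟨h.hb, wb⟩, h.ne⟩
  refine pk_l2 h' (le_antisymm (fun x hx => ?_) h'.A_le) (mul_mem (le_YY h'.ha hd) (le_YY h'.hb he)) hp h2 hdv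
  have m := (mem_stabilizer_set.mp (h'.ln.YY_le (h'.R_le_Y hx)) b).mpr h'.hb
  obtain ⟨z, hz, e⟩ := key _ m.1 m.2 fun e => h.ne (by
    rw [← h'.R_fix hx] at e
    exact (smul_left_cancel x e).symm)
  have := h'.R_free (mul_mem (inv_mem (h'.A_le hz)) hx) h.ne.symm (by rw [mul_smul, ← e, inv_smul_smul])
  rwa [← inv_mul_eq_one.mp this]

end Cfsg.Agent.WA.Zd
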