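import Cfsg.Agent.WA.IZdC
import Cfsg.Agent.WA.ITeP

/-! Orbits on the elements of `D` fixing a point (PLAN_ZD.md, IZdO). -/

set_option autoImplicit false
set_option linter.unusedSectionVars false
set_option linter.unusedVariables false

namespace Cfsg.Agent.WA.Zd

open Subgroup MulAction Cfsg.Agent.FT Cfsg.Agent.L0 Cfsg.Agent.H8 Cfsg.Agent.BS Cfsg.Agent.WA.Te
open Cfsg.Agent.H7 (opp)
open scoped Pointwise commutatorElement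

universe u

variable {G Ω : Type u} [Group G] [Finite G] [MulAction G Ω] {𝒮 D : Set G} {a b c : Ω} {d e g k s t u w x y z : G}
  {L P T : Subgroup G} {A R : Ω → Subgroup G} {q r m lam : ℕ}
  [IsSimpleGroup G]

theorem zo_part {α : Type*} [Finite α] (O : α → Set α) (n : ℕ) (S : Set α) (h1 : ∀ e ∈ S, e ∈ O e)
    (h2 : ∀ e ∈ S, O e ⊆ S) (h3 : ∀ e ∈ S, ∀ g ∈ O e, O g = O e) (h4 : ∀ e ∈ S, n ∣ (O e).ncard) : n ∣ S.ncard := by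
  induction hN : S.ncard using Nat.strong_induction_on generalizing S with
  | _ N ih =>
  rcases S.eq_empty_or_nonempty with rfl | ⟨e, he⟩
  · simp [← hN]
  have e1 := Set.ncard_sdiff_add_ncard_of_subset (h2 e he) (Set.toFinite _)
  have e2 : 0 < (O e).ncard := (Set.ncard_pos (Set.toFinite _)).mpr ⟨e, h1 e he⟩
  rw [← hN, ← e1]
  refine Nat.dvd_add (ih _ (by omega) (S \ O e) (fun x hx => h1 x hx.1) (fun x hx y hy => ⟨h2 x hx.1 hy, fun r => hx.2 ?_⟩)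
    (fun x hx => h3 x hx.1) (fun x hx => h4 x hx.1) rfl) (h4 e he)
  rw [← h3 e he y r, h3 x hx.1 y hy]
  exact h1 x hx.1

/-- the orbit of `e` -/
def zoO (A R : Subgroup G) (e : G) : Set G := {g | ∃ ρ ∈ R, (ρ * e * ρ⁻¹)⁻¹ * g ∈ A ⊓ 𝐂[e]}

omit [IsSimpleGroup G] in
theorem zo_cn {A R B : Subgroup G} (hc : R ≤ 𝐂(A)) (hB : B ≤ A) (hg : g ∈ R) : g * y * g⁻¹ ∈ B ↔ y ∈ B :=
  (mem_normalizer_iff.mp (centralizer_le_normalizer _ (centralizer_le hB (hc hg))) y).symm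

omit [IsSimpleGroup G] in
theorem zo_count {A R : Subgroup G} (hc : R ≤ 𝐂(A)) (e : G) :
    #|R| * #|(A ⊓ 𝐂[e] : Subgroup G)| =
      (zoO A R e).ncard * {σ | σ ∈ R ∧ (σ * e * σ⁻¹)⁻¹ * e ∈ A ⊓ 𝐂[e]}.ncard := by
  refine ncard_rel (R : Set G) (zoO A R e) (fun ρ g => (ρ * e * ρ⁻¹)⁻¹ * g ∈ A ⊓ 𝐂[e]) (fun ρ hρ => ?_) ?_
  · rw [show #|(A ⊓ 𝐂[e] : Subgroup G)| = ((A ⊓ 𝐂[e] : Subgroup G) : Set G).ncard from rfl,
      ← Set.ncard_image_of_injective (A ⊓ 𝐂[e] : Subgroup G) (mul_right_injective (ρ * e * ρ⁻¹))]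
    refine congrArg Set.ncard (Set.ext fun g => ?_)
    exact ⟨fun hg => ⟨_, hg.2, mul_inv_cancel_left _ _⟩, by
      rintro ⟨x, hx, rfl⟩
      have : (ρ * e * ρ⁻¹)⁻¹ * (ρ * e * ρ⁻¹ * x) ∈ A ⊓ 𝐂[e] := by rwa [inv_mul_cancel_left]
      exact ⟨⟨ρ, hρ, this⟩, this⟩⟩
  · rintro g ⟨ρ, hρ, hg⟩
    have key : ∀ σ, (ρ * σ * e * (ρ * σ)⁻¹)⁻¹ * g ∈ A ⊓ 𝐂[e] ↔ (σ * e * σ⁻¹)⁻¹ * e ∈ A ⊓ 𝐂[e] := fun σ => by
      rw [show (ρ * σ * e * (ρ * σ)⁻¹)⁻¹ * g = ρ * ((σ * e * σ⁻¹)⁻¹ * e) * ρ⁻¹ * ((ρ * e * ρ⁻¹)⁻¹ * g) by group,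
        mul_mem_cancel_right hg, zo_cn hc inf_le_left hρ]
    rw [← Set.ncard_image_of_injective {σ | σ ∈ R ∧ (σ * e * σ⁻¹)⁻¹ * e ∈ A ⊓ 𝐂[e]} (mul_right_injective ρ)]
    congr 1
    ext σ
    exact ⟨fun hσ => ⟨ρ⁻¹ * σ, ⟨mul_mem (inv_mem hρ) hσ.1, (key _).mp (by rw [mul_inv_cancel_left]; exact hσ.2)⟩,
      mul_inv_cancel_left _ _⟩, by
      rintro ⟨x, hx, rfl⟩
      exact ⟨mul_mem hρ hx.1, (key x).mpr hx.2⟩⟩

omit [IsSimpleGroup G] in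
theorem zo_B {A R : Subgroup G} (hc : R ≤ 𝐂(A)) (hA : A ≤ R) (hg : g ∈ zoO A R e) : A ⊓ 𝐂[g] = A ⊓ 𝐂[e] := by
  obtain ⟨ρ, hρ, hg⟩ := hg
  ext y
  simp only [mem_inf, mem_centralizer_singleton_iff, and_congr_right_iff]
  intro hy
  have c1 : Commute y ρ := mem_centralizer_iff.mp (hc hρ) y hy
  have c2 : Commute y ((ρ * e * ρ⁻¹)⁻¹ * g) := mem_centralizer_iff.mp (hc (hA hg.1)) y hy
  constructor
  · intro (c : Commute y g)
    have := ((c1.inv_right.mul_right (c.mul_right c2.inv_right)).mul_right c1)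
    rwa [show ρ⁻¹ * (g * ((ρ * e * ρ⁻¹)⁻¹ * g)⁻¹) * ρ = e by group] at this
  · intro (c : Commute y e)
    have := ((c1.mul_right c).mul_right c1.inv_right).mul_right c2
    rwa [mul_inv_cancel_left] at this

omit [IsSimpleGroup G] in
theorem zo_eq {A R : Subgroup G} (hc : R ≤ 𝐂(A)) (hA : A ≤ R) (hg : g ∈ zoO A R e) : zoO A R g = zoO A R e := by
  have hB := zo_B hc hA hg
  obtain ⟨ρ, hρ, hg⟩ := hg
  have key : ∀ σ ∈ R, ∀ y, (σ * g * σ⁻¹)⁻¹ * y ∈ A ⊓ 𝐂[e] ↔ (σ * ρ * e * (σ * ρ)⁻¹)⁻¹ * y ∈ A ⊓ 𝐂[e] :=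
    fun σ hσ y => by
      rw [show (σ * ρ * e * (σ * ρ)⁻¹)⁻¹ * y = σ * ((ρ * e * ρ⁻¹)⁻¹ * g) * σ⁻¹ * ((σ * g * σ⁻¹)⁻¹ * y) by group,
        mul_mem_cancel_left ((zo_cn hc inf_le_left hσ).mpr hg)]
  ext y
  simp only [zoO, hB, Set.mem_ofPred_eq]
  exact ⟨fun ⟨σ, hσ, h⟩ => ⟨_, mul_mem hσ hρ, (key σ hσ y).mp h⟩, fun ⟨σ, hσ, h⟩ =>
    ⟨σ * ρ⁻¹, mul_mem hσ (inv_mem hρ), (key _ (mul_mem hσ (inv_mem hρ)) y).mpr (by rwa [inv_mul_cancel_right])⟩⟩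

theorem Ct.zo_stab (h : Ct 𝒮 D t A R q r m lam) (ha : t • a = a) {f : ℕ} (hf : f * (q - 1) = r - q) :
    {σ | σ ∈ R a ∧ (σ * e * σ⁻¹)⁻¹ * e ∈ A a ⊓ 𝐂[e]}.ncard + f ≤ q + #|(A a ⊓ 𝐂[e] : Subgroup G)| * f := by
  have hd := h.pz.zd.td
  have h4 := h.lt.four
  set B := A a ⊓ 𝐂[e] with hB
  have e1 := ncard_rel {σ | σ ∈ R a ∧ σ * σ ∈ B ∧ σ * σ ≠ 1} ((B : Set G) \ {1}) (fun σ z => σ * σ = z) (m := 1) (n := f)
    (fun σ hσ => Set.ncard_eq_one.mpr ⟨σ * σ, Set.ext fun z => ⟨fun hz => hz.2.symm, fun hz => by rw [hz]; exact ⟨hσ.2, rfl⟩⟩⟩)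
    fun z hz => by
      have := h.lt.fibre hd ha hz.1.1 hz.2
      rw [← hf] at this
      rw [← Nat.eq_of_mul_eq_mul_right (by omega) this]
      congr 1
      ext σ
      exact ⟨fun hσ => ⟨hσ.1.1, hσ.2⟩, fun hσ => ⟨⟨hσ.1, hσ.2 ▸ hz⟩, hσ.2⟩⟩
  rw [mul_one, Set.ncard_sdiff_singleton_of_mem (one_mem B)] at e1
  have e2 : {σ | σ ∈ R a ∧ (σ * e * σ⁻¹)⁻¹ * e ∈ B} ⊆ (A a : Set G) ∪ {σ | σ ∈ R a ∧ σ * σ ∈ B ∧ σ * σ ≠ 1} := by
    intro σ hσ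
    by_cases h1 : σ * σ = 1
    · exact Or.inl (h.lt.inv a ha σ hσ.1 h1)
    refine Or.inr ⟨hσ.1, ⟨h.lt.sq a ha σ hσ.1, mem_centralizer_singleton_iff.mpr (mul_inv_eq_iff_eq_mul.mp ?_)⟩, h1⟩
    have x2 := h.lt.sqA hd hσ.2.1
    have c : σ * ((σ * e * σ⁻¹)⁻¹ * e) = ((σ * e * σ⁻¹)⁻¹ * e) * σ :=
      (mem_centralizer_iff.mp (h.lt.cent a ha hσ.1) _ hσ.2.1).symm
    generalize hx : (σ * e * σ⁻¹)⁻¹ * e = x at x2 c
    have e3 : σ * e * σ⁻¹ = e * x⁻¹ := by rw [← hx]; group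
    calc σ * σ * e * (σ * σ)⁻¹ = σ * (σ * e * σ⁻¹) * σ⁻¹ := by group
      _ = σ * (e * x⁻¹) * σ⁻¹ := by rw [e3]
      _ = σ * e * σ⁻¹ * (σ * x * σ⁻¹)⁻¹ := by group
      _ = e * (x * x)⁻¹ := by rw [e3, c]; group
      _ = e := by rw [x2, inv_one, mul_one]
  have e3 := (Set.ncard_le_ncard e2 (Set.toFinite _)).trans (Set.ncard_union_le _ _)
  have e4 : (A a : Set G).ncard = q := h.lt.cardA a ha
  have e5 : (B : Set G).ncard = #|B| := rfl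
  obtain ⟨n, hn⟩ : ∃ n, #|B| = n + 1 := ⟨_, (Nat.succ_pred_eq_of_pos Nat.card_pos).symm⟩
  rw [e1, e4, e5, hn, Nat.add_sub_cancel] at e3
  rw [hn, add_mul]
  omega

theorem Ct.zo_dvd (h : Ct 𝒮 D t A R q r m lam) (ha : t • a = a) {f n : ℕ} (hf : f * (q - 1) = r - q) (hn : ∃ i, n = 2 ^ i)
    (hb : ∀ e ∈ D, e ∉ A a → ∀ o s, r * #|(A a ⊓ 𝐂[e] : Subgroup G)| = o * s →
      s + f ≤ q + #|(A a ⊓ 𝐂[e] : Subgroup G)| * f → n < 2 * o) : n ∣ (q - 1) * (m - 1) := by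
  have hd := h.pz.zd.td
  have hc := h.lt.cent a ha
  have hA := h.lt.le a ha
  have e1 : {d | d ∈ D ∧ d • a = a} \ ((A a : Set G) \ {1}) = {d | d ∈ D ∧ d • a = a ∧ d ∉ A a} := by
    ext d
    exact ⟨fun hd' => ⟨hd'.1.1, hd'.1.2, fun r => hd'.2 ⟨r, (hd.invo d hd'.1.1).2⟩⟩,
      fun hd' => ⟨⟨hd'.1, hd'.2.1⟩, fun r => hd'.2.2 r.1⟩⟩
  have e2 := Set.ncard_sdiff (s := (A a : Set G) \ {1}) (t := {d | d ∈ D ∧ d • a = a})
    (fun x hx => ⟨h.lt.memD hx.1 hx.2, h.lt.fixA hx.1⟩) (Set.toFinite _)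
  have e4 : (A a : Set G).ncard = q := h.lt.cardA a ha
  rw [e1, h.n, Set.ncard_sdiff_singleton_of_mem (one_mem _), e4] at e2
  rw [Nat.mul_sub_one, ← e2]
  refine zo_part (zoO (A a) (R a)) n _ (fun e he => ⟨1, one_mem _, by simpa using one_mem _⟩) ?_
    (fun e he g hg => zo_eq hc hA hg) fun e he => ?_
  · rintro e he g ⟨ρ, hρ, hg⟩
    have n1 : ρ * e * ρ⁻¹ ∉ A a := fun r => he.2.2 ((zo_cn hc le_rfl hρ).mp r)
    have cx : Commute ((ρ * e * ρ⁻¹)⁻¹ * g) (ρ * e * ρ⁻¹) := by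
      have c1 : Commute ((ρ * e * ρ⁻¹)⁻¹ * g) ρ := mem_centralizer_iff.mp (hc hρ) _ hg.1
      have c2 : Commute ((ρ * e * ρ⁻¹)⁻¹ * g) e := mem_centralizer_singleton_iff.mp hg.2
      exact (c1.mul_right c2).mul_right c1.inv_right
    have fa : (ρ * e * ρ⁻¹) • a = a := by
      have := h.lt.fix a ha ρ hρ
      rw [mul_smul, mul_smul, inv_smul_eq_of_smul_eq this, he.2.1, this]
    have hD := hd.conj e he.1 ρ
    have hx := (mem_inf.mp hg).1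
    rw [← mul_inv_cancel_left (ρ * e * ρ⁻¹) g]
    generalize (ρ * e * ρ⁻¹)⁻¹ * g = x at cx hx
    generalize ρ * e * ρ⁻¹ = d at cx hD fa n1
    refine ⟨?_, by rw [mul_smul, h.lt.fixA hx, fa], fun r => n1 ((mul_mem_cancel_right hx).mp r)⟩
    by_cases h1 : x = 1
    · rwa [h1, mul_one]
    · exact hd.mul d hD x (h.lt.memD hx h1) cx.symm fun r => n1 (r ▸ hx)
  · have e5 := zo_count hc e
    obtain ⟨i, rfl⟩ := hn
    obtain ⟨j, hj⟩ := (h.lt.two a ha).exists_card_eq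
    obtain ⟨l, hl⟩ := ((h.lt.twoA hd a).to_le (inf_le_left (b := 𝐂[e]))).exists_card_eq
    obtain ⟨o, -, ho⟩ := (Nat.dvd_prime_pow Nat.prime_two).mp
      (show (zoO (A a) (R a) e).ncard ∣ 2 ^ (j + l) from ⟨_, by rw [pow_add, ← hj, ← hl, e5]⟩)
    rw [h.lt.cardR a ha] at e5
    have := hb e he.1 he.2.2 _ _ e5 (h.zo_stab ha hf)
    rw [ho, ← pow_succ'] at this
    rw [ho]
    exact pow_dvd_pow 2 (Nat.lt_succ_iff.mp ((Nat.pow_lt_pow_iff_right (by norm_num)).mp this))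

theorem Ct.orb (h : Ct 𝒮 D t A R q r m lam) (hr : r = q ^ 2 ∨ r = q ^ 3) : q ∣ m - 1 := by
  obtain ⟨a0, -⟩ := h.pz.two
  obtain ⟨a, -, ha⟩ := h.pz.two_fix h.lt.invo h.lt.nD a0
  have h4 := h.lt.four
  obtain ⟨n, -, hn⟩ := h.lt.pow
  have hq : q ∣ (q - 1) * (m - 1) := by
    obtain ⟨p, rfl⟩ : ∃ p, q = p + 1 := ⟨q - 1, by omega⟩
    rcases hr with hr | hr
    · refine h.zo_dvd ha (f := p + 1) (by rw [hr, Nat.add_sub_cancel]; exact (Nat.sub_eq_of_eq_add (by ring)).symm)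
        ⟨n, hn⟩ fun e he hne o s h1 h2 => ?_
      have := Nat.card_pos (α := (A a ⊓ 𝐂[e] : Subgroup G))
      generalize #|(A a ⊓ 𝐂[e] : Subgroup G)| = β at h1 h2 this
      generalize p + 1 = q at *
      by_contra hc
      have : o * s ≤ o * (β * q) := Nat.mul_le_mul_left _ (by omega)
      have : 2 * o * (β * q) ≤ q * (β * q) := Nat.mul_le_mul_right _ (by omega)
      have : 0 < β * q * q := by positivity
      rw [hr] at h1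
      nlinarith
    · refine h.zo_dvd ha (f := (p + 1) * (p + 2))
        (by rw [hr, Nat.add_sub_cancel]; exact (Nat.sub_eq_of_eq_add (by ring)).symm) ⟨n, hn⟩ fun e he hne o s h1 h2 => ?_
      have := Nat.card_pos (α := (A a ⊓ 𝐂[e] : Subgroup G))
      have hβ := (card_le_of_le (inf_le_left : A a ⊓ 𝐂[e] ≤ _)).trans_eq (h.lt.cardA a ha)
      generalize #|(A a ⊓ 𝐂[e] : Subgroup G)| = β at h1 h2 this hβ
      rw [show p + 2 = p + 1 + 1 from rfl] at h2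
      generalize p + 1 = q at *
      by_contra hc
      have : o * s ≤ o * (β * q * q) := Nat.mul_le_mul_left _ (by nlinarith)
      have : 2 * o * (β * q * q) ≤ q * (β * q * q) := Nat.mul_le_mul_right _ (by omega)
      have : 0 < β * q * q * q := by positivity
      rw [hr] at h1
      nlinarith
  exact (Nat.Coprime.symm ((Nat.coprime_self_sub_left (by omega : 1 ≤ q)).mpr (by simp))).dvd_of_dvd_mul_left hq

theorem Ct.orb3 (h : Ct 𝒮 D t A R q r m lam) (hr : r = q ^ 3) (ha : t • a = a)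
    (hc : ∀ e ∈ D, e ∈ 𝐂(A a) → e ∈ A a) : 2 * q ∣ (q - 1) * (m - 1) := by
  have h4 := h.lt.four
  obtain ⟨n, -, hn⟩ := h.lt.pow
  obtain ⟨p, rfl⟩ : ∃ p, q = p + 1 := ⟨q - 1, by omega⟩
  refine h.zo_dvd ha (f := (p + 1) * (p + 2))
    (by rw [hr, Nat.add_sub_cancel]; exact (Nat.sub_eq_of_eq_add (by ring)).symm) ⟨n + 1, by rw [hn, pow_succ']⟩
    fun e he hne o s h1 h2 => ?_
  have := Nat.card_pos (α := (A a ⊓ 𝐂[e] : Subgroup G))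
  have hβ : #|(A a ⊓ 𝐂[e] : Subgroup G)| < p + 1 := by
    rw [← h.lt.cardA a ha]
    by_contra hc'
    have := eq_of_le_of_card_ge (inf_le_left : A a ⊓ 𝐂[e] ≤ _) (not_lt.mp hc')
    exact hne (hc e he (mem_centralizer_iff.mpr fun x hx => mem_centralizer_singleton_iff.mp (this.ge hx).2))
  generalize #|(A a ⊓ 𝐂[e] : Subgroup G)| = β at h1 h2 this hβ
  rw [show p + 2 = p + 1 + 1 from rfl] at h2
  generalize p + 1 = q at *
  by_contra hc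
  have h5 : s + q ≤ β * q * q := by nlinarith
  have : o * (s + q) ≤ q * (β * q * q) := Nat.mul_le_mul (by omega) h5
  have h0 : o ≠ 0 := fun e => by
    rw [e, zero_mul, hr] at h1
    exact (by positivity : q ^ 3 * β ≠ 0) h1
  have : 0 < o * q := by positivity
  rw [hr] at h1
  nlinarith

end Cfsg.Agent.WA.Zd
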