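import Cfsg.Agent.WA.IZdC
import Cfsg.Agent.WA.ITeP
import Cfsg.Agent.H5.PBasic

/-! The case `r = q` (PLAN_ZD.md, IZdQ1). -/

set_option autoImplicit false
set_option linter.unusedSectionVars false
set_option linter.unusedVariables false

namespace Cfsg.Agent.WA.Zd

open Subgroup MulAction Cfsg.Agent.FT Cfsg.Agent.L0 Cfsg.Agent.H8 Cfsg.Agent.BS Cfsg.Agent.WA.Te
open Cfsg.Agent.H7 (opp)
open scoped Pointwise commutatorElement

universe u

variable {G Ω : Type u} [Group G] [Finite G] [MulAction G Ω] {𝒮 D : Set G} {a b c : Ω} {d e g k s t u w x y z : G}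
  {L P T : Subgroup G} {A R : Ω → Subgroup G} {q r m lam : ℕ}
  [IsSimpleGroup G]

/-- the stabilizer of the coset `t A` in `N(A)` -/
def q1N (A : Subgroup G) (t : G) : Subgroup G where
  carrier := {g | g ∈ 𝐍(A) ∧ t⁻¹ * (g * t * g⁻¹) ∈ A}
  one_mem' := ⟨one_mem _, by simp⟩
  mul_mem' {g h} hg hh := ⟨mul_mem hg.1 hh.1, by
    rw [show t⁻¹ * (g * h * t * (g * h)⁻¹) = t⁻¹ * (g * t * g⁻¹) * (g * (t⁻¹ * (h * t * h⁻¹)) * g⁻¹) by group]
    exact mul_mem hg.2 ((mem_normalizer_iff.mp hg.1 _).mp hh.2)⟩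
  inv_mem' {g} hg := ⟨inv_mem hg.1, by
    rw [show t⁻¹ * (g⁻¹ * t * g⁻¹⁻¹) = g⁻¹ * (t⁻¹ * (g * t * g⁻¹))⁻¹ * g⁻¹⁻¹ by group]
    exact (mem_normalizer_iff.mp (inv_mem hg.1) _).mp (inv_mem hg.2)⟩

omit [IsSimpleGroup G] [Finite G] in
theorem mem_q1N {A : Subgroup G} : g ∈ q1N A t ↔ g ∈ 𝐍(A) ∧ t⁻¹ * (g * t * g⁻¹) ∈ A := Iff.rfl

namespace Ct

variable (h : Ct 𝒮 D t A R q r m lam) (hr : r = q) (ha : t • a = a)
include h

theorem q1_S (hx : x ∈ A a) : x ∈ 𝒮 := by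
  by_cases h1 : x = 1
  · exact h1 ▸ h.pz.zd.one
  · exact h.pz.zd.mem (h.lt.memD hx h1)

theorem q1_nS : t ∉ 𝒮 := fun e => h.lt.nD ((h.pz.zd.memD t).mpr ⟨e, h.lt.invo⟩)

theorem q1_tc : t ∈ 𝐂(A a) := mem_centralizer_iff.mpr fun x hx => (h.lt.comm_t hx).symm

theorem q1_AA : A a ≤ 𝐂(A a) := fun x hx => mem_centralizer_iff.mpr fun y hy => h.lt.comm h.pz.zd.td hy hx

theorem q1_cN (hg : g * t = t * g) (hga : g • a = a) : g ∈ q1N (A a) t :=
  ⟨h.lt.normA h.pz.zd.td hg hga, by rw [hg]; simp⟩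

include hr ha

theorem q1_blocks (hP : IsPGroup 2 P) (ht : t ∈ P) (hc : P ≤ 𝐂(A a)) :
    {s | s ∈ P ∧ Invo s ∧ t * s ∈ 𝒮}.ncard ≤ 1 + lam := by
  have hz := h.pz.zd
  have := h.pz.finite
  have h4 := h.lt.four
  have key : ∀ s : G, ∃ b : Ω, s ∈ P ∧ Invo s ∧ t * s ∈ 𝒮 → b ≠ a ∧ s • b = b := fun s => by
    by_cases hs : s ∈ P ∧ Invo s ∧ t * s ∈ 𝒮
    · obtain ⟨b, hb⟩ := h.pz.two_fix hs.2.1 (fun e => h.q1_nS (by
        have := hz.mul P hP _ hs.2.2 s (hz.mem e) (mul_mem ht hs.1) hs.1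
        rwa [hs.2.1.mul_mul'] at this)) a
      exact ⟨b, fun _ => hb⟩
    · exact ⟨a, fun e => (hs e).elim⟩
  choose β hβ using key
  have e1 := Set.ncard_le_ncard_of_injOn (s := {s | s ∈ P ∧ Invo s ∧ t * s ∈ 𝒮} ×ˢ (A a : Set G)) (t := {a}ᶜ)
    (fun p => p.2 • β p.1) (fun p hp e => (hβ _ hp.1).1 (by
      rw [← inv_smul_eq_of_smul_eq (Set.mem_singleton_iff.mp e), h.lt.fixA (inv_mem hp.2)])) (by
      rintro ⟨s, x⟩ ⟨hs, hx⟩ ⟨s', x'⟩ ⟨hs', hx'⟩ (e : x • β s = x' • β s')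
      have f : ∀ s, s ∈ P ∧ Invo s ∧ t * s ∈ 𝒮 → s • a = a ∧ ∀ x ∈ A a, s • x • β s = x • β s := fun s hs => by
        obtain ⟨y, hy, y1, -⟩ := h.lt.exists_ne ha 1 1
        exact ⟨hz.td.fix_of_comm (h.lt.memD hy y1) (h.lt.fixA hy) (mem_centralizer_iff.mp (hc hs.1) y hy).symm,
          fun x hx => smul_fix_of_comm (mem_centralizer_iff.mp (hc hs.1) x hx) (hβ s hs).2⟩
      have ne : a ≠ x • β s := fun e => (hβ s hs).1 (by rw [← inv_smul_eq_of_smul_eq e.symm, h.lt.fixA (inv_mem hx)])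
      have e2 : s⁻¹ * s' = 1 := by
        refine hz.eq_one ?_ ne (by rw [mul_smul, (f s' hs').1, inv_smul_eq_of_smul_eq (f s hs).1])
          (by rw [mul_smul, e, (f s' hs').2 x' hx', ← e, inv_smul_eq_of_smul_eq ((f s hs).2 x hx)])
        have := hz.mul P hP _ (hz.inv_mem hs.2.2) _ hs'.2.2 (inv_mem (mul_mem ht hs.1)) (mul_mem ht hs'.1)
        rwa [show (t * s)⁻¹ * (t * s') = s⁻¹ * s' by group] at this
      obtain rfl := inv_mul_eq_one.mp e2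
      have m := mul_mem (inv_mem hx) hx'
      have e3 : x⁻¹ * x' = 1 := hz.eq_one (h.q1_S m) (hβ s hs).1 (by rw [mul_smul, ← e, inv_smul_smul]) (h.lt.fixA m)
      rw [inv_mul_eq_one.mp e3]) (Set.toFinite _)
  have e2 := Set.ncard_add_ncard_compl ({a} : Set Ω)
  have e4 : (A a : Set G).ncard = q := h.lt.cardA a ha
  rw [Set.ncard_singleton, h.card, hr] at e2
  rw [Set.ncard_prod, e4] at e1
  exact Nat.le_of_mul_le_mul_right (e1.trans (by rw [mul_comm]; omega)) (by omega : 0 < q)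

theorem q1_inj (hP : IsPGroup 2 P) (ht : t ∈ P) (hA : A a ≤ P) (hc : P ≤ 𝐂(A a)) {W : Set G}
    (hW : ∀ v ∈ W, ∃ ρ ∈ P, ρ ∈ 𝒮 ∧ ρ * ρ = v ∧ t * ρ * t = ρ⁻¹) : W.ncard * q ≤ 1 + lam := by
  have hz := h.pz.zd
  have it := h.lt.invo
  choose! ρ h1 h2 h3 h4 using hW
  have e4 : (A a : Set G).ncard = q := h.lt.cardA a ha
  have sq : ∀ v ∈ W, ∀ x ∈ A a, ρ v * x * (ρ v * x) = v := fun v hv x hx => by
    have c := mem_centralizer_iff.mp (hc (h1 v hv)) x hx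
    calc ρ v * x * (ρ v * x) = ρ v * (x * ρ v) * x := by group
      _ = ρ v * ρ v * (x * x) := by rw [c]; group
      _ = v := by rw [h3 v hv, h.lt.sqA hz.td hx, mul_one]
  rw [← e4, ← Set.ncard_prod]
  refine (Set.ncard_le_ncard_of_injOn (fun p => t * (ρ p.1 * p.2)) ?_ ?_ (Set.toFinite _)).trans
    (h.q1_blocks hr ha hP ht hc)
  · rintro ⟨v, x⟩ ⟨hv, hx⟩
    have m := hz.mul P hP _ (h2 v hv) x (h.q1_S hx) (h1 v hv) (hA hx)
    refine ⟨mul_mem ht (mul_mem (h1 v hv) (hA hx)), ⟨?_, fun e => h.q1_nS ?_⟩, by rwa [it.mul_mul]⟩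
    · have c := mem_centralizer_iff.mp (hc (h1 v hv)) x hx
      calc t * (ρ v * x) * (t * (ρ v * x)) = t * ρ v * (x * t) * ρ v * x := by group
        _ = t * ρ v * t * (x * ρ v) * x := by rw [← h.lt.comm_t hx]; group
        _ = x * x := by rw [h4 v hv, c]; group
        _ = 1 := h.lt.sqA hz.td hx
    · rw [eq_inv_of_mul_eq_one_left e]; exact hz.inv_mem m
  · rintro ⟨v, x⟩ ⟨hv, hx⟩ ⟨v', x'⟩ ⟨hv', hx'⟩ e
    have e1 : ρ v * x = ρ v' * x' := mul_left_cancel e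
    obtain rfl : v = v' := by rw [← sq v hv x hx, e1, sq v' hv' x' hx']
    rw [mul_left_cancel e1]

theorem q1_b (he : e ∈ D) (hc : e ∈ 𝐂(A a)) : e ∈ A a := by
  have h4 := h.lt.four
  have := h.q1_inj hr ha (P := zpowers t ⊔ A a) (W := {1})
    (h.lt.invo.pgroup_zpowers.to_sup_of_normal_right' (h.lt.twoA h.pz.zd.td a)
      (zpowers_le.mpr (centralizer_le_normalizer _ h.q1_tc))) (mem_sup_left (mem_zpowers t)) le_sup_right
    (sup_le (zpowers_le.mpr h.q1_tc) h.q1_AA) fun v hv =>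
      ⟨1, one_mem _, h.pz.zd.one, by rw [hv, mul_one], by rw [mul_one, h.lt.invo.1, inv_one]⟩
  rw [Set.ncard_singleton, one_mul] at this
  refine h.cz ?_ ha he hc
  have e1 := h.lam
  rw [hr, mul_comm (q + 1)] at e1
  exact Nat.le_of_mul_le_mul_left ((Nat.mul_le_mul_right m (by omega : q - 1 ≤ lam)).trans e1.le) (by omega)

theorem q1_c1 {j : G} (hd : d ∈ D) (hN : d ∈ q1N (A a) t) (hp : (orderOf j).Prime) (h2 : orderOf j ≠ 2)
    (hi : d * j * d⁻¹ = j⁻¹) (hj : j ∈ 𝐍(A a)) (hc : j * t = t * j) : d ∈ A a := by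
  have hz := h.pz.zd
  have := h.pz.finite
  have i := hz.td.invo d hd
  have da := h.lt.fix_of_norm hz ha hN.1
  have ja := h.lt.fix_of_norm hz ha hj
  by_contra hn
  have z1 : t⁻¹ * (d * t * d⁻¹) ≠ 1 := fun e =>
    hn ((h.lt.memA a d).mpr (Or.inr ⟨hd, (mul_inv_eq_iff_eq_mul.mp (inv_mul_eq_one.mp e).symm).symm, da⟩))
  have zc : Commute j (t⁻¹ * (d * t * d⁻¹)) := by
    have c : Commute j t := hc
    refine c.inv_right.mul_right ?_
    have := c.inv_left.map (MulAut.conj d)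
    simp only [MulAut.conj_apply] at this
    rwa [show d * j⁻¹ * d⁻¹ = (d * j * d⁻¹)⁻¹ by group, hi, inv_inv] at this
  have hA := hN.2
  generalize t⁻¹ * (d * t * d⁻¹) = z at z1 zc hA
  obtain ⟨b, hb, ba, jb⟩ : ∃ b, t • b = b ∧ b ≠ a ∧ j • b = b := by
    haveI := Fact.mk hp
    have := ncard_fixed_modEq (P := zpowers j) (IsPGroup.of_card (n := 1) (by rw [Nat.card_zpowers, pow_one]))
      (S := fixedBy Ω t \ {a}) (Set.toFinite _) fun g hg c hc' =>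
        ⟨smul_fix_of_comm (mem_centralizer_singleton_iff.mp ((zpowers_le.mpr (mem_centralizer_singleton_iff.mpr hc)) hg))
          hc'.1, fun e => hc'.2 (by
            rw [← inv_smul_eq_of_smul_eq (Set.mem_singleton_iff.mp e)]
            exact (zpowers_le (H := stabilizer G a)).mpr ja (inv_mem hg))⟩
    rw [Set.ncard_sdiff_singleton_of_mem (show a ∈ fixedBy Ω t from ha), h.lt.cardF, Nat.add_sub_cancel, hr] at this
    by_contra hb
    rw [(Set.ncard_eq_zero (Set.toFinite _)).mpr (Set.eq_empty_of_forall_notMem fun b hb' =>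
      hb ⟨b, hb'.1.1, hb'.1.2, hb'.2 j (mem_zpowers j)⟩), Nat.modEq_zero_iff_dvd] at this
    obtain ⟨n, -, hn⟩ := h.lt.pow
    rw [hn] at this
    exact h2 ((Nat.prime_dvd_prime_iff_eq hp Nat.prime_two).mp (hp.dvd_of_dvd_pow this))
  have zb : z • b ≠ b := fun e => ba (hz.td.eq_of_fix (h.lt.memD hA z1) e (h.lt.fixA hA))
  obtain ⟨x, hx, e⟩ := h.lt.trans b a (z • b) hb ha (smul_fix_of_comm (h.lt.comm_t hA).symm hb) ba.symm zb
  have hx' := h.lt.R_eq hr hb ▸ hx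
  have x1 : x ≠ 1 := fun r => ba (by
    rw [r, one_smul] at e
    rw [← inv_smul_eq_of_smul_eq e.symm, h.lt.fixA (inv_mem hA)])
  have m := h.lt.conjA hz.td hc hx'
  rw [jb, ← h.lt.R_eq hr hb] at m
  have e1 := h.lt.free hz.td hb (mul_mem (inv_mem hx) m) ba.symm (by
    rw [mul_smul, mul_smul, mul_smul, inv_smul_eq_of_smul_eq ja, e, ← mul_smul j, zc.eq, mul_smul, jb, ← e, inv_smul_smul])
  have := (hz.td.l1 hd da (hp.odd_of_ne_two h2) (fun e => hp.ne_one (orderOf_eq_one_iff.mpr e)) (by rwa [i.inv_eq] at hi)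
    (h.lt.memD hx' x1) (mul_inv_eq_iff_eq_mul.mp (inv_mul_eq_one.mp e1).symm).symm).1
  exact ba (hz.td.eq_of_fix (h.lt.memD hx' x1) (h.lt.fixA hx') this)

theorem q1_K (hy : y ∈ A a) (y1 : y ≠ 1) (hz : z ∈ A a) (z1 : z ≠ 1) : ∃ k ∈ q1N (A a) t, k * y * k⁻¹ = z := by
  obtain ⟨b, ba, hb⟩ := h.pz.two_fix h.lt.invo h.lt.nD a
  obtain ⟨K, k1, -, -, k2, -⟩ := h.lt.K a b ha hb ba.symm
  obtain ⟨k, hk, e⟩ := k2 y hy y1 z hz z1
  exact ⟨k, h.q1_cN (mem_centralizer_singleton_iff.mp (k1 hk).1) (k1 hk).2.1, e⟩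

theorem q1_c (hd : d ∈ D) (hN : d ∈ q1N (A a) t) : d ∈ A a := by
  have hz := h.pz.zd
  have i := hz.td.invo d hd
  by_cases hO : d ∈ (pCore 2 (q1N (A a) t)).map (q1N (A a) t).subtype
  · obtain ⟨y, hy, y1, hc⟩ := exists_cent_two ((H4.isPGroup_pCore 2 (q1N (A a) t)).map (q1N (A a) t).subtype)
      (h.lt.twoA hz.td a) (fun e => by
        obtain ⟨y, hy, y1, -⟩ := h.lt.exists_ne ha 1 1
        exact y1 (mem_bot.mp (e ▸ hy))) fun g hg => (map_subtype_le _ hg).1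
    refine h.q1_b hr ha hd (mem_centralizer_iff.mpr fun z hz' => ?_)
    by_cases z1 : z = 1
    · simp [z1]
    obtain ⟨k, hk, rfl⟩ := h.q1_K hr ha hy y1 hz' z1
    obtain ⟨d', hd', rfl⟩ := hO
    have := hc _ (mem_map_of_mem _ ((inferInstance : (pCore 2 (q1N (A a) t)).Normal).conj_mem' d' hd' ⟨k, hk⟩))
    change k⁻¹ * d' * k * y = y * (k⁻¹ * d' * k) at this
    change k * y * k⁻¹ * d' = d' * (k * y * k⁻¹)
    calc k * y * k⁻¹ * d' = k * (y * (k⁻¹ * d' * k)) * k⁻¹ := by group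
      _ = _ := by rw [← this]; group
  obtain ⟨j, hj, hp, h2, hi⟩ := H4.exists_odd_prime_order_inverted_of_not_mem_map_pCore _ hN i.1 hO
  obtain ⟨x, hx, hc⟩ : ∃ x ∈ A a, j * (t * x) * j⁻¹ = t * x := by
    haveI := Fact.mk hp
    have := @ncard_fixed_modEq G G _ _ (MulAction.compHom G (MulAut.conj : G →* MulAut G)) _ _ (zpowers j)
      (IsPGroup.of_card (n := 1) (by rw [Nat.card_zpowers, pow_one])) ((fun x => t * x) '' (A a : Set G)) (Set.toFinite _) (by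
        rintro g hg _ ⟨x, hx, rfl⟩
        have gN := (zpowers_le.mpr hj) hg
        refine ⟨_, mul_mem gN.2 ((mem_normalizer_iff.mp gN.1 x).mp hx), ?_⟩
        change _ = g * (t * x) * g⁻¹
        group)
    have e4 : (A a : Set G).ncard = q := h.lt.cardA a ha
    rw [Set.ncard_image_of_injective _ (mul_right_injective t), e4] at this
    by_contra hb
    rw [(Set.ncard_eq_zero (Set.toFinite _)).mpr (Set.eq_empty_of_forall_notMem (by
      rintro _ ⟨⟨x, hx, rfl⟩, e⟩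
      exact hb ⟨x, hx, e j (mem_zpowers j)⟩)), Nat.modEq_zero_iff_dvd] at this
    obtain ⟨n, -, hn⟩ := h.lt.pow
    rw [hn] at this
    exact h2 ((Nat.prime_dvd_prime_iff_eq hp Nat.prime_two).mp (hp.dvd_of_dvd_pow this))
  obtain ⟨g, g1, -, g3⟩ := h.fus a ha x hx
  have gN : g ∈ q1N (A a) t := ⟨g1, by rwa [g3, inv_mul_cancel_left]⟩
  have o : orderOf (g⁻¹ * j * g⁻¹⁻¹) = orderOf j := orderOf_injective (MulAut.conj g⁻¹).toMonoidHom (MulEquiv.injective _) j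
  have := h.q1_c1 hr ha (j := g⁻¹ * j * g⁻¹⁻¹) (hz.td.conj d hd g⁻¹) (mul_mem (mul_mem (inv_mem gN) hN) (inv_mem (inv_mem gN)))
    (o ▸ hp) (o ▸ h2) (by
      calc _ = g⁻¹ * (d * j * d⁻¹) * g := by group
        _ = _ := by rw [hi]; group) (mul_mem (mul_mem (inv_mem g1) hj.1) (inv_mem (inv_mem g1))) (by
      rw [← g3] at hc
      calc _ = g⁻¹ * (j * (g * t * g⁻¹) * j⁻¹) * j * g := by group
        _ = _ := by rw [hc]; group)
  exact (mem_normalizer_iff.mp (inv_mem g1) d).mpr this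

theorem q1_d : ∃ ρ ∈ q1N (A a) t ⊓ 𝐂(A a), ρ ∈ 𝒮 ∧ ρ * ρ ∈ A a ∧ ρ * ρ ≠ 1 ∧ t * ρ * t = ρ⁻¹ ∧
    ∃ T : Subgroup G, IsPGroup 2 T ∧ ρ ∈ T ∧ t ∈ T ∧ A a ≤ T := by
  have hz := h.pz.zd
  have it := h.lt.invo
  obtain ⟨T, hT, hE⟩ := exists_isSylowIn_ge (h.lt.invo.pgroup_zpowers.to_sup_of_normal_right' (h.lt.twoA h.pz.zd.td a)
      (zpowers_le.mpr (centralizer_le_normalizer _ h.q1_tc))) le_top
  have tT := hE (mem_sup_left (mem_zpowers t))
  have AT := le_sup_right.trans hE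
  obtain ⟨S, s1, s2, s3⟩ := hz.exists_S hT.pgroup
  have AS : A a ≤ S := fun x hx => (s1 x).mpr ⟨h.q1_S hx, AT hx⟩
  obtain ⟨d, hd, dS, dN, dA⟩ : ∃ d ∈ D, d ∈ S ∧ d ∈ 𝐍(A a) ∧ d ∉ A a := by
    by_contra hn
    have hn' : ∀ d ∈ D, d ∈ S ⊓ 𝐍(A a) → d ∈ A a := fun d hd hS => by_contra fun e => hn ⟨d, hd, hS.1, hS.2, e⟩
    have : S ≤ S ⊓ 𝐍(A a) := by_contra fun e => by
      refine (lt_inf_normalizer_of_pgroup (hT.pgroup.to_le s2) (lt_of_le_not_ge inf_le_left e)).not_ge fun g hg =>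
        ⟨hg.1, mem_normalizer_of_cj_le ?_⟩
      rintro _ ⟨x, hx, rfl⟩
      by_cases x1 : x = 1
      · rw [x1, map_one]; exact one_mem _
      exact hn' _ (hz.td.conj x (h.lt.memD hx x1) g) ((mem_normalizer_iff.mp hg.2 x).mp ⟨AS hx, le_normalizer hx⟩)
    obtain ⟨d, hd, e, he, h1, h2, h3⟩ := h.pz.nc_sylow hT
    exact h3 (h.lt.comm hz.td (hn' d hd (this ((s1 d).mpr ⟨hz.mem hd, h1⟩))) (hn' e he (this ((s1 e).mpr ⟨hz.mem he, h2⟩))))
  have i := hz.td.invo d hd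
  have wS : d * (t * d * t⁻¹) ∈ S := mul_mem dS ((mem_normalizer_iff.mp (s3 (le_normalizer tT)) d).mp dS)
  have wC : d * (t * d * t⁻¹) ∈ 𝐂(A a) := by
    rw [show d * (t * d * t⁻¹) = d * t * d⁻¹ * t⁻¹ by rw [i.inv_eq]; group]
    exact mul_mem ((mem_normalizer_iff.mp (normalizer_le_normalizer_centralizer _ dN) t).mp h.q1_tc) (inv_mem h.q1_tc)
  have wi : t * (d * (t * d * t⁻¹)) * t = (d * (t * d * t⁻¹))⁻¹ := by
    simp only [mul_inv_rev, inv_inv, i.inv_eq, it.inv_eq, mul_assoc, it.1, mul_one]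
  have wA : d * (t * d * t⁻¹) ∉ A a := fun e => dA (h.q1_c hr ha hd ⟨dN, by
    have := inv_mem e
    simpa only [mul_inv_rev, inv_inv, i.inv_eq, it.inv_eq, mul_assoc] using this⟩)
  generalize d * (t * d * t⁻¹) = w at wS wC wi wA
  have key : ∀ x ∈ S, x ∈ 𝐂(A a) → Invo x → x ∈ A a := fun x hx hc ix =>
    h.q1_b hr ha ((hz.memD x).mpr ⟨((s1 x).mp hx).1, ix⟩) hc
  have w2 : w * w ≠ 1 := fun e => wA (key w wS wC ⟨e, fun r => wA (r ▸ one_mem _)⟩)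
  obtain ⟨n, hn⟩ := exists_invo_pow_of_two_elt (H5.IsPGroup_pow_eq_one hT.pgroup (s2 (mul_mem wS wS))) w2
  rw [(Commute.refl w).mul_pow] at hn
  have h1 := pow_mem wS n
  have h2 := pow_mem wC n
  have h3 := inverts_pow it.1 wi n
  generalize w ^ n = ρ at hn h1 h2 h3
  have h4 := key _ (mul_mem h1 h1) (mul_mem h2 h2) hn
  refine ⟨ρ, ⟨⟨centralizer_le_normalizer _ h2, ?_⟩, h2⟩, ((s1 ρ).mp h1).1, h4, hn.2, h3, T, hT.pgroup, s2 h1, tT, AT⟩
  rw [it.inv_eq, ← mul_assoc, ← mul_assoc, h3, ← mul_inv_rev]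
  exact inv_mem h4

end Ct

theorem Ct.q1 (h : Ct 𝒮 D t A R q r m lam) (hr : r = q) : False := by
  obtain ⟨a0, -⟩ := h.pz.two
  obtain ⟨a, -, ha⟩ := h.pz.two_fix h.lt.invo h.lt.nD a0
  have hz := h.pz.zd
  have it := h.lt.invo
  obtain ⟨ρ, r1, r2, r3, r4, r5, T, hT, t1, t2, t3⟩ := h.q1_d hr ha
  obtain ⟨P, hP, hle⟩ := exists_isSylowIn_ge (K := q1N (A a) t ⊓ 𝐂(A a)) (hT.to_le (inf_le_left (b := q1N (A a) t ⊓ 𝐂(A a))))
    inf_le_right
  have e4 : (A a : Set G).ncard = q := h.lt.cardA a ha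
  have := h.q1_inj hr ha hP.pgroup (hle ⟨t2, h.q1_cN rfl ha, h.q1_tc⟩)
    (fun x hx => hle ⟨t3 hx, h.q1_cN (h.lt.comm_t hx).symm (h.lt.fixA hx), h.q1_AA hx⟩) (hP.le.trans inf_le_right)
    (W := A a) fun v hv => by
      by_cases v1 : v = 1
      · exact ⟨1, one_mem _, hz.one, by rw [v1, mul_one], by rw [mul_one, it.1, inv_one]⟩
      obtain ⟨k, hk, e⟩ := h.q1_K hr ha r3 r4 hv v1
      obtain ⟨c, hc, hg⟩ := hP.frattini (g := k) (inf_normalizer_le_normalizer_inf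
        ⟨le_normalizer hk, normalizer_le_normalizer_centralizer _ hk.1⟩)
      have gN := mul_mem hc.1 hk
      have m := (mem_normalizer_iff.mp hg ρ).mp (hle ⟨t1, r1⟩)
      refine ⟨_, m, hz.conj ρ r2 _, ?_, ?_⟩
      · calc _ = c * (k * (ρ * ρ) * k⁻¹) * c⁻¹ := by group
          _ = v := by rw [e, ← mem_centralizer_iff.mp hc.2 v hv]; group
      · have c1 := mem_centralizer_iff.mp (hP.le m).2 _ gN.2
        generalize c * k = g at c1
        have e1 : g * t * g⁻¹ * (g * ρ * g⁻¹) * (g * t * g⁻¹)⁻¹ = (g * ρ * g⁻¹)⁻¹ := by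
          calc _ = g * (t * ρ * t⁻¹) * g⁻¹ := by group
            _ = _ := by rw [it.inv_eq, r5]; group
        rw [← e1, ← mul_inv_cancel_left t (g * t * g⁻¹), mul_assoc t _ (g * ρ * g⁻¹), c1]
        nth_rewrite 2 [← it.inv_eq]
        group
  have e1 := h.lam
  have h4 := h.lt.four
  have h2 := h.m2
  rw [e4] at this
  rw [hr] at e1
  obtain ⟨p, rfl⟩ : ∃ p, q = p + 1 := ⟨q - 1, by omega⟩
  rw [Nat.add_sub_cancel] at e1
  nlinarith

end Cfsg.Agent.WA.Zd
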