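import Cfsg.Agent.WA.IZdO

/-! The case `r = q²` (PLAN_ZD.md, IZdQ2). -/

set_option autoImplicit false
set_option linter.unusedSectionVars false
set_option linter.unusedVariables false

namespace Cfsg.Agent.WA.Zd

open Subgroup MulAction Cfsg.Agent.FT Cfsg.Agent.L0 Cfsg.Agent.H8 Cfsg.Agent.BS Cfsg.Agent.WA.Te
open Cfsg.Agent.H7 (opp)
open scoped Pointwise commutatorElement

universe u

variable {G Ω : Type u} [Group G] [Finite G] [MulAction G Ω] {𝒮 D : Set G} {a b c : Ω} {d e g k s t u w x y z : G}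
  {L P T : Subgroup G} {A R : Ω → Subgroup G} {q r m lam : ℕ}
  [IsSimpleGroup G]

theorem q2_arith (h4 : 4 ≤ q) (h2 : 2 ∣ q) (h : lam * m = (q ^ 2 + 1) * (q - 1)) (hd : q ∣ m - 1) (hm : 2 ≤ m) :
    m = q ^ 2 + 1 := by
  obtain ⟨β, hβ⟩ := hd
  obtain rfl : m = q * β + 1 := by omega
  have b1 : 1 ≤ β := Nat.pos_of_ne_zero fun e => by simp [e] at hm
  zify [show 1 ≤ q by omega] at *
  generalize (q : ℤ) = Q at *
  generalize (β : ℤ) = B at *
  have l0 : (0 : ℤ) ≤ lam := Int.natCast_nonneg _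
  generalize (lam : ℤ) = l at *
  obtain ⟨α, rfl⟩ : ∃ α, l = Q * α - 1 := ⟨Q ^ 2 - Q + 1 - l * B, by linear_combination h⟩
  have e1 : α * B * Q + α - B = Q ^ 2 - Q + 1 := mul_left_cancel₀ (show Q ≠ 0 by omega) (by linear_combination h)
  have a1 : 1 ≤ α := by nlinarith
  obtain ⟨δ, hδ⟩ : ∃ δ, δ = α * B + 1 - Q := ⟨_, rfl⟩
  have e2 : B = α - 1 + δ * Q := by rw [hδ]; linear_combination -e1
  rcases lt_trichotomy δ 0 with h0 | h0 | h0
  · nlinarith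
  · subst h0
    obtain rfl : α = B + 1 := by omega
    obtain ⟨k, hk⟩ := h2
    obtain ⟨j, hj⟩ := Int.even_mul_succ_self B
    have : (B + 1) * B = j + j := by rw [← hj]; ring
    omega
  · obtain rfl : α = 1 := by
      by_contra hne
      have : 2 * B ≤ α * B := mul_le_mul_of_nonneg_right (by omega) (by omega)
      nlinarith
    obtain rfl : δ = 1 := mul_right_cancel₀ (show Q - 1 ≠ 0 by omega) (by linear_combination -hδ - e2)
    rw [e2]; ring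

theorem q2_count {α β : Type*} [Finite α] [Finite β] {S : Set α} {T : Set β} (f : α → β) (n : ℕ) (h1 : ∀ a ∈ S, f a ∈ T)
    (h2 : ∀ a ∈ S, {x | x ∈ S ∧ f x = f a}.ncard ≤ n) : S.ncard ≤ n * T.ncard := by
  classical
  rw [Set.ncard_eq_toFinset_card S, Set.ncard_eq_toFinset_card T]
  refine Finset.card_le_mul_card_image_of_maps_to (f := f) (by simpa using h1) n fun b _ => ?_
  by_cases hb : ∃ a ∈ S, f a = b
  · obtain ⟨a, ha, rfl⟩ := hb
    rw [← Set.ncard_coe_finset]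
    convert h2 a ha using 2
    ext; simp
  · rw [Finset.card_eq_zero.mpr (Finset.filter_eq_empty_iff.mpr fun x hx e => hb ⟨x, by simpa using hx, e⟩)]
    exact Nat.zero_le _

namespace Ct

variable (h : Ct 𝒮 D t A R q r m lam) (hr : r = q ^ 2)
include h

theorem q2_tr {c' : Ω} (hg : g * t = t * g) (e : Sg D t c = Sg D t c') : Sg D t (g • c) = Sg D t (g • c') := by
  have hg' : g⁻¹ * t = t * g⁻¹ := (show Commute g t from hg).inv_left
  have key : ∀ c c' : Ω, Sg D t c = Sg D t c' → Sg D t (g • c) ⊆ Sg D t (g • c') := fun c c' e x hx => by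
    have := h.Sg_conj hg' hx
    rw [inv_smul_smul, e] at this
    have := h.Sg_conj hg this
    rwa [show g * (g⁻¹ * x * g⁻¹⁻¹) * g⁻¹ = x by group] at this
  exact (key _ _ e).antisymm (key _ _ e.symm)

theorem q2_pt (hd : d ∈ D) (hc : t * d = d * t) : ∃ b, t • b = b ∧ d • b = b ∧ d ∈ A b := by
  obtain ⟨b, hb, -⟩ := h.pz.zd.td.fix d hd
  exact ⟨b, h.pz.zd.td.fix_of_comm hd hb hc, hb, (h.lt.memA b d).mpr (Or.inr ⟨hd, hc, hb⟩)⟩

theorem q2_one (hx : x ∈ A b) (hc : c ≠ b) (e : x • c = c) : x = 1 := by_contra fun h1 =>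
  hc (h.pz.zd.td.eq_of_fix (h.lt.memD hx h1) e (h.lt.fixA hx))

include hr

theorem q2_at (hc : t • c ≠ c) (hb : t • b = b) : ∃ e ∈ Sg D t c, e • b = b := by
  have := h.pz.finite
  obtain ⟨n, n2, hn⟩ := h.lt.pow
  have hm := q2_arith h.lt.four (hn ▸ dvd_pow_self 2 (by omega)) (hr ▸ h.lam) (h.orb (Or.inl hr)) h.m2
  have key : ∀ e : G, ∃ b : Ω, e ∈ Sg D t c → t • b = b ∧ e • b = b := fun e => by
    by_cases he : e ∈ Sg D t c
    · obtain ⟨b, h1, h2, -⟩ := h.q2_pt he.1 he.2.1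
      exact ⟨b, fun _ => ⟨h1, h2⟩⟩
    · exact ⟨c, fun r => (he r).elim⟩
  choose β hβ using key
  have := Set.eq_of_subset_of_ncard_le (s := β '' Sg D t c) (t := fixedBy Ω t)
    (by rintro _ ⟨e, he, rfl⟩; exact (hβ e he).1) (by
      rw [Set.InjOn.ncard_image (f := β) fun d hd e he r => h.Sg_inj hc hd he (hβ d hd).2 (r ▸ (hβ e he).2), h.sig c hc,
        h.lt.cardF, hm, hr])
  obtain ⟨e, he, rfl⟩ : b ∈ β '' Sg D t c := this ▸ hb
  exact ⟨e, he, (hβ e he).2⟩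

theorem q2_1 {j : G} (hc : t • c ≠ c) (hj : j ∈ JJ D t c) (hb : t • b = b) (jb : j • b = b) :
    (∀ f : Ω, t • f = f → j • f = f) ∧ ∀ x ∈ closure (D ∩ 𝐂[t]), j * x = x * j := by
  obtain ⟨j1, j2, -⟩ := h.J_le hj
  have jt := (h.lt.X_le j1).symm
  obtain ⟨e, he, eb⟩ := h.q2_at hr hc hb
  have m := h.Sg_conj jt he
  rw [j2] at m
  have e1 := h.Sg_inj hc m he (by rw [← jb, conj_smul_smul, eb]) eb
  have f1 := h.lt.sz hr j j1 (odd_orderOf_of_mem (h.odd_J hc) hj) e he.1 he.2.1 (mul_inv_eq_iff_eq_mul.mp e1)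
  refine ⟨f1, fun x hx => (mem_centralizer_singleton_iff.mp ((closure_le 𝐂[j]).mpr (fun d hd => ?_) hx)).symm⟩
  have dt := (mem_centralizer_singleton_iff.mp hd.2).symm
  obtain ⟨b', b1, b2, b3⟩ := h.q2_pt hd.1 dt
  obtain ⟨f, f2, f3⟩ := h.pz.two_fix h.lt.invo h.lt.nD b'
  have m := h.lt.conjA h.pz.zd.td jt b3
  rw [f1 b' b1] at m
  have := h.q2_one (mul_mem (inv_mem b3) m) f2 (by
    rw [mul_smul, mul_smul, mul_smul, inv_smul_eq_of_smul_eq (f1 f f3), f1 _ (smul_fix_of_comm dt.symm f3), inv_smul_smul])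
  exact mem_centralizer_singleton_iff.mpr (mul_inv_eq_iff_eq_mul.mp (inv_mul_eq_one.mp this).symm).symm

theorem q2_2 {j : G} (hc : t • c ≠ c) (hj : j ∈ JJ D t c) (he : e ∈ Sg D t c) (hb : t • b = b) : (e * j * e * j) • b = b := by
  have i := h.pz.zd.td.invo e he.1
  obtain ⟨k, hk, v, hv, c1, rfl⟩ := exists_inv_mul_cent i.1 (h.Sg_norm he) (h.odd_J hc) hj
  obtain ⟨b', b1, b2, -⟩ := h.q2_pt he.1 he.2.1
  obtain ⟨f1, f2⟩ := h.q2_1 hr hc hv b1 (h.pz.zd.td.fix_of_comm he.1 b2 c1)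
  have : e * (k * v) * e * (k * v) = v * v := by
    calc _ = e * k * (v * e) * k * v := by group
      _ = e * k * e * (v * k) * v := by rw [c1]; group
      _ = _ := by rw [hk.2, f2 k (h.J_le hk.1).1]; group
  rw [this, mul_smul, f1 b hb, f1 b hb]

theorem q2_ne {e' : G} (hc : t • c ≠ c) (he : e ∈ Sg D t c) (he' : e' ∈ Sg D t c) (hb : t • b = b) (hy : (e * e') • b = b) :
    e = e' := by
  have i := h.pz.zd.td.invo e he.1
  have i' := h.pz.zd.td.invo e' he'.1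
  have m : e * e' ∈ JJ D t c := subset_closure ⟨e, he, e', he', rfl⟩
  have := eq_one_of_inverts_of_comm i.1 (odd_orderOf_of_mem (h.odd_J hc) m) (by
    rw [i.mul_mul, mul_inv_rev, i.inv_eq, i'.inv_eq]) ((h.q2_1 hr hc m hb hy).2 e
      (subset_closure ⟨he.1, mem_centralizer_singleton_iff.mpr he.2.1.symm⟩))
  rw [eq_inv_of_mul_eq_one_left this, i'.inv_eq]

theorem q2_3 {e' : G} {c' : Ω} (hc : t • c ≠ c) (hc' : t • c' ≠ c') (h1 : e ∈ Sg D t c) (h2 : e' ∈ Sg D t c) (h3 : e ∈ Sg D t c')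
    (h4 : e' ∈ Sg D t c') (hne : e ≠ e') : Sg D t c ⊆ Sg D t c' := fun d hd => by
  obtain ⟨b, b1, b2, b3⟩ := h.q2_pt hd.1 hd.2.1
  obtain ⟨d', hd', b4⟩ := h.q2_at hr hc' b1
  have key : ∀ d : G, d • b = b → (d * (e * e') * d * (e * e')) • b = b → d • (e * e') • b = (e * e')⁻¹ • b := fun d r1 r2 => by
    rw [mul_smul, mul_smul, mul_smul, ← eq_inv_smul_iff, inv_smul_eq_of_smul_eq r1] at r2
    exact eq_inv_smul_iff.mpr r2
  have k1 := key d b2 (h.q2_2 hr hc (subset_closure ⟨e, h1, e', h2, rfl⟩) hd b1)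
  have k2 := key d' b4 (h.q2_2 hr hc' (subset_closure ⟨e, h3, e', h4, rfl⟩) hd' b1)
  have := h.q2_one (mul_mem (inv_mem b3) ((h.lt.memA b d').mpr (Or.inr ⟨hd'.1, hd'.2.1, b4⟩)))
    (fun r => hne (h.q2_ne hr hc h1 h2 b1 r)) (by rw [mul_smul, k2, ← k1, inv_smul_smul])
  exact inv_mul_eq_one.mp this ▸ hd'

theorem q2_U (ha : t • a = a) (hc : t • c ≠ c) (he : e ∈ Sg D t c) (eA : e ∈ A a) :
    ∃ u, ∀ ρ ∈ R a, Sg D t (ρ • c) = Sg D t c → ρ ∈ ({1, e, u, u * e} : Set G) := by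
  have hd := h.pz.zd.td
  have i := hd.invo e he.1
  have ct : ∀ ρ ∈ R a, ρ * t = t * ρ := fun ρ hρ => (h.lt.X_le (h.lt.leX a ha hρ)).symm
  have k1 : ∀ x ∈ A a, Sg D t (x • c) = Sg D t c → x = 1 ∨ x = e := fun x hx hs => by
    by_contra hn
    obtain ⟨x1, xe⟩ := not_or.mp hn
    have xD := h.lt.memD hx x1
    have cm := h.lt.comm hd eA hx
    have f : ∀ d ∈ D, d • a = a → JJ D t c ⊓ 𝐂[d] ≤ stabilizer G a := fun d r1 r2 y hy =>
      hd.fix_of_comm r1 r2 (mem_centralizer_singleton_iff.mp hy.2)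
    have := T4.le_of_four (h.odd_J hc) i (hd.invo x xD) (Ne.symm xe) cm (h.Sg_norm he)
      (h.norm_J fun y hy => hs ▸ h.Sg_conj (h.lt.comm_t hx).symm hy) (f e he.1 (h.lt.fixA eA)) (f x xD (h.lt.fixA hx))
      (f _ (hd.mul e he.1 x xD cm (Ne.symm xe)) (h.lt.fixA (mul_mem eA hx)))
    obtain ⟨e', he', ne⟩ := Set.exists_ne_of_one_lt_ncard (s := Sg D t c) (by rw [h.sig c hc]; exact h.m2) e
    exact ne (h.q2_ne hr hc he he' ha (this (subset_closure ⟨e, he, e', he', rfl⟩))).symm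
  have k2 : ∀ ρ ∈ R a, ρ ∉ A a → Sg D t (ρ • c) = Sg D t c → ρ * ρ = e := fun ρ hρ hn hs =>
    (k1 _ (h.lt.sq a ha ρ hρ) (by rw [mul_smul, h.q2_tr (ct ρ hρ) hs, hs])).resolve_left fun r => hn (h.lt.inv a ha ρ hρ r)
  by_cases hU : ∃ u ∈ R a, u ∉ A a ∧ Sg D t (u • c) = Sg D t c
  · obtain ⟨u, u1, u2, u3⟩ := hU
    refine ⟨u, fun ρ hρ hs => ?_⟩
    simp only [Set.mem_insert_iff, Set.mem_singleton_iff]
    by_cases hA : ρ ∈ A a
    · exact (k1 ρ hA hs).imp_right Or.inl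
    have h4 := h.lt.four
    have f1 := h.lt.fibre hd ha eA i.2
    have e4 : (A a : Set G).ncard = q := h.lt.cardA a ha
    rw [hr, pow_two, ← Nat.mul_sub_one] at f1
    have := Set.eq_of_subset_of_ncard_le (s := (fun x => u * x) '' (A a : Set G)) (t := {x | x ∈ R a ∧ x * x = e}) (by
      rintro _ ⟨x, hx, rfl⟩
      refine ⟨mul_mem u1 (h.lt.le a ha hx), ?_⟩
      calc u * x * (u * x) = u * (x * u) * x := by group
        _ = u * u * (x * x) := by rw [mem_centralizer_iff.mp (h.lt.cent a ha u1) x hx]; group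
        _ = e := by rw [k2 u u1 u2 u3, h.lt.sqA hd hx, mul_one]) (by
      rw [Set.ncard_image_of_injective _ (mul_right_injective u), e4, Nat.eq_of_mul_eq_mul_right (by omega) f1])
    obtain ⟨x, hx, rfl⟩ : ρ ∈ (fun x => u * x) '' (A a : Set G) := this ▸ ⟨hρ, k2 ρ hρ hA hs⟩
    have := h.q2_tr (ct _ (inv_mem u1)) (hs.trans u3.symm)
    rw [mul_smul, inv_smul_smul, inv_smul_smul] at this
    exact Or.inr (Or.inr ((k1 x hx this).imp (fun r => by simp [r]) fun r => by simp [r]))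
  · refine ⟨1, fun ρ hρ hs => ?_⟩
    simp only [Set.mem_insert_iff, Set.mem_singleton_iff]
    exact (k1 ρ (by_contra fun r => hU ⟨ρ, hρ, r, hs⟩) hs).imp_right Or.inl

end Ct

theorem Ct.q2 (h : Ct 𝒮 D t A R q r m lam) (hr : r = q ^ 2) : False := by
  obtain ⟨a0, -⟩ := h.pz.two
  obtain ⟨a, -, ha⟩ := h.pz.two_fix h.lt.invo h.lt.nD a0
  obtain ⟨b, ba, hb⟩ := h.pz.two_fix h.lt.invo h.lt.nD a
  have hd := h.pz.zd.td
  have it := h.lt.invo
  obtain ⟨e, eA, e1, -⟩ := h.lt.exists_ne ha 1 1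
  have eD := h.lt.memD eA e1
  obtain ⟨i1, i2⟩ := hd.mul_not_mem it h.lt.nD eD (h.lt.comm_t eA)
  obtain ⟨c, ca, hc⟩ := h.pz.two_fix i1 i2 a
  have ec : e • c = t • c := by rw [← it.smul_smul (e • c), ← mul_smul t e, hc]
  have tc : t • c ≠ c := fun r => e1 (h.q2_one eA ca (ec.trans r))
  have he : e ∈ Sg D t c := ⟨eD, h.lt.comm_t eA, ec⟩
  obtain ⟨u, hu⟩ := h.q2_U hr ha tc he eA
  have ct : ∀ ρ ∈ R a, ρ * t = t * ρ := fun ρ hρ => (h.lt.X_le (h.lt.leX a ha hρ)).symm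
  have tc' : ∀ ρ ∈ R a, t • ρ • c ≠ ρ • c := fun ρ hρ r => tc (by
    rwa [← mul_smul, ← ct ρ hρ, mul_smul, smul_left_cancel_iff] at r)
  have he' : ∀ ρ ∈ R a, e ∈ Sg D t (ρ • c) := fun ρ hρ => by
    have := h.Sg_conj (ct ρ hρ) he
    rwa [← mem_centralizer_iff.mp (h.lt.cent a ha hρ) e eA, mul_inv_cancel_right] at this
  choose! φ f1 f2 using fun ρ (hρ : ρ ∈ R a) => h.q2_at hr (tc' ρ hρ) hb
  have := q2_count (S := (R a : Set G)) (T := (A b : Set G) \ {1}) φ 4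
    (fun ρ hρ => ⟨(h.lt.memA b _).mpr (Or.inr ⟨(f1 ρ hρ).1, (f1 ρ hρ).2.1, f2 ρ hρ⟩), (hd.invo _ (f1 ρ hρ).1).2⟩)
    fun ρ hρ => by
      have ne : e ≠ φ ρ := fun r => e1 (h.q2_one eA ba (r ▸ f2 ρ hρ))
      have c4 : ({1, e, u, u * e} : Set G).ncard ≤ 4 :=
        (Set.ncard_insert_le _ _).trans (Nat.succ_le_succ ((Set.ncard_insert_le _ _).trans (Nat.succ_le_succ
          ((Set.ncard_insert_le _ _).trans (by simp)))))
      refine (Set.ncard_le_ncard_of_injOn (fun σ => ρ⁻¹ * σ) (fun σ hσ => hu _ (mul_mem (inv_mem hρ) hσ.1) ?_)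
        (mul_right_injective _).injOn (Set.toFinite _)).trans c4
      have m := hσ.2 ▸ f1 σ hσ.1
      have := h.q2_tr (ct _ (inv_mem hρ))
        ((h.q2_3 hr (tc' σ hσ.1) (tc' ρ hρ) (he' σ hσ.1) m (he' ρ hρ) (f1 ρ hρ) ne).antisymm
          (h.q2_3 hr (tc' ρ hρ) (tc' σ hσ.1) (he' ρ hρ) (f1 ρ hρ) (he' σ hσ.1) m ne))
      rwa [inv_smul_smul, ← mul_smul] at this
  have e4 : (R a : Set G).ncard = r := h.lt.cardR a ha
  have h4 := h.lt.four
  rw [h.lt.ncardA' hb, e4, hr] at this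
  obtain ⟨p, rfl⟩ : ∃ p, q = p + 1 := ⟨q - 1, by omega⟩
  rw [Nat.add_sub_cancel] at this
  nlinarith

end Cfsg.Agent.WA.Zd
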