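import Cfsg.Agent.WA.IZdO

/-! The unitary case (PLAN_ZD.md). -/

set_option autoImplicit false
set_option linter.unusedSectionVars false
set_option linter.unusedVariables false

namespace Cfsg.Agent.WA.Zd

open Subgroup MulAction Cfsg.Agent.FT Cfsg.Agent.L0 Cfsg.Agent.H8 Cfsg.Agent.BS Cfsg.Agent.WA.Te
open Cfsg.Agent.H7 (opp)
open scoped Pointwise commutatorElement

universe u

variable {G Ω : Type u} [Group G] [Finite G] [MulAction G Ω] {𝒮 D : Set G} {a b c : Ω} {d e g k s t u w x y z : G}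
  {L P T : Subgroup G} {A R : Ω → Subgroup G} {q r m lam : ℕ}
  [IsSimpleGroup G]

theorem q3_arith {s m lam : ℕ} (hs : 3 ≤ s) (h8 : s = 3 ∨ 7 ≤ s) (he : 2 ∣ s + 1) (hm : 2 ≤ m) (hd : s + 1 ∣ m - 1)
    (hl : lam * m = ((s + 1) ^ 3 + 1) * s) (hp : ∀ p : ℕ, p.Prime → p ∣ m → p ∣ s * (s + 2)) : m = s + 2 := by
  have e1 : lam * m = s * (s + 2) * (s * s + s + 1) := by rw [hl]; ring
  have d1 : m ∣ s * (s + 2) * Nat.gcd (s * s + s + 1) m := by
    rw [← Nat.gcd_mul_left]
    exact Nat.dvd_gcd (e1 ▸ dvd_mul_left m lam) (dvd_mul_left _ _)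
  have d2 : Nat.gcd (s * s + s + 1) m ∣ 3 := by
    have h3 : ∀ {p : ℕ}, p.Prime → p ∣ Nat.gcd (s * s + s + 1) m → p = 3 := fun {p} pp h => by
      have h1 := h.trans (Nat.gcd_dvd_left _ _)
      rcases (Nat.Prime.dvd_mul pp).1 (hp p pp (h.trans (Nat.gcd_dvd_right _ _))) with h2 | h2
      · exact absurd ((Nat.dvd_add_right (dvd_add (dvd_mul_of_dvd_left h2 s) h2)).1 h1) pp.not_dvd_one
      · obtain ⟨s, rfl⟩ : ∃ s', s = s' + 1 := ⟨s - 1, by omega⟩
        rw [show (s + 1) * (s + 1) + (s + 1) + 1 = (s + 1 + 2) * s + 3 by ring] at h1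
        exact (Nat.prime_dvd_prime_iff_eq pp Nat.prime_three).1 ((Nat.dvd_add_right (dvd_mul_of_dvd_left h2 s)).1 h1)
    have e := Nat.eq_prime_pow_of_unique_prime_dvd (Nat.gcd_pos_of_pos_right _ (by omega)).ne' h3
    generalize (Nat.primeFactorsList _).length = j at e
    have h9 := e ▸ Nat.gcd_dvd_left (s * s + s + 1) m
    rw [e]
    rcases j with _ | _ | j
    · simp
    · simp
    · exfalso
      have h9 : 9 ∣ s * s + s + 1 := (Dvd.intro (3 ^ j) (by ring)).trans h9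
      have := Nat.mod_lt s (show 0 < 9 by norm_num)
      rw [Nat.dvd_iff_mod_eq_zero, Nat.add_mod, Nat.add_mod (s * s), Nat.mul_mod] at h9
      generalize s % 9 = i at *
      interval_cases i <;> simp at h9
  obtain ⟨k, hk⟩ := hd
  obtain rfl : m = (s + 1) * k + 1 := by omega
  rcases h8 with rfl | h8
  · have d3 : (3 + 1) * k + 1 ∣ 15 := by
      have := Nat.dvd_gcd d2 (Nat.gcd_dvd_left _ _)
      rw [show Nat.gcd 3 (3 * 3 + 3 + 1) = 1 by norm_num, Nat.dvd_one] at this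
      rwa [this] at d1
    have := Nat.le_of_dvd (by norm_num) d3
    have : k ≤ 3 := by omega
    interval_cases k <;> simp_all
  obtain ⟨j, hj⟩ := d1.trans (Nat.mul_dvd_mul_left _ d2)
  obtain ⟨i, hi⟩ : s + 1 ∣ j + 3 := by
    have : (s + 1) * (k * j) + (j + 3) = (s + 1) * (3 * (s + 1)) := by nlinarith
    exact (Nat.dvd_add_right (dvd_mul_right _ _)).1 (this ▸ dvd_mul_right _ _)
  have key : i * ((s + 1) * k + 1) = 3 * (s + 1 + k) := by
    refine Nat.eq_of_mul_eq_mul_left (show 0 < s + 1 by omega) ?_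
    rw [← mul_assoc, ← hi]; nlinarith
  have hk1 : 1 ≤ k := by
    rcases k with _ | k
    · omega
    · omega
  obtain ⟨v, hv⟩ := he
  rcases i with _ | _ | _ | _ | i
  · omega
  · exfalso
    rcases k with _ | _ | _ | _ | _ | _ | k
    all_goals first | omega | nlinarith
  · exfalso
    rcases k with _ | _ | k
    all_goals first | omega | nlinarith
  · rcases k with _ | _ | k
    all_goals first | omega | nlinarith
  · nlinarith

theorem Ct.q3 (h : Ct 𝒮 D t A R q r m lam) (hr : r = q ^ 3) : False := by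
  obtain ⟨n, hn, hq⟩ := h.lt.pow
  have h4 := h.lt.four
  have he : 2 ∣ q := hq ▸ dvd_pow_self 2 (by omega)
  have h8 : q = 4 ∨ 8 ≤ q := by
    rcases hn.eq_or_lt with rfl | hn
    · exact Or.inl hq
    · exact Or.inr (hq ▸ Nat.pow_le_pow_right (n := 2) (by norm_num) hn)
  have hl := h.lam
  obtain ⟨s, rfl⟩ : ∃ s, q = s + 1 := ⟨q - 1, by omega⟩
  have hm := q3_arith (by omega) (by omega) he h.m2 (h.orb (Or.inr hr)) (by rwa [hr] at hl) fun p pp hp => by
    obtain ⟨h2, d, hd, e, he, h3, h5, h6⟩ := h.prime pp hp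
    have := h.lt.u3 hr d hd e he h3 h5 p pp h2 h6
    rwa [show (s + 1) ^ 2 - 1 = s * (s + 2) by rw [Nat.sub_eq_iff_eq_add (Nat.one_le_pow _ _ (by omega))]; ring] at this
  obtain ⟨c, -⟩ := h.pz.two
  obtain ⟨a, -, ha⟩ := h.lt.exists_pt c
  have := h.orb3 hr ha fun e he hc => h.cz hm.le ha he hc
  rw [hm, show s + 2 - 1 = s + 1 by omega, Nat.add_sub_cancel] at this
  have := Nat.dvd_of_mul_dvd_mul_right (by omega) this
  omega

end Cfsg.Agent.WA.Zd
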