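import Cfsg.Agent.WA.ZdU1

/-! Proper subgroups: the elements of `D` fixing a point commute (PLAN_ZD.md). -/

set_option autoImplicit false
set_option linter.unusedSectionVars false
set_option linter.unusedVariables false

namespace Cfsg.Agent.WA.Zd

open Subgroup MulAction Cfsg.Agent.FT Cfsg.Agent.L0 Cfsg.Agent.H8 Cfsg.Agent.BS Cfsg.Agent.WA.Te
open Cfsg.Agent.H7 (opp)
open scoped Pointwise commutatorElement

universe u

variable {G Ω : Type u} [Group G] [Finite G] [MulAction G Ω] {𝒮 D : Set G} {a b c : Ω} {d e g k s t u w x y z : G}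
  {L P T : Subgroup G} {A R : Ω → Subgroup G} {q r m lam : ℕ}

open T4 SF

theorem TD.norm_st2 (h : TD Ω D) (hw : w ∈ D) (h1 : w • a = b) : w ∈ 𝐍(st2 G a b) :=
  mem_normalizer_st2_of_swap h1 (by rw [← h1, (h.invo w hw).smul_smul])

theorem TD.comm_opp (h : TD Ω D) (hab : a ≠ b) (hw : w ∈ D) (h1 : w • a = b) (hd : d ∈ st2 G a b) :
    ⁅w, d⁆ ∈ Opp 2 (st2 G a b) := by
  have i := h.invo w hw
  have hn := h.norm_st2 hw h1
  refine H7.opp_inf_le (K := st2 G a b ⊔ zpowers w) le_sup_left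
    ⟨H7.zstar_commute_in i.1 (mem_sup_right (mem_zpowers w)) (fun g hg hc => ?_) (mem_sup_left hd), ?_⟩
  · obtain ⟨v, hv, u, hu, rfl⟩ := (mem_sup_of_le_normalizer (zpowers_le.2 hn)).1 hg
    have e : v * u * w * (v * u)⁻¹ = v * w * v⁻¹ := by
      rcases i.mem_zpowers_iff.1 hu with rfl | rfl <;> group
    rw [e] at hc ⊢
    have m := h.conj w hw v
    have h2 : (v * w * v⁻¹) • a = b := by rw [mul_smul, mul_smul, inv_smul_eq_of_smul_eq hv.1, h1, hv.2]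
    generalize v * w * v⁻¹ = w' at hc m h2
    obtain ⟨f1, f2⟩ := h.sw_fix hw m h1 h2
    have := eq_one_of_odd_two (h.odd_of_fix hw m hab f1 f2) ⟨1, by
      rw [pow_one, hc.mul_pow, sq, sq, i.1, (h.invo _ m).1, one_mul]⟩
    rw [← i.mul_mul w', this, mul_one]
  · rw [commutatorElement_def]
    exact (st2 G a b).mul_mem ((mem_normalizer_iff.1 hn d).1 hd) ((st2 G a b).inv_mem hd)

theorem TD.g1_stab (h : TD Ω D) {U : Subgroup G} (hU : Odd #|U|) (hz : z ∈ D) (hza : z • a = a) (hzU : z ∈ 𝐍(U))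
    (hyU : y ∈ 𝐍(U)) (hya : y • a = a) (ho : Odd (orderOf y)) (hi : z * y * z = y⁻¹) (hco : (orderOf y).Coprime #|U|) :
    ⁅U, zpowers y⁆ ≤ U ⊓ stabilizer G a := by
  have hzy := h.mul_mem_of_inv hz ho hi
  have f : (z * y) • a = a := by rw [mul_smul, hya, hza]
  have i := h.invo z hz
  have := g1 (X := U ⊓ stabilizer G a) hU i (h.invo _ hzy) hzU (mul_mem hzU hyU) (by rwa [i.mul_mul]) inf_le_left
    (norm_inf hzU (norm_stab hza)) (norm_inf (mul_mem hzU hyU) (norm_stab f))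
    (inf_le_inf_left _ fun x hx => h.fix_of_comm hz hza (mem_centralizer_singleton_iff.1 hx))
    (inf_le_inf_left _ fun x hx => h.fix_of_comm hzy f (mem_centralizer_singleton_iff.1 hx))
  rwa [i.mul_mul] at this

variable [IsSimpleGroup G] {p : ℕ} [hp : Fact p.Prime]

theorem thmU (h : Pz Ω 𝒮 D) {L0 : Subgroup G} {a0 : Ω} (hL0 : BZ D L0 a0) : ¬ Pq p D L0 a0 := by
  intro hP0
  obtain ⟨T, -, ⟨hTp, L, a1, g, hL, hP, hg, hga, hle⟩, hmax⟩ := exists_maximal_ge (fun T : Subgroup G => IsPGroup p T ∧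
      ∃ (L : Subgroup G) (a : Ω) (g : G), BZ D L a ∧ Pq p D L a ∧ g ∈ L ∧ g • a ≠ a ∧ T ≤ L ⊓ st2 G a (g • a)) (X := ⊥) (by
    obtain ⟨g, hg, hga⟩ := hL0.mv
    exact ⟨IsPGroup.of_bot, L0, a0, g, hL0, hP0, hg, hga, bot_le⟩)
  have hp2 := hP.ne_two h hL
  obtain ⟨hW1, hB, hP4, t, htN, ht, hta⟩ := stepB h hL hP hg hga
    ⟨hle, hTp, fun Q hQ hQp hTQ => hmax Q ⟨hQp, L, a1, g, hL, hP, hg, hga, hQ⟩ hTQ⟩
  generalize g • a1 = a2 at hga hle hta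
  have hTN : 𝐍(T) ≤ 𝐍(H4.wsOf p T) := H4.normalizer_le_normalizer_wsOf T
  set N := 𝐍(H4.wsOf p T) with hNdef
  have hTD0 : T ≤ st2 G a1 a2 := hle.trans inf_le_right
  have hT4 : IsSylowIn p T (N ⊓ st2 G a1 a2) := ⟨le_inf (le_normalizer.trans hTN) hTD0, hTp, fun Q hQ hQp hTQ =>
    hmax Q ⟨hQp, N, a1, t, hB, hP4, htN, hta ▸ hga, hta ▸ hQ⟩ hTQ⟩
  have hTD : IsSylowIn p T (st2 G a1 a2) := IsSylowIn.of_normalizer hTD0
    (hT4.of_le (le_inf hTD0 le_normalizer) (le_inf (inf_le_right.trans hTN) inf_le_left))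
  have hW := hB.odd_ker h
  have hWn := hB.W_norm h
  have hWD : WW D N a1 ≤ st2 G a1 a2 := hta ▸ hB.W_st2 h htN
  have hR : IsSylowIn p (T ⊓ WW D N a1) (WW D N a1) := by
    have := hT4.inf_of_le_normalizer (N := WW D N a1) (inf_le_left.trans hWn)
    rwa [inf_eq_right.2 (le_inf (hB.W_le h) hWD)] at this
  set R := T ⊓ WW D N a1 with hRdef
  have hRo : Odd #|R| := odd_of_le hR.le hW
  obtain ⟨w, hwN, hw, hw1, w', hw', hne, hc, hwR, hwR'⟩ : ∃ w ∈ N, w ∈ D ∧ w • a1 = a2 ∧ ∃ w' ∈ D, w ≠ w' ∧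
      w * w' = w' * w ∧ w ∈ 𝐍(R) ∧ w' ∈ 𝐍(R) := by
    obtain ⟨t', ht'N, ht', hne, hc⟩ := hB.exists_comm h ht htN
    obtain ⟨R', hR', hn⟩ := (four_copAct hW (h.td.invo t ht) (h.td.invo t' ht') hc (hWn htN)
      (hWn ht'N)).exists_invariant_sylow p
    obtain ⟨k, hk, e⟩ := hR'.exists_cj_eq hR
    refine ⟨k * t * k⁻¹, mul_mem (mul_mem (hB.W_le h hk) htN) (inv_mem (hB.W_le h hk)), h.td.conj t ht k,
      by rw [mul_smul, mul_smul, inv_smul_eq_of_smul_eq (hWD hk).1, hta, (hWD hk).2], k * t' * k⁻¹, h.td.conj t' ht' k,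
      fun e => hne (by simpa using e), ?_, ?_, ?_⟩
    · calc _ = k * (t * t') * k⁻¹ := by group
        _ = _ := by rw [hc]; group
    · rw [← e, ← cj_normalizer]; exact conj_mem_cj k (hn (subset_closure (Set.mem_insert _ _)))
    · rw [← e, ← cj_normalizer]; exact conj_mem_cj k (hn (subset_closure (Set.mem_insert_of_mem _ rfl)))
  have iw := h.td.invo w hw
  obtain ⟨a, hwa, -⟩ := h.td.fix w hw
  have ha1 : a1 ≠ a := fun e => hga (by rw [← hw1, e, hwa])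
  obtain ⟨n0, hn0, hn0a⟩ := hB.pt h ⟨w, ⟨hw, hwN⟩, hwa⟩
  replace hn0 := XX_le D N hn0
  obtain ⟨y, hy, hy1, v, hv, hvy⟩ : ∃ y ∈ invSet w R, y ≠ 1 ∧ ∃ v ∈ D, v * y = y * v := by
    by_contra hno
    push Not at hno
    have aux : ∀ v ∈ D, w * v = v * w → R ⊓ 𝐂[v] ≤ 𝐂[w] := fun v hv hc =>
      le_centralizer_of_invSet iw.1 (norm_inf hwR (le_normalizer (mem_centralizer_singleton_iff.2 hc)))
        (odd_of_le inf_le_left hRo) fun k hk => by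
          by_contra h1
          exact hno k ⟨hk.1.1, hk.2⟩ h1 v hv (mem_centralizer_singleton_iff.1 hk.1.2).symm
    have h1 := le_of_four hRo iw (h.td.invo w' hw') hne hc hwR hwR' inf_le_right (aux w' hw' hc)
      (aux _ (h.td.mul w hw w' hw' hc hne) (by rw [mul_assoc, hc]))
    obtain ⟨y, hy, ho⟩ := exists_invSet_of_sylow iw (hWn hwN) hW (hP4.dvd h hB hw hwN) hR hwR
    rw [eq_one_of_inverts_of_comm iw.1 (odd_orderOf_of_mem hRo hy.1) hy.2 (mem_centralizer_singleton_iff.1 (h1 hy.1)),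
      orderOf_one] at ho
    exact hp.out.one_lt.ne ho
  have hyo := odd_orderOf_of_mem hRo hy.1
  have hya : y • a = a := hn0a ▸ hB.W_fix h hy.1.2 hn0
  have hwV := h.td.norm_st2 hw hw1
  obtain ⟨U, hUV, hUo, hUn, hUw, hUc⟩ : ∃ U ≤ st2 G a1 a2, Odd #|U| ∧ st2 G a1 a2 ≤ 𝐍(U) ∧ w ∈ 𝐍(U) ∧
      ∀ d ∈ st2 G a1 a2, ⁅w, d⁆ ∈ U :=
    ⟨Opp 2 _, SF.Opp_le _, Nat.not_even_iff_odd.1 fun e => Opp_not_dvd _ e.two_dvd, self_norm_Opp _,
      SF.norm_Opp (zpowers_le.2 hwV) (mem_zpowers w), fun d hd => h.td.comm_opp hga.symm hw hw1 hd⟩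
  have hU : Opp p U ≤ stabilizer G a := by
    have hyU : y ∈ 𝐍(Opp p U) := SF.norm_Opp (q := p) hUn (hTD0 hy.1.1)
    have hco := coprime_of_mem_pgroup hTp (Opp_not_dvd U) hy.1.1
    have hUo := odd_of_le (SF.Opp_le (q := p) _) hUo
    have hA : CopAct (zpowers y) (Opp p U) := ⟨zpowers_le.2 hyU, by rwa [Nat.card_zpowers], Or.inr (solv_odd hUo)⟩
    rw [← hA.commutator_sup_centralizer, H8.centralizer_zpowers]
    exact sup_le ((h.td.g1_stab hUo hw hwa (SF.norm_Opp (zpowers_le.2 hUw) (mem_zpowers w)) hyU hya hyo hy.2 hco).trans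
      inf_le_right) (inf_le_right.trans (h.td.l1 hw hwa hyo hy1 hy.2 hv hvy).2)
  have hU' : Opp p (U ⊔ T) ≤ Opp p U := by
    have h1 : Opp p (U ⊔ T) ≤ U := fun x hx => mem_of_mem_sup_pgroup (hTD0.trans hUn) hTp (SF.Opp_le _ hx)
      ((hp.out.coprime_iff_not_dvd.2 fun hd => Opp_not_dvd _ (hd.trans (orderOf_dvd_natCard _ hx))).symm)
    exact SF.le_Opp h1 (le_sup_left.trans (self_norm_Opp _)) (Opp_not_dvd _)
  have hUT : U ⊔ T ≤ st2 G a1 a2 := sup_le hUV hTD0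
  have hpr : IsProd (st2 G a a1) (st2 G a a1 ⊓ N) (st2 G a1 a2 ⊓ stabilizer G a) := by
    have h1 : IsProd (st2 G a1 a2) (st2 G a1 a2 ⊓ N) (st2 G a1 a2 ⊓ stabilizer G a) := fun d hd => by
      obtain ⟨k, hk, e⟩ := h.td.sw_conj hga.symm hw (h.td.conj w hw d) hw1
        (by rw [mul_smul, mul_smul, inv_smul_eq_of_smul_eq hd.1, hw1, hd.2])
      have hkU : k ∈ U := zpowers_le.2 (by
        have := inv_mem (hUc d hd)
        rwa [commutatorElement_inv, commutatorElement_def, iw.inv_eq] at this) hk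
      obtain ⟨n, hn, o, ho, e1⟩ := zj_odd' hp2 (odd_sup (hTD0.trans hUn) hUo (odd_card_of_no_invo fun s hs i =>
        (odd_orderOf_of_pgroup hp2 hTp hs).not_two_dvd_nat i.orderOf_eq.symm.dvd))
        (hTD.of_le le_sup_right hUT) (mem_sup_left hkU)
      have hc : (k⁻¹ * d) • a = a := h.td.fix_of_comm hw hwa (by
        calc k⁻¹ * d * w = k⁻¹ * (d * w * d⁻¹) * d := by group
          _ = _ := by rw [← e]; group)
      exact ⟨n, ⟨hUT hn.1, hn.2⟩, o * (k⁻¹ * d), ⟨(st2 G a1 a2).mul_mem (hUT (SF.Opp_le _ ho))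
        ((st2 G a1 a2).mul_mem ((st2 G a1 a2).inv_mem (hUV hkU)) hd),
        mul_mem (hU (hU' ho)) hc⟩, by rw [← mul_assoc, e1, mul_inv_cancel_left]⟩
    have h2 := h1.card_eq inf_le_left inf_le_left
    have h3 : #|st2 G a a1| = #|st2 G a1 a2| := hw1 ▸ h.td.card_st2_smul h.cov ha1.symm hw hwa
    have h4 : #|(st2 G a a1 ⊓ N : Subgroup G)| = #|(st2 G a1 a2 ⊓ N : Subgroup G)| := by
      obtain ⟨x, hx, e1, e2⟩ := hB.trans2 h hn0 hwN (hn0a ▸ ha1.symm) (hw1 ▸ hga)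
      rw [← card_cj x, cj_inf, cj_st2, cj_eq_self (le_normalizer hx), e1, ← hn0a, e2, hw1, st2_comm]
    have h5 : (st2 G a a1 ⊓ N) ⊓ (st2 G a1 a2 ⊓ stabilizer G a) = (st2 G a1 a2 ⊓ N) ⊓ (st2 G a1 a2 ⊓ stabilizer G a) :=
      le_antisymm (fun x hx => ⟨⟨hx.2.1, hx.1.2⟩, hx.2⟩) fun x hx => ⟨⟨⟨hx.2.2, hx.2.1.1⟩, hx.1.2⟩, hx.2⟩
    refine isProd_of_card_le inf_le_left (fun x hx => ⟨hx.2, hx.1.1⟩) ?_
    rw [h3, h4, h5, h2]
  have c1 : ∀ z ∈ D, z • a = a → ∃ n ∈ N, z • a1 = n • a := fun z hz hza => by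
    obtain ⟨d, hd, rfl⟩ := h.td.exists_st2_conj ha1.symm (h.cov a1) hw hz hwa hza
    obtain ⟨n, hn, e, he, rfl⟩ := hpr d hd
    refine ⟨n * w * n0⁻¹, mul_mem (mul_mem hn.2 hwN) (inv_mem hn0), ?_⟩
    rw [mul_smul, mul_smul, inv_smul_eq_of_smul_eq hd.2, mul_smul, mul_smul, mul_smul, inv_smul_eq_of_smul_eq hn0a, hw1,
      he.1.2]
  have hBa : BZ D N a := hn0a ▸ hB.smul h hn0
  have c2 : ∀ z ∈ D, z • a = a → ∀ x, (∃ n ∈ N, n • a = x) → ∃ n ∈ N, n • a = z • x := by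
    rintro z hz hza _ ⟨n, hn, rfl⟩
    by_cases e : n • a = a
    · exact ⟨1, one_mem _, by rw [e, hza, one_smul]⟩
    obtain ⟨x, hx, e1, e2⟩ := hBa.trans2 h (inv_mem hn0) hn (by rwa [inv_smul_eq_of_smul_eq hn0a]) e
    rw [inv_smul_eq_of_smul_eq hn0a] at e2
    obtain ⟨n', hn', e3⟩ := c1 _ (h.td.conj z hz x⁻¹)
      (by rw [mul_smul, mul_smul, inv_inv, e1, hza, inv_smul_eq_of_smul_eq e1])
    exact ⟨x * n', mul_mem hx hn', by rw [mul_smul, ← e3, ← e2, inv_inv, mul_smul, mul_smul, smul_inv_smul]⟩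
  let H : Subgroup G :=
    { carrier := {g | ∀ x, (∃ n ∈ N, n • a = x) ↔ ∃ n ∈ N, n • a = g • x}
      one_mem' := fun x => by rw [one_smul]
      mul_mem' := fun {g g'} hg hg' x => by rw [mul_smul, ← hg, ← hg']
      inv_mem' := fun {g} hg x => by rw [hg (g⁻¹ • x), smul_inv_smul] }
  have hNH : N ≤ H := fun g hg x => ⟨fun ⟨n, hn, e⟩ => ⟨g * n, mul_mem hg hn, by rw [mul_smul, e]⟩,
    fun ⟨n, hn, e⟩ => ⟨g⁻¹ * n, mul_mem (inv_mem hg) hn, by rw [mul_smul, e, inv_smul_smul]⟩⟩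
  have hH : H ≠ ⊤ := fun e => hW1 (eq_bot_iff.2 fun x hx => h.faith fun b => by
    obtain ⟨g, rfl⟩ := h.trans a b
    obtain ⟨n, hn, e'⟩ := ((e ▸ mem_top g : g ∈ H) a).1 ⟨1, one_mem _, one_smul _ _⟩
    rw [← e', ← hn0a, ← mul_smul n]
    exact smul_mem_Fx (mul_mem hn hn0) (Fx_anti (H4.wsOf_le T) (mem_Fx_left hTD0)) x hx)
  have hBH := hBa.mono hNH hH
  have hI : ∀ z ∈ D, z • a = a → z ∈ H := fun z hz hza x =>
    ⟨c2 z hz hza x, fun h1 => by simpa [(h.td.invo z hz).smul_smul] using c2 z hz hza _ h1⟩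
  obtain ⟨d, hd, e, he, hda, hea, hne, n, hn⟩ := h.nc_at a
  have := eq_one_of_odd_two (odd_orderOf_of_mem (hBH.odd_ker h) (hBH.comm_mem h hd (hI d hd hda) hda he (hI e he hea) hea))
    ⟨n, by rw [← sq, ← pow_mul, mul_comm, pow_mul, hn, one_pow]⟩
  exact hne (by rw [eq_inv_of_mul_eq_one_left this, mul_inv_rev, (h.td.invo d hd).inv_eq, (h.td.invo e he).inv_eq])

omit hp

theorem Pz.comm (h : Pz Ω 𝒮 D) (hL : L ≠ ⊤) (ha : a ∈ Cov Ω (D ∩ L)) (hb : b ∈ Cov Ω (D ∩ L)) (hab : a ≠ b)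
    (hr : ∃ d ∈ D ∩ L, ∃ e ∈ D ∩ L, d ≠ e ∧ d * e = e * d) (hd : d ∈ D) (hdL : d ∈ L) (he : e ∈ D) (heL : e ∈ L)
    (hdc : d • c = c) (hec : e • c = c) : d * e = e * d := by
  have hc : c ∈ Cov Ω (D ∩ L) := ⟨d, ⟨hd, hdL⟩, hdc⟩
  have hB : BZ D L c := ⟨hL, hr, hc, by
    by_cases h1 : c = a
    · obtain ⟨w, -, hw, e, -⟩ := h.td.exists_swap_in hc hb (h1 ▸ hab)
      exact ⟨w, hw, by rw [e, h1]; exact hab.symm⟩
    · obtain ⟨w, -, hw, e, -⟩ := h.td.exists_swap_in hc ha h1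
      exact ⟨w, hw, by rw [e]; exact Ne.symm h1⟩⟩
  have id := h.td.invo d hd
  have ie := h.td.invo e he
  have m := hB.comm_mem h hd hdL hdc he heL hec
  by_contra hne
  obtain ⟨p, hp, h1⟩ := Nat.exists_prime_and_dvd (n := orderOf (d * e * (d * e))) fun e1 =>
    hne (by rw [eq_inv_of_mul_eq_one_left (orderOf_eq_one_iff.1 e1), mul_inv_rev, id.inv_eq, ie.inv_eq])
  have := Fact.mk hp
  exact thmU h hB ⟨d, hdL, hd, _, pow_mem_invSet id.1 ⟨m, by rw [← sq]; exact inv_de id.1 ie.1 2⟩ _,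
    orderOf_pow_orderOf_div (orderOf_pos _).ne' h1⟩

end Cfsg.Agent.WA.Zd
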